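import Cfsg.Statements.S0633
import Cfsg.Agent.H20.TheoremB.Group

set_option autoImplicit false
open Cfsg
open scoped TensorProduct

namespace Cfsg.Agent.S0633

/-- Theorem B of Hall and Higman on the minimal polynomial of a p-element of order p^n in a p-solvable linear group on a nonzero vector space in characteristic p with no nontrivial normal p-subgroup: its degree is p^n, except when some p^n₀ - 1 (n₀ ≤ n) is a power of a prime q for which the Sylow q-subgroups are non-abelian, in which case the degree is at least p^(n-n₀)(p^n₀ - 1). -/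
theorem result {F : Type*} [Field F] {p : ℕ} [Fact p.Prime] [CharP F p] {V : Type*} [AddCommGroup V] [Module F V] [FiniteDimensional F V] [Nontrivial V] (H : Subgroup (V ≃ₗ[F] V)) [Finite H] (hsol : Cfsg.IsPSolvable p H) (hOp : Cfsg.pCore p H = ⊥) (x : V ≃ₗ[F] V) (hx : x ∈ H) (n : ℕ) (hn : orderOf x = p ^ n) (r : ℕ) (hr : minpoly F (x : Module.End F V) = (Polynomial.X - 1) ^ r) : r = p ^ n ∨ ∃ n₀ q m : ℕ, 1 ≤ n₀ ∧ n₀ ≤ n ∧ q.Prime ∧ 1 ≤ m ∧ p ^ n₀ - 1 = q ^ m ∧ (∀ Q : Sylow q H, ¬ IsMulCommutative Q) ∧ p ^ (n - n₀) * (p ^ n₀ - 1) ≤ r := by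
  classical
  rcases Nat.eq_zero_or_pos n with rfl | hn'
  · left
    rw [pow_zero, orderOf_eq_one_iff] at hn
    subst hn
    have h1 : minpoly F ((1 : V ≃ₗ[F] V) : Module.End F V) = Polynomial.X - Polynomial.C 1 := by
      rw [show ((1 : V ≃ₗ[F] V) : Module.End F V) = algebraMap F (Module.End F V) 1 by
        rw [map_one]; rfl]
      exact minpoly.eq_X_sub_C (Module.End F V) 1
    rw [h1] at hr
    have := congrArg Polynomial.natDegree hr
    rw [Polynomial.natDegree_X_sub_C, Polynomial.natDegree_pow, ← Polynomial.C_1,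
      Polynomial.natDegree_X_sub_C, mul_one] at this
    rw [pow_zero]
    exact this.symm
  set xe : Module.End F V := (x : Module.End F V) with hxe
  have hpow : ∀ (k : ℕ), ((x ^ k : V ≃ₗ[F] V) : Module.End F V) = xe ^ k := by
    intro k
    induction k with
    | zero => rfl
    | succ k ih => rw [pow_succ, pow_succ, ← ih]; rfl
  have hxr : (xe - 1) ^ r = 0 := by
    have h := minpoly.aeval F xe
    rw [hr] at h
    simpa using h
  have hle : r ≤ p ^ n := by
    haveI : CharP (Module.End F V) p :=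
      charP_of_injective_algebraMap (algebraMap F (Module.End F V)).injective p
    have h0 : (xe - 1) ^ p ^ n = 0 := by
      rw [sub_pow_char_pow_of_commute (p := p) (n := n) (h := Commute.one_right xe), one_pow,
        ← hpow, ← hn, pow_orderOf_eq_one, sub_eq_zero]
      rfl
    have hd : (Polynomial.X - 1 : Polynomial F) ^ r ∣ (Polynomial.X - 1) ^ p ^ n := by
      rw [← hr]
      refine minpoly.dvd F xe ?_
      simpa using h0
    rw [← Polynomial.C_1] at hd
    exact (pow_dvd_pow_iff (Polynomial.X_sub_C_ne_zero 1)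
      (Polynomial.not_isUnit_X_sub_C 1)).mp hd
  -- extend the scalars
  let K := AlgebraicClosure F
  haveI : CharP K p := charP_of_injective_algebraMap (algebraMap F K).injective p
  let toEnd : H →* Module.End F V :=
    { toFun := fun h => ((h : V ≃ₗ[F] V) : Module.End F V)
      map_one' := rfl
      map_mul' := fun a b => rfl }
  let ρ : H →* (Module.End K (K ⊗[F] V))ˣ := MonoidHom.toHomUnits
    ((Module.End.baseChangeHom F K V).toRingHom.toMonoidHom.comp toEnd)
  have hinj : Function.Injective ρ := by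
    intro a b hab
    apply Subtype.ext
    apply LinearEquiv.ext
    intro v
    let bV := Module.Free.chooseBasis F V
    have h1 := congrArg (fun f : (Module.End K (K ⊗[F] V))ˣ =>
      (f : Module.End K (K ⊗[F] V)) ((1 : K) ⊗ₜ v)) hab
    change (1 : K) ⊗ₜ[F] ((a : V ≃ₗ[F] V) v) = 1 ⊗ₜ ((b : V ≃ₗ[F] V) v) at h1
    apply bV.repr.injective
    refine Finsupp.ext fun i => (algebraMap F K).injective ?_
    have h3 := congrArg (fun w => (bV.baseChange K).repr w i) h1
    simp only [Module.Basis.baseChange_repr_tmul] at h3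
    simpa [Algebra.smul_def] using h3
  have hs : ((ρ ⟨x, hx⟩ : Module.End K (K ⊗[F] V)) - 1) ^ r = 0 := by
    have h := congrArg (Module.End.baseChangeHom F K V) hxr
    simp only [map_pow, map_sub, map_one, map_zero] at h
    exact h
  rcases Cfsg.Agent.H20.TB.theoremB hsol hOp ρ hinj ⟨x, hx⟩ hn'
      (by rw [← Subgroup.orderOf_coe]; exact hn) hs with h | h
  · exact Or.inl (le_antisymm hle h)
  obtain ⟨n₀, q, m, Q, h1, h2, hq, -, h3, h4, hQ, ⟨a, ha, b, hb, hab⟩, h5⟩ := h
  refine Or.inr ⟨n₀, q, m, h1, h2, hq, h3, h4, fun S hS => hab ?_, h5⟩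
  haveI := Fact.mk hq
  obtain ⟨P, hP⟩ := hQ.exists_le_sylow
  obtain ⟨g, rfl⟩ := MulAction.exists_smul_eq H P S
  have hS' := hS.is_comm
  have ha' : MulAut.conj g a ∈ (↑(g • P) : Subgroup H) := by
    rw [Sylow.coe_subgroup_smul]; exact ⟨a, hP ha, rfl⟩
  have hb' : MulAut.conj g b ∈ (↑(g • P) : Subgroup H) := by
    rw [Sylow.coe_subgroup_smul]; exact ⟨b, hP hb, rfl⟩
  have h := congrArg Subtype.val (hS'.comm ⟨_, ha'⟩ ⟨_, hb'⟩)
  apply (MulAut.conj g).injective
  rw [map_mul, map_mul]
  exact h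

end Cfsg.Agent.S0633
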