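import Cfsg.Statements.S0079
import Cfsg.Agent.H33.FocalSeries

set_option autoImplicit false
open Cfsg

namespace Cfsg.Agent.S0079

/-- A nilpotent Hall subgroup has a normal complement exactly when elements of it that are conjugate in the whole group are already conjugate inside it. -/
theorem result {G : Type*} [Group G] [Finite G] (H : Subgroup G) (hH : Group.IsNilpotent H) (hHall : Nat.Coprime (Nat.card H) H.index) : (∃ N : Subgroup G, N.Normal ∧ N.IsComplement' H) ↔ ∀ x ∈ H, ∀ y ∈ H, (∃ g : G, g * x * g⁻¹ = y) → ∃ h ∈ H, h * x * h⁻¹ = y := by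
  constructor
  · rintro ⟨N, hN, hc⟩ x hx y hy ⟨g, rfl⟩
    obtain ⟨⟨⟨n, hn⟩, ⟨h, hh⟩⟩, rfl⟩ := (hc.existsUnique g).exists
    refine ⟨h, hh, ?_⟩
    have h1 : h * x * h⁻¹ ∈ H := H.mul_mem (H.mul_mem hh hx) (H.inv_mem hh)
    have h2 : n * (h * x * h⁻¹) * n⁻¹ = n * h * x * (n * h)⁻¹ := by group
    have h3 : (n * h * x * (n * h)⁻¹) * (h * x * h⁻¹)⁻¹ ∈ N ⊓ H := by
      refine ⟨?_, H.mul_mem hy (H.inv_mem h1)⟩
      have h4 := N.mul_mem hn (hN.conj_mem _ (N.inv_mem hn) (h * x * h⁻¹))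
      simpa [mul_assoc] using h4
    rw [hc.disjoint.eq_bot, Subgroup.mem_bot, mul_inv_eq_one] at h3
    exact h3.symm
  · intro h
    exact Cfsg.Agent.H33.exists_normal_complement_of_parts H hHall
      fun x hx _ _ _ _ g hg => h x hx _ hg ⟨g, rfl⟩

end Cfsg.Agent.S0079
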