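import Cfsg.Agent.H22.PairNilpotentDict
import Cfsg.Statements.S4687

set_option autoImplicit false
open Cfsg

namespace Cfsg.Agent.S4687

/-- Fix a prime p and a maximal ideal M of the algebraic integers containing p, and a p-block B of the finite group G with maximal Brauer pair (P, e), P abelian. Then B is nilpotent if and only if its inertial quotient is trivial: every element of N_G(P) stabilizing e centralizes P. -/
theorem result {G : Type*} [Group G] [Fintype G] (p : ℕ) [Fact p.Prime] (M : Ideal Cfsg.AlgInt) (hM : Cfsg.IsPModular p M) (B : Set (Cfsg.IrrCharacter G)) (P : Subgroup G) (e : Set (Cfsg.IrrCharacter (Subgroup.centralizer (P : Set G)))) (hmax : Cfsg.IsMaximalBrauerPair p M B P e) (hab : ∀ x ∈ P, ∀ y ∈ P, x * y = y * x) : Cfsg.IsNilpotentBlock p M B ↔ ∀ x : G, x ∈ Subgroup.normalizer (P : Set G) → Cfsg.StabilizesBlock (Subgroup.centralizer (P : Set G)) e x → x ∈ Subgroup.centralizer (P : Set G) := by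
  have := hM.2.1
  have := Cfsg.Agent.H41.IsPModular.charP hM
  have hS := H22.split M G
  obtain ⟨h, hm⟩ := H22.isMaximal_iff.1 hmax
  have hb := H22.isBlockEl_elTop (M := M) h.2.1
  have hst : ∀ x : G, x ∈ Subgroup.normalizer (P : Set G) →
      (Cfsg.StabilizesBlock (Subgroup.centralizer (P : Set G)) e x ↔
        H22.cj x (H22.el M (Subgroup.centralizer (P : Set G)) e) =
          H22.el M (Subgroup.centralizer (P : Set G)) e) := fun x hx =>
    H22.stabilizesBlock_iff h.1.2 (H22.normalizer_le_normalizer_centralizer P hx)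
  rw [H22.isNilpotentBlock_top_iff h.2.1]
  constructor
  · intro hnil x hxN hxs
    let F := H22.pairFS hS hm.pair
    have hFS : H22.IsPairFS p (H22.el M (Subgroup.centralizer (P : Set G)) e) F :=
      fun Q φ => Iff.rfl
    have hmem : Cfsg.conjHom P x ∈ F.Hom P := (hFS P _).2 ⟨x, fun u => rfl,
      H22.carry_of_mem_pairStab Relation.ReflTransGen.refl ⟨hxN, (hst x hxN).1 hxs⟩⟩
    obtain ⟨-, s, hs, hsx⟩ := H22.mem_inner_of_isNilEl hS hb hm hFS hnil hmem
    refine Subgroup.mem_centralizer_iff.2 fun u hu => ?_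
    have h1 : x * u * x⁻¹ = s * u * s⁻¹ := hsx ⟨u, hu⟩
    rw [hab s hs u hu, mul_inv_cancel_right] at h1
    calc u * x = (x * u * x⁻¹) * x := by rw [h1]
      _ = x * u := by group
  · intro htriv Q f hQ hbel x _ hxN hxf _
    obtain ⟨g, -, hg⟩ := H22.exists_conj_ple hS hb hQ hbel hm
    have hy : g * x * g⁻¹ ∈ H22.pairStab (H22.cS g Q) (H22.cj g f) := by
      rw [← H22.cS_pairStab]; exact H22.conj_mem_cS ⟨hxN, hxf⟩
    obtain ⟨y, hy', c, hc, hyc⟩ := H22.exists_factor_abelian hS hb hm hab hg hy
    have hyC : y ∈ Subgroup.centralizer (P : Set G) := htriv y hy'.1 ((hst y hy'.1).2 hy'.2)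
    have hgx : g * x * g⁻¹ ∈ Subgroup.centralizer ((H22.cS g Q : Subgroup G) : Set G) := by
      rw [hyc]
      exact mul_mem (Subgroup.centralizer_le (SetLike.coe_subset_coe.2 hg.le) hyC) hc
    rw [← H22.cS_centralizer] at hgx
    have := H22.mem_cS.1 hgx
    simpa [mul_assoc] using this

end Cfsg.Agent.S4687
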