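import Cfsg.Statements.S3734
import Cfsg.Agent.H20.Hyperplane

set_option autoImplicit false
open Cfsg

open scoped Pointwise commutatorElement

namespace Cfsg.Agent.S3734

/-- Let A and G be subgroups of a finite group with A abelian, A normalizing G and the orders of A and G coprime. Then G is generated by the fixed-point subgroups C_G(B) of those subgroups B of A for which A/B is cyclic (that is, A = ⟨B, a⟩ for some a), and [G, A] is generated by the commutator subgroups [C_G(B), A] over the same subgroups B. -/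
theorem result {X : Type*} [Group X] [Finite X] (A G : Subgroup X) (hAab : IsMulCommutative A) (hAG : A ≤ Subgroup.normalizer (G : Set X)) (hcop : (Nat.card A).Coprime (Nat.card G)) : (⨆ B ∈ {B : Subgroup X | B ≤ A ∧ ∃ a ∈ A, B ⊔ Subgroup.zpowers a = A}, G ⊓ Subgroup.centralizer (B : Set X)) = G ∧ (⨆ B ∈ {B : Subgroup X | B ≤ A ∧ ∃ a ∈ A, B ⊔ Subgroup.zpowers a = A}, ⁅G ⊓ Subgroup.centralizer (B : Set X), A⁆) = ⁅G, A⁆ := by
  haveI := hAab
  set S := {B : Subgroup X | B ≤ A ∧ ∃ a ∈ A, B ⊔ Subgroup.zpowers a = A} with hS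
  set C : Subgroup X → Subgroup X := fun B => G ⊓ Subgroup.centralizer (B : Set X) with hC
  have hgen : G ≤ ⨆ B ∈ S, C B :=
    Cfsg.Agent.H20.le_of_cocyclic_centralizers_le hAG hcop fun B h1 h2 =>
      le_iSup₂ (f := fun B (_ : B ∈ S) => C B) B ⟨h1, h2⟩
  refine ⟨le_antisymm (iSup₂_le fun B _ => inf_le_left) hgen,
    le_antisymm (iSup₂_le fun B _ => Subgroup.commutator_mono inf_le_left le_rfl) ?_⟩
  set H := ⨆ B ∈ S, ⁅C B, A⁆ with hH
  have hCA : ∀ B : Subgroup X, B ≤ A → A ≤ Subgroup.normalizer (C B : Set X) := fun B hB =>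
    Cfsg.Agent.H20.le_normalizer_inf hAG (Cfsg.Agent.H20.le_normalizer_centralizer
      (by
        rw [Subgroup.le_normalizer_iff]
        intro a ha b hb
        have e : a * b = b * a := congrArg Subtype.val (mul_comm' (⟨a, ha⟩ : A) ⟨b, hB hb⟩)
        rwa [e, mul_inv_cancel_right]))
  have hfixH : G ⊓ Subgroup.centralizer (A : Set X) ≤ Subgroup.normalizer (H : Set X) := by
    intro c hc
    have hle : ∀ d ∈ G ⊓ Subgroup.centralizer (A : Set X), MulAut.conj d • H ≤ H := by
      intro d hd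
      rw [Subgroup.pointwise_smul_subset_iff]
      refine iSup₂_le fun B hB => ?_
      rw [← Subgroup.pointwise_smul_subset_iff]
      refine le_trans ?_ (le_iSup₂ (f := fun B (_ : B ∈ S) => ⁅C B, A⁆) B hB)
      have hdC : d ∈ C B := Subgroup.mem_inf.mpr
        ⟨hd.1, Subgroup.centralizer_le (SetLike.coe_subset_coe.mpr hB.1) hd.2⟩
      exact (Cfsg.Agent.H20.conj_smul_eq_of_mem_normalizer
        (Subgroup.normalizer_commutator_ge_left (C B) A hdC)).le
    refine Cfsg.Agent.H20.mem_normalizer_of_conj_smul_eq (le_antisymm (hle c hc) ?_)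
    have h := hle c⁻¹ (inv_mem hc)
    rw [map_inv, ← Subgroup.pointwise_smul_le_pointwise_smul_iff (a := MulAut.conj c),
      smul_inv_smul] at h
    exact h
  have hnorm : G ≤ Subgroup.normalizer (H : Set X) := by
    refine hgen.trans (iSup₂_le fun B hB => ?_)
    rw [← Cfsg.Agent.H20.commutator_sup_centralizer (hCA B hB.1)
      (Cfsg.Agent.H20.coprime_card_mono_right hcop inf_le_left)
      (Or.inl (Cfsg.Agent.H20.isSolvable_of_isMulCommutative A))]
    exact sup_le ((le_iSup₂ (f := fun B (_ : B ∈ S) => ⁅C B, A⁆) B hB).trans Subgroup.le_normalizer)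
      ((inf_le_inf_right _ inf_le_left).trans hfixH)
  -- the elements of `G` fixed modulo `H` form a subgroup
  rw [Subgroup.commutator_le]
  intro g hg a ha
  have hgE : ∀ x ∈ ⨆ B ∈ S, C B, x ∈ G ∧ ⁅x, a⁆ ∈ H := by
    intro x hx
    rw [iSup_subtype'] at hx
    induction hx using Subgroup.iSup_induction' with
    | hp B x hx =>
      exact ⟨hx.1, le_iSup₂ (f := fun B (_ : B ∈ S) => ⁅C B, A⁆) B.1 B.2
        (Subgroup.commutator_mem_commutator hx ha)⟩
    | h1 => exact ⟨one_mem G, by rw [commutatorElement_one_left]; exact one_mem H⟩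
    | hmul x y _ _ hx hy =>
      refine ⟨mul_mem hx.1 hy.1, ?_⟩
      rw [commutatorElement_mul_left_eq_conj_mul]
      exact mul_mem (Cfsg.Agent.H20.conj_mem_of_le_normalizer hnorm hx.1 hy.2) hx.2
  exact (hgE g (hgen hg)).2

end Cfsg.Agent.S3734
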