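import Cfsg.Statements.S2508
import Cfsg.Agent.H69.PSL2Elements

set_option autoImplicit false
open Cfsg

namespace Cfsg.Agent.S2508

open Cfsg.Agent.H69

/-- Let F be a finite field with q elements, q odd and q ≥ 7. If q ≡ 1 (mod 4) the conjugacy class sizes of PSL(2,F) are exactly 1, (q² − 1)/2, q(q + 1)/2, q(q − 1) and q(q + 1); if q ≡ 3 (mod 4) they are exactly 1, (q² − 1)/2, q(q − 1)/2, q(q + 1) and q(q − 1). -/
theorem result {F : Type*} [Field F] [Fintype F]
    (hodd : ¬ 2 ∣ Fintype.card F) (h7 : 7 ≤ Fintype.card F) :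
    (Fintype.card F % 4 = 1 →
      Set.range (fun g : (Matrix.ProjectiveSpecialLinearGroup (Fin 2) F) => (Subgroup.centralizer ({g} : Set (Matrix.ProjectiveSpecialLinearGroup (Fin 2) F))).index) =
        {1, (Fintype.card F ^ 2 - 1) / 2, Fintype.card F * (Fintype.card F + 1) / 2,
          Fintype.card F * (Fintype.card F - 1), Fintype.card F * (Fintype.card F + 1)}) ∧
    (Fintype.card F % 4 = 3 →
      Set.range (fun g : (Matrix.ProjectiveSpecialLinearGroup (Fin 2) F) => (Subgroup.centralizer ({g} : Set (Matrix.ProjectiveSpecialLinearGroup (Fin 2) F))).index) =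
        {1, (Fintype.card F ^ 2 - 1) / 2, Fintype.card F * (Fintype.card F - 1) / 2,
          Fintype.card F * (Fintype.card F + 1), Fintype.card F * (Fintype.card F - 1)}) := by
  classical
  set q := Fintype.card F with hq
  have two : (2 : F) ≠ 0 := fun h => by
    have := field_two_eq_zero_iff.1 h
    omega
  have hchar : ringChar F ≠ 2 := fun h => two (by
    have hc := ringChar.Nat.cast_ringChar (R := F)
    rw [h] at hc
    exact_mod_cast hc)
  have hsl := card_sl2' (F := F)
  let idx : Matrix.SpecialLinearGroup (Fin 2) F → ℕ := fun G =>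
    (Subgroup.centralizer {(Cfsg.Agent.H6.π G : Matrix.ProjectiveSpecialLinearGroup (Fin 2) F)}).index
  have hgen : ∀ G : Matrix.SpecialLinearGroup (Fin 2) F, ∀ n : ℕ,
      (G : Matrix (Fin 2) (Fin 2) F).trace ≠ 0 →
      Nat.card (Subgroup.centralizer ({G} : Set (Matrix.SpecialLinearGroup (Fin 2) F))) = n →
      idx G * n = q * (q - 1) * (q + 1) := by
    intro G n h0 hn
    simp only [idx]
    rw [psl2_index_centralizer_eq, psl2_comap_centralizer_eq (Or.inr h0), ← hn, mul_comm,
      Subgroup.card_mul_index, hsl]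
  have hzero : ∀ G : Matrix.SpecialLinearGroup (Fin 2) F, ∀ n : ℕ,
      (G : Matrix (Fin 2) (Fin 2) F).trace = 0 →
      Nat.card (Subgroup.centralizer ({G} : Set (Matrix.SpecialLinearGroup (Fin 2) F))) = n →
      idx G * (2 * n) = q * (q - 1) * (q + 1) := by
    intro G n h0 hn
    simp only [idx]
    rw [psl2_index_centralizer_eq, ← hn, ← psl2_comap_centralizer_card_of_trace_zero two h0,
      mul_comm, Subgroup.card_mul_index, hsl]
  have four : (4 : F) ≠ 0 := by
    rw [show (4 : F) = 2 * 2 by norm_num]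
    exact mul_ne_zero two two
  -- the centraliser of a trace zero element
  have hroot : ∀ G : Matrix.SpecialLinearGroup (Fin 2) F,
      (G : Matrix (Fin 2) (Fin 2) F).trace = 0 →
      (q % 4 = 1 →
        Nat.card (Subgroup.centralizer ({G} : Set (Matrix.SpecialLinearGroup (Fin 2) F))) = q - 1) ∧
      (q % 4 = 3 →
        Nat.card (Subgroup.centralizer ({G} : Set (Matrix.SpecialLinearGroup (Fin 2) F))) = q + 1) := by
    intro G h0
    have ht : (G : Matrix (Fin 2) (Fin 2) F).trace ^ 2 ≠ 4 := by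
      rw [h0]; simpa using four.symm
    constructor
    · intro h4
      obtain ⟨r, hr⟩ : IsSquare (-1 : F) := FiniteField.isSquare_neg_one_iff.2 (by omega)
      have := card_centralizer_split (not_isScalar2_of_trace ht) ht (x := r)
        (by rw [h0]; linear_combination -hr)
      rwa [Nat.card_eq_fintype_card (α := F)] at this
    · intro h4
      have := card_centralizer_elliptic (not_isScalar2_of_trace ht) (rootCount_eq_zero_iff.2 (by
        intro x hx
        rw [h0] at hx
        exact absurd (FiniteField.isSquare_neg_one_iff.1 ⟨x, by linear_combination -hx⟩)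
          (by omega)))
      rwa [Nat.card_eq_fintype_card (α := F)] at this
  have hsq : (q ^ 2 - 1) * q = q * (q - 1) * (q + 1) := by
    rw [show q ^ 2 - 1 = (q + 1) * (q - 1) by simpa using Nat.sq_sub_sq q 1]; ring
  -- existence of torus generators of non-zero trace
  have hex : ∀ G : Matrix.SpecialLinearGroup (Fin 2) F,
      (G : Matrix (Fin 2) (Fin 2) F).trace ^ 2 ≠ 4 →
      4 < Nat.card (Subgroup.centralizer ({G} : Set (Matrix.SpecialLinearGroup (Fin 2) F))) →
      ∃ X : Matrix.SpecialLinearGroup (Fin 2) F, (X : Matrix (Fin 2) (Fin 2) F).trace ≠ 0 ∧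
        Nat.card (Subgroup.centralizer ({X} : Set (Matrix.SpecialLinearGroup (Fin 2) F))) =
          Nat.card (Subgroup.centralizer ({G} : Set (Matrix.SpecialLinearGroup (Fin 2) F))) := by
    intro G ht hc
    obtain ⟨X, hX, hX'⟩ := exists_torus_generator ht
    refine ⟨X, fun h0 => ?_, by rw [(hX' (by omega)).2]⟩
    have hX2 : X * X = -1 := by
      apply Subtype.ext
      rw [Matrix.SpecialLinearGroup.coe_mul, mul_self_fin_two, h0, X.2]
      simp
    have hX4 : X ^ 4 = 1 := by
      rw [show 4 = 2 * 2 from rfl, pow_mul, sq X, hX2]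
      simp
    have := Nat.le_of_dvd (by norm_num) (orderOf_dvd_of_pow_eq_one hX4)
    omega
  obtain ⟨Gs, hGs, hGsc⟩ := exists_split_element (F := F) (by omega)
  obtain ⟨Ge, hGe, hGec⟩ := exists_elliptic_element (F := F)
  obtain ⟨Xs, hXs0, hXsc⟩ := hex Gs hGs (by omega)
  obtain ⟨Xe, hXe0, hXec⟩ := hex Ge hGe (by omega)
  rw [hGsc] at hXsc
  rw [hGec] at hXec
  have hUc := card_centralizer_unipotent_odd (not_isScalar2_slComp (F := F) 2)
    (by rw [trace_slComp]; norm_num) hchar
  rw [Nat.card_eq_fintype_card (α := F)] at hUc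
  have hUt : ((slComp (2 : F) : Matrix.SpecialLinearGroup (Fin 2) F) :
      Matrix (Fin 2) (Fin 2) F).trace ≠ 0 := by rw [trace_slComp]; exact two
  have hZ : ((slComp (0 : F) : Matrix.SpecialLinearGroup (Fin 2) F) :
      Matrix (Fin 2) (Fin 2) F).trace = 0 := trace_slComp 0
  have halfA : q ^ 2 - 1 = 2 * ((q ^ 2 - 1) / 2) := by
    have : q ^ 2 % 2 = 1 := by rw [Nat.pow_mod]; simp [show q % 2 = 1 by omega]
    omega
  have halfP : q * (q + 1) = 2 * (q * (q + 1) / 2) :=
    (Nat.mul_div_cancel' (Nat.even_mul_succ_self q).two_dvd).symm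
  have halfM : q * (q - 1) = 2 * (q * (q - 1) / 2) :=
    (Nat.mul_div_cancel' (Nat.even_mul_pred_self q).two_dvd).symm
  -- values
  have vU : ∀ G : Matrix.SpecialLinearGroup (Fin 2) F, (G : Matrix (Fin 2) (Fin 2) F).trace ≠ 0 →
      Nat.card (Subgroup.centralizer ({G} : Set (Matrix.SpecialLinearGroup (Fin 2) F))) = 2 * q →
      idx G = (q ^ 2 - 1) / 2 := by
    intro G h0 hc
    refine Nat.eq_of_mul_eq_mul_right (by omega : 0 < 2 * q) ((hgen G _ h0 hc).trans ?_)
    rw [← hsq]
    conv_lhs => rw [halfA]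
    ring
  have vS : ∀ G : Matrix.SpecialLinearGroup (Fin 2) F, (G : Matrix (Fin 2) (Fin 2) F).trace ≠ 0 →
      Nat.card (Subgroup.centralizer ({G} : Set (Matrix.SpecialLinearGroup (Fin 2) F))) = q - 1 →
      idx G = q * (q + 1) := fun G h0 hc =>
    Nat.eq_of_mul_eq_mul_right (by omega : 0 < q - 1) ((hgen G _ h0 hc).trans (by ring))
  have vE : ∀ G : Matrix.SpecialLinearGroup (Fin 2) F, (G : Matrix (Fin 2) (Fin 2) F).trace ≠ 0 →
      Nat.card (Subgroup.centralizer ({G} : Set (Matrix.SpecialLinearGroup (Fin 2) F))) = q + 1 →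
      idx G = q * (q - 1) := fun G h0 hc =>
    Nat.eq_of_mul_eq_mul_right (by omega : 0 < q + 1) ((hgen G _ h0 hc).trans (by ring))
  have v1 : q % 4 = 1 → ∀ G : Matrix.SpecialLinearGroup (Fin 2) F, (G : Matrix (Fin 2) (Fin 2) F).trace = 0 →
      idx G = q * (q + 1) / 2 := by
    intro h4 G h0
    refine Nat.eq_of_mul_eq_mul_right (by omega : 0 < 2 * (q - 1))
      ((hzero G _ h0 ((hroot G h0).1 h4)).trans ?_)
    rw [mul_right_comm]
    conv_lhs => rw [halfP]
    ring
  have v3 : q % 4 = 3 → ∀ G : Matrix.SpecialLinearGroup (Fin 2) F, (G : Matrix (Fin 2) (Fin 2) F).trace = 0 →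
      idx G = q * (q - 1) / 2 := by
    intro h4 G h0
    refine Nat.eq_of_mul_eq_mul_right (by omega : 0 < 2 * (q + 1))
      ((hzero G _ h0 ((hroot G h0).2 h4)).trans ?_)
    conv_lhs => rw [halfM]
    ring
  have hall : ∀ x : Matrix.ProjectiveSpecialLinearGroup (Fin 2) F,
      (Subgroup.centralizer {x}).index = 1 ∨ (Subgroup.centralizer {x}).index = (q ^ 2 - 1) / 2 ∨
      (Subgroup.centralizer {x}).index = q * (q - 1) ∨
      (Subgroup.centralizer {x}).index = q * (q + 1) ∨
      ∃ G : Matrix.SpecialLinearGroup (Fin 2) F, Cfsg.Agent.H6.π G = x ∧ (G : Matrix (Fin 2) (Fin 2) F).trace = 0 := by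
    intro x
    obtain ⟨G, rfl⟩ := Cfsg.Agent.H6.π_surjective x
    by_cases h0 : (G : Matrix (Fin 2) (Fin 2) F).trace = 0
    · exact Or.inr (Or.inr (Or.inr (Or.inr ⟨G, rfl, h0⟩)))
    by_cases hG : IsScalar2 (G : Matrix (Fin 2) (Fin 2) F)
    · left
      rw [Cfsg.Agent.H6.π_eq_one_iff_isScal.2 hG]
      simp [Subgroup.centralizer_eq_top_iff_subset]
    by_cases ht : (G : Matrix (Fin 2) (Fin 2) F).trace ^ 2 = 4
    · have hc := card_centralizer_unipotent_odd hG ht hchar
      rw [Nat.card_eq_fintype_card (α := F)] at hc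
      exact Or.inr (Or.inl (vU G h0 hc))
    · rcases card_centralizer_semisimple ht with hc | hc
      · exact Or.inr (Or.inr (Or.inr (Or.inl (vS G h0 hc))))
      · exact Or.inr (Or.inr (Or.inl (vE G h0 hc)))
  constructor <;> intro h4 <;> ext m <;>
    simp only [Set.mem_range, Set.mem_insert_iff, Set.mem_singleton_iff] <;> constructor
  · rintro ⟨x, rfl⟩
    rcases hall x with h | h | h | h | ⟨G, rfl, h0⟩
    · exact Or.inl h
    · exact Or.inr (Or.inl h)
    · exact Or.inr (Or.inr (Or.inr (Or.inl h)))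
    · exact Or.inr (Or.inr (Or.inr (Or.inr h)))
    · exact Or.inr (Or.inr (Or.inl (v1 h4 G h0)))
  · rintro (rfl | rfl | rfl | rfl | rfl)
    · exact ⟨1, by simp [Subgroup.centralizer_eq_top_iff_subset]⟩
    · exact ⟨Cfsg.Agent.H6.π (slComp 2), vU _ hUt hUc⟩
    · exact ⟨Cfsg.Agent.H6.π (slComp 0), v1 h4 _ hZ⟩
    · exact ⟨Cfsg.Agent.H6.π Xe, vE _ hXe0 hXec⟩
    · exact ⟨Cfsg.Agent.H6.π Xs, vS _ hXs0 hXsc⟩
  · rintro ⟨x, rfl⟩
    rcases hall x with h | h | h | h | ⟨G, rfl, h0⟩
    · exact Or.inl h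
    · exact Or.inr (Or.inl h)
    · exact Or.inr (Or.inr (Or.inr (Or.inr h)))
    · exact Or.inr (Or.inr (Or.inr (Or.inl h)))
    · exact Or.inr (Or.inr (Or.inl (v3 h4 G h0)))
  · rintro (rfl | rfl | rfl | rfl | rfl)
    · exact ⟨1, by simp [Subgroup.centralizer_eq_top_iff_subset]⟩
    · exact ⟨Cfsg.Agent.H6.π (slComp 2), vU _ hUt hUc⟩
    · exact ⟨Cfsg.Agent.H6.π (slComp 0), v3 h4 _ hZ⟩
    · exact ⟨Cfsg.Agent.H6.π Xs, vS _ hXs0 hXsc⟩
    · exact ⟨Cfsg.Agent.H6.π Xe, vE _ hXe0 hXec⟩

end Cfsg.Agent.S2508
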