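import Cfsg.Statements.S0225
import Cfsg.Agent.H28.TwoRankOne
import Cfsg.Agent.H29.FourGroup

set_option autoImplicit false
open Cfsg

namespace Cfsg.Agent.S0225

/-- If a finite group G has even order but contains no Klein four-subgroup (2-rank 1), then some involution z of G is central modulo a normal subgroup of odd order: there is a normal subgroup N of odd order containing every commutator z g z⁻¹ g⁻¹. -/
theorem result {G : Type*} [Group G] [Finite G] (heven : Even (Nat.card G)) (hrank : ∀ E : Subgroup G, ¬ IsKleinFour E) : ∃ z : G, orderOf z = 2 ∧ ∃ N : Subgroup G, N.Normal ∧ Odd (Nat.card N) ∧ ∀ g : G, z * g * z⁻¹ * g⁻¹ ∈ N := by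
  haveI := Fact.mk Nat.prime_two
  obtain ⟨P⟩ : Nonempty (Sylow 2 G) := inferInstance
  haveI : Nontrivial (P : Subgroup G) := by
    rw [Subgroup.nontrivial_iff_ne_bot]
    exact P.ne_bot_of_dvd_card (even_iff_two_dvd.mp heven)
  haveI := P.isPGroup'.center_nontrivial
  obtain ⟨⟨c, hc⟩, hc2⟩ := exists_prime_orderOf_dvd_card' (G := Subgroup.center (P : Subgroup G)) 2 (by
    obtain ⟨k, hk, hk'⟩ := (IsPGroup.nontrivial_iff_card (P.isPGroup'.to_subgroup _)).mp
      (inferInstance : Nontrivial (Subgroup.center (P : Subgroup G)))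
    rw [hk']
    exact dvd_pow_self 2 hk.ne')
  rw [Subgroup.orderOf_mk] at hc2
  have hz : orderOf (c : G) = 2 := by rw [Subgroup.orderOf_coe, hc2]
  have huniq : ∀ x ∈ (P : Subgroup G), orderOf x = 2 → x = (c : G) := by
    intro x hx hxo
    by_contra hne
    have hcomm : x * c = c * x :=
      congrArg Subtype.val (Subgroup.mem_center_iff.mp hc ⟨x, hx⟩)
    exact hrank _ (H29.isKleinFour_fourSubgroup (u := x) (v := (c : G))
      (hu := by have := pow_orderOf_eq_one x; rwa [hxo] at this)
      (hv := by have := pow_orderOf_eq_one (c : G); rwa [hz] at this) (huv := hcomm)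
      (H28.ne_one_of_orderOf_two hxo) (H28.ne_one_of_orderOf_two hz) hne)
  exact ⟨(c : G), hz, Cfsg.pPrimeCore 2 G, H19.pPrimeCore_normal 2 G,
    Nat.coprime_two_right.mp (H19.pPrimeCore_coprime 2),
    H28.central_mod_core_of_unique_involution P hz c.2 huniq⟩


end Cfsg.Agent.S0225
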