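import Cfsg.Statements.S1124
import Cfsg.Agent.H48.RankOneK

set_option autoImplicit false
open scoped Pointwise
open Cfsg

namespace Cfsg.Agent.S1124

/-- Let `t` be an element of order 2 of a finite group normalising a subgroup `X` of odd order, `Y = C_X(t)` and `Z` the set of elements of `X` inverted by `t`. Then `(y, z) ↦ y z` is a bijection `Y × Z → X`, so `|X| = |Y| |Z|`, and the subgroup generated by `Z` is normal in `X`. -/
theorem result {M : Type*} [Group M] [Finite M]
    (t : M) (ht : orderOf t = 2) (X : Subgroup M) (hodd : Odd (Nat.card X))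
    (hnorm : ∀ x ∈ X, t * x * t⁻¹ ∈ X) :
    (∀ x ∈ X, ∃! p : M × M, p.1 ∈ X ⊓ Subgroup.centralizer {t} ∧ p.2 ∈ Cfsg.invertedBy X t ∧ x = p.1 * p.2) ∧
      Nat.card X = Nat.card ↥(X ⊓ Subgroup.centralizer {t}) * Nat.card (Cfsg.invertedBy X t) ∧
      ∀ x ∈ X, MulAut.conj x • Subgroup.closure (Cfsg.invertedBy X t) = Subgroup.closure (Cfsg.invertedBy X t) := by
  have ht2 : t * t = 1 := by rw [← sq, ← ht, pow_orderOf_eq_one]
  have key : ∀ x ∈ X, ∃! p : M × M, p.1 ∈ X ⊓ Subgroup.centralizer {t} ∧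
      p.2 ∈ Cfsg.invertedBy X t ∧ x = p.1 * p.2 := by
    intro x hx
    obtain ⟨y, z, hyX, hy, hz, he⟩ := Cfsg.Agent.H48.exists_factor ht2 hnorm hodd hx
    refine ⟨(y, z), ⟨⟨hyX, Subgroup.mem_centralizer_singleton_iff.2 hy.symm⟩, hz, he⟩, ?_⟩
    rintro ⟨y', z'⟩ ⟨hy', hz', he'⟩
    obtain ⟨h1, h2⟩ := Cfsg.Agent.H48.factor_unique hodd
      (Subgroup.mem_centralizer_singleton_iff.1 hy'.2).symm hz' hy hz (he'.symm.trans he)
    exact Prod.ext h1 h2
  refine ⟨key, ?_, ?_⟩
  · rw [← Nat.card_prod]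
    symm
    refine Nat.card_eq_of_bijective
      (fun p : ↥(X ⊓ Subgroup.centralizer {t}) × Cfsg.invertedBy X t =>
        (⟨p.1 * p.2, mul_mem p.1.2.1 p.2.2.1⟩ : X)) ⟨?_, ?_⟩
    · intro p q h
      obtain ⟨h1, h2⟩ := Cfsg.Agent.H48.factor_unique hodd
        (Subgroup.mem_centralizer_singleton_iff.1 p.1.2.2).symm p.2.2
        (Subgroup.mem_centralizer_singleton_iff.1 q.1.2.2).symm q.2.2 (congrArg Subtype.val h)
      exact Prod.ext (Subtype.ext h1) (Subtype.ext h2)
    · intro x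
      obtain ⟨⟨y, z⟩, ⟨hy, hz, he⟩, -⟩ := key x x.2
      exact ⟨(⟨y, hy⟩, ⟨z, hz⟩), Subtype.ext he.symm⟩
  · intro x hx
    have hfw : ∀ w ∈ X, ∀ c ∈ Subgroup.closure (Cfsg.invertedBy X t),
        w * c * w⁻¹ ∈ Subgroup.closure (Cfsg.invertedBy X t) := by
      intro w hw c hc
      obtain ⟨y, z, hyX, hy, hz, rfl⟩ := Cfsg.Agent.H48.exists_factor ht2 hnorm hodd hw
      have hzc : z * c * z⁻¹ ∈ Subgroup.closure (Cfsg.invertedBy X t) :=
        mul_mem (mul_mem (Subgroup.subset_closure hz) hc) (inv_mem (Subgroup.subset_closure hz))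
      have hconj : ∀ d ∈ Subgroup.closure (Cfsg.invertedBy X t),
          y * d * y⁻¹ ∈ Subgroup.closure (Cfsg.invertedBy X t) := by
        intro d hd
        induction hd using Subgroup.closure_induction with
        | mem u hu =>
          apply Subgroup.subset_closure
          refine ⟨mul_mem (mul_mem hyX hu.1) (inv_mem hyX), ?_⟩
          calc t * (y * u * y⁻¹) * t⁻¹ = (t * y) * u * (t * y)⁻¹ := by group
            _ = y * (t * u * t⁻¹) * y⁻¹ := by rw [hy]; group
            _ = (y * u * y⁻¹)⁻¹ := by rw [hu.2]; group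
        | one => simp
        | mul u v _ _ hu hv =>
          have := mul_mem hu hv
          rwa [show y * u * y⁻¹ * (y * v * y⁻¹) = y * (u * v) * y⁻¹ by group] at this
        | inv u _ hu =>
          have := inv_mem hu
          rwa [show (y * u * y⁻¹)⁻¹ = y * u⁻¹ * y⁻¹ by group] at this
      rw [show y * z * c * (y * z)⁻¹ = y * (z * c * z⁻¹) * y⁻¹ by group]
      exact hconj _ hzc
    ext u
    rw [Subgroup.mem_pointwise_smul_iff_inv_smul_mem, MulAut.smul_def, MulAut.conj_inv_apply]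
    constructor
    · intro h
      have := hfw x hx _ h
      rwa [show x * (x⁻¹ * u * x) * x⁻¹ = u by group] at this
    · intro h
      simpa using hfw x⁻¹ (inv_mem hx) u h

end Cfsg.Agent.S1124
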