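import Cfsg.Statements.S4487
import Cfsg.Agent.H32.Constrained
import Cfsg.Agent.H19.Cores
-- import your own Cfsg.Agent.* helpers here

set_option autoImplicit false
open Cfsg

namespace Cfsg.Agent.S4487

/-- Let G be a finite group and p a prime such that G has no non-trivial normal subgroup of order prime to p and C_G(O_p(G)) ≤ O_p(G). Then G has a single p-block: any two irreducible characters lie in the same block relative to every maximal ideal M of the algebraic integers containing p. -/
theorem result {G : Type*} [Group G] [Finite G] (p : ℕ) [Fact p.Prime] (M : Ideal Cfsg.AlgInt) (hM : Cfsg.IsPModular p M) (hcore : Cfsg.pPrimeCore p G = ⊥) (hconstr : Subgroup.centralizer ((Cfsg.pCore p G) : Set G) ≤ Cfsg.pCore p G) (χ ψ : Cfsg.IrrCharacter G) : Cfsg.SameBlock M (χ : G → ℂ) (ψ : G → ℂ) := by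
  have : M.IsMaximal := hM.2.1
  let : Fintype G := Fintype.ofFinite G
  let : Fintype (⊥ : Subgroup G) := Fintype.ofFinite _
  have := Cfsg.Agent.H19.pCore_normal p G
  obtain ⟨k, hk⟩ := IsPGroup.iff_card.1 (Cfsg.Agent.H19.pCore_isPGroup (G := G) p)
  have hover : ∀ χ : Cfsg.IrrCharacter G, Cfsg.classInner (fun n : (⊥ : Subgroup G) => (χ : G → ℂ) n)
      (Cfsg.Agent.H26.oneIrr (⊥ : Subgroup G) : (⊥ : Subgroup G) → ℂ) ≠ 0 :=
    fun χ => Cfsg.Agent.H41.classInner_oneIrr_ne_zero _ fun n hn => by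
      rw [Subgroup.mem_bot.1 hn]
  refine Cfsg.Agent.H32.sameBlock_of_over ⊥ hM (θ := Cfsg.Agent.H26.oneIrr _)
    (by rw [Subgroup.card_bot]; exact (Fact.out : p.Prime).not_dvd_one)
    (fun g => Subtype.ext (funext fun n => rfl)) (Cfsg.pCore p G) bot_le
    ⟨k, by rw [Subgroup.relIndex_bot_left, hk]⟩ ?_ (hover χ) (hover ψ)
  intro Q hQ _ hQc
  have : Q = Cfsg.pCore p G := Subgroup.eq_of_le_of_card_ge hQ (by
    rw [hQc, hk, Nat.factorization_pow, Finsupp.smul_apply, Nat.Prime.factorization_self Fact.out,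
      smul_eq_mul, mul_one])
  rw [this]; exact hconstr

end Cfsg.Agent.S4487
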