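import Cfsg.Statements.S0247
import Cfsg.Agent.H2.SymmEmbed
-- import your own Cfsg.Agent.* helpers here

set_option autoImplicit false
open Cfsg

namespace Cfsg.Agent.S0247

/-- Sp_4(2) is isomorphic to the symmetric group S_6. -/
theorem result {F : Type*} [Field F] [Fintype F] (hF : Fintype.card F = 2) : Nonempty (Matrix.symplecticGroup (Fin 2) F ≃* Equiv.Perm (Fin 6)) := by
  classical
  haveI := charP_of_card_eq_prime hF
  obtain ⟨f, hf⟩ := Cfsg.Agent.H2.exists_perm_embedding (F := F) (N := 5) (m := 2) rfl le_rfl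
  have hc : Nat.card (Equiv.Perm (Fin 6)) = Nat.card (Matrix.symplecticGroup (Fin 2) F) := by
    rw [Cfsg.Agent.H2.card_sp, Nat.card_perm, Nat.card_eq_fintype_card (α := F), hF, Nat.card_fin]
    rfl
  exact ⟨(MulEquiv.ofBijective f ((Nat.bijective_iff_injective_and_card _).mpr ⟨hf, hc⟩)).symm⟩

end Cfsg.Agent.S0247
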