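import Cfsg.Statements.S4700
import Cfsg.Agent.H31.FewSylow.General
-- import your own Cfsg.Agent.* helpers here

set_option autoImplicit false
open Cfsg

namespace Cfsg.Agent.S4700

/-- Let G be a finite perfect group and p a prime such that a Sylow p-subgroup of G has order p, and write the number of Sylow p-subgroups as 1 + np. Let H = O_p'(G). Then either p > 3 and G/H is isomorphic to PSL(2, p); or p = 2^m + 1 > 3 and G/H is isomorphic to SL(2, 2^m); or n = (hup + u^2 + u + h)/(u + 1) for some positive integers h and u. -/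
theorem result {G : Type*} [Group G] [Finite G] (hperf : commutator G = ⊤) (p : ℕ) [Fact p.Prime] (P : Sylow p G) (hP : Nat.card P = p) (n : ℕ) (hn : Nat.card (Sylow p G) = 1 + n * p) : (∃ (F : Type) (_ : Field F) (_ : Fintype F), Fintype.card F = p ∧ 3 < p ∧ Nonempty (G ⧸ Cfsg.pPrimeCore p G ≃* Matrix.ProjectiveSpecialLinearGroup (Fin 2) F)) ∨ (∃ (m : ℕ) (F : Type) (_ : Field F) (_ : Fintype F), Fintype.card F = 2 ^ m ∧ p = 2 ^ m + 1 ∧ 3 < p ∧ Nonempty (G ⧸ Cfsg.pPrimeCore p G ≃* Matrix.SpecialLinearGroup (Fin 2) F)) ∨ (∃ h u : ℕ, 0 < h ∧ 0 < u ∧ n * (u + 1) = h * u * p + u ^ 2 + u + h) := by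
  classical
  have hp := (Fact.out : p.Prime)
  let _ : Fintype G := Fintype.ofFinite G
  by_cases hrep : H31.FewSylow.Rep n p
  · exact Or.inr (Or.inr hrep)
  set Q := Cfsg.pPrimeCore p G with hQ
  let _ : Fintype (G ⧸ Q) := Fintype.ofFinite _
  set π := QuotientGroup.mk' Q with hπ
  have hsurj : Function.Surjective π := QuotientGroup.mk'_surjective Q
  have hsq : ¬ p ^ 2 ∣ Nat.card G := by
    intro hd
    obtain ⟨R, hR⟩ := Sylow.exists_subgroup_card_pow_prime p hd
    obtain ⟨T, hT⟩ := (IsPGroup.of_card hR).exists_le_sylow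
    have h1 := Subgroup.card_dvd_of_le hT
    have h2 : Nat.card (T : Subgroup G) = p := by
      rw [T.card_eq_multiplicity, ← P.card_eq_multiplicity]; exact hP
    rw [hR, h2] at h1
    have h3 := Nat.le_of_dvd hp.pos h1
    have := hp.two_le
    nlinarith
  obtain ⟨⟨z, hzP⟩, hzo⟩ := exists_prime_orderOf_dvd_card' (G := (P : Subgroup G)) p
    (show p ∣ Nat.card (P : Subgroup G) from dvd_of_eq hP.symm)
  rw [Subgroup.orderOf_mk] at hzo
  have hzQ : z ∉ Q := fun h => by
    have h1 := orderOf_dvd_natCard (⟨z, h⟩ : Q)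
    rw [Subgroup.orderOf_mk, hzo] at h1
    exact (hp.coprime_iff_not_dvd.1 (H19.pPrimeCore_coprime (G := G) p).symm) h1
  have hz' : orderOf (π z) = p := by
    have h1 : orderOf (π z) ∣ p := hzo ▸ orderOf_map_dvd π z
    exact ((Nat.dvd_prime hp).1 h1).resolve_left fun h =>
      hzQ ((QuotientGroup.eq_one_iff z).1 (orderOf_eq_one_iff.1 h))
  have hsq' : ¬ p ^ 2 ∣ Nat.card (G ⧸ Q) := fun h =>
    hsq (h.trans (Subgroup.card_dvd_of_surjective π hsurj))
  have hperf' : commutator (G ⧸ Q) = ⊤ := by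
    rw [commutator_def, ← MonoidHom.range_eq_top.2 hsurj, MonoidHom.range_eq_map,
      ← Subgroup.map_commutator, ← commutator_def, hperf]
  have hcore : ∀ M : Subgroup (G ⧸ Q), M.Normal → ¬ p ∣ Nat.card M → M = ⊥ := fun M hM hpM => by
    rw [eq_bot_iff, ← H19.pPrimeCore_quotient_pPrimeCore (G := G) p]
    exact H19.le_pPrimeCore hM ((hp.coprime_iff_not_dvd.2 hpM).symm)
  obtain ⟨P₁, hP₁⟩ := H31.FewSylow.sylow_eq_zpowers hsq hzo
  obtain ⟨P', hP'⟩ := H31.FewSylow.sylow_eq_zpowers hsq' hz'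
  have hdvd : Nat.card (Sylow p (G ⧸ Q)) ∣ Nat.card (Sylow p G) := by
    rw [P₁.card_eq_index_normalizer, P'.card_eq_index_normalizer]
    show (Subgroup.normalizer ((P' : Subgroup (G ⧸ Q)) : Set (G ⧸ Q))).index ∣
      (Subgroup.normalizer ((P₁ : Subgroup G) : Set G)).index
    rw [hP₁, hP', ← MonoidHom.map_zpowers]
    exact (Subgroup.index_dvd_of_le (Subgroup.le_normalizer_map π)).trans
      (Subgroup.index_map_dvd _ hsurj)
  obtain ⟨V, K, S⟩ := H31.Defect.exists_parts hz' hsq'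
  obtain ⟨m, hm⟩ : ∃ m, Nat.card (Sylow p (G ⧸ Q)) = m * p + 1 := by
    refine ⟨Nat.card (Sylow p (G ⧸ Q)) / p, ?_⟩
    have hmod := card_sylow_modEq_one p (G ⧸ Q)
    rw [Nat.ModEq, Nat.one_mod_eq_one.2 hp.ne_one] at hmod
    have := Nat.div_add_mod (Nat.card (Sylow p (G ⧸ Q))) p
    rw [hmod, mul_comm] at this
    exact this.symm
  have hno : ¬ H31.FewSylow.Rep m p := by
    rintro ⟨h, w, h0, w0, heq⟩
    obtain ⟨r, hr⟩ := hdvd
    rw [hn, hm] at hr
    have hr1 : r % p = 1 := by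
      have h1 := congrArg (· % p) hr
      simp only [Nat.mul_mod, Nat.add_mod, Nat.mod_self, mul_zero, Nat.zero_mod,
        zero_add, add_zero, Nat.mod_mod, Nat.one_mod_eq_one.2 hp.ne_one, one_mul] at h1
      exact h1.symm
    obtain ⟨x, hx⟩ : ∃ x, r = x * p + 1 := ⟨r / p, by
      conv_lhs => rw [← Nat.div_add_mod r p, hr1, mul_comm]⟩
    subst hx
    have hnm : n = x * (m * p + 1) + m := by
      refine Nat.eq_of_mul_eq_mul_right hp.pos ?_
      linear_combination hr
    refine hrep ⟨(x * p + 1) * h + x * (w + 1), w, by positivity, w0, ?_⟩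
    rw [hnm]
    linear_combination (x * p + 1) * heq
  have hm1 : 1 ≤ m := by
    by_contra hlt
    rw [show m = 0 by omega, zero_mul, zero_add, H31.FewSylow.card_sylow_index S,
      Subgroup.index_eq_one] at hm
    exact H31.FewSylow.normalizer_ne_top' hperf' hz' hsq' hm
  obtain ⟨B⟩ := S.nonempty_blockData
  have Sh := H31.FewSylow.shape' S B hperf' hm1 hm hno
  obtain rfl := H31.FewSylow.V_eq_bot S B Sh hcore
  have hC : Subgroup.centralizer ({π z} : Set (G ⧸ Q)) = Subgroup.zpowers (π z) := by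
    refine le_antisymm (fun x hx => ?_) (Subgroup.zpowers_le.2
      (Subgroup.mem_centralizer_singleton_iff.2 rfl))
    obtain ⟨i, v, hv, rfl⟩ := S.cover x hx
    rw [Subgroup.mem_bot.1 hv, mul_one]
    exact Subgroup.pow_mem _ (Subgroup.mem_zpowers _) _
  rcases H31.FewSylow.conclusion_gen hperf' p (π z) hz' hC (fun H' S' B' n' hn1' hcard' => by
      refine H31.FewSylow.shape' S' B' hperf' hn1' hcard' ?_
      have : n' = m := Nat.eq_of_mul_eq_mul_right hp.pos (by omega)
      rw [this]; exact hno) with ⟨F, _, _, hF, h3, hiso⟩ | ⟨k, F, _, _, hF, hpk, h3, ⟨φ⟩⟩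
  · exact Or.inl ⟨F, inferInstance, inferInstance, hF, h3, hiso⟩
  · refine Or.inr (Or.inl ?_)
    have hk : k ≠ 0 := fun h => by rw [h, pow_zero] at hpk; omega
    have hcen : Subgroup.center (Matrix.SpecialLinearGroup (Fin 2) F) = ⊥ := by
      refine Subgroup.eq_bot_of_card_eq _ ?_
      rw [H1.card_center_SL, Fintype.card_fin, H1.natCard_units hF]
      rcases (Nat.dvd_prime Nat.prime_two).1 (Nat.gcd_dvd_left 2 (2 ^ k - 1)) with h | h
      · exact h
      · have h1 : 2 ∣ 2 ^ k - 1 := by have h2 := Nat.gcd_dvd_right 2 (2 ^ k - 1); rwa [h] at h2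
        have : 2 ∣ 2 ^ k := dvd_pow_self 2 hk
        have : 1 ≤ 2 ^ k := Nat.one_le_two_pow
        omega
    let ψ : Matrix.ProjectiveSpecialLinearGroup (Fin 2) F ≃* Matrix.SpecialLinearGroup (Fin 2) F :=
      (QuotientGroup.quotientMulEquivOfEq hcen).trans QuotientGroup.quotientBot
    exact ⟨k, F, inferInstance, inferInstance, hF, hpk, h3, ⟨φ.trans ψ⟩⟩

end Cfsg.Agent.S4700
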