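import Cfsg.Statements.S0231
import Cfsg.Agent.H28.Dihedral
import Cfsg.Agent.H28.CyclicSylow
import Cfsg.Agent.H28.Isolated

set_option autoImplicit false
open scoped Pointwise
open Cfsg

namespace Cfsg.Agent.S0231

/-- Let T be a Sylow 2-subgroup of the finite group G which is not normal and which intersects every other Sylow 2-subgroup trivially. Then G has a single conjugacy class of involutions. -/
theorem result {G : Type*} [Group G] [Finite G] (T : Sylow 2 G) (hnn : ¬ (T : Subgroup G).Normal) (hTI : ∀ g : G, MulAut.conj g • (T : Subgroup G) ≠ T → MulAut.conj g • (T : Subgroup G) ⊓ T = ⊥) (s t : G) (hs : orderOf s = 2) (ht : orderOf t = 2) : IsConj s t := by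
  haveI : Fact (Nat.Prime 2) := ⟨Nat.prime_two⟩
  -- an involution lies in a unique Sylow 2-subgroup
  have huniq : ∀ (P Q : Sylow 2 G) (u : G), orderOf u = 2 → u ∈ P → u ∈ Q → P = Q := by
    intro P Q u hu huP huQ
    obtain ⟨a, ha⟩ := MulAction.exists_smul_eq G P T
    have hmemT : a * u * a⁻¹ ∈ (T : Subgroup G) := ha ▸ ⟨u, huP, rfl⟩
    have hmemQ : a * u * a⁻¹ ∈ ((a • Q : Sylow 2 G) : Subgroup G) := ⟨u, huQ, rfl⟩
    obtain ⟨b, hb⟩ := MulAction.exists_smul_eq G T (a • Q)
    have hb' : MulAut.conj b • (T : Subgroup G) = ((a • Q : Sylow 2 G) : Subgroup G) := by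
      rw [← hb]; rfl
    by_cases he : MulAut.conj b • (T : Subgroup G) = T
    · rw [hb'] at he
      exact MulAction.injective a (ha.trans (Sylow.ext he).symm)
    · exfalso
      have h := hTI b he
      rw [hb'] at h
      have hin : a * u * a⁻¹ ∈ ((a • Q : Sylow 2 G) : Subgroup G) ⊓ (T : Subgroup G) :=
        ⟨hmemQ, hmemT⟩
      rw [h, Subgroup.mem_bot] at hin
      exact H28.ne_one_of_orderOf_two ((H28.orderOf_conj_eq a u).trans hu) hin
  -- involutions in different Sylow 2-subgroups are conjugate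
  have hdiff : ∀ (P Q : Sylow 2 G) (u v : G), orderOf u = 2 → orderOf v = 2 → u ∈ P → v ∈ Q →
      P ≠ Q → IsConj u v := by
    intro P Q u v hu hv huP hvQ hne
    have hu' := H28.mul_self_of_orderOf_two hu
    have hv' := H28.mul_self_of_orderOf_two hv
    rcases Nat.even_or_odd (orderOf (u * v)) with he | ho
    · exfalso
      obtain ⟨hz, hzu, hzv⟩ := H28.central_involution_of_even hu' hv' he
      set z := (u * v) ^ (orderOf (u * v) / 2)
      have key : ∀ w : G, orderOf w = 2 → Commute z w → ∃ R : Sylow 2 G, z ∈ R ∧ w ∈ R := by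
        intro w hw hzw
        have hdvd : orderOf (z * w) ∣ 2 ^ 1 := by
          refine orderOf_dvd_of_pow_eq_one ?_
          rw [pow_one, hzw.mul_pow, pow_two, pow_two, H28.mul_self_of_orderOf_two hz,
            H28.mul_self_of_orderOf_two hw, one_mul]
        obtain ⟨R, hR⟩ := (H28.isPGroup_closure_pair hz hw hdvd).exists_le_sylow
        exact ⟨R, hR (Subgroup.subset_closure (by simp)), hR (Subgroup.subset_closure (by simp))⟩
      obtain ⟨R, hzR, huR⟩ := key u hu hzu
      obtain ⟨R', hzR', hvR'⟩ := key v hv hzv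
      exact hne (((huniq P R u hu huP huR).trans (huniq R R' z hz hzR hzR')).trans
        (huniq Q R' v hv hvQ hvR').symm)
    · obtain ⟨d, -, hd⟩ := H28.exists_conj_of_odd hu' hv' ho
      exact isConj_iff.mpr ⟨d, hd⟩
  have hex : ∀ w : G, orderOf w = 2 → ∃ R : Sylow 2 G, w ∈ R := by
    intro w hw
    obtain ⟨R, hR⟩ := (IsPGroup.of_card (p := 2) (n := 1)
      (by rw [Nat.card_zpowers, hw, pow_one] : Nat.card (Subgroup.zpowers w) = 2 ^ 1)).exists_le_sylow
    exact ⟨R, hR (Subgroup.mem_zpowers w)⟩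
  obtain ⟨P, hsP⟩ := hex s hs
  obtain ⟨Q, htQ⟩ := hex t ht
  by_cases hPQ : P = Q
  · -- choose an involution in another Sylow 2-subgroup
    obtain ⟨R, hRP⟩ : ∃ R : Sylow 2 G, R ≠ P := by
      by_contra hall
      simp only [not_exists, not_not] at hall
      apply hnn
      rw [← Subgroup.normalizer_eq_top_iff, eq_top_iff]
      exact fun g _ => Sylow.smul_eq_iff_mem_normalizer.mp ((hall (g • T)).trans (hall T).symm)
    obtain ⟨a, ha⟩ := MulAction.exists_smul_eq G P R
    have h2 : orderOf (a * s * a⁻¹) = 2 := (H28.orderOf_conj_eq a s).trans hs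
    have hmem : a * s * a⁻¹ ∈ (R : Subgroup G) := ha ▸ ⟨s, hsP, rfl⟩
    exact (isConj_iff.mpr ⟨a, rfl⟩ : IsConj s _).trans
      (hdiff R Q _ t h2 ht hmem htQ (fun e => hRP (e.trans hPQ.symm)))
  · exact hdiff P Q s t hs ht hsP htQ hPQ

end Cfsg.Agent.S0231
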