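import Cfsg.Statements.S3370
import Cfsg.Agent.H21.UniqueSubgroup

set_option autoImplicit false
open Cfsg

namespace Cfsg.Agent.S3370

theorem sq_dvd_expand (x : ℤ) : ∀ a : ℕ, x ^ 2 ∣ (x - 1) ^ a - (-1) ^ a * (1 - (a : ℤ) * x)
  | 0 => by simp
  | a + 1 => by
    obtain ⟨c, hc⟩ := sq_dvd_expand x a
    refine ⟨(x - 1) * c - (-1) ^ a * (a : ℤ), ?_⟩
    push_cast
    rw [pow_succ, pow_succ (-1 : ℤ)]
    linear_combination (x - 1) * hc

theorem mersenne_exponent {p n a : ℕ} (hp : p.Prime) (ha : a ≠ 0) (hn : 2 ^ n = p ^ a + 1) :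
    a = 1 := by
  have hn0 : n ≠ 0 := by
    rintro rfl
    rw [pow_zero] at hn
    have : 0 < p ^ a := pow_pos hp.pos a
    omega
  have hp2 : Odd p := by
    refine hp.odd_of_ne_two ?_
    rintro rfl
    have h1 : 2 ∣ 2 ^ n := dvd_pow_self 2 hn0
    have h2 : 2 ∣ 2 ^ a := dvd_pow_self 2 ha
    omega
  rcases Nat.even_or_odd a with ⟨r, rfl⟩ | haodd
  · exfalso
    obtain ⟨c, hc⟩ := hp2.pow (n := r)
    rw [pow_add, hc] at hn
    have hn1 : n ≠ 1 := by
      rintro rfl
      have hpr : 1 < p ^ r := Nat.one_lt_pow (by omega) hp.one_lt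
      rw [hc] at hpr
      nlinarith
    obtain ⟨d, rfl⟩ : ∃ d, n = d + 2 := ⟨n - 2, by omega⟩
    rw [pow_add] at hn
    ring_nf at hn
    omega
  · by_contra ha1
    have hd : p + 1 ∣ p ^ a + 1 ^ a := Odd.nat_add_dvd_pow_add_pow p 1 haodd
    rw [one_pow, ← hn] at hd
    obtain ⟨k, hkn, hk⟩ := (Nat.dvd_prime_pow Nat.prime_two).mp hd
    have hlt : k < n := by
      refine lt_of_le_of_ne hkn ?_
      rintro rfl
      rw [← hk] at hn
      have h2 : 2 ≤ a := by obtain ⟨c, hc⟩ := haodd; omega
      have : p ^ 1 < p ^ a := Nat.pow_lt_pow_right hp.one_lt (by omega)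
      rw [pow_one] at this
      omega
    have hk0 : k ≠ 0 := by
      rintro rfl
      have := hp.pos
      rw [pow_zero] at hk
      omega
    have hx : ((p : ℤ)) = 2 ^ k - 1 := by
      have : ((p : ℤ)) + 1 = 2 ^ k := by exact_mod_cast hk
      linarith
    have hdiv := sq_dvd_expand (2 ^ k) a
    rw [← hx, Odd.neg_one_pow haodd] at hdiv
    have hn' : ((p : ℤ)) ^ a + 1 = 2 ^ n := by exact_mod_cast hn.symm
    obtain ⟨c, hc⟩ := hdiv
    obtain ⟨d, rfl⟩ : ∃ d, n = k + (d + 1) := ⟨n - k - 1, by omega⟩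
    have hpos : (2 : ℤ) ^ k ≠ 0 := by positivity
    have hcancel : (2 : ℤ) ^ (d + 1) - (a : ℤ) = 2 ^ k * c := by
      apply mul_left_cancel₀ hpos
      rw [pow_add] at hn'
      linear_combination hc - hn'
    obtain ⟨j, rfl⟩ : ∃ j, k = j + 1 := ⟨k - 1, by omega⟩
    obtain ⟨e, he⟩ := haodd
    rw [pow_succ, pow_succ, he] at hcancel
    push_cast at hcancel
    have : (2 : ℤ) ∣ 1 := ⟨2 ^ d - (e : ℤ) - 2 ^ j * c, by linear_combination -hcancel⟩
    norm_num at this

theorem fermat_exponent {q n a : ℕ} (hq : q.Prime) (hn : n ≠ 0) (hq2 : q ≠ 2)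
    (h : q ^ n = 2 ^ a + 1) : n = 1 ∨ (q = 3 ∧ n = 2) := by
  rcases Nat.even_or_odd n with ⟨r, rfl⟩ | hodd
  · right
    have hr : r ≠ 0 := by omega
    have hQ : 2 ≤ q ^ r := le_trans hq.two_le (Nat.le_self_pow hr q)
    rw [pow_add] at h
    have hfac : (q ^ r - 1) * (q ^ r + 1) = 2 ^ a := by
      obtain ⟨b, hb⟩ : ∃ b, q ^ r = b + 1 := ⟨q ^ r - 1, by omega⟩
      rw [hb] at h ⊢
      rw [Nat.add_sub_cancel]
      nlinarith
    obtain ⟨i, -, hi⟩ := (Nat.dvd_prime_pow Nat.prime_two).mp ⟨_, hfac.symm⟩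
    obtain ⟨j, -, hj⟩ := (Nat.dvd_prime_pow Nat.prime_two).mp (Dvd.intro_left _ hfac)
    have hqr : q ^ r = 3 := by
      have hi' : q ^ r = 2 ^ i + 1 := by omega
      have hj' : 2 ^ i + 2 = 2 ^ j := by omega
      rcases i with _ | _ | i
      · rw [pow_zero] at hi'
        have : q ∣ 2 := ⟨q ^ (r - 1), by rw [← pow_succ', Nat.sub_add_cancel (by omega)]; omega⟩
        exact absurd ((Nat.prime_dvd_prime_iff_eq hq Nat.prime_two).mp this) hq2
      · simpa using hi'
      · exfalso
        rcases j with _ | _ | j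
        · simp [pow_succ] at hj'
        · simp [pow_succ] at hj'
        · simp only [pow_succ] at hj'
          omega
    have : q = 3 ∧ r = 1 := by
      have hd : q ∣ 3 := hqr ▸ dvd_pow_self q hr
      have hq3 : q = 3 := (Nat.prime_dvd_prime_iff_eq hq Nat.prime_three).mp hd
      subst hq3
      exact ⟨rfl, Nat.pow_right_injective (by norm_num) (hqr.trans (pow_one 3).symm)⟩
    exact ⟨this.1, by omega⟩
  · left
    by_contra hn1
    have hs : (q - 1) * ∑ i ∈ Finset.range n, q ^ i = 2 ^ a := by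
      have := geom_sum_mul_of_one_le (x := q) hq.one_lt.le n
      rw [mul_comm, this, h]
      rfl
    obtain ⟨i, -, hi⟩ := (Nat.dvd_prime_pow Nat.prime_two).mp (Dvd.intro_left _ hs)
    have hsodd : Odd (∑ i ∈ Finset.range n, q ^ i) := by
      rw [Finset.odd_sum_iff_odd_card_odd]
      rw [Finset.filter_true_of_mem (fun i _ => (hq.odd_of_ne_two hq2).pow), Finset.card_range]
      exact hodd
    have hge : 1 < ∑ i ∈ Finset.range n, q ^ i := by
      calc 1 < q ^ 1 := by simpa using hq.one_lt
        _ ≤ _ := Finset.single_le_sum (f := fun i => q ^ i) (fun i _ => Nat.zero_le _)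
          (Finset.mem_range.mpr (by omega))
    rw [hi] at hsodd hge
    rcases i with _ | i
    · simp at hge
    · exact Nat.not_even_iff_odd.mpr hsodd (by rw [pow_succ]; exact Even.mul_left even_two _)

open Matrix

/-- an element of order eight of `GL(2,3)` -/
def gx : GL (Fin 2) (ZMod 3) :=
  ⟨!![1, 1; 1, 0], !![0, 1; 1, 2], by decide, by decide⟩

/-- an involution acting on `gx` as a third power -/
def gy : GL (Fin 2) (ZMod 3) :=
  ⟨!![1, 0; 2, 2], !![1, 0; 2, 2], by decide, by decide⟩

theorem gx_pow8 : gx ^ 2 ^ 3 = 1 := by decide +kernel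
theorem gx_pow4 : ¬ gx ^ 2 ^ 2 = 1 := by decide +kernel
theorem gy_sq : gy ^ 2 = 1 := by decide +kernel
theorem gy_ne : gy ≠ 1 := by decide +kernel
theorem gxy_rel : gy * gx * gy⁻¹ = gx ^ 3 := by decide +kernel
theorem gxy_rel' : gy⁻¹ * gx * gy = gx ^ 3 := by decide +kernel

theorem zpowers_normalized {H : Type*} [Group H] {x y : H} (h : y * x * y⁻¹ = x ^ 3)
    (h' : y⁻¹ * x * y = x ^ 3) : y ∈ Subgroup.normalizer (Subgroup.zpowers x : Set H) := by
  rw [Subgroup.mem_normalizer_iff]
  intro w
  constructor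
  · rintro ⟨i, rfl⟩
    refine ⟨3 * i, ?_⟩
    show x ^ (3 * i) = y * x ^ i * y⁻¹
    rw [← conj_zpow, h, _root_.zpow_mul]
    norm_cast
  · rintro ⟨i, hi⟩
    refine ⟨3 * i, ?_⟩
    show x ^ (3 * i) = w
    have hi' : x ^ i = y * w * y⁻¹ := hi
    have : w = y⁻¹ * x ^ i * (y⁻¹)⁻¹ := by rw [hi']; group
    rw [this, ← conj_zpow, inv_inv, h', _root_.zpow_mul]
    norm_cast

/-- A subgroup of order 16 of `GL(2,3)` is semidihedral. -/
theorem quasiDihedral_of_gl {G : Type*} [Group G] [Finite G] (hG : Nat.card G = 16)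
    (f : G →* GL (Fin 2) (ZMod 3)) (hf : Function.Injective f) : Cfsg.IsQuasiDihedral G := by
  haveI : Fact (Nat.Prime 3) := ⟨Nat.prime_three⟩
  haveI : Fact (Nat.Prime 2) := ⟨Nat.prime_two⟩
  have hGL : Nat.card (GL (Fin 2) (ZMod 3)) = 48 := by
    rw [Matrix.card_GL_field, Fin.prod_univ_two, ZMod.card]
    norm_num
  have hcQ : Nat.card f.range = 16 := by
    rw [← hG]; exact (Nat.card_congr (MonoidHom.ofInjective hf).toEquiv).symm
  let Q : Sylow 2 (GL (Fin 2) (ZMod 3)) := Sylow.ofCard f.range (by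
    rw [hcQ, hGL, Nat.factorization_def _ Nat.prime_two, show (48 : ℕ) = 2 ^ 4 * 3 by norm_num,
      padicValNat.mul (by norm_num) (by norm_num), padicValNat.prime_pow,
      padicValNat.eq_zero_of_not_dvd (by norm_num)]
    norm_num)
  let x := gx
  let y := gy
  have hrel : y * x * y⁻¹ = x ^ 3 := gxy_rel
  have hox : orderOf x = 2 ^ 3 := orderOf_eq_prime_pow gx_pow4 gx_pow8
  have hoy : orderOf y = 2 := orderOf_eq_prime gy_sq gy_ne
  have hX : IsPGroup 2 (Subgroup.zpowers x) := IsPGroup.of_card (n := 3) (by rw [Nat.card_zpowers, hox])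
  have hY : IsPGroup 2 (Subgroup.zpowers y) := IsPGroup.of_card (n := 1) (by rw [Nat.card_zpowers, hoy]; rfl)
  have hnorm : Subgroup.zpowers y ≤ Subgroup.normalizer (Subgroup.zpowers x : Set (GL (Fin 2) (ZMod 3))) := by
    rw [Subgroup.zpowers_le]
    exact zpowers_normalized gxy_rel gxy_rel'
  obtain ⟨S, hS⟩ := (hX.to_sup_of_normal_left' hY hnorm).exists_le_sylow
  have e : (S : Subgroup (GL (Fin 2) (ZMod 3))) ≃* G :=
    (S.equiv Q).trans (MonoidHom.ofInjective hf).symm
  have hxm : x ∈ (S : Subgroup (GL (Fin 2) (ZMod 3))) := hS (Subgroup.mem_sup_left (Subgroup.mem_zpowers x))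
  have hym : y ∈ (S : Subgroup (GL (Fin 2) (ZMod 3))) := hS (Subgroup.mem_sup_right (Subgroup.mem_zpowers y))
  refine ⟨3, le_rfl, by rw [hG]; rfl, e ⟨x, hxm⟩, e ⟨y, hym⟩, ?_, ?_, ?_⟩
  · rw [MulEquiv.orderOf_eq, ← Subgroup.orderOf_coe]; exact hox
  · rw [MulEquiv.orderOf_eq, ← Subgroup.orderOf_coe]; exact hoy
  · rw [← map_mul, ← map_inv, ← map_mul, ← map_pow]
    exact congrArg e (Subtype.ext hrel)

/-- Let q be a prime, V a non-trivial finite vector space over the field with q elements, and G a non-trivial finite p-group (p prime) acting faithfully and linearly on V and transitively on the non-zero vectors. Then either q = 2 and G has prime order p = |V| − 1; or p = 2, V has q elements with q = 2^m + 1 and G is cyclic of order 2^m; or p = 2, q = 3, V has 9 elements and G is cyclic of order 8, quaternion of order 8, or semidihedral of order 16. -/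
theorem result (q : ℕ) [Fact q.Prime] {V : Type*} [AddCommGroup V] [Module (ZMod q) V] [Finite V] [Nontrivial V]
    {G : Type*} [Group G] [Finite G] [Nontrivial G] (p : ℕ) [Fact p.Prime] (hG : IsPGroup p G)
    (ρ : G →* (V ≃ₗ[ZMod q] V)) (hρ : Function.Injective ρ)
    (htrans : ∀ v w : V, v ≠ 0 → w ≠ 0 → ∃ g : G, ρ g v = w) :
    (q = 2 ∧ p = Nat.card V - 1 ∧ Nat.card G = p) ∨
    (p = 2 ∧ Nat.card V = q ∧ (∃ m : ℕ, q = 2 ^ m + 1 ∧ Nat.card G = 2 ^ m) ∧ IsCyclic G) ∨
    (p = 2 ∧ q = 3 ∧ Nat.card V = 9 ∧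
      ((IsCyclic G ∧ Nat.card G = 8) ∨ Nonempty (G ≃* QuaternionGroup 2) ∨ (Cfsg.IsQuasiDihedral G ∧ Nat.card G = 16))) := by
  classical
  have hq : q.Prime := Fact.out
  have hp : p.Prime := Fact.out
  letI act : MulAction G V := MulAction.compHom V ρ
  have hsmul : ∀ (g : G) (v : V), g • v = ρ g v := fun g v => rfl
  obtain ⟨v0, hv0⟩ := exists_ne (0 : V)
  have horb : MulAction.orbit G v0 = {v : V | v ≠ 0} := by
    ext w
    constructor
    · rintro ⟨g, rfl⟩
      show g • v0 ≠ 0
      rw [hsmul]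
      exact fun h => hv0 ((LinearEquiv.map_eq_zero_iff _).mp h)
    · intro hw
      obtain ⟨g, hg⟩ := htrans v0 w hv0 hw
      exact ⟨g, hg⟩
  have horbc : Nat.card (MulAction.orbit G v0) = Nat.card V - 1 := by
    rw [horb, Nat.card_coe_set_eq, show {v : V | v ≠ 0} = Set.univ \ {0} by ext; simp,
      Set.ncard_sdiff_singleton_of_mem (Set.mem_univ _), Set.ncard_univ]
  have hdvd : Nat.card V - 1 ∣ Nat.card G := by
    rw [← horbc, ← Nat.card_congr (MulAction.orbitEquivQuotientStabilizer G v0).symm]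
    exact Subgroup.card_quotient_dvd_card _
  obtain ⟨N, hN⟩ := IsPGroup.iff_card.mp hG
  obtain ⟨a, haN, ha⟩ := (Nat.dvd_prime_pow hp).mp (hN ▸ hdvd)
  set n := Module.finrank (ZMod q) V with hndef
  have hV : Nat.card V = q ^ n := by
    rw [Module.natCard_eq_pow_finrank (K := ZMod q), Nat.card_zmod]
  have hV1 : 1 < Nat.card V := Finite.one_lt_card
  have hn0 : n ≠ 0 := fun h => by rw [hV, h, pow_zero] at hV1; omega
  have hkey : q ^ n = p ^ a + 1 := by omega
  -- a central element of order `p`
  obtain ⟨z, hzc, hzo⟩ : ∃ z ∈ Subgroup.center G, orderOf z = p := by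
    haveI := hG.center_nontrivial
    obtain ⟨c, hc⟩ := exists_prime_orderOf_dvd_card' (G := Subgroup.center G) p (by
      obtain ⟨k, hk⟩ := IsPGroup.iff_card.mp (hG.to_subgroup (Subgroup.center G))
      have : 1 < Nat.card (Subgroup.center G) := Finite.one_lt_card
      rw [hk] at this ⊢
      exact dvd_pow_self p (by rintro rfl; simp at this))
    exact ⟨c, c.2, by rw [Subgroup.orderOf_coe, hc]⟩
  have hfix : ∀ c ∈ Subgroup.center G, ∀ v : V, v ≠ 0 → c • v = v → c = 1 := by
    intro c hc v hv hcv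
    refine hρ (LinearEquiv.ext fun w => ?_)
    rw [map_one]
    rcases eq_or_ne w 0 with rfl | hw
    · simp
    · obtain ⟨g, rfl⟩ := htrans v w hv hw
      show c • (g • v) = g • v
      rw [← mul_smul, ← Subgroup.mem_center_iff.mp hc g, mul_smul, hcv]
  have ha0 : a ≠ 0 := by
    rintro rfl
    rw [pow_zero] at ha
    have h2 : Nat.card V = 2 := by omega
    obtain ⟨g, hg⟩ : ∃ g : G, g ≠ 1 := exists_ne 1
    apply hg
    refine hρ (LinearEquiv.ext fun w => ?_)
    rw [map_one]
    rcases eq_or_ne w 0 with rfl | hw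
    · simp
    · obtain ⟨u, hu, huniq⟩ := (Nat.card_eq_two_iff' (0 : V)).mp h2
      exact (huniq _ ((LinearEquiv.map_ne_zero_iff _).mpr hw)).trans (huniq w hw).symm
  have hFinCase : ∀ (h : ∀ g : G, g • v0 = v0 → g = 1), Nat.card G = p ^ a := by
    intro h
    rw [← ha, ← horbc, Nat.card_congr (MulAction.orbitEquivQuotientStabilizer G v0),
      show MulAction.stabilizer G v0 = ⊥ from (Subgroup.eq_bot_iff_forall _).mpr h]
    exact Nat.card_congr (QuotientGroup.quotientBot (G := G)).toEquiv.symm
  by_cases hq2 : q = 2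
  · left
    subst hq2
    have ha1 := mersenne_exponent hp ha0 hkey
    subst ha1
    rw [pow_one] at hkey ha
    have hreg : ∀ g : G, g • v0 = v0 → g = 1 := by
      intro g hg
      -- the orbit of `v0` under `⟨z⟩` is everything
      have hinj : Function.Injective (fun i : Fin p => z ^ (i : ℕ) • v0) := by
        intro i j hij
        have h1 : ((z ^ (j : ℕ))⁻¹ * z ^ (i : ℕ)) • v0 = v0 := by
          rw [mul_smul, inv_smul_eq_iff]; exact hij
        have h2 := hfix _ (mul_mem (inv_mem (pow_mem hzc _)) (pow_mem hzc _)) v0 hv0 h1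
        rw [inv_mul_eq_one, pow_eq_pow_iff_modEq, hzo] at h2
        exact Fin.ext (h2.symm.eq_of_lt_of_lt i.2 j.2)
      refine hρ (LinearEquiv.ext fun w => ?_)
      rw [map_one]
      rcases eq_or_ne w 0 with rfl | hw
      · simp
      · let φ : Fin p → MulAction.orbit G v0 := fun i => ⟨_, MulAction.mem_orbit v0 (z ^ (i : ℕ))⟩
        have hφ : Function.Bijective φ := (Nat.bijective_iff_injective_and_card φ).mpr
          ⟨fun i j hij => hinj (congrArg Subtype.val hij), by rw [horbc, Nat.card_fin]; omega⟩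
        obtain ⟨i, hi⟩ := hφ.2 ⟨w, by rw [horb]; exact hw⟩
        have hi' : z ^ (i : ℕ) • v0 = w := congrArg Subtype.val hi
        show g • w = w
        rw [← hi', ← mul_smul, Subgroup.mem_center_iff.mp (pow_mem hzc _) g, mul_smul, hg]
    exact ⟨rfl, by omega, (hFinCase hreg).trans (pow_one p)⟩
  · right
    have hqo : Odd q := hq.odd_of_ne_two hq2
    have hp2 : p = 2 := by
      by_contra h
      have h1 : Odd (p ^ a) := (hp.odd_of_ne_two h).pow
      have h2 : Odd (q ^ n) := hqo.pow
      rw [hkey] at h2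
      exact Nat.not_even_iff_odd.mpr h2 (h1.add_one)
    subst hp2
    rcases fermat_exponent hq hn0 hq2 hkey with hn1 | ⟨hq3, hn2⟩
    · left
      rw [hn1, pow_one] at hV hkey
      have hscal : ∀ w : V, ∃ c : ZMod q, c • v0 = w := by
        intro w
        exact exists_smul_eq_of_finrank_eq_one (hndef ▸ hn1) hv0 w
      choose c hc using hscal
      have hlin : ∀ (g : G) (w : V), ρ g w = c (ρ g v0) • w := by
        intro g w
        conv_lhs => rw [← hc w, map_smul, ← hc (ρ g v0)]
        conv_rhs => rw [← hc w]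
        rw [smul_smul, smul_smul, mul_comm]
      have hcinj : ∀ {s t : ZMod q}, s • v0 = t • v0 → s = t := fun h => smul_left_injective _ hv0 h
      let χ : G →* ZMod q :=
        { toFun := fun g => c (ρ g v0)
          map_one' := hcinj (by rw [hc, map_one, one_smul]; rfl)
          map_mul' := fun g h => hcinj (by
            rw [hc, mul_smul, hc, map_mul]
            exact (hlin g (ρ h v0))) }
      have hχ : Function.Injective χ.toHomUnits := by
        intro g h hgh
        have : χ g = χ h := congrArg Units.val hgh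
        refine hρ (LinearEquiv.ext fun w => ?_)
        rw [hlin g w, hlin h w]
        exact congrArg (· • w) this
      haveI : IsCyclic G := isCyclic_of_injective _ hχ
      have hreg : ∀ g : G, g • v0 = v0 → g = 1 := by
        intro g hg
        refine hρ (LinearEquiv.ext fun w => ?_)
        have hg1 : c (ρ g v0) = 1 := hcinj (by rw [hc, one_smul]; exact hg)
        rw [hlin, hg1, one_smul, map_one]
        rfl
      exact ⟨rfl, hV, ⟨a, by omega, hFinCase hreg⟩, inferInstance⟩
    · right
      subst hq3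
      rw [hn2] at hV hkey
      have ha3 : a = 3 := Nat.pow_right_injective (le_refl 2) (show 2 ^ a = 2 ^ 3 by norm_num at hkey ⊢; omega)
      subst ha3
      refine ⟨rfl, rfl, by rw [hV]; rfl, ?_⟩
      haveI : Fact (Nat.Prime 2) := ⟨Nat.prime_two⟩
      let b := Module.finBasisOfFinrankEq (ZMod 3) V hn2
      let M : G →* Matrix (Fin 2) (Fin 2) (ZMod 3) :=
        { toFun := fun g => LinearMap.toMatrixAlgEquiv b (ρ g : V →ₗ[ZMod 3] V)
          map_one' := by rw [map_one]; exact map_one (LinearMap.toMatrixAlgEquiv b)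
          map_mul' := fun g h => by
            rw [map_mul, ← map_mul (LinearMap.toMatrixAlgEquiv b)]
            rfl }
      let f : G →* GL (Fin 2) (ZMod 3) := M.toHomUnits
      have hf : Function.Injective f := by
        intro g h hgh
        have h1 : M g = M h := congrArg Units.val hgh
        refine hρ (LinearEquiv.toLinearMap_injective ?_)
        exact (LinearMap.toMatrixAlgEquiv b).injective h1
      have h16 : Nat.card G ∣ 16 := by
        have h48 : Nat.card G ∣ 48 := by
          have := Subgroup.card_dvd_of_injective f hf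
          rwa [Matrix.card_GL_field, Fin.prod_univ_two, ZMod.card,
            show (3 ^ 2 - 3 ^ ((0 : Fin 2) : ℕ)) * (3 ^ 2 - 3 ^ ((1 : Fin 2) : ℕ)) = 48 by norm_num] at this
        rw [hN] at h48 ⊢
        exact Nat.Coprime.dvd_of_dvd_mul_right (Nat.Coprime.pow_left N (by norm_num))
          (show 2 ^ N ∣ 16 * 3 from h48)
      have h8 : 8 ∣ Nat.card G := by rw [ha] at hdvd; simpa using hdvd
      have hcases : Nat.card G = 8 ∨ Nat.card G = 16 := by
        have hle := Nat.le_of_dvd (by norm_num) h16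
        have hge := Nat.le_of_dvd Nat.card_pos h8
        obtain ⟨k, hk⟩ := h8
        omega
      rcases hcases with h8 | h16
      · have hreg : ∀ (g : G) (v : V), v ≠ 0 → g • v = v → g = 1 := by
          intro g v hv hgv
          have horbv : MulAction.orbit G v = {w : V | w ≠ 0} := by
            rw [← horb]
            obtain ⟨k, hk⟩ := htrans v0 v hv0 hv
            exact MulAction.orbit_eq_iff.mpr ⟨k, hk⟩
          have hst : Nat.card (MulAction.stabilizer G v) = 1 := by
            have h1 := (MulAction.stabilizer G v).card_mul_index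
            rw [MulAction.index_stabilizer, h8, horbv,
              show {w : V | w ≠ 0}.ncard = 8 by
                rw [← Nat.card_coe_set_eq, ← horb, horbc, hV]; norm_num] at h1
            omega
          exact (Subgroup.eq_bot_iff_forall _).mp (Subgroup.card_eq_one.mp hst) g hgv
        have hinv : ∀ g : G, g ^ 2 = 1 → g ≠ 1 → ∀ v : V, ρ g v = -v := by
          intro g hg hg1 v
          have hs : g • (v + ρ g v) = v + ρ g v := by
            rw [hsmul, map_add, ← hsmul g (ρ g v), ← hsmul g v, ← mul_smul, ← pow_two, hg, one_smul,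
              add_comm]
          by_contra hne
          exact hg1 (hreg g _ (fun h => hne (eq_neg_of_add_eq_zero_right h)) hs)
        have huniq : ∀ H K : Subgroup G, Nat.card H = 2 → Nat.card K = 2 → H = K := by
          have key : ∀ H : Subgroup G, Nat.card H = 2 → ∃ g ∈ H, g ^ 2 = 1 ∧ g ≠ 1 ∧ ∀ h ∈ H, h = 1 ∨ h = g := by
            intro H hH
            obtain ⟨⟨g, hg⟩, hg1, huniq⟩ := (Nat.card_eq_two_iff' (1 : H)).mp hH
            refine ⟨g, hg, ?_, fun h => hg1 (Subtype.ext h), fun h hh => ?_⟩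
            · have := pow_card_eq_one' (G := H) (x := ⟨g, hg⟩)
              rw [hH] at this
              exact congrArg Subtype.val this
            · by_cases h1 : h = 1
              · exact Or.inl h1
              · exact Or.inr (congrArg Subtype.val (huniq ⟨h, hh⟩ fun e => h1 (congrArg Subtype.val e)))
          intro H K hH hK
          obtain ⟨g, hg, hg2, hg1, hgu⟩ := key H hH
          obtain ⟨k, hk, hk2, hk1, hku⟩ := key K hK
          have hgk : g = k := hρ (LinearEquiv.ext fun v => by rw [hinv g hg2 hg1, hinv k hk2 hk1])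
          subst hgk
          ext h
          constructor
          · intro hh; rcases hgu h hh with rfl | rfl
            · exact one_mem _
            · exact hk
          · intro hh; rcases hku h hh with rfl | rfl
            · exact one_mem _
            · exact hg
        rcases Cfsg.Agent.H21.cyclic_or_quaternion 2 hG huniq with hc | ⟨-, k, ⟨e⟩⟩
        · exact Or.inl ⟨hc, h8⟩
        · refine Or.inr (Or.inl ?_)
          have h1 := Nat.card_congr e.toEquiv
          haveI : NeZero (2 ^ k) := ⟨pow_ne_zero k two_ne_zero⟩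
          rw [h8, Nat.card_eq_fintype_card, QuaternionGroup.card] at h1
          have hk : 2 ^ k = 2 := by omega
          exact ⟨hk ▸ e⟩
      · exact Or.inr (Or.inr ⟨quasiDihedral_of_gl h16 f hf, h16⟩)

end Cfsg.Agent.S3370
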