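import Cfsg.Statements.S0218
import Cfsg.Agent.H28.Dihedral

set_option autoImplicit false
open Cfsg

namespace Cfsg.Agent.S0218

/-- The generalized quaternion group of order 2^(n+3) contains exactly one element of order 2. -/
theorem result (n : ℕ) : Nat.card {x : QuaternionGroup (2 ^ (n + 1)) // orderOf x = 2} = 1 := by
  rw [Nat.card_eq_one_iff_unique]
  have key : ∀ x : QuaternionGroup (2 ^ (n + 1)), orderOf x = 2 →
      x = QuaternionGroup.a ((2 ^ (n + 1) : ℕ) : ZMod (2 * 2 ^ (n + 1))) := by
    intro x hx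
    rcases x with i | i
    · have h2 : i + i = 0 := by
        have := H28.mul_self_of_orderOf_two hx
        rw [QuaternionGroup.a_mul_a, ← QuaternionGroup.a_zero] at this
        exact QuaternionGroup.a.inj this
      have hne : i ≠ 0 := by
        intro e; exact H28.ne_one_of_orderOf_two hx (by rw [e, QuaternionGroup.a_zero])
      congr 1
      haveI : NeZero (2 * 2 ^ (n + 1)) := ⟨by positivity⟩
      obtain ⟨k, hk⟩ : 2 * 2 ^ (n + 1) ∣ i.val + i.val := by
        rw [← ZMod.natCast_eq_zero_iff]
        simpa using h2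
      have hlt := i.val_lt
      have hpos : i.val ≠ 0 := fun e => hne ((ZMod.val_eq_zero i).mp e)
      have hk1 : k = 1 := by
        rcases k with _ | _ | k
        · omega
        · rfl
        · nlinarith
      rw [← ZMod.natCast_zmod_val i]
      congr 1
      rw [hk1] at hk; omega
    · rw [QuaternionGroup.orderOf_xa] at hx; omega
  refine ⟨⟨fun p q => Subtype.ext ((key p.1 p.2).trans (key q.1 q.2).symm)⟩, ?_⟩
  have h : Nat.card (QuaternionGroup (2 ^ (n + 1))) = 4 * 2 ^ (n + 1) := by
    rw [Nat.card_eq_fintype_card, QuaternionGroup.card]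
  obtain ⟨x, hx⟩ := exists_prime_orderOf_dvd_card' (G := QuaternionGroup (2 ^ (n + 1))) 2
    (by rw [h]; exact Dvd.dvd.mul_right (by norm_num) _)
  exact ⟨⟨x, hx⟩⟩

end Cfsg.Agent.S0218
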