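import Cfsg.Statements.S4200
import Cfsg.Agent.H88.CommPairs

set_option autoImplicit false
open Cfsg

namespace Cfsg.Agent.S4200

/-- Let Y be a subgroup of the finite group X, of index m. Then the numbers of conjugacy classes satisfy k(Y) ≤ m·k(X) and k(X) ≤ m·k(Y), and the second inequality is strict unless Y is normal in X. -/
theorem result {X : Type*} [Group X] [Finite X] (Y : Subgroup X) : Nat.card (ConjClasses Y) ≤ Y.index * Nat.card (ConjClasses X) ∧ Nat.card (ConjClasses X) ≤ Y.index * Nat.card (ConjClasses Y) ∧ (¬ Y.Normal → Nat.card (ConjClasses X) < Y.index * Nat.card (ConjClasses Y)) := by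
  classical
  have hY : 0 < Nat.card Y := Nat.card_pos
  have hm : Nat.card Y * Y.index = Nat.card X := Y.card_mul_index
  have h1 := card_comm_eq_card_conjClasses_mul_card X
  have h2 := card_comm_eq_card_conjClasses_mul_card Y
  have hi : 0 < Y.index := Nat.pos_of_ne_zero Subgroup.index_ne_zero_of_finite
  refine ⟨?_, ?_, fun hn => ?_⟩
  · apply Nat.le_of_mul_le_mul_right _ hY
    calc Nat.card (ConjClasses Y) * Nat.card Y = Nat.card { p : Y × Y // Commute p.1 p.2 } := h2.symm
      _ ≤ Nat.card { p : X × X // Commute p.1 p.2 } := H88.card_comm_subgroup_le Y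
      _ = _ := by rw [h1, ← hm]; ring
  · apply Nat.le_of_mul_le_mul_right _ (Nat.mul_pos hY hi)
    calc Nat.card (ConjClasses X) * (Nat.card Y * Y.index)
        = Nat.card { p : X × X // Commute p.1 p.2 } := by rw [h1, hm]
      _ ≤ Y.index ^ 2 * Nat.card { p : Y × Y // Commute p.1 p.2 } := H88.card_comm_le_index_sq_mul Y
      _ = _ := by rw [h2]; ring
  · apply Nat.lt_of_mul_lt_mul_right (a := Nat.card Y * Y.index)
    calc Nat.card (ConjClasses X) * (Nat.card Y * Y.index)
        = Nat.card { p : X × X // Commute p.1 p.2 } := by rw [h1, hm]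
      _ < Y.index ^ 2 * Nat.card { p : Y × Y // Commute p.1 p.2 } := H88.card_comm_lt_index_sq_mul Y hn
      _ = _ := by rw [h2]; ring

end Cfsg.Agent.S4200
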