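import Cfsg.Statements.S3820
import Mathlib

set_option autoImplicit false
open Cfsg

namespace Cfsg.Agent.S3820

/-- Call a subgroup H of G pronormal if H and gHg⁻¹ are conjugate inside ⟨H, gHg⁻¹⟩ for every g ∈ G. Let S ≤ H ≤ G be subgroups of a finite group with S pronormal in G (for instance S a Sylow subgroup). Then H is pronormal in G if and only if H and gHg⁻¹ are conjugate inside ⟨H, gHg⁻¹⟩ for every g ∈ N_G(S). In particular H is pronormal whenever N_G(S) ≤ H. -/
theorem result {G : Type*} [Group G] [Finite G] (S H : Subgroup G) (hSH : S ≤ H)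
    (hS : Cfsg.IsPronormal S) :
    Cfsg.IsPronormal H ↔
      ∀ g ∈ Subgroup.normalizer (S : Set G), ∃ w ∈ H ⊔ H.map (MulAut.conj g).toMonoidHom,
        H.map (MulAut.conj g).toMonoidHom = H.map (MulAut.conj w).toMonoidHom := by
  refine ⟨fun h g _ => h g, fun h g => ?_⟩
  obtain ⟨x, hx, hxS⟩ := hS g
  have hxJ : x ∈ H ⊔ H.map (MulAut.conj g).toMonoidHom :=
    (sup_le_sup hSH (Subgroup.map_mono hSH)) hx
  -- `x⁻¹ g` normalises `S`
  have hn : x⁻¹ * g ∈ Subgroup.normalizer (S : Set G) := by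
    rw [Subgroup.mem_normalizer_iff]
    intro s
    constructor
    · intro hs
      have : g * s * g⁻¹ ∈ S.map (MulAut.conj x).toMonoidHom := by
        rw [← hxS]
        exact ⟨s, hs, by simp [MulAut.conj_apply]⟩
      obtain ⟨t, ht, hte⟩ := this
      simp [MulAut.conj_apply] at hte
      have hte' : x⁻¹ * g * s * (x⁻¹ * g)⁻¹ = t := by
        have : x⁻¹ * g * s * (x⁻¹ * g)⁻¹ = x⁻¹ * (g * s * g⁻¹) * x := by group
        rw [this, ← hte]; group
      exact SetLike.mem_coe.2 (hte' ▸ ht)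
    · intro hs
      have : x * (x⁻¹ * g * s * (x⁻¹ * g)⁻¹) * x⁻¹ ∈ S.map (MulAut.conj g).toMonoidHom := by
        rw [hxS]
        exact ⟨_, hs, by simp [MulAut.conj_apply]⟩
      obtain ⟨t, ht, hte⟩ := this
      simp [MulAut.conj_apply, mul_assoc] at hte
      exact SetLike.mem_coe.2 (hte ▸ ht)
  obtain ⟨w, hw, hwH⟩ := h _ hn
  have hle : H ⊔ H.map (MulAut.conj (x⁻¹ * g)).toMonoidHom ≤ H ⊔ H.map (MulAut.conj g).toMonoidHom := by
    refine sup_le le_sup_left ?_
    rintro _ ⟨a, ha, rfl⟩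
    have hga : g * a * g⁻¹ ∈ H ⊔ H.map (MulAut.conj g).toMonoidHom :=
      le_sup_right (a := H) ⟨a, ha, by simp [MulAut.conj_apply]⟩
    have := mul_mem (mul_mem (inv_mem hxJ) hga) hxJ
    simpa [MulAut.conj_apply, mul_assoc] using this
  refine ⟨x * w, mul_mem hxJ (hle hw), ?_⟩
  have e : ∀ a b : G, H.map (MulAut.conj (a * b)).toMonoidHom
      = (H.map (MulAut.conj b).toMonoidHom).map (MulAut.conj a).toMonoidHom := by
    intro a b
    rw [Subgroup.map_map]
    congr 1
    ext y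
    simp [MulAut.conj_apply, mul_assoc]
  calc H.map (MulAut.conj g).toMonoidHom = H.map (MulAut.conj (x * (x⁻¹ * g))).toMonoidHom := by
        rw [mul_inv_cancel_left]
    _ = H.map (MulAut.conj (x * w)).toMonoidHom := by rw [e, hwH, ← e]

end Cfsg.Agent.S3820
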