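import Cfsg.Statements.S0730
import Cfsg.Agent.H7.ZassPGL
import Cfsg.Agent.H7.ZassEvenQ
import Cfsg.Agent.H1.ProjectiveLine
-- import your own Cfsg.Agent.* helpers here

set_option autoImplicit false
open Cfsg

namespace Cfsg.Agent.S0730

/-- A sharply triply transitive group of degree `p^f + 1`, `p` an odd prime and `f` odd, is isomorphic to the projective general linear group of degree 2 over the field with `p^f` elements (for even `f` there is a second, twisted, group). -/
theorem result {α : Type*} [Fintype α] [DecidableEq α] {p f : ℕ} (hp : p.Prime) (hp2 : p ≠ 2) (hfo : Odd f) (hα : Fintype.card α = p ^ f + 1) (G : Subgroup (Equiv.Perm α)) (h3 : MulAction.IsMultiplyPretransitive G α 3) (hsharp : ∀ x : Fin 3 ↪ α, MulAction.stabilizer G x = ⊥) : ∃ (F : Type) (_ : Field F) (_ : Fintype F), Fintype.card F = p ^ f ∧ Nonempty (G ≃* Matrix.ProjGenLinGroup (Fin 2) F) := by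
  haveI : Fact p.Prime := ⟨hp⟩
  rcases Nat.lt_or_ge (Fintype.card α) 6 with h5 | h5
  · -- degree four
    have hp3 : 3 ≤ p := by have := hp.two_le; omega
    have hpf : p ^ f = 3 := by
      have h1 : p ≤ p ^ f := Nat.le_self_pow hfo.pos.ne' p
      obtain ⟨k, hk⟩ := (hp.odd_of_ne_two hp2).pow (n := f)
      omega
    obtain rfl : p = 3 := by have := Nat.le_self_pow hfo.pos.ne' p; omega
    haveI : Fact (Nat.Prime 3) := ⟨Nat.prime_three⟩
    refine ⟨ZMod 3, inferInstance, inferInstance, by simp [hpf], ?_⟩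
    letI : Fintype (Projectivization (ZMod 3) (Fin 2 → ZMod 3)) := Fintype.ofFinite _
    have hP : Fintype.card (Projectivization (ZMod 3) (Fin 2 → ZMod 3)) = 4 := by
      rw [Fintype.card_eq_nat_card, Projectivization.card_of_finrank_two _ _ (by simp), Nat.card_zmod]
    obtain ⟨hP3, hPs⟩ := @Cfsg.Agent.H1.PGL_two_sharply_three_transitive (ZMod 3) _
    haveI : FaithfulSMul (Matrix.ProjGenLinGroup (Fin 2) (ZMod 3)) (Projectivization (ZMod 3) (Fin 2 → ZMod 3)) := by
      refine ⟨fun {g k} h => ?_⟩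
      have e := (Fintype.equivFinOfCardEq hP).symm
      refine (inv_mul_eq_one.1 (hPs (k⁻¹ * g) (e 0) (e 1) (e 2) (e.injective.ne (by decide))
        (e.injective.ne (by decide)) (e.injective.ne (by decide)) ?_ ?_ ?_)).symm
      all_goals rw [mul_smul, h, inv_smul_smul]
    obtain ⟨e⟩ : Nonempty (α ≃ Projectivization (ZMod 3) (Fin 2 → ZMod 3)) :=
      ⟨Fintype.equivOfCardEq (by rw [hP, hα, hpf])⟩
    exact ⟨((MulEquiv.ofBijective _ (Cfsg.Agent.H7.toPerm_bijective_four h3 (by rw [hα, hpf]))).trans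
      e.permCongrHom).trans (MulEquiv.ofBijective _ (Cfsg.Agent.H7.toPerm_bijective_four hP3 hP)).symm⟩
  · obtain ⟨Z, hc⟩ := Cfsg.Agent.H7.ZHyp.of_sharply (by omega) h3 hsharp
    obtain ⟨a, b, hab⟩ := Fintype.exists_pair_of_one_lt_card (show 1 < Fintype.card α by omega)
    exact Z.pgl_of_sharp hab hp hp2 hfo hα h5 (hc hab)

end Cfsg.Agent.S0730
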