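import Cfsg.Statements.S3008
import Cfsg.Agent.H75.CLInvariant

set_option autoImplicit false
set_option linter.all false
open Cfsg

namespace Cfsg.Agent.S3008
open Cfsg.Agent.H74 Cfsg.Agent.H75

/-- Let P be a finite p-group, with J(P) generated by its abelian subgroups of largest order and J̃(P) = C_P(Z(J(P))); call R ≤ P centrally large if |R|·|Z(R)| is as large as possible, and let P_MCL be generated by the minimal centrally large subgroups. Then: for every centrally large Q, Q·J(P) ⊇ J̃(P); some minimal centrally large subgroup of P is normalized by both J(P) and P_MCL; if P = J(P) and d(P)² = |P|·|Z(P)|, where d(P) is the largest order of an abelian subgroup, then every minimal centrally large subgroup of P is abelian; and if every minimal centrally large subgroup is abelian then J̃(P) = J(P). -/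
theorem result {p : ℕ} [Fact p.Prime] (P : Type*) [Group P] [Finite P] (hP : IsPGroup p P) : (∀ Q : Subgroup P, Cfsg.IsCentrallyLarge Q → Subgroup.centralizer ((Cfsg.thompsonSubgroupA P ⊓ Subgroup.centralizer (Cfsg.thompsonSubgroupA P : Set P) : Subgroup P) : Set P) ≤ Q ⊔ Cfsg.thompsonSubgroupA P) ∧ (∃ Q : Subgroup P, Cfsg.IsMinimalCentrallyLarge Q ∧ Cfsg.thompsonSubgroupA P ≤ Subgroup.normalizer (Q : Set P) ∧ Cfsg.minimalCentrallyLargeJoin P ≤ Subgroup.normalizer (Q : Set P)) ∧ (Cfsg.thompsonSubgroupA P = ⊤ → (∀ A ∈ Cfsg.maxAbelianSubgroups P, Nat.card ↥A ^ 2 = Nat.card P * Nat.card ↥(Subgroup.center P)) → ∀ Q : Subgroup P, Cfsg.IsMinimalCentrallyLarge Q → IsMulCommutative ↥Q) ∧ ((∀ Q : Subgroup P, Cfsg.IsMinimalCentrallyLarge Q → IsMulCommutative ↥Q) → Subgroup.centralizer ((Cfsg.thompsonSubgroupA P ⊓ Subgroup.centralizer (Cfsg.thompsonSubgroupA P : Set P) : Subgroup P) : Set P) = Cfsg.thompsonSubgroupA P) := by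
  refine ⟨fun Q hQ => centralizer_centerThompson_le hQ, exists_minimal_normalized hP, ?_, ?_⟩
  · intro hJ hd Q hQ
    obtain ⟨A, hA⟩ := exists_maxAbelian (G := P)
    have htop : Cfsg.IsCentrallyLarge (⊤ : Subgroup P) := by
      have := centrallyLarge_sup_thompson hQ.1
      rwa [hJ, sup_top_eq] at this
    have hM : Nat.card ↥(⊤ : Subgroup P) * Nat.card ↥(Subgroup.centralizer ((⊤ : Subgroup P) : Set P)) =
        Cfsg.maxCentralizerProduct P := (centrallyLarge_iff.mp htop).1
    rw [Subgroup.coe_top, Subgroup.centralizer_univ, Subgroup.card_top] at hM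
    have hAc := centralizer_eq_of_maxAbelian hA
    have hAcl : Cfsg.IsCentrallyLarge A := by
      refine centrallyLarge_iff.mpr ⟨?_, hAc.le⟩
      show _ * _ = _
      rw [hAc, ← pow_two, hd A hA, hM]
    obtain ⟨R, hRA, hR⟩ := exists_minimal_le hAcl
    have hRab : ⁅R, R⁆ = ⊥ := Subgroup.commutator_eq_bot_iff_le_centralizer.mpr
      (hRA.trans (hAc.ge.trans (Subgroup.centralizer_le hRA)))
    refine Subgroup.le_centralizer_iff_isMulCommutative.mp
      (Subgroup.commutator_eq_bot_iff_le_centralizer.mp ?_)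
    rw [minimal_commutator_eq hQ hR, hRab]
  · intro hab
    refine le_antisymm ?_ (Subgroup.le_centralizer_iff.mp inf_le_right)
    obtain ⟨Q, hQ⟩ := exists_minimalCentrallyLarge (G := P)
    refine (centralizer_centerThompson_le hQ.1).trans (sup_le ?_ le_rfl)
    exact le_sSup ((minimal_iff_maxAbelian hQ (Subgroup.commutator_eq_bot_iff_le_centralizer.mpr
      (Subgroup.le_centralizer_iff_isMulCommutative.mpr (hab Q hQ))) Q).mp hQ)

end Cfsg.Agent.S3008
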