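import Cfsg.Statements.S3377
import Cfsg.Agent.H78.Icosahedral

set_option autoImplicit false
open Cfsg

namespace Cfsg.Agent.S3377

open Equiv

theorem card_alt_five : Nat.card (alternatingGroup (Fin 5)) = 60 := by
  rw [nat_card_alternatingGroup, Nat.card_eq_fintype_card, Fintype.card_fin]
  rfl

/-- A subgroup of `Alt(5)` containing elements of orders 2, 3, 5 is the whole group. -/
theorem eq_top_of_elements (R : Subgroup (alternatingGroup (Fin 5))) {a b c : R}
    (ha : orderOf a = 2) (hb : orderOf b = 3) (hc : orderOf c = 5) : R = ⊤ := by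
  have h2 : 2 ∣ Nat.card R := by have := orderOf_dvd_natCard a; rwa [ha] at this
  have h3 : 3 ∣ Nat.card R := by have := orderOf_dvd_natCard b; rwa [hb] at this
  have h5 : 5 ∣ Nat.card R := by have := orderOf_dvd_natCard c; rwa [hc] at this
  have h30 : 30 ∣ Nat.card R :=
    Nat.Coprime.mul_dvd_of_dvd_of_dvd (m := 6) (n := 5) (by norm_num)
      (Nat.Coprime.mul_dvd_of_dvd_of_dvd (m := 2) (n := 3) (by norm_num) h2 h3) h5
  have hm := R.card_mul_index
  rw [card_alt_five] at hm
  obtain ⟨k, hk⟩ := h30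
  rw [hk] at hm
  have hki : k * R.index = 2 := by nlinarith
  have hi : R.index ∣ 2 := Dvd.intro_left k hki
  rcases (Nat.dvd_prime Nat.prime_two).mp hi with h | h
  · exact Subgroup.index_eq_one.mp h
  · have hn : R.Normal := Subgroup.normal_of_index_eq_two h
    haveI : IsSimpleGroup (alternatingGroup (Fin 5)) := alternatingGroup.isSimpleGroup_five
    rcases hn.eq_bot_or_eq_top with h' | h'
    · rw [h', Subgroup.index_bot, card_alt_five] at h
      norm_num at h
    · exact h'

/-- The alternating group of degree 5 has the presentation ⟨x, y | x³ = 1, y⁵ = 1, (xy)² = 1⟩: the group so presented is isomorphic to Alt(5). -/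
theorem result :
    Nonempty (PresentedGroup ({FreeGroup.of (0 : Fin 2) ^ 3, FreeGroup.of (1 : Fin 2) ^ 5,
        (FreeGroup.of (0 : Fin 2) * FreeGroup.of 1) ^ 2} : Set (FreeGroup (Fin 2))) ≃* alternatingGroup (Fin 5)) := by
  set rels : Set (FreeGroup (Fin 2)) := {FreeGroup.of (0 : Fin 2) ^ 3, FreeGroup.of (1 : Fin 2) ^ 5,
        (FreeGroup.of (0 : Fin 2) * FreeGroup.of 1) ^ 2} with hrels
  let a : alternatingGroup (Fin 5) :=
    ⟨swap 0 2 * swap 0 3, Equiv.Perm.mem_alternatingGroup.mpr (by decide)⟩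
  let b : alternatingGroup (Fin 5) := ⟨finRotate 5, Equiv.Perm.mem_alternatingGroup.mpr (by decide)⟩
  have ha : a ^ 3 = 1 := by decide
  have hb : b ^ 5 = 1 := by decide
  have hab : (a * b) ^ 2 = 1 := by decide
  have ha1 : a ≠ 1 := by decide
  have hb1 : b ≠ 1 := by decide
  have hab1 : a * b ≠ 1 := by decide
  let f : Fin 2 → alternatingGroup (Fin 5) := ![a, b]
  have hf : ∀ r ∈ rels, FreeGroup.lift f r = 1 := by
    rintro r (rfl | rfl | rfl)
    · rw [map_pow, FreeGroup.lift_apply_of]; exact ha
    · rw [map_pow, FreeGroup.lift_apply_of]; exact hb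
    · rw [map_pow, map_mul, FreeGroup.lift_apply_of, FreeGroup.lift_apply_of]; exact hab
  let φ := PresentedGroup.toGroup hf
  set x : PresentedGroup rels := PresentedGroup.of 0 with hxdef
  set y : PresentedGroup rels := PresentedGroup.of 1 with hydef
  have hx : x ^ 3 = 1 := by
    have h := PresentedGroup.one_of_mem (rels := rels) (Set.mem_insert (FreeGroup.of (0 : Fin 2) ^ 3) _)
    rwa [map_pow] at h
  have hy : y ^ 5 = 1 := by
    have h := PresentedGroup.one_of_mem (rels := rels)
      (Set.mem_insert_of_mem _ (Set.mem_insert (FreeGroup.of (1 : Fin 2) ^ 5) _))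
    rwa [map_pow] at h
  have hxy : (x * y) ^ 2 = 1 := by
    have h := PresentedGroup.one_of_mem (rels := rels)
      (Set.mem_insert_of_mem _ (Set.mem_insert_of_mem _ (Set.mem_singleton _)))
    rwa [map_pow, map_mul] at h
  have hgen : Subgroup.closure ({x, y} : Set (PresentedGroup rels)) = ⊤ := by
    rw [eq_top_iff, ← PresentedGroup.closure_range_of rels, Subgroup.closure_le]
    rintro _ ⟨i, rfl⟩
    fin_cases i
    · exact Subgroup.subset_closure (Or.inl rfl)
    · exact Subgroup.subset_closure (Or.inr rfl)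
  obtain ⟨hfin, hcard⟩ := Cfsg.Agent.H78.icosahedral_card_le hx hy hxy hgen
  have hφx : φ x = a := PresentedGroup.toGroup.of hf
  have hφy : φ y = b := PresentedGroup.toGroup.of hf
  have hsurj : Function.Surjective φ := by
    rw [← MonoidHom.range_eq_top]
    haveI := Fact.mk Nat.prime_two
    haveI := Fact.mk Nat.prime_three
    haveI : Fact (Nat.Prime 5) := ⟨by norm_num⟩
    refine eq_top_of_elements φ.range (a := ⟨a * b, x * y, by rw [map_mul, hφx, hφy]⟩)
      (b := ⟨a, x, hφx⟩) (c := ⟨b, y, hφy⟩) ?_ ?_ ?_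
    · rw [← Subgroup.orderOf_coe]; exact orderOf_eq_prime hab hab1
    · rw [← Subgroup.orderOf_coe]; exact orderOf_eq_prime ha ha1
    · rw [← Subgroup.orderOf_coe]; exact orderOf_eq_prime hb hb1
  refine ⟨MulEquiv.ofBijective φ ((Nat.bijective_iff_surjective_and_card φ).mpr ⟨hsurj, ?_⟩)⟩
  exact le_antisymm (hcard.trans card_alt_five.ge) (Nat.card_le_card_of_surjective φ hsurj)

end Cfsg.Agent.S3377
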