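import Cfsg.Statements.S0014
import Cfsg.Agent.H19.Frattini

set_option autoImplicit false
open Cfsg

namespace Cfsg.Agent.S0014

/-- Burnside's basis Theorem: in a finite p-group whose Frattini quotient has order p ^ n, every generating set contains n elements that already generate, and no set with fewer than n elements generates. -/
theorem result {G : Type*} [Group G] [Finite G] (p n : ℕ) [Fact p.Prime]
    (hG : IsPGroup p G) (hn : (frattini G).index = p ^ n) :
    (∀ S : Finset G, Subgroup.closure (S : Set G) = ⊤ → ∃ T : Finset G, T ⊆ S ∧ T.card = n ∧ Subgroup.closure (T : Set G) = ⊤) ∧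
    (∀ T : Finset G, Subgroup.closure (T : Set G) = ⊤ → n ≤ T.card) := by
  classical
  obtain ⟨hc, hp⟩ := Cfsg.Agent.H19.commutator_pow_mem_frattini hG
  constructor
  · intro S hS
    obtain ⟨T, hT, hTc, hTtop⟩ := Cfsg.Agent.H19.exists_basis_subset hp hc n (frattini G) le_rfl hn S
      (by rw [hS, sup_top_eq])
    exact ⟨T, hT, hTc, frattini_nongenerating (by rwa [sup_comm] at hTtop)⟩
  · intro T hT
    have h := Cfsg.Agent.H19.index_dvd_pow_card hp hc T (frattini G) le_rfl (by rw [hT, sup_top_eq])
    rw [hn] at h
    exact (Nat.pow_dvd_pow_iff_le_right (Fact.out (p := p.Prime)).one_lt).1 h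

end Cfsg.Agent.S0014
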