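import Cfsg.Statements.S0805
import Cfsg.Agent.H6.Applications
import Cfsg.Agent.H1.Orders

set_option autoImplicit false
open Cfsg

namespace Cfsg.Agent.S0805

open Cfsg.Agent.H6 Matrix MatrixGroups

lemma exists_sub_one {r : ℕ} (hr : Odd r) : ∀ m : ℕ,
    ∃ s, (r ^ 2) ^ m - 1 = (r ^ 2 - 1) * s ∧ s % 2 = m % 2 := by
  intro m
  induction m with
  | zero => exact ⟨0, by simp⟩
  | succ m ih =>
    obtain ⟨s, hs, hs2⟩ := ih
    refine ⟨r ^ 2 * s + 1, ?_, ?_⟩
    · obtain ⟨A, hA⟩ : ∃ A, (r ^ 2) ^ m = A + 1 :=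
        ⟨_, (Nat.sub_add_cancel (Nat.one_le_pow _ _ (pow_pos hr.pos 2))).symm⟩
      obtain ⟨B, hB⟩ : ∃ B, r ^ 2 = B + 1 :=
        ⟨_, (Nat.sub_add_cancel (Nat.one_le_pow 2 _ hr.pos)).symm⟩
      rw [hA, hB, Nat.add_sub_cancel, Nat.add_sub_cancel] at hs
      rw [pow_succ, hA, hB, hs, Nat.add_sub_cancel,
        show (B * s + 1) * (B + 1) = B * ((B + 1) * s + 1) + 1 by ring, Nat.add_sub_cancel]
    · have h1 : r ^ 2 % 2 = 1 := Nat.odd_iff.1 hr.pow
      rw [Nat.add_mod, Nat.mul_mod, h1, one_mul, Nat.mod_mod, hs2]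
      omega

lemma exists_ringHom {F K : Type*} [Field F] [Fintype F] [Field K] [Fintype K] {m : ℕ}
    (hm : 1 ≤ m) (h : Fintype.card K ^ m = Fintype.card F) : Nonempty (K →+* F) := by
  obtain ⟨p, hpc⟩ := CharP.exists K
  have := Fact.mk (CharP.char_is_prime K p)
  obtain ⟨a, hp, ha⟩ := FiniteField.card K p
  obtain ⟨p', hpc'⟩ := CharP.exists F
  obtain ⟨b, hp', hb⟩ := FiniteField.card F p'
  have hd : p ∣ p' ^ (b : ℕ) := by
    rw [← hb, ← h, ha]
    exact dvd_pow (dvd_pow_self p a.ne_zero) (by omega)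
  obtain rfl := (Nat.prime_dvd_prime_iff_eq hp hp').1 (hp.dvd_of_dvd_pow hd)
  let := ZMod.algebra K p
  let := ZMod.algebra F p
  have h1 : Fintype.card K = p ^ Module.finrank (ZMod p) K := by
    rw [Module.card_eq_pow_finrank (K := ZMod p), ZMod.card]
  have h2 : Fintype.card F = p ^ Module.finrank (ZMod p) F := by
    rw [Module.card_eq_pow_finrank (K := ZMod p), ZMod.card]
  have hdvd : Module.finrank (ZMod p) K ∣ Module.finrank (ZMod p) F := by
    rw [h1, ← pow_mul, h2] at h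
    exact ⟨m, (Nat.pow_right_injective hp.two_le h).symm⟩
  exact ⟨(FiniteField.nonempty_algHom_of_finrank_dvd hdvd).some.toRingHom⟩

/-- Subfield subgroups: let F be a finite field of odd order q and K a finite field with |K|^m = q, m ≥ 1. Then PSL_2(F) has a subgroup isomorphic to PSL_2(K), and has a subgroup isomorphic to PGL_2(K) if and only if m is even. -/
theorem result {F K : Type*} [Field F] [Fintype F] [Field K] [Fintype K] {q : ℕ} (hF : Fintype.card F = q) (hodd : Odd q) (m : ℕ) (hm : 1 ≤ m) (hK : Fintype.card K ^ m = q) : (∃ H : Subgroup (Matrix.ProjectiveSpecialLinearGroup (Fin 2) F), Nonempty (H ≃* Matrix.ProjectiveSpecialLinearGroup (Fin 2) K)) ∧ ((∃ H : Subgroup (Matrix.ProjectiveSpecialLinearGroup (Fin 2) F), Nonempty (H ≃* Matrix.ProjGenLinGroup (Fin 2) K)) ↔ Even m) := by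
  obtain ⟨ι⟩ := exists_ringHom (F := F) hm (hK.trans hF.symm)
  set r := Fintype.card K
  have hrodd : Odd r := by
    rcases Nat.even_or_odd r with h | h
    · exact absurd (hK ▸ Nat.even_pow.2 ⟨h, by omega⟩ : Even q) (Nat.not_even_iff_odd.2 hodd)
    · exact h
  have hr2 : 2 ≤ r := Fintype.one_lt_card
  have h2 : (2 : F) ≠ 0 := two_ne_of_odd hF hodd
  refine ⟨⟨(pslMap ι).range, ⟨(MonoidHom.ofInjective (pslMap_injective ι)).symm⟩⟩, ?_, fun hev => ?_⟩
  · rintro ⟨H, ⟨e⟩⟩
    by_contra hcon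
    rw [Nat.not_even_iff_odd] at hcon
    have hdvd : Nat.card (Matrix.ProjGenLinGroup (Fin 2) K) ∣ Nat.card PSL(2, F) := by
      rw [← Nat.card_congr e.toEquiv]
      exact Subgroup.card_subgroup_dvd_card H
    rw [Cfsg.Agent.H1.card_PGL, card_sl2 (rfl : Fintype.card K = r)] at hdvd
    have h3 := Nat.mul_dvd_mul hdvd (dvd_refl 2)
    have hq2 : Nat.gcd 2 (q - 1) = 2 :=
      Nat.gcd_eq_left (by have := Nat.odd_iff.1 hodd; omega)
    have hpsl := card_psl2_mul (F := F) hF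
    rw [hq2] at hpsl
    rw [hpsl] at h3
    obtain ⟨s, hs, hs2⟩ := exists_sub_one hrodd m
    have hqs : q ^ 2 - 1 = (r ^ 2 - 1) * s := by
      rw [← hs, ← hK, ← pow_mul, ← pow_mul, mul_comm]
    rw [hqs, show r * (r ^ 2 - 1) * 2 = (r ^ 2 - 1) * (r * 2) by ring,
      show q * ((r ^ 2 - 1) * s) = (r ^ 2 - 1) * (q * s) by ring] at h3
    have h4 := Nat.dvd_of_mul_dvd_mul_left (by
      have : 2 ^ 2 ≤ r ^ 2 := Nat.pow_le_pow_left hr2 2
      omega) h3
    have h5 : 2 ∣ q * s := (dvd_mul_left 2 r).trans h4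
    rw [Nat.prime_two.dvd_mul] at h5
    have := Nat.odd_iff.1 hodd
    have := Nat.odd_iff.1 hcon
    omega
  · have hsq : ∀ x : K, IsSquare (ι x) := by
      intro x
      by_cases hx : x = 0
      · simp [hx]
      have hchar : ringChar F ≠ 2 := fun hc => h2 (by
        have := ringChar.Nat.cast_ringChar (R := F)
        rw [hc] at this
        exact_mod_cast this)
      rw [FiniteField.isSquare_iff hchar (by simpa using hx), hF]
      obtain ⟨j, rfl⟩ := hev
      obtain ⟨t, ht, -⟩ := exists_sub_one hrodd j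
      obtain ⟨u, hu⟩ : ∃ u, r + 1 = 2 * u := ⟨(r + 1) / 2, by have := Nat.odd_iff.1 hrodd; omega⟩
      have hq1 : q - 1 = (r - 1) * u * t * 2 := by
        rw [← hK, show j + j = 2 * j by ring, pow_mul, ht,
          show r ^ 2 - 1 = (r + 1) * (r - 1) by rw [← Nat.sq_sub_sq, one_pow], hu]
        ring
      have he : q / 2 = (r - 1) * u * t := by
        have := Nat.odd_iff.1 hodd
        omega
      rw [← map_pow, he, mul_assoc, pow_mul, FiniteField.pow_card_sub_one_eq_one x hx, one_pow,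
        map_one]
    exact ⟨(pglMap ι hsq).range, ⟨(MonoidHom.ofInjective (pglMap_injective ι hsq)).symm⟩⟩

end Cfsg.Agent.S0805
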