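import Cfsg.Statements.S0810
import Cfsg.Agent.H6.Applications
import Cfsg.Agent.H6.Exist
import Cfsg.Agent.H1.PSLSimple

set_option autoImplicit false
open Cfsg

namespace Cfsg.Agent.S0810

open Cfsg.Agent.H6 Matrix MatrixGroups

variable {F : Type*} [Field F] [Fintype F] {q : ℕ}

lemma isSimple (hF : Fintype.card F = q) (h4 : 4 ≤ q) :
    IsSimpleGroup PSL(2, F) ∧ ¬ IsMulCommutative PSL(2, F) := by
  classical
  obtain ⟨x, hx⟩ : ∃ x : F, x ≠ 0 ∧ x ^ 2 ≠ 1 := by
    by_contra hc
    push Not at hc
    have hsub : (Finset.univ : Finset F) ⊆ {0, 1, -1} := by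
      intro x _
      by_cases hx : x = 0
      · simp [hx]
      · rcases sq_eq_one_iff.mp (hc x hx) with h' | h' <;> simp [h']
    have := Finset.card_le_card hsub
    rw [Finset.card_univ, hF] at this
    have h3 : ({0, 1, -1} : Finset F).card ≤ 3 := Finset.card_le_three
    omega
  refine ⟨Cfsg.Agent.H1.isSimpleGroup_PSL (Or.inr ⟨x, hx⟩), fun hc => ?_⟩
  have hcomm : π (up (1 : F)) * π (lo 1) = π (lo 1) * π (up 1) := hc.is_comm.comm _ _
  rw [← map_mul, ← map_mul, π_eq_iff] at hcomm
  rcases hcomm with e | e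
  · have := congrArg (fun z : SL(2, F) => z 0 0) e
    simp [up, lo, sl2_mul] at this
  · have h00 := congrArg (fun z : SL(2, F) => z 0 0) e
    have h01 := congrArg (fun z : SL(2, F) => z 0 1) e
    simp [up, lo, sl2_mul, sl2_neg] at h00 h01
    exact one_ne_zero (α := F) (by linear_combination h00 - h01)

lemma not_isSolvable (hF : Fintype.card F = q) (h4 : 4 ≤ q) : ¬ Group.IsSolvable PSL(2, F) := by
  obtain ⟨hs, hn⟩ := isSimple hF h4
  intro h
  exact hn ⟨⟨fun a b => by
    by_contra hab
    have hlt := Group.IsSolvable.commutator_lt_top_of_nontrivial PSL(2, F)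
    rcases (commutator PSL(2, F)).normal_of_characteristic.eq_bot_or_eq_top with e | e
    · apply hab
      have := (commutator_eq_bot_iff_center_eq_top _).1 e
      exact (Subgroup.mem_center_iff.1 (this ▸ Subgroup.mem_top a) b).symm
    · exact hlt.ne e⟩⟩

/-- A proper insoluble subgroup obstructs minimal simplicity. -/
lemma not_minimal_of_embedding {G : Type*} [Group G] [Finite G] {M : Type*} [Group M]
    (f : M →* G) (hf : Function.Injective f) (hM : ¬ Group.IsSolvable M)
    (hcard : Nat.card M < Nat.card G) : ¬ Cfsg.IsMinimalSimple G := by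
  intro h
  have hne : f.range ≠ ⊤ := fun e => by
    rw [Nat.card_congr (MonoidHom.ofInjective hf).toEquiv, e, Subgroup.card_top] at hcard
    exact lt_irrefl _ hcard
  have := h.2.2 f.range hne
  exact hM (Group.isSolvable_of_isSolvable_injective (f := (MonoidHom.ofInjective hf).toMonoidHom)
    (MulEquiv.injective _))

lemma solvable_torDih {g : SL(2, F)} (ht : tr g ^ 2 ≠ 4) : Group.IsSolvable (torDih g) := by
  classical
  have := tor_cyclic ht
  set T := (tor g).subgroupOf (torDih g)
  have hidx : T.index = 2 := by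
    have h := T.card_mul_index
    rw [Nat.card_congr (Subgroup.subgroupOfEquivOfLe (tor_le_torDih g)).toEquiv, card_torDih ht,
      mul_comm 2] at h
    exact Nat.eq_of_mul_eq_mul_left Nat.card_pos h
  have : T.Normal := Subgroup.normal_of_index_eq_two hidx
  have : IsCyclic T :=
    isCyclic_of_injective (Subgroup.subgroupOfEquivOfLe (tor_le_torDih g)).toMonoidHom
      (MulEquiv.injective _)
  have : Fact (Nat.Prime 2) := ⟨Nat.prime_two⟩
  have : IsCyclic (torDih g ⧸ T) := isCyclic_of_prime_card (p := 2) hidx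
  have h1 : Group.IsSolvable T := Group.isSolvable_of_comm fun a b => by
    let := IsCyclic.commGroup (α := T)
    exact mul_comm a b
  have h2 : Group.IsSolvable (torDih g ⧸ T) := Group.isSolvable_of_comm fun a b => by
    let := IsCyclic.commGroup (α := torDih g ⧸ T)
    exact mul_comm a b
  exact Group.isSolvable_of_ker_le_range T.subtype (QuotientGroup.mk' T) (by simp)

lemma solvable_borel : Group.IsSolvable (borel F) := by
  have h1 : Group.IsSolvable (chiB (F := F)).ker := Group.isSolvable_of_comm fun a b => by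
    obtain ⟨x, hx⟩ := mem_Uinf.1 ((chiB_eq_one_iff a.1).1 a.2)
    obtain ⟨y, hy⟩ := mem_Uinf.1 ((chiB_eq_one_iff b.1).1 b.2)
    refine Subtype.ext (Subtype.ext ?_)
    show ((a.1 : borel F) : PSL(2, F)) * b.1 = (b.1 : borel F) * a.1
    rw [← hx, ← hy, ← map_mul, ← map_mul, ← up_add, ← up_add, add_comm]
  exact Group.isSolvable_of_ker_le_range (chiB (F := F)).ker.subtype (chiB (F := F)) (by simp)

lemma solvable_of_cj_le {H : Subgroup PSL(2, F)} {c : PSL(2, F)} {T : Subgroup PSL(2, F)}
    (hT : Group.IsSolvable T) (hle : cj c H ≤ T) : Group.IsSolvable H := by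
  obtain ⟨e⟩ := cjEquiv_exists c H
  exact Group.isSolvable_of_isSolvable_injective (f := (Subgroup.inclusion hle).comp e.toMonoidHom)
    ((Subgroup.inclusion_injective hle).comp e.injective)

/-- The listed groups have only soluble proper subgroups. -/
lemma solvable_of_proper (hF : Fintype.card F = q) (p e : ℕ) [Fact p.Prime] [CharP F p]
    (hq : q = p ^ e) (he : e = 1 ∨ (e.Prime ∧ p ≤ 3 ∧ (p = 3 → e ≠ 2)))
    (h5 : p = 2 ∨ p = 5 ∨ ¬ 5 ∣ q * (q ^ 2 - 1))
    {H : Subgroup PSL(2, F)} (hne : H ≠ ⊤) : Group.IsSolvable H := by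
  classical
  have hp : p.Prime := Fact.out
  have hq2 : 2 ≤ q := hF ▸ Fintype.one_lt_card
  obtain ⟨c, hc⟩ := exists_outcome p H
  have small : Nat.card (cj c H) < 60 → Group.IsSolvable H := fun h =>
    isSolvable_of_card_lt_sixty (G := H) (by rwa [card_cj] at h)
  cases hc with
  | triv h => exact small (by omega)
  | dih h =>
    obtain ⟨g, ht, hle⟩ := h
    exact solvable_of_cj_le (solvable_torDih ht) hle
  | bor h =>
    obtain ⟨d, hd⟩ := h
    exact solvable_of_cj_le solvable_borel ((cj_cj d c H).symm ▸ hd)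
  | a4 h _ => exact small (by omega)
  | s4 h _ _ => exact small (by omega)
  | a5 h _ h3 =>
    exfalso
    rcases h5 with rfl | rfl | h5
    · have := h3 (by rw [h]; norm_num); omega
    · have := h3 (by rw [h]; norm_num); omega
    · apply h5
      rw [← card_psl2_mul (F := F) hF]
      refine Dvd.dvd.mul_right ?_ _
      exact (show (5 : ℕ) ∣ 60 by norm_num).trans (h ▸ Subgroup.card_subgroup_dvd_card (cj c H))
  | gen h =>
    obtain ⟨r, k, hG⟩ := h
    obtain ⟨K, hKr, -, -⟩ := gen_structure hG
    obtain ⟨-, -, -, hk1, hkr, hcard, -, -⟩ := hG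
    have := Fintype.ofFinite K
    obtain ⟨f, -, hf⟩ := FiniteField.card K p
    rw [← Nat.card_eq_fintype_card, hKr] at hf
    have hrm : r ^ Module.finrank K F = q := by
      rw [← hKr, Nat.card_eq_fintype_card, ← Module.card_eq_pow_finrank, hF]
    set m := Module.finrank K F
    have hfm : (f : ℕ) * m = e := by
      rw [hq, hf, ← pow_mul] at hrm
      exact Nat.pow_right_injective hp.two_le hrm
    by_cases hre : (f : ℕ) = e
    · exfalso
      rw [hre, ← hq] at hf
      subst hf
      apply hne
      refine Subgroup.eq_top_of_le_card _ ?_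
      rw [← card_cj c H, hcard]
      have hpsl := card_psl2_mul (F := F) hF
      rw [show r ^ 2 - 1 = (r + 1) * (r - 1) by rw [← Nat.sq_sub_sq, one_pow]] at hpsl
      rcases Nat.mod_two_eq_zero_or_one r with hpar | hpar
      · rw [show r - 1 = k by omega, (Nat.prime_two.coprime_iff_not_dvd).2 (by omega)] at hpsl
        nlinarith [hpsl]
      · rw [Nat.gcd_eq_left (show 2 ∣ r - 1 by omega)] at hpsl
        have := Nat.mul_le_mul_left (r * (r + 1)) (show r - 1 ≤ 2 * k by omega)
        nlinarith [hpsl]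
    · rcases he with rfl | ⟨hep, hp3, -⟩
      · exact absurd (Nat.eq_one_of_mul_eq_one_right hfm) hre
      · have hf1 : (f : ℕ) = 1 :=
          ((Nat.dvd_prime hep).1 ⟨m, hfm.symm⟩).resolve_right hre
        rw [hf1, pow_one] at hf
        subst hf
        refine small ?_
        rw [hcard]
        have hr3 : r = 3 := by omega
        subst hr3
        rw [show k = 2 by omega]
        norm_num

/-- PSL_2(q) is minimal simple iff q is 2^r (r prime), 3^r (r an odd prime), a prime greater than 5 congruent to 2 or 3 mod 5, or 5. -/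
theorem result {F : Type*} [Field F] [Fintype F] {q : ℕ} (hF : Fintype.card F = q) : Cfsg.IsMinimalSimple (Matrix.ProjectiveSpecialLinearGroup (Fin 2) F) ↔ ((∃ r : ℕ, r.Prime ∧ q = 2 ^ r) ∨ (∃ r : ℕ, r.Prime ∧ r ≠ 2 ∧ q = 3 ^ r) ∨ (q.Prime ∧ 5 < q ∧ (q % 5 = 2 ∨ q % 5 = 3)) ∨ q = 5) := by
  classical
  obtain ⟨p, hpc⟩ := CharP.exists F
  have := Fact.mk (CharP.char_is_prime F p)
  obtain ⟨e, hp, he⟩ := FiniteField.card F p
  rw [hF] at he
  have hq2 : 2 ≤ q := hF ▸ Fintype.one_lt_card
  have hpsl := card_psl2_mul (F := F) hF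
  have hid : ∀ {b : ℕ} {x y : ℕ}, b.Prime → p ^ x = b ^ y → y ≠ 0 → p = b ∧ x = y := by
    intro b x y hb h hy
    have hx : x ≠ 0 := fun hx => by
      rw [hx, pow_zero] at h
      exact absurd h.symm (Nat.one_lt_pow hy hb.one_lt).ne'
    have : p = b := (Nat.prime_dvd_prime_iff_eq hp hb).1
      (hp.dvd_of_dvd_pow (h ▸ dvd_pow_self p hx))
    subst this
    exact ⟨rfl, Nat.pow_right_injective hp.two_le h⟩
  constructor
  · intro hmin
    have h4 : 4 ≤ q := by
      by_contra h4
      have hsmall : Nat.card PSL(2, F) < 60 := by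
        interval_cases q <;> norm_num [-Nat.card_eq_fintype_card] at hpsl <;> omega
      have := isSolvable_of_card_lt_sixty (G := PSL(2, F)) hsmall
      have hn := hmin.1
      refine hmin.2.1 ⟨⟨fun a b => ?_⟩⟩
      have hlt := Group.IsSolvable.commutator_lt_top_of_nontrivial PSL(2, F)
      rcases (commutator PSL(2, F)).normal_of_characteristic.eq_bot_or_eq_top with e | e
      · have := (commutator_eq_bot_iff_center_eq_top _).1 e
        exact (Subgroup.mem_center_iff.1 (this ▸ Subgroup.mem_top a) b).symm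
      · exact absurd e hlt.ne
    have hA5 : 5 ∣ q * (q ^ 2 - 1) → q = 4 ∨ q = 5 := by
      intro h5
      by_contra hne
      obtain ⟨H, hH, ⟨f⟩⟩ := exists_alt_five hF h5
      refine not_minimal_of_embedding H.subtype Subtype.val_injective ?_ ?_ hmin
      · intro hs
        have : Group.IsSolvable (alternatingGroup (Fin 5)) :=
          Group.isSolvable_of_isSolvable_injective (f := f.symm.toMonoidHom) f.symm.injective
        refine Equiv.Perm.not_isSolvable_fin_5 (Group.isSolvable_of_ker_le_range
          (alternatingGroup (Fin 5)).subtype (Equiv.Perm.sign (α := Fin 5)) ?_)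
        rw [Subgroup.range_subtype, alternatingGroup_eq_sign_ker]
      · rw [hH]
        by_contra hle
        have hq6 : 6 ≤ q := by omega
        have h1 : 6 * (35 : ℕ) ≤ q * (q ^ 2 - 1) := Nat.mul_le_mul hq6 (by
          have : 6 ^ 2 ≤ q ^ 2 := Nat.pow_le_pow_left hq6 2
          omega)
        have h2 := Nat.mul_le_mul (not_lt.1 hle) (Nat.gcd_le_left (q - 1) two_pos)
        omega
    have hsub : ∀ f : ℕ, f ∣ (e : ℕ) → f < e → f ≠ 0 → p ^ f < 4 := by
      intro f hfe hlt hf0
      by_contra hbig
      obtain ⟨m, hm⟩ := hfe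
      have := Fintype.ofFinite (GaloisField p f)
      have hK : Fintype.card (GaloisField p f) = p ^ f := by
        rw [← Nat.card_eq_fintype_card, GaloisField.card p f hf0]
      let := ZMod.algebra F p
      have hdvd : Module.finrank (ZMod p) (GaloisField p f) ∣ Module.finrank (ZMod p) F := by
        rw [GaloisField.finrank p hf0]
        have h2 : Fintype.card F = p ^ Module.finrank (ZMod p) F := by
          rw [Module.card_eq_pow_finrank (K := ZMod p), ZMod.card]
        rw [hF, he] at h2
        exact ⟨m, (Nat.pow_right_injective hp.two_le h2).symm.trans hm⟩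
      let ι : GaloisField p f →+* F :=
        (FiniteField.nonempty_algHom_of_finrank_dvd hdvd).some.toRingHom
      refine not_minimal_of_embedding (pslMap ι) (pslMap_injective ι)
        (not_isSolvable hK (not_lt.1 hbig)) ?_ hmin
      refine lt_of_le_of_ne (Nat.card_le_card_of_injective _ (pslMap_injective ι)) fun h => ?_
      have h1 := card_psl2_mul (F := GaloisField p f) hK
      have h2 : p ^ f < q := he ▸ Nat.pow_lt_pow_right hp.one_lt hlt
      have hg : Nat.gcd 2 (p ^ f - 1) = Nat.gcd 2 (q - 1) := by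
        rcases hp.eq_two_or_odd' with rfl | hodd
        · rw [he, (Nat.prime_two.coprime_iff_not_dvd).2 (by
            have : 2 ∣ 2 ^ f := dvd_pow_self 2 hf0
            omega), (Nat.prime_two.coprime_iff_not_dvd).2 (by
            have : 2 ∣ 2 ^ (e : ℕ) := dvd_pow_self 2 e.ne_zero
            omega)]
        · have a1 := Nat.odd_iff.1 (hodd.pow : Odd (p ^ f))
          have a2 := Nat.odd_iff.1 (hodd.pow : Odd (p ^ (e : ℕ)))
          rw [← he] at a2
          rw [Nat.gcd_eq_left (show 2 ∣ p ^ f - 1 by omega),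
            Nat.gcd_eq_left (show 2 ∣ q - 1 by omega)]
      rw [h, hg, hpsl] at h1
      have : p ^ f * ((p ^ f) ^ 2 - 1) < q * (q ^ 2 - 1) :=
        Nat.mul_lt_mul'' h2 (by
          have := Nat.pow_lt_pow_left h2 two_ne_zero
          have : 1 ≤ (p ^ f) ^ 2 := Nat.one_le_pow _ _ (pow_pos hp.pos _)
          omega)
      omega
    by_cases he1 : (e : ℕ) = 1
    · -- prime order
      rw [he1, pow_one] at he
      subst he
      by_cases hq5 : q = 5
      · exact Or.inr (Or.inr (Or.inr hq5))
      refine Or.inr (Or.inr (Or.inl ⟨hp, ?_, ?_⟩))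
      · by_contra h
        have : q = 4 := by omega
        rw [this] at hp; norm_num at hp
      · by_contra h
        have h5 : 5 ∣ q * (q ^ 2 - 1) := by
          have h0 : q % 5 ≠ 0 := fun h0 =>
            hq5 ((Nat.prime_dvd_prime_iff_eq (by norm_num) hp).1 (Nat.dvd_of_mod_eq_zero h0)).symm
          refine Dvd.dvd.mul_left ?_ _
          have : q ^ 2 % 5 = 1 := by
            rw [Nat.pow_mod]
            rcases (show q % 5 = 1 ∨ q % 5 = 4 by omega) with h' | h' <;> rw [h']
          omega
        rcases hA5 h5 with h' | h'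
        · rw [h'] at hp; norm_num at hp
        · exact hq5 h'
    · -- proper prime powers
      obtain ⟨r, hr, hre⟩ := Nat.exists_prime_and_dvd he1
      obtain ⟨f, hf⟩ := hre
      have hf0 : f ≠ 0 := fun h => e.ne_zero (by rw [hf, h, mul_zero])
      have hlt : f < (e : ℕ) := by
        rw [hf]; exact lt_mul_of_one_lt_left (Nat.pos_of_ne_zero hf0) hr.one_lt
      have hsm := hsub f ⟨r, by rw [hf, mul_comm]⟩ hlt hf0
      have hp3 : p < 4 := lt_of_le_of_lt (Nat.le_self_pow hf0 p) hsm
      have hf1 : f = 1 := by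
        by_contra hne
        have := Nat.pow_le_pow_left hp.two_le f
        have : 2 ^ 2 ≤ 2 ^ f := Nat.pow_le_pow_right two_pos (by omega)
        omega
      rw [hf1, mul_one] at hf
      rcases (show p = 2 ∨ p = 3 by have := hp.two_le; omega) with rfl | rfl
      · exact Or.inl ⟨r, hr, by rw [← hf]; exact he⟩
      · refine Or.inr (Or.inl ⟨r, hr, fun hr2 => ?_, by rw [← hf]; exact he⟩)
        rw [hf, hr2] at he
        rcases hA5 (by rw [he]; norm_num) with h | h <;> omega
  · intro h
    have h4 : 4 ≤ q := by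
      rcases h with ⟨r, hr, rfl⟩ | ⟨r, hr, -, rfl⟩ | ⟨-, h, -⟩ | rfl
      · exact le_trans (by norm_num) (Nat.pow_le_pow_right two_pos hr.two_le)
      · exact le_trans (by norm_num) (Nat.pow_le_pow_right three_pos hr.two_le)
      · omega
      · norm_num
    obtain ⟨hs, hn⟩ := isSimple hF h4
    refine ⟨hs, hn, fun H hne => ?_⟩
    rcases h with ⟨r, hr, rfl⟩ | ⟨r, hr, hr2, rfl⟩ | ⟨hqp, h5, hmod⟩ | rfl
    · obtain ⟨rfl, hx⟩ := hid Nat.prime_two he.symm hr.ne_zero
      exact solvable_of_proper hF 2 r rfl (Or.inr ⟨hr, by norm_num, by simp⟩) (Or.inl rfl) hne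
    · obtain ⟨rfl, hx⟩ := hid Nat.prime_three he.symm hr.ne_zero
      refine solvable_of_proper hF 3 r rfl (Or.inr ⟨hr, le_rfl, fun _ => hr2⟩) (Or.inr (Or.inr ?_)) hne
      intro h
      obtain ⟨j, hj⟩ := hr.odd_of_ne_two hr2
      have h9 : (3 ^ r) ^ 2 % 5 = 4 := by
        rw [← pow_mul, mul_comm, pow_mul, Nat.pow_mod, hj, pow_succ, Nat.mul_mod,
          show (3 ^ 2 % 5) = 4 by norm_num, pow_mul, Nat.pow_mod]
        norm_num
      rcases (Nat.Prime.dvd_mul (by norm_num)).1 h with h | h
      · have := (Nat.prime_dvd_prime_iff_eq (by norm_num) Nat.prime_three).1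
          ((show Nat.Prime 5 by norm_num).dvd_of_dvd_pow h)
        omega
      · omega
    · obtain ⟨hpb, hx⟩ := hid (x := (e : ℕ)) (y := 1) hqp (by rw [pow_one, ← he]) one_ne_zero
      subst hpb
      refine solvable_of_proper hF p 1 (pow_one p).symm (Or.inl rfl) (Or.inr (Or.inr ?_)) hne
      intro h
      rcases (Nat.Prime.dvd_mul (by norm_num)).1 h with h | h
      · omega
      · have hm : p ^ 2 % 5 = 4 := by
          rw [Nat.pow_mod]
          rcases hmod with h' | h' <;> rw [h']
        omega
    · obtain ⟨rfl, hx⟩ := hid (b := 5) (x := (e : ℕ)) (y := 1) (by norm_num) (by rw [pow_one]; exact he.symm) one_ne_zero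
      exact solvable_of_proper hF 5 1 rfl (Or.inl rfl) (Or.inr (Or.inl rfl)) hne

end Cfsg.Agent.S0810
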