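import Cfsg.Statements.S2401
import Cfsg.Agent.H70.StPres.Inject
-- import your own Cfsg.Agent.* helpers here

set_option autoImplicit false
open Cfsg

namespace Cfsg.Agent.S2401

/-- The Steinberg presentation of `SL_n` over a finite field for `n ≥ 3`: the group generated by symbols `x_ij(t)` (`i ≠ j`, `t` in the field) subject to `x_ij(t) x_ij(u) = x_ij(t + u)` and, for `i ≠ l`, `x_ij(t) x_kl(u) x_ij(t)⁻¹ x_kl(u)⁻¹ = x_il(tu)` if `j = k` and `= 1` if `j ≠ k`, is isomorphic to `SL_n` by an isomorphism sending `x_ij(t)` to the elementary matrix `1 + t E_ij`. -/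
theorem result {K : Type*} [Field K] [Finite K] (n : ℕ) (hn : 3 ≤ n) :
    ∃ e : PresentedGroup
        ({g : FreeGroup ({ij : Fin n × Fin n // ij.1 ≠ ij.2} × K) | ∃ (a : {ij : Fin n × Fin n // ij.1 ≠ ij.2}) (t u : K),
            g = FreeGroup.of (a, t) * FreeGroup.of (a, u) * (FreeGroup.of (a, t + u))⁻¹} ∪
          {g | ∃ (a b : {ij : Fin n × Fin n // ij.1 ≠ ij.2}) (t u : K), a.1.1 ≠ b.1.2 ∧ a.1.2 ≠ b.1.1 ∧
            g = FreeGroup.of (a, t) * FreeGroup.of (b, u) * (FreeGroup.of (a, t))⁻¹ * (FreeGroup.of (b, u))⁻¹} ∪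
          {g | ∃ (a b : {ij : Fin n × Fin n // ij.1 ≠ ij.2}) (h : a.1.1 ≠ b.1.2) (t u : K), a.1.2 = b.1.1 ∧
            g = FreeGroup.of (a, t) * FreeGroup.of (b, u) * (FreeGroup.of (a, t))⁻¹ * (FreeGroup.of (b, u))⁻¹ *
              (FreeGroup.of (⟨(a.1.1, b.1.2), h⟩, t * u))⁻¹}) ≃* Matrix.SpecialLinearGroup (Fin n) K,
      ∀ (a : {ij : Fin n × Fin n // ij.1 ≠ ij.2}) (t : K), ((e (PresentedGroup.of (a, t)) : Matrix (Fin n) (Fin n) K)) = Matrix.transvection a.1.1 a.1.2 t := by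
  classical
  set rels : Set (FreeGroup ({ij : Fin n × Fin n // ij.1 ≠ ij.2} × K)) :=
        ({g : FreeGroup ({ij : Fin n × Fin n // ij.1 ≠ ij.2} × K) | ∃ (a : {ij : Fin n × Fin n // ij.1 ≠ ij.2}) (t u : K),
                g = FreeGroup.of (a, t) * FreeGroup.of (a, u) * (FreeGroup.of (a, t + u))⁻¹} ∪
              {g | ∃ (a b : {ij : Fin n × Fin n // ij.1 ≠ ij.2}) (t u : K), a.1.1 ≠ b.1.2 ∧ a.1.2 ≠ b.1.1 ∧
                g = FreeGroup.of (a, t) * FreeGroup.of (b, u) * (FreeGroup.of (a, t))⁻¹ * (FreeGroup.of (b, u))⁻¹} ∪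
              {g | ∃ (a b : {ij : Fin n × Fin n // ij.1 ≠ ij.2}) (h : a.1.1 ≠ b.1.2) (t u : K), a.1.2 = b.1.1 ∧
                g = FreeGroup.of (a, t) * FreeGroup.of (b, u) * (FreeGroup.of (a, t))⁻¹ * (FreeGroup.of (b, u))⁻¹ *
                  (FreeGroup.of (⟨(a.1.1, b.1.2), h⟩, t * u))⁻¹}) with hrels
  let f : {ij : Fin n × Fin n // ij.1 ≠ ij.2} × K → Matrix.SpecialLinearGroup (Fin n) K :=
    fun p => Cfsg.Agent.H64.SLCover.rx p.1.1.1 p.1.1.2 p.2
  have hf : ∀ g ∈ rels, FreeGroup.lift f g = 1 := by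
    rintro g ((⟨a, t, u, rfl⟩ | ⟨a, b, t, u, h1, h2, rfl⟩) | ⟨a, b, h, t, u, h2, rfl⟩)
    · simp only [map_mul, map_inv, FreeGroup.lift_apply_of, f, mul_inv_eq_one]
      exact (Cfsg.Agent.H64.SLCover.rx_add _ _ t u).symm
    · simp only [map_mul, map_inv, FreeGroup.lift_apply_of, f]
      exact commutatorElement_eq_one_iff_commute.mpr (Cfsg.Agent.H64.SLCover.rx_commute h2 h1 t u)
    · simp only [map_mul, map_inv, FreeGroup.lift_apply_of, f, mul_inv_eq_one]
      have ha := a.2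
      have hb := b.2
      rw [← h2] at hb ⊢
      exact Cfsg.Agent.H64.SLCover.rx_bracket ha hb h t u
  let φ : PresentedGroup rels →* Matrix.SpecialLinearGroup (Fin n) K := PresentedGroup.toGroup hf
  have hφ : ∀ p, φ (PresentedGroup.of p) = f p := fun p => PresentedGroup.toGroup.of (h := hf)
  let X : Fin n → Fin n → K → PresentedGroup rels :=
    fun i j t => if h : i ≠ j then PresentedGroup.of (⟨(i, j), h⟩, t) else 1
  have hX : ∀ {i j : Fin n} (h : i ≠ j) (t : K), X i j t = PresentedGroup.of (⟨(i, j), h⟩, t) :=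
    fun h t => dif_pos h
  let C : Cfsg.Agent.H70.StPres.St (PresentedGroup rels) n K :=
    { σ := φ
      hn := hn
      X := X
      σ_X := fun {i j} h t => by rw [hX h, hφ]
      X_add := fun {i j} h s t => by
        rw [hX h, hX h, hX h]
        have e := PresentedGroup.one_of_mem (rels := rels) (Or.inl (Or.inl ⟨⟨(i, j), h⟩, s, t, rfl⟩))
        rw [map_mul, map_mul, map_inv, mul_inv_eq_one] at e
        exact e.symm
      X_commute := fun {i j k l} h h' hjk hil s t => by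
        rw [hX h, hX h']
        have e := PresentedGroup.one_of_mem (rels := rels)
          (Or.inl (Or.inr ⟨⟨(i, j), h⟩, ⟨(k, l), h'⟩, s, t, hil, hjk, rfl⟩))
        simp only [map_mul, map_inv] at e
        exact commutatorElement_eq_one_iff_commute.mp e
      X_bracket := fun {i j k} hij hik hkj s t => by
        rw [hX hij, hX hik, hX hkj]
        have e := PresentedGroup.one_of_mem (rels := rels)
          (Or.inr ⟨⟨(i, k), hik⟩, ⟨(k, j), hkj⟩, hij, s, t, rfl, rfl⟩)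
        simp only [map_mul, map_inv, mul_inv_eq_one] at e
        exact e }
  have hgen : ∀ x : PresentedGroup rels, x ∈ C.gen 0 := by
    intro x
    have : (⊤ : Subgroup (PresentedGroup rels)) ≤ C.gen 0 := by
      rw [← PresentedGroup.closure_range_of, Subgroup.closure_le]
      rintro _ ⟨⟨⟨⟨i, j⟩, h⟩, t⟩, rfl⟩
      exact hX h t ▸ C.X_mem_gen (Nat.zero_le _) (Nat.zero_le _) h t
    exact this (Subgroup.mem_top x)
  have hsurj : Function.Surjective φ := MonoidHom.range_eq_top.mp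
    (Cfsg.Agent.H1.SL_eq_top_of_transvection_mem _ fun i j hij c =>
      ⟨X i j c, (C.σ_X hij c).trans (Cfsg.Agent.H64.SLCover.rx_of_ne hij c)⟩)
  have hinj : Function.Injective φ := (injective_iff_map_eq_one φ).mpr fun z hz =>
    C.gen_injective n 0 (by omega) z (hgen z) hz
  refine ⟨MulEquiv.ofBijective φ ⟨hinj, hsurj⟩, fun a t => ?_⟩
  show ((φ (PresentedGroup.of (a, t)) : Matrix.SpecialLinearGroup (Fin n) K) : Matrix (Fin n) (Fin n) K) = _
  rw [hφ]
  show ((Cfsg.Agent.H64.SLCover.rx a.1.1 a.1.2 t : Matrix.SpecialLinearGroup (Fin n) K) : Matrix (Fin n) (Fin n) K) = _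
  rw [Cfsg.Agent.H64.SLCover.rx_coe a.2, Matrix.transvection]

end Cfsg.Agent.S2401
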