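import Cfsg.Statements.S0116
import Cfsg.Agent.H23.Alperin

set_option autoImplicit false
open Pointwise
open Cfsg

namespace Cfsg.Agent.S0116

open Cfsg.Agent.H23

variable {G : Type*} [Group G] {p : ℕ}

/-- `D` and the normalizer of `D` as in the statement. -/
def Tame (P Q : Sylow p G) (x : G) : Prop :=
  x ∈ Subgroup.normalizer (((P : Subgroup G) ⊓ (Q : Subgroup G) : Subgroup G) : Set G) ∧
    ¬ p ∣ ((P : Subgroup G) ⊓ Subgroup.normalizer
      (((P : Subgroup G) ⊓ (Q : Subgroup G) : Subgroup G) : Set G)).relIndex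
      (Subgroup.normalizer (((P : Subgroup G) ⊓ (Q : Subgroup G) : Subgroup G) : Set G)) ∧
    ¬ p ∣ ((Q : Subgroup G) ⊓ Subgroup.normalizer
      (((P : Subgroup G) ⊓ (Q : Subgroup G) : Subgroup G) : Set G)).relIndex
      (Subgroup.normalizer (((P : Subgroup G) ⊓ (Q : Subgroup G) : Subgroup G) : Set G))

/-- A chain of tame intersections moving the subgroup `A` along. -/
def IsChain (P : Sylow p G) : List (Sylow p G × G) → Subgroup G → Prop
  | [], _ => True
  | q :: l, A => A ≤ (P : Subgroup G) ⊓ (q.1 : Subgroup G) ∧ Tame P q.1 q.2 ∧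
      IsChain P l (rconj q.2 A)

theorem isChain_mono (P : Sylow p G) :
    ∀ (l : List (Sylow p G × G)) (A B : Subgroup G), B ≤ A → IsChain P l A → IsChain P l B
  | [], _, _, _, _ => trivial
  | q :: l, _, _, h, hc =>
    ⟨h.trans hc.1, hc.2.1, isChain_mono P l _ _ (rconj_mono q.2 h) hc.2.2⟩

theorem isChain_append (P : Sylow p G) :
    ∀ (l l' : List (Sylow p G × G)) (A : Subgroup G), IsChain P l A →
      IsChain P l' (rconj (l.map Prod.snd).prod A) → IsChain P (l ++ l') A
  | [], _, _, _, h' => by simpa using h'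
  | q :: l, l', _, h, h' =>
    ⟨h.1, h.2.1, isChain_append P l l' _ h.2.2 (by simpa [mul_assoc] using h')⟩

theorem isChain_step (P : Sylow p G) :
    ∀ (l : List (Sylow p G × G)) (A : Subgroup G), IsChain P l A → ∀ (i : ℕ) (hi : i < l.length),
      rconj ((l.map Prod.snd).take i).prod A ≤ (P : Subgroup G) ⊓ (l[i].1 : Subgroup G) ∧
        Tame P l[i].1 l[i].2
  | q :: l, A, h, 0, _ => ⟨by simpa using h.1, by simpa using h.2.1⟩
  | q :: l, A, h, i + 1, hi => by
    have := isChain_step P l _ h.2.2 i (by simpa using hi)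
    simpa [mul_assoc] using this

/-- The Alperin fusion Theorem states that conjugation between subsets of a Sylow p-subgroup P factors through normalizers of tame intersections P ∩ Q_i with other Sylow p-subgroups, carrying the subset along step by step. -/
theorem result {G : Type*} [Group G] [Finite G] {p : ℕ} [Fact p.Prime] (P : Sylow p G) (A : Set G) (g : G) (hA : A ⊆ (P : Set G)) (hAg : (fun a => g⁻¹ * a * g) '' A ⊆ (P : Set G)) : ∃ (n : ℕ) (Q : Fin n → Sylow p G) (x : Fin n → G), (List.ofFn x).prod = g ∧ (∀ i : Fin n, x i ∈ Subgroup.normalizer ((((P : Subgroup G) ⊓ (Q i : Subgroup G)) : Subgroup G) : Set G) ∧ ¬ p ∣ ((P : Subgroup G) ⊓ Subgroup.normalizer ((((P : Subgroup G) ⊓ (Q i : Subgroup G)) : Subgroup G) : Set G)).relIndex (Subgroup.normalizer ((((P : Subgroup G) ⊓ (Q i : Subgroup G)) : Subgroup G) : Set G)) ∧ ¬ p ∣ ((Q i : Subgroup G) ⊓ Subgroup.normalizer ((((P : Subgroup G) ⊓ (Q i : Subgroup G)) : Subgroup G) : Set G)).relIndex (Subgroup.normalizer ((((P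 : Subgroup G) ⊓ (Q i : Subgroup G)) : Subgroup G) : Set G))) ∧ (∀ h : 0 < n, A ⊆ (((P : Subgroup G) ⊓ (Q ⟨0, h⟩ : Subgroup G) : Subgroup G) : Set G)) ∧ ∀ i : Fin n, ∀ h : i.val + 1 < n, (fun a => (((List.ofFn x).take (i.val + 1)).prod)⁻¹ * a * ((List.ofFn x).take (i.val + 1)).prod) '' A ⊆ (((P : Subgroup G) ⊓ (Q ⟨i.val + 1, h⟩ : Subgroup G) : Subgroup G) : Set G) := by
  have key : ∀ (B : Subgroup G) (c : G), B ≤ (P : Subgroup G) → rconj c B ≤ (P : Subgroup G) →
      ∃ l : List (Sylow p G × G), (l.map Prod.snd).prod = c ∧ IsChain P l B := by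
    intro B c hB hc
    refine alperin_induction P
      (fun B c => ∃ l : List (Sylow p G × G), (l.map Prod.snd).prod = c ∧ IsChain P l B)
      ?_ ?_ ?_ hB hc
    · rintro B C c h ⟨l, hl, hl'⟩
      exact ⟨l, hl, isChain_mono P l _ _ h hl'⟩
    · rintro B c d ⟨l, hl, hl'⟩ ⟨l', hd, hd'⟩
      exact ⟨l ++ l', by simp [hl, hd], isChain_append P l l' _ hl' (by rwa [hl])⟩
    · intro Q n hn h1 h2
      exact ⟨[(Q, n)], by simp, le_rfl, ⟨hn, h1, h2⟩, trivial⟩
  obtain ⟨l, hl, hl'⟩ := key (Subgroup.closure A) g ((Subgroup.closure_le _).2 hA) (by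
    rw [rconj, MonoidHom.map_closure, Subgroup.closure_le]
    simpa [Set.image_subset_iff, Set.preimage, mul_assoc] using hAg)
  have hof : List.ofFn (fun i : Fin l.length => l[i.val].2) = l.map Prod.snd :=
    List.ext_getElem (by simp) (fun i h₁ h₂ => by simp)
  refine ⟨l.length, fun i => l[i.val].1, fun i => l[i.val].2, ?_,
    fun i => (isChain_step P l _ hl' i.val i.isLt).2, fun h => ?_, fun i h => ?_⟩
  · rw [hof, hl]
  · intro a ha
    apply (isChain_step P l _ hl' 0 h).1
    simpa using Subgroup.subset_closure ha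
  · rintro _ ⟨a, ha, rfl⟩
    apply (isChain_step P l _ hl' (i.val + 1) h).1
    rw [hof]
    simpa [mul_assoc] using Subgroup.subset_closure ha

end Cfsg.Agent.S0116
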