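import Cfsg.Statements.S0228
import Cfsg.Agent.H28.Counting

set_option autoImplicit false
open Cfsg

namespace Cfsg.Agent.S0228

/-- A group of order 12 in which no involution is central is isomorphic to the alternating group on four letters. -/
theorem result {G : Type*} [Group G] [Finite G] (hG : Nat.card G = 12) (hz : ∀ z : G, orderOf z = 2 → z ∉ Subgroup.center G) : Nonempty (G ≃* alternatingGroup (Fin 4)) := by
  classical
  haveI : Fact (Nat.Prime 3) := ⟨Nat.prime_three⟩
  haveI : Fact (Nat.Prime 2) := ⟨Nat.prime_two⟩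
  have hsyl : ∀ P : Sylow 3 G, Nat.card (P : Subgroup G) = 3 := by
    intro P
    obtain ⟨k, hk⟩ := IsPGroup.iff_card.mp P.2
    have h3 : 3 ∣ Nat.card (P : Subgroup G) := P.dvd_card_of_dvd_card (by rw [hG]; norm_num)
    have hd := Subgroup.card_subgroup_dvd_card (P : Subgroup G)
    rw [hk] at h3 hd ⊢
    rw [hG] at hd
    rcases k with _ | _ | k
    · norm_num at h3
    · rfl
    · exfalso
      have := (pow_dvd_pow 3 (by omega : 2 ≤ k + 1 + 1)).trans hd
      norm_num at this
  obtain ⟨P⟩ : Nonempty (Sylow 3 G) := inferInstance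
  have hidx : (P : Subgroup G).index = 4 := by
    have := (P : Subgroup G).index_mul_card
    rw [hsyl P, hG] at this
    omega
  have hdvd : Nat.card (Sylow 3 G) ∣ 4 := hidx ▸ P.card_dvd_index
  have hmod := card_sylow_modEq_one 3 G
  have hn : Nat.card (Sylow 3 G) = 1 ∨ Nat.card (Sylow 3 G) = 4 := by
    have := Nat.le_of_dvd (by norm_num) hdvd
    have h0 : 0 < Nat.card (Sylow 3 G) := Nat.card_pos
    generalize Nat.card (Sylow 3 G) = n at hmod hdvd this h0
    unfold Nat.ModEq at hmod
    omega
  rcases hn with hn | hn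
  · exfalso
    haveI : Subsingleton (Sylow 3 G) := (Nat.card_eq_one_iff_unique.mp hn).1
    have hnorm : (P : Subgroup G).Normal := P.normal_of_subsingleton
    obtain ⟨x, hx⟩ := exists_prime_orderOf_dvd_card' (G := (P : Subgroup G)) 3 (by rw [hsyl P])
    set C := Subgroup.centralizer ({(x : G)} : Set G) with hC
    have hle : Nat.card {y : G // IsConj (x : G) y} ≤ 2 := by
      let f : {y : G // IsConj (x : G) y} → {z : (P : Subgroup G) // z ≠ 1} := fun y =>
        ⟨⟨y.1, by
          obtain ⟨g, hg⟩ := isConj_iff.mp y.2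
          exact hg ▸ hnorm.conj_mem _ x.2 g⟩, fun e => by
          obtain ⟨g, hg⟩ := isConj_iff.mp y.2
          have e' : y.1 = 1 := congrArg Subtype.val e
          rw [e'] at hg
          have : (x : G) = 1 := by simpa using hg
          have : x = 1 := Subtype.ext this
          rw [this, orderOf_one] at hx
          omega⟩
      have hf : Function.Injective f := fun a b h =>
        Subtype.ext (by simpa [f] using congrArg (fun z => (z.1 : G)) h)
      refine (Nat.card_le_card_of_injective f hf).trans (le_of_eq ?_)
      haveI := Fintype.ofFinite (P : Subgroup G)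
      rw [Nat.card_eq_fintype_card, Fintype.card_subtype_compl, Fintype.card_subtype_eq,
        ← Nat.card_eq_fintype_card, hsyl P]
    have hprod := H28.card_isConj_mul_card_centralizer (x : G)
    rw [hG, ← hC] at hprod
    have hCeven : 2 ∣ Nat.card C := by
      have h0 : 0 < Nat.card {y : G // IsConj (x : G) y} := by
        haveI : Nonempty {y : G // IsConj (x : G) y} := ⟨⟨x, IsConj.refl _⟩⟩
        exact Nat.card_pos
      interval_cases h : Nat.card {y : G // IsConj (x : G) y} <;> omega
    obtain ⟨t, ht⟩ := exists_prime_orderOf_dvd_card' (G := C) 2 hCeven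
    have ht2 : orderOf (t : G) = 2 := by rw [Subgroup.orderOf_coe, ht]
    obtain ⟨S, hS⟩ := (IsPGroup.of_card (p := 2) (n := 1) (by rw [Nat.card_zpowers, ht2, pow_one] :
      Nat.card (Subgroup.zpowers (t : G)) = 2 ^ 1)).exists_le_sylow
    have hS4 : Nat.card (S : Subgroup G) = 2 ^ 2 := by
      obtain ⟨k, hk⟩ := IsPGroup.iff_card.mp S.2
      have hd := Subgroup.card_subgroup_dvd_card (S : Subgroup G)
      have hmax : 2 ^ 2 ∣ Nat.card (S : Subgroup G) :=
        S.pow_dvd_card_of_pow_dvd_card (by rw [hG]; norm_num)
      rw [hk] at hd hmax ⊢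
      rw [hG] at hd
      have h2 := (Nat.pow_dvd_pow_iff_le_right (by norm_num)).mp hmax
      congr 1
      by_contra hne
      have := (pow_dvd_pow 2 (show 3 ≤ k by omega)).trans hd
      norm_num at this
    have hSle : (S : Subgroup G) ≤ Subgroup.centralizer ({(t : G)} : Set G) := fun s hs =>
      H28.mem_centralizer_singleton'.mpr (congrArg Subtype.val
        ((IsPGroup.commutative_of_card_eq_prime_sq hS4) (⟨s, hs⟩ : (S : Subgroup G))
          ⟨t, hS (Subgroup.mem_zpowers _)⟩))
    have hxt : (x : G) ∈ Subgroup.centralizer ({(t : G)} : Set G) :=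
      H28.mem_centralizer_singleton'.mpr (H28.mem_centralizer_singleton'.mp t.2).symm
    have h4 : 4 ∣ Nat.card (Subgroup.centralizer ({(t : G)} : Set G)) := by
      simpa [hS4] using Subgroup.card_dvd_of_le hSle
    have h3 : 3 ∣ Nat.card (Subgroup.centralizer ({(t : G)} : Set G)) := by
      rw [← hx, ← Subgroup.orderOf_coe, ← Subgroup.orderOf_mk (x : G) hxt]
      exact orderOf_dvd_natCard _
    have h12 : Nat.card (Subgroup.centralizer ({(t : G)} : Set G)) = Nat.card G := by
      have := Subgroup.card_subgroup_dvd_card (Subgroup.centralizer ({(t : G)} : Set G))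
      have h' := Nat.le_of_dvd Nat.card_pos
        (Nat.Coprime.mul_dvd_of_dvd_of_dvd (by norm_num : Nat.Coprime 4 3) h4 h3)
      have h'' := Nat.le_of_dvd Nat.card_pos this
      omega
    refine hz t ht2 (Subgroup.mem_center_iff.mpr fun g => ?_)
    exact H28.mem_centralizer_singleton'.mp (Subgroup.eq_top_of_card_eq _ h12 ▸ Subgroup.mem_top g)
  · let e : Sylow 3 G ≃ Fin 4 := Finite.equivFinOfCardEq hn
    let φ : G →* Equiv.Perm (Fin 4) :=
      e.permCongrHom.toMonoidHom.comp (MulAction.toPermHom G (Sylow 3 G))
    have hN : ∀ Q : Sylow 3 G, Subgroup.normalizer ((Q : Subgroup G) : Set G) = Q := by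
      intro Q
      refine (Subgroup.eq_of_le_of_card_ge Subgroup.le_normalizer ?_).symm
      have h := (Subgroup.normalizer ((Q : Subgroup G) : Set G)).index_mul_card
      have h' : (Subgroup.normalizer ((Q : Subgroup G) : Set G)).index = Nat.card (Sylow 3 G) :=
        Q.card_eq_index_normalizer.symm
      rw [h', hn, hG] at h
      rw [hsyl Q]
      omega
    have hinj : Function.Injective φ := by
      rw [injective_iff_map_eq_one]
      intro g hg
      have hfix : ∀ Q : Sylow 3 G, g ∈ (Q : Subgroup G) := by
        intro Q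
        rw [← hN Q]
        refine Sylow.smul_eq_iff_mem_normalizer.mp ?_
        have := congrArg (fun σ : Equiv.Perm (Fin 4) => e.symm (σ (e Q))) hg
        simpa [φ, Equiv.permCongrHom, Equiv.permCongr_apply] using this
      by_contra hne
      have hall : ∀ Q : Sylow 3 G, (Q : Subgroup G) = Subgroup.zpowers g := by
        intro Q
        refine (Subgroup.eq_of_le_of_card_ge (Subgroup.zpowers_le.mpr (hfix Q)) ?_).symm
        rw [hsyl Q, Nat.card_zpowers]
        have hd : orderOf g ∣ 3 := by
          rw [← hsyl Q, ← Subgroup.orderOf_mk g (hfix Q)]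
          exact orderOf_dvd_natCard _
        rcases (Nat.dvd_prime Nat.prime_three).mp hd with h | h
        · exact absurd (orderOf_eq_one_iff.mp h) hne
        · omega
      haveI : Subsingleton (Sylow 3 G) :=
        ⟨fun A B => Sylow.ext ((hall A).trans (hall B).symm)⟩
      rw [Nat.card_eq_one_iff_unique.mpr ⟨inferInstance, inferInstance⟩] at hn
      omega
    have hrange : φ.range = alternatingGroup (Fin 4) := by
      refine Equiv.Perm.eq_alternatingGroup_of_index_eq_two ?_
      have h := φ.range.index_mul_card
      rw [← Nat.card_congr (MonoidHom.ofInjective hinj).toEquiv, hG, Nat.card_perm,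
        Nat.card_fin, show Nat.factorial 4 = 24 from rfl] at h
      omega
    exact ⟨(MonoidHom.ofInjective hinj).trans (MulEquiv.subgroupCongr hrange)⟩

end Cfsg.Agent.S0228
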