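import Cfsg.Statements.S1612
import Cfsg.Agent.H17.Primitive
import Cfsg.Agent.H17.RankThree
import Cfsg.Agent.H17.WidthOne

set_option autoImplicit false
open Cfsg

namespace Cfsg.Agent.S1612

open Subgroup Cfsg.Agent.H17
open scoped commutatorElement

variable {G : Type*} [Group G] [Finite G] {D : Set G}

/-- Without solvable normal subgroups and with perfect derived group the action on the class is
primitive. -/
theorem primitive (hsol : ∀ N : Subgroup G, N.Normal → Group.IsSolvable ↥N → N = ⊥)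
    (hperf : ⁅commutator G, commutator G⁆ = commutator G)
    (hD : Cfsg.IsThreeTranspositionClass D) (hD2 : ∃ a ∈ D, ∃ b ∈ D, a ≠ b) :
    Cfsg.IsPrimitiveUnderConj D := by
  have hcore : ∀ p : ℕ, p.Prime → Cfsg.pCore p G = ⊥ := fun p hp => by
    haveI : Fact p.Prime := ⟨hp⟩
    exact hsol _ (H51.pCore_normal p G) (isSolvable_of_le_isPGroup le_rfl (H51.pCore_isPGroup p G))
  have h2 : Cfsg.pCore 2 G ≤ center G := (hcore 2 Nat.prime_two).trans_le bot_le
  have h3 : Cfsg.pCore 3 G ≤ center G := (hcore 3 Nat.prime_three).trans_le bot_le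
  obtain ⟨L, hL⟩ : ∃ L, Cfsg.IsComponent (G := G) L := by
    by_contra hne
    refine layer_ne_bot hD hD2 h2 h3 ?_
    rw [Cfsg.layer, sSup_eq_bot]
    exact fun K hK => absurd ⟨K, hK⟩ hne
  haveI := component_normal hD hD2 hL
  refine primitive_of_component hD hD2 hL h2 h3 ?_
  let φ := QuotientGroup.mk' L
  have hsurj : Function.Surjective φ := QuotientGroup.mk'_surjective L
  have hconj := class_conj hD
  -- modulo the component the class has width one
  have h3' : ∀ x ∈ φ '' D, ∀ y ∈ φ '' D, (x * y) ^ 3 = 1 := by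
    rintro _ ⟨a, ha, rfl⟩ _ ⟨b, hb, rfl⟩
    by_cases hab : Commute a b
    · have : a * b ∈ L := mul_mem_of_commutator_mem hD hD2 hL ha hb (by
        rw [hab.eq]; simp [mul_assoc])
      rw [← map_mul, show φ (a * b) = 1 from (QuotientGroup.eq_one_iff _).mpr this, one_pow]
    · rw [← map_mul, ← map_pow, cube_one hD.1 ha hb hab, map_one]
  have hsq : ∀ x ∈ φ '' D, x * x = 1 := by
    rintro _ ⟨a, ha, rfl⟩
    rw [← map_mul, sq_one hD.1 ha, map_one]
  have hcj : ∀ g : G ⧸ L, ∀ x ∈ φ '' D, g * x * g⁻¹ ∈ φ '' D := by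
    rintro g _ ⟨a, ha, rfl⟩
    obtain ⟨g, rfl⟩ := hsurj g
    exact ⟨g * a * g⁻¹, hconj g a ha, by simp⟩
  haveI := H51.pCore_normal 3 (G ⧸ L)
  let N := (Cfsg.pCore 3 (G ⧸ L)).comap φ
  have hN : ∀ a ∈ D, ∀ b ∈ D, a * b ∈ N := fun a ha b hb =>
    show φ (a * b) ∈ Cfsg.pCore 3 (G ⧸ L) from
      (map_mul φ a b).symm ▸ width_one_mem_pCore hsq hcj h3' ⟨a, ha, rfl⟩ ⟨b, hb, rfl⟩
  have hidx := index_le_two hD hD2 hN
  have hG'N : commutator G ≤ N := by
    have hq : ∀ x y : G ⧸ N, x * y = y * x := by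
      have hc : Nat.card (G ⧸ N) ≤ 2 := hidx
      have hpos : 0 < Nat.card (G ⧸ N) := Nat.card_pos
      obtain h | h : Nat.card (G ⧸ N) = 1 ∨ Nat.card (G ⧸ N) = 2 := by omega
      · haveI := (Nat.card_eq_one_iff_unique.mp h).1
        exact fun x y => Subsingleton.elim _ _
      · haveI := Fact.mk Nat.prime_two
        haveI := isCyclic_of_prime_card (p := 2) h
        exact fun x y => IsCyclic.commGroup.mul_comm x y
    rw [_root_.commutator_def, commutator_le]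
    intro a _ b _
    rw [← QuotientGroup.eq_one_iff, show ((⁅a, b⁆ : G) : G ⧸ N) = ⁅(a : G ⧸ N), (b : G ⧸ N)⁆ from
      map_commutatorElement (QuotientGroup.mk' N) a b]
    exact commutatorElement_eq_one_iff_mul_comm.mpr (hq _ _)
  have hG'L : commutator G ≤ L := by
    have hX : (commutator G).map φ = ⊥ := by
      have hle : (commutator G).map φ ≤ Cfsg.pCore 3 (G ⧸ L) := map_le_iff_le_comap.mpr hG'N
      haveI : Fact (Nat.Prime 3) := ⟨Nat.prime_three⟩
      haveI := isSolvable_of_le_isPGroup hle (H51.pCore_isPGroup 3 (G ⧸ L))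
      by_contra hne
      haveI := (Subgroup.nontrivial_iff_ne_bot _).mpr hne
      refine (Group.IsSolvable.commutator_lt_top_of_nontrivial ((commutator G).map φ)).ne ?_
      apply map_injective ((commutator G).map φ).subtype_injective
      rw [map_subtype_commutator, ← map_commutator, hperf, ← MonoidHom.range_eq_map, range_subtype]
    intro x hx
    exact (QuotientGroup.eq_one_iff x).mp (show φ x ∈ (⊥ : Subgroup (G ⧸ L)) from
      hX ▸ mem_map_of_mem φ hx)
  intro a ha b hb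
  obtain ⟨g, rfl⟩ := class_transitive hD ha hb
  refine hG'L ?_
  have : a * (g * a * g⁻¹) = ⁅a, g⁆ := by
    rw [commutatorElement_def, inv_self hD.1 ha]; group
  rw [this, _root_.commutator_def]
  exact commutator_mem_commutator (mem_top a) (mem_top g)

omit [Finite G] in
theorem closure_le_centralizer {E : Set G} {A : Set G}
    (h : ∀ e ∈ E, ∀ a ∈ A, Commute e a) : closure E ≤ centralizer A :=
  (closure_le _).mpr fun e he => mem_centralizer_iff.mpr fun a ha => (h e he a ha).symm.eq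

theorem exists_sylow (hD : Cfsg.IsThreeTranspositionClass D) {E : Set G} (hE : E ⊆ D)
    (hc : ∀ a ∈ E, ∀ b ∈ E, Commute a b)
    (hmax : ∀ E' : Set G, E' ⊆ D → (∀ a ∈ E', ∀ b ∈ E', Commute a b) → E'.ncard ≤ E.ncard)
    (C : Subgroup G) (hEC : E ⊆ C) :
    ∃ T : Sylow 2 C, {d | d ∈ D ∧ d ∈ (T : Subgroup C).map C.subtype} = E := by
  haveI : Fact (Nat.Prime 2) := ⟨Nat.prime_two⟩
  have hP := isPGroup_closure_commuting (fun e he => sq_one hD.1 (hE he)) hc
  obtain ⟨T, hT⟩ := (hP.comap_subtype (K := C)).exists_le_sylow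
  refine ⟨T, (Set.eq_of_subset_of_ncard_le ?_ ?_ (Set.toFinite _)).symm⟩
  · exact fun e he => ⟨hE he, ⟨⟨e, hEC he⟩, hT (subset_closure he), rfl⟩⟩
  · refine hmax _ (fun d hd => hd.1) ?_
    rintro a ⟨ha, a', ha', rfl⟩ b ⟨hb, b', hb', rfl⟩
    obtain ⟨n, hn⟩ := T.2 ⟨a' * b', mul_mem ha' hb'⟩
    refine commute_of_two_pow hD.1 ha hb (n := n) ?_
    have := congrArg (fun x : (T : Subgroup C) => C.subtype (x : C)) hn
    simpa using this

theorem conj_in (hD : Cfsg.IsThreeTranspositionClass D) {E F : Set G} (hE : E ⊆ D) (hF : F ⊆ D)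
    (hcE : ∀ a ∈ E, ∀ b ∈ E, Commute a b) (hcF : ∀ a ∈ F, ∀ b ∈ F, Commute a b)
    (hmax : ∀ E' : Set G, E' ⊆ D → (∀ a ∈ E', ∀ b ∈ E', Commute a b) → E'.ncard ≤ E.ncard)
    (hn : F.ncard = E.ncard) (C : Subgroup G) (hEC : E ⊆ C) (hFC : F ⊆ C) :
    ∃ h ∈ C, ∀ x, x ∈ E ↔ h * x * h⁻¹ ∈ F := by
  haveI : Fact (Nat.Prime 2) := ⟨Nat.prime_two⟩
  obtain ⟨T, hT⟩ := exists_sylow hD hE hcE hmax C hEC
  obtain ⟨T', hT'⟩ := exists_sylow hD hF hcF (by rwa [hn]) C hFC
  obtain ⟨h, hh⟩ := MulAction.exists_smul_eq C T T'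
  refine ⟨h, h.2, fun x => ?_⟩
  rw [← hT, ← hT']
  show (x ∈ D ∧ x ∈ (T : Subgroup C).map C.subtype) ↔
    ((h : G) * x * (h : G)⁻¹ ∈ D ∧ (h : G) * x * (h : G)⁻¹ ∈ (T' : Subgroup C).map C.subtype)
  rw [mem_conj_iff (class_conj hD)]
  refine and_congr Iff.rfl ?_
  rw [← hh]
  simp only [Subgroup.mem_map, Sylow.coe_subgroup_smul, Subgroup.mem_pointwise_smul_iff_inv_smul_mem,
    MulDistribMulAction.toMonoidEnd_apply, MulAut.smul_def, Subgroup.coe_subtype]
  constructor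
  · rintro ⟨y, hy, rfl⟩
    refine ⟨h * y * h⁻¹, ?_, rfl⟩
    simpa [mul_assoc] using hy
  · rintro ⟨y, hy, hyx⟩
    refine ⟨_, hy, ?_⟩
    simp [hyx, mul_assoc]

/-- In a 3-transposition group (no solvable normal subgroup, perfect derived group), the normaliser of a commuting set of transpositions of maximum size contains a Sylow 2-subgroup and is doubly transitive on the set. -/
theorem result {G : Type*} [Group G] [Finite G] (hsol : ∀ N : Subgroup G, N.Normal → Group.IsSolvable ↥N → N = ⊥) (hperf : ⁅commutator G, commutator G⁆ = commutator G) {D : Set G} (hD : Cfsg.IsThreeTranspositionClass D) {E : Set G} (hE : E ⊆ D) (hc : ∀ a ∈ E, ∀ b ∈ E, Commute a b) (hmax : ∀ E' : Set G, E' ⊆ D → (∀ a ∈ E', ∀ b ∈ E', Commute a b) → E'.ncard ≤ E.ncard) : (∃ P : Sylow 2 G, (P : Subgroup G) ≤ Subgroup.normalizer E) ∧ ∀ a ∈ E, ∀ b ∈ E, ∀ c ∈ E, ∀ d ∈ E, a ≠ b → c ≠ d → ∃ g ∈ Subgroup.normalizer E, g * a * g⁻¹ = c ∧ g * b * g⁻¹ = d := by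
  haveI : Fact (Nat.Prime 2) := ⟨Nat.prime_two⟩
  have hconj := class_conj hD
  constructor
  · obtain ⟨T, hT⟩ := exists_sylow hD hE hc hmax ⊤ (fun x _ => mem_top x)
    have hP : IsPGroup 2 ((T : Subgroup (⊤ : Subgroup G)).map (⊤ : Subgroup G).subtype) :=
      T.2.map _
    obtain ⟨P, hP⟩ := hP.exists_le_sylow
    refine ⟨P, ?_⟩
    have hEP : E ⊆ (P : Subgroup G) := fun e he => hP (by rw [← hT] at he; exact he.2)
    have hEq : E = {d | d ∈ D ∧ d ∈ (P : Subgroup G)} := by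
      refine Set.eq_of_subset_of_ncard_le (fun e he => ⟨hE he, hEP he⟩) (hmax _ (fun d hd => hd.1) ?_)
        (Set.toFinite _)
      rintro a ⟨ha, ha'⟩ b ⟨hb, hb'⟩
      obtain ⟨n, hn⟩ := P.2 ⟨a * b, mul_mem ha' hb'⟩
      exact commute_of_two_pow hD.1 ha hb (n := n) (congrArg Subtype.val hn)
    intro g hg
    show ∀ n, n ∈ E ↔ g * n * g⁻¹ ∈ E
    intro n
    rw [hEq]
    refine and_congr (mem_conj_iff hconj g).symm ⟨fun h => mul_mem (mul_mem hg h) (inv_mem hg),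
      fun h => ?_⟩
    simpa [mul_assoc] using mul_mem (mul_mem (inv_mem hg) h) hg
  · intro a ha b hb c hc' d hd hab hcd
    have hD2 : ∃ a ∈ D, ∃ b ∈ D, a ≠ b := ⟨a, hE ha, b, hE hb, hab⟩
    have hw : ∃ a ∈ D, ∃ b ∈ D, a ≠ b ∧ Commute a b := ⟨a, hE ha, b, hE hb, hab, hc a ha b hb⟩
    have hprim := primitive hsol hperf hD hD2
    obtain ⟨g₁, hg₁⟩ := class_transitive hD (hE ha) (hE hc')
    obtain ⟨k, hk, hk'⟩ := transitive_near hD hprim hw (hE hc') (hconj g₁ b (hE hb)) (hE hd)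
      (fun h => hab (mul_left_cancel (mul_right_cancel (hg₁.trans h.symm))))
      hcd.symm (hg₁ ▸ (commute_conj g₁).mpr (hc a ha b hb)) (hc c hc' d hd)
    let g := k * g₁
    have hga : g * a * g⁻¹ = c := by
      have : k * c * k⁻¹ = c := by rw [← (centGen_commute hk).eq]; group
      rw [show g * a * g⁻¹ = k * (g₁ * a * g₁⁻¹) * k⁻¹ by simp only [g]; group, hg₁, this]
    have hgb : g * b * g⁻¹ = d := by
      rw [show g * b * g⁻¹ = k * (g₁ * b * g₁⁻¹) * k⁻¹ by simp only [g]; group, hk']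
    let F := (fun x => g * x * g⁻¹) '' E
    have hF : F ⊆ D := by rintro _ ⟨e, he, rfl⟩; exact hconj g e (hE he)
    have hcF : ∀ a ∈ F, ∀ b ∈ F, Commute a b := by
      rintro _ ⟨x, hx, rfl⟩ _ ⟨y, hy, rfl⟩; exact (commute_conj g).mpr (hc x hx y hy)
    have hn : F.ncard = E.ncard := Set.ncard_image_of_injective _ (MulAut.conj g).injective
    have hcF' : c ∈ F ∧ d ∈ F := ⟨⟨a, ha, hga⟩, ⟨b, hb, hgb⟩⟩
    obtain ⟨h, hh, hEF⟩ := conj_in hD hE hF hc hcF hmax hn (centralizer {c, d})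
      (fun e he => mem_centralizer_iff.mpr fun z hz => by
        rcases hz with rfl | rfl
        · exact (hc _ hc' e he).eq
        · exact (hc _ hd e he).eq)
      (fun e he => mem_centralizer_iff.mpr fun z hz => by
        rcases hz with rfl | rfl
        · exact (hcF _ hcF'.1 e he).eq
        · exact (hcF _ hcF'.2 e he).eq)
    have hfix : ∀ z ∈ ({c, d} : Set G), h⁻¹ * z * h = z := fun z hz => by
      rw [mul_assoc, mem_centralizer_iff.mp hh z hz, inv_mul_cancel_left]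
    refine ⟨h⁻¹ * g, fun n => ?_, ?_, ?_⟩
    · rw [hEF (h⁻¹ * g * n * (h⁻¹ * g)⁻¹), show h * (h⁻¹ * g * n * (h⁻¹ * g)⁻¹) * h⁻¹ = g * n * g⁻¹ by group]
      exact ⟨fun hn => ⟨n, hn, rfl⟩,
        fun ⟨e, he, h'⟩ => (MulAut.conj g).injective h' ▸ he⟩
    · rw [show h⁻¹ * g * a * (h⁻¹ * g)⁻¹ = h⁻¹ * (g * a * g⁻¹) * h by group, hga]
      exact hfix c (Or.inl rfl)
    · rw [show h⁻¹ * g * b * (h⁻¹ * g)⁻¹ = h⁻¹ * (g * b * g⁻¹) * h by group, hgb]
      exact hfix d (Or.inr rfl)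

end Cfsg.Agent.S1612
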