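import Cfsg.Statements.S0640
import Cfsg.Agent.H53.RankTwoAut
import Mathlib.LinearAlgebra.Matrix.GeneralLinearGroup.Card

set_option autoImplicit false
open Cfsg

namespace Cfsg.Agent.S0640

/-- For odd p, a prime q ≠ p dividing the order of the automorphism group of a p-group of rank at most 2 divides p² - 1 and is less than p. -/
theorem result {R : Type*} [Group R] [Finite R] {p : ℕ} [Fact p.Prime] (hp : p ≠ 2) (hR : IsPGroup p R) (hrk : Cfsg.PRankLE p 2 R) (q : ℕ) (hq : q.Prime) (hqp : q ≠ p) (hdvd : q ∣ Nat.card (MulAut R)) : q ∣ p ^ 2 - 1 ∧ q < p := by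
  have hpp : p.Prime := Fact.out
  obtain ⟨f, hf⟩ := Cfsg.Agent.H53.exists_hom_GLTwo_of_rank_two hp hR hrk
  have : Finite (MulAut R) := Finite.of_injective _ DFunLike.coe_injective
  have hdiv : q ∣ Nat.card (GL (Fin 2) (ZMod p)) := by
    rw [← Subgroup.card_mul_index f.ker, Subgroup.index_ker] at hdvd
    obtain ⟨k, hk⟩ := IsPGroup.iff_card.1 hf
    rw [hk] at hdvd
    rcases hq.dvd_mul.1 hdvd with h | h
    · exact absurd ((Nat.prime_dvd_prime_iff_eq hq hpp).1 (hq.dvd_of_dvd_pow h)) hqp
    · exact h.trans (Subgroup.card_subgroup_dvd_card _)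
  rw [Matrix.card_GL_field, Fin.prod_univ_two, ZMod.card] at hdiv
  simp only [Fin.val_zero, Fin.val_one, pow_zero, pow_one] at hdiv
  have e : p ^ 2 - p = p * (p - 1) := by rw [Nat.mul_sub, mul_one, pow_two]
  rw [e] at hdiv
  have he2 : p ^ 2 - 1 = (p + 1) * (p - 1) := Nat.sq_sub_sq p 1
  have hcases : q ∣ p + 1 ∨ q ∣ p - 1 := by
    rcases hq.dvd_mul.1 hdiv with h | h
    · rw [he2] at h
      exact hq.dvd_mul.1 h
    · rcases hq.dvd_mul.1 h with h | h
      · exact absurd ((Nat.prime_dvd_prime_iff_eq hq hpp).1 h) hqp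
      · exact Or.inr h
  have h2 := hpp.two_le
  refine ⟨?_, ?_⟩
  · rw [he2]
    rcases hcases with h | h
    · exact dvd_mul_of_dvd_left h _
    · exact dvd_mul_of_dvd_right h _
  · rcases hcases with h | h
    · have hle := Nat.le_of_dvd (by omega) h
      rcases Nat.lt_or_ge q p with hlt | hge
      · exact hlt
      · exfalso
        have hqe : q = p + 1 := by omega
        have heven : 2 ∣ q := by
          rw [hqe]
          exact even_iff_two_dvd.1 (hpp.odd_of_ne_two hp).add_one
        have := (Nat.prime_dvd_prime_iff_eq Nat.prime_two hq).1 heven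
        omega
    · have := Nat.le_of_dvd (by omega) h
      omega

end Cfsg.Agent.S0640
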