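import Cfsg.Statements.S0065
import Mathlib.GroupTheory.Nilpotent

set_option autoImplicit false
open Cfsg

namespace Cfsg.Agent.S0065

/-- A nontrivial normal subgroup of a nilpotent group intersects the centre nontrivially. -/
theorem result {G : Type*} [Group G] [Finite G] [Group.IsNilpotent G]
    (N : Subgroup G) [N.Normal] (hN : N ≠ ⊥) : N ⊓ Subgroup.center G ≠ ⊥ := by
  classical
  obtain ⟨n, hn⟩ := Group.IsNilpotent.nilpotent G
  have hex : ∃ i, N ⊓ Subgroup.upperCentralSeries G i ≠ ⊥ :=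
    ⟨n, by rwa [hn, inf_top_eq]⟩
  intro hbot
  have hspec := Nat.find_spec hex
  rcases hi : Nat.find hex with _ | i
  · rw [hi, Subgroup.upperCentralSeries_zero, inf_bot_eq] at hspec
    exact hspec rfl
  have hmin : N ⊓ Subgroup.upperCentralSeries G i = ⊥ := by
    by_contra h
    exact Nat.find_min hex (hi ▸ Nat.lt_succ_self i) h
  rw [hi] at hspec
  refine hspec (le_bot_iff.mp fun x hx => ?_)
  refine hbot.le ⟨hx.1, Subgroup.mem_center_iff.mpr fun y => ?_⟩
  have h1 : x * y * x⁻¹ * y⁻¹ ∈ N ⊓ Subgroup.upperCentralSeries G i := by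
    refine ⟨?_, Subgroup.mem_upperCentralSeries_succ_iff.mp hx.2 y⟩
    have := mul_mem hx.1 (Subgroup.Normal.conj_mem ‹N.Normal› x⁻¹ (inv_mem hx.1) y)
    simpa [mul_assoc] using this
  rw [hmin, Subgroup.mem_bot, mul_inv_eq_one, mul_inv_eq_iff_eq_mul] at h1
  exact h1.symm

end Cfsg.Agent.S0065
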