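import Cfsg.Statements.S0191
import Cfsg.Agent.H45.Galois
import Cfsg.Agent.H25.CharIntegral
import Cfsg.Agent.H26.CharBasic
-- import your own Cfsg.Agent.* helpers here

set_option autoImplicit false
open Cfsg

namespace Cfsg.Agent.S0191

/-- An irreducible complex representation of a finite group of degree greater than 1 has a character that vanishes somewhere. -/
theorem result {G : Type*} [Group G] [Finite G] {V : Type*} [AddCommGroup V] [Module ℂ V] [FiniteDimensional ℂ V] (ρ : Representation ℂ G V) [ρ.IsIrreducible] (hdeg : 1 < Module.finrank ℂ V) : ∃ g : G, ρ.character g = 0 := by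
  classical
  haveI := Fintype.ofFinite G
  by_contra hne
  push_neg at hne
  have hχ : Cfsg.IsCharacter G ρ.character := Cfsg.Agent.H26.isCharacter_char ρ
  set S : Finset G := Finset.univ.erase 1 with hS
  have hstab : ∀ k : ℕ, k.Coprime (Nat.card G) → ∀ g ∈ S, g ^ k ∈ S := by
    intro k hk g hg
    rw [hS, Finset.mem_erase] at hg ⊢
    exact ⟨fun e => hg.1 ((Cfsg.Agent.H45.powCoprime_bijective hk).1 (e.trans (one_pow k).symm)),
      Finset.mem_univ _⟩
  have h1 := Cfsg.Agent.H45.card_le_sum_char_norm_pow hχ S hstab (fun g _ => hne g) 2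
  have hnorm : ∑ g : G, (‖ρ.character g‖ : ℝ) ^ 2 = (Nat.card G : ℝ) := by
    have h := Cfsg.Agent.H25.sum_char_mul_char_inv ρ
    have h3 : ∀ g : G, ρ.character g * ρ.character g⁻¹ = ((‖ρ.character g‖ ^ 2 : ℝ) : ℂ) := by
      intro g
      rw [Cfsg.Agent.H25.char_inv ρ g, Complex.mul_conj, Complex.normSq_eq_norm_sq]
    rw [Finset.sum_congr rfl fun g _ => h3 g] at h
    exact_mod_cast h
  rw [← Finset.add_sum_erase _ _ (Finset.mem_univ (1 : G)), ← hS, ρ.char_one,
    Complex.norm_natCast] at hnorm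
  have hcard : (S.card : ℝ) = (Nat.card G : ℝ) - 1 := by
    rw [hS, Finset.card_erase_of_mem (Finset.mem_univ _), Finset.card_univ, ← Nat.card_eq_fintype_card,
      Nat.cast_sub (Nat.one_le_iff_ne_zero.2 Nat.card_pos.ne'), Nat.cast_one]
  have h2 : (2 : ℝ) ≤ (Module.finrank ℂ V : ℝ) := by exact_mod_cast hdeg
  nlinarith

end Cfsg.Agent.S0191
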