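import Cfsg.Statements.S0200
import Cfsg.Agent.H28.BaerSuzuki
import Cfsg.Agent.H28.Dihedral

set_option autoImplicit false
open Cfsg

namespace Cfsg.Agent.S0200

/-- An involution lying in no normal 2-subgroup of a finite group inverts a nontrivial element of odd order (a consequence of the Baer–Suzuki Theorem). -/
theorem result {G : Type*} [Group G] [Finite G] (t : G) (ht : orderOf t = 2) (hO : ∀ N : Subgroup G, N.Normal → IsPGroup 2 N → t ∉ N) : ∃ h : G, h ≠ 1 ∧ Odd (orderOf h) ∧ t * h * t⁻¹ = h⁻¹ := by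
  have ht2 := H28.mul_self_of_orderOf_two ht
  have ht1 := H28.ne_one_of_orderOf_two ht
  by_contra hcon
  obtain ⟨N, hN, hN2, htN⟩ := H28.baer_suzuki_element (p := 2) t (fun g => by
    set s := g * t * g⁻¹ with hs
    have hs1 : s ≠ 1 := by simpa [hs] using ht1
    have hs2 : s * s = 1 :=
      H28.mul_self_of_orderOf_two ((H28.orderOf_conj_eq g t).trans ht)
    obtain ⟨e⟩ := H28.closure_pair_dihedral ht2 hs2 ht1 hs1
    have hpos : 0 < orderOf (t * s) := (isOfFinOrder_of_finite _).orderOf_pos
    obtain ⟨a, m, hm, ham⟩ := Nat.exists_eq_two_pow_mul_odd hpos.ne'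
    have hm1 : m = 1 := by
      by_contra hm1
      apply hcon
      refine ⟨(t * s) ^ (2 ^ a), ?_, ?_, ?_⟩
      · rw [Ne, ← orderOf_dvd_iff_pow_eq_one, ham]
        intro hd
        have h0 : 0 < m := hm.pos
        have := Nat.le_of_dvd (by positivity) hd
        nlinarith [Nat.two_pow_pos a, show 2 ≤ m by omega]
      · rw [orderOf_pow' _ (by positivity), ham, Nat.gcd_mul_right_left,
          Nat.mul_div_cancel_left _ (Nat.two_pow_pos a)]
        exact hm
      · have h := H28.mul_zpow_comm ht2 hs2 ((2 ^ a : ℕ) : ℤ)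
        rw [zpow_natCast, zpow_neg, zpow_natCast] at h
        rw [h, mul_assoc, mul_inv_cancel, mul_one]
    refine IsPGroup.of_card (n := a + 1) ?_
    rw [Nat.card_congr e.toEquiv, DihedralGroup.nat_card, ham, hm1]
    ring)
  exact hO N hN hN2 htN

end Cfsg.Agent.S0200
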