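import Cfsg.Statements.S0437
import Cfsg.Agent.H17.Basic
import Cfsg.Agent.S0436

set_option autoImplicit false
open Cfsg

namespace Cfsg.Agent.S0437

/-- For three distinct, pairwise commuting members a, b, c of a set of 3-transpositions E, a member e of E centralises a * b * c if and only if it centralises each of a, b and c. -/
theorem result {G : Type*} [Group G] {E : Set G} (hE : Cfsg.IsThreeTranspositionSet E) {a b c e : G} (ha : a ∈ E) (hb : b ∈ E) (hc : c ∈ E) (he : e ∈ E) (hab : a ≠ b) (hac : a ≠ c) (hbc : b ≠ c) (h₁ : Commute a b) (h₂ : Commute a c) (h₃ : Commute b c) : Commute e (a * b * c) ↔ (Commute e a ∧ Commute e b ∧ Commute e c) := by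
  constructor
  · intro h
    have key : ∀ p ∈ E, ∀ q ∈ E, ∀ r ∈ E, p ≠ q → Commute p q → Commute e (p * q * r) →
        Commute e r → Commute e p ∧ Commute e q := by
      intro p hp q hq r hr hpq hc hT her
      have hpq' : p * q = p * q * r * r := by rw [mul_assoc (p * q), H17.sq_one hE hr, mul_one]
      refine (S0436.result hE hp hq he hpq hc).mp ?_
      rw [hpq']; exact hT.mul_right her
    have hbca : b * c * a = a * b * c := by
      rw [mul_assoc a, (h₁.mul_right h₂).eq]
    have hacb : a * c * b = a * b * c := by rw [mul_assoc, mul_assoc, h₃.eq]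
    by_cases hec : Commute e c
    · exact ⟨(key a ha b hb c hc hab h₁ h hec).1, (key a ha b hb c hc hab h₁ h hec).2, hec⟩
    by_cases hea : Commute e a
    · exact absurd (key b hb c hc a ha hbc h₃ (hbca ▸ h) hea).2 hec
    by_cases heb : Commute e b
    · exact absurd (key a ha c hc b hb hac h₂ (hacb ▸ h) heb).2 hec
    exfalso
    have ea : e * a * e = a * e * a := H17.braid hE he ha hea
    have eb : e * b * e = b * e * b := H17.braid hE he hb heb
    have ec : e * c * e = c * e * c := H17.braid hE he hc hec
    have he2 := H17.sq_one hE he
    have hc2 := H17.sq_one hE hc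
    have hT : e * (a * b * c) * e = a * b * c := by rw [h.eq, mul_assoc, he2, mul_one]
    -- conjugating `b` by `c * e * c` gives `a`
    have h4 : (e * (a * b) * e) * (c * e * c) = a * b * c := by
      rw [← ec]
      calc e * (a * b) * e * (e * c * e) = e * (a * b) * (e * e) * c * e := by
            simp only [mul_assoc]
        _ = e * (a * b * c) * e := by rw [he2]; simp only [mul_assoc, one_mul]
        _ = _ := hT
    have h5 : e * (a * b) * e = (a * b * c) * (c * e * c) := by
      have : (c * e * c) * (c * e * c) = 1 := by
        calc c * e * c * (c * e * c) = c * e * (c * c) * e * c := by simp only [mul_assoc]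
          _ = c * (e * e) * c := by rw [hc2]; simp only [mul_assoc, one_mul]
          _ = 1 := by rw [he2, mul_one, hc2]
      calc e * (a * b) * e = e * (a * b) * e * ((c * e * c) * (c * e * c)) := by rw [this, mul_one]
        _ = (e * (a * b) * e * (c * e * c)) * (c * e * c) := by rw [mul_assoc (e * (a * b) * e)]
        _ = _ := by rw [h4]
    have h6 : e * (a * b) * e = a * (e * (a * b) * e) * b := by
      have : (e * a * e) * (e * b * e) = e * (a * b) * e := by
        calc e * a * e * (e * b * e) = e * a * (e * e) * b * e := by simp only [mul_assoc]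
          _ = _ := by rw [he2]; simp only [mul_assoc, one_mul]
      calc e * (a * b) * e = (e * a * e) * (e * b * e) := this.symm
        _ = (a * e * a) * (b * e * b) := by rw [ea, eb]
        _ = _ := by simp only [mul_assoc]
    rw [h5] at h6
    have h7 : b * c * (c * e * c) = a * b * c * (c * e * c) * b := by
      apply mul_left_cancel (a := a)
      calc a * (b * c * (c * e * c)) = a * b * c * (c * e * c) := by simp only [mul_assoc]
        _ = a * (a * b * c * (c * e * c)) * b := h6
        _ = _ := by simp only [mul_assoc]
    have h8 : c * e * c = a * (c * e * c) * b := by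
      apply mul_left_cancel (a := b * c)
      rw [h7, ← hbca]; simp only [mul_assoc]
    have h9 : (c * e * c) * b * (c * e * c) = a := by
      have hb' : a * (c * e * c) = (c * e * c) * b := by
        conv_rhs => rw [h8]
        rw [mul_assoc (a * (c * e * c)), H17.sq_one hE hb, mul_one]
      rw [← hb']
      calc a * (c * e * c) * (c * e * c) = a * (c * (e * (c * c) * e) * c) := by
            simp only [mul_assoc]
        _ = a := by rw [hc2, mul_one, he2, mul_one, hc2, mul_one]
    have h10 : c * (b * e * b) * c = a := by
      rw [← h9, ← eb]
      calc c * (e * b * e) * c = c * e * (b * (c * c)) * e * c := by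
            rw [hc2, mul_one]; simp only [mul_assoc]
        _ = c * e * (c * b * c) * e * c := by rw [← h₃.eq]; simp only [mul_assoc]
        _ = _ := by simp only [mul_assoc]
    apply hea
    have h11 : e = (b * c) * a * (c * b) := by
      rw [← h10]
      calc e = (b * b) * e * (b * b) := by rw [H17.sq_one hE hb, one_mul, mul_one]
        _ = b * (c * c) * (b * e * b) * (c * c) * b := by
              rw [hc2, mul_one]; simp only [mul_assoc, one_mul]
        _ = _ := by simp only [mul_assoc]
    rw [h11]
    exact ((h₁.symm.mul_left h₂.symm).mul_left (Commute.refl a)).mul_left (h₂.symm.mul_left h₁.symm)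
  · rintro ⟨h1, h2, h3⟩
    exact (h1.mul_right h2).mul_right h3

end Cfsg.Agent.S0437
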