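import Cfsg.Statements.S0447
import Cfsg.Agent.H17.DoubleCoverAlt

set_option autoImplicit false
open Cfsg

namespace Cfsg.Agent.S0447

/-- Involutions in double covers of alternating groups: for n ≤ 7, a finite non-split double cover of the alternating group of degree n has exactly one element of order 2 (the central one); for degree 8 there is a non-split double cover with two distinct involutions. -/
theorem result : (∀ (n : ℕ) (H : Type) (_ : Group H) (_ : Finite H), n ≤ 7 → Cfsg.IsNonsplitDoubleCover H (alternatingGroup (Fin n)) → ∀ x y : H, orderOf x = 2 → orderOf y = 2 → x = y) ∧ ∃ (H : Type) (_ : Group H) (_ : Finite H), Cfsg.IsNonsplitDoubleCover H (alternatingGroup (Fin 8)) ∧ ∃ x y : H, x ≠ y ∧ orderOf x = 2 ∧ orderOf y = 2 := by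
  refine ⟨fun n H _ _ hn hH x y hx hy => ?_, H17.DoubleCoverAlt.exists_cover_eight⟩
  have cx := H17.DoubleCoverAlt.orderOf_two_eq_center hn hH hx
  have cy := H17.DoubleCoverAlt.orderOf_two_eq_center hn hH hy
  obtain ⟨a, b, -, hab⟩ := Nat.card_eq_two_iff.1 hH.1
  have key : ∀ u v w : ↥(Subgroup.center H), u ≠ w → v ≠ w → u = v := by
    intro u v w
    have h : ∀ t : ↥(Subgroup.center H), t = a ∨ t = b := fun t => by
      have : t ∈ ({a, b} : Set _) := hab ▸ Set.mem_univ t
      simpa using this
    rcases h u with rfl | rfl <;> rcases h v with rfl | rfl <;> rcases h w with rfl | rfl <;> tauto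
  have hne : ∀ {t : H} (ht : orderOf t = 2) (ct : t ∈ Subgroup.center H),
      (⟨t, ct⟩ : ↥(Subgroup.center H)) ≠ 1 := fun {t} ht ct h => by
    have : t = (1 : H) := congrArg Subtype.val h
    rw [this] at ht; simp at ht
  exact congrArg Subtype.val (key ⟨x, cx⟩ ⟨y, cy⟩ 1 (hne hx cx) (hne hy cy))

end Cfsg.Agent.S0447
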