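import Cfsg.Statements.S0799
import Cfsg.Agent.H6.Applications

set_option autoImplicit false
open Cfsg

namespace Cfsg.Agent.S0799

open Cfsg.Agent.H6 Matrix MatrixGroups

/-- Dickson's classification of the subgroups of PSL_2(q), q a power of the prime p, d = gcd(2, q − 1): every subgroup H is (a) cyclic or dihedral with k dividing (q+1)/d or (q−1)/d (cyclic of order k, or dihedral of order 2k), (b) isomorphic to a subgroup of the normaliser of a Sylow p-subgroup, (c) isomorphic to A_4, S_4 or A_5, or (d) isomorphic to PSL_2(K) or PGL_2(K) for a finite field K with |K|^m = q. -/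
theorem result {F : Type*} [Field F] [Fintype F] {q : ℕ} (hF : Fintype.card F = q) (p : ℕ) [Fact p.Prime] [CharP F p] (H : Subgroup (Matrix.ProjectiveSpecialLinearGroup (Fin 2) F)) : (∃ k : ℕ, (k ∣ (q + 1) / Nat.gcd 2 (q - 1) ∨ k ∣ (q - 1) / Nat.gcd 2 (q - 1)) ∧ ((IsCyclic H ∧ Nat.card H = k) ∨ Nonempty (H ≃* DihedralGroup k))) ∨ (∃ (P : Sylow p (Matrix.ProjectiveSpecialLinearGroup (Fin 2) F)) (K : Subgroup (Matrix.ProjectiveSpecialLinearGroup (Fin 2) F)), K ≤ Subgroup.normalizer ((P : Subgroup (Matrix.ProjectiveSpecialLinearGroup (Fin 2) F)) : Set (Matrix.ProjectiveSpecialLinearGroup (Fin 2) F)) ∧ Nonempty (H ≃* K)) ∨ Nonempty (H ≃* alternatingGroup (Fin 4)) ∨ Nonempty (H ≃* Equiv.Perm (Fin 4)) ∨ Nonempty (H ≃* alternatingGroup (Fin 5)) ∨ (∃ (K : Type) (_ : Field K) (_ : Fintype K) (m : ℕ), Fintype.card K ^ m = q ∧ (Nonempty (H ≃* Matrix.ProjectiveSpecialLinearGroup (Fin 2) K) ∨ Nonempty (H ≃* Matrix.ProjGenLinGroup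 (Fin 2) K))) := by
  classical
  obtain ⟨c, hc⟩ := exists_outcome p H
  obtain ⟨e⟩ := cjEquiv_exists c H
  cases hc with
  | triv h =>
    rw [card_cj] at h
    have : Subsingleton H := (Nat.card_eq_one_iff_unique.1 h).1
    exact Or.inl ⟨1, Or.inl (one_dvd _), Or.inl ⟨inferInstance, h⟩⟩
  | dih h =>
    obtain ⟨g, ht, hle⟩ := h
    obtain ⟨k, hk, hH⟩ := cyclic_or_dihedral_of_le_torDih ht hle
    refine Or.inl ⟨k, ?_, ?_⟩
    · rcases card_tor_ss hF ht with ⟨-, h⟩ | ⟨-, h⟩ <;> rw [h] at hk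
      · exact Or.inr hk
      · exact Or.inl hk
    · rcases hH with ⟨h1, h2, -⟩ | hH
      · exact Or.inl ⟨e.isCyclic.2 h1, (Nat.card_congr e.toEquiv).trans h2⟩
      · exact Or.inr (hH.map e.trans)
  | bor h =>
    obtain ⟨d, hd⟩ := h
    obtain ⟨P, hP⟩ := exists_sylow_Uinf (F := F) p
    obtain ⟨f⟩ := cjEquiv_exists d (cj c H)
    refine Or.inr (Or.inl ⟨P, cj d (cj c H), ?_, ⟨e.trans f⟩⟩)
    rw [hP, normalizer_Uinf]
    exact hd
  | a4 _ h => exact Or.inr (Or.inr (Or.inl (h.map e.trans)))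
  | s4 _ h _ => exact Or.inr (Or.inr (Or.inr (Or.inl (h.map e.trans))))
  | a5 _ h _ => exact Or.inr (Or.inr (Or.inr (Or.inr (Or.inl (h.map e.trans)))))
  | gen h =>
    obtain ⟨r, k, hG⟩ := h
    obtain ⟨K, hKr, -, hK⟩ := gen_structure hG
    have := Fintype.ofFinite K
    obtain ⟨K₀, _, _, ⟨f⟩⟩ := exists_ringEquiv_type (K := K)
    refine Or.inr (Or.inr (Or.inr (Or.inr (Or.inr
      ⟨K₀, inferInstance, inferInstance, Module.finrank K F, ?_, ?_⟩))))
    · rw [← Fintype.card_congr f.toEquiv, ← Module.card_eq_pow_finrank, hF]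
    · rcases hK with ⟨-, ⟨g⟩⟩ | ⟨-, ⟨g⟩, -⟩
      · exact Or.inl ⟨(e.trans g).trans (pslEquiv f)⟩
      · exact Or.inr ⟨(e.trans g).trans (pglEquiv f)⟩

end Cfsg.Agent.S0799
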