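import Cfsg.Statements.S0801
import Cfsg.Agent.H6.GenStructure
import Cfsg.Agent.H6.TraceOrders
import Cfsg.Agent.H6.Icosahedral
import Cfsg.Agent.H6.SylowTwo

set_option autoImplicit false
open Cfsg Matrix MatrixGroups

namespace Cfsg.Agent.S0801

open Cfsg.Agent.H6

variable {F : Type*} [Field F] [Fintype F]

lemma card_le_of_fixed {n : ℕ} (hn : 1 < n) (h : ∀ x : F, x ^ n = x) : Fintype.card F ≤ n := by
  obtain ⟨g, hg⟩ := IsCyclic.exists_ofOrder_eq_natCard (α := Fˣ)
  have h1 : g ^ (n - 1) = 1 := by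
    refine Units.ext (mul_left_cancel₀ g.ne_zero ?_)
    rw [Units.val_pow_eq_pow_val, ← pow_succ', show n - 1 + 1 = n by omega, h, Units.val_one, mul_one]
  have h2 := Nat.le_of_dvd (by omega) (orderOf_dvd_of_pow_eq_one h1)
  rw [hg, Nat.card_units, Nat.card_eq_fintype_card] at h2
  omega

lemma fixed_of_closure {lam : F} (hgen : Subfield.closure ({lam} : Set F) = ⊤) (p : ℕ)
    [Fact p.Prime] [CharP F p] (j : ℕ) (h : lam ^ p ^ j = lam) (x : F) : x ^ p ^ j = x := by
  have hle : Subfield.closure ({lam} : Set F) ≤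
      RingHom.eqLocusField (iterateFrobenius F p j) (RingHom.id F) := by
    rw [Subfield.closure_le, Set.singleton_subset_iff]
    show iterateFrobenius F p j lam = lam
    rw [iterateFrobenius_def]; exact h
  rw [hgen] at hle
  exact (iterateFrobenius_def (R := F) p j x).symm.trans (hle trivial : iterateFrobenius F p j x = x)

lemma sq_pow_cases_four : ∀ x : alternatingGroup (Fin 4), x ^ 2 = 1 ∨ x ^ 3 = 1 := by decide

set_option maxRecDepth 100000 in
lemma sq_pow_cases_five :
    ∀ x : alternatingGroup (Fin 5), x ^ 2 = 1 ∨ x ^ 3 = 1 ∨ x ^ 5 = 1 := by decide +kernel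

lemma pow_eq_one_of_equiv {G M : Type*} [Group G] [Group M] {c : G} {H : Subgroup G}
    (e : cj c H ≃* M) {n : ℕ} {x : G} (hx : x ∈ H)
    (h : e ⟨c * x * c⁻¹, Subgroup.mem_map_of_mem _ hx⟩ ^ n = 1) : x ^ n = 1 := by
  rw [← map_pow, e.map_eq_one_iff] at h
  have h' : (c * x * c⁻¹) ^ n = 1 := congrArg Subtype.val h
  rwa [conj_pow, mul_inv_eq_one, mul_eq_left] at h'

/-- Possible images in `PSL₂` of a group containing the two transvections. -/
theorem image_cases (h2 : (2 : F) ≠ 0) {lam : F} (hlam : lam ≠ 0)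
    (hgen : Subfield.closure ({lam} : Set F) = ⊤) {H : Subgroup PSL(2, F)}
    (hu : π (up lam) ∈ H) (hl : π (lo 1) ∈ H) :
    H = ⊤ ∨ (Fintype.card F = 9 ∧ lam ^ 2 = -1 ∧ Nat.card H = 60) := by
  classical
  obtain ⟨p, hpc⟩ := CharP.exists F
  have := Fact.mk (CharP.char_is_prime F p)
  have hp2 : p ≠ 2 := by
    rintro rfl
    exact h2 (by exact_mod_cast CharP.cast_eq_zero F 2)
  have hp : p.Prime := Fact.out
  have hu1 : π (up lam) ≠ 1 := fun e => hlam (π_up_eq_one_iff.1 e)
  have hl1 : π (lo (1 : F)) ≠ 1 := fun e => one_ne_zero (α := F)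
    (π_eq_one_iff_isScal.1 e).2.1
  have huns : ¬ IsSS (π (up lam)) := not_isSS_up lam
  have hlns : ¬ IsSS (π (lo (1 : F))) := by
    rw [isSS_π]; simp [tr, lo]; norm_num
  have hou : orderOf (π (up lam)) = p := orderOf_eq_of_not_isSS p hu1 huns
  have hnc : π (up lam) * π (lo 1) ≠ π (lo 1) * π (up lam) := by
    rw [← map_mul, ← map_mul, Ne, π_eq_iff]
    rintro (e | e)
    · have := congrArg (fun z : SL(2, F) => z 0 0) e
      simp [up, lo, sl2_mul, hlam] at this
    · have := congrArg (fun z : SL(2, F) => z 0 1) e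
      simp [up, lo, sl2_mul, sl2_neg] at this
      exact hlam ((mul_eq_zero.1 (show 2 * lam = 0 by linear_combination this)).resolve_left h2)
  -- two elements of known trace
  have hv : π (up lam * lo 1) ∈ H := by rw [map_mul]; exact mul_mem hu hl
  have hw : π ((up lam)⁻¹ * lo 1) ∈ H := by rw [map_mul, map_inv]; exact mul_mem (inv_mem hu) hl
  have htv : tr (up lam * lo 1) = 2 + lam := by simp [tr, up, lo, sl2_mul]; ring
  have htw : tr ((up lam)⁻¹ * lo 1) = 2 - lam := by
    simp [tr, up, lo, sl2_mul, sl2_inv_00, sl2_inv_01, sl2_inv_10, sl2_inv_11]; ring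
  have hv1 : π (up lam * lo 1) ≠ 1 := fun e => by
    simpa [up, lo, sl2_mul] using (π_eq_one_iff_isScal.1 e).2.1
  have hw1 : π ((up lam)⁻¹ * lo 1) ≠ 1 := fun e => by
    simpa [up, lo, sl2_mul, sl2_inv_10, sl2_inv_11] using (π_eq_one_iff_isScal.1 e).2.1
  obtain ⟨c, hc⟩ := exists_outcome p H
  have hcu : c * π (up lam) * c⁻¹ ∈ cj c H := Subgroup.mem_map_of_mem _ hu
  have hcl : c * π (lo 1) * c⁻¹ ∈ cj c H := Subgroup.mem_map_of_mem _ hl
  have hns : ∀ {x : PSL(2, F)}, ¬ IsSS x → ¬ IsSS (c * x * c⁻¹) := fun {x} hx h => hx (by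
    simpa [mul_assoc] using isSS_conj (c := c⁻¹) h)
  have hne : ∀ {x : PSL(2, F)}, x ≠ 1 → c * x * c⁻¹ ≠ 1 := fun {x} hx h => hx (by
    simpa [mul_assoc] using congrArg (fun z => c⁻¹ * z * c) h)
  have hpdvd : p ∣ Nat.card (cj c H) := by
    rw [card_cj, ← hou]; exact Subgroup.orderOf_dvd_natCard _ hu
  have hpsl := card_psl2_mul (F := F) (q := Fintype.card F) rfl
  cases hc with
  | triv h =>
    exfalso
    rw [Subgroup.card_eq_one] at h
    exact hne hu1 (Subgroup.mem_bot.1 (h ▸ hcu))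
  | dih h =>
    exfalso
    obtain ⟨g, ht, hle⟩ := h
    by_cases hg : c * π (up lam) * c⁻¹ ∈ tor g
    · exact hns huns (isSS_of_mem_isTor ⟨g, ht, rfl⟩ hg (hne hu1))
    · obtain ⟨hsq, -, -⟩ := outside_torDih ht (hle hcu) hg
      have := Fact.mk Nat.prime_two
      have h2' : orderOf (c * π (up lam) * c⁻¹) = 2 :=
        orderOf_eq_prime (by rw [sq]; exact hsq) (hne hu1)
      rw [show orderOf (c * π (up lam) * c⁻¹) = orderOf (π (up lam)) from
        orderOf_injective (MulAut.conj c).toMonoidHom (MulEquiv.injective _) _, hou] at h2'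
      exact hp2 h2'
  | bor h =>
    exfalso
    obtain ⟨d, hd⟩ := h
    rw [cj_cj] at hd
    have key : ∀ {x : PSL(2, F)}, x ∈ H → ¬ IsSS x → (d * c) * x * (d * c)⁻¹ ∈ Uinf F := by
      intro x hx hxs
      have hb := hd (Subgroup.mem_map_of_mem (MulAut.conj (d * c)).toMonoidHom hx)
      refine (chiB_eq_one_iff ⟨_, hb⟩).1 (by_contra fun hne' => hxs ?_)
      simpa [mul_assoc] using isSS_conj (c := (d * c)⁻¹) (isSS_of_chiB hne')
    obtain ⟨a, ha⟩ := mem_Uinf.1 (key hu huns)
    obtain ⟨b, hb⟩ := mem_Uinf.1 (key hl hlns)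
    apply hnc
    have hab : π (up a) * π (up b) = π (up b) * π (up a) := by
      rw [← map_mul, ← map_mul, ← up_add, ← up_add, add_comm]
    rw [ha, hb] at hab
    simpa [mul_assoc] using congrArg (fun z => (d * c)⁻¹ * z * (d * c)) hab
  | s4 h e hp' => exact absurd hpdvd hp'
  | a4 h e =>
    obtain ⟨e⟩ := e
    have h3 : p = 3 := by
      rw [h, show 12 = 2 ^ 2 * 3 by norm_num, hp.dvd_mul] at hpdvd
      rcases hpdvd with hd | hd
      · exact absurd ((Nat.prime_dvd_prime_iff_eq hp Nat.prime_two).1 (hp.dvd_of_dvd_pow hd)) hp2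
      · exact (Nat.prime_dvd_prime_iff_eq hp Nat.prime_three).1 hd
    subst h3
    have hsmall : ∀ g : SL(2, F), π g ∈ H → π g ≠ 1 → tr g ^ 3 = tr g := by
      intro g hg hg1
      obtain ⟨t2, t3, -⟩ := tr_sq_of_pow hg1
      rcases sq_pow_cases_four (e ⟨c * π g * c⁻¹, Subgroup.mem_map_of_mem _ hg⟩) with hh | hh
      · simp [t2 (pow_eq_one_of_equiv e hg hh)]
      · rw [pow_succ, t3 (pow_eq_one_of_equiv e hg hh), one_mul]
    left
    have hlam3 : lam ^ 3 ^ 1 = lam := by
      have := hsmall _ hv hv1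
      rw [htv] at this
      have h30 : (3 : F) = 0 := by exact_mod_cast CharP.cast_eq_zero F 3
      linear_combination this - (2 * lam ^ 2 + 4 * lam + 2) * h30
    have hq3 : Fintype.card F ≤ 3 := card_le_of_fixed (by norm_num) fun x => by
      simpa using fixed_of_closure hgen 3 1 hlam3 x
    refine Subgroup.eq_top_of_le_card _ ?_
    rw [← card_cj c H, h]
    interval_cases hq : Fintype.card F <;> norm_num [-Nat.card_eq_fintype_card] at hpsl <;> omega
  | a5 h e h3 =>
    obtain ⟨e⟩ := e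
    obtain rfl := h3 hpdvd
    have h30 : (3 : F) = 0 := by exact_mod_cast CharP.cast_eq_zero F 3
    have hsmall : ∀ g : SL(2, F), π g ∈ H → π g ≠ 1 →
        tr g ^ 3 = tr g ∨ (tr g ^ 2) ^ 2 + 1 = 0 := by
      intro g hg hg1
      obtain ⟨t2, t3, t5⟩ := tr_sq_of_pow hg1
      rcases sq_pow_cases_five (e ⟨c * π g * c⁻¹, Subgroup.mem_map_of_mem _ hg⟩) with hh | hh | hh
      · exact Or.inl (by simp [t2 (pow_eq_one_of_equiv e hg hh)])
      · exact Or.inl (by rw [pow_succ, t3 (pow_eq_one_of_equiv e hg hh), one_mul])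
      · exact Or.inr (by linear_combination t5 (pow_eq_one_of_equiv e hg hh) + tr g ^ 2 * h30)
    have hcard : 60 ≤ Nat.card PSL(2, F) := by
      rw [← h]; exact Subgroup.card_le_card_group _
    have hnot3 : lam ^ 3 ^ 1 ≠ lam := fun hlam3 => by
      have hq3 : Fintype.card F ≤ 3 := card_le_of_fixed (by norm_num) fun x => by
        simpa using fixed_of_closure hgen 3 1 hlam3 x
      interval_cases hq : Fintype.card F <;> norm_num [-Nat.card_eq_fintype_card] at hpsl <;> omega
    have hv4 : ((2 + lam) ^ 2) ^ 2 + 1 = 0 := by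
      rw [← htv]
      refine (hsmall _ hv hv1).resolve_left fun h' => hnot3 ?_
      rw [htv] at h'
      linear_combination h' - (2 * lam ^ 2 + 4 * lam + 2) * h30
    have hw4 : ((2 - lam) ^ 2) ^ 2 + 1 = 0 := by
      rw [← htw]
      refine (hsmall _ hw hw1).resolve_left fun h' => hnot3 ?_
      rw [htw] at h'
      linear_combination (-1 : F) * h' + (2 * lam ^ 2 - 4 * lam + 2) * h30
    have hl2 : lam ^ 2 = -1 := by
      have hprod : ((2 + lam) ^ 2 - (2 - lam) ^ 2) * ((2 + lam) ^ 2 + (2 - lam) ^ 2) = 0 := by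
        linear_combination hv4 - hw4
      rcases mul_eq_zero.1 hprod with h' | h'
      · exact absurd (show lam = 0 by linear_combination (-1 : F) * h' + 3 * lam * h30) hlam
      · linear_combination (-1 : F) * h' + (lam ^ 2 + 3) * h30
    refine Or.inr ⟨?_, hl2, (card_cj c H).symm.trans h⟩
    have hq9 : Fintype.card F ≤ 9 := card_le_of_fixed (by norm_num) fun x => by
      refine fixed_of_closure hgen 3 2 ?_ x
      rw [show (3 : ℕ) ^ 2 = 2 * 4 + 1 by norm_num, pow_succ, pow_mul, hl2]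
      norm_num
    obtain ⟨n, -, hn⟩ := FiniteField.card F 3
    rcases (show (n : ℕ) = 1 ∨ (n : ℕ) = 2 by
      have := n.pos
      have : (3 : ℕ) ^ (n : ℕ) < 3 ^ 3 := by omega
      have := (Nat.pow_lt_pow_iff_right (by norm_num)).1 this
      omega) with hn' | hn'
    · rw [hn', pow_one] at hn
      rw [hn] at hpsl
      norm_num [-Nat.card_eq_fintype_card] at hpsl
      omega
    · rw [hn, hn']; norm_num
  | gen h =>
    obtain ⟨r, k, hG⟩ := h
    obtain ⟨K, hKr, htr, -⟩ := gen_structure hG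
    obtain ⟨-, -, -, hk1, hkr, hcard, -, -⟩ := hG
    obtain ⟨d, rfl⟩ := π_surjective c
    have htrH : ∀ g : SL(2, F), π g ∈ H → tr g ^ 2 ∈ K := fun g hg => by
      rw [← tr_conj d g]
      refine htr _ ?_
      rw [map_mul, map_mul, map_inv]
      exact Subgroup.mem_map_of_mem _ hg
    have h8 : (8 : F) ≠ 0 := by
      rw [show (8 : F) = 2 ^ 3 by norm_num]; exact pow_ne_zero 3 h2
    have hlamK : lam ∈ K := by
      have h1 := htrH _ hv
      have h2' := htrH _ hw
      rw [htv] at h1
      rw [htw] at h2'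
      have := K.div_mem (K.sub_mem h1 h2') (natCast_mem K 8)
      convert this using 1
      rw [eq_div_iff (by exact_mod_cast h8)]
      push_cast
      ring
    have htop : K = ⊤ := top_le_iff.1 (hgen ▸ Subfield.closure_le.2 (Set.singleton_subset_iff.2 hlamK))
    have hrq : r = Fintype.card F := by
      rw [← hKr, htop, ← Nat.card_eq_fintype_card]
      exact Nat.card_congr Subfield.topEquiv.toEquiv
    left
    refine Subgroup.eq_top_of_le_card _ ?_
    rw [← card_cj (π d) H, hcard]
    have hq1 : 1 < Fintype.card F := Fintype.one_lt_card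
    have hg2 : Nat.gcd 2 (Fintype.card F - 1) = 2 := by
      have h1 := odd_of_two_ne (F := F) rfl h2
      exact Nat.gcd_eq_left ⟨Fintype.card F / 2, by omega⟩
    rw [hg2, show Fintype.card F ^ 2 - 1 = (Fintype.card F + 1) * (Fintype.card F - 1) by
      rw [← Nat.sq_sub_sq, one_pow], ← hrq] at hpsl
    have : r - 1 ≤ 2 * k := by omega
    have := Nat.mul_le_mul_left ((r + 1) * r) this
    nlinarith [hpsl]

/-- In the exceptional case the image has order at most `60`. -/
lemma card_image_le (hF : Fintype.card F = 9) {lam : F} (hl2 : lam ^ 2 = -1) :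
    Nat.card (Subgroup.closure ({π (up lam), π (lo 1)} : Set PSL(2, F))) ≤ 60 := by
  classical
  have := Fact.mk Nat.prime_three
  have : CharP F 3 := by
    obtain ⟨p, hpc⟩ := CharP.exists F
    obtain ⟨n, hp, hn⟩ := FiniteField.card F p
    have hd : p ∣ 3 ^ 2 := by
      have := dvd_pow_self p n.ne_zero
      rw [← hn, hF] at this
      exact this
    exact (Nat.prime_dvd_prime_iff_eq hp Nat.prime_three).1 (hp.dvd_of_dvd_pow hd) ▸ hpc
  have h30 : (3 : F) = 0 := by exact_mod_cast CharP.cast_eq_zero F 3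
  set H := Subgroup.closure ({π (up lam), π (lo 1)} : Set PSL(2, F))
  have hu : π (up lam) ∈ H := Subgroup.subset_closure (by simp)
  have hl : π (lo 1) ∈ H := Subgroup.subset_closure (by simp)
  set v : SL(2, F) := up lam * lo 1
  have htv : tr v = 2 + lam := by simp [v, tr, up, lo, sl2_mul]; ring
  have h1 : ∀ i j, (v ^ 1) i j = (1 : F) * v i j + 0 * (1 : SL(2, F)) i j := by simp
  have hv5 : π v ^ 5 = 1 := by
    have h5 := pow_lin_step (pow_lin_step (pow_lin_step (pow_lin_step h1)))
    rw [← map_pow, π_eq_one_iff_isScal]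
    have ha : (((1 * tr v + 0) * tr v + -1) * tr v + -(1 * tr v + 0)) * tr v +
        -((1 * tr v + 0) * tr v + -1) = 0 := by
      rw [htv]
      grind
    refine ⟨?_, ?_, ?_⟩ <;> simp only [h5, ha] <;> simp
  have hy : π (lo 1 * (v * v)) ^ 2 = 1 := by
    have ht : tr (lo 1 * (v * v)) = 0 := by
      simp [v, tr, up, lo, sl2_mul]
      grind
    have h := pow_orderOf_eq_one (π (lo 1 * (v * v)))
    rwa [(orderOf_π_eq_two_iff (fun e => one_ne_zero (α := F) (by linear_combination h30 - e))).2 ht] at h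
  let u' : H := ⟨π (up lam), hu⟩
  let l' : H := ⟨π (lo 1), hl⟩
  set a : H := ((u' * l') * (u' * l'))⁻¹
  set b : H := l' * ((u' * l') * (u' * l'))
  have hxv : ((u' * l' : H) : PSL(2, F)) = π v := (map_mul _ _ _).symm
  have h5 : (u' * l') ^ 5 = 1 := Subtype.ext (by rw [Subgroup.coe_pow, hxv, hv5]; rfl)
  have hl3 : l' ^ 3 = 1 := by
    refine Subtype.ext ?_
    show π (lo (1 : F)) ^ 3 = 1
    rw [← map_pow, pow_char_of_tr_two 3 (by simp [tr, lo]; norm_num), map_one]
  refine card_le_sixty_of_relations (x := a) (y := b) ?_ ?_ ?_ ?_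
  · rw [show a = ((u' * l') ^ 2)⁻¹ by rw [sq], inv_pow, ← pow_mul, mul_comm, pow_mul, h5, one_pow,
      inv_one]
  · refine Subtype.ext ?_
    rw [Subgroup.coe_pow, Subgroup.coe_mul, Subgroup.coe_mul, hxv, Subgroup.coe_one,
      show ((l' : H) : PSL(2, F)) = π (lo 1) from rfl, ← map_mul, ← map_mul, hy]
  · rw [show a * b = ((u' * l') * (u' * l'))⁻¹ * l' * ((u' * l') * (u' * l'))⁻¹⁻¹ by
      simp only [a, b, inv_inv, mul_assoc], conj_pow, hl3, mul_one, mul_inv_cancel]
  · set T := Subgroup.closure ({a, b} : Set H)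
    have ha' : a ∈ T := Subgroup.subset_closure (by simp)
    have hb' : b ∈ T := Subgroup.subset_closure (by simp)
    have hl' : l' ∈ T := by
      have : l' = b * a := by simp [a, b, mul_assoc]
      rw [this]; exact mul_mem hb' ha'
    have hu' : u' ∈ T := by
      have hx : u' * l' = a * a := by
        rw [show a = ((u' * l') ^ 2)⁻¹ by rw [sq], ← _root_.mul_inv_rev, ← pow_add]
        exact eq_inv_of_mul_eq_one_left (by rw [← pow_succ', h5])
      have : u' = a * a * l'⁻¹ := by rw [← hx, mul_inv_cancel_right]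
      rw [this]; exact mul_mem (mul_mem ha' ha') (inv_mem hl')
    rw [eq_top_iff, ← Subgroup.closure_closure_coe_preimage
      (k := ({π (up lam), π (lo 1)} : Set PSL(2, F))), Subgroup.closure_le]
    rintro x (hx | hx)
    · exact (Subtype.ext hx : x = u') ▸ hu'
    · exact (Subtype.ext hx : x = l') ▸ hl'

/-- Let F be a finite field of odd characteristic and λ ≠ 0 an element generating F as a field. Then the lower and upper unitriangular matrices with off-diagonal entries 1 and λ generate SL_2(F), unless |F| = 9 and λ² = −1, in which case they generate a subgroup of order 120. -/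
theorem result {F : Type*} [Field F] [Fintype F] (h2 : (2 : F) ≠ 0) (lam : F) (hlam : lam ≠ 0) (hgen : Subfield.closure ({lam} : Set F) = ⊤) : (Subgroup.closure {g : Matrix.SpecialLinearGroup (Fin 2) F | (g : Matrix (Fin 2) (Fin 2) F) = !![1, 0; 1, 1] ∨ (g : Matrix (Fin 2) (Fin 2) F) = !![1, lam; 0, 1]} = ⊤ ∧ ¬ (Fintype.card F = 9 ∧ lam ^ 2 = -1)) ∨ (Fintype.card F = 9 ∧ lam ^ 2 = -1 ∧ Nat.card ↥(Subgroup.closure {g : Matrix.SpecialLinearGroup (Fin 2) F | (g : Matrix (Fin 2) (Fin 2) F) = !![1, 0; 1, 1] ∨ (g : Matrix (Fin 2) (Fin 2) F) = !![1, lam; 0, 1]}) = 120) := by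
  classical
  have hset : {g : SL(2, F) | (g : Matrix (Fin 2) (Fin 2) F) = !![1, 0; 1, 1] ∨
      (g : Matrix (Fin 2) (Fin 2) F) = !![1, lam; 0, 1]} = {up lam, lo 1} := by
    ext g
    simp only [Set.mem_setOf_eq, Set.mem_insert_iff, Set.mem_singleton_iff]
    exact ⟨fun h => h.symm.imp Subtype.ext Subtype.ext,
      fun h => h.symm.imp (congrArg Subtype.val) (congrArg Subtype.val)⟩
  rw [hset]
  set G := Subgroup.closure ({up lam, lo 1} : Set SL(2, F))
  have hH : G.map π = Subgroup.closure ({π (up lam), π (lo 1)} : Set PSL(2, F)) := by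
    rw [MonoidHom.map_closure, Set.image_insert_eq, Set.image_singleton]
  have hcases := image_cases h2 hlam hgen (H := G.map π)
    (Subgroup.mem_map_of_mem _ (Subgroup.subset_closure (by simp)))
    (Subgroup.mem_map_of_mem _ (Subgroup.subset_closure (by simp)))
  have hodd := odd_of_two_ne (F := F) rfl h2
  have hpsl := card_psl2_mul (F := F) (q := Fintype.card F) rfl
  have h2q : 2 ≤ Fintype.card F := Fintype.one_lt_card
  rw [Nat.gcd_eq_left (show 2 ∣ Fintype.card F - 1 by omega)] at hpsl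
  have heven : 2 ∣ Nat.card (G.map π) := by
    rcases hcases with h | ⟨-, -, h⟩
    · rw [h, Subgroup.card_top]
      have h3 : 4 ∣ Nat.card PSL(2, F) * 2 := by
        rw [hpsl]
        refine dvd_mul_of_dvd_right ?_ _
        rw [show Fintype.card F ^ 2 - 1 = (Fintype.card F + 1) * (Fintype.card F - 1) by
          rw [← Nat.sq_sub_sq, one_pow]]
        exact Nat.mul_dvd_mul (show 2 ∣ Fintype.card F + 1 by omega)
          (show 2 ∣ Fintype.card F - 1 by omega)
      omega
    · omega
  have hcen : Subgroup.center SL(2, F) ≤ G := by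
    have := Fact.mk Nat.prime_two
    obtain ⟨x, hx⟩ := exists_prime_orderOf_dvd_card' (G := G) 2
      (heven.trans (Subgroup.card_map_dvd G π))
    rw [← Subgroup.orderOf_coe] at hx
    have hxx : (x : SL(2, F)) * x = 1 := by
      have h := pow_orderOf_eq_one (x : SL(2, F))
      rwa [hx, sq] at h
    rcases isScal_iff.1 (isScal_of_mul_self_eq_one h2 hxx) with e | e
    · rw [e, orderOf_one] at hx; omega
    · intro z hz
      rcases mem_center_sl2.1 hz with rfl | rfl
      · exact one_mem G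
      · exact e ▸ x.2
  by_cases h9 : Fintype.card F = 9 ∧ lam ^ 2 = -1
  · right
    refine ⟨h9.1, h9.2, ?_⟩
    rcases hcases with h | ⟨-, -, h⟩
    · exfalso
      have hle := card_image_le h9.1 h9.2
      rw [← hH, h, Subgroup.card_top] at hle
      rw [h9.1] at hpsl
      omega
    · rw [← card_map_π hcen, h, card_center_sl2 h9.1]
      norm_num
  · left
    refine ⟨?_, h9⟩
    rcases hcases with h | ⟨ha, hb, -⟩
    · exact eq_top_iff.2 fun g _ => (mem_map_π hcen).1 (h ▸ Subgroup.mem_top _)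
    · exact absurd ⟨ha, hb⟩ h9

end Cfsg.Agent.S0801
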