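import Cfsg.Statements.S0861
import Cfsg.Agent.S0169
import Cfsg.Agent.S4558
import Cfsg.Agent.H45.Galois
import Cfsg.Agent.H45.Inflation
import Cfsg.Agent.H44.Inflation
import Cfsg.Agent.H26.CharLinear
-- import your own Cfsg.Agent.* helpers here

set_option autoImplicit false
open Cfsg

namespace Cfsg.Agent.S0861

/-- Let P be a normal abelian Sylow p-subgroup of the finite group G and suppose some element g of P has centralizer exactly P. Then the number of irreducible characters of G is at most the order of P, and if equality holds then G / P is abelian (the commutator subgroup lies in P). -/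
theorem result {G : Type*} [Group G] [Finite G] (p : ℕ) [Fact p.Prime] (P : Sylow p G) [(P : Subgroup G).Normal] (hab : ∀ a ∈ P, ∀ b ∈ P, a * b = b * a) (g : G) (hg : g ∈ P) (hC : Subgroup.centralizer ({g} : Set G) = P) : Nat.card (Cfsg.IrrCharacter G) ≤ Nat.card P ∧ (Nat.card (Cfsg.IrrCharacter G) = Nat.card P → commutator G ≤ P) := by
  classical
  haveI := Fintype.ofFinite G
  have hp : p.Prime := Fact.out
  have hne : ∀ (χ : Cfsg.IrrCharacter G) (x : G), x ∈ P → χ.1 x ≠ 0 := by
    intro χ x hx h0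
    have hord : ∃ j : ℕ, orderOf x = p ^ j := by
      obtain ⟨m, hm⟩ := P.isPGroup'.exists_card_eq
      obtain ⟨j, -, hj⟩ := (Nat.dvd_prime_pow hp).mp
        (hm ▸ (Subgroup.orderOf_mk x hx ▸ orderOf_dvd_natCard (⟨x, hx⟩ : (P : Subgroup G))))
      exact ⟨j, hj⟩
    have h1 := S4558.result p χ.1 (H26.irr_isCharacter χ) x hord h0
    obtain ⟨n, ρ, hρ, e⟩ := χ.2
    haveI := hρ
    have h2 : Cfsg.charDegree χ.1 = Module.finrank ℂ (Fin n → ℂ) := by
      rw [Cfsg.charDegree, ← e, ρ.char_one, Complex.natCast_re, Nat.floor_natCast]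
    exact P.not_dvd_index ((h2 ▸ h1).trans (S0169.result ρ (P : Subgroup G) hab))
  set S : Finset G :=
    Finset.univ.filter fun x => x ∈ Subgroup.zpowers g ∧ orderOf x = orderOf g with hS
  have hgS : g ∈ S := by simp [hS]
  have hSP : ∀ x ∈ S, x ∈ P := fun x hx =>
    (Subgroup.zpowers_le.mpr hg : Subgroup.zpowers g ≤ (P : Subgroup G))
      (Finset.mem_filter.mp hx).2.1
  have hSC : ∀ x ∈ S, Nat.card (Subgroup.centralizer ({x} : Set G)) = Nat.card P := by
    intro x hx
    obtain ⟨hxg, hxo⟩ := (Finset.mem_filter.mp hx).2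
    have heq : Subgroup.zpowers x = Subgroup.zpowers g :=
      Subgroup.eq_of_le_of_card_ge (Subgroup.zpowers_le.mpr hxg)
        (by rw [Nat.card_zpowers, Nat.card_zpowers, hxo])
    rw [← Subgroup.centralizer_closure, ← Subgroup.zpowers_eq_closure, heq,
      Subgroup.zpowers_eq_closure, Subgroup.centralizer_closure, hC]
  have hstab : ∀ k : ℕ, k.Coprime (Nat.card G) → ∀ x ∈ S, x ^ k ∈ S := by
    intro k hk x hx
    obtain ⟨hxg, hxo⟩ := (Finset.mem_filter.mp hx).2
    refine Finset.mem_filter.mpr ⟨Finset.mem_univ _, Subgroup.pow_mem _ hxg k, ?_⟩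
    rw [Nat.Coprime.orderOf_pow (hk.coprime_dvd_right (orderOf_dvd_natCard x)).symm, hxo]
  have hge : ∀ χ : Cfsg.IrrCharacter G, (S.card : ℝ) ≤ ∑ x ∈ S, ‖χ.1 x‖ ^ 2 := fun χ =>
    H45.card_le_sum_char_norm_pow (H26.irr_isCharacter χ) S hstab (fun x hx => hne χ x (hSP x hx)) 2
  have hsum : ∑ χ : Cfsg.IrrCharacter G, ∑ x ∈ S, ‖χ.1 x‖ ^ 2 = (S.card : ℝ) * Nat.card P := by
    rw [Finset.sum_comm]
    have hx : ∀ x ∈ S, ∑ χ : Cfsg.IrrCharacter G, ‖χ.1 x‖ ^ 2 = (Nat.card P : ℝ) := by
      intro x hx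
      have h := H26.column_orthogonality x x
      have hi : H26.classIndicator x x = 1 := by
        unfold H26.classIndicator
        exact if_pos (IsConj.refl x)
      simp only [hi, mul_one, hSC x hx, Complex.mul_conj, Complex.normSq_eq_norm_sq] at h
      exact_mod_cast h
    rw [Finset.sum_congr rfl hx, Finset.sum_const, nsmul_eq_mul]
  have hpos : (0 : ℝ) < S.card := Nat.cast_pos.mpr (Finset.card_pos.mpr ⟨g, hgS⟩)
  have hcard : (Nat.card (Cfsg.IrrCharacter G) : ℝ) * S.card ≤ (S.card : ℝ) * Nat.card P := by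
    rw [← hsum, Nat.card_eq_fintype_card, ← nsmul_eq_mul, ← Finset.card_univ]
    exact Finset.card_nsmul_le_sum _ _ _ fun χ _ => hge χ
  rw [mul_comm] at hcard
  refine ⟨by exact_mod_cast le_of_mul_le_mul_left hcard hpos, fun heq => ?_⟩
  have heach : ∀ χ : Cfsg.IrrCharacter G, ∑ x ∈ S, ‖χ.1 x‖ ^ 2 = (S.card : ℝ) := by
    have h := (Finset.sum_eq_sum_iff_of_le (fun χ (_ : χ ∈ Finset.univ) => hge χ)).mp (by
      rw [hsum, Finset.sum_const, Finset.card_univ, nsmul_eq_mul, ← Nat.card_eq_fintype_card, heq,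
        mul_comm])
    exact fun χ => (h χ (Finset.mem_univ χ)).symm
  have hQ : ∀ a b : G ⧸ (P : Subgroup G), a * b = b * a := by
    refine H26.comm_iff_forall_irr_one.mpr fun ψ => ?_
    set χ := H45.inflIrr (QuotientGroup.mk' (P : Subgroup G)) (QuotientGroup.mk'_surjective _) ψ
    obtain ⟨d, hd0, hd⟩ := H44.exists_degree ψ
    have hval : ∀ x ∈ S, χ.1 x = (d : ℂ) := fun x hx => by
      show ψ.1 (QuotientGroup.mk' (P : Subgroup G) x) = _
      rw [QuotientGroup.mk'_apply, (QuotientGroup.eq_one_iff x).mpr (hSP x hx), hd]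
    have h := heach χ
    rw [Finset.sum_congr rfl fun x hx => by rw [hval x hx, Complex.norm_natCast],
      Finset.sum_const, nsmul_eq_mul] at h
    have hd2 : (d : ℝ) ^ 2 = 1 := mul_left_cancel₀ hpos.ne' (h.trans (mul_one _).symm)
    rw [hd, show d = 1 by
      have : d ^ 2 = 1 := by exact_mod_cast hd2
      exact (pow_eq_one_iff.mp this).resolve_right two_ne_zero, Nat.cast_one]
  rw [commutator_def, Subgroup.commutator_le]
  intro a _ b _
  rw [← QuotientGroup.eq_one_iff, ← QuotientGroup.mk'_apply, map_commutatorElement,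
    commutatorElement_eq_one_iff_mul_comm]
  exact hQ _ _

end Cfsg.Agent.S0861
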