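import Cfsg.Statements.S0915
import Cfsg.Agent.H40.BlockBasic
import Cfsg.Agent.H59.PSolvable

set_option autoImplicit false
open Cfsg

namespace Cfsg.Agent.S0915

/-- Let G be a finite p-solvable group with trivial largest normal subgroup of order prime to p. Then any two irreducible characters of G lie in the same block relative to every maximal ideal M of the algebraic integers containing p: G has a single p-block. -/
theorem result {G : Type*} [Group G] [Finite G] (p : ℕ) [Fact p.Prime] (M : Ideal Cfsg.AlgInt) (hM : Cfsg.IsPModular p M) (hsolv : Cfsg.IsPSolvable p G) (hcore : Cfsg.pPrimeCore p G = ⊥) (χ ψ : Cfsg.IrrCharacter G) : Cfsg.SameBlock M (χ : G → ℂ) (ψ : G → ℂ) := by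
  haveI := hM.2.1
  classical
  haveI := Cfsg.Agent.H41.IsPModular.charP hM
  haveI : Fintype G := Fintype.ofFinite G
  haveI hQn : (Cfsg.pCore p G).Normal := Cfsg.Agent.H40.pCore_normal' p G
  have hQ := Cfsg.Agent.H40.isPGroup_pCore p G
  have hC := Cfsg.Agent.H59.centralizer_pCore_le_of_isPSolvable hsolv hcore
  let k := Cfsg.Agent.H41.ResField M
  rw [Cfsg.Agent.H41.sameBlock_iff_omegaBar]
  have key : ∀ g : G, ∃ c : k, ∀ φ : Cfsg.IrrCharacter G,
      Cfsg.Agent.H41.omegaBar M φ (Cfsg.Agent.H41.classSumZ k g) = c := by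
    intro g
    by_cases hg : ∀ x, IsConj g x → x ∉ Subgroup.centralizer (Cfsg.pCore p G : Set G)
    · exact ⟨0, fun φ => Cfsg.Agent.H40.hom_classSum_eq_zero_of_normal _ hQ hg⟩
    push Not at hg
    obtain ⟨x₀, hx₀, hx₀C⟩ := hg
    have hall : ∀ x, IsConj g x → x ∈ Cfsg.pCore p G ∧
        x ∈ Subgroup.centralizer (Cfsg.pCore p G : Set G) := by
      intro x hx
      obtain ⟨u, hu⟩ := isConj_iff.1 (hx₀.symm.trans hx)
      have hxC : x ∈ Subgroup.centralizer (Cfsg.pCore p G : Set G) := by
        rw [← hu]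
        refine (Cfsg.Agent.H40.conj_mem_centralizer_iff ?_).2 hx₀C
        rw [Subgroup.mem_normalizer_iff]
        exact fun h => ⟨fun hh => hQn.conj_mem h hh u, fun hh => by
          simpa [mul_assoc] using hQn.conj_mem _ hh u⁻¹⟩
      exact ⟨hC hxC, hxC⟩
    let s := Finset.univ.filter (IsConj g)
    refine ⟨(s.card : k), fun φ => ?_⟩
    have hnil : IsNilpotent (∑ x ∈ s, (MonoidAlgebra.of k G x - 1)) := by
      refine Commute.isNilpotent_sum (fun x hx => ?_) fun x y hx hy => ?_
      · obtain ⟨j, hj⟩ := IsPGroup.iff_orderOf.1 hQ ⟨x, (hall x (Finset.mem_filter.1 hx).2).1⟩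
        rw [Subgroup.orderOf_mk] at hj
        haveI : CharP (MonoidAlgebra k G) p :=
          charP_of_injective_algebraMap (FaithfulSMul.algebraMap_injective k (MonoidAlgebra k G)) p
        refine ⟨p ^ j, ?_⟩
        rw [sub_pow_char_pow_of_commute p j (Commute.one_right _), one_pow, ← map_pow, ← hj,
          pow_orderOf_eq_one, map_one, sub_self]
      · have hc : Commute x y := Subgroup.mem_centralizer_iff.1 (hall y (Finset.mem_filter.1 hy).2).2 x
          (hall x (Finset.mem_filter.1 hx).2).1
        exact ((hc.map (MonoidAlgebra.of k G)).sub_left (Commute.one_left _)).sub_right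
          (Commute.one_right _)
    have e : ((Cfsg.Agent.H41.classSumZ k g - (s.card : Cfsg.Agent.H41.groupAlgCenter k G) :
        Cfsg.Agent.H41.groupAlgCenter k G) : MonoidAlgebra k G) =
        ∑ x ∈ s, (MonoidAlgebra.of k G x - 1) := by
      rw [Finset.sum_sub_distrib, Finset.sum_const, nsmul_one, AddSubgroupClass.coe_sub,
        SubringClass.coe_natCast, Cfsg.Agent.H41.coe_classSumZ, Cfsg.Agent.H40.classSum_eq_sum]
      simp [s, MonoidAlgebra.of_apply]
    have h0 := Cfsg.Agent.H40.hom_eq_zero_of_isNilpotent (Cfsg.Agent.H41.omegaBar M φ) (e ▸ hnil)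
    rwa [map_sub, map_natCast, sub_eq_zero] at h0
  refine AlgHom.ext fun z => ?_
  have : Finite (ConjClasses G) := Quotient.finite _
  have := Fintype.ofFinite (ConjClasses G)
  rw [Cfsg.Agent.H41.center_eq_sum_classSumZ z, map_sum, map_sum]
  refine Finset.sum_congr rfl fun C _ => ?_
  obtain ⟨c, hc⟩ := key (Quotient.out C)
  rw [map_smul, map_smul, hc χ, hc ψ]

end Cfsg.Agent.S0915
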