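import Cfsg.Statements.S0979
import Cfsg.Agent.H30.DegreeEquation

set_option autoImplicit false
open Cfsg

namespace Cfsg.Agent.S0979

/-- No finite simple group has order 5472 = 2^5 * 3^2 * 19. -/
theorem result {G : Type*} [Group G] [Finite G] [IsSimpleGroup G] : Nat.card G ≠ 5472 := by
  intro h
  have : Fact (Nat.Prime 19) := ⟨by norm_num⟩
  have hG : ¬ IsMulCommutative G :=
    Cfsg.Agent.H30.not_comm_of_not_prime (by rw [h]; norm_num)
  have hd : Nat.card (Sylow 19 G) ∣ 288 :=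
    Cfsg.Agent.H30.card_sylow_dvd (a := 1) (by rw [h]; norm_num) (by norm_num)
  have hm : Nat.card (Sylow 19 G) % 19 = 1 := card_sylow_modEq_one 19 G
  have h1 := Cfsg.Agent.H30.card_sylow_ne_one hG 19 (by rw [h]; norm_num)
  have hk : Nat.card (Sylow 19 G) = 96 := by
    have hmem : Nat.card (Sylow 19 G) ∈ Nat.divisors 288 := Nat.mem_divisors.mpr ⟨hd, by norm_num⟩
    have hall : ∀ j ∈ Nat.divisors 288, j % 19 = 1 → j = 1 ∨ j = 96 := by decide +kernel
    exact (hall _ hmem hm).resolve_left h1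
  obtain ⟨s, D, ε, hε, hs, hD, hD2, hDm, hx, hsum, hsq⟩ :=
    Cfsg.Agent.H30.signed_degrees_of_sylow hG 19 96 3 (by norm_num) (by norm_num)
      (by rw [h]) (by norm_num) hk (by norm_num)
  rw [h] at hD hsq
  push_cast at hsq
  obtain ⟨x, y, rfl⟩ : ∃ x y, s = {x, y} := Multiset.card_eq_two.mp (by omega)
  obtain ⟨hxm, hxd, hx2⟩ := hx x (by simp)
  obtain ⟨hym, hyd, hy2⟩ := hx y (by simp)
  simp only [Multiset.insert_eq_cons, Multiset.map_cons, Multiset.map_singleton, Multiset.sum_cons,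
    Multiset.sum_singleton] at hsum hsq
  rw [h] at hxd hyd
  have hDb : D < 32 := by nlinarith [sq_nonneg x, sq_nonneg y]
  have hxb : x.natAbs < 74 := by
    by_contra hc
    have h74 : (74 : ℤ) ≤ ((x.natAbs : ℕ) : ℤ) := by exact_mod_cast (by omega : 74 ≤ x.natAbs)
    have h4 : (4 : ℤ) ≤ (D : ℤ) ^ 2 := by
      exact_mod_cast (Nat.pow_le_pow_left hD2 2 : 2 ^ 2 ≤ D ^ 2)
    have h5 : (74 : ℤ) ^ 2 ≤ ((x.natAbs : ℕ) : ℤ) ^ 2 := pow_le_pow_left₀ (by norm_num) h74 2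
    rw [Int.natAbs_sq] at h5
    nlinarith [sq_nonneg y]
  have hyb : y.natAbs < 74 := by
    by_contra hc
    have h74 : (74 : ℤ) ≤ ((y.natAbs : ℕ) : ℤ) := by exact_mod_cast (by omega : 74 ≤ y.natAbs)
    have h4 : (4 : ℤ) ≤ (D : ℤ) ^ 2 := by
      exact_mod_cast (Nat.pow_le_pow_left hD2 2 : 2 ^ 2 ≤ D ^ 2)
    have h5 : (74 : ℤ) ^ 2 ≤ ((y.natAbs : ℕ) : ℤ) ^ 2 := pow_le_pow_left₀ (by norm_num) h74 2
    rw [Int.natAbs_sq] at h5
    nlinarith [sq_nonneg x]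
  have hD' : D = 3 ∨ D = 16 := by
    interval_cases D <;> rcases hε with rfl | rfl <;> norm_num at *
  have hval : ∀ z : ℤ, z.natAbs < 74 → z.natAbs ∣ 5472 → 2 ≤ z.natAbs → (19 : ℤ) ∣ z + 1 → z = 18 := by
    intro z hb hdv h2 hm
    have hall : ∀ a < 74, a ∣ 5472 → 2 ≤ a → (a % 19 = 1 ∨ a % 19 = 19 - 1) → a = 18 := by
      decide +kernel
    have ha := hall z.natAbs hb hdv h2 (by omega)
    omega
  rw [hval x hxb hxd hx2 hxm, hval y hyb hyd hy2 hym] at hsum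
  rcases hε with rfl | rfl <;> omega

end Cfsg.Agent.S0979
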