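import Cfsg.Statements.S1015
import Cfsg.Agent.H30.Basics
import Cfsg.Agent.S0985

set_option autoImplicit false
open Cfsg

namespace Cfsg.Agent.S1015

/-- No finite simple group has order 1200 = 2^4 * 3 * 5^2. -/
theorem result {G : Type*} [Group G] [Finite G] [IsSimpleGroup G] : Nat.card G ≠ 1200 := by
  classical
  intro h
  have : Fact (Nat.Prime 5) := ⟨by norm_num⟩
  have hG : ¬ IsMulCommutative G := Cfsg.Agent.H30.not_comm_of_not_prime (by rw [h]; norm_num)
  have hfac := Cfsg.Agent.H30.two_mul_card_dvd_factorial_sylow hG 5 (by rw [h]; norm_num)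
  rw [h] at hfac
  have hn : Nat.card (Sylow 5 G) = 6 ∨ Nat.card (Sylow 5 G) = 16 := by
    have hall : ∀ j ∈ Nat.divisors 48, j % 5 = 1 → j = 1 ∨ j = 6 ∨ j = 16 := by decide +kernel
    exact (hall _ (Nat.mem_divisors.2 ⟨Cfsg.Agent.H30.card_sylow_dvd (a := 2) (m := 48)
      (by rw [h]; norm_num) (by norm_num), by norm_num⟩) (card_sylow_modEq_one 5 G)).resolve_left
      (Cfsg.Agent.H30.card_sylow_ne_one hG 5 (by rw [h]; norm_num))
  rcases hn with hn | hn <;> rw [hn] at hfac
  · norm_num [Nat.factorial] at hfac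
  obtain ⟨P, R, hPR, hidx⟩ := Cfsg.Agent.S0985.result (G := G) 5 2 (by rw [hn]; decide)
  have hcard : ∀ Q : Sylow 5 G, Nat.card ↥(Q : Subgroup G) = 25 := fun Q => by
    simpa using Cfsg.Agent.H30.card_sylow_subgroup (a := 2) (m := 48) Q (by rw [h]; norm_num)
      (by norm_num)
  set D := (R : Subgroup G) ⊓ P with hD
  -- the intersection has order five
  have hDcard : Nat.card ↥D = 5 := by
    have e1 : Nat.card ↥((R : Subgroup G).subgroupOf (P : Subgroup G)) = Nat.card ↥D := by
      rw [← Subgroup.inf_subgroupOf_right,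
        Nat.card_congr (Subgroup.subgroupOfEquivOfLe inf_le_right).toEquiv]
    have h1 := Subgroup.card_mul_index ((R : Subgroup G).subgroupOf (P : Subgroup G))
    rw [e1, hcard] at h1
    have hne : Nat.card ↥D ≠ 25 := by
      intro e
      have e2 : D = (P : Subgroup G) := Subgroup.eq_of_le_of_card_ge inf_le_right (by rw [e, hcard])
      have e3 : D = (R : Subgroup G) := Subgroup.eq_of_le_of_card_ge inf_le_left (by rw [e, hcard])
      exact hPR (Sylow.ext (e2.symm.trans e3))
    norm_num at hidx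
    have hd : Nat.card ↥D ∣ 25 := Dvd.intro _ h1
    have := Nat.le_of_dvd (by norm_num) hd
    interval_cases hx : Nat.card ↥D <;> omega
  set K := Subgroup.normalizer (D : Set G) with hK
  have hKP : ∀ Q : Sylow 5 G, D ≤ Q → (Q : Subgroup G) ≤ K := by
    intro Q hQ
    have hc : IsMulCommutative ↥(Q : Subgroup G) :=
      IsPGroup.isMulCommutative_of_card_eq_prime_sq (p := 5) (by rw [hcard]; rfl)
    refine le_trans ?_ (Subgroup.centralizer_le_normalizer _)
    intro x hx
    rw [Subgroup.mem_centralizer_iff]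
    intro d hd
    exact congrArg Subtype.val (hc.is_comm.comm ⟨d, hQ hd⟩ ⟨x, hx⟩)
  have hPK := hKP P inf_le_right
  have hRK := hKP R inf_le_left
  have hDbot : D ≠ ⊥ := fun e => by rw [e, Subgroup.card_bot] at hDcard; norm_num at hDcard
  have hDtop : D ≠ ⊤ := fun e => by rw [e, Subgroup.card_top, h] at hDcard; norm_num at hDcard
  have hKtop : K ≠ ⊤ := Cfsg.Agent.H30.normalizer_ne_top D hDbot hDtop
  have hn5 : Nat.card (Sylow 5 K) ≠ 1 := by
    intro h1
    have := (Nat.card_eq_one_iff_unique.1 h1).1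
    exact hPR (Sylow.subtype_injective (hP := hPK) (hQ := hRK) (Subsingleton.elim _ _))
  have h25 : 25 ∣ Nat.card ↥K := hcard P ▸ Subgroup.card_dvd_of_le hPK
  have hmodn : Nat.card (Sylow 5 K) % 5 = 1 := card_sylow_modEq_one 5 K
  have hdvdK : Nat.card (Sylow 5 K) ∣ Nat.card ↥K :=
    (default : Sylow 5 K).card_dvd_index.trans (Subgroup.index_dvd_card _)
  have h150 : 150 ≤ Nat.card ↥K := by
    obtain ⟨q, hq⟩ := h25
    rw [hq] at hdvdK ⊢
    have h2 : Nat.card (Sylow 5 K) ∣ q := by
      refine Nat.Coprime.dvd_of_dvd_mul_left ?_ hdvdK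
      rw [show (25 : ℕ) = 5 ^ 2 from rfl]
      exact Nat.Coprime.pow_right 2 (((show Nat.Prime 5 by norm_num).coprime_iff_not_dvd.2
        fun hd => by omega).symm)
    have hq0 : 0 < q := by
      rcases Nat.eq_zero_or_pos q with rfl | h'
      · have : 0 < Nat.card ↥K := Nat.card_pos
        omega
      · exact h'
    have := Nat.le_of_dvd hq0 h2
    omega
  have hKi := Subgroup.card_mul_index K
  rw [h] at hKi
  have hi8 : K.index ≤ 8 := by nlinarith
  have hfac2 := Cfsg.Agent.H30.two_mul_card_dvd_factorial hG K hKtop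
  rw [h] at hfac2
  interval_cases hx : K.index <;> norm_num [Nat.factorial] at hfac2

end Cfsg.Agent.S1015
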