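import Cfsg.Statements.S1016
import Cfsg.Agent.H30.SylowPrimeCases

set_option autoImplicit false
open Cfsg

namespace Cfsg.Agent.S1016

/-- No finite simple group has order 1440 = 2^5 * 3^2 * 5. -/
theorem result {G : Type*} [Group G] [Finite G] [IsSimpleGroup G] : Nat.card G ≠ 1440 := by
  intro h
  have : Fact (Nat.Prime 5) := ⟨by norm_num⟩
  have : Fact (Nat.Prime 3) := ⟨by norm_num⟩
  have : Fact (Nat.Prime 2) := ⟨by norm_num⟩
  have hG : ¬ IsMulCommutative G :=
    Cfsg.Agent.H30.not_comm_of_not_prime (by rw [h]; norm_num)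
  let _ : Fintype G := Fintype.ofFinite G
  let P : Sylow 5 G := default
  have hP : Nat.card (P : Subgroup G) = 5 := by
    simpa using Cfsg.Agent.H30.card_sylow_subgroup (a := 1) (m := 288) P (by rw [h]; norm_num)
      (by norm_num)
  have hd : Nat.card (Sylow 5 G) ∣ 288 :=
    Cfsg.Agent.H30.card_sylow_dvd (a := 1) (by rw [h]; norm_num) (by norm_num)
  have hm : Nat.card (Sylow 5 G) % 5 = 1 := card_sylow_modEq_one 5 G
  have h1 := Cfsg.Agent.H30.card_sylow_ne_one hG 5 (by rw [h]; norm_num)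
  have hfac := Cfsg.Agent.H30.two_mul_card_dvd_factorial_sylow hG 5 (by rw [h]; norm_num)
  rw [h] at hfac
  have hn : Nat.card (Sylow 5 G) = 16 ∨ Nat.card (Sylow 5 G) = 36 ∨ Nat.card (Sylow 5 G) = 96 := by
    have hmem : Nat.card (Sylow 5 G) ∈ Nat.divisors 288 := Nat.mem_divisors.mpr ⟨hd, by norm_num⟩
    have hall : ∀ j ∈ Nat.divisors 288, j % 5 = 1 → j ≠ 1 →
        j = 6 ∨ j = 16 ∨ j = 36 ∨ j = 96 := by decide +kernel
    rcases hall _ hmem hm h1 with h' | h'
    · rw [h'] at hfac
      exact absurd hfac (by decide +kernel)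
    · exact h'
  obtain ⟨e, c, he, h1e, hN, hC⟩ := Cfsg.Agent.H30.exists_automizer_of_prime_order hG 5 P hP
  have hmul := Cfsg.Agent.H30.card_sylow_mul_normalizer 5 P
  rw [hN, h] at hmul
  have hle : e ≤ 4 := Nat.le_of_dvd (by norm_num) he
  have he6 : e = 2 ∨ e = 4 := by
    interval_cases e <;> norm_num at *
  rcases hn with hn | hn | hn
  · have hodd := Cfsg.Agent.H30.not_two_dvd_card_centralizer hG 5 16 P hP hn
      (fun f hf hf1 hf4 => ((by decide : ∀ f < 16, f % 5 = 1 → f % 4 = 16 % 4 → False) f hf hf1 hf4).elim)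
    have h3 := Cfsg.Agent.H30.not_dvd_card_centralizer_of_card hG 5 3 2 5 (by norm_num)
      (by norm_num) (by norm_num) P hP (by rw [h]; norm_num)
    rw [hC] at hodd h3
    rw [hn] at hmul
    rcases he6 with rfl | rfl <;> omega
  · have hodd := Cfsg.Agent.H30.not_two_dvd_card_centralizer hG 5 36 P hP hn
      (fun f hf hf1 hf4 => by
        obtain rfl : f = 16 :=
          (by decide : ∀ f < 36, f % 5 = 1 → f % 4 = 36 % 4 → f = 16) f hf hf1 hf4
        exact ⟨by norm_num, fun m _ hm' => by omega⟩)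
    rw [hC] at hodd
    rw [hn] at hmul
    rcases he6 with rfl | rfl <;> omega
  · rw [hn] at hmul
    rcases he6 with rfl | rfl <;> omega

end Cfsg.Agent.S1016
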