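import Cfsg.Statements.S1138
import Cfsg.Agent.H48.Suzuki.Order

set_option autoImplicit false
open Cfsg

namespace Cfsg.Agent.S1138

/-- Let `P` be a Suzuki 2-group with `|Z(P)| = q`. Then every square lies in `Z(P)` and `P/Z(P)` is abelian (so elementary abelian), `|P| = q²` or `|P| = q³`, and `P` has exponent 4. -/
theorem result {P : Type*} [Group P] (hP : Cfsg.IsSuzukiTwoGroup P) :
    (∀ x : P, x * x ∈ Subgroup.center P) ∧ (∀ x y : P, x⁻¹ * y⁻¹ * x * y ∈ Subgroup.center P) ∧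
      (Nat.card P = Nat.card (Subgroup.center P) ^ 2 ∨ Nat.card P = Nat.card (Subgroup.center P) ^ 3) ∧
      Monoid.exponent P = 4 := by
  obtain ⟨hfin, hP2, hne, htwo, K, hK, hreg⟩ := hP
  have := hfin
  have hS : Cfsg.Agent.H48.Suzuki.Setup K :=
    ⟨hP2, fun k l => (inferInstance : IsMulCommutative K).is_comm.comm k l, htwo, hreg⟩
  have hq := Cfsg.Agent.H48.Suzuki.quotient_elementary hS hne
  have hle := Cfsg.Agent.H48.Suzuki.omega_le_center hS
  refine ⟨fun x => hle (hq x 1).1, fun x y => hle ?_,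
    Cfsg.Agent.H48.Suzuki.card_eq hS hne, Cfsg.Agent.H48.Suzuki.exponent_eq_four hS hne⟩
  have := (hq y⁻¹ x⁻¹).2
  rwa [inv_inv, inv_inv] at this

end Cfsg.Agent.S1138
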