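import Cfsg.Statements.S1164
import Cfsg.Agent.H48.CurtisTits.Main
import Cfsg.Agent.H48.CurtisTits.TypeD4
import Cfsg.Agent.H48.CurtisTits.TypeF4
import Cfsg.Agent.H48.CurtisTits.TypeE6
import Cfsg.Agent.H48.CurtisTits.TypeE7
import Cfsg.Agent.H48.CurtisTits.TypeE8

set_option autoImplicit false
open Cfsg

namespace Cfsg.Agent.S1164

/-- Curtis–Tits: for the Chevalley datum of type D₄, F₄, E₆, E₇ or E₈ and a field `K` with at least four elements, there is an isomorphism from the group presented by the Curtis–Tits relators (additivity, the commutator relators and the `h̄`-relators only for roots inside a common rank-two subsystem spanned by two fundamental roots, all other generators killed) onto the group of Steinberg's presentation, sending each generator `x̄_r(t)` with `r` in such a subsystem to `x̄_r(t)`. -/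
theorem result (D : Cfsg.Lie.ChevalleyDatum)
    (hD : D ∈ [Cfsg.Lie.chevD4, Cfsg.Lie.chevF4, Cfsg.Lie.chevE6, Cfsg.Lie.chevE7, Cfsg.Lie.chevE8])
    (K : Type*) [Field K] [Fintype K] (hK : 4 ≤ Fintype.card K) :
    ∃ e : D.CurtisTitsGroup K ≃* D.SteinbergGroup K,
      ∀ (i j r : ℕ) (t : K), D.InRankTwoSub i j r →
        e (PresentedGroup.mk (D.curtisTitsRels K) (D.stX r t)) = D.stGen K r t := by
  simp only [List.mem_cons, List.not_mem_nil, or_false] at hD
  open Cfsg.Agent.H48.CT in
  rcases hD with rfl | rfl | rfl | rfl | rfl
  · exact curtis_tits _ certD4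
  · exact curtis_tits _ certF4
  · exact curtis_tits _ certE6
  · exact curtis_tits _ certE7
  · exact curtis_tits _ certE8

end Cfsg.Agent.S1164
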