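import Cfsg.Statements.S1241
import Cfsg.Agent.H50.ControlTransfer

set_option autoImplicit false
open Cfsg
set_option linter.style.haveILetI false

namespace Cfsg.Agent.S1241

/-- Let G be a finite group, p a prime, H a subgroup of index prime to p, K a subgroup of H normal in H with H/K commutative, and g ∈ H ∖ K an element of p-power order such that for all integers m and all a ∈ G with a g^m a⁻¹ ∈ H one has a g^m a⁻¹ ∈ g^m K. Then g ∉ G'. -/
theorem result {G : Type*} [Group G] [Finite G] {p : ℕ} [Fact p.Prime] (H K : Subgroup G) (hHK : K ≤ H) (hKn : (K.subgroupOf H).Normal) (hab : ∀ x ∈ H, ∀ y ∈ H, x * y * x⁻¹ * y⁻¹ ∈ K) (hidx : Nat.Coprime p H.index) (g : G) (hgH : g ∈ H) (hgK : g ∉ K) (hgp : ∃ k : ℕ, orderOf g = p ^ k) (hctrl : ∀ (m : ℤ) (a : G), a * g ^ m * a⁻¹ ∈ H → (a * g ^ m * a⁻¹) * (g ^ m)⁻¹ ∈ K) : g ∉ commutator G := by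
  intro hg
  apply hgK
  haveI : (K.subgroupOf H).Normal := hKn
  letI : CommGroup (↥H ⧸ K.subgroupOf H) :=
    { (inferInstance : Group (↥H ⧸ K.subgroupOf H)) with
      mul_comm := fun a b => by
        obtain ⟨x, rfl⟩ := QuotientGroup.mk_surjective a
        obtain ⟨y, rfl⟩ := QuotientGroup.mk_surjective b
        rw [← mul_inv_eq_one, mul_inv_rev, ← QuotientGroup.mk_mul, ← QuotientGroup.mk_inv,
          ← QuotientGroup.mk_inv, ← QuotientGroup.mk_mul, ← QuotientGroup.mk_mul,
          QuotientGroup.eq_one_iff, Subgroup.mem_subgroupOf]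
        simpa [mul_assoc] using hab _ x.2 _ y.2 }
  have ht := H50.transfer_of_controlled (QuotientGroup.mk' (K.subgroupOf H)) ⟨g, hgH⟩
    (fun n a h => by
      rw [← mul_inv_eq_one, ← map_inv, ← map_mul, QuotientGroup.mk'_apply, QuotientGroup.eq_one_iff,
        Subgroup.mem_subgroupOf]
      simpa using hctrl n a (by simpa using h))
  have hker : MonoidHom.transfer (QuotientGroup.mk' (K.subgroupOf H)) g = 1 :=
    Abelianization.commutator_subset_ker _ hg
  rw [hker] at ht
  obtain ⟨k, hk⟩ := hgp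
  have hq : (QuotientGroup.mk' (K.subgroupOf H) ⟨g, hgH⟩) ^ p ^ k = 1 := by
    rw [← map_pow, ← hk]
    convert map_one (QuotientGroup.mk' (K.subgroupOf H))
    exact Subtype.ext (by simp [pow_orderOf_eq_one])
  have h := pow_gcd_eq_one.2 ⟨ht.symm, hq⟩
  rw [Nat.Coprime.gcd_eq_one (hidx.symm.pow_right k), pow_one, QuotientGroup.mk'_apply,
    QuotientGroup.eq_one_iff, Subgroup.mem_subgroupOf] at h
  exact h

end Cfsg.Agent.S1241
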