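import Cfsg.Statements.S1264
import Cfsg.Agent.H51.FStar

set_option autoImplicit false
open Cfsg
open Cfsg.Agent.H51

namespace Cfsg.Agent.S1264

/-- Let G be finite, C = C_G(F(G)) the centralizer of the Fitting subgroup, and N a solvable subgroup of C normalized by C. Then N ≤ Z(F(G)). -/
theorem result {G : Type*} [Group G] [Finite G] (N : Subgroup G) (hN : N ≤ Subgroup.centralizer (Cfsg.fittingSubgroup G : Set G)) (hnorm : Subgroup.centralizer (Cfsg.fittingSubgroup G : Set G) ≤ Subgroup.normalizer (N : Set G)) (hsolv : Group.IsSolvable ↥N) : N ≤ (Subgroup.center ↥(Cfsg.fittingSubgroup G)).map (Cfsg.fittingSubgroup G).subtype := by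
  have hF := fittingSubgroup_normal G
  set C := Subgroup.centralizer (Cfsg.fittingSubgroup G : Set G) with hC
  have hE : Cfsg.layer G ≤ C :=
    Subgroup.commutator_eq_bot_iff_le_centralizer.mp (layer_commute_fittingSubgroup G)
  have h1 : ⁅N, Cfsg.layer G⁆ = ⊥ := commutator_layer_eq_bot fun L hL => by
    rw [Subgroup.commutator_comm]
    exact component_commute_of_solvable hL (((component_le_layer hL).trans hE).trans hnorm) hsolv
  have h2 : N ≤ Subgroup.centralizer (Cfsg.generalizedFittingSubgroup G : Set G) :=
    Subgroup.commutator_eq_bot_iff_le_centralizer.mp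
      (commutator_sup_right_eq_bot h1 (Subgroup.commutator_eq_bot_iff_le_centralizer.mpr hN))
  intro x hx
  have hxF := centralizer_generalizedFitting_le_fitting G (h2 hx)
  exact ⟨⟨x, hxF⟩, Subgroup.mem_center_iff.mpr fun y => Subtype.ext
    (Subgroup.mem_centralizer_iff.mp (hN hx) y y.2), rfl⟩

end Cfsg.Agent.S1264
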