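import Cfsg.Statements.S3752
import Cfsg.Agent.H51.PrimitivePair

set_option autoImplicit false
open Cfsg
open scoped commutatorElement

namespace Cfsg.Agent.S3752

/-- Bender's Theorem on primitive pairs. Two distinct subgroups M₁, M₂ of G form a primitive pair when, for {i, j} = {1, 2}, every non-trivial normal subgroup A of M_i contained in M₁ ∩ M₂ satisfies N_{M_j}(A) = M₁ ∩ M₂; the pair has characteristic p when moreover C_{M_i}(O_p(M_i)) ≤ O_p(M_i) for both i and O_p(M₁)O_p(M₂) ≤ M₁ ∩ M₂. If (M₁, M₂) is a primitive pair of the finite group G with F*(M₁) ≤ M₂ and F*(M₂) ≤ M₁, then for some prime p the pair has characteristic p. -/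
theorem result {G : Type*} [Group G] [Finite G] (M₁ M₂ : Subgroup G) (hne : M₁ ≠ M₂) (hP : ∀ A : Subgroup G, A ≠ ⊥ → A ≤ M₁ ⊓ M₂ → (M₁ ≤ Subgroup.normalizer (A : Set G) → M₂ ⊓ Subgroup.normalizer (A : Set G) = M₁ ⊓ M₂) ∧ (M₂ ≤ Subgroup.normalizer (A : Set G) → M₁ ⊓ Subgroup.normalizer (A : Set G) = M₁ ⊓ M₂)) (h₁ : (Cfsg.generalizedFittingSubgroup ↥M₁).map M₁.subtype ≤ M₂) (h₂ : (Cfsg.generalizedFittingSubgroup ↥M₂).map M₂.subtype ≤ M₁) : ∃ p : ℕ, p.Prime ∧ Subgroup.centralizer (Cfsg.pCore p ↥M₁ : Set ↥M₁) ≤ Cfsg.pCore p ↥M₁ ∧ Subgroup.centralizer (Cfsg.pCore p ↥M₂ : Set ↥M₂) ≤ Cfsg.pCore p ↥M₂ ∧ (Cfsg.pCore p ↥M₁).map M₁.subtype ⊔ (Cfsg.pCore p ↥M₂).map M₂.subtype ≤ M₁ ⊓ M₂ := by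
  have hP1 : ∀ A : Subgroup G, A ≠ ⊥ → A ≤ M₁ ⊓ M₂ → M₁ ≤ Subgroup.normalizer (A : Set G) →
      M₂ ⊓ Subgroup.normalizer (A : Set G) = M₁ ⊓ M₂ := fun A a b => (hP A a b).1
  have hP2 : ∀ A : Subgroup G, A ≠ ⊥ → A ≤ M₁ ⊓ M₂ → M₂ ≤ Subgroup.normalizer (A : Set G) →
      M₁ ⊓ Subgroup.normalizer (A : Set G) = M₁ ⊓ M₂ := fun A a b => (hP A a b).2
  have hclash : ∀ A : Subgroup G, A ≠ ⊥ → A ≤ M₁ ⊓ M₂ → M₁ ≤ Subgroup.normalizer (A : Set G) →
      M₂ ≤ Subgroup.normalizer (A : Set G) → False := by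
    intro A a b c d
    have e1 := hP1 A a b c
    have e2 := hP2 A a b d
    rw [inf_eq_left.mpr d] at e1
    rw [inf_eq_left.mpr c] at e2
    exact hne (e2.trans e1.symm)
  have hg₁ : (Cfsg.generalizedFittingSubgroup ↥M₁).map M₁.subtype ≤ M₁ ⊓ M₂ :=
    le_inf (Subgroup.map_subtype_le _) h₁
  have hg₂ : (Cfsg.generalizedFittingSubgroup ↥M₂).map M₂.subtype ≤ M₁ ⊓ M₂ :=
    le_inf h₂ (Subgroup.map_subtype_le _)
  have hlay : ∀ M : Subgroup G, M₁ ⊓ M₂ ≤ M →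
      (Cfsg.generalizedFittingSubgroup ↥M).map M.subtype ≤ M₁ ⊓ M₂ →
      (Cfsg.layer ↥M).map M.subtype = (Cfsg.layer ↥(M₁ ⊓ M₂)).map (M₁ ⊓ M₂).subtype := by
    intro M hle hg
    have h := Cfsg.Agent.H51.layer_map_eq_of_fstar_le (H := (M₁ ⊓ M₂).subgroupOf M)
      (fun x hx => hg ⟨x, hx, rfl⟩)
    rw [← h, Subgroup.map_map,
      ← Cfsg.Agent.H51.layer_map_equiv (Subgroup.subgroupOfEquivOfLe hle), Subgroup.map_map]
    rfl
  have hl1 := hlay M₁ inf_le_left hg₁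
  have hl2 := hlay M₂ inf_le_right hg₂
  have hE : (Cfsg.layer ↥(M₁ ⊓ M₂)).map (M₁ ⊓ M₂).subtype = ⊥ := by
    by_contra hne'
    refine hclash _ hne' (Subgroup.map_subtype_le _) ?_ ?_
    · rw [← hl1]
      haveI := Cfsg.Agent.H51.layer_normal ↥M₁
      have h := Subgroup.le_normalizer_map (H := Cfsg.layer ↥M₁) M₁.subtype
      rwa [Subgroup.normalizer_eq_top (H := Cfsg.layer ↥M₁), ← MonoidHom.range_eq_map,
        Subgroup.range_subtype] at h
    · rw [← hl2]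
      haveI := Cfsg.Agent.H51.layer_normal ↥M₂
      have h := Subgroup.le_normalizer_map (H := Cfsg.layer ↥M₂) M₂.subtype
      rwa [Subgroup.normalizer_eq_top (H := Cfsg.layer ↥M₂), ← MonoidHom.range_eq_map,
        Subgroup.range_subtype] at h
  have hE₁ : Cfsg.layer ↥M₁ = ⊥ := by
    rw [← Subgroup.map_eq_bot_iff_of_injective _ M₁.subtype_injective, hl1, hE]
  have hE₂ : Cfsg.layer ↥M₂ = ⊥ := by
    rw [← Subgroup.map_eq_bot_iff_of_injective _ M₂.subtype_injective, hl2, hE]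
  have hbot : ∀ M : Subgroup G, Cfsg.layer ↥M = ⊥ → Cfsg.fittingSubgroup ↥M = ⊥ → M = ⊥ := by
    intro M hl hf
    rw [← Subgroup.subgroupOf_eq_bot.trans disjoint_self |>.trans Iff.rfl]
    have := Cfsg.Agent.H51.centralizer_generalizedFitting_le_fitting ↥M
    rw [Cfsg.Agent.H51.generalizedFitting_eq_fitting_of_layer_eq_bot hl, hf] at this
    rw [eq_bot_iff]
    intro x _
    exact this (Subgroup.mem_centralizer_iff.mpr fun y hy => by simp [Subgroup.mem_bot.mp hy])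
  have hex : ∃ p : ℕ, p.Prime ∧ Cfsg.pCore p ↥M₁ ≠ ⊥ := by
    by_contra hcon
    push Not at hcon
    have hf1 : Cfsg.fittingSubgroup ↥M₁ = ⊥ := by
      rw [Cfsg.Agent.H51.fittingSubgroup_eq_iSup_pCore, iSup_eq_bot]
      exact fun r => hcon r (Nat.prime_of_mem_primeFactors r.2)
    have e1 : M₁ = ⊥ := hbot M₁ hE₁ hf1
    have hf2 : Cfsg.fittingSubgroup ↥M₂ = ⊥ := by
      rw [← Subgroup.map_eq_bot_iff_of_injective _ M₂.subtype_injective, eq_bot_iff]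
      refine ((Subgroup.map_mono le_sup_right).trans h₂).trans e1.le
    exact hne (e1.trans (hbot M₂ hE₂ hf2).symm)
  obtain ⟨p, hp, hp1⟩ := hex
  haveI := Fact.mk hp
  have hp2 := Cfsg.Agent.H51.pCore_ne_bot_of_pair hE₂ h₁ h₂ hp1
  have huniq : ∀ q : ℕ, q.Prime → q ≠ p → Cfsg.pCore q ↥M₁ = ⊥ := by
    intro q hq hqp
    haveI := Fact.mk hq
    by_contra hq1
    have hq2 := Cfsg.Agent.H51.pCore_ne_bot_of_pair hE₂ h₁ h₂ hq1
    have a := Cfsg.Agent.H51.pCore_map_le_of_pair (p := p) (q := q) (Ne.symm hqp) hE₁ hE₂ h₁ h₂ hP2 hq1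
    have b := Cfsg.Agent.H51.pCore_map_le_of_pair (M₁ := M₂) (M₂ := M₁) (p := p) (q := q)
      (Ne.symm hqp) hE₂ hE₁ h₂ h₁ (fun A x y z => (hP1 A x (by rwa [inf_comm]) z).trans (inf_comm _ _)) hq2
    refine hclash _ (fun h => hp1 ((Subgroup.map_eq_bot_iff_of_injective _
      M₁.subtype_injective).mp h)) ?_ (Cfsg.Agent.H51.le_normalizer_pCore_map p M₁) ?_
    · exact (Subgroup.map_mono ((Cfsg.Agent.H51.pCore_le_fittingSubgroup p _).trans
        le_sup_right)).trans hg₁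
    · rw [le_antisymm b a]; exact Cfsg.Agent.H51.le_normalizer_pCore_map p M₂
  have hFp : ∀ M : Subgroup G, Cfsg.layer ↥M = ⊥ →
      (∀ q : ℕ, q.Prime → q ≠ p → Cfsg.pCore q ↥M = ⊥) →
      Subgroup.centralizer (Cfsg.pCore p ↥M : Set ↥M) ≤ Cfsg.pCore p ↥M := by
    intro M hl hu
    have hF : Cfsg.fittingSubgroup ↥M = Cfsg.pCore p ↥M := by
      refine le_antisymm ?_ (Cfsg.Agent.H51.pCore_le_fittingSubgroup p _)
      rw [Cfsg.Agent.H51.fittingSubgroup_eq_iSup_pCore]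
      refine iSup_le fun r => ?_
      by_cases h : (r : ℕ) = p
      · rw [h]
      · rw [hu r (Nat.prime_of_mem_primeFactors r.2) h]; exact bot_le
    have := Cfsg.Agent.H51.centralizer_generalizedFitting_le_fitting ↥M
    rwa [Cfsg.Agent.H51.generalizedFitting_eq_fitting_of_layer_eq_bot hl, hF] at this
  refine ⟨p, hp, hFp M₁ hE₁ huniq, hFp M₂ hE₂ fun q hq hqp => ?_, sup_le ?_ ?_⟩
  · haveI := Fact.mk hq
    by_contra h
    exact Cfsg.Agent.H51.pCore_ne_bot_of_pair hE₁ h₂ h₁ h (huniq q hq hqp)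
  · exact (Subgroup.map_mono ((Cfsg.Agent.H51.pCore_le_fittingSubgroup p _).trans le_sup_right)).trans hg₁
  · exact (Subgroup.map_mono ((Cfsg.Agent.H51.pCore_le_fittingSubgroup p _).trans le_sup_right)).trans hg₂

end Cfsg.Agent.S3752
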