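import Cfsg.Statements.S1312
import Cfsg.Agent.S3752

set_option autoImplicit false
open Cfsg

namespace Cfsg.Agent.S1312

/-- Let G be a non-abelian finite simple group and M ≠ N maximal subgroups of G with F*(M) ≤ N and F*(N) ≤ M. Then there is a prime p such that F*(M) and F*(N) are both p-groups. -/
theorem result {G : Type*} [Group G] [Finite G] [IsSimpleGroup G] (hna : ¬ IsMulCommutative G) (M N : Subgroup G) (hM : IsCoatom M) (hN : IsCoatom N) (hMN : M ≠ N) (h1 : (Cfsg.generalizedFittingSubgroup ↥M).map M.subtype ≤ N) (h2 : (Cfsg.generalizedFittingSubgroup ↥N).map N.subtype ≤ M) : ∃ p : ℕ, p.Prime ∧ IsPGroup p ↥(Cfsg.generalizedFittingSubgroup ↥M) ∧ IsPGroup p ↥(Cfsg.generalizedFittingSubgroup ↥N) := by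
  have key : ∀ (A X Y : Subgroup G), IsCoatom X → A ≠ ⊥ → A ≤ X → X ≤ Subgroup.normalizer (A : Set G) →
      Y ⊓ Subgroup.normalizer (A : Set G) = Y ⊓ X := by
    intro A X Y hX hA hAX hn
    rcases eq_or_lt_of_le hn with h | h
    · rw [← h]
    · exfalso
      have htop := hX.2 _ h
      rcases (Subgroup.normalizer_eq_top_iff.mp htop).eq_bot_or_eq_top with h0 | h1
      · exact hA h0
      · exact hX.1 (top_le_iff.mp (h1 ▸ hAX))
  obtain ⟨p, hp, c1, c2, -⟩ := Cfsg.Agent.S3752.result M N hMN (fun A hA hle =>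
    ⟨fun h => by rw [key A M N hM hA (hle.trans inf_le_left) h, inf_comm],
     fun h => key A N M hN hA (hle.trans inf_le_right) h⟩) h1 h2
  haveI := Fact.mk hp
  have aux : ∀ X : Subgroup G, Subgroup.centralizer (Cfsg.pCore p ↥X : Set ↥X) ≤ Cfsg.pCore p ↥X →
      IsPGroup p ↥(Cfsg.generalizedFittingSubgroup ↥X) := by
    intro X hc
    have hF : Cfsg.pPrimeCore p ↥X = ⊥ := by
      haveI := Cfsg.Agent.H51.pPrimeCore_normal p ↥X
      haveI := Cfsg.Agent.H51.pCore_normal p ↥X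
      have hd : Disjoint (Cfsg.pCore p ↥X) (Cfsg.pPrimeCore p ↥X) :=
        Cfsg.Agent.H51.disjoint_of_pgroup_coprime (Cfsg.Agent.H51.pCore_isPGroup p ↥X)
          (Cfsg.Agent.H51.pPrimeCore_coprime p ↥X)
      rw [eq_bot_iff, ← hd.eq_bot]
      refine le_inf (le_trans ?_ hc) le_rfl
      exact fun a ha => Subgroup.mem_centralizer_iff.mpr fun b hb =>
        (Subgroup.commute_of_normal_of_disjoint _ _ inferInstance inferInstance hd b a hb ha).eq
    have hFp := Cfsg.Agent.H51.fittingSubgroup_eq_pCore hF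
    have hE : Cfsg.layer ↥X = ⊥ :=
      (Cfsg.Agent.H51.centralizer_fitting_le_iff_layer_eq_bot ↥X).mp (by rw [hFp]; exact hc)
    rw [Cfsg.Agent.H51.generalizedFitting_eq_fitting_of_layer_eq_bot hE, hFp]
    exact Cfsg.Agent.H51.pCore_isPGroup p ↥X
  exact ⟨p, hp, aux M c1, aux N c2⟩

end Cfsg.Agent.S1312
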