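import Cfsg.Statements.S1313
import Cfsg.Agent.H51.FStar

set_option autoImplicit false
open Cfsg
open Cfsg.Agent.H51

namespace Cfsg.Agent.S1313

/-- For a finite group H, |H| ≤ |F*(H)|!. -/
theorem result {H : Type*} [Group H] [Finite H] : Nat.card H ≤ Nat.factorial (Nat.card ↥(Cfsg.generalizedFittingSubgroup H)) := by
  set F := Cfsg.generalizedFittingSubgroup H
  haveI := generalizedFittingSubgroup_normal H
  classical
  let f : H →* MulAut ↥F := MulAut.conjNormal
  have hker : f.ker ≤ F := by
    intro h hh
    refine centralizer_generalizedFitting_le H (Subgroup.mem_centralizer_iff.mpr fun y hy => ?_)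
    have h1 : h * y * h⁻¹ = y := by
      have := congrArg Subtype.val (DFunLike.congr_fun (MonoidHom.mem_ker.mp hh) (⟨y, hy⟩ : ↥F))
      simpa [f] using this
    exact (mul_inv_eq_iff_eq_mul.mp h1).symm
  let g : MulAut ↥F → Equiv.Perm {x : ↥F // x ≠ 1} := fun e =>
    Equiv.Perm.subtypePerm e.toEquiv fun x => not_congr (map_eq_one_iff e e.injective)
  have hg : Function.Injective g := by
    intro e e' h
    refine MulEquiv.ext fun x => ?_
    by_cases hx : x = 1
    · simp [hx]
    · exact congrArg Subtype.val (Equiv.congr_fun h ⟨x, hx⟩)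
  haveI := Fintype.ofFinite ↥F
  have hperm : Nat.card (Equiv.Perm {x : ↥F // x ≠ 1}) = Nat.factorial (Nat.card ↥F - 1) := by
    rw [Nat.card_perm]
    congr 1
    rw [Nat.card_eq_fintype_card, Nat.card_eq_fintype_card, Fintype.card_subtype_compl,
      Fintype.card_subtype_eq]
  calc Nat.card H = Nat.card ↥f.ker * f.ker.index := f.ker.card_mul_index.symm
    _ ≤ Nat.card ↥F * Nat.card (Equiv.Perm {x : ↥F // x ≠ 1}) := by
        refine Nat.mul_le_mul (Subgroup.card_le_of_le hker) ?_
        rw [Subgroup.index_ker]
        exact (Subgroup.card_le_card_group _).trans (Nat.card_le_card_of_injective g hg)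
    _ = Nat.factorial (Nat.card ↥F) := by
        rw [hperm, Nat.mul_factorial_pred Nat.card_pos.ne']

end Cfsg.Agent.S1313
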