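import Cfsg.Statements.S1349
import Mathlib
import Cfsg.Agent.H19.Fitting
import Cfsg.Agent.H53.OmegaFaithful
import Cfsg.Agent.H28.Dihedral

set_option autoImplicit false
open Cfsg

namespace Cfsg.Agent.S1349

open Subgroup
open scoped commutatorElement

variable {G : Type*} [Group G] [Finite G] {A : Subgroup G}

theorem conj_inv_self (hA : IsElementaryAbelian 2 A) {a : G} (ha : a ∈ A) (x : G) :
    a * (a * x * a⁻¹) * a⁻¹ = x := by
  have h : a⁻¹ = a := inv_eq_of_mul_eq_one_right (by rw [← pow_two]; exact hA.2 a ha)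
  have h2 : a * a = 1 := by rw [← pow_two]; exact hA.2 a ha
  simp only [h, mul_assoc]
  rw [h2, mul_one, ← mul_assoc, h2, one_mul]

theorem eq_one_of_inv_eq {L : Subgroup G} (hL : Odd (Nat.card L)) {m : G} (hm : m ∈ L)
    (h : m⁻¹ = m) : m = 1 := by
  have h2 : (⟨m, hm⟩ : L) ^ 2 = 1 := Subtype.ext (by
    show m ^ 2 = 1
    rw [pow_two]; nth_rewrite 1 [← h]
    exact inv_mul_cancel m)
  have hord : orderOf (⟨m, hm⟩ : L) = 1 := Nat.eq_one_of_dvd_coprimes
    (Nat.coprime_two_left.mpr hL) (orderOf_dvd_of_pow_eq_one h2) (orderOf_dvd_natCard _)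
  exact congrArg Subtype.val (orderOf_eq_one_iff.mp hord)

/-- An element of `A` fixing `C_L(F) ≤ F` and `F` fixes `L`. -/
theorem fix_of_centralizer_le (hA : IsElementaryAbelian 2 A) {L N C : Subgroup G}
    (hodd : Odd (Nat.card L)) (hNL : N ≤ L) (hCL : C ⊓ centralizer (N : Set G) ≤ N) (hCle : C ≤ L)
    {b : G} (hb : b ∈ A) (hN : ∀ x ∈ N, b * x * b⁻¹ = x) {n : G} (hn : n ∈ C)
    (hbn : b * n * b⁻¹ ∈ C) (hnN : ∀ x ∈ N, n * x * n⁻¹ ∈ N) : b * n * b⁻¹ = n := by
  set m := n⁻¹ * (b * n * b⁻¹) with hm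
  have hmC : m ∈ C := mul_mem (inv_mem hn) hbn
  have hmN : m ∈ N := hCL ⟨hmC, mem_centralizer_iff.mpr fun v hv => by
    have h1 := hN _ (hnN v hv)
    have h2 : b * (n * v * n⁻¹) * b⁻¹ = (b * n * b⁻¹) * (b * v * b⁻¹) * (b * n * b⁻¹)⁻¹ := by group
    rw [h2, hN v hv, mul_inv_eq_iff_eq_mul] at h1
    rw [hm]
    have : (b * n * b⁻¹) * v = n * v * n⁻¹ * (b * n * b⁻¹) := h1
    calc v * (n⁻¹ * (b * n * b⁻¹)) = n⁻¹ * (n * v * n⁻¹ * (b * n * b⁻¹)) := by group
      _ = n⁻¹ * ((b * n * b⁻¹) * v) := by rw [this]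
      _ = _ := by group⟩
  have h3 : b * m * b⁻¹ = m⁻¹ := by
    rw [hm, mul_inv_rev, inv_inv]
    calc b * (n⁻¹ * (b * n * b⁻¹)) * b⁻¹ = (b * n * b⁻¹)⁻¹ * (b * (b * n * b⁻¹) * b⁻¹) := by group
      _ = _ := by rw [conj_inv_self hA hb]
  rw [hN m hmN] at h3
  have := eq_one_of_inv_eq hodd (hNL hmN) h3.symm
  exact (inv_mul_eq_one.mp this).symm

/-- In an odd abelian invariant subgroup there is an eigenvector of any finite set of `A`. -/
theorem exists_eigen (hA : IsElementaryAbelian 2 A) {V : Subgroup G} (hV : Odd (Nat.card V))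
    (hAV : A ≤ normalizer (V : Set G))
    (W : Subgroup G) (hWV : W ≤ V) (s : Finset G) (hs : ∀ a ∈ s, a ∈ A) :
    ∀ w ∈ V, (∀ x ∈ V, ∀ y ∈ V, ⁅x, y⁆ ∈ W) → w ∉ W → A ≤ normalizer (W : Set G) →
      ∀ P : G → Prop, P w → (∀ a ∈ A, ∀ x ∈ V, P x → P (a * x * a⁻¹)) →
      (∀ x ∈ V, P x → P x⁻¹) → (∀ x ∈ V, ∀ y ∈ V, P x → P y → P (x * y)) →
      ∃ z ∈ V, z ∉ W ∧ P z ∧ ∀ a ∈ s, a * z * a⁻¹ * z⁻¹ ∈ W ∨ a * z * a⁻¹ * z ∈ W := by
  classical
  induction s using Finset.induction_on with
  | empty => exact fun w hw _ hwW _ P hP _ _ _ => ⟨w, hw, hwW, hP, by simp⟩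
  | insert b s _ ih =>
    intro w hw hcomm hwW hAW P hP hPa hPi hPm
    have hb : b ∈ A := hs b (Finset.mem_insert_self b s)
    have hbV : ∀ x ∈ V, b * x * b⁻¹ ∈ V := fun x hx => le_normalizer_iff.mp hAV b hb x hx
    obtain ⟨z, hz, hzW, hPz, hzs⟩ :=
      ih (fun a ha => hs a (Finset.mem_insert_of_mem ha)) w hw hcomm hwW hAW P hP hPa hPi hPm
    by_cases hfix : b * z * b⁻¹ * z⁻¹ ∈ W
    · refine ⟨z, hz, hzW, hPz, fun a ha => ?_⟩
      rcases Finset.mem_insert.mp ha with rfl | ha
      · exact Or.inl hfix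
      · exact hzs a ha
    -- replace `z` by `b z b⁻¹ z⁻¹`
    have hVW : V ≤ normalizer (W : Set G) := le_normalizer_iff.mpr fun v hv x hx => by
      simpa [commutatorElement_def] using mul_mem (hcomm v hv x (hWV hx)) hx
    refine ⟨b * z * b⁻¹ * z⁻¹, mul_mem (hbV z hz) (inv_mem hz), hfix,
      hPm _ (hbV z hz) _ (inv_mem hz) (hPa b hb z hz hPz) (hPi z hz hPz), fun a ha => ?_⟩
    rcases Finset.mem_insert.mp ha with rfl | ha
    · refine Or.inr ?_
      rw [show a * (a * z * a⁻¹ * z⁻¹) * a⁻¹ * (a * z * a⁻¹ * z⁻¹) = 1 by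
        rw [show a * (a * z * a⁻¹ * z⁻¹) * a⁻¹ = (a * (a * z * a⁻¹) * a⁻¹) * (a * z * a⁻¹)⁻¹ by group,
          conj_inv_self hA hb]
        group]
      exact one_mem W
    · have hab : a * b = b * a := congrArg Subtype.val
        (hA.1.1.1 ⟨a, hs a (Finset.mem_insert_of_mem ha)⟩ ⟨b, hb⟩)
      have haA := hs a (Finset.mem_insert_of_mem ha)
      set c := b * z * b⁻¹ with hc
      have hcV : c ∈ V := hbV z hz
      have e : a * c * a⁻¹ = b * (a * z * a⁻¹) * b⁻¹ := by
        rw [hc, show a * (b * z * b⁻¹) * a⁻¹ = (a * b) * z * (a * b)⁻¹ by group, hab]; group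
      rcases hzs a ha with h | h
      · refine Or.inl ?_
        set w' := a * z * a⁻¹ * z⁻¹
        have e2 : a * z * a⁻¹ = w' * z := (inv_mul_cancel_right _ _).symm
        have e3 : a * (c * z⁻¹) * a⁻¹ * (c * z⁻¹)⁻¹ =
            (b * w' * b⁻¹) * (c * z⁻¹ * w'⁻¹ * (c * z⁻¹)⁻¹) := by
          rw [show a * (c * z⁻¹) * a⁻¹ = (a * c * a⁻¹) * (a * z * a⁻¹)⁻¹ by group, e, e2, hc]
          group
        rw [e3]
        exact mul_mem (le_normalizer_iff.mp hAW b hb _ h)
          (le_normalizer_iff.mp hVW _ (mul_mem hcV (inv_mem hz)) _ (inv_mem h))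
      · refine Or.inr ?_
        set w' := a * z * a⁻¹ * z
        have e2 : a * z * a⁻¹ = w' * z⁻¹ := (mul_inv_cancel_right _ _).symm
        have e3 : a * (c * z⁻¹) * a⁻¹ * (c * z⁻¹) =
            (b * w' * b⁻¹) * ((c⁻¹ * z) * w'⁻¹ * (c⁻¹ * z)⁻¹) * ⁅c⁻¹, z⁆ := by
          rw [show a * (c * z⁻¹) * a⁻¹ = (a * c * a⁻¹) * (a * z * a⁻¹)⁻¹ by group, e, e2, hc,
            commutatorElement_def]
          group
        rw [e3]
        exact mul_mem (mul_mem (le_normalizer_iff.mp hAW b hb _ h)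
          (le_normalizer_iff.mp hVW _ (mul_mem (inv_mem hcV) hz) _ (inv_mem h)))
          (hcomm _ (inv_mem hcV) z hz)

theorem exists_faithful_abelian (hA : IsElementaryAbelian 2 A) {L : Subgroup G}
    [Group.IsSolvable L] (hodd : Odd (Nat.card L)) (hAL : A ≤ normalizer (L : Set G))
    (hfaith : A ⊓ centralizer (L : Set G) = ⊥) :
    ∃ V : Subgroup G, V ≤ L ∧ A ≤ normalizer (V : Set G) ∧ (∀ x ∈ V, ∀ y ∈ V, x * y = y * x) ∧
      ∀ a ∈ A, (∀ v ∈ V, a * v * a⁻¹ = v) → a = 1 := by
  classical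
  set F := (fittingSubgroup L).map L.subtype with hF
  have hFL : F ≤ L := map_subtype_le _
  have hAF : A ≤ normalizer (F : Set G) := hAL.trans
    (H53.normalizer_le_normalizer_map_characteristic L _ (hK := H19.fitting_characteristic _))
  haveI := H19.fitting_normal ↥L
  have hLF : L ≤ normalizer (F : Set G) := le_normalizer.trans
    (H53.normalizer_le_normalizer_map_characteristic L _ (hK := H19.fitting_characteristic _))
  have hCF : L ⊓ centralizer (F : Set G) ≤ F := by
    intro x hx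
    exact ⟨⟨x, hx.1⟩, H19.centralizer_fitting_le (mem_centralizer_iff.mpr fun f hf =>
      Subtype.ext (mem_centralizer_iff.mp hx.2 _ ⟨f, hf, rfl⟩)), rfl⟩
  haveI : Group.IsNilpotent ↥F :=
    haveI := H19.fitting_isNilpotent (G := ↥L)
    Group.nilpotent_of_mulEquiv ((fittingSubgroup L).equivMapOfInjective _ L.subtype_injective)
  obtain ⟨V, ⟨hVF, hAV, hVc⟩, hmax⟩ := ({V : Subgroup G | V ≤ F ∧ A ≤ normalizer (V : Set G) ∧
      ∀ x ∈ V, ∀ y ∈ V, x * y = y * x} : Set (Subgroup G)).toFinite.exists_maximal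
    ⟨⊥, bot_le, fun a _ => mem_normalizer_iff.mpr fun x => by simp, by simp⟩
  have hCV : F ⊓ centralizer (V : Set G) ≤ V := by
    by_contra hne
    set C := F ⊓ centralizer (V : Set G) with hC
    have hAC : A ≤ normalizer (C : Set G) := by
      refine le_normalizer_iff.mpr fun a ha x hx => ⟨le_normalizer_iff.mp hAF a ha x hx.1,
        mem_centralizer_iff.mpr fun v hv => ?_⟩
      have h1 := mem_centralizer_iff.mp hx.2 (a⁻¹ * v * a)
        (by simpa using le_normalizer_iff.mp hAV a⁻¹ (inv_mem ha) v hv)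
      have h2 := congrArg (fun z => a * z * a⁻¹) h1
      simp only [mul_assoc] at h2
      simpa [mul_assoc] using h2
    -- the last term of the lower series of `C` outside `V`
    set D : ℕ → Subgroup G := fun i => (derivedSeries ↥F i).map F.subtype with hD
    have hDinv : ∀ i, D i ≤ F ∧ A ≤ normalizer (D i : Set G) := fun i => ⟨map_subtype_le _,
      hAF.trans (H53.normalizer_le_normalizer_map_characteristic F _)⟩
    have hex : ∃ i, C ⊓ D i ≤ V := by
      obtain ⟨n, hn⟩ := Group.IsSolvable.solvable (G := ↥F)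
      exact ⟨n, inf_le_right.trans (by simp [hD, hn])⟩
    set m := Nat.find hex
    obtain ⟨i, hi⟩ : ∃ i, m = i + 1 := by
      rcases Nat.eq_zero_or_pos m with h | h
      · have := Nat.find_spec hex
        refine absurd (fun x hx => this ⟨hx, ?_⟩) hne
        rw [show Nat.find hex = 0 from h]
        exact ⟨⟨x, hx.1⟩, by simp, rfl⟩
      · exact ⟨m - 1, by omega⟩
    have hnot : ¬ C ⊓ D i ≤ V := Nat.find_min hex (by omega)
    have hspec : C ⊓ D (i + 1) ≤ V := hi ▸ Nat.find_spec hex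
    have hVC : V ≤ C := le_inf hVF fun v hv => mem_centralizer_iff.mpr fun w hw => hVc w hw v hv
    obtain ⟨w, hw, hwV⟩ := SetLike.not_le_iff_exists.mp hnot
    set W := V ⊔ (C ⊓ D i) with hW
    have hWC : W ≤ C := sup_le hVC inf_le_left
    have hcommW : ∀ x ∈ W, ∀ y ∈ W, ⁅x, y⁆ ∈ V := by
      rw [← commutator_le]
      have h1 : ⁅C ⊓ D i, C ⊓ D i⁆ ≤ V := le_trans (le_inf ((commutator_mono inf_le_left
          inf_le_left).trans (commutator_le_self C)) ((commutator_mono inf_le_right inf_le_right).trans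
          (by simp [hD, derivedSeries_succ, map_commutator]))) hspec
      haveI : (V.subgroupOf W).Normal := normal_subgroupOf_of_le_normalizer (hWC.trans
        ((le_of_eq hC).trans (inf_le_right.trans (centralizer_le_normalizer _))))
      rw [commutator_le]
      intro x hx y hy
      have hdec : ∀ z ∈ W, ∃ v ∈ V, ∃ c ∈ C ⊓ D i, z = v * c := by
        intro z hz
        rw [hW, ← SetLike.mem_coe, coe_mul_of_right_le_normalizer_left _ _
          (inf_le_left.trans (inf_le_right.trans (centralizer_le_normalizer _)))] at hz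
        obtain ⟨v, hv, c, hc, e⟩ := hz
        exact ⟨v, hv, c, hc, e.symm⟩
      obtain ⟨v, hv, c, hc, rfl⟩ := hdec x hx
      obtain ⟨v', hv', c', hc', rfl⟩ := hdec y hy
      have k : ∀ u ∈ V, ∀ z ∈ C, u * z = z * u := fun u hu z hz =>
        mem_centralizer_iff.mp hz.2 u hu
      have : ⁅v * c, v' * c'⁆ = ⁅c, c'⁆ := by
        have k1 : Commute v c := k v hv c hc.1
        have k2 : Commute v c' := k v hv c' hc'.1
        have k3 : Commute v' c := k v' hv' c hc.1
        have k4 : Commute v' c' := k v' hv' c' hc'.1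
        have k5 : Commute v v' := hVc v hv v' hv'
        simp only [commutatorElement_def, mul_inv_rev]
        calc v * c * (v' * c') * (c⁻¹ * v⁻¹) * (c'⁻¹ * v'⁻¹)
            = v * (c * v') * c' * c⁻¹ * (v⁻¹ * c'⁻¹) * v'⁻¹ := by group
          _ = v * v' * (c * c' * c⁻¹ * c'⁻¹) * (v⁻¹ * v'⁻¹) := by
              rw [k3.symm.eq, (k2.inv_left.inv_right).eq]; group
          _ = (c * c' * c⁻¹ * c'⁻¹) * (v * v') * (v⁻¹ * v'⁻¹) := by
              have : Commute (v * v') (c * c' * c⁻¹ * c'⁻¹) :=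
                (((k1.mul_right k2).mul_right k1.inv_right).mul_right k2.inv_right).mul_left
                  (((k3.mul_right k4).mul_right k3.inv_right).mul_right k4.inv_right)
              rw [this.eq]
          _ = _ := by rw [k5.eq]; group
      rw [this]
      exact h1 (commutator_mem_commutator hc hc')
    have hAW : A ≤ normalizer (W : Set G) := (le_inf hAV
      ((le_inf hAC (hDinv i).2).trans inf_normalizer_le_normalizer_inf)).trans
        (normalizer_inf_normalizer_le_normalizer_sup _ _)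
    have hWodd : Odd (Nat.card W) :=
      hodd.of_dvd_nat (card_dvd_of_le (hWC.trans (inf_le_left.trans hFL)))
    haveI := Fintype.ofFinite G
    obtain ⟨z, hz, hzV, -, hzA⟩ := exists_eigen hA hWodd hAW V le_sup_left
      (Finset.univ.filter (· ∈ A)) (by simp) w (mem_sup_right hw) hcommW hwV hAV (fun _ => True)
      trivial (fun _ _ _ _ _ => trivial) (fun _ _ _ => trivial) (fun _ _ _ _ _ _ => trivial)
    have hzC := hWC hz
    have hle := hmax (show V ⊔ zpowers z ∈ {V : Subgroup G | V ≤ F ∧ A ≤ normalizer (V : Set G) ∧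
        ∀ x ∈ V, ∀ y ∈ V, x * y = y * x} from ⟨sup_le hVF (zpowers_le.mpr hzC.1), ?_, ?_⟩) le_sup_left
    · exact hzV (hle (mem_sup_right (mem_zpowers z)))
    · refine le_normalizer_iff.mpr fun a ha x hx => ?_
      have : V ⊔ zpowers z ≤ (V ⊔ zpowers z).comap (MulAut.conj a).toMonoidHom := by
        refine sup_le (fun v hv => mem_sup_left (le_normalizer_iff.mp hAV a ha v hv))
          (zpowers_le.mpr ?_)
        show a * z * a⁻¹ ∈ V ⊔ zpowers z
        rcases hzA a (by simpa using ha) with h | h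
        · simpa using mul_mem (mem_sup_left h) (mem_sup_right (mem_zpowers z) : z ∈ V ⊔ zpowers z)
        · simpa using mul_mem (mem_sup_left h)
            (inv_mem (mem_sup_right (mem_zpowers z) : z ∈ V ⊔ zpowers z))
      exact this hx
    · intro x hx y hy
      haveI : IsMulCommutative ↥(closure ((V : Set G) ∪ {z})) := isMulCommutative_closure (by
        rintro u (hu | rfl) v (hv | rfl)
        · exact hVc u hu v hv
        · exact mem_centralizer_iff.mp hzC.2 u hu
        · exact (mem_centralizer_iff.mp hzC.2 v hv).symm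
        · rfl)
      have e : V ⊔ zpowers z = closure ((V : Set G) ∪ {z}) := by
        rw [Subgroup.closure_union, closure_eq, zpowers_eq_closure]
      rw [e] at hx hy
      exact congrArg Subtype.val (IsMulCommutative.is_comm.comm
        (⟨x, hx⟩ : ↥(closure ((V : Set G) ∪ {z}))) ⟨y, hy⟩)
  refine ⟨V, hVF.trans hFL, hAV, hVc, fun b hb hbV => ?_⟩
  -- `b` fixes `F`
  have hbF : ∀ x ∈ F, b * x * b⁻¹ = x := by
    let N : Subgroup G := F ⊓ centralizer {b}
    have hfix : ∀ x, x ∈ centralizer ({b} : Set G) ↔ b * x * b⁻¹ = x := fun x => by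
      rw [mem_centralizer_singleton_iff, mul_inv_eq_iff_eq_mul]; exact eq_comm
    have hVN : V ≤ N := le_inf hVF fun v hv => (hfix v).mpr (hbV v hv)
    by_contra! hne
    obtain ⟨x, hx, hxb⟩ := hne
    have hlt : N.subgroupOf F < ⊤ :=
      lt_top_iff_ne_top.mpr fun h => hxb ((hfix x).mp (subgroupOf_eq_top.mp h hx).2)
    obtain ⟨n, hnN, hn⟩ := SetLike.exists_of_lt (Group.normalizerCondition_of_isNilpotent _ hlt)
    refine hn (mem_subgroupOf.mpr (mem_inf.mpr ⟨n.2, (hfix n).mpr ?_⟩))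
    rw [← subgroupOf_normalizer_eq inf_le_left] at hnN
    exact fix_of_centralizer_le hA hodd (inf_le_left.trans hFL)
      (fun c hc => hVN (hCV ⟨hc.1, centralizer_le hVN hc.2⟩)) hFL hb
      (fun y hy => (hfix y).mp hy.2) n.2 (le_normalizer_iff.mp hAF b hb n n.2)
      fun y hy => (mem_normalizer_iff.mp hnN y).mp hy
  have hmem : b ∈ A ⊓ centralizer (L : Set G) := ⟨hb, mem_centralizer_iff.mpr fun l hl => by
    have := fix_of_centralizer_le hA hodd hFL hCF le_rfl hb hbF hl
      (le_normalizer_iff.mp hAL b hb l hl) (fun y hy => le_normalizer_iff.mp hLF l hl y hy)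
    exact (mul_inv_eq_iff_eq_mul.mp this).symm⟩
  rw [hfaith] at hmem
  exact hmem

/-- Eigenvectors separating the elements of a subgroup of `A`. -/
theorem exists_separating (hA : IsElementaryAbelian 2 A) {V : Subgroup G}
    (hodd : Odd (Nat.card V)) (hAV : A ≤ normalizer (V : Set G))
    (hVc : ∀ x ∈ V, ∀ y ∈ V, x * y = y * x) :
    ∀ d : ℕ, ∀ B : Subgroup G, B ≤ A → Nat.card B = 2 ^ d →
      (∀ b ∈ B, (∀ v ∈ V, b * v * b⁻¹ = v) → b = 1) →
      ∃ v : Fin d → G, (∀ i, v i ∈ V ∧ ∀ a ∈ A, a * v i * a⁻¹ = v i ∨ a * v i * a⁻¹ = (v i)⁻¹) ∧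
        ∀ b ∈ B, (∀ i, b * v i * b⁻¹ = v i) → b = 1 := by
  intro d
  induction d with
  | zero =>
    intro B _ hB _
    exact ⟨Fin.elim0, fun i => i.elim0, fun b hb _ => by
      rw [Subgroup.eq_bot_of_card_eq B (by simpa using hB)] at hb; exact hb⟩
  | succ d ih =>
    intro B hBA hB hfaith
    classical
    haveI := Fintype.ofFinite G
    obtain ⟨b, hb, hb1⟩ := (bot_or_exists_ne_one B).resolve_left fun h => by
      rw [h, card_bot] at hB
      exact absurd hB.symm (Nat.one_lt_pow (by omega) one_lt_two).ne'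
    have hex : ∃ v ∈ V, b * v * b⁻¹ ≠ v := by
      by_contra! h; exact hb1 (hfaith b hb h)
    obtain ⟨v, hv, hbv⟩ := hex
    have hbA := hBA hb
    have hcomm : ∀ a ∈ A, a * b = b * a := fun a ha =>
      congrArg Subtype.val (hA.1.1.1 ⟨a, ha⟩ ⟨b, hbA⟩)
    have hbV : ∀ x ∈ V, b * x * b⁻¹ ∈ V := fun x hx => le_normalizer_iff.mp hAV b hbA x hx
    obtain ⟨z, hz, hz1, hPz, hzA⟩ := exists_eigen hA hodd hAV ⊥ bot_le
      (Finset.univ.filter (· ∈ A)) (by simp) (b * v * b⁻¹ * v⁻¹)
      (mul_mem (hbV v hv) (inv_mem hv))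
      (fun x hx y hy => mem_bot.mpr (commutatorElement_eq_one_iff_commute.mpr (hVc x hx y hy)))
      (fun h => hbv (mul_inv_eq_one.mp (mem_bot.mp h)))
      (fun a _ => mem_normalizer_iff.mpr fun x => by simp)
      (fun x => b * x * b⁻¹ = x⁻¹)
      (by
        rw [show b * (b * v * b⁻¹ * v⁻¹) * b⁻¹ = (b * (b * v * b⁻¹) * b⁻¹) * (b * v * b⁻¹)⁻¹ by group,
          conj_inv_self hA hbA]
        group)
      (fun a ha x _ h => by
        rw [show b * (a * x * a⁻¹) * b⁻¹ = (b * a) * x * (b * a)⁻¹ by group, ← hcomm a ha,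
          show a * b * x * (a * b)⁻¹ = a * (b * x * b⁻¹) * a⁻¹ by group, h]
        group)
      (fun x _ h => by rw [show b * x⁻¹ * b⁻¹ = (b * x * b⁻¹)⁻¹ by group, h])
      (fun x hx y hy h h' => by
        rw [← conj_mul, h, h', ← mul_inv_rev, hVc y hy x hx])
    have hz' : ∀ a ∈ A, a * z * a⁻¹ = z ∨ a * z * a⁻¹ = z⁻¹ := fun a ha =>
      (hzA a (by simpa using ha)).imp (fun h => mul_inv_eq_one.mp (mem_bot.mp h))
        (fun h => eq_inv_of_mul_eq_one_left (mem_bot.mp h))
    have hbz : b * z * b⁻¹ ≠ z := fun h => hz1 (mem_bot.mpr (eq_one_of_inv_eq hodd hz (hPz ▸ h)))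
    set B' : Subgroup G := B ⊓ centralizer {z} with hB'
    have hfix : ∀ a, a ∈ centralizer ({z} : Set G) ↔ a * z * a⁻¹ = z := fun a => by
      rw [mem_centralizer_singleton_iff, mul_inv_eq_iff_eq_mul]
    have hidx : (B'.subgroupOf B).index = 2 := by
      refine index_eq_two_iff.mpr ⟨⟨b, hb⟩, fun a => ?_⟩
      have e1 : ∀ a : B, a ∈ B'.subgroupOf B ↔ (a : G) * z * (a : G)⁻¹ = z := fun a => by
        rw [mem_subgroupOf, hB', mem_inf, hfix]; exact and_iff_right a.2
      rw [e1, e1]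
      show Xor ((a : G) * b * z * ((a : G) * b)⁻¹ = z) ((a : G) * z * (a : G)⁻¹ = z)
      have e2 : (a : G) * b * z * ((a : G) * b)⁻¹ = ((a : G) * z * (a : G)⁻¹)⁻¹ := by
        rw [show (a : G) * b * z * ((a : G) * b)⁻¹ = a * (b * z * b⁻¹) * (a : G)⁻¹ by group, hPz]
        group
      rw [e2]
      rcases hz' a (hBA a.2) with h | h
      · exact Or.inr ⟨h, fun h' => hbz (hPz.trans (by rw [h] at h'; exact h'))⟩
      · exact Or.inl ⟨by rw [h, inv_inv], fun h' => hbz (hPz.trans (h.symm.trans h'))⟩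
    have hcard : Nat.card B' = 2 ^ d := by
      have := (B'.subgroupOf B).card_mul_index
      rw [hidx, Nat.card_congr (subgroupOfEquivOfLe (inf_le_left : B' ≤ B)).toEquiv, hB, pow_succ] at this
      show Nat.card ↥(B ⊓ centralizer {z}) = 2 ^ d
      omega
    obtain ⟨w, hw, hwsep⟩ := ih B' (inf_le_left.trans hBA) hcard fun c hc => hfaith c hc.1
    refine ⟨Fin.cons z w, fun i => Fin.cases ⟨hz, hz'⟩ (fun j => hw j) i, fun c hc h => ?_⟩
    exact hwsep c ⟨hc, (hfix c).mpr (by simpa using h 0)⟩ fun i => by simpa using h i.succ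

/-- Let G be finite, L ≤ G solvable of odd order, and A an elementary abelian 2-subgroup of order 2^d (d ≥ 1) normalizing L with C_A(L) = 1. Then there are subgroups A_1, …, A_d of A of order 2 generating A and subgroups L_1, …, L_d of L such that each A_i ⊔ L_i is dihedral of order 2 n_i with n_i odd and at least 3, and A_i ⊔ L_i commutes elementwise with A_j ⊔ L_j for i ≠ j. -/
theorem result {G : Type*} [Group G] [Finite G] (L A : Subgroup G) (hLs : Group.IsSolvable ↥L) (hLodd : Odd (Nat.card ↥L)) (hA : Cfsg.IsElementaryAbelian 2 A) (d : ℕ) (hd : 1 ≤ d) (hAd : Nat.card ↥A = 2 ^ d) (hAL : A ≤ Subgroup.normalizer (L : Set G)) (hfaith : A ⊓ Subgroup.centralizer (L : Set G) = ⊥) : ∃ (Ai : Fin d → Subgroup G) (Li : Fin d → Subgroup G) (n : Fin d → ℕ), (∀ i, Ai i ≤ A ∧ Nat.card ↥(Ai i) = 2 ∧ Li i ≤ L ∧ Odd (n i) ∧ 3 ≤ n i ∧ Nonempty (↥(Ai i ⊔ Li i) ≃* DihedralGroup (n i))) ∧ (⨆ i, Ai i) = A ∧ ∀ i j, i ≠ j → ∀ x ∈ Ai i ⊔ Li i, ∀ y ∈ Ai j ⊔ Li j, x * y = y * x := by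
  classical
  haveI := hLs
  obtain ⟨V, hVL, hAV, hVc, hVf⟩ := exists_faithful_abelian hA hLodd hAL hfaith
  have hoddV : Odd (Nat.card V) := hLodd.of_dvd_nat (Subgroup.card_dvd_of_le hVL)
  obtain ⟨v, hv, hsep⟩ := exists_separating hA hoddV hAV hVc d A le_rfl hAd hVf
  let f : A → (Fin d → Bool) := fun a i => decide ((a : G) * v i * (a : G)⁻¹ = v i)
  have hinv : ∀ a ∈ A, a⁻¹ = a := fun a ha =>
    inv_eq_of_mul_eq_one_right (by rw [← pow_two]; exact hA.2 a ha)
  have hinj : Function.Injective f := fun a b hab => by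
    have hsame : ∀ i, (a : G) * v i * (a : G)⁻¹ = (b : G) * v i * (b : G)⁻¹ := fun i => by
      have := congrFun hab i
      simp only [f, decide_eq_decide] at this
      by_cases h : (a : G) * v i * (a : G)⁻¹ = v i
      · rw [h, this.mp h]
      · rw [((hv i).2 a a.2).resolve_left h, ((hv i).2 b b.2).resolve_left (fun h' => h (this.mpr h'))]
    have h1 : (b : G)⁻¹ * a = 1 := hsep _ (mul_mem (inv_mem b.2) a.2) fun i => by
      rw [show (b : G)⁻¹ * a * v i * ((b : G)⁻¹ * a)⁻¹ = (b : G)⁻¹ * (a * v i * (a : G)⁻¹) * b by group,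
        hsame]
      group
    exact Subtype.ext (inv_mul_eq_one.mp h1).symm
  have hbij : Function.Bijective f :=
    (Fintype.ofFinite A |> fun _ => (Nat.bijective_iff_injective_and_card f).mpr ⟨hinj, by simp [hAd]⟩)
  choose g hg using hbij.2
  let a : Fin d → A := fun i => g fun j => decide (j ≠ i)
  have hafix : ∀ i j, i ≠ j → (a i : G) * v j * (a i : G)⁻¹ = v j := fun i j hij => by
    have := congrFun (hg fun j => decide (j ≠ i)) j
    simpa [f, a, hij.symm] using this
  have hamove : ∀ i, (a i : G) * v i * (a i : G)⁻¹ ≠ v i := fun i => by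
    have := congrFun (hg fun j => decide (j ≠ i)) i
    simpa [f, a] using this
  have hainv : ∀ i, (a i : G) * v i * (a i : G)⁻¹ = (v i)⁻¹ := fun i =>
    ((hv i).2 _ (a i).2).resolve_left (hamove i)
  have ha1 : ∀ i, (a i : G) ≠ 1 := fun i h => hamove i (by simp [h])
  have ha2 : ∀ i, (a i : G) * a i = 1 := fun i => by rw [← pow_two]; exact hA.2 _ (a i).2
  refine ⟨fun i => Subgroup.zpowers (a i : G), fun i => Subgroup.zpowers (v i),
    fun i => orderOf (v i), fun i => ⟨Subgroup.zpowers_le.mpr (a i).2, ?_,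
      Subgroup.zpowers_le.mpr (hVL (hv i).1), ?_, ?_, ?_⟩, ?_, ?_⟩
  · rw [Nat.card_zpowers]
    exact orderOf_eq_prime (by rw [pow_two]; exact ha2 i) (ha1 i)
  · exact hoddV.of_dvd_nat (Subgroup.orderOf_dvd_natCard _ (hv i).1)
  · have hodd : Odd (orderOf (v i)) := hoddV.of_dvd_nat (Subgroup.orderOf_dvd_natCard _ (hv i).1)
    have hne : orderOf (v i) ≠ 1 := fun h => hamove i (by simp [orderOf_eq_one_iff.mp h])
    show 3 ≤ orderOf (v i)
    obtain ⟨k, hk⟩ := hodd
    omega
  · have e1 : (a i : G) * v i * ((a i : G) * v i) = 1 := by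
      have := hainv i
      rw [hinv _ (a i).2] at this
      rw [← mul_assoc, this, inv_mul_cancel]
    have e2 : (a i : G) * v i ≠ 1 := fun h => hamove i (by
      rw [eq_inv_of_mul_eq_one_right h, hinv _ (a i).2]
      simp [mul_assoc, ha2])
    have := H28.closure_pair_dihedral (ha2 i) e1 (ha1 i) e2
    rw [← mul_assoc, ha2, one_mul] at this
    have hset : Subgroup.closure {(a i : G), (a i : G) * v i} =
        Subgroup.zpowers (a i : G) ⊔ Subgroup.zpowers (v i) := by
      refine le_antisymm ((Subgroup.closure_le _).mpr ?_) (sup_le ?_ ?_)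
      · rintro x (rfl | rfl)
        · exact Subgroup.mem_sup_left (Subgroup.mem_zpowers _)
        · exact Subgroup.mul_mem_sup (Subgroup.mem_zpowers _) (Subgroup.mem_zpowers _)
      · exact Subgroup.zpowers_le.mpr (Subgroup.subset_closure (by simp))
      · refine Subgroup.zpowers_le.mpr ?_
        have h := mul_mem (Subgroup.subset_closure (show (a i : G) ∈ ({(a i : G), (a i : G) * v i} : Set G) by simp))
          (Subgroup.subset_closure (show (a i : G) * v i ∈ ({(a i : G), (a i : G) * v i} : Set G) by simp))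
        simpa [← mul_assoc, ha2] using h
    rwa [hset] at this
  · refine le_antisymm (iSup_le fun i => Subgroup.zpowers_le.mpr (a i).2) ?_
    have key : ∀ s : Finset (Fin d), ∀ x : A, (∀ i, i ∉ s → f x i = true) →
        (x : G) ∈ ⨆ i, Subgroup.zpowers (a i : G) := by
      intro s
      induction s using Finset.induction_on with
      | empty =>
        intro x hx
        have : (x : G) = 1 := hsep _ x.2 fun i => by simpa [f] using hx i (by simp)
        rw [this]; exact one_mem _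
      | insert i s _ ih =>
        intro x hx
        have hmem : (a i : G) ∈ ⨆ i, Subgroup.zpowers (a i : G) :=
          Subgroup.mem_iSup_of_mem i (Subgroup.mem_zpowers _)
        by_cases hxi : f x i = true
        · exact ih x fun j hj => if h : j = i then h ▸ hxi else hx j (by simp [h, hj])
        · have h := ih (a i * x) fun j hj => by
            simp only [f, decide_eq_true_eq, Subgroup.coe_mul] at hxi ⊢
            rw [show (a i : G) * x * v j * ((a i : G) * x)⁻¹ = a i * (x * v j * (x : G)⁻¹) * (a i : G)⁻¹ by group]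
            by_cases h : j = i
            · subst h
              rw [((hv j).2 x x.2).resolve_left hxi,
                show (a j : G) * (v j)⁻¹ * (a j : G)⁻¹ = ((a j : G) * v j * (a j : G)⁻¹)⁻¹ by group,
                hainv, inv_inv]
            · have hxj : (x : G) * v j * (x : G)⁻¹ = v j := by
                simpa [f] using hx j (by simp [h, hj])
              rw [hxj, hafix i j (Ne.symm h)]
          have h2 := mul_mem (inv_mem hmem) h
          simpa using h2
    exact fun x hx => key Finset.univ ⟨x, hx⟩ (by simp)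
  · intro i j hij
    have hc : ∀ x ∈ ({(a i : G), v i} : Set G), ∀ y ∈ ({(a j : G), v j} : Set G), Commute x y := by
      have hfix : ∀ k l, k ≠ l → Commute (a k : G) (v l) := fun k l h =>
        mul_inv_eq_iff_eq_mul.mp (hafix k l h)
      rintro x (rfl | rfl) y (rfl | rfl)
      · exact congrArg Subtype.val (hA.1.1.1 (a i) (a j))
      · exact hfix i j hij
      · exact (hfix j i hij.symm).symm
      · exact hVc _ (hv i).1 _ (hv j).1
    intro x hx y hy
    have e : ∀ k, Subgroup.zpowers (a k : G) ⊔ Subgroup.zpowers (v k) =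
        Subgroup.closure {(a k : G), v k} := fun k => by
      rw [Set.insert_eq, Subgroup.closure_union, Subgroup.zpowers_eq_closure, Subgroup.zpowers_eq_closure]
    rw [e] at hx hy
    have h1 : Subgroup.closure ({(a i : G), v i} : Set G) ≤
        Subgroup.centralizer (({(a j : G), v j} : Set G)) := by
      rw [Subgroup.closure_le]
      exact fun z hz => Subgroup.mem_centralizer_iff.mpr fun w hw => ((hc z hz w hw).eq).symm
    have h2 : x ∈ Subgroup.centralizer (Subgroup.closure ({(a j : G), v j} : Set G) : Set G) := by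
      rw [Subgroup.centralizer_closure]; exact h1 hx
    exact (Subgroup.mem_centralizer_iff.mp h2 y hy).symm


end Cfsg.Agent.S1349
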