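import Cfsg.Statements.S1613
import Cfsg.Agent.S1612
import Cfsg.Agent.H17.RankThree


set_option autoImplicit false
open Cfsg

namespace Cfsg.Agent.S1613

/-- For a transposition x of a Fischer 3-transposition group, the transpositions commuting with x (other than x) form one conjugacy class of the subgroup they generate. -/
theorem result {G : Type*} [Group G] [Finite G] (hsol : ∀ N : Subgroup G, N.Normal → Group.IsSolvable ↥N → N = ⊥) (hperf : ⁅commutator G, commutator G⁆ = commutator G) {D : Set G} (hD : Cfsg.IsThreeTranspositionClass D) (x : G) (hx : x ∈ D) : ∀ y ∈ {y : G | y ∈ D ∧ y ≠ x ∧ Commute x y}, ∀ y' ∈ {y : G | y ∈ D ∧ y ≠ x ∧ Commute x y}, ∃ g ∈ Subgroup.closure {y : G | y ∈ D ∧ y ≠ x ∧ Commute x y}, g * y * g⁻¹ = y' := by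
  rintro y ⟨hy, hyx, hxy⟩ y' ⟨hy', hyx', hxy'⟩
  have hD2 : ∃ a ∈ D, ∃ b ∈ D, a ≠ b := ⟨y, hy, x, hx, hyx⟩
  have hprim := S1612.primitive hsol hperf hD hD2
  obtain ⟨k, hk, hk'⟩ := H17.transitive_near hD hprim ⟨y, hy, x, hx, hyx, hxy.symm⟩ hx hy hy'
    hyx hyx' hxy hxy'
  set K := Subgroup.closure {y : G | y ∈ D ∧ y ≠ x ∧ Commute x y}
  suffices hmain : ∀ k ∈ H17.centGen D x, ∃ k' ∈ K, ∀ z, Commute x z → k * z * k⁻¹ = k' * z * k'⁻¹ by
    obtain ⟨k', hk'K, hk''⟩ := hmain k hk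
    exact ⟨k', hk'K, (hk'' y hxy).symm.trans hk'⟩
  intro k hk
  induction hk using Subgroup.closure_induction with
  | mem e he =>
    by_cases hex : e = x
    · subst hex
      exact ⟨1, one_mem _, fun z hz => by rw [hz.eq]; simp⟩
    · exact ⟨e, Subgroup.subset_closure ⟨he.1, hex, he.2⟩, fun z _ => rfl⟩
  | one => exact ⟨1, one_mem _, fun z _ => rfl⟩
  | mul a b ha hb iha ihb =>
    obtain ⟨a', ha', haz⟩ := iha
    obtain ⟨b', hb', hbz⟩ := ihb
    refine ⟨a' * b', mul_mem ha' hb', fun z hz => ?_⟩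
    have hbx : Commute x b := H17.centGen_commute hb
    have hcomm : Commute x (b * z * b⁻¹) := (hbx.mul_right hz).mul_right hbx.inv_right
    calc a * b * z * (a * b)⁻¹ = a * (b * z * b⁻¹) * a⁻¹ := by group
      _ = a' * (b * z * b⁻¹) * a'⁻¹ := haz _ hcomm
      _ = a' * (b' * z * b'⁻¹) * a'⁻¹ := by rw [hbz z hz]
      _ = a' * b' * z * (a' * b')⁻¹ := by group
  | inv a ha iha =>
    obtain ⟨a', ha', haz⟩ := iha
    refine ⟨a'⁻¹, inv_mem ha', fun z hz => ?_⟩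
    have hax : Commute x a := H17.centGen_commute ha
    have hcomm : Commute x (a⁻¹ * z * a) := (hax.inv_right.mul_right hz).mul_right hax
    have h := haz _ hcomm
    calc a⁻¹ * z * a⁻¹⁻¹ = a'⁻¹ * (a' * (a⁻¹ * z * a) * a'⁻¹) * a' := by group
      _ = a'⁻¹ * (a * (a⁻¹ * z * a) * a⁻¹) * a' := by rw [h]
      _ = a'⁻¹ * z * a'⁻¹⁻¹ := by group

end Cfsg.Agent.S1613
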