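import Cfsg.Statements.S1616
import Cfsg.Agent.H9.PolarSetup

set_option autoImplicit false
open Cfsg

namespace Cfsg.Agent.S1616

/-- If O₂(⟨D_x⟩) is not central in ⟨D_x⟩ for some transposition x, the 3-transposition group is some Sp(2n, 2) or PSU(n, 2). -/
theorem result {G : Type*} [Group G] [Finite G] (hsol : ∀ N : Subgroup G, N.Normal → Group.IsSolvable ↥N → N = ⊥) (hperf : ⁅commutator G, commutator G⁆ = commutator G) {D : Set G} (hD : Cfsg.IsThreeTranspositionClass D) (x : G) (hx : x ∈ D) (h : ¬ Cfsg.pCore 2 ↥(Subgroup.closure {y : G | y ∈ D ∧ y ≠ x ∧ Commute x y}) ≤ Subgroup.center ↥(Subgroup.closure {y : G | y ∈ D ∧ y ≠ x ∧ Commute x y})) : (∃ n : ℕ, Nonempty (G ≃* Matrix.symplecticGroup (Fin n) (ZMod 2))) ∨ ∃ (F : Type) (_ : Field F) (_ : Fintype F) (n : ℕ), Fintype.card F = 4 ∧ Nonempty (G ≃* Cfsg.PSU n F 2) := by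
  haveI : Fact (Nat.Prime 2) := ⟨Nat.prime_two⟩
  have S := H9.Polar.setting_of_twoGroup hsol hperf hD hx _ (H51.pCore_normal 2 _)
    (H51.pCore_isPGroup 2 _) h
  rcases H9.Polar.model S with h3 | ⟨x, y, B⟩
  · obtain ⟨m, θ, e, -⟩ := H9.Polar.symplectic_model S h3
    exact Or.inl ⟨m, e⟩
  · obtain ⟨e⟩ := H9.Polar.unitary_model B
    exact Or.inr ⟨H9.FieldFour.F4, inferInstance, inferInstance, _, H9.FieldFour.card_F4, ⟨e⟩⟩

end Cfsg.Agent.S1616
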