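import Cfsg.Statements.S1690
import Cfsg.Agent.H16.Fi24Main
-- import your own Cfsg.Agent.* helpers here

set_option autoImplicit false
open Cfsg

namespace Cfsg.Agent.S1690

/-- In the presented group Fi₂₄ = Fi₂₄′:2, the subgroup generated by the images of a, b, c, d, e, f, g, h, i, j and l (every generator but k) has index 306936. -/
theorem result : (((Subgroup.closure ({Cfsg.Spor.Fi24.a, Cfsg.Spor.Fi24.b, Cfsg.Spor.Fi24.c, Cfsg.Spor.Fi24.d, Cfsg.Spor.Fi24.e, Cfsg.Spor.Fi24.f, Cfsg.Spor.Fi24.g, Cfsg.Spor.Fi24.h, Cfsg.Spor.Fi24.i, Cfsg.Spor.Fi24.j, Cfsg.Spor.Fi24.l} : Set (FreeGroup Cfsg.Spor.Fi24.Gen))).map (PresentedGroup.mk (Cfsg.Spor.coxRelators Cfsg.Spor.Fi24.edges ∪ {r | r ∈ Cfsg.Spor.Fi24.extra})))).index = 306936 := by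
  refine (congrArg Subgroup.index (le_antisymm ?_ ?_)).trans H16.Fi24G.index_H
  · rw [MonoidHom.map_closure, Subgroup.closure_le]
    rintro _ ⟨x, hx, rfl⟩
    simp only [Set.mem_insert_iff, Set.mem_singleton_iff] at hx
    rcases hx with rfl | rfl | rfl | rfl | rfl | rfl | rfl | rfl | rfl | rfl | rfl
    · exact H16.Fi24G.val_mem_H (g := 2) (by norm_num)
    · exact H16.Fi24G.val_mem_H (g := 3) (by norm_num)
    · exact H16.Fi24G.val_mem_H (g := 4) (by norm_num)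
    · exact H16.Fi24G.val_mem_H (g := 5) (by norm_num)
    · exact H16.Fi24G.val_mem_H (g := 6) (by norm_num)
    · exact H16.Fi24G.val_mem_H (g := 7) (by norm_num)
    · exact H16.Fi24G.val_mem_H (g := 8) (by norm_num)
    · exact H16.Fi24G.val_mem_H (g := 10) (by norm_num)
    · exact H16.Fi24G.val_mem_H (g := 11) (by norm_num)
    · exact H16.Fi24G.val_mem_H (g := 9) (by norm_num)
    · exact H16.Fi24G.val_mem_H (g := 0) (by norm_num)
  · refine (Subgroup.closure_le _).mpr ?_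
    rintro _ ⟨g, hg, rfl⟩
    rw [MonoidHom.map_closure]
    refine Subgroup.subset_closure ?_
    fin_cases hg
    · exact ⟨Cfsg.Spor.Fi24.l, by simp, rfl⟩
    · exact ⟨Cfsg.Spor.Fi24.a, by simp, rfl⟩
    · exact ⟨Cfsg.Spor.Fi24.b, by simp, rfl⟩
    · exact ⟨Cfsg.Spor.Fi24.c, by simp, rfl⟩
    · exact ⟨Cfsg.Spor.Fi24.d, by simp, rfl⟩
    · exact ⟨Cfsg.Spor.Fi24.e, by simp, rfl⟩
    · exact ⟨Cfsg.Spor.Fi24.f, by simp, rfl⟩
    · exact ⟨Cfsg.Spor.Fi24.g, by simp, rfl⟩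
    · exact ⟨Cfsg.Spor.Fi24.j, by simp, rfl⟩
    · exact ⟨Cfsg.Spor.Fi24.h, by simp, rfl⟩
    · exact ⟨Cfsg.Spor.Fi24.i, by simp, rfl⟩


end Cfsg.Agent.S1690
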