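import Cfsg.Statements.S1743
import Cfsg.Agent.H33.G2Two.Embed
import Cfsg.Agent.H33.G2Two.OddType

set_option autoImplicit false
open Cfsg

namespace Cfsg.Agent.S1743

/-- Let G be a finite simple group whose Sylow 2-subgroups are isomorphic to a Sylow 2-subgroup of the Chevalley group of type G₂ over a finite field of odd order, and let S be a Sylow 2-subgroup of G. Then either all involutions of G are conjugate, or S has order 64 and the involutions of G form exactly two conjugacy classes. -/
theorem result {G : Type*} [Group G] [Finite G] [IsSimpleGroup G]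
    {F : Type*} [Field F] [Fintype F] (hF : Odd (Fintype.card F)) (S : Sylow 2 G) (P : Sylow 2 ↥(Cfsg.Lie.chevG2.group F))
    (hS : Nonempty (↥(S : Subgroup G) ≃* ↥(P : Subgroup ↥(Cfsg.Lie.chevG2.group F)))) :
    (∀ x y : G, orderOf x = 2 → orderOf y = 2 → IsConj x y) ∨
      (Nat.card ↥(S : Subgroup G) = 64 ∧ ∃ x y : G, orderOf x = 2 ∧ orderOf y = 2 ∧ ¬ IsConj x y ∧
        ∀ z : G, orderOf z = 2 → IsConj z x ∨ IsConj z y) := by
  classical
  obtain ⟨n, hn, ⟨e⟩⟩ := H33.G2Two.exists_model_equiv hF P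
  obtain ⟨f⟩ := hS
  let j : H33.G2Two.Mdl (2 ^ n) →* G := ((S : Subgroup G).subtype).comp (e.trans f.symm).toMonoidHom
  have c : H33.G2Two.Cfg S j := ⟨hn, Subtype.val_injective.comp (e.trans f.symm).injective, by
    rw [MonoidHom.range_comp, MonoidHom.range_eq_top.2 (MulEquiv.surjective _),
      ← MonoidHom.range_eq_map, Subgroup.range_subtype]⟩
  haveI : Fact (Nat.Prime 2) := ⟨Nat.prime_two⟩
  have key : ∀ x : G, orderOf x = 2 →
      IsConj x (j (H33.G2Two.Mdl.zc n)) ∨ IsConj x (j H33.G2Two.Mdl.sg) := by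
    intro x hx
    have hp : IsPGroup 2 (Subgroup.zpowers x) := IsPGroup.of_card (n := 1) (by rw [Nat.card_zpowers, hx, pow_one])
    obtain ⟨W, hW⟩ := hp.exists_le_sylow
    obtain ⟨g, hg⟩ := MulAction.exists_smul_eq G W S
    have hm : g * x * g⁻¹ ∈ (S : Subgroup G) := by
      rw [← hg, Sylow.coe_subgroup_smul]
      exact Subgroup.smul_mem_pointwise_smul _ (MulAut.conj g) _ (hW (Subgroup.mem_zpowers x))
    obtain ⟨m, hm⟩ := c.exists_pre hm
    have hc : IsConj x (j m) := isConj_iff.2 ⟨g, hm.symm⟩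
    have ho : orderOf m = 2 := by
      have hh : orderOf (g * x * g⁻¹) = orderOf x := by simpa using MulEquiv.orderOf_eq (MulAut.conj g) x
      rw [← orderOf_injective j c.inj, hm, hh, hx]
    have h1 : m * m = 1 := by
      have := pow_orderOf_eq_one m
      rwa [ho, pow_two] at this
    have h2 : m ≠ 1 := fun h => by rw [h, orderOf_one] at ho; omega
    rcases c.two_classes h1 h2 with h | h
    · exact Or.inl (hc.trans h)
    · exact Or.inr (hc.trans h)
  by_cases hs : H33.G2Two.R j H33.G2Two.Mdl.sg (H33.G2Two.Mdl.zc n)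
  · left
    intro x y hx hy
    have hx' := (key x hx).elim id (fun h => h.trans hs)
    have hy' := (key y hy).elim id (fun h => h.trans hs)
    exact hx'.trans hy'.symm
  · right
    obtain rfl := c.all_or_two.resolve_left hs
    refine ⟨?_, j (H33.G2Two.Mdl.zc 2), j H33.G2Two.Mdl.sg, ?_, ?_, fun h => hs h.symm, key⟩
    · rw [← Nat.card_congr (e.trans f.symm).toEquiv, H33.G2Two.Mdl.card]; norm_num
    · rw [orderOf_injective j c.inj]
      exact orderOf_eq_prime ((sq (H33.G2Two.Mdl.zc 2)).trans c.zc_inv.1) c.zc_inv.2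
    · rw [orderOf_injective j c.inj]
      exact orderOf_eq_prime ((sq _).trans c.sg_inv.1) c.sg_inv.2.1

end Cfsg.Agent.S1743
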