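import Cfsg.Statements.S1892
import Cfsg.Agent.H59.PSolvable
import Cfsg.Agent.H74.PGroupAction

set_option autoImplicit false
open Cfsg
open scoped commutatorElement

namespace Cfsg.Agent.S1892

/-- `A` normalizes `⁅V, A⁆`. -/
theorem le_normalizer_commutator {S : Type*} [Group S] (V A : Subgroup S) :
    A ≤ Subgroup.normalizer ((⁅V, A⁆ : Subgroup S) : Set S) := by
  rw [Subgroup.commutator_comm]; exact H74.le_normalizer_commutator_left A V

/-- Let S be a finite p-solvable group with no nontrivial normal subgroup of order prime to p, A a p-subgroup of S, and Q a nontrivial A-invariant subgroup of order prime to p with [A, Q] = Q. Then the commutator [O_p(S), A, Q] is nontrivial. -/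
theorem result {S : Type*} [Group S] [Finite S] {p : ℕ} [Fact p.Prime]
    (hS : Cfsg.IsPSolvable p S) (hred : Cfsg.pPrimeCore p S = ⊥)
    (A Q : Subgroup S) (hA : IsPGroup p A) (hQ : ¬ p ∣ Nat.card Q) (hQ1 : Q ≠ ⊥)
    (hinv : ∀ a ∈ A, ∀ x ∈ Q, a * x * a⁻¹ ∈ Q) (hAQ : ⁅A, Q⁆ = Q) :
    ⁅⁅Cfsg.pCore p S, A⁆, Q⁆ ≠ ⊥ := by
  intro hbot
  haveI hVn : (pCore p S).Normal := H19.pCore_normal p S
  set V := pCore p S with hV
  set W := ⁅V, A⁆ with hW
  have hWV : W ≤ V := Subgroup.commutator_le_left V A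
  have hWQ : ∀ w ∈ W, ∀ q ∈ Q, w * q = q * w := fun w hw q hq => by
    have := Subgroup.commutator_eq_bot_iff_le_centralizer.mp hbot hw
    exact ((Subgroup.mem_centralizer_iff.mp this) q hq).symm
  -- normalizer of W acting trivially modulo W
  let T : Subgroup S :=
    { carrier := {g | g ∈ Subgroup.normalizer (W : Set S) ∧ ∀ v ∈ V, ⁅g, v⁆ ∈ W}
      one_mem' := ⟨Subgroup.one_mem _, fun v _ => by simp [W.one_mem]⟩
      mul_mem' := fun {g h} hg hh => ⟨Subgroup.mul_mem _ hg.1 hh.1, fun v hv => by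
        rw [show ⁅g * h, v⁆ = (g * ⁅h, v⁆ * g⁻¹) * ⁅g, v⁆ by simp only [commutatorElement_def]; group]
        exact W.mul_mem ((Subgroup.mem_normalizer_iff.mp hg.1 _).mp (hh.2 v hv)) (hg.2 v hv)⟩
      inv_mem' := fun {g} hg => ⟨Subgroup.inv_mem _ hg.1, fun v hv => by
        rw [show ⁅g⁻¹, v⁆ = g⁻¹ * ⁅g, v⁆⁻¹ * (g⁻¹)⁻¹ by simp only [commutatorElement_def]; group]
        exact (Subgroup.mem_normalizer_iff.mp (Subgroup.inv_mem _ hg.1) _).mp (W.inv_mem (hg.2 v hv))⟩ }
  have hWA : A ≤ Subgroup.normalizer (W : Set S) := le_normalizer_commutator V A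
  have hAT : A ≤ T := fun a ha => ⟨hWA ha, fun v hv => by
    rw [← commutatorElement_inv]; exact W.inv_mem (Subgroup.commutator_mem_commutator hv ha)⟩
  have hQN : Q ≤ Subgroup.normalizer (W : Set S) := by
    intro q hq
    rw [Subgroup.mem_normalizer_iff]
    intro w
    constructor
    · intro hw; rwa [← hWQ w hw q hq, mul_inv_cancel_right]
    · intro hw
      have := hWQ _ hw q hq
      have h2 : w = q * w * q⁻¹ := by
        calc w = q⁻¹ * (q * w * q⁻¹ * q) := by group
          _ = q⁻¹ * (q * (q * w * q⁻¹)) := by rw [this]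
          _ = _ := by group
      rw [h2]; exact hw
  have hTconj : ∀ t ∈ T, ∀ h ∈ Subgroup.normalizer (W : Set S), h * t * h⁻¹ ∈ T := fun t ht h hh =>
    ⟨Subgroup.mul_mem _ (Subgroup.mul_mem _ hh ht.1) (Subgroup.inv_mem _ hh), fun v hv => by
      rw [show ⁅h * t * h⁻¹, v⁆ = h * ⁅t, h⁻¹ * v * h⁆ * h⁻¹ by simp only [commutatorElement_def]; group]
      refine (Subgroup.mem_normalizer_iff.mp hh _).mp (ht.2 _ ?_)
      simpa using hVn.conj_mem v hv h⁻¹⟩
  have hQT : Q ≤ T := by
    rw [← hAQ, Subgroup.commutator_le]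
    intro a ha q hq
    rw [show ⁅a, q⁆ = a * (q * a⁻¹ * q⁻¹) by simp only [commutatorElement_def]; group]
    exact T.mul_mem (hAT ha) (hTconj _ (T.inv_mem (hAT ha)) q (hQN hq))
  have hQC : Q ≤ Subgroup.centralizer (V : Set S) := by
    intro q hq
    rw [Subgroup.mem_centralizer_iff]
    intro v hv
    have hd := (hQT hq).2 v hv
    exact (H74.commute_of_commutator_mem (H19.pCore_isPGroup p)
      (fun h => hQ (h.trans (Subgroup.orderOf_dvd_natCard Q hq))) (hWV hd) (hWQ _ hd q hq).symm).eq.symm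
  have hQV : Q ≤ V := hQC.trans (H59.centralizer_pCore_le_of_isPSolvable hS hred)
  apply hQ1
  obtain ⟨k, hk⟩ := IsPGroup.iff_card.mp ((H19.pCore_isPGroup (G := S) p).to_le hQV)
  rcases k with _ | k
  · exact Subgroup.eq_bot_of_card_eq _ (by simpa using hk)
  · exact absurd (hk ▸ dvd_pow_self p (Nat.succ_ne_zero k)) hQ

end Cfsg.Agent.S1892
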