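import Cfsg.Statements.S1893
import Cfsg.Agent.H59.SCNCentralizer

set_option autoImplicit false
open Cfsg
open scoped commutatorElement

namespace Cfsg.Agent.S1893

/-- Let S be a finite solvable group, π a set of primes containing neither 2 nor 3, H a Hall π-subgroup of S, and A a self-centralizing normal subgroup of the Fitting subgroup F(H). Then C_S(A) = A × D for a normal subgroup D of C_S(A) whose order has no prime divisor in π. -/
theorem result {S : Type*} [Group S] [Finite S] [Group.IsSolvable S]
    (π : Set ℕ) (h2 : 2 ∉ π) (h3 : 3 ∉ π) (H : Subgroup S) (hH : Cfsg.IsPiHall π H)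
    (A : Subgroup S) (hA : Cfsg.IsSCN ((Cfsg.fittingSubgroup H).map H.subtype) A) :
    ∃ D : Subgroup S, D ≤ Subgroup.centralizer (A : Set S) ∧
      (∀ c ∈ Subgroup.centralizer (A : Set S), ∀ d ∈ D, c * d * c⁻¹ ∈ D) ∧
      A ⊓ D = ⊥ ∧ A ⊔ D = Subgroup.centralizer (A : Set S) ∧
      ∀ q : ℕ, q.Prime → q ∣ Nat.card D → q ∉ π := by
  refine H59.centralizer_scn_decomposition π (fun r hr hrπ => ?_) H hH A hA
  rcases Nat.lt_or_ge r 5 with h | h
  · exfalso
    interval_cases r
    · exact Nat.not_prime_zero hr
    · exact Nat.not_prime_one hr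
    · exact h2 hrπ
    · exact h3 hrπ
    · norm_num at hr
  · exact h
end Cfsg.Agent.S1893
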