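import Cfsg.Statements.S1894
-- import your own Cfsg.Agent.* helpers here

set_option autoImplicit false
open Cfsg

namespace Cfsg.Agent.S1894

/-- Let P be a finite p-group, A a normal subgroup of P and B an abelian subgroup of A that is normal in P. Then some subgroup C of A containing B is normal in P and is self-centralizing and normal in A (C ∈ SCN(A)). -/
theorem result {P : Type*} [Group P] [Finite P] {p : ℕ} [Fact p.Prime] (hP : IsPGroup p P)
    (A : Subgroup P) [A.Normal] (B : Subgroup P) [B.Normal] (hBA : B ≤ A) (hB : IsMulCommutative B) :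
    ∃ C : Subgroup P, C.Normal ∧ B ≤ C ∧ Cfsg.IsSCN A C := by
  classical
  obtain ⟨C, ⟨hCn, hBC, hCA, hCc⟩, hmax⟩ : ∃ C : Subgroup P, (C.Normal ∧ B ≤ C ∧ C ≤ A ∧ IsMulCommutative C) ∧
      ∀ D : Subgroup P, (D.Normal ∧ B ≤ D ∧ D ≤ A ∧ IsMulCommutative D) → C ≤ D → D = C := by
    have hfin : {C : Subgroup P | C.Normal ∧ B ≤ C ∧ C ≤ A ∧ IsMulCommutative C}.Finite := Set.toFinite _
    obtain ⟨C, hC, hmax⟩ := hfin.exists_maximal ⟨B, inferInstance, le_rfl, hBA, hB⟩
    exact ⟨C, hC, fun D hD hCD => le_antisymm (hmax hD hCD) hCD⟩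
  haveI := hCn
  refine ⟨C, hCn, hBC, hCA, ?_, ?_⟩
  · rw [Subgroup.normalizer_eq_top]; exact le_top
  refine le_antisymm ?_ (le_inf hCA (fun c hc => Subgroup.mem_centralizer_iff.mpr fun h hh => ?_))
  swap
  · exact congrArg Subtype.val (hCc.is_comm.comm ⟨h, hh⟩ ⟨c, hc⟩)
  set D := A ⊓ Subgroup.centralizer (C : Set P) with hD
  haveI : D.Normal := inferInstance
  by_contra hle
  -- a nontrivial normal subgroup of P/C inside D/C meets the centre
  haveI : (D.map (QuotientGroup.mk' C)).Normal := Subgroup.Normal.map inferInstance _ (QuotientGroup.mk'_surjective C)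
  have hPC : IsPGroup p (P ⧸ C) := hP.to_quotient C
  obtain ⟨d, hd, hdC⟩ := SetLike.not_le_iff_exists.mp hle
  haveI : Nontrivial ↥(D.map (QuotientGroup.mk' C)) := by
    rw [Subgroup.nontrivial_iff_exists_ne_one]
    exact ⟨_, Subgroup.mem_map_of_mem _ hd, fun h => hdC ((QuotientGroup.eq_one_iff d).mp h)⟩
  obtain ⟨_, hex, ⟨e, he, rfl⟩, hecent⟩ : ∃ w : P ⧸ C, w ≠ 1 ∧ w ∈ D.map (QuotientGroup.mk' C) ∧ ∀ v, v * w = w * v := by
    set N := D.map (QuotientGroup.mk' C) with hN
    letI : MulAction (P ⧸ C) ↥N := MulAction.compHom ↥N (MulAut.conjNormal (H := N))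
    have hpN : p ∣ Nat.card ↥N := by
      obtain ⟨k, hk, hk'⟩ := (hPC.to_subgroup N).nontrivial_iff_card.mp inferInstance
      rw [hk']; exact dvd_pow_self p (by omega)
    obtain ⟨b, hb, hb1⟩ := hPC.exists_fixed_point_of_prime_dvd_card_of_fixed_point (α := ↥N) hpN
      (a := 1) (fun g => map_one (MulAut.conjNormal (H := N) g))
    refine ⟨b, fun h => hb1 (Subtype.ext h.symm), b.2, fun v => ?_⟩
    have := congrArg Subtype.val (hb v)
    change (MulAut.conjNormal v b : P ⧸ C) = b at this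
    rw [MulAut.conjNormal_apply] at this
    calc v * (b : P ⧸ C) = v * b * v⁻¹ * v := by group
      _ = b * v := by rw [this]
  set E := C ⊔ Subgroup.zpowers e with hE
  have hEn : E.Normal := by
    refine ⟨fun x hx g => ?_⟩
    have hmap : (QuotientGroup.mk' C) (g * x * g⁻¹) = (QuotientGroup.mk' C) x := by
      have hx' : (QuotientGroup.mk' C) x ∈ Subgroup.zpowers ((QuotientGroup.mk' C) e) := by
        have := Subgroup.mem_map_of_mem (QuotientGroup.mk' C) hx
        rwa [hE, Subgroup.map_sup, QuotientGroup.map_mk'_self, bot_sup_eq, MonoidHom.map_zpowers] at this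
      obtain ⟨k, hk⟩ := hx'
      have hc : Commute ((QuotientGroup.mk' C) g) ((QuotientGroup.mk' C) x) := by
        rw [← hk]; exact Commute.zpow_right (hecent _) k
      rw [map_mul, map_mul, map_inv, hc.eq]
      group
    have h2 : x⁻¹ * (g * x * g⁻¹) ∈ C := QuotientGroup.eq.mp hmap.symm
    have := E.mul_mem hx (Subgroup.mem_sup_left (T := Subgroup.zpowers e) h2)
    simpa [mul_assoc] using this
  have hecC : ∀ c ∈ C, c * e = e * c := fun c hc => Subgroup.mem_centralizer_iff.mp he.2 c hc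
  have hEc : IsMulCommutative ↥E := by
    haveI := hCc
    have h : E = Subgroup.closure ((C : Set P) ∪ {e}) := by
      rw [Subgroup.closure_union, Subgroup.closure_eq, hE, Subgroup.zpowers_eq_closure]
    rw [h]
    refine Subgroup.isMulCommutative_closure fun a ha b hb => ?_
    rcases ha with ha | ha <;> rcases hb with hb | hb
    · exact congrArg Subtype.val (hCc.is_comm.comm ⟨a, ha⟩ ⟨b, hb⟩)
    · rw [Set.mem_singleton_iff.mp hb]; exact hecC a ha
    · rw [Set.mem_singleton_iff.mp ha]; exact (hecC b hb).symm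
    · rw [Set.mem_singleton_iff.mp ha, Set.mem_singleton_iff.mp hb]
  have hEA : E ≤ A := sup_le hCA (Subgroup.zpowers_le.mpr he.1)
  have hEC := hmax E ⟨hEn, hBC.trans le_sup_left, hEA, hEc⟩ le_sup_left
  apply hex
  rw [QuotientGroup.mk'_apply, QuotientGroup.eq_one_iff, ← hEC]
  exact Subgroup.mem_sup_right (Subgroup.mem_zpowers e)

end Cfsg.Agent.S1894
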