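import Cfsg.Statements.S1897
import Cfsg.Agent.H61.PSUThreeHom

set_option autoImplicit false
open Cfsg Cfsg.Agent Cfsg.Agent.H61

namespace Cfsg.Agent.S1897

/-- The projective special unitary group PSU₃(3) (realised over the field with 9 elements) has a subgroup isomorphic to PSL₂(7). -/
theorem result {F : Type*} [Field F] [Fintype F] (hF : Fintype.card F = 9)
    {K : Type*} [Field K] [Fintype K] (hK : Fintype.card K = 7) :
    ∃ H : Subgroup (Cfsg.PSU 3 F 3), Nonempty (H ≃* Matrix.ProjectiveSpecialLinearGroup (Fin 2) K) := by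
  obtain ⟨hchar, α, hα⟩ := PSUThree.exists_root hF
  haveI := hchar
  obtain ⟨f, hf⟩ := PSUThree.exists_hom hα
  haveI : Fact (Nat.Prime 7) := ⟨by norm_num⟩
  let e : K ≃+* ZMod 7 := FiniteField.ringEquivOfCardEq (by rw [hK, ZMod.card])
  have hbij : Function.Bijective (Matrix.SpecialLinearGroup.map (n := Fin 2) (e : K →+* ZMod 7)) := by
    constructor
    · intro a b h
      ext i j
      exact e.injective (congrFun (congrFun (congrArg Subtype.val h) i) j)
    · intro b
      refine ⟨Matrix.SpecialLinearGroup.map (e.symm : ZMod 7 →+* K) b, ?_⟩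
      ext i j
      exact e.apply_symm_apply _
  let E := MulEquiv.ofBijective _ hbij
  let g := f.comp E.toMonoidHom
  have hg : g.ker = Subgroup.center (Matrix.SpecialLinearGroup (Fin 2) K) := by
    show (f.ker).comap E.toMonoidHom = _
    rw [hf]
    ext x
    rw [Subgroup.mem_comap, Subgroup.mem_center_iff, Subgroup.mem_center_iff]
    constructor
    · intro h y
      exact E.injective (by simpa using h (E y))
    · intro h y
      obtain ⟨y, rfl⟩ := E.surjective y
      simpa using congrArg E (h y)
  exact ⟨g.range, ⟨((QuotientGroup.quotientMulEquivOfEq hg.symm).trans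
    (QuotientGroup.quotientKerEquivRange g)).symm⟩⟩

end Cfsg.Agent.S1897
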