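import Cfsg.Statements.S1898
import Cfsg.Agent.H24.Power

set_option autoImplicit false
open Cfsg
open scoped commutatorElement

namespace Cfsg.Agent.S1898

/-- Let X be a finite 2-group whose derived subgroup is elementary abelian and central. Then the subgroup generated by the elements of order dividing 4 has exponent dividing 4, and every automorphism of X fixing each element of order dividing 4 has 2-power order. -/
theorem result {X : Type*} [Group X] [Finite X] (hX : IsPGroup 2 X)
    (hel : Cfsg.IsElementaryAbelian 2 (commutator X)) (hcen : commutator X ≤ Subgroup.center X) :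
    (∀ x ∈ Subgroup.closure {g : X | g ^ 4 = 1}, x ^ 4 = 1) ∧
      ∀ φ : MulAut X, (∀ g : X, g ^ 4 = 1 → φ g = g) → ∃ k : ℕ, φ ^ (2 ^ k) = 1 := by
  have hc2 : ∀ a b : X, ⁅a, b⁆ ∈ Subgroup.center X := fun a b => hcen (by
    rw [commutator_def]; exact Subgroup.commutator_mem_commutator (Subgroup.mem_top a) (Subgroup.mem_top b))
  have hsq : ∀ a b : X, ⁅a, b⁆ ^ 2 = 1 := fun a b => hel.2 _ (by
    rw [commutator_def]; exact Subgroup.commutator_mem_commutator (Subgroup.mem_top a) (Subgroup.mem_top b))
  have hmul4 : ∀ x y : X, (x * y) ^ 4 = x ^ 4 * y ^ 4 := by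
    intro x y
    rw [H24.mul_pow_of_class_two (hc2 y x), show (4 : ℕ).choose 2 = 2 * 3 from rfl, pow_mul, hsq, one_pow, mul_one]
  refine ⟨fun x hx => H24.pow_eq_one_of_mem_closure (fun a b ha hb => by rw [hmul4, ha, hb, one_mul]) hx, ?_⟩
  intro φ hφ
  have key : ∀ j : ℕ, ∀ x : X, x ^ (2 ^ (j + 2)) = 1 → (φ ^ (4 ^ j)) x = x := by
    intro j
    induction j with
    | zero => intro x hx; simpa using hφ x (by simpa using hx)
    | succ j ih =>
      intro x hx
      set ψ := φ ^ (4 ^ j) with hψ
      have hx2 : ψ (x ^ 2) = x ^ 2 := ih _ (by rw [← pow_mul, ← pow_succ']; exact hx)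
      set d := x⁻¹ * ψ x with hd
      have hψx : ψ x = x * d := by rw [hd, mul_inv_cancel_left]
      rw [map_pow, hψx, H24.mul_pow_of_class_two (hc2 d x), show (2 : ℕ).choose 2 = 1 from rfl, pow_one,
        mul_assoc, mul_eq_left] at hx2
      have hd4 : d ^ 4 = 1 := by
        rw [show (4 : ℕ) = 2 * 2 from rfl, pow_mul, eq_inv_of_mul_eq_one_left hx2, inv_pow, hsq, inv_one]
      have hfix0 : ∀ i : ℕ, (φ ^ i) d = d := by
        intro i
        induction i with
        | zero => simp
        | succ i ihi => rw [pow_succ', MulAut.mul_apply, ihi, hφ d hd4]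
      have hdfix : ψ d = d := hfix0 _
      rw [show 4 ^ (j + 1) = 4 ^ j * 4 from pow_succ 4 j, pow_mul, ← hψ]
      have e4 : (ψ ^ 4) x = x * d ^ 4 := by
        simp only [pow_succ, pow_zero, one_mul, MulAut.mul_apply, hψx, map_mul, hdfix, mul_assoc]
      rw [e4, hd4, mul_one]
  obtain ⟨n, hn⟩ := IsPGroup.iff_card.mp hX
  refine ⟨2 * n, MulEquiv.ext fun x => ?_⟩
  rw [pow_mul]
  refine key n x ?_
  rw [pow_add, pow_mul, ← hn, pow_card_eq_one', one_pow]

end Cfsg.Agent.S1898
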