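import Cfsg.Statements.S1899
-- import your own Cfsg.Agent.* helpers here

set_option autoImplicit false
open Cfsg

namespace Cfsg.Agent.S1899

/-- Let a dihedral group of order 2n, n odd and n > 1, act on a finite abelian 2-group A through automorphisms d and t with d^n = 1, t² = 1 and t d t⁻¹ = d⁻¹, and suppose that d fixes only the identity. Then A is the internal direct product of C_A(t) and its image under d. -/
theorem result {A : Type*} [CommGroup A] [Finite A] (hA : IsPGroup 2 A)
    {n : ℕ} (hn : Odd n) (hn1 : 1 < n) (d t : MulAut A) (hd : d ^ n = 1) (ht : t ^ 2 = 1) (hdt : t * d * t⁻¹ = d⁻¹)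
    (hfix : ∀ a : A, d a = a → a = 1) :
    (MulEquiv.toMonoidHom t).eqLocus (MonoidHom.id A) ⊓ ((MulEquiv.toMonoidHom t).eqLocus (MonoidHom.id A)).map d.toMonoidHom = ⊥ ∧
      (MulEquiv.toMonoidHom t).eqLocus (MonoidHom.id A) ⊔ ((MulEquiv.toMonoidHom t).eqLocus (MonoidHom.id A)).map d.toMonoidHom = ⊤ := by
  set e : A →* A := ((MulEquiv.toMonoidHom d) * (MulEquiv.toMonoidHom d⁻¹)⁻¹) with he
  have heq : ∀ a : A, e a = d a * (d⁻¹ a)⁻¹ := fun a => rfl
  have hdd : ∀ a : A, d a = d⁻¹ a → a = 1 := by
    intro a h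
    apply hfix
    have h2 : d (d a) = a := by rw [h]; exact d.apply_symm_apply a
    have hd2 : (d ^ 2) a = a := by simpa [pow_two] using h2
    obtain ⟨k, hk⟩ := hn
    have hk2 : ∀ j : ℕ, (d ^ (2 * j)) a = a := by
      intro j
      induction j with
      | zero => rfl
      | succ j ih =>
        rw [Nat.mul_succ, pow_add, MulAut.mul_apply, hd2, ih]
    have hd1 : (d ^ n) a = a := by rw [hd]; rfl
    rw [hk, pow_succ', MulAut.mul_apply, hk2] at hd1
    exact hd1
  have htd : ∀ a, t (d a) = d⁻¹ (t a) := by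
    intro a
    have := congrArg (fun f : MulAut A => f (t a)) hdt
    simp only [MulAut.mul_apply, MulAut.inv_def] at this
    simpa using this
  have htd' : ∀ a, t (d⁻¹ a) = d (t a) := by
    intro a
    have := htd (d⁻¹ a)
    rw [show d (d⁻¹ a) = a from d.apply_symm_apply a] at this
    rw [this]; exact (d.apply_symm_apply _).symm
  have htt : ∀ a, t (t a) = a := by
    intro a
    have := congrArg (fun f : MulAut A => f a) ht
    simpa [pow_two] using this
  constructor
  · rw [eq_bot_iff]
    rintro x ⟨hx, y, hy, rfl⟩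
    have hy' : t y = y := hy
    have hx' : t (d y) = d y := hx
    rw [Subgroup.mem_bot]
    rw [htd, hy'] at hx'
    show d y = 1
    rw [hdd y hx'.symm, map_one]
  · rw [eq_top_iff]
    intro a _
    have hinj : Function.Injective e := by
      rw [injective_iff_map_eq_one]
      intro x hx
      rw [heq, mul_inv_eq_one] at hx
      exact hdd x hx
    obtain ⟨y, hy⟩ := (Finite.injective_iff_surjective.mp hinj) (a * (t a)⁻¹)
    have hty : t y = y := by
      apply hinj
      have h1 := congrArg t hy
      rw [heq, map_mul, map_inv, htd, htd', map_mul, map_inv, htt] at h1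
      rw [hy, heq]
      apply inv_injective
      rw [mul_inv_rev, inv_inv, h1, mul_inv_rev, inv_inv]
    refine Subgroup.mem_sup.mpr ⟨a * (d y)⁻¹, ?_, d y, ⟨y, hty, rfl⟩, by group⟩
    show t (a * (d y)⁻¹) = a * (d y)⁻¹
    rw [map_mul, map_inv, htd, hty]
    rw [heq] at hy
    have hy2 : (d⁻¹ y)⁻¹ = a * (t a)⁻¹ * (d y)⁻¹ := by rw [← hy]; simp [mul_comm, mul_left_comm]
    rw [hy2, mul_comm a (t a)⁻¹, mul_assoc, mul_inv_cancel_left]

end Cfsg.Agent.S1899
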