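import Cfsg.Statements.S1900
import Cfsg.Agent.H59.QSquared

set_option autoImplicit false
open Cfsg
open scoped commutatorElement

namespace Cfsg.Agent.S1900

/-- Let S = PQ be a finite group with P a normal Sylow p-subgroup and Q elementary abelian of order q², q a prime different from p. If exactly two subgroups X₁, X₂ of order q in Q have a nontrivial centralizer in P, then P is the internal direct product of C_P(X₁) and C_P(X₂): they commute elementwise, meet trivially and generate P. -/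
theorem result {S : Type*} [Group S] [Finite S] {p q : ℕ} [Fact p.Prime] [Fact q.Prime] (hpq : p ≠ q)
    (P : Sylow p S) [(P : Subgroup S).Normal] (Q : Subgroup S) (hQ : Cfsg.IsElementaryAbelian q Q) (hQc : Nat.card Q = q ^ 2)
    (hS : (P : Subgroup S) ⊔ Q = ⊤)
    (X₁ X₂ : Subgroup S) (h₁ : X₁ ≤ Q) (h₂ : X₂ ≤ Q) (h₁₂ : X₁ ≠ X₂) (hc₁ : Nat.card X₁ = q) (hc₂ : Nat.card X₂ = q)
    (hf₁ : (P : Subgroup S) ⊓ Subgroup.centralizer (X₁ : Set S) ≠ ⊥)
    (hf₂ : (P : Subgroup S) ⊓ Subgroup.centralizer (X₂ : Set S) ≠ ⊥)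
    (honly : ∀ X : Subgroup S, X ≤ Q → Nat.card X = q →
      (P : Subgroup S) ⊓ Subgroup.centralizer (X : Set S) ≠ ⊥ → X = X₁ ∨ X = X₂) :
    ⁅(P : Subgroup S) ⊓ Subgroup.centralizer (X₁ : Set S), (P : Subgroup S) ⊓ Subgroup.centralizer (X₂ : Set S)⁆ = ⊥ ∧
      ((P : Subgroup S) ⊓ Subgroup.centralizer (X₁ : Set S)) ⊓ ((P : Subgroup S) ⊓ Subgroup.centralizer (X₂ : Set S)) = ⊥ ∧
      ((P : Subgroup S) ⊓ Subgroup.centralizer (X₁ : Set S)) ⊔ ((P : Subgroup S) ⊓ Subgroup.centralizer (X₂ : Set S)) = P := by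
  have hq : q.Prime := Fact.out
  haveI := hQ.1
  have hQc' : ∀ a ∈ Q, ∀ b ∈ Q, a * b = b * a := fun a ha b hb =>
    congrArg Subtype.val ((inferInstance : IsMulCommutative Q).is_comm.comm ⟨a, ha⟩ ⟨b, hb⟩)
  have gen : ∀ X : Subgroup S, X ≤ Q → Nat.card X = q → ∃ x ∈ X, orderOf x = q ∧ Subgroup.zpowers x = X := by
    intro X hX hc
    obtain ⟨⟨x, hxX⟩, hx⟩ := exists_prime_orderOf_dvd_card' (G := X) q (hc ▸ dvd_rfl)
    rw [← Subgroup.orderOf_coe] at hx
    refine ⟨x, hxX, hx, Subgroup.eq_of_le_of_card_ge (Subgroup.zpowers_le.mpr hxX) ?_⟩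
    rw [hc, Nat.card_zpowers, hx]
  obtain ⟨x, hxX, hxo, hx⟩ := gen X₁ h₁ hc₁
  obtain ⟨y, hyX, hyo, hy⟩ := gen X₂ h₂ hc₂
  have hcz : ∀ a : S, Subgroup.centralizer ((Subgroup.zpowers a : Subgroup S) : Set S) = Subgroup.centralizer ({a} : Set S) :=
    fun a => by rw [Subgroup.zpowers_eq_closure, Subgroup.centralizer_closure]
  have hcard : ∀ a ∈ Q, a ≠ 1 → Nat.card (Subgroup.zpowers a) = q := fun a ha ha1 => by
    rw [Nat.card_zpowers]
    exact orderOf_eq_prime (hQ.2 a ha) ha1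
  have hcase : ∀ a ∈ Q, a ≠ 1 → (P : Subgroup S) ⊓ Subgroup.centralizer {a} = ⊥ ∨
      Subgroup.centralizer ({a} : Set S) = Subgroup.centralizer ({x} : Set S) ∨
      Subgroup.centralizer ({a} : Set S) = Subgroup.centralizer ({y} : Set S) := by
    intro a ha ha1
    by_cases h : (P : Subgroup S) ⊓ Subgroup.centralizer ({a} : Set S) = ⊥
    · exact Or.inl h
    · rw [← hcz] at h
      rcases honly _ (Subgroup.zpowers_le.mpr ha) (hcard a ha ha1) h with e | e
      · right; left; rw [← hcz, ← hcz x, e, hx]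
      · right; right; rw [← hcz, ← hcz y, e, hy]
  -- a third line: `x * y`
  have hxy1 : x * y ≠ 1 := fun h => h₁₂ (by
    rw [← hx, ← hy, eq_inv_of_mul_eq_one_left h, Subgroup.zpowers_inv])
  have hne : ∀ Z : Subgroup S, Nat.card Z = q → Subgroup.zpowers (x * y) = Z → x ∈ Z → y ∈ Z → False := by
    intro Z hZ _ hxZ hyZ
    have e : ∀ u : S, u ∈ Z → orderOf u = q → Subgroup.zpowers u = Z := fun u hu ho =>
      Subgroup.eq_of_le_of_card_ge (Subgroup.zpowers_le.mpr hu) (by rw [hZ, Nat.card_zpowers, ho])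
    exact h₁₂ (by rw [← hx, ← hy, e x hxZ hxo, e y hyZ hyo])
  have hfix : (P : Subgroup S) ⊓ Subgroup.centralizer {x} ⊓ Subgroup.centralizer {y} = ⊥ := by
    by_contra h
    have hle : (P : Subgroup S) ⊓ Subgroup.centralizer {x} ⊓ Subgroup.centralizer {y} ≤
        (P : Subgroup S) ⊓ Subgroup.centralizer ((Subgroup.zpowers (x * y) : Subgroup S) : Set S) := by
      rintro u ⟨⟨hu, hux⟩, huy⟩
      refine ⟨hu, ?_⟩
      rw [hcz]
      show u ∈ Subgroup.centralizer ({x * y} : Set S)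
      rw [Subgroup.mem_centralizer_singleton_iff]
      have c1 : Commute u x := Subgroup.mem_centralizer_singleton_iff.mp hux
      exact (c1.mul_right (Subgroup.mem_centralizer_singleton_iff.mp huy)).eq
    have hm : x * y ∈ Q := Q.mul_mem (h₁ hxX) (h₂ hyX)
    rcases honly _ (Subgroup.zpowers_le.mpr hm) (hcard _ hm hxy1) (fun h0 => h (le_bot_iff.mp (h0 ▸ hle))) with e | e
    · refine hne X₁ hc₁ e hxX ?_
      have := X₁.mul_mem (X₁.inv_mem hxX) (e ▸ Subgroup.mem_zpowers (x * y))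
      rwa [inv_mul_cancel_left] at this
    · refine hne X₂ hc₂ e ?_ hyX
      have := X₂.mul_mem (e ▸ Subgroup.mem_zpowers (x * y)) (X₂.inv_mem hyX)
      rwa [mul_inv_cancel_right] at this
  have hnc : ¬ IsCyclic Q := by
    intro hc
    obtain ⟨g, hg⟩ := hc.exists_zpow_surjective
    have h1 : Nat.card Q ≤ q := by
      rw [← orderOf_eq_card_of_forall_mem_zpowers (g := g) hg]
      exact Nat.le_of_dvd hq.pos (orderOf_dvd_of_pow_eq_one (Subtype.ext (by simpa using hQ.2 g g.2)))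
    rw [hQc] at h1
    nlinarith [hq.two_le]
  have hcop : (Nat.card Q).Coprime (Nat.card (P : Subgroup S)) := by
    obtain ⟨k, hk⟩ := IsPGroup.iff_card.mp P.2
    rw [hQc, hk]
    exact ((Nat.coprime_primes hq (Fact.out : p.Prime)).mpr hpq.symm).pow 2 k
  have hgen : ∀ H : Subgroup S, H ≤ P → Q ≤ Subgroup.normalizer (H : Set S) →
      H ≤ (H ⊓ Subgroup.centralizer ({x} : Set S)) ⊔ (H ⊓ Subgroup.centralizer ({y} : Set S)) := by
    intro H hH hQH
    refine H20.le_of_centralizers_le hnc hQH (hcop.coprime_dvd_right (Subgroup.card_dvd_of_le hH)) fun a ha ha1 => ?_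
    rcases hcase a ha ha1 with h | h | h
    · exact ((inf_le_inf_right _ hH).trans h.le).trans bot_le
    · exact h ▸ le_sup_left
    · exact h ▸ le_sup_right
  have hQP : Q ≤ Subgroup.normalizer ((P : Subgroup S) : Set S) := by rw [Subgroup.normalizer_eq_top]; exact le_top
  rw [← hx, ← hy, hcz, hcz]
  refine ⟨H59.commutator_fixedPoints_eq_bot (P.2.isNilpotent) hQP (h₁ hxX) (h₂ hyX) hfix hgen, ?_,
    le_antisymm (sup_le inf_le_left inf_le_left) (hgen _ le_rfl hQP)⟩
  rw [← hfix, inf_assoc ((P : Subgroup S)), inf_left_comm (Subgroup.centralizer {x}), ← inf_assoc, inf_idem, inf_assoc]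

end Cfsg.Agent.S1900
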