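import Cfsg.Statements.S1901
import Cfsg.Agent.H59.PSolvable

set_option autoImplicit false
open Cfsg
open scoped commutatorElement

namespace Cfsg.Agent.S1901

/-- The centralizer is normal in the normalizer. -/
theorem centralizer_subgroupOf_normalizer_normal {G : Type*} [Group G] (Q : Subgroup G) :
    ((Subgroup.centralizer (Q : Set G)).subgroupOf (Subgroup.normalizer (Q : Set G))).Normal := by
  refine ⟨fun c hc n => ?_⟩
  rw [Subgroup.mem_subgroupOf] at hc ⊢
  rw [Subgroup.mem_centralizer_iff] at hc ⊢
  intro q hq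
  have hq' : (n : G)⁻¹ * q * n ∈ Q := by
    have := (Subgroup.mem_normalizer_iff.mp (Subgroup.inv_mem _ n.2) q).mp hq
    simpa using this
  have := hc _ hq'
  simp only [Subgroup.coe_mul, Subgroup.coe_inv]
  calc q * ((n : G) * c * (n : G)⁻¹) = (n : G) * ((n : G)⁻¹ * q * n * c) * (n : G)⁻¹ := by group
    _ = (n : G) * (c * ((n : G)⁻¹ * q * n)) * (n : G)⁻¹ := by rw [this]
    _ = _ := by group

/-- Let G be a finite p-solvable group and Q a subgroup of order prime to p such that p divides the index of C_G(Q) in N_G(Q). Then Q normalizes no Sylow p-subgroup of G. -/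
theorem result {G : Type*} [Group G] [Finite G] {p : ℕ} [Fact p.Prime]
    (hG : Cfsg.IsPSolvable p G) (Q : Subgroup G) (hQ : ¬ p ∣ Nat.card Q)
    (hA : p ∣ (Subgroup.centralizer (Q : Set G)).relIndex (Subgroup.normalizer (Q : Set G)))
    (P : Sylow p G) : ¬ Q ≤ Subgroup.normalizer ((P : Subgroup G) : Set G) := by
  intro hQP
  classical
  set N := Subgroup.normalizer (Q : Set G) with hN
  set C := Subgroup.centralizer (Q : Set G) with hC
  haveI hCn : (C.subgroupOf N).Normal := centralizer_subgroupOf_normalizer_normal Q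
  obtain ⟨T⟩ : Nonempty (Sylow p N) := inferInstance
  obtain ⟨g, hgT, hgC⟩ : ∃ g : N, g ∈ T ∧ (g : G) ∉ C := by
    by_contra hcon
    push Not at hcon
    have hle : (T : Subgroup N) ≤ C.subgroupOf N := fun g hg => hcon g hg
    exact T.not_dvd_index (hA.trans (Subgroup.index_dvd_of_le hle))
  obtain ⟨a, ha⟩ : ∃ a : ℕ, (g : G) ^ p ^ a = 1 := by
    obtain ⟨a, ha⟩ := T.2 ⟨g, hgT⟩
    exact ⟨a, by simpa using congrArg (fun z : (T : Subgroup N) => ((z : N) : G)) ha⟩
  obtain ⟨n, H, h0, hlast, hmono, hnormal, hstep⟩ := hG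
  have key : ∀ i : Fin (n + 1), ∀ q ∈ Q, ⁅(g : G), q⁆ ∈ H i := by
    intro i
    induction i using Fin.reverseInduction with
    | last => intro q _; rw [hlast]; trivial
    | cast j ih =>
      haveI := hnormal j.castSucc
      haveI := hnormal j.succ
      intro q hq
      set c := ⁅(g : G), q⁆ with hc
      have hcQ : c ∈ Q := by
        rw [hc, commutatorElement_def]
        exact Q.mul_mem ((Subgroup.mem_normalizer_iff.mp g.2 q).mp hq) (Q.inv_mem hq)
      have hcH : c ∈ H j.succ := ih q hq
      set π := QuotientGroup.mk' (H j.castSucc) with hπ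
      rw [← QuotientGroup.eq_one_iff]
      show π c = 1
      have hordc : (orderOf (π c)).Coprime p :=
        (((Nat.Prime.coprime_iff_not_dvd Fact.out).mpr fun h => hQ (h.trans ((orderOf_map_dvd π c).trans
          (Subgroup.orderOf_dvd_natCard Q hcQ)))).symm)
      have hmk : ∀ z ∈ H j.succ, orderOf (π z) ∣ (H j.castSucc).relIndex (H j.succ) := by
        intro z hz
        rw [Subgroup.relIndex, Subgroup.index]
        have h1 : ((⟨z, hz⟩ : H j.succ) : H j.succ ⧸ (H j.castSucc).subgroupOf (H j.succ)) ^
            Nat.card (H j.succ ⧸ (H j.castSucc).subgroupOf (H j.succ)) = 1 := pow_card_eq_one'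
        apply orderOf_dvd_of_pow_eq_one
        rw [← QuotientGroup.mk_pow, QuotientGroup.eq_one_iff, Subgroup.mem_subgroupOf] at h1
        rw [← map_pow, hπ, QuotientGroup.mk'_apply, QuotientGroup.eq_one_iff]
        exact h1
      rcases hstep j with ⟨m, hm⟩ | hcop
      · rw [← orderOf_eq_one_iff]
        exact Nat.Coprime.eq_one_of_dvd (Nat.Coprime.coprime_dvd_right (hm ▸ hmk c hcH) (hordc.pow_right m)) dvd_rfl
      · set R := (Q ⊓ H j.succ).map π with hR
        set CR := Subgroup.centralizer (R : Set (G ⧸ H j.castSucc)) with hCR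
        set NR := Subgroup.normalizer (R : Set (G ⧸ H j.castSucc)) with hNR
        have hgN : π g ∈ NR := by
          rw [hNR]
          refine Subgroup.le_normalizer_map π ⟨_, ?_, rfl⟩
          rw [SetLike.mem_coe, Subgroup.mem_normalizer_iff]
          intro z
          rw [Subgroup.mem_inf, Subgroup.mem_inf, ← Subgroup.mem_normalizer_iff.mp g.2 z]
          refine and_congr Iff.rfl ⟨fun h => (hnormal j.succ).conj_mem z h g, fun h => ?_⟩
          simpa [mul_assoc] using (hnormal j.succ).conj_mem _ h (g : G)⁻¹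
        have hPC : (P : Subgroup G).map π ≤ CR := by
          rintro _ ⟨x, hx, rfl⟩
          rw [hCR, Subgroup.mem_centralizer_iff]
          rintro _ ⟨z, hz, rfl⟩
          rw [← map_mul, ← map_mul]
          have hd : z * x * z⁻¹ * x⁻¹ ∈ H j.succ ⊓ (P : Subgroup G) := by
            refine ⟨?_, Subgroup.mul_mem _ ((Subgroup.mem_normalizer_iff.mp (hQP hz.1) x).mp hx) (Subgroup.inv_mem _ hx)⟩
            rw [show z * x * z⁻¹ * x⁻¹ = z * (x * z⁻¹ * x⁻¹) by group]
            exact Subgroup.mul_mem _ hz.2 ((hnormal j.succ).conj_mem _ (Subgroup.inv_mem _ hz.2) x)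
          have hd1 : π (z * x * z⁻¹ * x⁻¹) = 1 := by
            rw [← orderOf_eq_one_iff]
            obtain ⟨k, hk⟩ := P.2 ⟨_, hd.2⟩
            have hk' : (z * x * z⁻¹ * x⁻¹) ^ p ^ k = 1 := by simpa using congrArg Subtype.val hk
            exact Nat.Coprime.eq_one_of_dvd
              (Nat.Coprime.coprime_dvd_left (hmk _ hd.1) (hcop.pow_right k))
              (orderOf_dvd_of_pow_eq_one (by rw [← map_pow, hk', map_one]))
          calc π (z * x) = π (z * x * z⁻¹ * x⁻¹) * π (x * z) := by rw [← map_mul]; congr 1; group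
            _ = π (x * z) := by rw [hd1, one_mul]
        haveI : (CR.subgroupOf NR).Normal := centralizer_subgroupOf_normalizer_normal R
        have hidx : ¬ p ∣ (CR.subgroupOf NR).index := by
          intro h
          apply (P.mapSurjective (f := π) (QuotientGroup.mk'_surjective _)).not_dvd_index
          rw [Sylow.coe_mapSurjective]
          exact h.trans ((Subgroup.relIndex_dvd_of_le_left _ hPC).trans
            (Subgroup.relIndex_dvd_index_of_le (hPC.trans (Subgroup.centralizer_le_normalizer _))))
        have hgC' := H59.mem_of_normal_index_coprime hidx (g := (⟨π g, hgN⟩ : NR)) (k := a)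
          (Subtype.ext (by simp [← map_pow, ha]))
        have hcomm : Commute (π g) (π c) := by
          rw [Subgroup.mem_subgroupOf, hCR, Subgroup.mem_centralizer_iff] at hgC'
          exact (hgC' _ ⟨c, ⟨hcQ, hcH⟩, rfl⟩).symm
        have hconj : π g * π q * (π g)⁻¹ = π c * π q := by
          rw [← map_inv, ← map_mul, ← map_mul, ← map_mul, hc, commutatorElement_def]; congr 1; group
        have hit : ∀ k : ℕ, π g ^ k * π q * (π g ^ k)⁻¹ = π c ^ k * π q := by
          intro k
          induction k with
          | zero => simp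
          | succ k ihk =>
            calc π g ^ (k + 1) * π q * (π g ^ (k + 1))⁻¹ = π g * (π g ^ k * π q * (π g ^ k)⁻¹) * (π g)⁻¹ := by
                  simp only [pow_succ', mul_inv_rev, mul_assoc]
              _ = (π g * π c ^ k * (π g)⁻¹) * (π g * π q * (π g)⁻¹) := by rw [ihk]; group
              _ = π c ^ k * (π c * π q) := by rw [hconj, (hcomm.pow_right k).eq, mul_inv_cancel_right]
              _ = π c ^ (k + 1) * π q := by rw [pow_succ, mul_assoc]
        have h1 := hit (p ^ a)
        rw [← map_pow, ha, map_one, one_mul, inv_one, mul_one, right_eq_mul] at h1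
        rw [← orderOf_eq_one_iff]
        exact Nat.Coprime.eq_one_of_dvd (hordc.pow_right a) (orderOf_dvd_of_pow_eq_one h1)
  apply hgC
  rw [hC, Subgroup.mem_centralizer_iff]
  intro q hq
  have := key 0 q hq
  rw [h0, Subgroup.mem_bot, commutatorElement_eq_one_iff_mul_comm] at this
  exact this.symm

end Cfsg.Agent.S1901
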