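import Cfsg.Statements.S1905
import Mathlib
import Cfsg.Agent.H60.Dihedral

set_option autoImplicit false
open Cfsg

namespace Cfsg.Agent.S1905

/-- Let M be a subgroup of even order of a finite group S such that M contains the centralizer in S of each of its involutions and the normal core of M in S has odd order. Then all involutions of S are conjugate. If moreover N_S(X) ≤ M for a Sylow 2-subgroup X of M and I is an involution in the centre of X, then all involutions of M are conjugate in M and M = M₀ C_M(I) for some subgroup M₀ of M of odd order. -/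
theorem result {S : Type*} [Group S] [Finite S] (M : Subgroup S) (hM : Even (Nat.card M))
    (hC : ∀ i ∈ M, orderOf i = 2 → Subgroup.centralizer ({i} : Set S) ≤ M) (hcore : Odd (Nat.card M.normalCore)) :
    (∀ x y : S, orderOf x = 2 → orderOf y = 2 → IsConj x y) ∧
      ∀ (X : Sylow 2 M) (I : M), I ∈ (Subgroup.center ↥(X : Subgroup ↥M)).map (X : Subgroup ↥M).subtype → orderOf I = 2 →
        Subgroup.normalizer (((X : Subgroup M).map M.subtype : Subgroup S) : Set S) ≤ M →
        (∀ x y : M, orderOf x = 2 → orderOf y = 2 → IsConj x y) ∧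
          ∃ M₀ : Subgroup M, Odd (Nat.card M₀) ∧
            ∀ m : M, ∃ a ∈ M₀, ∃ c ∈ Subgroup.centralizer ({I} : Set M), m = a * c := by
  classical
  have hMne : ∀ {y : S}, y ∈ M → orderOf y = 2 → ∃ x : S, IsConj y x ∧ x ∉ M := by
    intro y hy hy2
    by_contra hno
    push Not at hno
    have hle : y ∈ M.normalCore := by
      show ∀ b : S, b * y * b⁻¹ ∈ M
      exact fun b => hno _ (isConj_iff.2 ⟨b, rfl⟩)
    have h1 : 2 ∣ Nat.card M.normalCore := by
      have h := orderOf_dvd_natCard (⟨y, hle⟩ : M.normalCore)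
      rwa [← Subgroup.orderOf_coe, hy2] at h
    exact (Nat.not_even_iff_odd.2 hcore) (even_iff_two_dvd.2 h1)
  have hcross : ∀ x y : S, orderOf x = 2 → orderOf y = 2 → x ∈ M → y ∉ M → IsConj x y := by
    intro x y hx hy hxM hyM
    have hx2 := H60.inv_mul_self hx
    have hy2 := H60.inv_mul_self hy
    by_cases hev : Even (orderOf (x * y))
    · obtain ⟨k, hk2, hkx, hky⟩ := H60.exists_invol_of_even_prod hx2 hy2 hev
      have hkM : (x * y) ^ k ∈ M := hC x hxM hx (Subgroup.mem_centralizer_singleton_iff.2 hkx.eq)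
      exact absurd (hC _ hkM hk2 (Subgroup.mem_centralizer_singleton_iff.2 hky.eq.symm)) hyM
    · obtain ⟨k, hk⟩ := H60.conj_of_odd_prod hx2 hy2 (Nat.not_even_iff_odd.1 hev)
      exact isConj_iff.2 ⟨_, hk⟩
  obtain ⟨⟨y0, hy0M⟩, hy0⟩ := exists_prime_orderOf_dvd_card' 2 (even_iff_two_dvd.1 hM)
  rw [← Subgroup.orderOf_coe] at hy0
  obtain ⟨x0, hyx, hx0M⟩ := hMne hy0M hy0
  have hx0 : orderOf x0 = 2 := by
    obtain ⟨c, rfl⟩ := isConj_iff.1 hyx
    rw [← hy0]
    exact (MulEquiv.orderOf_eq (MulAut.conj c) y0)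
  have hall : ∀ x y : S, orderOf x = 2 → orderOf y = 2 → IsConj x y := by
    have h0 : ∀ x : S, orderOf x = 2 → IsConj x y0 := by
      intro x hx
      by_cases hxM : x ∈ M
      · exact (hcross x x0 hx hx0 hxM hx0M).trans hyx.symm
      · exact (hcross y0 x hy0 hx hy0M hxM).symm
    exact fun x y hx hy => (h0 x hx).trans (h0 y hy).symm
  refine ⟨hall, fun X I hI hI2 hN => ?_⟩
  have hI2' : orderOf (I : S) = 2 := by rwa [Subgroup.orderOf_coe]
  -- key: an involution of `M` conjugated into `M` is conjugated by an element of `M`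
  set XS : Subgroup S := (X : Subgroup M).map M.subtype with hXS
  obtain ⟨IX, hIXc, hIXe⟩ := hI
  simp only [Subgroup.coe_subtype] at hIXe
  have hXC : XS ≤ Subgroup.centralizer ({(I : S)} : Set S) := by
    rintro _ ⟨y, hy, rfl⟩
    rw [Subgroup.mem_centralizer_singleton_iff]
    have := congrArg (fun v : (X : Subgroup M) => ((v : M) : S)) (Subgroup.mem_center_iff.1 hIXc ⟨y, hy⟩)
    simpa [hIXe] using this
  have key : ∀ J : S, J ∈ M → orderOf J = 2 → ∀ g : S, g⁻¹ * J * g ∈ M → g ∈ M := by
    intro J hJ hJ2 g hg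
    have hpJ : IsPGroup 2 (Subgroup.zpowers (⟨J, hJ⟩ : M)) :=
      IsPGroup.of_card (n := 1) (by rw [Nat.card_zpowers, ← Subgroup.orderOf_coe, hJ2, pow_one])
    obtain ⟨T, hT⟩ := hpJ.exists_le_sylow
    obtain ⟨m, hm⟩ := MulAction.exists_smul_eq M X T
    set y : S := (m : S) * (I : S) * (m : S)⁻¹ with hy
    have hyM : y ∈ M := M.mul_mem (M.mul_mem m.2 I.2) (M.inv_mem m.2)
    have hy2 : orderOf y = 2 := by rw [← hI2']; exact MulEquiv.orderOf_eq (MulAut.conj (m : S)) (I : S)
    have hmT : ∀ v : M, v ∈ (X : Subgroup M) → m * v * m⁻¹ ∈ (T : Subgroup M) := by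
      intro v hv
      rw [← hm, Sylow.coe_subgroup_smul]
      exact ⟨v, hv, rfl⟩
    have hmT' : ∀ v : M, v ∈ (T : Subgroup M) → m⁻¹ * v * m ∈ (X : Subgroup M) := by
      intro v hv
      rw [← hm, Sylow.coe_subgroup_smul] at hv
      obtain ⟨w, hw, rfl⟩ := hv
      simpa [mul_assoc] using (show w ∈ (X : Subgroup M) from hw)
    have hyC : ∀ v : M, v ∈ (T : Subgroup M) → (v : S) * y = y * (v : S) := by
      intro v hv
      have h := Subgroup.mem_centralizer_singleton_iff.1 (hXC ⟨_, hmT' v hv, rfl⟩)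
      simp only [Subgroup.coe_subtype, Subgroup.coe_mul, Subgroup.coe_inv] at h
      calc (v : S) * y = (m : S) * (((m : S)⁻¹ * v * m) * I) * (m : S)⁻¹ := by rw [hy]; group
        _ = (m : S) * ((I : S) * ((m : S)⁻¹ * v * m)) * (m : S)⁻¹ := by rw [h]
        _ = y * (v : S) := by rw [hy]; group
    -- `y` commutes with `J`, hence lies in `g M g⁻¹`, hence so does `T`
    have hg2 : orderOf (g⁻¹ * J * g) = 2 := by
      rw [← hJ2]; simpa using MulEquiv.orderOf_eq (MulAut.conj g⁻¹) J
    have hyJ : g⁻¹ * y * g ∈ M := by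
      apply hC _ hg hg2
      rw [Subgroup.mem_centralizer_singleton_iff]
      have h := hyC ⟨J, hJ⟩ (hT (Subgroup.mem_zpowers _))
      calc g⁻¹ * y * g * (g⁻¹ * J * g) = g⁻¹ * (y * J) * g := by group
        _ = g⁻¹ * (J * y) * g := by rw [show (J * y) = y * J from h]
        _ = g⁻¹ * J * g * (g⁻¹ * y * g) := by group
    have hgy2 : orderOf (g⁻¹ * y * g) = 2 := by
      rw [← hy2]; simpa using MulEquiv.orderOf_eq (MulAut.conj g⁻¹) y
    let e : S ≃* S := MulAut.conj (g⁻¹ * (m : S))
    have hXg : XS.map e.toMonoidHom ≤ M := by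
      rintro _ ⟨_, ⟨v, hv, rfl⟩, rfl⟩
      apply hC _ hyJ hgy2
      rw [Subgroup.mem_centralizer_singleton_iff]
      have h := hyC _ (hmT v hv)
      simp only [Subgroup.coe_mul, Subgroup.coe_inv] at h
      simp only [e, MulEquiv.coe_toMonoidHom, MulAut.conj_apply, Subgroup.coe_subtype]
      calc g⁻¹ * (m : S) * (v : S) * (g⁻¹ * (m : S))⁻¹ * (g⁻¹ * y * g)
          = g⁻¹ * (((m : S) * v * (m : S)⁻¹) * y) * g := by group
        _ = g⁻¹ * (y * ((m : S) * v * (m : S)⁻¹)) * g := by rw [h]
        _ = g⁻¹ * y * g * (g⁻¹ * (m : S) * (v : S) * (g⁻¹ * (m : S))⁻¹) := by group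
    -- a second Sylow subgroup of `M`
    set X' : Subgroup M := (XS.map e.toMonoidHom).subgroupOf M with hX'
    have hcard : Nat.card X' = Nat.card (X : Subgroup M) := by
      rw [hX', Nat.card_congr (Subgroup.subgroupOfEquivOfLe hXg).toEquiv,
        Subgroup.card_map_of_injective e.injective, hXS,
        Subgroup.card_map_of_injective M.subtype_injective]
    have hX'syl : Nat.card X' = 2 ^ (Nat.card M).factorization 2 := by
      rw [hcard]; exact X.card_eq_multiplicity
    obtain ⟨n, hn⟩ := MulAction.exists_smul_eq M X (Sylow.ofCard X' hX'syl)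
    have hconj : XS.map (MulAut.conj (n : S)).toMonoidHom = XS.map e.toMonoidHom := by
      have h1 := congrArg (fun Q : Sylow 2 M => (Q : Subgroup M).map M.subtype) hn
      simp only [Sylow.coe_subgroup_smul, Sylow.coe_ofCard, hX', Subgroup.subgroupOf_map_subtype,
        inf_eq_left.2 hXg] at h1
      rw [← h1, hXS, Subgroup.pointwise_smul_def, Subgroup.map_map]
      erw [Subgroup.map_map]
      rfl
    have hnorm : ((n : S)⁻¹ * (g⁻¹ * (m : S))) ∈ Subgroup.normalizer (XS : Set S) := by
      rw [Subgroup.mem_normalizer_iff]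
      intro v
      constructor
      · intro hv
        have h2 : (e.toMonoidHom v) ∈ XS.map (MulAut.conj (n : S)).toMonoidHom :=
          hconj ▸ Subgroup.mem_map_of_mem _ hv
        obtain ⟨w, hw, hwe⟩ := h2
        simp only [e, MulEquiv.coe_toMonoidHom, MulAut.conj_apply] at hwe
        have : w = (n : S)⁻¹ * (g⁻¹ * (m : S)) * v * ((n : S)⁻¹ * (g⁻¹ * (m : S)))⁻¹ := by
          calc w = (n : S)⁻¹ * ((n : S) * w * (n : S)⁻¹) * n := by group
            _ = _ := by rw [hwe]; group
        exact this ▸ hw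
      · intro hv
        have h2 := Subgroup.mem_map_of_mem (MulAut.conj (n : S)).toMonoidHom hv
        rw [hconj] at h2
        obtain ⟨w, hw, hwe⟩ := h2
        have : e.toMonoidHom w = e.toMonoidHom v := by
          rw [hwe]
          simp only [e, MulEquiv.coe_toMonoidHom, MulAut.conj_apply]
          group
        exact e.injective this ▸ hw
    have h3 := hN hnorm
    have h4 : g⁻¹ ∈ M := by
      have := M.mul_mem (M.mul_mem n.2 h3) (M.inv_mem m.2)
      simpa [mul_assoc] using this
    simpa using M.inv_mem h4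
  have hIP : H60.IsolatedPoint (I : S) M := by
    refine ⟨hI2', fun g => ⟨key I I.2 hI2' g, fun hg => M.mul_mem (M.mul_mem (M.inv_mem hg) I.2) hg⟩, ?_⟩
    intro b _ hbM w hw hw2 hwb _
    exact hbM (hC w hw hw2 (Subgroup.mem_centralizer_singleton_iff.2 hwb.eq.symm))
  constructor
  · intro x y hx hy
    rw [← Subgroup.orderOf_coe] at hx hy
    obtain ⟨g, hg⟩ := isConj_iff.1 (hall x y hx hy)
    have hgM : g⁻¹ ∈ M := key x x.2 hx g⁻¹ (by rw [inv_inv, hg]; exact y.2)
    refine isConj_iff.2 ⟨⟨g, by simpa using M.inv_mem hgM⟩, Subtype.ext ?_⟩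
    simpa using hg
  · obtain ⟨t, ht, htM⟩ := hMne I.2 hI2'
    have ht2 := hIP.sq_one ht
    have hti : t⁻¹ = t := inv_eq_of_mul_eq_one_right ht2
    let D : Subgroup M := (M.map (MulAut.conj t).toMonoidHom).subgroupOf M
    have hD : ∀ d : M, d ∈ D ↔ t * (d : S) * t ∈ M := by
      intro d
      simp only [D, Subgroup.mem_subgroupOf, Subgroup.mem_map, MulEquiv.coe_toMonoidHom, MulAut.conj_apply,
        hti]
      constructor
      · rintro ⟨v, hv, hve⟩
        rw [← hve, ← mul_assoc, ← mul_assoc, ht2, one_mul, mul_assoc, ht2, mul_one]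
        exact hv
      · intro hd
        exact ⟨_, hd, by rw [← mul_assoc, ← mul_assoc, ht2, one_mul, mul_assoc, ht2, mul_one]⟩
    refine ⟨D, ?_, fun m => ?_⟩
    · by_contra hev
      rw [Nat.not_odd_iff_even, even_iff_two_dvd] at hev
      obtain ⟨⟨d, hd⟩, hd2⟩ := exists_prime_orderOf_dvd_card' 2 hev
      rw [← Subgroup.orderOf_coe, ← Subgroup.orderOf_coe] at hd2
      exact htM (key d d.2 hd2 t (by rw [hti]; exact (hD d).1 hd))
    · have hm : t * (m : S) ∉ M := fun h => htM ((M.mul_mem_cancel_right m.2).1 h)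
      obtain ⟨b, hb, hbM, hbc⟩ := hIP.exists_mem_coset hm
      have hcM : (t * (m : S))⁻¹ * b ∈ M := hIP.centralizer_le hbc
      let c : M := ⟨_, hcM⟩
      refine ⟨m * c, ?_, c⁻¹, ?_, by group⟩
      · rw [hD]
        have he : ((m * c : M) : S) = t * b := by
          simp only [c, Subgroup.coe_mul, mul_inv_rev, hti]; group
        rw [he, ← mul_assoc t t b, ht2, one_mul]
        have h1 := M.inv_mem (m * c).2
        rw [he, mul_inv_rev, hti, inv_eq_of_mul_eq_one_right (hIP.sq_one hb)] at h1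
        exact h1
      · apply Subgroup.inv_mem
        rw [Subgroup.mem_centralizer_singleton_iff] at hbc ⊢
        exact Subtype.ext hbc

end Cfsg.Agent.S1905
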