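import Cfsg.Statements.S1906
import Cfsg.Agent.H60.ThreeDimTwoGroup

set_option autoImplicit false
open Cfsg

namespace Cfsg.Agent.S1906

/-- Let G be a finite group with no subgroup of index 2 whose Sylow 2-subgroup X embeds in GL₃(F) for a finite field F of odd order. If X contains an elementary abelian subgroup of order 8, then X is abelian. -/
theorem result {G : Type*} [Group G] [Finite G] (hG : ∀ H : Subgroup G, H.index ≠ 2) (X : Sylow 2 G)
    {F : Type*} [Field F] [Fintype F] (hF : Odd (Fintype.card F))
    (f : ↥(X : Subgroup G) →* GL (Fin 3) F) (hf : Function.Injective f)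
    (E : Subgroup G) (hE : E ≤ (X : Subgroup G)) (hEa : Cfsg.IsElementaryAbelian 2 E) (hE8 : Nat.card E = 8) :
    IsMulCommutative (X : Subgroup G) := by
  exact Cfsg.Agent.H60.ThreeDim.isMulCommutative_sylow hG X hF f hf E hE hEa hE8

end Cfsg.Agent.S1906
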