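import Cfsg.Statements.S1907
import Mathlib
import Cfsg.Prelude.Def_CaseTheorems
import Cfsg.Agent.H19.Cores
import Cfsg.Agent.H22.PResidual
import Cfsg.Agent.H56.Coprime
import Cfsg.Agent.H86.Basic

set_option autoImplicit false
open Cfsg

namespace Cfsg.Agent.S1907

/-- Let P be a Sylow p-subgroup of a finite group G, H = P ∩ O_{p',p}(G), N = N_G(H) and D = O_{p'}(G). (a) If y is an element of p-power order of N and d ∈ D with d⁻¹ y d ∈ N, then d = d₁ d₂ with d₁ ∈ C_D(y) and d₂ ∈ C_D(H). (b) Two elements of P that are conjugate in G are conjugate in N. -/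
theorem result {G : Type*} [Group G] [Finite G] {p : ℕ} [Fact p.Prime] (P : Sylow p G) :
    (∀ y ∈ Subgroup.normalizer (((P : Subgroup G) ⊓ Cfsg.pPrimePCore p G : Subgroup G) : Set G), (∃ k : ℕ, orderOf y = p ^ k) →
      ∀ d ∈ Cfsg.pPrimeCore p G, d⁻¹ * y * d ∈ Subgroup.normalizer (((P : Subgroup G) ⊓ Cfsg.pPrimePCore p G : Subgroup G) : Set G) →
        ∃ d₁ ∈ Cfsg.pPrimeCore p G ⊓ Subgroup.centralizer ({y} : Set G),
          ∃ d₂ ∈ Cfsg.pPrimeCore p G ⊓ Subgroup.centralizer (((P : Subgroup G) ⊓ Cfsg.pPrimePCore p G : Subgroup G) : Set G), d = d₁ * d₂) ∧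
    ∀ x y : G, x ∈ (P : Subgroup G) → y ∈ (P : Subgroup G) → IsConj x y →
      ∃ n ∈ Subgroup.normalizer (((P : Subgroup G) ⊓ Cfsg.pPrimePCore p G : Subgroup G) : Set G), n * x * n⁻¹ = y := by
  set K := Cfsg.pPrimeCore p G with hK
  set PP := Cfsg.pPrimePCore p G with hPP
  set H : Subgroup G := (P : Subgroup G) ⊓ PP with hH
  set N := Subgroup.normalizer (H : Set G) with hN
  have hKn : K.Normal := Cfsg.pPrimeCore_normal p G
  have hKc : (Nat.card K).Coprime p := H19.pPrimeCore_coprime p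
  have hPPn : PP.Normal := by
    rw [hPP, Cfsg.pPrimePCore]
    exact (H19.pCore_normal p _).comap _
  have hHK : H ⊓ K = ⊥ := H19.inf_eq_bot_of_isPGroup_coprime (P.isPGroup'.to_le inf_le_left) hKc
  have hCH : ∀ d ∈ K, d ∈ N → d ∈ Subgroup.centralizer (H : Set G) := by
    intro d hd hdN
    rw [Subgroup.mem_centralizer_iff]
    intro h hh
    have h1 : d * h * d⁻¹ * h⁻¹ ∈ K := by
      have := K.mul_mem hd (hKn.conj_mem _ (K.inv_mem hd) h)
      simpa [mul_assoc] using this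
    have h2 : d * h * d⁻¹ * h⁻¹ ∈ H :=
      H.mul_mem ((Subgroup.mem_normalizer_iff.1 hdN h).1 hh) (H.inv_mem hh)
    have h3 : d * h * d⁻¹ * h⁻¹ = 1 := by
      rw [← Subgroup.mem_bot, ← hHK]; exact ⟨h2, h1⟩
    calc h * d = (d * h * d⁻¹ * h⁻¹) * (h * d) := by rw [h3, one_mul]
      _ = d * h := by group
  set CK : Subgroup G := K ⊓ Subgroup.centralizer (H : Set G) with hCK
  have hNCK : N ≤ Subgroup.normalizer (CK : Set G) := by
    have key : ∀ n ∈ N, ∀ v ∈ CK, n * v * n⁻¹ ∈ CK := by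
      rintro n hn v ⟨hv1, hv2⟩
      refine ⟨hKn.conj_mem v hv1 n, ?_⟩
      show _ ∈ Subgroup.centralizer _
      replace hv2 : v ∈ Subgroup.centralizer (H : Set G) := hv2
      rw [Subgroup.mem_centralizer_iff] at hv2
      rw [Subgroup.mem_centralizer_iff]
      intro h hh
      have h1 := hv2 (n⁻¹ * h * n) (by
        have := (Subgroup.mem_normalizer_iff.1 (N.inv_mem hn) h).1 hh
        simpa using this)
      calc h * (n * v * n⁻¹) = n * ((n⁻¹ * h * n) * v) * n⁻¹ := by group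
        _ = n * (v * (n⁻¹ * h * n)) * n⁻¹ := by rw [h1]
        _ = n * v * n⁻¹ * h := by group
    intro n hn
    rw [Subgroup.mem_normalizer_iff]
    refine fun v => ⟨key n hn v, fun h => ?_⟩
    simpa [mul_assoc] using key n⁻¹ (N.inv_mem hn) _ h
  have part1 : ∀ y ∈ N, (∃ k : ℕ, orderOf y = p ^ k) → ∀ d ∈ K, d⁻¹ * y * d ∈ N →
      ∃ d₁ ∈ K ⊓ Subgroup.centralizer ({y} : Set G), ∃ d₂ ∈ CK, d = d₁ * d₂ := by
    intro y hy hyk d hd hyd
    obtain ⟨k, hk⟩ := hyk
    have h1 : y * (d⁻¹ * y * d)⁻¹ ∈ K := by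
      have := K.mul_mem (hKn.conj_mem _ (K.inv_mem hd) y) hd
      simpa [mul_assoc] using this
    have h2 := hCH _ h1 (N.mul_mem hy (N.inv_mem hyd))
    have hy1 : y ^ p ^ k = 1 := by rw [← hk, pow_orderOf_eq_one]
    have hy2 : (d⁻¹ * y * d) ^ p ^ k = 1 := by
      have := conj_pow (a := d⁻¹) (b := y) (i := p ^ k)
      rw [inv_inv, hy1] at this
      rw [this]; group
    obtain ⟨x, hx, hxe⟩ := H56.exists_conj_of_coset_of_coprime (p ^ k) CK (d⁻¹ * y * d) y (hNCK hyd) hy2 hy1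
      ⟨h1, h2⟩ ((hKc.symm.pow_left k).coprime_dvd_right (Subgroup.card_dvd_of_le inf_le_left))
    refine ⟨d * x, ⟨K.mul_mem hd hx.1, ?_⟩, x⁻¹, CK.inv_mem hx, by group⟩
    show _ ∈ Subgroup.centralizer _
    rw [Subgroup.mem_centralizer_singleton_iff]
    calc d * x * y = d * (x * y * x⁻¹) * x := by group
      _ = y * (d * x) := by rw [hxe]; group
  refine ⟨part1, ?_⟩
  intro x y hx hy hxy
  -- Frattini
  have hHsyl : ¬ p ∣ H.relIndex PP := by
    rw [hH, Subgroup.inf_relIndex_right]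
    exact H22.sylow_not_dvd_relIndex_normal P PP
  have hsupKH : PP ≤ K ⊔ H := by
    rw [← Subgroup.relIndex_eq_one]
    apply Nat.eq_one_of_dvd_coprimes (a := K.relIndex PP) (b := H.relIndex PP)
    · obtain ⟨n, hn⟩ := IsPGroup.iff_card.1 (H19.pCore_isPGroup (G := G ⧸ K) p)
      have : K.relIndex PP = p ^ n := by
        have h := Subgroup.relIndex_ker (K := PP) (QuotientGroup.mk' K)
        rw [QuotientGroup.ker_mk'] at h
        rw [h, ← hn]
        congr 1
        rw [show PP = (Cfsg.pCore p (G ⧸ K)).comap (QuotientGroup.mk' K) from rfl,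
          Subgroup.map_comap_eq_self_of_surjective (QuotientGroup.mk'_surjective _)]
      rw [this]
      exact ((Fact.out : p.Prime).coprime_iff_not_dvd.2 hHsyl).pow_left n
    · exact Subgroup.relIndex_dvd_of_le_left PP le_sup_left
    · exact Subgroup.relIndex_dvd_of_le_left PP le_sup_right
  have htop : N ⊔ K = ⊤ := by
    have hHp : IsPGroup p (H.subgroupOf PP) :=
      (P.isPGroup'.to_le inf_le_left).comap_of_injective PP.subtype PP.subtype_injective
    have hF := Sylow.normalizer_sup_eq_top (N := PP) (hHp.toSylow hHsyl)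
    replace hF : Subgroup.normalizer (((H.subgroupOf PP).map PP.subtype : Subgroup G) : Set G) ⊔ PP = ⊤ := hF
    rw [Subgroup.subgroupOf_map_subtype, inf_eq_left.2 (inf_le_right : H ≤ PP)] at hF
    refine top_le_iff.1 (hF.ge.trans (sup_le le_sup_left (hsupKH.trans (sup_le le_sup_right ?_))))
    exact Subgroup.le_normalizer.trans le_sup_left
  obtain ⟨g, hg⟩ := isConj_iff.1 hxy
  obtain ⟨k, hk, n, hn, rfl⟩ := H19.exists_mul_of_sup_eq_top (N := K) (H := N) (by rwa [sup_comm]) g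
  have hPN : (P : Subgroup G) ≤ N := by
    intro v hv
    rw [hN, Subgroup.mem_normalizer_iff]
    intro u
    simp only [hH, Subgroup.mem_inf]
    constructor
    · rintro ⟨h1, h2⟩
      exact ⟨(P : Subgroup G).mul_mem ((P : Subgroup G).mul_mem hv h1) ((P : Subgroup G).inv_mem hv),
        hPPn.conj_mem u h2 v⟩
    · rintro ⟨h1, h2⟩
      constructor
      · have := (P : Subgroup G).mul_mem ((P : Subgroup G).mul_mem ((P : Subgroup G).inv_mem hv) h1) hv
        simpa [mul_assoc] using this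
      · have := hPPn.conj_mem _ h2 v⁻¹
        simpa [mul_assoc] using this
  have hyk : ∃ k : ℕ, orderOf y = p ^ k := H86.exists_orderOf_eq_pow_of_mem P.isPGroup' hy
  have hx' : k⁻¹ * y * k = n * x * n⁻¹ := by rw [← hg]; group
  obtain ⟨d₁, hd₁, d₂, hd₂, hd⟩ := part1 y (hPN hy) hyk k hk (by
    rw [hx']; exact N.mul_mem (N.mul_mem hn (hPN hx)) (N.inv_mem hn))
  refine ⟨d₂ * n, N.mul_mem ?_ hn, ?_⟩
  · exact Subgroup.centralizer_le_normalizer _ hd₂.2
  · have hd1 : d₁ * y = y * d₁ := Subgroup.mem_centralizer_singleton_iff.1 hd₁.2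
    calc d₂ * n * x * (d₂ * n)⁻¹ = d₂ * (n * x * n⁻¹) * d₂⁻¹ := by group
      _ = d₂ * (k⁻¹ * y * k) * d₂⁻¹ := by rw [hx']
      _ = d₁⁻¹ * (y * d₁) := by rw [hd]; group
      _ = y := by rw [← hd1]; group

end Cfsg.Agent.S1907
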