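import Cfsg.Statements.S1908
import Cfsg.Agent.H59.PiSeparableFT
import Cfsg.Agent.S0205

set_option autoImplicit false
open Cfsg
open scoped Pointwise

namespace Cfsg.Agent.S1908

/-- Let π be a set of primes and G a finite π-separable group: G has a chain of normal subgroups from 1 to G in which each successive index is divisible only by primes in π or only by primes outside π. Then G has a Hall π-subgroup, any two Hall π-subgroups of G are conjugate, and every subgroup of G whose order is divisible only by primes in π lies in some Hall π-subgroup. -/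
theorem result {G : Type*} [Group G] [Finite G] (π : Set ℕ)
    (hsep : ∃ (n : ℕ) (H : Fin (n + 1) → Subgroup G), H 0 = ⊥ ∧ H (Fin.last n) = ⊤ ∧ Monotone H ∧ (∀ i, (H i).Normal) ∧
      ∀ i : Fin n, (∀ q : ℕ, q.Prime → q ∣ (H i.castSucc).relIndex (H i.succ) → q ∈ π) ∨
        (∀ q : ℕ, q.Prime → q ∣ (H i.castSucc).relIndex (H i.succ) → q ∉ π)) :
    (∃ K : Subgroup G, Cfsg.IsPiHall π K) ∧
      (∀ K L : Subgroup G, Cfsg.IsPiHall π K → Cfsg.IsPiHall π L → ∃ g : G, L = K.map (MulAut.conj g).toMonoidHom) ∧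
      ∀ U : Subgroup G, (∀ q : ℕ, q.Prime → q ∣ Nat.card U → q ∈ π) → ∃ K : Subgroup G, Cfsg.IsPiHall π K ∧ U ≤ K := by
  have hser : H19.HasFactorSeries (H19.PiOrPiPrime π) G := hsep
  obtain ⟨H, hH⟩ := H19.piHall_exists_of_series hser
  have key : ∀ K : Subgroup G, Cfsg.IsPiHall π K → ∀ U : Subgroup G,
      (∀ q : ℕ, q.Prime → q ∣ Nat.card U → q ∈ π) → ∃ g : G, MulAut.conj g • U ≤ K := fun K hK U hU =>
    H59.piHall_dominant_of_series (fun _ _ _ h => S0205.result h) hser hK U hU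
  refine ⟨⟨H, hH⟩, fun K L hK hL => ?_, fun U hU => ?_⟩
  · obtain ⟨g, hg⟩ := key L hL K hK.1
    refine ⟨g, (Subgroup.eq_of_le_of_card_ge hg ?_).symm⟩
    rw [H19.card_conj_smul, H19.card_eq_of_isPiHall hL hK]
  · obtain ⟨g, hg⟩ := key H hH U hU
    refine ⟨H.map (MulAut.conj g⁻¹).toMonoidHom, ⟨fun p hp hd => hH.1 p hp (by rwa [Subgroup.card_map_of_injective (MulAut.conj g⁻¹).injective] at hd),
      fun p hp hpπ hd => hH.2 p hp hpπ ?_⟩, ?_⟩
    · rwa [Subgroup.index_map_of_bijective (MulAut.conj g⁻¹).bijective] at hd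
    · intro x hx
      have h1 : g * x * g⁻¹ ∈ H := hg (Subgroup.smul_mem_pointwise_smul x (MulAut.conj g) U hx)
      refine ⟨g * x * g⁻¹, h1, ?_⟩
      simp [mul_assoc]

end Cfsg.Agent.S1908
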