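import Cfsg.Statements.S1924
import Mathlib
import Cfsg.Agent.H22.PResidual
import Cfsg.Agent.H60.SignPerm

set_option autoImplicit false
open Cfsg

namespace Cfsg.Agent.S1924

/-- A consequence of Thompson's transfer lemma. Let G be a finite group, L a subgroup with O²(L) = L, T a Sylow 2-subgroup of L and S a Sylow 2-subgroup of G containing T. Suppose D ≤ S is a dihedral subgroup of order at least 4 (the four-group counts) with D ∩ T = 1 and S = TD as a set of products (so |S| = |T|·|D|), and C ≤ D is cyclic of index 2 in D. If no involution of D outside C is G-conjugate to an involution of the subgroup generated by T and C, and the involution of C is not G-conjugate to any involution of T, then G has a normal subgroup K, containing every Sylow 2-subgroup of L as a Sylow 2-subgroup, with G = KD. -/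
theorem result {G : Type*} [Group G] [Finite G] (L T S D C : Subgroup G) (hL : Cfsg.pResidual 2 ↥L = ⊤)
    (hTL : T ≤ L) (hT2 : IsPGroup 2 T) (hTsyl : ¬ 2 ∣ T.relIndex L)
    (hS2 : IsPGroup 2 S) (hSsyl : ¬ 2 ∣ S.index) (hTS : T ≤ S)
    (hDS : D ≤ S) (hDih : ∃ n : ℕ, 2 ≤ n ∧ Nonempty (↥D ≃* DihedralGroup n)) (hDT : D ⊓ T = ⊥) (hTD : T ⊔ D = S) (hTDc : Nat.card T * Nat.card D = Nat.card S)
    (hCD : C ≤ D) (hC : IsCyclic ↥C) (hCi : C.relIndex D = 2)
    (h1 : ∀ x ∈ D, x ∉ C → orderOf x = 2 → ∀ g : G, g * x * g⁻¹ ∈ T ⊔ C → False)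
    (h2 : ∀ c ∈ C, orderOf c = 2 → ∀ g : G, g * c * g⁻¹ ∈ T → False) :
    ∃ K : Subgroup G, K.Normal ∧ K ⊔ D = ⊤ ∧
      ∀ T' : Subgroup G, T' ≤ L → IsPGroup 2 T' → ¬ 2 ∣ T'.relIndex L → T' ≤ K ∧ ¬ 2 ∣ T'.relIndex K := by
  classical
  obtain ⟨n, hn2, ⟨e⟩⟩ := hDih
  have : NeZero n := ⟨by omega⟩
  -- every element of `D` outside `C` is an involution
  have hrefl : ∀ x ∈ D, x ∉ C → orderOf x = 2 := by
    intro x hxD hxC
    have hcardD : Nat.card D = 2 * n := by rw [Nat.card_congr e.toEquiv, DihedralGroup.nat_card]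
    have hcardC : Nat.card C = n := by
      have h := Subgroup.relIndex_mul_relIndex ⊥ C D bot_le hCD
      rw [Subgroup.relIndex_bot_left, Subgroup.relIndex_bot_left, hCi, hcardD] at h
      omega
    obtain ⟨⟨g, hg⟩, hgen⟩ := hC.exists_generator
    have hog : orderOf (⟨g, hCD hg⟩ : D) = n := by
      rw [← hcardC, ← orderOf_eq_card_of_forall_mem_zpowers hgen, ← Subgroup.orderOf_coe,
        ← Subgroup.orderOf_coe]
    rcases hg' : e ⟨g, hCD hg⟩ with i | i
    · rcases hx : e ⟨x, hxD⟩ with j | j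
      · exfalso
        apply hxC
        have hsub : Subgroup.zpowers (DihedralGroup.r i : DihedralGroup n) = Subgroup.zpowers (DihedralGroup.r 1) := by
          refine Subgroup.eq_of_le_of_card_ge ?_ ?_
          · rw [Subgroup.zpowers_le]
            exact ⟨(i.val : ℤ), by simp⟩
          · rw [Nat.card_zpowers, Nat.card_zpowers, DihedralGroup.orderOf_r_one, ← hg', MulEquiv.orderOf_eq, hog]
        have hj : (DihedralGroup.r j : DihedralGroup n) ∈ Subgroup.zpowers (DihedralGroup.r i) := by
          rw [hsub]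
          exact ⟨(j.val : ℤ), by simp⟩
        obtain ⟨m, hm⟩ := hj
        simp only [← hg', ← hx] at hm
        rw [← map_zpow] at hm
        have h1 := congrArg Subtype.val (e.injective hm)
        simp only [SubgroupClass.coe_zpow] at h1
        rw [← h1]
        exact C.zpow_mem hg m
      · have h : orderOf (e ⟨x, hxD⟩) = 2 := by rw [hx]; exact DihedralGroup.orderOf_sr j
        rwa [MulEquiv.orderOf_eq, ← Subgroup.orderOf_coe] at h
    · have hn : n = 2 := by rw [← hog, ← MulEquiv.orderOf_eq e, hg', DihedralGroup.orderOf_sr]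
      have hsq : orderOf (e ⟨x, hxD⟩) ∣ 2 := by
        apply orderOf_dvd_of_pow_eq_one
        subst hn
        generalize e ⟨x, hxD⟩ = d
        revert d
        decide
      rw [MulEquiv.orderOf_eq, ← Subgroup.orderOf_coe] at hsq
      rcases (Nat.dvd_prime Nat.prime_two).1 hsq with h | h
      · exact absurd (by rw [show x = 1 from orderOf_eq_one_iff.1 h]; exact C.one_mem) hxC
      · exact h
  have hdis : Disjoint T D := disjoint_iff.2 (by rw [inf_comm]; exact hDT)
  have hTD' : ∀ s ∈ S, ∃ t ∈ T, ∃ d ∈ D, s = t * d := by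
    intro s hs
    let f : T × D → S := fun td => ⟨td.1.1 * td.2.1, S.mul_mem (hTS td.1.2) (hDS td.2.2)⟩
    have hf : Function.Bijective f := by
      rw [Nat.bijective_iff_injective_and_card, Nat.card_prod, hTDc]
      refine ⟨?_, rfl⟩
      intro a b hab
      exact Subgroup.mul_injective_of_disjoint hdis (congrArg Subtype.val hab)
    obtain ⟨⟨t, d⟩, htd⟩ := hf.2 ⟨s, hs⟩
    exact ⟨t, t.2, d, d.2, (congrArg Subtype.val htd).symm⟩
  let PS : Sylow 2 G := hS2.toSylow hSsyl
  set K : Subgroup G := Cfsg.pResidual 2 G with hK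
  have hLK : L ≤ K := by
    have := H22.map_subtype_pResidual_le (p := 2) L
    rw [hL, ← MonoidHom.range_eq_map, Subgroup.range_subtype] at this
    exact this.trans inf_le_left
  have hKS : K ⊔ S = ⊤ := H22.pResidual_sup_eq_top_of_not_dvd_index S hSsyl
  -- step 1: `K ∩ D ≤ C`
  have hKD : ∀ x ∈ D, x ∈ K → x ∈ C := by
    intro x hxD hxK
    by_contra hxC
    set W := T ⊔ C with hW
    have hWS : W ≤ S := sup_le hTS (hCD.trans hDS)
    have hxW : x ∉ W := fun h => h1 x hxD hxC (hrefl x hxD hxC) 1 (by simpa using h)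
    have hrel : W.relIndex S = 2 := by
      let f : T × C → W := fun td => ⟨td.1.1 * td.2.1,
        W.mul_mem ((le_sup_left : T ≤ W) td.1.2) ((le_sup_right : C ≤ W) td.2.2)⟩
      have hfi : Function.Injective f := by
        intro a b hab
        exact Subgroup.mul_injective_of_disjoint (hdis.mono_right hCD) (congrArg Subtype.val hab)
      have hle := Nat.card_le_card_of_injective f hfi
      rw [Nat.card_prod] at hle
      have hge : W.relIndex S ≠ 1 := fun hh => hxW (Subgroup.relIndex_eq_one.1 hh (hDS hxD))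
      have h3 := Subgroup.relIndex_mul_relIndex ⊥ W S bot_le hWS
      have h4 := Subgroup.relIndex_mul_relIndex ⊥ C D bot_le hCD
      rw [Subgroup.relIndex_bot_left, Subgroup.relIndex_bot_left] at h3 h4
      rw [hCi] at h4
      rw [← hTDc, ← h4, ← mul_assoc] at h3
      have h5 : 0 < Nat.card W := Nat.card_pos
      have h6 : W.relIndex S ≠ 0 := fun h => by
        rw [h, mul_zero] at h3
        have := Nat.mul_pos (Nat.mul_pos (Nat.card_pos (α := T)) (Nat.card_pos (α := C))) two_pos
        omega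
      have h7 : W.relIndex S ≤ 2 := by
        by_contra h
        have : Nat.card W * 3 ≤ Nat.card W * W.relIndex S := Nat.mul_le_mul_left _ (by omega)
        omega
      omega
    obtain ⟨f, hf⟩ := H60.exists_hom_eq_neg_one W x (k := 1) le_rfl
      (by rw [pow_one, ← hrefl x hxD hxC, pow_orderOf_eq_one])
      (fun g => by
        intro hg
        exact h1 x hxD hxC (hrefl x hxD hxC) g⁻¹ (by simpa using hg))
      (by
        rw [← Subgroup.relIndex_mul_index hWS, hrel, pow_succ, pow_one]
        exact fun h => hSsyl (Nat.dvd_of_mul_dvd_mul_left two_pos h))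
    have h0 : f x = 1 := H22.pResidual_le_ker f H60.isPGroup_two_units_int hxK
    rw [hf] at h0
    exact absurd h0 (by decide)
  have hTK : T ≤ K := hTL.trans hLK
  -- step 2: `K ∩ C = 1`
  have hKC : K ⊓ C = ⊥ := by
    by_contra hne
    set C0 := K ⊓ C with hC0
    have hcyc : IsCyclic C0 := Subgroup.isCyclic_of_le (inf_le_right : C0 ≤ C)
    obtain ⟨⟨r, hr⟩, hgen⟩ := hcyc.exists_generator
    have hC0p : IsPGroup 2 C0 := hS2.to_le (inf_le_right.trans (hCD.trans hDS))
    obtain ⟨k, hk⟩ := IsPGroup.iff_card.1 hC0p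
    have hor : orderOf r = 2 ^ k := by
      rw [← hk, ← orderOf_eq_card_of_forall_mem_zpowers hgen, ← Subgroup.orderOf_coe]
    have hk1 : 1 ≤ k := by
      by_contra h
      rw [Nat.lt_one_iff.1 (not_le.1 h), pow_zero] at hk
      exact hne (Subgroup.card_eq_one.1 hk)
    have hinv : orderOf (r ^ 2 ^ (k - 1)) = 2 := by
      obtain ⟨j, rfl⟩ : ∃ j, k = j + 1 := ⟨k - 1, by omega⟩
      rw [orderOf_pow' _ (by positivity), hor, Nat.add_sub_cancel,
        Nat.gcd_eq_right (pow_dvd_pow 2 (by omega)), pow_succ, Nat.mul_div_cancel_left _ (by positivity)]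
    let Kr : K := ⟨r, hr.1⟩
    have hsyl : ¬ 2 ∣ S.relIndex K := H22.sylow_not_dvd_relIndex_normal PS K
    have hidx : (T.subgroupOf K).index = 2 ^ k * S.relIndex K := by
      show T.relIndex K = _
      rw [← Subgroup.inf_relIndex_right S K, ← hk]
      have hle : T ≤ S ⊓ K := le_inf hTS hTK
      rw [← Subgroup.relIndex_mul_relIndex T (S ⊓ K) K hle inf_le_right]
      congr 1
      let f : T × C0 → ↥(S ⊓ K) := fun td => ⟨td.1.1 * td.2.1,
        ⟨S.mul_mem (hTS td.1.2) (hDS (hCD td.2.2.2)), K.mul_mem (hTK td.1.2) td.2.2.1⟩⟩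
      have hf : Function.Bijective f := by
        constructor
        · intro a b hab
          exact Subgroup.mul_injective_of_disjoint (hdis.mono_right (inf_le_right.trans hCD : C0 ≤ D))
            (congrArg Subtype.val hab)
        · rintro ⟨s, hs, hsK⟩
          obtain ⟨t, ht, d, hd, rfl⟩ := hTD' s hs
          have hdK : d ∈ K := (K.mul_mem_cancel_left (hTK ht)).1 hsK
          exact ⟨(⟨t, ht⟩, ⟨d, hdK, hKD d hd hdK⟩), rfl⟩
      have hc := Nat.card_eq_of_bijective f hf
      rw [Nat.card_prod] at hc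
      have h3 := Subgroup.relIndex_mul_relIndex ⊥ T (S ⊓ K) bot_le hle
      rw [Subgroup.relIndex_bot_left, Subgroup.relIndex_bot_left, ← hc] at h3
      exact Nat.eq_of_mul_eq_mul_left Nat.card_pos h3
    obtain ⟨f, hf⟩ := H60.exists_hom_eq_neg_one (T.subgroupOf K) Kr hk1
      (Subtype.ext (by simp only [Kr, SubgroupClass.coe_pow, OneMemClass.coe_one]; rw [← hor, pow_orderOf_eq_one]))
      (fun g hg => by
        simp only [Subgroup.mem_subgroupOf, Subgroup.coe_mul, Subgroup.coe_inv, SubgroupClass.coe_pow, Kr] at hg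
        exact h2 _ (C.pow_mem hr.2 _) hinv (g : G)⁻¹ (by simpa using hg))
      (by
        rw [hidx, pow_succ]
        exact fun h => hsyl (Nat.dvd_of_mul_dvd_mul_left (by positivity) h))
    have h0 := H60.hom_units_int_trivial H22.pResidual_pResidual_eq_top f Kr
    rw [hf] at h0
    exact absurd h0 (by decide)
  refine ⟨K, H22.pResidual_normal, ?_, ?_⟩
  · refine top_le_iff.1 (hKS.ge.trans (sup_le le_sup_left ?_))
    rw [← hTD]
    exact sup_le (hTK.trans le_sup_left) le_sup_right
  · intro T' hT' hT'2 hT'syl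
    refine ⟨hT'.trans hLK, ?_⟩
    have hSK : S ⊓ K = T := by
      refine le_antisymm ?_ (le_inf hTS hTK)
      rintro s ⟨hs, hsK⟩
      obtain ⟨t, ht, d, hd, rfl⟩ := hTD' s hs
      have hdK : d ∈ K := (K.mul_mem_cancel_left (hTK ht)).1 hsK
      have : d = 1 := by
        rw [← Subgroup.mem_bot, ← hKC]; exact ⟨hdK, hKD d hd hdK⟩
      simpa [this] using ht
    have hTK2 : ¬ 2 ∣ T.relIndex K := by
      rw [← hSK, Subgroup.inf_relIndex_right]
      exact H22.sylow_not_dvd_relIndex_normal PS K
    rw [← Subgroup.relIndex_mul_relIndex T' L K hT' hLK]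
    rw [← Subgroup.relIndex_mul_relIndex T L K hTL hLK] at hTK2
    exact fun h => (Nat.prime_two.dvd_mul.1 h).elim hT'syl (fun h => hTK2 (h.mul_left _))

end Cfsg.Agent.S1924
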