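import Cfsg.Statements.S1935
import Cfsg.Agent.H60.QuadDegen
import Cfsg.Agent.H34.Conj

set_option autoImplicit false
open Cfsg
open scoped commutatorElement

namespace Cfsg.Agent.S1935

open H60.Degen in
/-- Let p ≥ 5 be a prime and, inside an ambient finite group, let G be a p-subgroup acting faithfully by conjugation on an elementary abelian p-subgroup V that it normalizes (only the identity of G centralizes V). Suppose V is an F-module for G: some nontrivial elementary abelian subgroup E of G satisfies #E · #C_V(E) ≥ #V. Then G contains such an offender A that moreover acts quadratically on V ([V, A, A] = 1) and is normal in its normal closure in G. -/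
theorem result {Ω : Type*} [Group Ω] [Finite Ω] (p : ℕ) [Fact p.Prime] (hp : 5 ≤ p) (V G : Subgroup Ω) (hV : Cfsg.IsElementaryAbelian p V) (hG : IsPGroup p ↥G) (hGV : G ≤ Subgroup.normalizer (V : Set Ω)) (hfaith : G ⊓ Subgroup.centralizer (V : Set Ω) = ⊥) (hF : ∃ E : Subgroup Ω, E ≤ G ∧ E ≠ ⊥ ∧ Cfsg.IsElementaryAbelian p E ∧ Nat.card ↥V ≤ Nat.card ↥E * Nat.card ↥(V ⊓ Subgroup.centralizer (E : Set Ω))) : ∃ A : Subgroup Ω, A ≤ G ∧ A ≠ ⊥ ∧ Cfsg.IsElementaryAbelian p A ∧ Nat.card ↥V ≤ Nat.card ↥A * Nat.card ↥(V ⊓ Subgroup.centralizer (A : Set Ω)) ∧ ⁅⁅V, A⁆, A⁆ = ⊥ ∧ ∀ g ∈ Subgroup.closure {x : Ω | ∃ h ∈ G, ∃ a ∈ A, x = h * a * h⁻¹}, ∀ a ∈ A, g * a * g⁻¹ ∈ A := by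
  haveI := hV.1
  letI : CommGroup V := { (inferInstance : Group V) with mul_comm := fun a b => (hV.1).is_comm.comm a b }
  have hexp : ∀ v : Additive V, p • v = 0 := fun v => by
    show (Additive.toMul v) ^ p = 1
    exact Subtype.ext (hV.2 _ (Additive.toMul v).2)
  haveI : Module (ZMod p) (Additive V) := AddCommGroup.zmodModule hexp
  haveI : Finite (Additive V) := inferInstanceAs (Finite V)
  have hconj : ∀ (g : G) (v : V), (g : Ω) * v * (g : Ω)⁻¹ ∈ V := fun g v =>
    H34.conj_mem_of_mem_normalizer (hGV g.2) v.2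
  let cm : G → Additive V → Additive V := fun g v =>
    Additive.ofMul ⟨(g : Ω) * (Additive.toMul v : V) * (g : Ω)⁻¹, hconj g (Additive.toMul v)⟩
  have hcm : ∀ g v w, cm g (v + w) = cm g v + cm g w := fun g v w => by
    refine congrArg Additive.ofMul (Subtype.ext ?_)
    show (g : Ω) * ((Additive.toMul v : V) * (Additive.toMul w : V)) * (g : Ω)⁻¹ =
      (g : Ω) * (Additive.toMul v : V) * (g : Ω)⁻¹ * ((g : Ω) * (Additive.toMul w : V) * (g : Ω)⁻¹)
    group
  let lm : G → Module.End (ZMod p) (Additive V) := fun g =>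
    { toFun := cm g
      map_add' := hcm g
      map_smul' := fun c v => ZMod.map_smul (AddMonoidHom.mk' (cm g) (hcm g)) c v }
  have hlm1 : lm 1 = 1 := by
    refine LinearMap.ext fun v => ?_
    rw [Module.End.one_apply]
    refine congrArg Additive.ofMul (Subtype.ext ?_)
    show (1 : Ω) * (Additive.toMul v : V) * (1 : Ω)⁻¹ = ((Additive.toMul v : V) : Ω)
    simp
  have hlmm : ∀ g h, lm (g * h) = lm g * lm h := fun g h => by
    refine LinearMap.ext fun v => ?_
    rw [Module.End.mul_apply]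
    refine congrArg Additive.ofMul (Subtype.ext ?_)
    show (g * h : Ω) * (Additive.toMul v : V) * (g * h : Ω)⁻¹ =
      (g : Ω) * ((h : Ω) * (Additive.toMul v : V) * (h : Ω)⁻¹) * (g : Ω)⁻¹
    group
  let ρ : G →* Module.End (ZMod p) (Additive V) :=
    { toFun := lm
      map_one' := hlm1
      map_mul' := hlmm }
  have happ : ∀ (g : G) (v : V),
      ((Additive.toMul ((ρ g - (1 : Module.End (ZMod p) (Additive V))) (Additive.ofMul v)) : V) : Ω) =
        ⁅(g : Ω), (v : Ω)⁆ := by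
    intro g v
    rw [LinearMap.sub_apply, Module.End.one_apply, toMul_sub, div_eq_mul_inv, Subgroup.coe_mul,
      Subgroup.coe_inv]
    rfl
  have hρ : Function.Injective ρ := by
    intro g h e
    have h1 : (g⁻¹ * h : G) = 1 := by
      apply Subtype.ext
      show ((g⁻¹ * h : G) : Ω) = 1
      rw [← Subgroup.mem_bot, ← hfaith]
      refine ⟨(g⁻¹ * h).2, H34.mem_centralizer_iff_comm.2 fun v hv => ?_⟩
      rw [← happ (g⁻¹ * h) ⟨v, hv⟩, map_mul, ← e, ← map_mul, inv_mul_cancel, map_one, sub_self]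
      rfl
    exact (inv_mul_eq_one.1 h1)
  -- dictionary
  have hquad : ∀ A : Subgroup G, IsQuad ρ A ↔ ∀ a ∈ A, ∀ a' ∈ A, ∀ v ∈ V, ⁅(a : Ω), ⁅(a' : Ω), v⁆⁆ = 1 := by
    intro A
    refine forall₄_congr fun a _ a' _ => ⟨fun h v hv => ?_, fun h => LinearMap.ext fun v => ?_⟩
    · have h1 := happ a (Additive.toMul ((ρ a' - 1) (Additive.ofMul (⟨v, hv⟩ : V))))
      rw [ofMul_toMul, ← Module.End.mul_apply, h] at h1
      rw [happ] at h1
      exact h1.symm
    · obtain ⟨v, rfl⟩ := Additive.ofMul.surjective v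
      apply Additive.toMul.injective
      apply Subtype.ext
      rw [Module.End.mul_apply, ← ofMul_toMul ((ρ a' - 1) _), happ, happ, h v v.2]
      rfl
  have hfix : ∀ A : Subgroup G, Nat.card (fixed ρ A) =
      Nat.card ↥(V ⊓ Subgroup.centralizer ((A.map G.subtype : Subgroup Ω) : Set Ω)) := by
    intro A
    have hmem : ∀ v : V, Additive.ofMul v ∈ fixed ρ A ↔
        (v : Ω) ∈ Subgroup.centralizer ((A.map G.subtype : Subgroup Ω) : Set Ω) := by
      intro v
      rw [mem_fixed, Subgroup.mem_centralizer_iff]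
      constructor
      · rintro h _ ⟨a, ha, rfl⟩
        rw [← commutatorElement_eq_one_iff_mul_comm, show G.subtype a = (a : Ω) from rfl, ← happ, h a ha]
        rfl
      · intro h a ha
        apply Additive.toMul.injective
        apply Subtype.ext
        rw [happ, commutatorElement_eq_one_iff_mul_comm.2 (h a ⟨a, ha, rfl⟩)]
        rfl
    refine Nat.card_congr
      { toFun := fun v => ⟨(Additive.toMul (v : Additive V) : V), (Additive.toMul (v : Additive V)).2, (hmem _).1 v.2⟩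
        invFun := fun v => ⟨Additive.ofMul ⟨v, v.2.1⟩, (hmem _).2 v.2.2⟩
        left_inv := fun v => rfl
        right_inv := fun v => rfl }
  -- a quadratic offender
  obtain ⟨E, hEG, hEne, hE, hEoff⟩ := hF
  obtain ⟨A₀, ⟨hA₀E, hA₀ne⟩, hmax⟩ := Set.exists_max_image {B : Subgroup Ω | B ≤ E ∧ B ≠ ⊥}
    (H34.offNum V) (Set.toFinite _) ⟨E, le_rfl, hEne⟩
  have hA₀V : A₀ ≤ Subgroup.normalizer (V : Set Ω) := (hA₀E.trans hEG).trans hGV
  have hA₀off : Nat.card V ≤ H34.offNum V A₀ := hEoff.trans (hmax E ⟨le_rfl, hEne⟩)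
  have hA₀ab : ⁅A₀, A₀⁆ ≤ Subgroup.centralizer (V : Set Ω) := by
    rw [Subgroup.commutator_le]
    intro a ha b hb
    haveI := hE.1
    rw [commutatorElement_eq_one_iff_mul_comm.2 (Subgroup.mul_comm_of_mem_isMulCommutative E (hA₀E ha) (hA₀E hb))]
    exact one_mem _
  obtain ⟨e1, e2⟩ := H34.replacement hA₀V hA₀ab (fun B hB => by
    by_cases hB1 : B = ⊥
    · subst hB1
      refine le_trans ?_ hA₀off
      rw [H34.offNum, Subgroup.card_bot, one_mul]
      exact Subgroup.card_le_of_le inf_le_left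
    · exact hmax B ⟨hB.trans hA₀E, hB1⟩) (le_refl V)
  set A₁ := A₀ ⊓ Subgroup.centralizer ((⁅V, A₀⁆ : Subgroup Ω) : Set Ω) with hA₁
  have hA₁ne : A₁ ≠ ⊥ := by
    intro h
    rw [h, Subgroup.coe_bot, show Subgroup.centralizer ({1} : Set Ω) = ⊤ from
      Subgroup.centralizer_eq_top_iff_subset.2 (by simp), inf_top_eq] at e2
    set W := ⁅V, A₀⁆
    have hWV : W ≤ V := by
      show ⁅V, A₀⁆ ≤ V
      rw [Subgroup.commutator_comm, Subgroup.commutator_le]
      exact fun a ha v hv => H34.comm_mem_of_mem_normalizer (hA₀V ha) hv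
    haveI := hV.1
    have hWc : W ≤ Subgroup.normalizer ((V ⊓ Subgroup.centralizer (A₀ : Set Ω) : Subgroup Ω) : Set Ω) :=
      fun w hw => Subgroup.centralizer_le_normalizer _ (Subgroup.mem_centralizer_iff.2 fun c hc =>
        Subgroup.mul_comm_of_mem_isMulCommutative V hc.1 (hWV hw))
    have hle : W ≤ ⁅W, A₀⁆ := by
      show ⁅V, A₀⁆ ≤ _
      rw [Subgroup.commutator_comm V, Subgroup.commutator_le]
      intro a ha v hv
      rw [e2, ← SetLike.mem_coe, Subgroup.coe_mul_of_left_le_normalizer_right _ _ hWc] at hv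
      obtain ⟨w, hw, c, hc, rfl⟩ := hv
      have : ⁅a, w * c⁆ = ⁅a, w⁆ := by
        rw [commutatorElement_def, commutatorElement_def]
        have := Subgroup.mem_centralizer_iff.1 hc.2 a ha
        calc a * (w * c) * a⁻¹ * (w * c)⁻¹ = a * w * (c * a⁻¹ * c⁻¹) * w⁻¹ := by group
          _ = a * w * a⁻¹ * w⁻¹ := by
            rw [show c * a⁻¹ * c⁻¹ = a⁻¹ from mul_inv_eq_of_eq_mul
              (by rw [eq_inv_mul_iff_mul_eq, ← mul_assoc, this, mul_inv_cancel_right])]
      rw [this, Subgroup.commutator_comm]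
      exact Subgroup.commutator_mem_commutator ha hw
    have hW : W = ⊥ := H34.eq_bot_of_le_commutator (p := p)
      (IsPGroup.to_le (fun x => ⟨1, by rw [pow_one]; exact Subtype.ext (hV.2 _ x.2)⟩) hWV)
      (by
        intro a ha
        exact Subgroup.normalizer_commutator_ge_right _ _ ha)
      (fun a ha => ⟨1, by rw [pow_one, hE.2 a (hA₀E ha)]; exact one_mem _⟩) hle
    apply hA₀ne
    rw [eq_bot_iff, ← hfaith]
    refine le_inf (hA₀E.trans hEG) (Subgroup.le_centralizer_iff.1 ?_)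
    rw [hW, bot_sup_eq] at e2
    exact e2.le.trans inf_le_right
  have hA₁G : A₁ ≤ G := inf_le_left.trans (hA₀E.trans hEG)
  have hmapA : (A₁.subgroupOf G).map G.subtype = A₁ := by
    rw [Subgroup.subgroupOf_map_subtype, inf_eq_left.2 hA₁G]
  obtain ⟨A, hAne, hA, hAoff, hAn⟩ := exists_quad_normal hp hG hρ (by
    refine ⟨A₁.subgroupOf G, ?_, ?_, ?_⟩
    · intro h
      rw [h, Subgroup.map_bot] at hmapA
      exact hA₁ne hmapA.symm
    · refine (hquad _).2 fun a ha a' ha' v hv => commutatorElement_eq_one_iff_mul_comm.2 ?_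
      refine (Subgroup.mem_centralizer_iff.1 (ha : (a : Ω) ∈ A₁).2 _ ?_).symm
      rw [Subgroup.commutator_comm]
      exact Subgroup.commutator_mem_commutator (ha' : (a' : Ω) ∈ A₁).1 hv
    · rw [hfix, hmapA, Nat.card_congr (Subgroup.subgroupOfEquivOfLe hA₁G).toEquiv,
        Nat.card_congr (Equiv.refl (Additive V))]
      show Nat.card V ≤ _
      exact hA₀off.trans e1.ge)
  refine ⟨A.map G.subtype, Subgroup.map_subtype_le _, ?_, ⟨⟨⟨?_⟩⟩, ?_⟩, ?_, ?_, ?_⟩
  · rwa [Ne, Subgroup.map_eq_bot_iff_of_injective _ G.subtype_injective]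
  · rintro ⟨_, a, ha, rfl⟩ ⟨_, a', ha', rfl⟩
    refine Subtype.ext ?_
    show ((a * a' : G) : Ω) = ((a' * a : G) : Ω)
    congr 1
    exact hρ (sub_left_injective (by rw [rho_mul_sub (hA a ha a' ha'), rho_mul_sub (hA a' ha' a ha), add_comm] : ρ (a * a') - 1 = ρ (a' * a) - 1))
  · rintro _ ⟨a, ha, rfl⟩
    show ((a ^ p : G) : Ω) = 1
    have : ∀ k : ℕ, ρ (a ^ k) - 1 = k • (ρ a - 1) := by
      intro k
      induction k with
      | zero => simp
      | succ k ih =>
        rw [pow_succ, rho_mul_sub (hA _ (A.pow_mem ha k) a ha), ih, succ_nsmul]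
    have h1 := this p
    rw [ZModModule.char_nsmul_eq_zero, sub_eq_zero, ← map_one ρ] at h1
    rw [hρ h1]; rfl
  · rw [← hfix, Subgroup.card_map_of_injective G.subtype_injective]
    exact le_trans (le_of_eq (Nat.card_congr (Additive.ofMul (α := V)))) hAoff
  · rw [eq_bot_iff]
    rw [Subgroup.commutator_comm, Subgroup.commutator_comm V, Subgroup.commutator_le]
    rintro _ ⟨a, ha, rfl⟩ z hz
    rw [Subgroup.mem_bot, commutatorElement_eq_one_iff_mul_comm]
    refine Subgroup.mem_centralizer_iff.1 ((Subgroup.commutator_le.2 ?_ :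
      ⁅A.map G.subtype, V⁆ ≤ Subgroup.centralizer ((A.map G.subtype : Subgroup Ω) : Set Ω)) hz) _ ⟨a, ha, rfl⟩
    rintro _ ⟨a', ha', rfl⟩ v hv
    refine Subgroup.mem_centralizer_iff.2 ?_
    rintro _ ⟨a, ha, rfl⟩
    exact commutatorElement_eq_one_iff_mul_comm.1 ((hquad A).1 hA a ha a' ha' v hv)
  · intro g hg b hb
    have hle : Subgroup.closure {x : Ω | ∃ h ∈ G, ∃ a ∈ A.map G.subtype, x = h * a * h⁻¹} ≤
        (Subgroup.normalizer (A : Set G)).map G.subtype := by
      rw [Subgroup.closure_le]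
      rintro _ ⟨h, hh, _, ⟨a, ha, rfl⟩, rfl⟩
      exact ⟨⟨h, hh⟩ * a * ⟨h, hh⟩⁻¹, hAn ⟨h, hh⟩ ⟨a, ha, rfl⟩, rfl⟩
    obtain ⟨g', hg', rfl⟩ := hle hg
    obtain ⟨a, ha, rfl⟩ := hb
    exact ⟨g' * a * g'⁻¹, (Subgroup.mem_normalizer_iff.1 hg' a).1 ha, rfl⟩

end Cfsg.Agent.S1935
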