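import Cfsg.Statements.S1939
import Mathlib

set_option autoImplicit false
open Cfsg

namespace Cfsg.Agent.S1939

/-- Let S be a Sylow p-subgroup of the finite group G and a an element of S that is the only G-conjugate of a lying in S. Then every power of a has the same property: for every n, the only G-conjugate of a^n lying in S is a^n. -/
theorem result {G : Type*} [Group G] [Finite G] {p : ℕ} [Fact p.Prime] (S : Sylow p G) (a : G)
    (haS : a ∈ (S : Subgroup G)) (hwc : ∀ g : G, g * a * g⁻¹ ∈ (S : Subgroup G) → g * a * g⁻¹ = a) (n : ℕ) :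
    ∀ g : G, g * a ^ n * g⁻¹ ∈ (S : Subgroup G) → g * a ^ n * g⁻¹ = a ^ n := by
  intro g hg
  have key : ∀ y ∈ (S : Subgroup G), y * a = a * y := by
    intro y hy
    have := hwc y ((S : Subgroup G).mul_mem ((S : Subgroup G).mul_mem hy haS) ((S : Subgroup G).inv_mem hy))
    calc y * a = (y * a * y⁻¹) * y := by group
      _ = a * y := by rw [this]
  -- the centralizer of `a ^ n` contains `S`
  set C : Subgroup G := Subgroup.centralizer ({a ^ n} : Set G) with hC
  have hSC : (S : Subgroup G) ≤ C := by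
    intro y hy
    rw [hC, Subgroup.mem_centralizer_singleton_iff]
    exact ((show Commute y a from key y hy).pow_right n).eq
  have haC : g⁻¹ * a * g ∈ C := by
    rw [hC, Subgroup.mem_centralizer_singleton_iff]
    have h1 : Commute (g * a ^ n * g⁻¹) a := key _ hg
    have h2 := h1.eq
    calc g⁻¹ * a * g * a ^ n = g⁻¹ * (a * (g * a ^ n * g⁻¹)) * g := by group
      _ = g⁻¹ * ((g * a ^ n * g⁻¹) * a) * g := by rw [h2]
      _ = a ^ n * (g⁻¹ * a * g) := by group
  let SC : Sylow p C := S.subtype hSC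
  have hp : IsPGroup p (Subgroup.zpowers (⟨g⁻¹ * a * g, haC⟩ : C)) := by
    obtain ⟨k, hk⟩ := S.isPGroup' ⟨a, haS⟩
    have hk' : a ^ p ^ k = 1 := congrArg Subtype.val hk
    have hk1 : (⟨g⁻¹ * a * g, haC⟩ : C) ^ p ^ k = 1 := by
      apply Subtype.ext
      have : (g⁻¹ * a * g⁻¹⁻¹) ^ p ^ k = g⁻¹ * a ^ p ^ k * g⁻¹⁻¹ := conj_pow
      simp only [inv_inv, hk', mul_one, inv_mul_cancel] at this
      simpa using this
    rintro ⟨x, i, rfl⟩
    refine ⟨k, Subtype.ext ?_⟩
    simp only [SubgroupClass.coe_pow, OneMemClass.coe_one]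
    rw [← zpow_natCast, ← zpow_mul, mul_comm, zpow_mul, zpow_natCast, hk1, one_zpow]
  obtain ⟨Q, hQ⟩ := hp.exists_le_sylow
  obtain ⟨c, hc⟩ := MulAction.exists_smul_eq C Q SC
  have hm : (c : G) * (g⁻¹ * a * g) * (c : G)⁻¹ ∈ (S : Subgroup G) := by
    have h1 : (⟨g⁻¹ * a * g, haC⟩ : C) ∈ (Q : Subgroup C) := hQ (Subgroup.mem_zpowers _)
    have h2 : c * ⟨g⁻¹ * a * g, haC⟩ * c⁻¹ ∈ (SC : Subgroup C) := by
      rw [← hc, Sylow.coe_subgroup_smul]
      exact ⟨_, h1, rfl⟩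
    simpa [SC, Sylow.coe_subtype, Subgroup.mem_subgroupOf] using h2
  have h3 := hwc ((c : G) * g⁻¹) (by simpa [mul_assoc] using hm)
  have hz : Commute ((c : G) * g⁻¹) a := by
    show (c : G) * g⁻¹ * a = a * ((c : G) * g⁻¹)
    calc (c : G) * g⁻¹ * a = ((c : G) * g⁻¹ * a * ((c : G) * g⁻¹)⁻¹) * ((c : G) * g⁻¹) := by group
      _ = a * ((c : G) * g⁻¹) := by rw [h3]
  have hcn : (c : G) * a ^ n = a ^ n * (c : G) := by
    have := c.2
    rw [Subgroup.mem_centralizer_singleton_iff] at this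
    exact this
  have hzn := (hz.inv_left.pow_right n).eq
  calc g * a ^ n * g⁻¹ = ((c : G) * g⁻¹)⁻¹ * ((c : G) * a ^ n) * g⁻¹ := by group
    _ = ((c : G) * g⁻¹)⁻¹ * (a ^ n * (c : G)) * g⁻¹ := by rw [hcn]
    _ = (((c : G) * g⁻¹)⁻¹ * a ^ n) * ((c : G) * g⁻¹) := by group
    _ = (a ^ n * ((c : G) * g⁻¹)⁻¹) * ((c : G) * g⁻¹) := by rw [hzn]
    _ = a ^ n := by group

end Cfsg.Agent.S1939
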