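import Cfsg.Statements.S1940
import Mathlib

set_option autoImplicit false
open Cfsg

namespace Cfsg.Agent.S1940

/-- Let the finite group L act by automorphisms on the finite abelian group M, and let N be an L-invariant subgroup of M such that M/N is a p-group on which L acts trivially (every l • m lies in the coset mN). If every element of M is a product of an element of N and an element fixed by a Sylow p-subgroup T of L, then every element of M is a product of an element of N and an element fixed by all of L. -/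
theorem result {L : Type*} [Group L] [Finite L] {M : Type*} [CommGroup M] [Finite M] [MulDistribMulAction L M]
    {p : ℕ} [Fact p.Prime] (N : Subgroup M) (hN : ∀ (l : L) (m : M), m ∈ N → l • m ∈ N)
    (hquot : IsPGroup p (M ⧸ N)) (htriv : ∀ (l : L) (m : M), (l • m) * m⁻¹ ∈ N) (T : Sylow p L)
    (hT : ∀ m : M, ∃ n ∈ N, ∃ c : M, (∀ t ∈ (T : Subgroup L), t • c = c) ∧ m = n * c) :
    ∀ m : M, ∃ n ∈ N, ∃ c : M, (∀ l : L, l • c = c) ∧ m = n * c := by
  classical
  intro m
  set i := (T : Subgroup L).index with hi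
  have hip : ¬ p ∣ i := T.not_dvd_index
  obtain ⟨n, hn, c, hc, hm⟩ := hT m
  have : Fintype (L ⧸ (T : Subgroup L)) := Fintype.ofFinite _
  have hwd : ∀ l : L, ((l : L ⧸ (T : Subgroup L)).out) • c = l • c := by
    intro l
    obtain ⟨t, ht⟩ := QuotientGroup.mk_out_eq_mul (T : Subgroup L) l
    rw [ht, mul_smul, hc t t.2]
  set F : M := ∏ q : L ⧸ (T : Subgroup L), q.out • c with hF
  have hfix : ∀ l : L, l • F = F := by
    intro l
    rw [hF, Finset.smul_prod']
    refine Fintype.prod_equiv (MulAction.toPerm l) _ _ fun q => ?_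
    obtain ⟨g, rfl⟩ := QuotientGroup.mk_surjective q
    show l • (g : L ⧸ (T : Subgroup L)).out • c = ((l * g : L) : L ⧸ (T : Subgroup L)).out • c
    rw [hwd, hwd, mul_smul]
  have hFN : (QuotientGroup.mk' N) F = (QuotientGroup.mk' N c) ^ i := by
    rw [hF, map_prod, hi, Subgroup.index, Nat.card_eq_fintype_card, ← Finset.card_univ, ← Finset.prod_const]
    refine Finset.prod_congr rfl fun q _ => ?_
    rw [QuotientGroup.mk'_apply, QuotientGroup.mk'_apply, eq_comm, QuotientGroup.eq, mul_comm]
    exact htriv q.out c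
  obtain ⟨e, he⟩ := hquot (QuotientGroup.mk' N c)
  obtain ⟨j, hj⟩ : ∃ j : ℕ, (QuotientGroup.mk' N c ^ i) ^ j = QuotientGroup.mk' N c := by
    obtain ⟨j, hj⟩ := exists_pow_eq_self_of_coprime (x := QuotientGroup.mk' N c) (n := i)
      (((Fact.out : p.Prime).coprime_iff_not_dvd.2 hip).symm.pow_right e |>.coprime_dvd_right
        (orderOf_dvd_of_pow_eq_one he))
    exact ⟨j, hj⟩
  refine ⟨m * (F ^ j)⁻¹, ?_, F ^ j, fun l => by rw [smul_pow', hfix], by rw [inv_mul_cancel_right]⟩
  rw [← QuotientGroup.eq_one_iff, QuotientGroup.mk_mul, QuotientGroup.mk_inv, mul_inv_eq_one,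
    ← QuotientGroup.mk'_apply, ← QuotientGroup.mk'_apply, map_pow, hFN, hj, hm, map_mul,
    (QuotientGroup.eq_one_iff n).2 hn |> (id : (QuotientGroup.mk' N n = 1) → _), one_mul]

end Cfsg.Agent.S1940
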