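import Cfsg.Statements.S1941
import Cfsg.Agent.H51.FStar
import Cfsg.Agent.H51.PConstrained
import Cfsg.Agent.H19.Cores

set_option autoImplicit false
open Cfsg

namespace Cfsg.Agent.S1941

/-- Let G be a finite group with no nontrivial normal subgroup of order prime to p, T a Sylow p-subgroup of G and E(G) the layer of G (the subgroup generated by its components). An automorphism of G of p-power order that fixes T and E(G) elementwise is inner. -/
theorem result {G : Type*} [Group G] [Finite G] {p : ℕ} [Fact p.Prime] (hcore : Cfsg.pPrimeCore p G = ⊥)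
    (T : Sylow p G) (α : MulAut G) (hα : ∃ j : ℕ, orderOf α = p ^ j) (hfixT : ∀ x ∈ (T : Subgroup G), α x = x)
    (hfixE : ∀ x ∈ Cfsg.layer G, α x = x) : ∃ g : G, ∀ x : G, α x = g * x * g⁻¹ := by
  haveI hFn := Cfsg.Agent.H51.generalizedFittingSubgroup_normal G
  have hFT : Cfsg.fittingSubgroup G ≤ (T : Subgroup G) := by
    rw [Cfsg.Agent.H51.fittingSubgroup_eq_pCore hcore]
    exact Cfsg.Agent.H19.pCore_le_sylow T
  have hfixF : ∀ x ∈ Cfsg.generalizedFittingSubgroup G, α x = x := by
    intro x hx
    have hle : Cfsg.generalizedFittingSubgroup G ≤ MonoidHom.eqLocus α.toMonoidHom (MonoidHom.id G) := by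
      unfold Cfsg.generalizedFittingSubgroup
      exact sup_le (fun y hy => hfixE y hy) (fun y hy => hfixT y (hFT hy))
    exact hle hx
  let Z : Subgroup G := Subgroup.centralizer (Cfsg.generalizedFittingSubgroup G : Set G)
  have hZT : Z ≤ (T : Subgroup G) :=
    (Cfsg.Agent.H51.centralizer_generalizedFitting_le_fitting G).trans hFT
  have hZF : Z ≤ Cfsg.generalizedFittingSubgroup G :=
    Cfsg.Agent.H51.centralizer_generalizedFitting_le G
  haveI hZn : Z.Normal := inferInstanceAs (Subgroup.centralizer _).Normal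
  have hcZ : ∀ g : G, α g * g⁻¹ ∈ Z := by
    intro g
    rw [Subgroup.mem_centralizer_iff]
    intro f hf
    have hf' : g⁻¹ * f * g ∈ Cfsg.generalizedFittingSubgroup G := by
      simpa using hFn.conj_mem f hf g⁻¹
    have h1 := hfixF _ hf'
    rw [map_mul, map_mul, map_inv, hfixF f hf] at h1
    have h2 : f = α g * (g⁻¹ * f * g) * (α g)⁻¹ := by rw [← h1]; group
    conv_lhs => rw [h2]
    group
  letI : CommGroup Z :=
    { (inferInstance : Group Z) with
      mul_comm := fun a b => Subtype.ext (Subgroup.mem_centralizer_iff.mp b.2 a (hZF a.2)) }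
  let c : G → Z := fun g => ⟨α g * g⁻¹, hcZ g⟩
  let conjZ : G → (Z →* Z) := fun g =>
    { toFun := fun z => ⟨g * z * g⁻¹, hZn.conj_mem z z.2 g⟩
      map_one' := by ext; simp
      map_mul' := fun a b => by ext; simp [mul_assoc] }
  have hmul : ∀ g h, c (g * h) = c g * conjZ g (c h) := by
    intro g h
    ext
    simp [c, conjZ, mul_assoc]
  have hconst : ∀ g, ∀ t ∈ (T : Subgroup G), c (g * t) = c g := by
    intro g t ht
    rw [hmul, show c t = 1 from Subtype.ext (by simp [c, hfixT t ht]), map_one, mul_one]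
  let cq : G ⧸ (T : Subgroup G) → Z := fun q => c q.out
  have hcq : ∀ g : G, cq (g : G ⧸ (T : Subgroup G)) = c g := by
    intro g
    obtain ⟨t, ht⟩ := QuotientGroup.mk_out_eq_mul (T : Subgroup G) g
    show c (_ : G) = c g
    rw [ht]
    exact hconst g t t.2
  haveI : Fintype (G ⧸ (T : Subgroup G)) := Fintype.ofFinite _
  let d : Z := ∏ q, cq q
  have hd : ∀ g : G, d = c g ^ (T : Subgroup G).index * conjZ g d := by
    intro g
    calc d = ∏ q, cq (g • q) := (Equiv.prod_comp (MulAction.toPerm g) cq).symm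
      _ = ∏ q, (c g * conjZ g (cq q)) := by
          refine Finset.prod_congr rfl fun q _ => ?_
          obtain ⟨x, rfl⟩ := QuotientGroup.mk_surjective q
          rw [MulAction.Quotient.smul_coe, hcq, hcq, smul_eq_mul, hmul]
      _ = _ := by
          rw [Finset.prod_mul_distrib, Finset.prod_const, map_prod, Subgroup.index_eq_card,
            Nat.card_eq_fintype_card, Finset.card_univ]
  have hpZ : IsPGroup p Z := T.2.to_le hZT
  have hco : p.Coprime (T : Subgroup G).index :=
    ((Fact.out : p.Prime).coprime_iff_not_dvd).mpr T.not_dvd_index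
  obtain ⟨z, hz⟩ := (hpZ.powEquiv hco).surjective d
  rw [IsPGroup.powEquiv_apply] at hz
  refine ⟨(z : G), fun g => ?_⟩
  have h1 : c g ^ (T : Subgroup G).index = (z * (conjZ g z)⁻¹) ^ (T : Subgroup G).index := by
    rw [mul_pow, inv_pow, ← map_pow, hz, eq_mul_inv_iff_mul_eq, ← hd g]
  have h2 : c g = z * (conjZ g z)⁻¹ := (hpZ.powEquiv hco).injective (by simpa using h1)
  have h3 : α g * g⁻¹ = (z : G) * (g * (z : G) * g⁻¹)⁻¹ := by
    simpa [c, conjZ] using congrArg Subtype.val h2
  calc α g = (α g * g⁻¹) * g := by group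
    _ = (z : G) * g * (z : G)⁻¹ := by rw [h3]; group

end Cfsg.Agent.S1941
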