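import Cfsg.Statements.S1944
import Cfsg.Agent.H51.Basic
import Cfsg.Agent.H19.Cores
import Cfsg.Agent.H56.Coprime

set_option autoImplicit false
open Cfsg

namespace Cfsg.Agent.S1944

/-- Let S be a Sylow p-subgroup of the finite group G and suppose that the centre Z(S) lies in O_{p',p}(G). The elements of S each of which is its only G-conjugate in S form a subgroup W of Z(S); W is then a direct factor of Z(S): there is a subgroup K of Z(S) with W ∩ K = 1 and WK = Z(S). -/
theorem result {G : Type*} [Group G] [Finite G] {p : ℕ} [Fact p.Prime] (S : Sylow p G)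
    (hZ : ((S : Subgroup G) ⊓ Subgroup.centralizer ((S : Subgroup G) : Set G)) ≤ Cfsg.pPrimePCore p G) :
    ∃ W K : Subgroup G, (∀ x : G, x ∈ W ↔ (x ∈ (S : Subgroup G) ∧ ∀ g : G, g * x * g⁻¹ ∈ (S : Subgroup G) → g * x * g⁻¹ = x)) ∧
      K ≤ ((S : Subgroup G) ⊓ Subgroup.centralizer ((S : Subgroup G) : Set G)) ∧ W ⊓ K = ⊥ ∧ W ⊔ K = ((S : Subgroup G) ⊓ Subgroup.centralizer ((S : Subgroup G) : Set G)) := by
  haveI hOn : (Cfsg.pPrimeCore p G).Normal := Cfsg.Agent.H51.pPrimeCore_normal p G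
  set O := Cfsg.pPrimeCore p G with hO
  set π := QuotientGroup.mk' O with hπ
  have hπs : Function.Surjective π := QuotientGroup.mk'_surjective _
  have hOc : (Nat.card O).Coprime p := Cfsg.Agent.H51.pPrimeCore_coprime p G
  set Z : Subgroup G := (S : Subgroup G) ⊓ Subgroup.centralizer ((S : Subgroup G) : Set G) with hZdef
  have hZS : ∀ z ∈ Z, z ∈ (S : Subgroup G) := fun z hz => hz.1
  have hZc : ∀ z ∈ Z, ∀ t ∈ (S : Subgroup G), t * z = z * t :=
    fun z hz t ht => Subgroup.mem_centralizer_iff.mp hz.2 t ht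
  have hordp : ∀ s ∈ (S : Subgroup G), ∃ k : ℕ, s ^ p ^ k = 1 := by
    intro s hs
    obtain ⟨k, hk⟩ := S.2 ⟨s, hs⟩
    exact ⟨k, by simpa using congrArg Subtype.val hk⟩
  have hinj : ∀ s ∈ (S : Subgroup G), π s = 1 → s = 1 := by
    intro s hs h1
    have hsO : s ∈ O := (QuotientGroup.eq_one_iff s).mp h1
    obtain ⟨k, hk⟩ := hordp s hs
    have h2 : s ^ Nat.card O = 1 := by
      simpa only [SubgroupClass.coe_pow, OneMemClass.coe_one] using
        congrArg Subtype.val (pow_card_eq_one' (x := (⟨s, hsO⟩ : O)))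
    have h3 := pow_gcd_eq_one.mpr ⟨h2, hk⟩
    rwa [(hOc.pow_right k : Nat.gcd (Nat.card O) (p ^ k) = 1), pow_one] at h3
  have heq : ∀ s ∈ (S : Subgroup G), ∀ t ∈ (S : Subgroup G), π s = π t → s = t := by
    intro s hs t ht h
    have := hinj (s * t⁻¹) (mul_mem hs (inv_mem ht)) (by rw [map_mul, map_inv, h, mul_inv_cancel])
    exact mul_inv_eq_one.mp this
  set P := Cfsg.pCore p (G ⧸ O) with hP
  haveI hPn : P.Normal := Cfsg.Agent.H51.pCore_normal p _
  have hPS : P ≤ (S : Subgroup G).map π := by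
    have := Cfsg.Agent.H19.pCore_le_sylow (S.mapSurjective hπs)
    rwa [Sylow.coe_mapSurjective] at this
  let M : Subgroup (G ⧸ O) := P ⊓ Subgroup.centralizer (P : Set (G ⧸ O))
  haveI hMn : M.Normal := Subgroup.normal_inf_normal _ _
  letI : CommGroup M :=
    { (inferInstance : Group M) with
      mul_comm := fun a b => Subtype.ext (Subgroup.mem_centralizer_iff.mp b.2.2 a a.2.1) }
  have hZM : ∀ z ∈ Z, π z ∈ M := by
    intro z hz
    refine ⟨hZ hz, Subgroup.mem_centralizer_iff.mpr fun y hy => ?_⟩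
    obtain ⟨t, ht, rfl⟩ := hPS hy
    rw [← map_mul, ← map_mul, hZc z hz t ht]
  let conjM : G → (M →* M) := fun g =>
    { toFun := fun m => ⟨π g * m * (π g)⁻¹, hMn.conj_mem m m.2 (π g)⟩
      map_one' := by ext; simp
      map_mul' := fun a b => by ext; simp [mul_assoc] }
  let ι : Z →* M :=
    { toFun := fun z => ⟨π z, hZM z z.2⟩
      map_one' := by ext; simp
      map_mul' := fun a b => by ext; simp }
  haveI : Fintype (G ⧸ (S : Subgroup G)) := Fintype.ofFinite _
  let N : Z →* M :=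
    { toFun := fun z => ∏ q : G ⧸ (S : Subgroup G), conjM q.out (ι z)
      map_one' := by simp
      map_mul' := fun a b => by simp [Finset.prod_mul_distrib] }
  have hout : ∀ (g : G) (z : Z),
      conjM (g : G ⧸ (S : Subgroup G)).out (ι z) = conjM g (ι z) := by
    intro g z
    obtain ⟨t, ht⟩ := QuotientGroup.mk_out_eq_mul (S : Subgroup G) g
    apply Subtype.ext
    show π (g : G ⧸ (S : Subgroup G)).out * π z * (π (g : G ⧸ (S : Subgroup G)).out)⁻¹ =
      π g * π z * (π g)⁻¹
    simp only [← map_inv, ← map_mul]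
    congr 1
    rw [ht]
    calc g * t * (z : G) * (g * t)⁻¹ = g * ((t : G) * z) * (t : G)⁻¹ * g⁻¹ := by group
      _ = g * ((z : G) * t) * (t : G)⁻¹ * g⁻¹ := by rw [hZc z z.2 t t.2]
      _ = g * z * g⁻¹ := by group
  have hNinv : ∀ (g : G) (z : Z), conjM g (N z) = N z := by
    intro g z
    show conjM g (∏ q : G ⧸ (S : Subgroup G), conjM q.out (ι z)) = ∏ q : G ⧸ (S : Subgroup G), conjM q.out (ι z)
    rw [map_prod]
    refine Eq.trans ?_ (Equiv.prod_comp (MulAction.toPerm g) fun q : G ⧸ (S : Subgroup G) => conjM q.out (ι z))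
    refine Finset.prod_congr rfl fun q _ => ?_
    obtain ⟨x, rfl⟩ := QuotientGroup.mk_surjective q
    simp only [MulAction.toPerm_apply, MulAction.Quotient.smul_coe, smul_eq_mul, hout]
    apply Subtype.ext
    simp [conjM, mul_assoc]
  set n := (S : Subgroup G).index with hn
  have hco : p.Coprime n := ((Fact.out : p.Prime).coprime_iff_not_dvd).mpr S.not_dvd_index
  refine ⟨Z ⊓ (Subgroup.center (G ⧸ O)).comap π, N.ker.map Z.subtype, ?_,
    Subgroup.map_subtype_le _, ?_, ?_⟩
  · intro x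
    constructor
    · rintro ⟨hxZ, hxc⟩
      refine ⟨hxZ.1, fun g hg => heq _ hg _ hxZ.1 ?_⟩
      rw [map_mul, map_mul, Subgroup.mem_center_iff.mp hxc (π g), map_inv, mul_inv_cancel_right]
    · rintro ⟨hxS, hx⟩
      have hxZ : x ∈ Z := ⟨hxS, Subgroup.mem_centralizer_iff.mpr fun t ht => by
        have := hx t (mul_mem (mul_mem ht hxS) (inv_mem ht))
        exact mul_inv_eq_iff_eq_mul.mp this⟩
      refine ⟨hxZ, Subgroup.mem_center_iff.mpr fun y => ?_⟩
      obtain ⟨g, rfl⟩ := hπs y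
      set w := g * x * g⁻¹ with hw
      have hwM : π w ∈ M := by
        rw [hw, map_mul, map_mul, map_inv]
        exact hMn.conj_mem _ (hZM x hxZ) _
      obtain ⟨s, hs, hsw⟩ := hPS hwM.1
      obtain ⟨a, ha⟩ := hordp s hs
      obtain ⟨b, hb⟩ := hordp x hxS
      have hdiv : w * s⁻¹ ∈ O := (QuotientGroup.eq_one_iff _).mp
        (show π (w * s⁻¹) = 1 by rw [map_mul, map_inv, hsw, mul_inv_cancel])
      have hnorm : s ∈ Subgroup.normalizer (O : Set G) :=
        (Subgroup.normalizer_eq_top O).symm ▸ Subgroup.mem_top s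
      obtain ⟨o, ho, hoe⟩ := Cfsg.Agent.H56.exists_conj_of_coset_of_coprime (p ^ (a + b)) O s w hnorm
        (by rw [pow_add, pow_mul, ha, one_pow])
        (by rw [hw, conj_pow, pow_add, mul_comm, pow_mul, hb, one_pow, mul_one, mul_inv_cancel])
        hdiv ((hOc.pow_right _).symm)
      have hsx : s = x := by
        have h1 : o * g * x * (o * g)⁻¹ = s := by rw [← hoe, hw]; group
        rw [← hx (o * g) (by rw [h1]; exact hs), h1]
      have h2 : π w = π x := by rw [← hsw, hsx]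
      rw [hw, map_mul, map_mul, map_inv] at h2
      exact mul_inv_eq_iff_eq_mul.mp h2
  · rw [eq_bot_iff]
    rintro w ⟨⟨hwZ, hwc⟩, ⟨z, hz, hzw⟩⟩
    have hzw' : (z : G) = w := hzw
    have hN : N z = ι z ^ n := by
      show ∏ q : G ⧸ (S : Subgroup G), conjM q.out (ι z) = _
      rw [Finset.prod_eq_pow_card (b := ι z) (fun (q : G ⧸ (S : Subgroup G)) _ => by
          apply Subtype.ext
          show π q.out * π z * (π q.out)⁻¹ = π z
          rw [hzw', Subgroup.mem_center_iff.mp hwc (π q.out), mul_inv_cancel_right]),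
        hn, Subgroup.index_eq_card, Nat.card_eq_fintype_card, Finset.card_univ]
    have hz : N z = 1 := hz
    rw [hN] at hz
    have h1 : π (w ^ n) = 1 := by
      rw [map_pow, ← hzw']
      simpa [ι] using congrArg Subtype.val hz
    have h2 := hinj _ (pow_mem hwZ.1 n) h1
    obtain ⟨k, hk⟩ := hordp w hwZ.1
    have h3 := pow_gcd_eq_one.mpr ⟨h2, hk⟩
    rw [(hco.symm.pow_right k : Nat.gcd n (p ^ k) = 1), pow_one] at h3
    exact Subgroup.mem_bot.mpr h3
  · refine le_antisymm (sup_le inf_le_left (Subgroup.map_subtype_le _)) fun x hx => ?_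
    obtain ⟨s, hs, hsN⟩ := hPS (N ⟨x, hx⟩).2.1
    have hcen : π s ∈ Subgroup.center (G ⧸ O) := by
      refine Subgroup.mem_center_iff.mpr fun y => ?_
      obtain ⟨g, rfl⟩ := hπs y
      rw [hsN]
      exact mul_inv_eq_iff_eq_mul.mp (congrArg Subtype.val (hNinv g ⟨x, hx⟩))
    have hsZ : s ∈ Z := ⟨hs, Subgroup.mem_centralizer_iff.mpr fun t ht => heq _ (mul_mem ht hs) _
      (mul_mem hs ht) (by rw [map_mul, map_mul, Subgroup.mem_center_iff.mp hcen (π t)])⟩
    have hW : IsPGroup p ↥(Z ⊓ (Subgroup.center (G ⧸ O)).comap π) :=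
      S.2.to_le (inf_le_left.trans inf_le_left)
    obtain ⟨w, hw⟩ := (hW.powEquiv hco).surjective
      ⟨s, Subgroup.mem_inf.mpr ⟨hsZ, Subgroup.mem_comap.mpr hcen⟩⟩
    rw [IsPGroup.powEquiv_apply] at hw
    have hws : (w : G) ^ n = s := by simpa using congrArg Subtype.val hw
    have hker : (⟨x, hx⟩ * (⟨w, w.2.1⟩ : Z)⁻¹ : Z) ∈ N.ker := by
      have hNw : N ⟨w, w.2.1⟩ = ι ⟨w, w.2.1⟩ ^ n := by
        show ∏ q : G ⧸ (S : Subgroup G), conjM q.out (ι ⟨w, w.2.1⟩) = _
        rw [Finset.prod_eq_pow_card (b := ι ⟨w, w.2.1⟩) (fun (q : G ⧸ (S : Subgroup G)) _ => by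
            apply Subtype.ext
            show π q.out * π (w : G) * (π q.out)⁻¹ = π (w : G)
            rw [Subgroup.mem_center_iff.mp w.2.2 (π q.out), mul_inv_cancel_right]),
          hn, Subgroup.index_eq_card, Nat.card_eq_fintype_card, Finset.card_univ]
      rw [MonoidHom.mem_ker, map_mul, map_inv, mul_inv_eq_one, hNw]
      apply Subtype.ext
      simp [ι, ← hsN, ← hws]
    have := Subgroup.mul_mem _
      (Subgroup.mem_sup_right (S := Z ⊓ (Subgroup.center (G ⧸ O)).comap π)
        (Subgroup.mem_map_of_mem Z.subtype hker))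
      (Subgroup.mem_sup_left (T := N.ker.map Z.subtype) w.2)
    simpa using this

end Cfsg.Agent.S1944
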