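import Cfsg.Statements.S1945
import Cfsg.Agent.S1944
import Cfsg.Agent.H72.WeaklyClosedCenter
import Cfsg.Agent.H35.Stable
import Cfsg.Agent.H77.SolvableCore

set_option autoImplicit false
open Cfsg

namespace Cfsg.Agent.S1945

/-- Hall–Higman: the centre of a Sylow subgroup of a solvable group lies in `O_{p',p}`. -/
theorem center_le_of_solvable {G : Type*} [Group G] [Finite G] [Group.IsSolvable G] {p : ℕ}
    [Fact p.Prime] (S : Sylow p G) :
    (S : Subgroup G) ⊓ Subgroup.centralizer ((S : Subgroup G) : Set G) ≤ Cfsg.pPrimePCore p G := by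
  haveI := Cfsg.Agent.H19.pPrimeCore_normal p G
  set π := QuotientGroup.mk' (Cfsg.pPrimeCore p G) with hπ
  have hπs : Function.Surjective π := QuotientGroup.mk'_surjective _
  haveI : Group.IsSolvable (G ⧸ Cfsg.pPrimeCore p G) := Group.isSolvable_of_surjective hπs
  intro x hx
  show π x ∈ Cfsg.pCore p (G ⧸ Cfsg.pPrimeCore p G)
  refine H77.centralizer_pCore_le p (H19.pPrimeCore_quotient_pPrimeCore p) ?_
  have hPS := H19.pCore_le_sylow (S.mapSurjective hπs)
  rw [Sylow.coe_mapSurjective] at hPS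
  refine Subgroup.mem_centralizer_iff.mpr fun y hy => ?_
  obtain ⟨t, ht, rfl⟩ := hPS hy
  rw [← map_mul, ← map_mul, Subgroup.mem_centralizer_iff.mp hx.2 t ht]

/-- For odd `p`, the elements of `S` isolated in `G` are those isolated in `N(J(S))`. -/
theorem exists_of_odd {G : Type*} [Group G] [Finite G] {p : ℕ} [Fact p.Prime] (hp : p ≠ 2)
    (S : Sylow p G) :
    ∃ W K : Subgroup G, (∀ x : G, x ∈ W ↔ (x ∈ (S : Subgroup G) ∧ ∀ g : G, g * x * g⁻¹ ∈ (S : Subgroup G) → g * x * g⁻¹ = x)) ∧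
      K ≤ ((S : Subgroup G) ⊓ Subgroup.centralizer ((S : Subgroup G) : Set G)) ∧ W ⊓ K = ⊥ ∧ W ⊔ K = ((S : Subgroup G) ⊓ Subgroup.centralizer ((S : Subgroup G) : Set G)) := by
  set J := Cfsg.thompsonSubgroupAOf (S : Subgroup G) with hJ
  set N := Subgroup.normalizer (J : Set G) with hN
  have hSN : (S : Subgroup G) ≤ N := H72.le_normalizer_thompsonSubgroupAOf _
  have hJS : J ≤ (S : Subgroup G) := H72.thompsonSubgroupAOf_le _
  set Z := (S : Subgroup G) ⊓ Subgroup.centralizer ((S : Subgroup G) : Set G) with hZ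
  have hZJ : Z ≤ J := by
    obtain ⟨A, hA⟩ := H72.exists_isMaxAb (S : Subgroup G)
    refine le_trans ?_ hA.le_thompson
    have hcomm : ∀ a ∈ A ⊔ Z, ∀ b ∈ A ⊔ Z, Commute a b := by
      have hle : A ⊔ Z ≤ Subgroup.centralizer ((A ⊔ Z : Subgroup G) : Set G) := by
        refine sup_le ?_ ?_
        · rw [Subgroup.le_centralizer_iff]
          exact sup_le (fun a ha => Subgroup.mem_centralizer_iff.mpr fun b hb => (hA.2.1 b hb a ha).eq)
            (fun z hz => Subgroup.mem_centralizer_iff.mpr fun b hb =>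
              Subgroup.mem_centralizer_iff.mp hz.2 b (hA.1 hb))
        · rw [Subgroup.le_centralizer_iff]
          exact sup_le
            (fun a ha => Subgroup.mem_centralizer_iff.mpr fun z hz =>
              (Subgroup.mem_centralizer_iff.mp hz.2 a (hA.1 ha)).symm)
            (fun z hz => Subgroup.mem_centralizer_iff.mpr fun z' hz' =>
              Subgroup.mem_centralizer_iff.mp hz.2 z' hz'.1)
      exact fun a ha b hb => Subgroup.mem_centralizer_iff.mp (hle hb) a ha
    have h := Subgroup.eq_of_le_of_card_ge (le_sup_left : A ≤ A ⊔ Z)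
      (hA.2.2 _ (sup_le hA.1 inf_le_left) hcomm)
    exact h ▸ le_sup_right
  set SN := S.subtype hSN with hSNdef
  have hcoe : (SN : Subgroup N) = (S : Subgroup G).subgroupOf N := Sylow.coe_subtype S hSN
  have hcent : ∀ z : N, (z ∈ (SN : Subgroup N) ⊓ Subgroup.centralizer ((SN : Subgroup N) : Set N)) ↔
      (z : G) ∈ Z := by
    intro z
    rw [Subgroup.mem_inf, hcoe, Subgroup.mem_subgroupOf, Subgroup.mem_inf, Subgroup.mem_centralizer_iff,
      Subgroup.mem_centralizer_iff]
    constructor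
    · exact fun ⟨h1, h2⟩ => ⟨h1, fun t ht => congrArg Subtype.val (h2 ⟨t, hSN ht⟩ ht)⟩
    · exact fun ⟨h1, h2⟩ => ⟨h1, fun t ht => Subtype.ext (h2 _ ht)⟩
  have hJp : Cfsg.pPrimePCore p N ≥ J.subgroupOf N := by
    haveI : (J.subgroupOf N).Normal := Subgroup.normal_subgroupOf_of_le_normalizer le_rfl
    exact H35.le_pPrimePCore_of_normal inferInstance
      ((S.2.to_le hJS).of_equiv (Subgroup.subgroupOfEquivOfLe Subgroup.le_normalizer).symm)
  obtain ⟨W, K, hW, hK, hdisj, hsup⟩ :=
    S1944.result SN (fun z hz => hJp (Subgroup.mem_subgroupOf.mpr (hZJ ((hcent z).mp hz))))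
  have hmapZ : ((SN : Subgroup N) ⊓ Subgroup.centralizer ((SN : Subgroup N) : Set N)).map N.subtype = Z := by
    ext x
    constructor
    · rintro ⟨z, hz, rfl⟩
      exact (hcent z).mp hz
    · exact fun hx => ⟨⟨x, hSN hx.1⟩, (hcent _).mpr hx, rfl⟩
  refine ⟨W.map N.subtype, K.map N.subtype, fun x => ?_, (Subgroup.map_mono hK).trans hmapZ.le, ?_, ?_⟩
  · constructor
    · rintro ⟨w, hw, rfl⟩
      have hwS : (w : G) ∈ (S : Subgroup G) := by
        have := ((hW w).mp hw).1
        rwa [hcoe, Subgroup.mem_subgroupOf] at this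
      refine ⟨hwS, fun g hg => ?_⟩
      have hwZ : (w : G) ∈ Z := (hcent w).mp (hsup ▸ Subgroup.mem_sup_left hw)
      refine H72.conj_eq_self_of_center_normalizer S (w : G) (w : G) hwS hwS
        (fun s hs => Subgroup.mem_centralizer_iff.mp hwZ.2 s hs) (Or.inl ⟨hp, rfl⟩) (fun n hn => ?_) hg
      have hconj : n * (w : G) * n⁻¹ ∈ (S : Subgroup G) :=
        hJS ((Subgroup.mem_normalizer_iff.mp hn (w : G)).mp (hZJ hwZ))
      have := ((hW w).mp hw).2 ⟨n, hn⟩ (by rw [hcoe, Subgroup.mem_subgroupOf]; exact hconj)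
      exact mul_inv_eq_iff_eq_mul.mp (congrArg Subtype.val this)
    · rintro ⟨hxS, hx⟩
      refine ⟨⟨x, hSN hxS⟩, (hW _).mpr ⟨?_, fun g hg => Subtype.ext (hx g ?_)⟩, rfl⟩
      · rw [hcoe, Subgroup.mem_subgroupOf]; exact hxS
      · rw [hcoe, Subgroup.mem_subgroupOf] at hg; exact hg
  · rw [← Subgroup.map_inf _ _ _ N.subtype_injective, hdisj, Subgroup.map_bot]
  · rw [← Subgroup.map_sup, hsup, hmapZ]

/-- Let S be a Sylow p-subgroup of the finite group G, and assume that p is odd or that G is solvable. The elements of S each of which is its only G-conjugate in S form a subgroup W of Z(S); W is then a direct factor of Z(S): there is a subgroup K of Z(S) with W ∩ K = 1 and WK = Z(S). (For p = 2 and G not solvable this can fail.) -/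
theorem result {G : Type*} [Group G] [Finite G] {p : ℕ} [Fact p.Prime] (S : Sylow p G) (h : p ≠ 2 ∨ Group.IsSolvable G) :
    ∃ W K : Subgroup G, (∀ x : G, x ∈ W ↔ (x ∈ (S : Subgroup G) ∧ ∀ g : G, g * x * g⁻¹ ∈ (S : Subgroup G) → g * x * g⁻¹ = x)) ∧
      K ≤ ((S : Subgroup G) ⊓ Subgroup.centralizer ((S : Subgroup G) : Set G)) ∧ W ⊓ K = ⊥ ∧ W ⊔ K = ((S : Subgroup G) ⊓ Subgroup.centralizer ((S : Subgroup G) : Set G)) := by
  rcases h with hp | hs
  · exact exists_of_odd hp S
  · haveI := hs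
    exact S1944.result S (center_le_of_solvable S)

end Cfsg.Agent.S1945
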