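import Cfsg.Statements.S1946
import Cfsg.Agent.H60.SmallFiltration

set_option autoImplicit false
open Cfsg
open scoped commutatorElement

namespace Cfsg.Agent.S1946

/-- Let P be a Sylow p-subgroup of the finite group G. Then G has a normal p-complement if and only if P controls the fusion of its elements of order dividing p (dividing 4 when p = 2): whenever such an element a of P has a G-conjugate g a g⁻¹ in P, that conjugate is already x a x⁻¹ for some x in P. -/
theorem result {G : Type*} [Group G] [Finite G] {p : ℕ} [Fact p.Prime] (P : Sylow p G) :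
    Cfsg.HasNormalPComplement p G ↔
      ∀ a ∈ (P : Subgroup G), (a ^ p = 1 ∨ (p = 2 ∧ a ^ 4 = 1)) → ∀ g : G, g * a * g⁻¹ ∈ (P : Subgroup G) →
        ∃ x ∈ (P : Subgroup G), g * a * g⁻¹ = x * a * x⁻¹ := by
  constructor
  · intro h a ha _ g hga
    obtain ⟨P₀, N, hN, hNP⟩ := h
    haveI := hN
    obtain ⟨c, hc⟩ := MulAction.exists_smul_eq G P₀ P
    have hcard : (Nat.card N).Coprime p := by
      rw [← hNP.index_eq_card]
      exact ((Fact.out : p.Prime).coprime_iff_not_dvd.mpr P₀.not_dvd_index).symm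
    have hdisj : Disjoint N (P : Subgroup G) := Subgroup.disjoint_of_coprime_natCard (by
      obtain ⟨k, hk⟩ := P.2.exists_card_eq
      rw [hk]; exact hcard.pow_right k)
    have htop : N ⊔ (P : Subgroup G) = ⊤ := by
      refine Subgroup.eq_top_of_le_card _ ?_
      have h1 : Nat.card (P : Subgroup G) * Nat.card N = Nat.card G := by
        rw [show Nat.card (P : Subgroup G) = Nat.card (P₀ : Subgroup G) from Nat.card_congr (P.equiv P₀).toEquiv,
          mul_comm]
        exact hNP.card_mul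
      have h2 : Nat.card N ∣ Nat.card ↥(N ⊔ (P : Subgroup G)) := Subgroup.card_dvd_of_le le_sup_left
      have h3 : Nat.card (P : Subgroup G) ∣ Nat.card ↥(N ⊔ (P : Subgroup G)) := Subgroup.card_dvd_of_le le_sup_right
      obtain ⟨k, hk⟩ := P.2.exists_card_eq
      rw [hk] at h3
      rw [← h1, hk]
      exact Nat.le_of_dvd Nat.card_pos ((hcard.pow_right k).symm.mul_dvd_of_dvd_of_dvd h3 h2)
    have hg : g ∈ N ⊔ (P : Subgroup G) := htop ▸ Subgroup.mem_top g
    obtain ⟨k, hk, x, hx, rfl⟩ := Subgroup.mem_sup_of_normal_left.mp hg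
    refine ⟨x, hx, ?_⟩
    set b := x * a * x⁻¹ with hb
    have hbP : b ∈ (P : Subgroup G) := mul_mem (mul_mem hx ha) (inv_mem hx)
    have e : k * x * a * (k * x)⁻¹ = k * b * k⁻¹ := by rw [hb]; group
    rw [e] at hga ⊢
    have h1 : k * b * k⁻¹ * b⁻¹ ∈ N := by
      rw [mul_assoc, mul_assoc, ← mul_assoc b k⁻¹]
      exact mul_mem hk (hN.conj_mem _ (inv_mem hk) b)
    exact mul_inv_eq_one.mp (Subgroup.disjoint_def.mp hdisj h1 (mul_mem hga (inv_mem hbP)))
  · intro h
    refine Cfsg.Agent.H22.hasNormalPComplement_of_frobenius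
      (Cfsg.Agent.H22.frobeniusCondition_of_sylow P fun Q hQ g hg hgp => ?_)
    haveI : Group.IsNilpotent (P : Subgroup G) := P.2.isNilpotent
    obtain ⟨n, hn⟩ := (inferInstance : Group.IsNilpotent (P : Subgroup G)).nilpotent'
    refine Cfsg.Agent.H60.mem_centralizer_of_levels (P.2.to_le hQ) hg hgp n
      (fun i => ((Subgroup.upperCentralSeries (P : Subgroup G) i).map (P : Subgroup G).subtype : Set G)) ?_ ?_ ?_
    · intro a ha
      simpa [Subgroup.upperCentralSeries_zero] using ha
    · intro a ha _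
      exact ⟨⟨a, hQ ha⟩, by rw [hn]; exact Subgroup.mem_top _, rfl⟩
    · rintro i a ⟨a', ha', rfl⟩ haQ hsm
      obtain ⟨x, hx, hxe⟩ := h _ a'.2 hsm g (hQ ((Subgroup.mem_normalizer_iff.mp hg _).mp haQ))
      refine ⟨⁅a'⁻¹, (⟨x, hx⟩ : (P : Subgroup G))⁆,
        Subgroup.mem_upperCentralSeries_succ_iff.1 (inv_mem ha') ⟨x, hx⟩, ?_⟩
      simp only [Subgroup.coe_subtype] at hxe ⊢
      rw [hxe, commutatorElement_def, inv_inv]
      simp only [Subgroup.coe_mul, Subgroup.coe_inv]
      group

end Cfsg.Agent.S1946
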