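import Cfsg.Statements.S1947
import Cfsg.Agent.H60.SmallFiltration

set_option autoImplicit false
open Cfsg
open scoped commutatorElement

namespace Cfsg.Agent.S1947

/-- Let G be a finite group and p a prime. If every element of G of order dividing p (dividing 4 when p = 2) lies in some fixed term Z_n(G) of the upper central series, then G has a normal p-complement. -/
theorem result {G : Type*} [Group G] [Finite G] {p : ℕ} [Fact p.Prime] (n : ℕ)
    (h : ∀ a : G, (a ^ p = 1 ∨ (p = 2 ∧ a ^ 4 = 1)) → a ∈ Subgroup.upperCentralSeries G n) : Cfsg.HasNormalPComplement p G := by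
  refine Cfsg.Agent.H22.hasNormalPComplement_of_frobenius fun Q hQ g hg hgp => ?_
  refine Cfsg.Agent.H60.mem_centralizer_of_levels hQ hg hgp n
    (fun i => (Subgroup.upperCentralSeries G i : Set G)) ?_ (fun a _ ha => h a ha) ?_
  · intro a ha
    simpa [Subgroup.upperCentralSeries_zero] using ha
  · intro i a ha _ _
    have h1 := Subgroup.mem_upperCentralSeries_succ_iff.1 (inv_mem ha) g
    have e : a⁻¹ * (g * a * g⁻¹) = ⁅a⁻¹, g⁆ := by rw [commutatorElement_def]; group
    rw [SetLike.mem_coe, e]
    exact h1

end Cfsg.Agent.S1947
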