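import Cfsg.Statements.S1948
import Cfsg.Agent.H35.Constrained
import Cfsg.Agent.H19.Cores

set_option autoImplicit false
open Cfsg

namespace Cfsg.Agent.S1948

/-- Let S be a Sylow p-subgroup of the finite group G. Then G = N_G(S)·O_{p'}(G) if and only if G is p-constrained and N_G(S) controls fusion in S, in the sense that whenever a subgroup Q of S has a conjugate g Q g⁻¹ inside S, the element g is a product n c with n normalizing S and c centralizing Q. -/
theorem result {G : Type*} [Group G] [Finite G] {p : ℕ} [Fact p.Prime] (S : Sylow p G) :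
    Subgroup.normalizer ((S : Subgroup G) : Set G) ⊔ Cfsg.pPrimeCore p G = ⊤ ↔
      (Cfsg.IsPConstrained p G ∧
        ∀ Q : Subgroup G, Q ≤ (S : Subgroup G) → ∀ g : G, Q.map (MulAut.conj g).toMonoidHom ≤ (S : Subgroup G) →
          ∃ n ∈ Subgroup.normalizer ((S : Subgroup G) : Set G), ∃ c ∈ Subgroup.centralizer (Q : Set G), g = n * c) := by
  haveI hOn : (Cfsg.pPrimeCore p G).Normal := Cfsg.Agent.H51.pPrimeCore_normal p G
  set O := Cfsg.pPrimeCore p G with hO
  set π := QuotientGroup.mk' O with hπ
  have hπs : Function.Surjective π := QuotientGroup.mk'_surjective _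
  have hOc : (Nat.card O).Coprime p := Cfsg.Agent.H51.pPrimeCore_coprime p G
  have hinj : ∀ s ∈ (S : Subgroup G), s ∈ O → s = 1 := by
    intro s hs hsO
    obtain ⟨k, hk⟩ := S.2.exists_card_eq
    have h : Disjoint O (S : Subgroup G) := Subgroup.disjoint_of_coprime_natCard (by
      rw [hk]; exact hOc.pow_right k)
    exact Subgroup.disjoint_def.mp h hsO hs
  constructor
  · intro htop
    constructor
    · set Sb := S.mapSurjective hπs
      have hSn : (Sb : Subgroup (G ⧸ O)).Normal := by
        rw [← Subgroup.normalizer_eq_top_iff, eq_top_iff, ← Subgroup.map_top_of_surjective π hπs, ← htop,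
          Subgroup.map_sup, sup_le_iff]
        refine ⟨?_, ?_⟩
        · rw [Sylow.coe_mapSurjective]
          exact Subgroup.le_normalizer_map π
        · rw [(Subgroup.map_eq_bot_iff O).mpr (by rw [hπ, QuotientGroup.ker_mk'])]
          exact bot_le
      have hPb : Cfsg.pCore p (G ⧸ O) = (Sb : Subgroup (G ⧸ O)) :=
        le_antisymm (Cfsg.Agent.H19.pCore_le_sylow Sb) (Cfsg.Agent.H51.le_pCore hSn Sb.2)
      have hsol : Cfsg.IsPSolvable p (G ⧸ O) := by
        refine ⟨2, ![⊥, (Sb : Subgroup (G ⧸ O)), ⊤], rfl, rfl, ?_, ?_, ?_⟩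
        · rw [Fin.monotone_iff_le_succ]
          intro i
          fin_cases i <;> simp
        · intro i
          fin_cases i
          · exact inferInstanceAs (⊥ : Subgroup (G ⧸ O)).Normal
          · exact hSn
          · exact inferInstanceAs (⊤ : Subgroup (G ⧸ O)).Normal
        · intro i
          fin_cases i
          · left
            obtain ⟨k, hk⟩ := Sb.2.exists_card_eq
            exact ⟨k, by simpa [Subgroup.relIndex_bot_left] using hk⟩
          · right
            simpa [Subgroup.relIndex_top_right] using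
              ((Fact.out : p.Prime).coprime_iff_not_dvd.mpr Sb.not_dvd_index).symm
      rw [Cfsg.Agent.H51.isPConstrained_iff_centralizer_pCore_le]
      exact Cfsg.Agent.H35.centralizer_pCore_le_of_isPSolvable (Cfsg.Agent.H51.pPrimeCore_quotient_self p)
        (Cfsg.Agent.H35.isPSolvable_subgroup hsol _)
    · intro Q hQ g hg
      have hg' : g ∈ Subgroup.normalizer ((S : Subgroup G) : Set G) ⊔ O := htop ▸ Subgroup.mem_top g
      rw [← SetLike.mem_coe, Subgroup.mul_normal] at hg'
      obtain ⟨n, hn, o, ho, rfl⟩ := hg'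
      refine ⟨n, hn, o, Subgroup.mem_centralizer_iff.mpr fun q hq => ?_, rfl⟩
      have h1 : n * o * q * (n * o)⁻¹ ∈ (S : Subgroup G) := hg ⟨q, hq, rfl⟩
      have h2 : o * q * o⁻¹ ∈ (S : Subgroup G) := by
        rw [Subgroup.mem_normalizer_iff.mp hn]
        have e : n * (o * q * o⁻¹) * n⁻¹ = n * o * q * (n * o)⁻¹ := by group
        rw [e]
        exact h1
      have h3 : o * q * o⁻¹ * q⁻¹ ∈ O := by
        rw [mul_assoc, mul_assoc, ← mul_assoc q o⁻¹]
        exact mul_mem ho (hOn.conj_mem _ (inv_mem ho) q)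
      have h4 := hinj _ (mul_mem h2 (inv_mem (hQ hq))) h3
      rw [mul_inv_eq_one, mul_inv_eq_iff_eq_mul] at h4
      exact h4.symm
  · rintro ⟨hcon, hfus⟩
    set M := Cfsg.pPrimePCore p G with hM
    haveI : M.Normal := (Cfsg.Agent.H51.pCore_normal p _).comap _
    obtain ⟨P⟩ : Nonempty (Sylow p M) := inferInstance
    obtain ⟨x, hx⟩ : ∃ x : G, ((P : Subgroup M).map M.subtype).map (MulAut.conj x).toMonoidHom ≤ (S : Subgroup G) := by
      obtain ⟨S', hS'⟩ := (P.2.map M.subtype).exists_le_sylow
      obtain ⟨x, hx⟩ := MulAction.exists_smul_eq G S' S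
      exact ⟨x, (Subgroup.map_mono hS').trans (le_of_eq (by rw [← hx]; rfl))⟩
    let P' : Sylow p M := P.comapOfInjective (MulAut.conjNormal (H := M) x⁻¹).toMonoidHom
      (MulEquiv.injective _) (fun z _ => (MulEquiv.surjective _) z)
    have hP'S : (P' : Subgroup M).map M.subtype ≤ (S : Subgroup G) := by
      rintro _ ⟨z, hz, rfl⟩
      have hz' : MulAut.conjNormal (H := M) x⁻¹ z ∈ (P : Subgroup M) := hz
      have := hx ⟨_, Subgroup.mem_map_of_mem M.subtype hz', rfl⟩
      simpa [MulAut.conj_apply, mul_assoc] using this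
    set Q := (P' : Subgroup M).map M.subtype with hQ
    have hCQ : Subgroup.centralizer (Q : Set G) ≤ M := hcon P'
    have hQM : Q ≤ M := Subgroup.map_subtype_le _
    have hMQO : M ≤ Q ⊔ O := by
      intro m hm
      have h1 : π m ∈ Q.map π := by
        rw [hQ, Cfsg.Agent.H35.map_sylow_pPrimePCore P']
        exact hm
      have h2 : m ∈ (Q.map π).comap π := h1
      rwa [Subgroup.comap_map_eq, hπ, QuotientGroup.ker_mk'] at h2
    have hfr : Subgroup.normalizer (Q : Set G) ⊔ M = ⊤ := Sylow.normalizer_sup_eq_top P'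
    rw [eq_top_iff, ← hfr]
    have hMle : M ≤ Subgroup.normalizer ((S : Subgroup G) : Set G) ⊔ O :=
      hMQO.trans (sup_le_sup_right (hP'S.trans Subgroup.le_normalizer) _)
    refine sup_le (fun g hg => ?_) hMle
    have hgQ : Q.map (MulAut.conj g).toMonoidHom ≤ (S : Subgroup G) := by
      rintro _ ⟨q, hq, rfl⟩
      exact hP'S ((Subgroup.mem_normalizer_iff.mp hg q).mp hq)
    obtain ⟨n, hn, c, hc, rfl⟩ := hfus Q hP'S g hgQ
    exact mul_mem (Subgroup.mem_sup_left hn) (hMle (hCQ hc))

end Cfsg.Agent.S1948
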