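import Cfsg.Statements.S1949
import Cfsg.Agent.H96.SmallElements
import Cfsg.Agent.H22.PResidual

set_option autoImplicit false
open Cfsg
open scoped commutatorElement

namespace Cfsg.Agent.S1949

/-- Let P be a finite p-group and G a group of automorphisms of P containing the inner automorphisms. Then there is a G-invariant subgroup D of P, contained in the subgroup generated by the elements x⁻¹α(x) with x in P and α in O^p(G), of exponent dividing p when p is odd and dividing 4 when p = 2, with [D, P] ≤ Z(D), such that every automorphism in G of order prime to p that fixes D elementwise is the identity; moreover every maximal abelian subgroup A of D is normal in P and every automorphism in G fixing A elementwise has p-power order. -/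
theorem result {P : Type*} [Group P] [Finite P] {p : ℕ} [Fact p.Prime] (hP : IsPGroup p P)
    (G : Subgroup (MulAut P)) (hG : Cfsg.Inn P ≤ G) :
    ∃ D : Subgroup P,
      (∀ α ∈ G, D.map α.toMonoidHom = D) ∧
      D ≤ Subgroup.closure {y : P | ∃ α ∈ Cfsg.pResidual p ↥G, ∃ x : P, y = x⁻¹ * (α : MulAut P) x} ∧
      (∀ d ∈ D, d ^ p = 1 ∨ (p = 2 ∧ d ^ 4 = 1)) ∧
      ⁅D, (⊤ : Subgroup P)⁆ ≤ D ⊓ Subgroup.centralizer (D : Set P) ∧
      (∀ α ∈ G, (orderOf α).Coprime p → (∀ d ∈ D, α d = d) → α = 1) ∧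
      ∀ A : Subgroup P, A ≤ D → IsMulCommutative ↥A →
        (∀ B : Subgroup P, A ≤ B → B ≤ D → IsMulCommutative ↥B → B = A) →
        A.Normal ∧ ∀ α ∈ G, (∀ a ∈ A, α a = a) → ∃ k : ℕ, orderOf α = p ^ k := by
  classical
  set R := Cfsg.pResidual p ↥G with hR
  set Q := Subgroup.closure {y : P | ∃ α ∈ R, ∃ x : P, y = x⁻¹ * (α : MulAut P) x} with hQdef
  haveI hRn : R.Normal := Cfsg.Agent.H22.pResidual_normal
  have hinn : ∀ g : P, MulAut.conj g ∈ G := fun g => hG ⟨g, rfl⟩
  have hnorm : ∀ B : Subgroup P, (∀ α ∈ G, ∀ x ∈ B, α x ∈ B) → B.Normal := fun B hB =>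
    ⟨fun x hx g => hB _ (hinn g) x hx⟩
  have hQinv : ∀ α ∈ G, ∀ x ∈ Q, α x ∈ Q := by
    intro α hα x hx
    suffices Q ≤ Q.comap α.toMonoidHom from this hx
    rw [hQdef, Subgroup.closure_le]
    rintro _ ⟨γ, hγ, z, rfl⟩
    refine Subgroup.subset_closure ⟨⟨α, hα⟩ * γ * ⟨α, hα⟩⁻¹, hRn.conj_mem γ hγ _, α z, ?_⟩
    show α (z⁻¹ * (γ : MulAut P) z) = (α z)⁻¹ * α ((γ : MulAut P) (α⁻¹ (α z)))
    rw [MulAut.inv_apply_self, map_mul, map_inv]
  haveI := hnorm Q hQinv
  obtain ⟨Z, ⟨⟨hZQ, hZc, hZinv⟩, hZmax⟩⟩ := Set.Finite.exists_maximal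
    (s := {B : Subgroup P | B ≤ Q ∧ B ≤ Subgroup.centralizer (B : Set P) ∧ ∀ α ∈ G, ∀ x ∈ B, α x ∈ B})
    (Set.toFinite _) ⟨⊥, bot_le, fun x hx => by
        rw [Subgroup.mem_bot] at hx; subst hx; exact one_mem _,
      fun α _ x hx => by rw [Subgroup.mem_bot] at hx ⊢; rw [hx, map_one]⟩
  haveI hZn := hnorm Z hZinv
  set L := Cfsg.Agent.H24.centralTorsion Z p with hL
  set D₀ := Q ⊓ L with hD₀
  have hD₀inv : ∀ α ∈ G, ∀ x ∈ D₀, α x ∈ D₀ := by
    rintro α hα x ⟨hxQ, h1, h2, h3⟩
    refine ⟨hQinv α hα x hxQ, fun z hz => ?_, fun g => ?_, ?_⟩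
    · have := congrArg α (h1 (α⁻¹ z) (hZinv _ (inv_mem hα) z hz))
      simpa using this
    · have := hZinv α hα _ (h2 (α⁻¹ g))
      simpa [map_commutatorElement] using this
    · rw [← map_pow]; exact hZinv α hα _ h3
  haveI := hnorm D₀ hD₀inv
  have hcomm : ∀ x ∈ D₀, ∀ g : P, ⁅x, g⁆ ∈ Z := fun x hx g => hx.2.2.1 g
  have hZD : Z ≤ D₀ := fun z hz => ⟨hZQ hz, hZc hz, fun g => by
    rw [commutatorElement_def, mul_assoc, mul_assoc, ← mul_assoc g]
    exact mul_mem hz (hZn.conj_mem _ (Subgroup.inv_mem _ hz) g), pow_mem hz p⟩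
  have hDZ : ∀ d ∈ D₀, ∀ z ∈ Z, z * d = d * z := fun d hd z hz => hd.2.1 z hz
  set C := Q ⊓ Subgroup.centralizer (D₀ : Set P) with hC
  have hCinv : ∀ α ∈ G, ∀ x ∈ C, α x ∈ C := by
    rintro α hα x ⟨hxQ, hxc⟩
    refine ⟨hQinv α hα x hxQ, fun d hd => ?_⟩
    have := congrArg α (hxc (α⁻¹ d) (hD₀inv _ (inv_mem hα) d hd))
    simpa using this
  haveI := hnorm C hCinv
  have hCD : C ⊓ D₀ ≤ Z := by
    refine hZmax ⟨inf_le_right.trans inf_le_left, ?_, ?_⟩ (le_inf (le_inf hZQ fun z hz d hd => (hDZ d hd z hz).symm) hZD)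
    · intro x hx y hy
      exact hx.1.2 y hy.2
    · exact fun α hα x hx => ⟨hCinv α hα x hx.1, hD₀inv α hα x hx.2⟩
  have hZC : Z ≤ C := le_inf hZQ fun z hz d hd => (hDZ d hd z hz).symm
  have hCZ : C = Z := by
    by_contra hne
    obtain ⟨K, hKn, hZK, hKC, hKc, hKcomm⟩ :=
      Cfsg.Agent.H24.exists_normal_between hP hZC (fun h => hne h.symm)
    have hKD : K ≤ D₀ := by
      intro q hq
      refine ⟨(hKC hq).1, Subgroup.centralizer_le hZD (hKC hq).2, fun g => ?_, ?_⟩
      · rw [← commutatorElement_inv]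
        exact Subgroup.inv_mem _ (hKcomm (Subgroup.commutator_mem_commutator (Subgroup.mem_top g) hq))
      · have hr : Z.relIndex K = p := by
          have h := Cfsg.Agent.H24.card_mul_relIndex hZK
          rw [hKc, mul_comm p] at h
          exact Nat.eq_of_mul_eq_mul_left Nat.card_pos h
        have h := (Z.subgroupOf K).pow_index_mem ⟨q, hq⟩
        change _ ^ Z.relIndex K ∈ _ at h
        rw [hr] at h
        simpa [Subgroup.mem_subgroupOf] using h
    have h2 := Subgroup.card_le_of_le ((le_inf hKC hKD).trans hCD)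
    rw [hKc] at h2
    nlinarith [(Fact.out : p.Prime).two_le, (Nat.card_pos : 0 < Nat.card Z)]
  have hfix : ∀ b ∈ G, (orderOf b).Coprime p → (∀ x ∈ D₀, b x = x) → b = 1 := by
    intro b hb hco h
    have hQfix : ∀ x ∈ Q, b x = x := by
      intro x hx
      refine Cfsg.Agent.H96.apply_eq_of_fix_displacement hP hco (h _ ?_)
      have hmem : x⁻¹ * b x ∈ C := by
        refine ⟨mul_mem (Subgroup.inv_mem _ hx) (hQinv b hb x hx), fun d hd => ?_⟩
        have h1 := h _ ((inferInstance : D₀.Normal).conj_mem d hd x)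
        rw [map_mul, map_mul, map_inv, h d hd] at h1
        calc d * (x⁻¹ * b x) = x⁻¹ * (x * d * x⁻¹) * b x := by group
          _ = x⁻¹ * (b x * d * (b x)⁻¹) * b x := by rw [h1]
          _ = x⁻¹ * b x * d := by group
      rw [hCZ] at hmem
      exact hZD hmem
    refine MulEquiv.ext fun x => ?_
    rw [MulAut.one_apply]
    refine Cfsg.Agent.H96.apply_eq_of_fix_displacement hP hco (hQfix _ ?_)
    exact Subgroup.subset_closure ⟨⟨b, hb⟩,
      Cfsg.Agent.H22.mem_pResidual_of_coprime (by rwa [Subgroup.orderOf_mk]), x, rfl⟩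
  -- the elements of small order
  let D : Subgroup P :=
    { carrier := {x | x ∈ D₀ ∧ x ^ Cfsg.Agent.H96.smallExp p = 1}
      one_mem' := ⟨D₀.one_mem, one_pow _⟩
      inv_mem' := fun {a} ha => ⟨D₀.inv_mem ha.1, by rw [inv_pow, ha.2, inv_one]⟩
      mul_mem' := by
        rintro u v ⟨hu, hu'⟩ ⟨hv, hv'⟩
        refine ⟨D₀.mul_mem hu hv, ?_⟩
        have hclass : ∀ w ∈ D₀, Commute ⁅v⁻¹, u⁻¹⁆ w := fun w hw =>
          hDZ w hw _ (hcomm _ (D₀.inv_mem hv) _)
        have hc : v * u = u * v * ⁅v⁻¹, u⁻¹⁆ := by rw [commutatorElement_def]; group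
        have hcp : ⁅v⁻¹, u⁻¹⁆ ^ p = 1 := by
          have hvp : ∀ m : ℕ, v * u ^ m = u ^ m * v * ⁅v⁻¹, u⁻¹⁆ ^ m := by
            intro m
            induction m with
            | zero => simp
            | succ m ih =>
              rw [pow_succ, ← mul_assoc, ih, mul_assoc (u ^ m * v),
                ((hclass u hu).pow_left m).eq, mul_assoc (u ^ m), ← mul_assoc v, hc, pow_succ']
              simp only [mul_assoc]
          have h1 := hvp p
          have h2 : v * u ^ p = u ^ p * v := (hDZ v hv _ hu.2.2.2).symm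
          rw [h2] at h1
          exact mul_eq_left.1 h1.symm
        rw [Cfsg.Agent.H84.mul_pow_of_central_comm hc (hclass u hu) (hclass v hv), hu', hv',
          one_mul, one_mul]
        have hdvd : p ∣ (Cfsg.Agent.H96.smallExp p).choose 2 := by
          rw [Cfsg.Agent.H96.smallExp]
          split_ifs with h
          · subst h; exact ⟨3, rfl⟩
          · exact (Fact.out : p.Prime).dvd_choose_self (by norm_num)
              (lt_of_le_of_ne (Fact.out : p.Prime).two_le (Ne.symm h))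
        obtain ⟨k, hk⟩ := hdvd
        rw [hk, pow_mul, hcp, one_pow] }
  have hDinv : ∀ α ∈ G, ∀ x ∈ D, α x ∈ D := fun α hα x hx =>
    ⟨hD₀inv α hα x hx.1, by rw [← map_pow, hx.2, map_one]⟩
  haveI hDn := hnorm D hDinv
  have hDcomm : ∀ x ∈ D, ∀ g : P, ⁅x, g⁆ ∈ D ∧ ⁅x, g⁆ ∈ Subgroup.centralizer (D : Set P) := fun x hx g =>
    ⟨by rw [commutatorElement_def, mul_assoc, mul_assoc, ← mul_assoc g]
        exact mul_mem hx (hDn.conj_mem _ (Subgroup.inv_mem _ hx) g),
      fun d hd => (hDZ d hd.1 _ (hcomm x hx.1 g)).symm⟩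
  have hfaith : ∀ b ∈ G, (orderOf b).Coprime p → (∀ d ∈ D, b d = d) → b = 1 := by
    intro b hb hco h
    refine hfix b hb hco fun x hx => ?_
    let c : MulAut D₀ :=
      { toFun := fun x => ⟨b x, hD₀inv b hb x x.2⟩
        invFun := fun x => ⟨b⁻¹ x, hD₀inv b⁻¹ (inv_mem hb) x x.2⟩
        left_inv := fun x => Subtype.ext (b.symm_apply_apply x)
        right_inv := fun x => Subtype.ext (b.apply_symm_apply x)
        map_mul' := fun x y => Subtype.ext (map_mul b (x : P) y) }
    have hcco : (orderOf c).Coprime p := by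
      refine Nat.Coprime.coprime_dvd_left (orderOf_dvd_of_pow_eq_one ?_) hco
      have : ∀ (m : ℕ) (x : D₀), (((c ^ m) x : D₀) : P) = (b ^ m) (x : P) := by
        intro m
        induction m with
        | zero => exact fun x => rfl
        | succ m ih =>
          intro x
          rw [pow_succ', pow_succ', MulAut.mul_apply, MulAut.mul_apply, ← ih]
          rfl
      exact MulEquiv.ext fun x => Subtype.ext (by rw [this, pow_orderOf_eq_one]; rfl)
    have hc1 : c = 1 := by
      refine Cfsg.Agent.H84.aut_eq_one_of_fixes (hP.to_subgroup D₀) c hcco fun v hv => Subtype.ext ?_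
      refine h _ ⟨v.2, ?_⟩
      rw [← Subgroup.coe_pow, Cfsg.Agent.H96.pow_smallExp hv, Subgroup.coe_one]
    exact congrArg Subtype.val (DFunLike.congr_fun hc1 ⟨x, hx⟩)
  refine ⟨D, fun α hα => ?_, fun x hx => hx.1.1, fun d hd => Cfsg.Agent.H96.small_of_pow_smallExp hd.2,
    Subgroup.commutator_le.mpr fun x hx g _ => Subgroup.mem_inf.mpr (hDcomm x hx g), hfaith, ?_⟩
  · ext x
    constructor
    · rintro ⟨z, hz, rfl⟩; exact hDinv α hα z hz
    · exact fun hx => ⟨α⁻¹ x, hDinv _ (inv_mem hα) x hx, α.apply_symm_apply x⟩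
  intro A hAD hAc hAmax
  have hAcc : ∀ a ∈ A, ∀ b ∈ A, a * b = b * a := fun a ha b hb =>
    congrArg Subtype.val (hAc.is_comm.comm ⟨a, ha⟩ ⟨b, hb⟩)
  have hself : ∀ d ∈ D, (∀ a ∈ A, a * d = d * a) → d ∈ A := by
    intro d hd hcd
    have hB : IsMulCommutative ↥(A ⊔ Subgroup.zpowers d) := by
      rw [← Subgroup.le_centralizer_iff_isMulCommutative, sup_le_iff, Subgroup.zpowers_le]
      constructor
      · refine fun a ha => ?_
        rw [Subgroup.mem_centralizer_iff]
        intro z hz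
        have : A ⊔ Subgroup.zpowers d ≤ Subgroup.centralizer {a} := sup_le
          (fun a' ha' => Subgroup.mem_centralizer_singleton_iff.mpr (hAcc a' ha' a ha))
          (Subgroup.zpowers_le.mpr (Subgroup.mem_centralizer_singleton_iff.mpr (hcd a ha).symm))
        exact Subgroup.mem_centralizer_singleton_iff.mp (this hz)
      · rw [Subgroup.mem_centralizer_iff]
        intro z hz
        have : A ⊔ Subgroup.zpowers d ≤ Subgroup.centralizer {d} := sup_le
          (fun a' ha' => Subgroup.mem_centralizer_singleton_iff.mpr (hcd a' ha'))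
          (Subgroup.zpowers_le.mpr (Subgroup.mem_centralizer_singleton_iff.mpr rfl))
        exact Subgroup.mem_centralizer_singleton_iff.mp (this hz)
    rw [← hAmax _ le_sup_left (sup_le hAD (Subgroup.zpowers_le.mpr hd)) hB]
    exact Subgroup.mem_sup_right (Subgroup.mem_zpowers d)
  have hAn : A.Normal := ⟨fun a ha g => by
    have h2 := hDcomm a (hAD ha) g
    have e2 : g * a * g⁻¹ = ⁅a, g⁆⁻¹ * a := by rw [commutatorElement_def]; group
    rw [e2]
    exact mul_mem (A.inv_mem (hself _ h2.1 fun x hx => h2.2 x (hAD hx))) ha⟩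
  refine ⟨hAn, fun α hα hfixA => ?_⟩
  have hne : orderOf α ≠ 0 := (orderOf_pos α).ne'
  set b := α ^ p ^ (orderOf α).factorization p with hb
  have hco : (orderOf b).Coprime p := by
    rw [hb, orderOf_pow_of_dvd (pow_ne_zero _ (Fact.out : p.Prime).ne_zero) (Nat.ordProj_dvd _ _)]
    exact (Nat.coprime_ordCompl Fact.out hne).symm
  have hbG : b ∈ G := pow_mem hα _
  have hbA : ∀ a ∈ A, b a = a := by
    have : ∀ m : ℕ, ∀ a ∈ A, (α ^ m) a = a := by
      intro m
      induction m with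
      | zero => intro a _; rfl
      | succ m ih => intro a ha; rw [pow_succ', MulAut.mul_apply, ih a ha, hfixA a ha]
    exact fun a ha => this _ a ha
  have hb1 : b = 1 := by
    refine hfaith b hbG hco fun d hd => ?_
    refine Cfsg.Agent.H96.apply_eq_of_fix_displacement hP hco (hbA _ (hself _
      (mul_mem (D.inv_mem hd) (hDinv b hbG d hd)) fun a ha => ?_))
    have h1 := hbA _ (hAn.conj_mem a ha d)
    rw [map_mul, map_mul, map_inv, hbA a ha] at h1
    calc a * (d⁻¹ * b d) = d⁻¹ * (d * a * d⁻¹) * b d := by group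
      _ = d⁻¹ * (b d * a * (b d)⁻¹) * b d := by rw [h1]
      _ = d⁻¹ * b d * a := by group
  obtain ⟨k, -, hk⟩ := (Nat.dvd_prime_pow Fact.out).mp (orderOf_dvd_of_pow_eq_one hb1)
  exact ⟨k, hk⟩

end Cfsg.Agent.S1949
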