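import Cfsg.Statements.S1952
import Mathlib

set_option autoImplicit false
open Cfsg

namespace Cfsg.Agent.S1952

/-- Let P be a finite p-group with a normal elementary abelian subgroup A of index p, and let x ∈ A and y ∈ P with y outside A. If the product of the p conjugates y^(-i) x y^i (i = 0, …, p−1) is not the identity, then the wreath product Z_p ≀ Z_p, realised as a Sylow p-subgroup of the symmetric group of degree p², is a homomorphic image of P. -/
theorem result {P : Type*} [Group P] [Finite P] {p : ℕ} [Fact p.Prime] (hP : IsPGroup p P) (A : Subgroup P) [A.Normal]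
    (hA : Cfsg.IsElementaryAbelian p A) (hidx : A.index = p) (x y : P) (hx : x ∈ A) (hy : y ∉ A)
    (hprod : ((List.range p).map (fun i => (y ^ i)⁻¹ * x * y ^ i)).prod ≠ 1) :
    ∃ (Q : Sylow p (Equiv.Perm (Fin (p ^ 2)))) (f : P →* ↥(Q : Subgroup (Equiv.Perm (Fin (p ^ 2))))), Function.Surjective f := by
  classical
  obtain ⟨hcomm, hpow⟩ := hA
  have hpp : p.Prime := Fact.out
  have hAc : ∀ a ∈ A, ∀ b ∈ A, a * b = b * a := fun a ha b hb =>
    congrArg Subtype.val (hcomm.is_comm.comm ⟨a, ha⟩ ⟨b, hb⟩)
  letI : CommGroup A :=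
    { (inferInstance : Group A) with mul_comm := fun a b => Subtype.ext (hAc a a.2 b b.2) }
  haveI : Module (ZMod p) (Additive A) := AddCommGroup.zmodModule (fun a => by
    apply Additive.toMul.injective
    apply Subtype.ext
    simpa using hpow (Additive.toMul a : A) (Additive.toMul a).2)
  let σ₀ : Additive A →+ Additive A := MonoidHom.toAdditive ((MulAut.conjNormal (H := A) y⁻¹).toMonoidHom)
  let σ : Module.End (ZMod p) (Additive A) := σ₀.toZModLinearMap p
  let u : Additive A := Additive.ofMul ⟨x, hx⟩
  let val : Additive A → P := fun a => ((Additive.toMul a : A) : P)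
  have hσ : ∀ a, val (σ a) = y⁻¹ * val a * y := by
    intro a
    show ((MulAut.conjNormal (H := A) y⁻¹ (Additive.toMul a) : A) : P) = _
    rw [MulAut.conjNormal_apply, inv_inv]
  have hσi : ∀ (i : ℕ) (a : Additive A), val ((σ ^ i) a) = (y ^ i)⁻¹ * val a * y ^ i := by
    intro i
    induction i with
    | zero => intro a; simp
    | succ i ih =>
      intro a
      rw [pow_succ', Module.End.mul_apply, hσ, ih, pow_succ]
      group
  have hyp : y ^ p ∈ A := by
    rw [← hidx]
    exact Subgroup.pow_index_mem A y
  have hσp : σ ^ p = 1 := by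
    refine LinearMap.ext fun a => ?_
    apply Additive.toMul.injective
    apply Subtype.ext
    show val ((σ ^ p) a) = val a
    rw [hσi, mul_assoc, hAc _ (Additive.toMul a).2 _ hyp, inv_mul_cancel_left]
  set D : Module.End (ZMod p) (Additive A) := σ - 1 with hD
  have hpoly : ((Polynomial.X - 1 : Polynomial (ZMod p)) ^ (p - 1)) =
      ∑ i ∈ Finset.range p, Polynomial.X ^ i := by
    apply mul_left_cancel₀ (Polynomial.X_sub_C_ne_zero (1 : ZMod p))
    rw [map_one, ← pow_succ', Nat.sub_add_cancel hpp.one_le, mul_geom_sum, sub_pow_char, one_pow]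
  have hDN : D ^ (p - 1) = ∑ i ∈ Finset.range p, σ ^ i := by
    simpa [hD] using congrArg (Polynomial.aeval σ) hpoly
  have hDp : D ^ p = 0 := by
    have h1 : D ^ (p - 1 + 1) = 0 := by rw [pow_succ', hDN, hD, mul_geom_sum, hσp, sub_self]
    rwa [Nat.sub_add_cancel hpp.one_le] at h1
  have hvN : val ((D ^ (p - 1)) u) = ((List.range p).map (fun i => (y ^ i)⁻¹ * x * y ^ i)).prod := by
    rw [hDN, LinearMap.sum_apply]
    have : ∀ n : ℕ, val (∑ i ∈ Finset.range n, (σ ^ i) u) =
        ((List.range n).map (fun i => (y ^ i)⁻¹ * x * y ^ i)).prod := by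
      intro n
      induction n with
      | zero => simp [val]
      | succ n ih =>
        rw [Finset.sum_range_succ, List.range_succ, List.map_append, List.prod_append, ← ih,
          List.map_singleton, List.prod_singleton]
        show val _ * val ((σ ^ n) u) = _
        rw [hσi]
        rfl
    exact this p
  have hN0 : (D ^ (p - 1)) u ≠ 0 := by
    intro h
    apply hprod
    rw [← hvN, h]
    simp [val]
  obtain ⟨f, hf⟩ : ∃ f : Module.Dual (ZMod p) (Additive A), f ((D ^ (p - 1)) u) ≠ 0 := by
    by_contra h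
    simp only [not_exists, not_not] at h
    exact hN0 ((Module.forall_dual_apply_eq_zero_iff (ZMod p) _).mp h)
  let Φ : Additive A →ₗ[ZMod p] (Fin p → ZMod p) := LinearMap.pi fun i => f ∘ₗ (D ^ (i : ℕ))
  have hsingle : ∀ m : ℕ, ∀ hm : m < p, Pi.single (⟨m, hm⟩ : Fin p) (1 : ZMod p) ∈ LinearMap.range Φ := by
    intro m
    induction m using Nat.strong_induction_on with
    | _ m ih =>
      intro hm
      set i₀ : Fin p := ⟨m, hm⟩
      set v := Φ ((D ^ (p - 1 - m)) u) with hv
      have hvi : ∀ i : Fin p, v i = f ((D ^ ((i : ℕ) + (p - 1 - m))) u) := by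
        intro i
        rw [hv, pow_add, Module.End.mul_apply]
        rfl
      have h0 : ∀ i : Fin p, m < i → v i = 0 := by
        intro i hi
        rw [hvi, show (i : ℕ) + (p - 1 - m) = ((i : ℕ) - m - 1) + p by omega, pow_add, hDp, mul_zero,
          LinearMap.zero_apply, map_zero]
      have hi₀ : v i₀ = f ((D ^ (p - 1)) u) := by
        rw [hvi, show (i₀ : ℕ) = m from rfl, show m + (p - 1 - m) = p - 1 by omega]
      have hmem : v i₀ • Pi.single i₀ (1 : ZMod p) ∈ LinearMap.range Φ := by
        have hrest : v - v i₀ • Pi.single i₀ 1 = ∑ i ∈ Finset.univ.erase i₀, v i • Pi.single i (1 : ZMod p) := by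
          rw [sub_eq_iff_eq_add, Finset.sum_erase_add _ _ (Finset.mem_univ i₀)]
          exact pi_eq_sum_univ' v
        have hr : v - v i₀ • Pi.single i₀ 1 ∈ LinearMap.range Φ := by
          rw [hrest]
          refine Submodule.sum_mem _ fun i hi => ?_
          rcases lt_trichotomy (i : ℕ) m with h | h | h
          · exact Submodule.smul_mem _ _ (ih i h i.2)
          · exact absurd (Fin.ext h) (Finset.mem_erase.mp hi).1
          · rw [h0 i h, zero_smul]
            exact Submodule.zero_mem _
        have := Submodule.sub_mem _ (LinearMap.mem_range_self Φ ((D ^ (p - 1 - m)) u)) hr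
        rwa [← hv, sub_sub_cancel] at this
      have hne : v i₀ ≠ 0 := by rw [hi₀]; exact hf
      exact (Submodule.smul_mem_iff _ hne).mp hmem
  have hΦ : Function.Surjective Φ := by
    rw [← LinearMap.range_eq_top, eq_top_iff]
    intro w _
    rw [pi_eq_sum_univ' w]
    exact Submodule.sum_mem _ fun i _ => Submodule.smul_mem _ _ (hsingle i i.2)
  let f' : A →* Multiplicative (ZMod p) := AddMonoidHom.toMultiplicativeRight f.toAddMonoidHom
  let Φ' : A →* Multiplicative (Fin p → ZMod p) := AddMonoidHom.toMultiplicativeRight Φ.toAddMonoidHom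
  have hΦ' : Φ'.ker.index = p ^ p := by
    rw [Subgroup.index_ker, MonoidHom.range_eq_top.mpr (fun w => by
      obtain ⟨a, ha⟩ := hΦ (Multiplicative.toAdd w)
      exact ⟨Additive.toMul a, congrArg Multiplicative.ofAdd ha⟩), Subgroup.card_top,
      Nat.card_congr Multiplicative.toAdd, Nat.card_fun, Nat.card_zmod, Nat.card_eq_fintype_card (α := Fin p),
      Fintype.card_fin]
  have hf' : f'.ker.index = p := by
    rw [Subgroup.index_ker, MonoidHom.range_eq_top.mpr (fun w => ?_), Subgroup.card_top,
      Nat.card_congr Multiplicative.toAdd, Nat.card_zmod]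
    refine ⟨Additive.toMul ((Multiplicative.toAdd w / f ((D ^ (p - 1)) u)) • ((D ^ (p - 1)) u)), ?_⟩
    apply Multiplicative.toAdd.injective
    simp [f', hf]
  let B : Subgroup P := f'.ker.map A.subtype
  have hB : B.index = p ^ 2 := by
    have h1 : B.subgroupOf A = f'.ker := by
      rw [Subgroup.subgroupOf, Subgroup.comap_map_eq_self_of_injective A.subtype_injective]
    have h2 := Subgroup.relIndex_mul_index (Subgroup.map_subtype_le f'.ker : B ≤ A)
    rw [Subgroup.relIndex, h1, hf', hidx] at h2
    rw [← h2, sq]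
  haveI : Finite (P ⧸ B) := inferInstance
  let e : P ⧸ B ≃ Fin (p ^ 2) := Finite.equivFinOfCardEq (by rw [← Subgroup.index_eq_card, hB])
  let act : P →* Equiv.Perm (Fin (p ^ 2)) := e.permCongrHom.toMonoidHom.comp (MulAction.toPermHom P (P ⧸ B))
  set K := act.ker with hK
  haveI : K.Normal := MonoidHom.normal_ker act
  have hKB : K ≤ B := by
    intro k hk
    have h1 : e.permCongrHom (MulAction.toPermHom P (P ⧸ B) k) = 1 := hk
    rw [map_eq_one_iff _ (MulEquiv.injective _)] at h1
    have h2 := Equiv.congr_fun h1 ((1 : P) : P ⧸ B)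
    simpa [QuotientGroup.eq, MulAction.Quotient.smul_coe] using h2
  have hKA : K ≤ A := hKB.trans (Subgroup.map_subtype_le _)
  have hKΦ : K.subgroupOf A ≤ Φ'.ker := by
    intro a ha
    rw [Subgroup.mem_subgroupOf] at ha
    have hDK : ∀ i : ℕ, val ((D ^ i) (Additive.ofMul a)) ∈ K := by
      intro i
      induction i with
      | zero => simpa [val] using ha
      | succ i ih =>
        rw [pow_succ', Module.End.mul_apply]
        set b := (D ^ i) (Additive.ofMul a)
        have e1 : val (D b) = val (σ b) / val b := by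
          simp [val, hD, toMul_sub]
        rw [e1, hσ, div_eq_mul_inv]
        exact mul_mem (Subgroup.Normal.conj_mem' inferInstance _ ih y) (inv_mem ih)
    rw [MonoidHom.mem_ker]
    apply Multiplicative.toAdd.injective
    funext i
    obtain ⟨b, hb, hbe⟩ := hKB (hDK i)
    have hbe' : b = Additive.toMul ((D ^ (i : ℕ)) (Additive.ofMul a)) := Subtype.ext hbe
    have := congrArg Multiplicative.toAdd (MonoidHom.mem_ker.mp hb)
    rw [hbe'] at this
    exact this
  have hrange : p ^ (p + 1) ≤ Nat.card act.range := by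
    rw [← Subgroup.index_ker, ← hK, ← Subgroup.relIndex_mul_index hKA, hidx, pow_succ]
    refine Nat.mul_le_mul_right p ?_
    rw [← hΦ']
    exact Nat.le_of_dvd (Nat.pos_of_ne_zero Subgroup.index_ne_zero_of_finite) (Subgroup.index_dvd_of_le hKΦ)
  have hrp : IsPGroup p act.range := hP.of_surjective act.rangeRestrict act.rangeRestrict_surjective
  obtain ⟨Q, hQ⟩ := hrp.exists_le_sylow
  have hQc : Nat.card (Q : Subgroup (Equiv.Perm (Fin (p ^ 2)))) = p ^ (p + 1) := by
    rw [Sylow.card_eq_multiplicity, Nat.card_eq_fintype_card, Fintype.card_perm, Fintype.card_fin,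
      Nat.factorization_def _ hpp, sq, padicValNat_factorial_mul]
    congr 1
    have h1 := padicValNat_factorial_mul (p := p) 1
    rw [mul_one, Nat.factorial_one, padicValNat_one_right] at h1
    omega
  have heq : act.range = (Q : Subgroup (Equiv.Perm (Fin (p ^ 2)))) :=
    Subgroup.eq_of_le_of_card_ge hQ (by rw [hQc]; exact hrange)
  refine ⟨Q, (MulEquiv.subgroupCongr heq).toMonoidHom.comp act.rangeRestrict, ?_⟩
  exact (MulEquiv.subgroupCongr heq).surjective.comp act.rangeRestrict_surjective

end Cfsg.Agent.S1952
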