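import Cfsg.Statements.S1953
import Cfsg.Agent.H60.AutomiserFree

set_option autoImplicit false
open Cfsg
open Subgroup
open Cfsg.Agent.H61 (cj)
open Cfsg.Agent.H60 (ActsFrom)

namespace Cfsg.Agent.S1953

/-- `Q` is normal in `P` and its normalizer controls strong fusion in `P`. -/
def Ctl {G : Type*} [Group G] {p : ℕ} (P : Sylow p G) (Q : Subgroup G) : Prop :=
  Q ≤ (P : Subgroup G) ∧ (P : Subgroup G) ≤ normalizer (Q : Set G) ∧
    ∀ A : Subgroup G, A ≤ (P : Subgroup G) → ∀ g : G, cj g A ≤ (P : Subgroup G) →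
      ActsFrom (normalizer (Q : Set G)) A g

/-- Enlarging a controlling subgroup by a subgroup controlling inside its normalizer. -/
theorem ctl_sup {G : Type*} [Group G] {p : ℕ} (P : Sylow p G) {Q : Subgroup G} (hQ : Ctl P Q)
    (W : Subgroup ↥(normalizer (Q : Set G))) (hWP : W ≤ (P : Subgroup G).subgroupOf (normalizer (Q : Set G)))
    (hPW : (P : Subgroup G).subgroupOf (normalizer (Q : Set G)) ≤ normalizer (W : Set ↥(normalizer (Q : Set G))))
    (hW : ∀ A : Subgroup ↥(normalizer (Q : Set G)), A ≤ (P : Subgroup G).subgroupOf (normalizer (Q : Set G)) →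
      ∀ g, cj g A ≤ (P : Subgroup G).subgroupOf (normalizer (Q : Set G)) →
        ActsFrom (normalizer (W : Set ↥(normalizer (Q : Set G)))) A g) :
    Ctl P (Q ⊔ W.map (normalizer (Q : Set G)).subtype) := by
  set W' := W.map (normalizer (Q : Set G)).subtype with hW'
  have key : ∀ x : (normalizer (Q : Set G)), x ∈ normalizer (W : Set (normalizer (Q : Set G))) → (x : G) ∈ normalizer ((Q ⊔ W' : Subgroup G) : Set G) := by
    intro x hx
    have h1 : (x : G) ∈ normalizer (W' : Set G) := le_normalizer_map _ ⟨x, hx, rfl⟩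
    refine mem_normalizer_iff_map_conj_eq.2 ?_
    rw [Subgroup.map_sup]
    exact congrArg₂ _ (mem_normalizer_iff_map_conj_eq.1 x.2) (mem_normalizer_iff_map_conj_eq.1 h1)
  refine ⟨sup_le hQ.1 ?_, fun y hy => key ⟨y, hQ.2.1 hy⟩ (hPW (show (⟨y, hQ.2.1 hy⟩ : (normalizer (Q : Set G))) ∈ (P : Subgroup G).subgroupOf (normalizer (Q : Set G)) from hy)), fun A hA g hg => ?_⟩
  · rintro _ ⟨w, hw, rfl⟩; exact hWP hw
  obtain ⟨h, hh, c, hc, rfl⟩ := hQ.2.2 A hA g hg
  have hcA : cj c A = A := H61.cj_eq_self (centralizer_le_normalizer _ hc)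
  rw [← H61.cj_cj, hcA] at hg
  obtain ⟨h', hh', c', hc', e⟩ := hW (A.subgroupOf (normalizer (Q : Set G))) (fun a ha => hA ha) ⟨h, hh⟩ (by
    rintro _ ⟨a, ha, rfl⟩
    exact hg ⟨a, ha, rfl⟩)
  refine ⟨h', key h' hh', (c' : G) * c, mul_mem (mem_centralizer_iff.2 fun a ha => ?_) hc, ?_⟩
  · exact congrArg Subtype.val (mem_centralizer_iff.1 hc' ⟨a, hQ.2.1 (hA ha)⟩ ha)
  · rw [← mul_assoc]
    exact congrArg (· * c) (congrArg Subtype.val e)

open scoped commutatorElement in
/-- Let p be an odd prime and P a Sylow p-subgroup of the finite group G, and suppose that for no p-subgroup Q of G does N_G(Q)/C_G(Q) have a section isomorphic to SL₂(p). Call a subgroup Q of P centric-radical when Z(Q) is a Sylow p-subgroup of C_G(Q) and the only normal subgroup X of N_G(Q) containing Q·C_G(Q) such that the index of Q·C_G(Q) in X is a power of p is Q·C_G(Q) itself (that is, N_G(Q)/Q·C_G(Q) has no nontrivial normal p-subgroup). Then there is a centric-radical subgroup Q of P contained in every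 centric-radical subgroup of P; it is normal in P, and N_G(Q) controls strong fusion in P: whenever a subgroup A of P has g A g⁻¹ ≤ P, the element g is a product h c with h in N_G(Q) and c centralizing A. -/
theorem result {G : Type*} [Group G] [Finite G] {p : ℕ} [Fact p.Prime] (hp : p ≠ 2) (P : Sylow p G)
    (hfree : ∀ Q : Subgroup G, IsPGroup p ↥Q → ¬ ∃ (H K : Subgroup G) (_ : (K.subgroupOf H).Normal),
      Subgroup.centralizer (Q : Set G) ≤ K ∧ K ≤ H ∧ H ≤ Subgroup.normalizer (Q : Set G) ∧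
      Nonempty ((↥H ⧸ K.subgroupOf H) ≃* Matrix.SpecialLinearGroup (Fin 2) (ZMod p)))
    (cr : Subgroup G → Prop)
    (hcr : ∀ Q : Subgroup G, cr Q ↔ (Q ≤ (P : Subgroup G) ∧
      (∃ R : Sylow p ↥(Subgroup.centralizer (Q : Set G)),
        (R : Subgroup ↥(Subgroup.centralizer (Q : Set G))).map (Subgroup.centralizer (Q : Set G)).subtype = Q ⊓ Subgroup.centralizer (Q : Set G)) ∧
      ∀ X : Subgroup G, X ≤ Subgroup.normalizer (Q : Set G) →
        (∀ n ∈ Subgroup.normalizer (Q : Set G), X.map (MulAut.conj n).toMonoidHom = X) →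
        Q ⊔ Subgroup.centralizer (Q : Set G) ≤ X → (∃ k : ℕ, (Q ⊔ Subgroup.centralizer (Q : Set G)).relIndex X = p ^ k) →
        X = Q ⊔ Subgroup.centralizer (Q : Set G))) :
    ∃ Q : Subgroup G, cr Q ∧ (∀ R : Subgroup G, cr R → Q ≤ R) ∧ (∀ x ∈ (P : Subgroup G), Q.map (MulAut.conj x).toMonoidHom = Q) ∧
      ∀ A : Subgroup G, A ≤ (P : Subgroup G) → ∀ g : G, A.map (MulAut.conj g).toMonoidHom ≤ (P : Subgroup G) →
        ∃ h ∈ Subgroup.normalizer (Q : Set G), ∃ c ∈ Subgroup.centralizer (A : Set G), g = h * c := by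
  have hst := H60.sectStable_of_automiser_free hp hfree
  have hbot : Ctl P (⊥ : Subgroup G) := by
    have htop : normalizer ((⊥ : Subgroup G) : Set G) = ⊤ := normalizer_eq_top _
    exact ⟨bot_le, by rw [htop]; exact le_top, fun A _ g _ =>
      ⟨g, by rw [htop]; exact mem_top g, 1, one_mem _, (mul_one g).symm⟩⟩
  obtain ⟨Q, hQ, hmax⟩ := Set.exists_max_image {Q : Subgroup G | Ctl P Q} (fun Q => Nat.card Q)
    (Set.toFinite _) ⟨⊥, hbot⟩
  set H := normalizer (Q : Set G) with hH
  let S : Sylow p H := P.subtype hQ.2.1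
  have hS : (S : Subgroup H) = (P : Subgroup G).subgroupOf H := rfl
  haveI : (Q.subgroupOf H).Normal := normal_in_normalizer
  have hQp : IsPGroup p (Q.subgroupOf H) :=
    (P.2.to_le hQ.1).of_equiv (subgroupOfEquivOfLe le_normalizer).symm
  -- maximality absorbs
  have habs : ∀ W : Subgroup H, W ≤ (S : Subgroup H) → (S : Subgroup H) ≤ normalizer (W : Set H) →
      (∀ A : Subgroup H, A ≤ (S : Subgroup H) → ∀ g, cj g A ≤ (S : Subgroup H) →
        ActsFrom (normalizer (W : Set H)) A g) → W ≤ Q.subgroupOf H := by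
    intro W h1 h2 h3 w hw
    have h4 := hmax _ (ctl_sup P hQ W h1 h2 h3)
    have h5 : Q ⊔ W.map H.subtype = Q := (eq_of_le_of_card_ge le_sup_left h4).symm
    exact h5.le (mem_sup_right ⟨w, hw, rfl⟩)
  have hCmap : ∀ x : H, x ∈ centralizer (Q.subgroupOf H : Set H) ↔ (x : G) ∈ centralizer (Q : Set G) := by
    intro x
    simp only [mem_centralizer_iff, SetLike.mem_coe, mem_subgroupOf]
    exact ⟨fun h q hq => congrArg Subtype.val (h ⟨q, le_normalizer hq⟩ hq),
      fun h q hq => Subtype.ext (h q hq)⟩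
  have hcentric : (S : Subgroup H) ⊓ centralizer (Q.subgroupOf H : Set H) ≤ Q.subgroupOf H := by
    by_contra hT
    obtain ⟨W, h1, h2, h3, h4⟩ := H60.enlarge_centric hp
      (fun X _ _ hX V _ hV => hst X (H61.sect_trans hX (H61.sect_subgroup H)) V hV) S (Q.subgroupOf H) hQp hT
    exact h2 (habs W h1 h3 h4)
  have hcrQ : cr Q := by
    rw [hcr]
    refine ⟨hQ.1, ?_, fun X hXH hXn hQX ⟨k, hk⟩ => ?_⟩
    · set C := centralizer (Q : Set G) with hC
      have hT : H23.IsSylowIn p ((P : Subgroup G) ⊓ C) C :=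
        H60.sylowIn_inf (H61.sylowIn_of_le P hQ.2.1) (centralizer_le_normalizer _)
          H60.normalizer_le_normalizer_centralizer
      refine ⟨(hT.2.1.comap_subtype (K := C)).toSylow hT.2.2, ?_⟩
      show (((P : Subgroup G) ⊓ C).subgroupOf C).map C.subtype = _
      rw [subgroupOf_map_subtype, inf_assoc, inf_idem]
      refine le_antisymm (le_inf (fun x hx => ?_) inf_le_right) (inf_le_inf_right C hQ.1)
      exact hcentric (x := ⟨x, centralizer_le_normalizer _ hx.2⟩) ⟨hx.1, (hCmap _).2 hx.2⟩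
    · have hXnorm : H ≤ normalizer (X : Set G) := fun n hn => H61.mem_normalizer_of_cj (hXn n hn)
      haveI : (X.subgroupOf H).Normal := (normal_subgroupOf_iff_le_normalizer hXH).2 hXnorm
      set C' := centralizer (Q.subgroupOf H : Set H) with hC'
      have hC'map : C'.map H.subtype = centralizer (Q : Set G) := by
        refine le_antisymm ?_ fun x hx => ⟨⟨x, centralizer_le_normalizer _ hx⟩, (hCmap _).2 hx, rfl⟩
        rintro _ ⟨x, hx, rfl⟩; exact (hCmap x).1 hx
      have hsup : (Q.subgroupOf H ⊔ C').map H.subtype = Q ⊔ centralizer (Q : Set G) := by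
        rw [Subgroup.map_sup, hC'map, subgroupOf_map_subtype, inf_eq_left.2 le_normalizer]
      have hrel : (Q.subgroupOf H ⊔ C').relIndex (X.subgroupOf H) = p ^ k := by
        rw [← hk, ← hsup]
        conv_rhs => rw [← inf_eq_left.2 hXH, ← subgroupOf_map_subtype]
        exact (relIndex_map_map_of_injective _ _ H.subtype_injective).symm
      obtain ⟨W, h1, h2, h3, h4⟩ := H60.enlarge_radical S (Q.subgroupOf H) (X.subgroupOf H) hQp hcentric
        (by
          intro x hx
          exact hQX (hsup ▸ (mem_map_of_mem H.subtype hx))) hrel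
      refine le_antisymm (fun x hx => ?_) hQX
      have h5 := h2.trans (sup_le_sup_right (habs W h1 h3 h4) C') (x := ⟨x, hXH hx⟩) hx
      exact hsup.le ⟨_, h5, rfl⟩
  refine ⟨Q, hcrQ, fun R hR => ?_, fun x hx => H61.cj_eq_self (hQ.2.1 hx),
    fun A hA g hg => hQ.2.2 A hA g hg⟩
  obtain ⟨hRP, ⟨Z, hZ⟩, hrad⟩ := (hcr R).1 hR
  set D := Q ⊓ normalizer (R : Set G) with hD
  have hRQ : R ≤ normalizer (Q : Set G) := hRP.trans hQ.2.1
  have hDp : IsPGroup p D := P.2.to_le (inf_le_left.trans hQ.1)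
  set Y := R ⊔ (centralizer (R : Set G)) with hY
  have hYN : Y ≤ normalizer (R : Set G) := sup_le le_normalizer (centralizer_le_normalizer _)
  have hNY : normalizer (R : Set G) ≤ normalizer (Y : Set G) := fun n hn =>
    mem_normalizer_iff_map_conj_eq.2 (by
      rw [hY, Subgroup.map_sup]
      exact congrArg₂ _ (mem_normalizer_iff_map_conj_eq.1 hn)
        (mem_normalizer_iff_map_conj_eq.1 (H60.normalizer_le_normalizer_centralizer hn)))
  set X := D ⊔ Y with hX
  have hXN : X ≤ normalizer (R : Set G) := sup_le inf_le_right hYN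
  have hXY : ∀ n ∈ normalizer (R : Set G), cj n X = X := by
    intro n hn
    refine H61.cj_eq_of_le ?_
    have hnR : cj n R = R := H61.cj_eq_self hn
    obtain ⟨h, hh, c, hc, e⟩ := hQ.2.2 R hRP n (hnR.le.trans hRP)
    have hcN : c ∈ normalizer (R : Set G) := centralizer_le_normalizer _ hc
    have hhN : h ∈ normalizer (R : Set G) := by
      rw [show h = n * c⁻¹ by rw [e, mul_inv_cancel_right]]
      exact mul_mem hn (Subgroup.inv_mem _ hcN)
    rw [hX, H61.cj_sup, H61.cj_eq_self (hNY hn)]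
    refine sup_le ?_ le_sup_right
    rw [e, ← H61.cj_cj]
    have h1 : cj c D ≤ X := by
      rintro _ ⟨d, hd, rfl⟩
      show c * d * c⁻¹ ∈ X
      have hcc : d * c⁻¹ * d⁻¹ ∈ (centralizer (R : Set G)) :=
        (mem_normalizer_iff.1 (H60.normalizer_le_normalizer_centralizer hd.2) c⁻¹).1 (Subgroup.inv_mem _ hc)
      have := mul_mem (mem_sup_right (S := D) (mem_sup_right (S := R) (mul_mem hc hcc)))
        (mem_sup_left (T := Y) hd)
      simpa [mul_assoc] using this
    refine (H61.cj_mono h h1).trans ?_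
    rw [hX, H61.cj_sup, H61.cj_eq_self (hNY hhN), hD]
    refine sup_le_sup_right ?_ Y
    rintro _ ⟨d, hd, rfl⟩
    exact ⟨(mem_normalizer_iff.1 hh d).1 hd.1, mul_mem (mul_mem hhN hd.2) (Subgroup.inv_mem _ hhN)⟩
  have hYp : ∃ k : ℕ, Y.relIndex X = p ^ k := by
    haveI : (Y.subgroupOf X).Normal :=
      (normal_subgroupOf_iff_le_normalizer le_sup_right).2 (hXN.trans hNY)
    have : IsPGroup p (X ⧸ Y.subgroupOf X) := by
      rintro ⟨x, hx⟩
      have hx' := hx
      rw [hX, ← SetLike.mem_coe, coe_mul_of_left_le_normalizer_right D Y (inf_le_right.trans hNY)] at hx'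
      obtain ⟨d, hd, y, hy, rfl⟩ := hx'
      obtain ⟨j, hj⟩ := hDp ⟨d, hd⟩
      refine ⟨j, ?_⟩
      have e : (QuotientGroup.mk ⟨d * y, hx⟩ : X ⧸ Y.subgroupOf X) =
          QuotientGroup.mk ⟨d, mem_sup_left hd⟩ := by
        rw [QuotientGroup.eq, mem_subgroupOf]
        show (d * y)⁻¹ * d ∈ Y
        simpa using Subgroup.inv_mem _ hy
      show (QuotientGroup.mk ⟨d * y, hx⟩ : X ⧸ Y.subgroupOf X) ^ p ^ j = 1
      rw [e, ← QuotientGroup.mk_pow, QuotientGroup.eq_one_iff, mem_subgroupOf]
      show d ^ p ^ j ∈ Y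
      rw [show d ^ p ^ j = 1 from congrArg Subtype.val hj]
      exact one_mem _
    exact this.exists_card_eq
  have hXeq := hrad X hXN hXY le_sup_right hYp
  have hDR : D ≤ R := by
    set E := D ⊔ R with hE
    have hEp : IsPGroup p E := P.2.to_le (sup_le (inf_le_left.trans hQ.1) hRP)
    have hZs : H23.IsSylowIn p (R ⊓ (centralizer (R : Set G))) (centralizer (R : Set G)) := by
      rw [← hZ]
      refine ⟨map_subtype_le _, IsPGroup.map Z.2 (centralizer (R : Set G)).subtype, ?_⟩
      rw [show ((Z : Subgroup (centralizer (R : Set G))).map (centralizer (R : Set G)).subtype).relIndex (centralizer (R : Set G)) = (Z : Subgroup (centralizer (R : Set G))).index by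
        show (((Z : Subgroup (centralizer (R : Set G))).map (centralizer (R : Set G)).subtype).subgroupOf (centralizer (R : Set G))).index = _
        rw [subgroupOf, comap_map_eq_self_of_injective (centralizer (R : Set G)).subtype_injective]]
      exact Z.not_dvd_index
    have hEC : R ⊓ (centralizer (R : Set G)) = E ⊓ (centralizer (R : Set G)) :=
      (hZs.eq_of_le (inf_le_inf_right (centralizer (R : Set G)) le_sup_right) inf_le_right (hEp.to_le inf_le_left)).symm
    intro d hd
    have hdY : d ∈ Y := hXeq.le (mem_sup_left hd)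
    rw [hY, ← SetLike.mem_coe, coe_mul_of_left_le_normalizer_right R (centralizer (R : Set G))
      (le_normalizer.trans H60.normalizer_le_normalizer_centralizer)] at hdY
    obtain ⟨r, hr, c, hc, e⟩ := hdY
    have hcE : c ∈ E ⊓ (centralizer (R : Set G)) := ⟨by
      have := mul_mem (Subgroup.inv_mem _ (mem_sup_right (S := D) hr)) (mem_sup_left (T := R) hd)
      rwa [← e, inv_mul_cancel_left] at this, hc⟩
    exact e ▸ mul_mem hr (hEC.ge hcE).1
  by_contra hQR
  have hlt : R < Q ⊔ R := lt_of_le_of_ne le_sup_right fun h => hQR (h ▸ le_sup_left)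
  obtain ⟨z, hz, hzR⟩ := SetLike.exists_of_lt
    (H23.lt_inf_normalizer (P.2.to_le (sup_le hQ.1 hRP)) hlt)
  have h1 : z ∈ ((Q ⊔ R : Subgroup G) : Set G) := hz.1
  rw [coe_mul_of_right_le_normalizer_left Q R hRQ] at h1
  obtain ⟨q, hq, r, hr, rfl⟩ := h1
  have hqN : q ∈ normalizer (R : Set G) := by
    simpa using mul_mem hz.2 (Subgroup.inv_mem _ (le_normalizer (H := R) hr))
  exact hzR (mul_mem (hDR ⟨hq, hqN⟩) hr)

end Cfsg.Agent.S1953
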