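import Cfsg.Statements.S1954
import Cfsg.Agent.H60.ControlNormal

set_option autoImplicit false
open Cfsg

namespace Cfsg.Agent.S1954

/-- Let N be a normal subgroup of the finite group G, P a Sylow p-subgroup of G, and V a subgroup of P ∩ N normal in P ∩ N such that N_N(V) controls strong fusion in P ∩ N with respect to N (whenever a subgroup A of P ∩ N has n A n⁻¹ ≤ P ∩ N for some n in N, then n = h c with h in N_N(V) and c in C_N(A)). Let W be the subgroup generated by the conjugates of V under N_G(P ∩ N). Then N_G(W) controls strong fusion in P with respect to G. -/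
theorem result {G : Type*} [Group G] [Finite G] {p : ℕ} [Fact p.Prime] (N : Subgroup G) [N.Normal] (P : Sylow p G) (V : Subgroup G)
    (hV : V ≤ (P : Subgroup G) ⊓ N) (hVn : ∀ x ∈ (P : Subgroup G) ⊓ N, V.map (MulAut.conj x).toMonoidHom = V)
    (hctrl : ∀ A : Subgroup G, A ≤ (P : Subgroup G) ⊓ N → ∀ n ∈ N, A.map (MulAut.conj n).toMonoidHom ≤ (P : Subgroup G) ⊓ N →
      ∃ h ∈ N ⊓ Subgroup.normalizer (V : Set G), ∃ c ∈ N ⊓ Subgroup.centralizer (A : Set G), n = h * c)
    (W : Subgroup G) (hW : W = Subgroup.closure (⋃ x ∈ Subgroup.normalizer (((P : Subgroup G) ⊓ N : Subgroup G) : Set G),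
      ((V.map (MulAut.conj x).toMonoidHom : Subgroup G) : Set G))) :
    ∀ A : Subgroup G, A ≤ (P : Subgroup G) → ∀ g : G, A.map (MulAut.conj g).toMonoidHom ≤ (P : Subgroup G) →
        ∃ h ∈ Subgroup.normalizer (W : Set G), ∃ c ∈ Subgroup.centralizer (A : Set G), g = h * c := by
  classical
  set T := (P : Subgroup G) ⊓ N with hT
  set NT := Subgroup.normalizer (T : Set G) with hNT
  have hPT : (P : Subgroup G) ≤ NT := fun x hx => by
    rw [hNT]
    exact Subgroup.inf_normalizer_le_normalizer_inf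
      (Subgroup.mem_inf.mpr ⟨Subgroup.le_normalizer hx, (Subgroup.normalizer_eq_top N).symm ▸ Subgroup.mem_top x⟩)
  have hVx : ∀ x ∈ NT, V.map (MulAut.conj x).toMonoidHom ≤ T := by
    rintro x hx _ ⟨v, hv, rfl⟩
    exact (Subgroup.mem_normalizer_iff.mp hx v).mp (hV hv)
  -- conjugates of the hypothesis
  have hctrl' : ∀ x ∈ NT, ∀ A : Subgroup G, A ≤ T → ∀ n ∈ N, A.map (MulAut.conj n).toMonoidHom ≤ T →
      ∃ h ∈ N, h ∈ Subgroup.normalizer ((V.map (MulAut.conj x).toMonoidHom : Subgroup G) : Set G) ∧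
        ∃ c ∈ Subgroup.centralizer (A : Set G), n = h * c := by
    intro x hx A hA n hn hnA
    have hx' : x⁻¹ ∈ NT := Subgroup.inv_mem _ hx
    obtain ⟨h, hh, c, hc, e⟩ := hctrl (A.map (MulAut.conj x⁻¹).toMonoidHom)
      (by rintro _ ⟨a, ha, rfl⟩; exact (Subgroup.mem_normalizer_iff.mp hx' a).mp (hA ha))
      (x⁻¹ * n * x) (by simpa using (inferInstance : N.Normal).conj_mem n hn x⁻¹)
      (by
        rintro _ ⟨_, ⟨a, ha, rfl⟩, rfl⟩
        have h1 : x⁻¹ * (n * a * n⁻¹) * x⁻¹⁻¹ ∈ T :=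
          (Subgroup.mem_normalizer_iff.mp hx' _).mp (hnA ⟨a, ha, rfl⟩)
        simpa [MulAut.conj_apply, mul_assoc] using h1)
    refine ⟨x * h * x⁻¹, (inferInstance : N.Normal).conj_mem h hh.1 x, ?_, x * c * x⁻¹, ?_, ?_⟩
    · exact Subgroup.le_normalizer_map (H := V) (MulAut.conj x).toMonoidHom ⟨h, hh.2, rfl⟩
    · rw [Subgroup.mem_centralizer_iff]
      intro a ha
      have h1 := Subgroup.mem_centralizer_iff.mp hc.2 (x⁻¹ * a * x) ⟨a, ha, by simp⟩
      calc a * (x * c * x⁻¹) = x * (x⁻¹ * a * x * c) * x⁻¹ := by group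
        _ = x * (c * (x⁻¹ * a * x)) * x⁻¹ := by rw [h1]
        _ = x * c * x⁻¹ * a := by group
    · rw [show n = x * (x⁻¹ * n * x) * x⁻¹ by group, e]; group
  haveI : Fintype NT := Fintype.ofFinite _
  -- simultaneous control
  have hsim : ∀ s : Finset NT, ∀ A : Subgroup G, A ≤ T → ∀ n ∈ N, A.map (MulAut.conj n).toMonoidHom ≤ T →
      ∃ h ∈ N, (∀ x ∈ s, h ∈ Subgroup.normalizer ((V.map (MulAut.conj (x : G)).toMonoidHom : Subgroup G) : Set G)) ∧
        ∃ c ∈ Subgroup.centralizer (A : Set G), n = h * c := by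
    intro s
    induction s using Finset.induction with
    | empty => exact fun A _ n hn _ => ⟨n, hn, by simp, 1, one_mem _, (mul_one n).symm⟩
    | insert x s hxs ih =>
      intro A hA n hn hnA
      obtain ⟨h, hhN, hh, c, hc, rfl⟩ := ih A hA n hn hnA
      set B := A ⊔ ⨆ y ∈ s, V.map (MulAut.conj (y : G)).toMonoidHom with hB
      have hBT : B ≤ T := sup_le hA (iSup₂_le fun y _ => hVx y y.2)
      obtain ⟨h', hh'N, hh', c', hc', e⟩ := hctrl' x x.2 B hBT h hhN (by
        rw [hB, Subgroup.map_sup, Subgroup.map_iSup]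
        refine sup_le ?_ (iSup_le fun y => ?_)
        · rintro _ ⟨a, ha, rfl⟩
          have h1 : h * c * a * (h * c)⁻¹ ∈ T := hnA ⟨a, ha, rfl⟩
          have e : h * c * a * (h * c)⁻¹ = h * a * h⁻¹ := by
            rw [mul_assoc h c a, ← Subgroup.mem_centralizer_iff.mp hc a ha]; group
          rw [e] at h1
          exact h1
        · rw [Subgroup.map_iSup]
          refine iSup_le fun hy => ?_
          rintro _ ⟨v, hv, rfl⟩
          exact hVx y y.2 ((Subgroup.mem_normalizer_iff.mp (hh y hy) v).mp hv))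
      refine ⟨h', hh'N, fun y hy => ?_, c' * c, mul_mem (Subgroup.centralizer_le
        (le_sup_left : A ≤ B) hc') hc, by rw [e, mul_assoc]⟩
      rcases Finset.mem_insert.mp hy with rfl | hy
      · exact hh'
      · have hcy : c' ∈ Subgroup.normalizer ((V.map (MulAut.conj (y : G)).toMonoidHom : Subgroup G) : Set G) := by
          refine Subgroup.centralizer_le_normalizer _ (Subgroup.centralizer_le ?_ hc')
          exact SetLike.coe_subset_coe.mpr (le_trans (le_iSup₂ (f := fun y _ =>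
            V.map (MulAut.conj (y : NT) : G ≃* G).toMonoidHom) y hy) le_sup_right)
        have h1 := mul_mem (hh y hy) (Subgroup.inv_mem _ hcy)
        rwa [e, mul_inv_cancel_right] at h1
  have hWeq : W = ⨆ x : NT, V.map (MulAut.conj (x : G)).toMonoidHom := by
    rw [hW]
    refine le_antisymm ((Subgroup.closure_le _).mpr ?_) (iSup_le fun x v hv =>
      Subgroup.subset_closure (Set.mem_biUnion x.2 hv))
    intro v hv
    obtain ⟨x, hx, hv⟩ := Set.mem_iUnion₂.mp hv
    exact le_iSup (fun x : NT => V.map (MulAut.conj (x : G)).toMonoidHom) ⟨x, hx⟩ hv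
  have hWT : W ≤ T := hWeq ▸ iSup_le fun x => hVx x x.2
  have hNTW : NT ≤ Subgroup.normalizer (W : Set G) := by
    refine Subgroup.le_normalizer_iff.mpr fun y hy w hw => ?_
    suffices W.map (MulAut.conj y).toMonoidHom ≤ W from this ⟨w, hw, rfl⟩
    rw [hWeq, Subgroup.map_iSup]
    refine iSup_le fun x => ?_
    refine le_trans (le_of_eq ?_) (le_iSup _ (⟨y * x, mul_mem hy x.2⟩ : NT))
    rw [Subgroup.map_map]
    congr 1
    ext v
    simp [mul_assoc]
  refine Cfsg.Agent.H60.control_of_normal N P W hWT (hPT.trans hNTW) fun A hA g hgA => ?_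
  haveI : Finite (Sylow p N) := inferInstance
  obtain ⟨T', hT'⟩ : ∃ T' : Sylow p N, (T' : Subgroup N).map N.subtype = T := by
    have hs := Cfsg.Agent.H60.sylowIn_inf (Cfsg.Agent.H61.sylowIn_of_le P (le_top : _ ≤ (⊤ : Subgroup G)))
      (le_top : N ≤ ⊤) (by rw [Subgroup.normalizer_eq_top N])
    exact ⟨((P.2.to_le inf_le_left).comap_subtype (K := N)).toSylow hs.2.2, by
      show (((P : Subgroup G) ⊓ N).subgroupOf N).map N.subtype = T
      rw [Subgroup.subgroupOf_map_subtype]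
      exact inf_eq_left.mpr inf_le_right⟩
  have hfr : NT ⊔ N = ⊤ := by
    rw [hNT, ← hT']
    exact Sylow.normalizer_sup_eq_top T'
  have hg : g ∈ N ⊔ NT := by rw [sup_comm, hfr]; exact Subgroup.mem_top g
  obtain ⟨n, hn, x, hx, rfl⟩ := Subgroup.mem_sup_of_normal_left.mp hg
  obtain ⟨h, _, hh, c, hc, rfl⟩ := hsim Finset.univ (Cfsg.Agent.H61.cj x A) (by
      rintro _ ⟨a, ha, rfl⟩
      exact (Subgroup.mem_normalizer_iff.mp hx a).mp (hA ha)) n hn (by
      exact (Cfsg.Agent.H61.cj_cj x n A).le.trans hgA)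
  refine Cfsg.Agent.H60.ActsFrom.mul ⟨x, hNTW hx, 1, one_mem _, (mul_one x).symm⟩ ⟨h, ?_, c, hc, rfl⟩
  rw [hWeq]
  refine Subgroup.mem_normalizer_iff.mpr fun v => ?_
  have key : ∀ k : G, (∀ x : NT, k ∈ Subgroup.normalizer ((V.map (MulAut.conj (x : G)).toMonoidHom : Subgroup G) : Set G)) →
      ∀ v, v ∈ (⨆ x : NT, V.map (MulAut.conj (x : G)).toMonoidHom) →
        k * v * k⁻¹ ∈ ⨆ x : NT, V.map (MulAut.conj (x : G)).toMonoidHom := by
    intro k hk v hv
    suffices (⨆ x : NT, V.map (MulAut.conj (x : G)).toMonoidHom).map (MulAut.conj k).toMonoidHom ≤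
      ⨆ x : NT, V.map (MulAut.conj (x : G)).toMonoidHom from this ⟨v, hv, rfl⟩
    rw [Subgroup.map_iSup]
    refine iSup_le fun x => le_trans ?_ (le_iSup _ x)
    rintro _ ⟨w, hw, rfl⟩
    exact (Subgroup.mem_normalizer_iff.mp (hk x) w).mp hw
  refine ⟨key h (fun x => hh x (Finset.mem_univ x)) v, fun hv => ?_⟩
  have h2 := key h⁻¹ (fun x => Subgroup.inv_mem _ (hh x (Finset.mem_univ x))) _ hv
  simpa [mul_assoc] using h2

end Cfsg.Agent.S1954
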