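import Cfsg.Statements.S1956
import Mathlib

set_option autoImplicit false
open Cfsg

namespace Cfsg.Agent.S1956

/-- Let P be a Sylow p-subgroup of the finite group G such that every element of P of order dividing p (dividing 4 when p = 2) is central in P. Then the fusion of these elements is controlled by N_G(P): if such an element a of P has g a g⁻¹ in P, then g = n c with n normalizing P and c commuting with a. -/
theorem result {G : Type*} [Group G] [Finite G] {p : ℕ} [Fact p.Prime] (P : Sylow p G)
    (hcen : ∀ a ∈ (P : Subgroup G), (a ^ p = 1 ∨ (p = 2 ∧ a ^ 4 = 1)) → ∀ y ∈ (P : Subgroup G), a * y = y * a) :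
    ∀ a ∈ (P : Subgroup G), (a ^ p = 1 ∨ (p = 2 ∧ a ^ 4 = 1)) → ∀ g : G, g * a * g⁻¹ ∈ (P : Subgroup G) →
      ∃ n ∈ Subgroup.normalizer ((P : Subgroup G) : Set G), ∃ c : G, c * a = a * c ∧ g = n * c := by
  intro a ha hsmall g hg
  set b := g * a * g⁻¹ with hb
  have hsb : b ^ p = 1 ∨ (p = 2 ∧ b ^ 4 = 1) := by
    rcases hsmall with h | ⟨h2, h⟩
    · left; rw [hb, conj_pow, h]; group
    · right; exact ⟨h2, by rw [hb, conj_pow, h]; group⟩
  have hPa : (P : Subgroup G) ≤ Subgroup.centralizer ({a} : Set G) := by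
    intro y hy
    rw [Subgroup.mem_centralizer_singleton_iff]
    exact (hcen a ha hsmall y hy).symm
  have hgb : a ∈ Subgroup.centralizer ((P : Subgroup G) : Set G) := by
    rw [Subgroup.mem_centralizer_iff]
    intro y hy
    exact (hcen a ha hsmall y hy).symm
  have hbb : b ∈ Subgroup.centralizer ((P : Subgroup G) : Set G) := by
    rw [Subgroup.mem_centralizer_iff]
    intro y hy
    exact (hcen b hg hsb y hy).symm
  obtain ⟨n, hn, hnb⟩ := Sylow.conj_eq_normalizer_conj_of_mem_centralizer P a g⁻¹ hgb (by simpa [hb, mul_assoc] using hbb)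
  refine ⟨n⁻¹, inv_mem hn, n * g, ?_, by group⟩
  have h : n⁻¹ * a * n = g * a * g⁻¹ := by simpa using hnb.symm
  calc n * g * a = n * (g * a * g⁻¹) * g := by group
    _ = n * (n⁻¹ * a * n) * g := by rw [h]
    _ = a * (n * g) := by group

end Cfsg.Agent.S1956
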