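import Cfsg.Statements.S1988
import Cfsg.Agent.H61.NpcApps

set_option autoImplicit false
universe u
open Cfsg Cfsg.Agent Cfsg.Agent.H61

namespace Cfsg.Agent.S1988

/-- Let p be an odd prime, G a finite group with Sylow p-subgroup S and K the lower K-infinity subgroup of S. If N_G(K) has a normal p-complement, or if N_G(K)/C_G(K) is a p-group (every element of N_G(K) of order prime to p centralizes K), then G has a normal p-complement. -/
theorem result {G : Type u} [Group G] [Finite G] {p : ℕ} [Fact p.Prime] (hp : p ≠ 2) (S : Sylow p G) (h : Cfsg.HasNormalPComplement p ↥(Subgroup.normalizer ((Cfsg.inducedFunctor Cfsg.kInfLower (S : Subgroup G) : Subgroup G) : Set G)) ∨ ∀ g ∈ Subgroup.normalizer ((Cfsg.inducedFunctor Cfsg.kInfLower (S : Subgroup G) : Subgroup G) : Set G), (orderOf g).Coprime p → g ∈ Subgroup.centralizer ((Cfsg.inducedFunctor Cfsg.kInfLower (S : Subgroup G) : Subgroup G) : Set G)) : Cfsg.HasNormalPComplement p G := by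
  have hW : Cfsg.IsCharPFunctor.{u} p Cfsg.kInfLower := isCharPFunctor_kInfLower
  set W := Cfsg.inducedFunctor Cfsg.kInfLower (S : Subgroup G) with hWdef
  have hN : Cfsg.HasNormalPComplement p ↥(Subgroup.normalizer (W : Set G)) := by
    rcases h with h | h
    · exact h
    refine npc_normalizer_of_selfCentralizing S W (Subgroup.map_subtype_le _) ?_ ?_ h
    · exact Subgroup.le_normalizer.trans
        (normalizer_le_normalizer_functor (isConjugacyFunctor_induced hW) S.2)
    · rintro x ⟨hxS, hxC⟩
      refine ⟨⟨x, hxS⟩, (kInf_centralizer S.2).1 (Subgroup.mem_centralizer_iff.2 fun y hy => ?_), rfl⟩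
      exact Subtype.ext (Subgroup.mem_centralizer_iff.1 hxC _ ⟨y, hy, rfl⟩)
  exact npc_of_stable_control hp hW S hN fun K R hR hst T =>
    controlsStrongFusion_of_fusionOK hW
      (fusionOK_kInf (Or.inl rfl) (fun K' R' hR' => hst K' R') sect_refl) T

end Cfsg.Agent.S1988
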