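import Cfsg.Statements.S2001
import Cfsg.Agent.H61.PairApps

set_option autoImplicit false
open Cfsg Cfsg.Agent Cfsg.Agent.H61

namespace Cfsg.Agent.S2001

/-- Let p be a prime dividing the order of the finite group G, P a Sylow p-subgroup, W a conjugacy functor for p on G with Z(H) ≤ W(H) for every nontrivial p-subgroup H, and V a central functor: a conjugacy functor with V(H) ≤ Z(H), and V(H) ≤ V(K) whenever Z(H) ≤ Z(K), for nontrivial p-subgroups H, K. Say that W with V controls transfer in a subgroup L when some Sylow p-subgroup Q of L satisfies Q ∩ L' = (Q ∩ (N_L(W(Q)))')·(Q ∩ (C_L(V(Q)))') as a product of two subgroups. If W with V controls transfer in N_G(H) for every subgroup H with Z(P) ≤ H ≤ P, then W with V controls transfer in G. -/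
theorem result {G : Type*} [Group G] [Finite G] {p : ℕ} [Fact p.Prime] (hdiv : p ∣ Nat.card G) (P : Sylow p G) (W V : Subgroup G → Subgroup G) (hW : Cfsg.IsConjugacyFunctor p W) (hV : Cfsg.IsConjugacyFunctor p V) (hWZ : ∀ H : Subgroup G, IsPGroup p ↥H → H ⊓ Subgroup.centralizer ((H : Subgroup G) : Set G) ≤ W H) (hVZ : ∀ H : Subgroup G, IsPGroup p ↥H → V H ≤ H ⊓ Subgroup.centralizer ((H : Subgroup G) : Set G)) (hVmono : ∀ H K : Subgroup G, IsPGroup p ↥H → IsPGroup p ↥K → H ≠ ⊥ → K ≠ ⊥ → H ⊓ Subgroup.centralizer ((H : Subgroup G) : Set G) ≤ K ⊓ Subgroup.centralizer ((K : Subgroup G) : Set G) → V H ≤ V K) (hloc : ∀ H : Subgroup G, (P : Subgroup G) ⊓ Subgroup.centralizer (((P : Subgroup G) : Subgroup G) : Set G) ≤ H → H ≤ (P : Subgroup G) → ∃ Q : Subgroup G, Q ≤ Subgroup.normalizer ((H : Subgroup G) : Set G) ∧ IsPGroup p ↥Q ∧ ¬ p ∣ (Q).relIndex (Subgroup.normalizer ((H : Subgroup G) : Set G)) ∧ ∀ x : G, x ∈ Q ⊓ ⁅Subgroup.normalizer ((H : Subgroup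 G) : Set G), Subgroup.normalizer ((H : Subgroup G) : Set G)⁆ ↔ ∃ a ∈ Q ⊓ ⁅Subgroup.normalizer ((H : Subgroup G) : Set G) ⊓ Subgroup.normalizer ((W Q : Subgroup G) : Set G), Subgroup.normalizer ((H : Subgroup G) : Set G) ⊓ Subgroup.normalizer ((W Q : Subgroup G) : Set G)⁆, ∃ b ∈ Q ⊓ ⁅Subgroup.normalizer ((H : Subgroup G) : Set G) ⊓ Subgroup.centralizer ((V Q : Subgroup G) : Set G), Subgroup.normalizer ((H : Subgroup G) : Set G) ⊓ Subgroup.centralizer ((V Q : Subgroup G) : Set G)⁆, x = a * b) : ∃ Q : Subgroup G, IsPGroup p ↥Q ∧ ¬ p ∣ Q.index ∧ ∀ x : G, x ∈ Q ⊓ commutator G ↔ ∃ a ∈ Q ⊓ ⁅Subgroup.normalizer ((W Q : Subgroup G) : Set G), Subgroup.normalizer ((W Q : Subgroup G) : Set G)⁆, ∃ b ∈ Q ⊓ ⁅Subgroup.centralizer ((V Q : Subgroup G) : Set G), Subgroup.centralizer ((V Q : Subgroup G) : Set G)⁆, x = a * b := by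
  have hVS : (P : Subgroup G) ≤ Subgroup.centralizer ((V (P : Subgroup G) : Subgroup G) : Set G) :=
    Subgroup.le_centralizer_iff.1 ((hVZ _ P.2).trans inf_le_right)
  have key := PairLocal.pairTransfer P hW hV hWZ hVS hVmono (fun H h1 h2 => by
    obtain ⟨Q, q1, q2, q3, q4⟩ := hloc H h1 h2
    refine ⟨Q, q1, q2, q3, fun x hx => ?_⟩
    obtain ⟨a, ha, b, hb, rfl⟩ := (q4 x).1 hx
    exact Subgroup.mul_mem_sup ha hb)
  refine ⟨P, P.2, P.not_dvd_index, fun x => ⟨fun hx => ?_, ?_⟩⟩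
  · rw [commutator_def] at hx
    have hmem := key hx
    set A := (P : Subgroup G) ⊓ ⁅Subgroup.normalizer ((W (P : Subgroup G) : Subgroup G) : Set G),
      Subgroup.normalizer ((W (P : Subgroup G) : Subgroup G) : Set G)⁆ with hA
    set B := (P : Subgroup G) ⊓ ⁅Subgroup.centralizer ((V (P : Subgroup G) : Subgroup G) : Set G),
      Subgroup.centralizer ((V (P : Subgroup G) : Subgroup G) : Set G)⁆ with hB
    have hAB : A ≤ Subgroup.normalizer (B : Set G) := fun s hs => mem_normalizer_of_cj (by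
      rw [hB, cj_inf, cj, cj, Subgroup.map_commutator]
      congr 1
      · exact cj_eq_self (Subgroup.le_normalizer hs.1)
      · rw [show Subgroup.map (MulAut.conj s).toMonoidHom _ = cj s _ from rfl,
          cj_eq_self (Subgroup.le_normalizer (hVS hs.1))])
    rw [← SetLike.mem_coe, Subgroup.coe_mul_of_left_le_normalizer_right A B hAB] at hmem
    obtain ⟨a, ha, b, hb, rfl⟩ := hmem
    exact ⟨a, ha, b, hb, rfl⟩
  · rintro ⟨a, ha, b, hb, rfl⟩
    refine Subgroup.mem_inf.2 ⟨mul_mem ha.1 hb.1, ?_⟩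
    rw [commutator_def]
    exact mul_mem (Subgroup.commutator_mono le_top le_top ha.2) (Subgroup.commutator_mono le_top le_top hb.2)

end Cfsg.Agent.S2001
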