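import Cfsg.Statements.S2002
import Cfsg.Agent.H61.PairApps

set_option autoImplicit false
open Cfsg Cfsg.Agent Cfsg.Agent.H61

namespace Cfsg.Agent.S2002

/-- Let p be a prime dividing the order of the finite group G, P a Sylow p-subgroup, W a conjugacy functor for p on G with Z(H) ≤ W(H) for every nontrivial p-subgroup H, and V a central functor (a conjugacy functor with V(H) ≤ Z(H), and V(H) ≤ V(K) whenever Z(H) ≤ Z(K)). Say that W with V controls strong fusion in a subgroup L when some Sylow p-subgroup Q of L has the property: whenever X ⊆ Q and a ∈ L with a⁻¹Xa ⊆ Q, then a = c b with c ∈ C_L(X) and b = b₁ ⋯ bₙ a product of elements each in N_L(W(Q)) or in C_L(V(Q)) such that every partial conjugate (b₁ ⋯ bₖ)⁻¹ X (b₁ ⋯ bₖ) lies in Q. If W with V controls strong fusion in N_G(H) for every subgroup H with Z(P) ≤ H ≤ P, then W with V controls strong fusion in G. -/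
theorem result {G : Type*} [Group G] [Finite G] {p : ℕ} [Fact p.Prime] (hdiv : p ∣ Nat.card G) (P : Sylow p G) (W V : Subgroup G → Subgroup G) (hW : Cfsg.IsConjugacyFunctor p W) (hV : Cfsg.IsConjugacyFunctor p V) (hWZ : ∀ H : Subgroup G, IsPGroup p ↥H → H ⊓ Subgroup.centralizer ((H : Subgroup G) : Set G) ≤ W H) (hVZ : ∀ H : Subgroup G, IsPGroup p ↥H → V H ≤ H ⊓ Subgroup.centralizer ((H : Subgroup G) : Set G)) (hVmono : ∀ H K : Subgroup G, IsPGroup p ↥H → IsPGroup p ↥K → H ≠ ⊥ → K ≠ ⊥ → H ⊓ Subgroup.centralizer ((H : Subgroup G) : Set G) ≤ K ⊓ Subgroup.centralizer ((K : Subgroup G) : Set G) → V H ≤ V K) (hloc : ∀ H : Subgroup G, (P : Subgroup G) ⊓ Subgroup.centralizer (((P : Subgroup G) : Subgroup G) : Set G) ≤ H → H ≤ (P : Subgroup G) → ∃ Q : Subgroup G, Q ≤ Subgroup.normalizer ((H : Subgroup G) : Set G) ∧ IsPGroup p ↥Q ∧ ¬ p ∣ (Q).relIndex (Subgroup.normalizer ((H : Subgroup G) : Set G)) ∧ ∀ (X : Set G) (a : G),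 X ⊆ Q → a ∈ Subgroup.normalizer ((H : Subgroup G) : Set G) → (fun x => a⁻¹ * x * a) '' X ⊆ Q → ∃ c ∈ Subgroup.normalizer ((H : Subgroup G) : Set G) ⊓ Subgroup.centralizer X, ∃ (n : ℕ) (b : Fin n → G), (∀ i, b i ∈ Subgroup.normalizer ((H : Subgroup G) : Set G) ⊓ Subgroup.normalizer ((W Q : Subgroup G) : Set G) ∨ b i ∈ Subgroup.normalizer ((H : Subgroup G) : Set G) ⊓ Subgroup.centralizer ((V Q : Subgroup G) : Set G)) ∧ a = c * (List.ofFn b).prod ∧ ∀ k : ℕ, k ≤ n → (fun x => (((List.ofFn b).take k).prod)⁻¹ * x * ((List.ofFn b).take k).prod) '' ((fun x => c⁻¹ * x * c) '' X) ⊆ Q) : ∃ Q : Subgroup G, IsPGroup p ↥Q ∧ ¬ p ∣ Q.index ∧ ∀ (X : Set G) (a : G), X ⊆ Q → (fun x => a⁻¹ * x * a) '' X ⊆ Q → ∃ c ∈ Subgroup.centralizer X, ∃ (n : ℕ) (b : Fin n → G), (∀ i, b i ∈ ⊤ ⊓ Subgroup.normalizer ((W Q : Subgroup G) : Set G) ∨ b i ∈ ⊤ ⊓ Subgroup.centralizer ((V Q : Subgroup G) : Set G)) ∧ a = c * (List.ofFn b).prod ∧ ∀ k : ℕ,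 k ≤ n → (fun x => (((List.ofFn b).take k).prod)⁻¹ * x * ((List.ofFn b).take k).prod) '' ((fun x => c⁻¹ * x * c) '' X) ⊆ Q := by
  refine ⟨P, P.2, P.not_dvd_index, fun X a hX hXa => ?_⟩
  obtain ⟨l, hl, hstay, hlast⟩ := PairLocal.pairFus_all P hW hV hWZ hVmono hloc
    (A := Subgroup.closure X) (g := a⁻¹) ((Subgroup.closure_le _).2 hX) (by
      rw [cj, MonoidHom.map_closure, Subgroup.closure_le]
      rintro _ ⟨x, hx, rfl⟩
      have := hXa ⟨x, hx, rfl⟩
      simpa [mul_assoc] using this)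
  refine ⟨a * l.prod⁻¹, ?_, l.length, l.get, fun i => ?_, ?_, fun k _ => ?_⟩
  · refine Subgroup.mem_centralizer_iff.2 fun x hx => ?_
    have h := hlast x (Subgroup.subset_closure hx)
    rw [inv_inv] at h
    calc x * (a * l.prod⁻¹) = a * (a⁻¹ * x * a) * l.prod⁻¹ := by group
      _ = a * (l.prod⁻¹ * x * l.prod) * l.prod⁻¹ := by rw [h]
      _ = a * l.prod⁻¹ * x := by group
  · exact (hl _ (List.get_mem l i)).imp (fun h => ⟨Subgroup.mem_top _, h⟩)
      fun h => ⟨Subgroup.mem_top _, h⟩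
  · rw [List.ofFn_get, inv_mul_cancel_right]
  · rintro _ ⟨_, ⟨x, hx, rfl⟩, rfl⟩
    rw [List.ofFn_get]
    have h := hlast x (Subgroup.subset_closure hx)
    rw [inv_inv] at h
    have e : (a * l.prod⁻¹)⁻¹ * x * (a * l.prod⁻¹) = x := by
      calc (a * l.prod⁻¹)⁻¹ * x * (a * l.prod⁻¹) = l.prod * (a⁻¹ * x * a) * l.prod⁻¹ := by group
        _ = x := by rw [← h]; group
    simp only [e]
    have := hstay k (conj_mem_cj (Subgroup.subset_closure hx))
    simp at this ⊢; exact this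

end Cfsg.Agent.S2002
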