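import Cfsg.Statements.S2015
import Cfsg.Agent.H61.KInfApps

set_option autoImplicit false
universe u
open Cfsg Cfsg.Agent.H61

namespace Cfsg.Agent.S2015

/-- For p ≥ 5, every finite p-group P has a characteristic subgroup K containing Z(P), depending only on P, whose normalizer controls transfer wherever P is a Sylow subgroup: for every finite group G and every embedding ι of P onto a Sylow p-subgroup of G, the intersection of ι(P) with the derived subgroup of G equals its intersection with the derived subgroup of N_G(ι(K)). -/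
theorem result (p : ℕ) [Fact p.Prime] (hp : 5 ≤ p) (P : Type u) [Group P] [Finite P] (hP : IsPGroup p P) : ∃ K : Subgroup P, K.Characteristic ∧ Subgroup.center P ≤ K ∧ ∀ (G : Type u) [Group G] [Finite G] (ι : P →* G), Function.Injective ι → (∃ T : Sylow p G, (T : Subgroup G) = ι.range) → ι.range ⊓ commutator G = ι.range ⊓ (commutator ↥(Subgroup.normalizer ((K.map ι : Subgroup G) : Set G))).map (Subgroup.normalizer ((K.map ι : Subgroup G) : Set G)).subtype := by
  have hW : Cfsg.IsCharPFunctor.{u} p Cfsg.kInfLower := isCharPFunctor_kInfLower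
  refine ⟨Cfsg.kInfLower P, Subgroup.characteristic_iff_map_eq.2 fun φ => hW.2 P P hP φ,
    center_le_kInf.1, fun G _ _ ι hι hT => ?_⟩
  obtain ⟨T, hT⟩ := hT
  have key : Cfsg.inducedFunctor Cfsg.kInfLower (T : Subgroup G) = (Cfsg.kInfLower P).map ι := by
    rw [hT, MonoidHom.range_eq_map,
      induced_map' hW ι (hP.to_subgroup ⊤) hι.injOn, Cfsg.inducedFunctor,
      ← hW.2 P ↥(⊤ : Subgroup P) hP (Subgroup.topEquiv (G := P)).symm, Subgroup.map_map]
    rw [Subgroup.map_map]; rfl
  have h := inf_commutator_eq_of_trOK (trOK_kInf (Or.inl rfl) hp sect_refl) T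
  rw [key, hT] at h
  rw [h, Subgroup.map_subtype_commutator]

end Cfsg.Agent.S2015
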