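import Cfsg.Statements.S2132
import Cfsg.Agent.H41.McL.Main

set_option autoImplicit false
open Cfsg

namespace Cfsg.Agent.S2132

/-- The McLaughlin group (as a two-vector stabiliser in the automorphism group of the rank-24 lattice) has a single conjugacy class of involutions, and the centraliser of an involution is a non-split double cover of the alternating group of degree 8. -/
theorem result : (∀ x y : ↥Cfsg.Spor.McL, orderOf x = 2 → orderOf y = 2 → IsConj x y) ∧ ∃ t : ↥Cfsg.Spor.McL, orderOf t = 2 ∧ Cfsg.IsNonsplitDoubleCover ↥(Subgroup.centralizer ({t} : Set ↥Cfsg.Spor.McL)) ↥(alternatingGroup (Fin 8)) := by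
  exact Cfsg.Agent.H41.McL.main

end Cfsg.Agent.S2132
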