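import Cfsg.Statements.S2162
import Cfsg.Agent.H65.NilSq
import Cfsg.Agent.H65.MatInvol

set_option autoImplicit false
open Cfsg

namespace Cfsg.Agent.S2162

/-- Conjugacy of involutions in the special linear group over a finite field of characteristic two, in dimension at least 3: two elements of order 2 of SL_n(F) are conjugate in SL_n(F) exactly when the matrices a − 1 and b − 1 have the same rank (the rank of a − 1 is the dimension of the commutator space [V, a]). -/
theorem result {F : Type*} [Field F] [Fintype F] [CharP F 2] {n : ℕ} (hn : 3 ≤ n) (a b : Matrix.SpecialLinearGroup (Fin n) F) (ha : orderOf a = 2) (hb : orderOf b = 2) :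
    IsConj a b ↔ ((a : Matrix (Fin n) (Fin n) F) - 1).rank = ((b : Matrix (Fin n) (Fin n) F) - 1).rank := by
  classical
  let A : Matrix (Fin n) (Fin n) F := (a : Matrix (Fin n) (Fin n) F)
  let B : Matrix (Fin n) (Fin n) F := (b : Matrix (Fin n) (Fin n) F)
  have hsq : ∀ x : Matrix.SpecialLinearGroup (Fin n) F, orderOf x = 2 →
      ((x : Matrix (Fin n) (Fin n) F) * (x : Matrix (Fin n) (Fin n) F) = 1) ∧
      ((x : Matrix (Fin n) (Fin n) F) ≠ 1) := by
    intro x hx
    obtain ⟨h1, h2⟩ := orderOf_eq_prime_iff.mp hx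
    constructor
    · have := congrArg (fun y : Matrix.SpecialLinearGroup (Fin n) F => (y : Matrix (Fin n) (Fin n) F)) h1
      simpa [pow_two] using this
    · intro h
      exact h2 (Subtype.ext h)
  obtain ⟨hA, -⟩ := hsq a ha
  obtain ⟨hB, hB1⟩ := hsq b hb
  constructor
  · intro h
    obtain ⟨g, hg⟩ := isConj_iff.mp h
    subst hg
    have e : ((g * a * g⁻¹ : Matrix.SpecialLinearGroup (Fin n) F) : Matrix (Fin n) (Fin n) F) - 1
        = (g : Matrix (Fin n) (Fin n) F) * ((A - 1) * ((g⁻¹ : Matrix.SpecialLinearGroup (Fin n) F) : Matrix (Fin n) (Fin n) F)) := by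
      rw [sub_mul, mul_sub, one_mul, Matrix.SpecialLinearGroup.coe_mul, Matrix.SpecialLinearGroup.coe_mul,
        Matrix.mul_assoc, ← Matrix.SpecialLinearGroup.coe_mul g g⁻¹, mul_inv_cancel,
        Matrix.SpecialLinearGroup.coe_one]
    rw [e, Matrix.rank_mul_eq_right_of_isUnit_det _ _ (by rw [g.det_coe]; exact isUnit_one),
      Matrix.rank_mul_eq_left_of_isUnit_det _ _ (by rw [Matrix.SpecialLinearGroup.det_coe]; exact isUnit_one)]
  · intro hr
    let N := Matrix.toLin' (A - 1)
    let N' := Matrix.toLin' (B - 1)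
    have hN : ∀ v, N (N v) = 0 := fun v => by
      simp only [N, Matrix.toLin'_apply, Matrix.mulVec_mulVec, H65.sub_one_sq_eq_zero A hA, Matrix.zero_mulVec]
    have hN' : ∀ v, N' (N' v) = 0 := fun v => by
      simp only [N', Matrix.toLin'_apply, Matrix.mulVec_mulVec, H65.sub_one_sq_eq_zero B hB, Matrix.zero_mulVec]
    obtain ⟨g, hg⟩ := H65.exists_equiv_intertwine N N' hN hN' (by
      simp only [N, N', Matrix.toLin'_apply']
      exact hr)
    obtain ⟨μ, hμ⟩ := FiniteField.isSquare_of_char_two (ringChar.eq F 2) (LinearMap.det g.toLinearMap)⁻¹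
    have hgd : LinearMap.det g.toLinearMap ≠ 0 := g.isUnit_det'.ne_zero
    have hμ0 : μ ≠ 0 := by
      rintro rfl
      rw [mul_zero, inv_eq_zero] at hμ
      exact hgd hμ
    obtain ⟨c, hc, hcd⟩ := H65.exists_commute_det_sq N' hN' (by
      intro h
      exact hB1 (sub_eq_zero.mp (Matrix.toLin'.injective (h.trans (map_zero _).symm)))) μ hμ0
    let G : (Fin n → F) →ₗ[F] (Fin n → F) := c.toLinearMap ∘ₗ g.toLinearMap
    have hGd : (LinearMap.toMatrix' G).det = 1 := by
      rw [LinearMap.det_toMatrix', LinearMap.det_comp, hcd, pow_two, ← hμ, inv_mul_cancel₀ hgd]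
    let x : Matrix.SpecialLinearGroup (Fin n) F := ⟨LinearMap.toMatrix' G, hGd⟩
    have hx : (x : Matrix (Fin n) (Fin n) F) = LinearMap.toMatrix' G := rfl
    refine isConj_iff.mpr ⟨x, ?_⟩
    rw [mul_inv_eq_iff_eq_mul]
    apply Subtype.ext
    have hcomm : LinearMap.toMatrix' G * (A - 1) = (B - 1) * LinearMap.toMatrix' G := by
      apply Matrix.toLin'.injective
      rw [Matrix.toLin'_mul, Matrix.toLin'_mul, Matrix.toLin'_toMatrix']
      apply LinearMap.ext
      intro v
      simp only [LinearMap.comp_apply, G, LinearEquiv.coe_coe]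
      exact (congrArg c (hg v)).trans (hc (g v))
    simp only [mul_sub, sub_mul, mul_one, one_mul, sub_left_inj] at hcomm
    rw [Matrix.SpecialLinearGroup.coe_mul, Matrix.SpecialLinearGroup.coe_mul, hx]
    exact hcomm

end Cfsg.Agent.S2162
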