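import Cfsg.Statements.S2163
import Cfsg.Agent.H65.MatInvol

set_option autoImplicit false
open Cfsg

namespace Cfsg.Agent.S2163

/-- Over a finite field of characteristic two and for n ≥ 3: for every ℓ with 1 ≤ ℓ and 2ℓ ≤ n, the matrix j_ℓ that is the identity plus the entries 1 in positions (n − ℓ + i, i) for i < ℓ (an identity block of size ℓ in the lower left corner) lies in SL_n(F), has order 2, and j_ℓ − 1 has rank ℓ. Together with the conjugacy criterion by rank, these matrices represent the conjugacy classes of involutions of SL_n(F). -/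
theorem result {F : Type*} [Field F] [Fintype F] [CharP F 2] {n : ℕ} (hn : 3 ≤ n) (ℓ : ℕ) (h1 : 1 ≤ ℓ) (h2 : 2 * ℓ ≤ n) :
    ∃ a : Matrix.SpecialLinearGroup (Fin n) F, (a : Matrix (Fin n) (Fin n) F) = 1 + Matrix.of (fun i j : Fin n => if j.val < ℓ ∧ i.val = j.val + (n - ℓ) then (1 : F) else 0) ∧ orderOf a = 2 ∧ ((a : Matrix (Fin n) (Fin n) F) - 1).rank = ℓ := by
  classical
  let N : Matrix (Fin n) (Fin n) F := Matrix.of (fun i j : Fin n => if j.val < ℓ ∧ i.val = j.val + (n - ℓ) then (1 : F) else 0)
  let P : Matrix (Fin n) (Fin ℓ) F := Matrix.of (fun i k => if i.val = k.val + (n - ℓ) then (1 : F) else 0)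
  let R : Matrix (Fin ℓ) (Fin n) F := Matrix.of (fun k j => if k.val = j.val then (1 : F) else 0)
  have hPR : N = P * R := by
    ext i j
    simp only [N, P, R, Matrix.of_apply, Matrix.mul_apply]
    by_cases hj : j.val < ℓ
    · rw [Finset.sum_eq_single ⟨j.val, hj⟩]
      · simp [hj]
      · intro k _ hk
        simp [show k.val ≠ j.val from fun e => hk (Fin.ext e)]
      · simp
    · simp only [hj, false_and, if_false]
      rw [Finset.sum_eq_zero]
      intro k _
      simp [show k.val ≠ j.val from fun e => hj (e ▸ k.isLt)]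
  have hRP : R * P = 0 := by
    ext k k'
    simp only [P, R, Matrix.of_apply, Matrix.mul_apply, Matrix.zero_apply]
    refine Finset.sum_eq_zero fun j _ => ?_
    have := k.isLt
    split_ifs <;> first | omega | simp
  have hsq : N * N = 0 := by
    rw [hPR, Matrix.mul_assoc, ← Matrix.mul_assoc R, hRP, Matrix.zero_mul, Matrix.mul_zero]
  have hrank : N.rank = ℓ := by
    refine le_antisymm (H65.rank_le_of_eq_mul N P R hPR) (H65.le_rank_of_submatrix_eq_one N
      (fun k => ⟨k.val + (n - ℓ), by omega⟩) (fun k => ⟨k.val, by omega⟩) ?_)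
    ext k k'
    simp only [N, Matrix.submatrix_apply, Matrix.of_apply, Matrix.one_apply, Fin.ext_iff]
    congr 1
    simp
  have hdet : (1 + N).det = 1 := by
    rw [hPR, Matrix.det_one_add_mul_comm, hRP, add_zero, Matrix.det_one]
  let a : Matrix.SpecialLinearGroup (Fin n) F := ⟨1 + N, hdet⟩
  have hcoe : (a : Matrix (Fin n) (Fin n) F) = 1 + N := rfl
  refine ⟨a, hcoe, orderOf_eq_prime_iff.mpr ⟨?_, ?_⟩, ?_⟩
  · apply Subtype.ext
    rw [Matrix.SpecialLinearGroup.coe_pow, Matrix.SpecialLinearGroup.coe_one, hcoe, pow_two, mul_add, add_mul,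
      add_mul, hsq, one_mul, mul_one, one_mul, add_zero, add_assoc,
      show N + N = (2 : F) • N by rw [two_smul], CharTwo.two_eq_zero, zero_smul, add_zero]
  · intro h
    have hN0 : N = 0 := by
      have e := congrArg (fun x : Matrix.SpecialLinearGroup (Fin n) F => (x : Matrix (Fin n) (Fin n) F)) h
      simp only [hcoe, Matrix.SpecialLinearGroup.coe_one] at e
      simpa using e
    rw [hN0, Matrix.rank_zero] at hrank
    omega
  · rw [hcoe]
    rw [add_sub_cancel_left, hrank]

end Cfsg.Agent.S2163
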