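-- S2164
import Cfsg.Statements.S2164
import Cfsg.Agent.S2162
import Cfsg.Agent.H65.MatInvol
import Cfsg.Agent.H65.SUInvol

set_option autoImplicit false
open Cfsg
open Matrix

namespace Cfsg.Agent.S2164

/-- Conjugacy of involutions in the special unitary group SU_n(q), q even, n ≥ 3, realised over the field F with q² elements as the matrices of determinant 1 preserving the form Σ u_i v_i^q: for two elements of order 2 of SU_n(q) the following are equivalent — they are conjugate in SU_n(q); they are conjugate in SL_n(F); the matrices a − 1 and b − 1 have the same rank. -/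
theorem result {F : Type*} [Field F] [Fintype F] [CharP F 2] {n q : ℕ} (hF : Fintype.card F = q ^ 2) (hn : 3 ≤ n) (a b : ↥(Cfsg.SU n F q)) (ha : orderOf a = 2) (hb : orderOf b = 2) :
    (IsConj a b ↔ IsConj (a : Matrix.SpecialLinearGroup (Fin n) F) (b : Matrix.SpecialLinearGroup (Fin n) F)) ∧
    (IsConj a b ↔ (((a : Matrix.SpecialLinearGroup (Fin n) F) : Matrix (Fin n) (Fin n) F) - 1).rank = (((b : Matrix.SpecialLinearGroup (Fin n) F) : Matrix (Fin n) (Fin n) F) - 1).rank) := by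
  classical
  have hsl := Cfsg.Agent.S2162.result hn (a : Matrix.SpecialLinearGroup (Fin n) F)
    (b : Matrix.SpecialLinearGroup (Fin n) F) (by rw [Subgroup.orderOf_coe]; exact ha)
    (by rw [Subgroup.orderOf_coe]; exact hb)
  let A : Matrix (Fin n) (Fin n) F := ((a : Matrix.SpecialLinearGroup (Fin n) F) : Matrix (Fin n) (Fin n) F)
  let B : Matrix (Fin n) (Fin n) F := ((b : Matrix.SpecialLinearGroup (Fin n) F) : Matrix (Fin n) (Fin n) F)
  suffices h : (A - 1).rank = (B - 1).rank → IsConj a b by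
    have hup : IsConj a b → IsConj (a : Matrix.SpecialLinearGroup (Fin n) F) (b : Matrix.SpecialLinearGroup (Fin n) F) :=
      fun hc => MonoidHom.map_isConj (Cfsg.SU n F q).subtype hc
    exact ⟨⟨hup, fun hc => h (hsl.mp hc)⟩, ⟨fun hc => hsl.mp (hup hc), h⟩⟩
  intro hr
  have hsq : ∀ x : ↥(Cfsg.SU n F q), orderOf x = 2 →
      ((x.1 : Matrix (Fin n) (Fin n) F) * (x.1 : Matrix (Fin n) (Fin n) F) = 1) ∧
      ((x.1 : Matrix (Fin n) (Fin n) F) ≠ 1) := by
    intro x hx
    obtain ⟨h1, h2⟩ := orderOf_eq_prime_iff.mp hx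
    constructor
    · have := congrArg (fun y : ↥(Cfsg.SU n F q) => (y.1 : Matrix (Fin n) (Fin n) F)) h1
      simpa [pow_two] using this
    · intro h
      exact h2 (Subtype.ext (Subtype.ext h))
  obtain ⟨hA, -⟩ := hsq a ha
  obtain ⟨hB, hB1⟩ := hsq b hb
  have hinv : ∀ x : ↥(Cfsg.SU n F q), (x.1 : Matrix (Fin n) (Fin n) F) * (x.1 : Matrix (Fin n) (Fin n) F) = 1 →
      H65.HermInv (H3.hermB hF n) q (Matrix.toLin' ((x.1 : Matrix (Fin n) (Fin n) F) - 1)) := by
    intro x hx
    refine ⟨H3.isHerm_hermB hF n, fun v => ?_, fun u v => ?_⟩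
    · simp only [Matrix.toLin'_apply, Matrix.mulVec_mulVec, H65.sub_one_sq_eq_zero _ hx, Matrix.zero_mulVec]
    · have key := H3.mem_SU_iff.mp x.2 v ((x.1 : Matrix (Fin n) (Fin n) F) *ᵥ u)
      rw [Matrix.mulVec_mulVec, hx, Matrix.one_mulVec] at key
      simp only [Matrix.toLin'_apply, H3.hermB_apply, Matrix.sub_mulVec, Matrix.one_mulVec,
        H3.hermForm_sub_left hF, H3.hermForm_sub_right hF, key]
  have dA := hinv a hA
  have dB := hinv b hB
  obtain ⟨g, hg, hgN⟩ := H65.hermInv_conj dA dB (by simp only [Matrix.toLin'_apply']; exact hr)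
  have hB0 : Matrix.toLin' (B - 1) ≠ 0 := fun h =>
    hB1 (sub_eq_zero.mp (Matrix.toLin'.injective (h.trans (map_zero _).symm)))
  let d : F := LinearMap.det g.toLinearMap
  have hd : d ^ (q + 1) = 1 := by
    have h1 := H3.det_GU hF (H3.guOfEquiv g (fun u v => hg v u))
    have e : ((H3.guOfEquiv g (fun u v => hg v u)).1 : Matrix (Fin n) (Fin n) F) =
        LinearMap.toMatrix' g.toLinearMap := rfl
    rwa [e, LinearMap.det_toMatrix'] at h1
  obtain ⟨μ, hμ⟩ := FiniteField.isSquare_of_char_two (ringChar.eq F 2) d⁻¹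
  have hμ1 : μ ^ (q + 1) = 1 := by
    have h2 : (μ ^ (q + 1)) ^ 2 = 1 := by
      rw [← pow_mul, mul_comm, pow_mul, pow_two, ← hμ, inv_pow, hd, inv_one]
    have h3 : (μ ^ (q + 1) + 1) ^ 2 = 0 := by
      linear_combination h2 + (μ ^ (q + 1) + 1) * CharTwo.two_eq_zero (R := F)
    have := eq_zero_of_pow_eq_zero h3
    rwa [CharTwo.add_eq_zero] at this
  obtain ⟨c, hc, hcN, hcd⟩ := dB.exists_commute_det_sq hB0 hμ1
  let G : (Fin n → F) →ₗ[F] (Fin n → F) := c.toLinearMap ∘ₗ g.toLinearMap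
  have hd0 : d ≠ 0 := g.isUnit_det'.ne_zero
  have hGd : (LinearMap.toMatrix' G).det = 1 := by
    rw [LinearMap.det_toMatrix', LinearMap.det_comp, hcd, pow_two, ← hμ]
    exact inv_mul_cancel₀ hd0
  let x₀ : Matrix.SpecialLinearGroup (Fin n) F := ⟨LinearMap.toMatrix' G, hGd⟩
  have hx₀ : x₀ ∈ Cfsg.SU n F q := H3.mem_SU_iff.mpr fun u v => by
    have e : ∀ w, (x₀ : Matrix (Fin n) (Fin n) F) *ᵥ w = c (g w) := fun w => by
      change LinearMap.toMatrix' G *ᵥ w = _
      rw [← Matrix.toLin'_apply, Matrix.toLin'_toMatrix']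
      rfl
    rw [e, e]
    exact (hc (g v) (g u)).trans (hg v u)
  refine isConj_iff.mpr ⟨⟨x₀, hx₀⟩, ?_⟩
  rw [mul_inv_eq_iff_eq_mul]
  apply Subtype.ext
  apply Subtype.ext
  have hcomm : LinearMap.toMatrix' G * (A - 1) = (B - 1) * LinearMap.toMatrix' G := by
    apply Matrix.toLin'.injective
    rw [Matrix.toLin'_mul, Matrix.toLin'_mul, Matrix.toLin'_toMatrix']
    apply LinearMap.ext
    intro v
    simp only [LinearMap.comp_apply, G, LinearEquiv.coe_coe]
    exact (congrArg c (hgN v)).trans (hcN (g v))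
  simp only [mul_sub, sub_mul, mul_one, one_mul, sub_left_inj] at hcomm
  exact hcomm

end Cfsg.Agent.S2164
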