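-- S2165
import Cfsg.Statements.S2165
import Cfsg.Agent.H3.Unitary
import Cfsg.Agent.H65.MatInvol

set_option autoImplicit false
open Cfsg
open Matrix

namespace Cfsg.Agent.S2165

/-- In SU_n(q), q even, n ≥ 3 (matrices of determinant 1 over the field with q² elements preserving Σ u_i v_i^q): for every ℓ with 1 ≤ ℓ and 2ℓ ≤ n, the permutation matrix of the involution of {0, …, n−1} exchanging i and n − ℓ + i for each i < ℓ lies in SU_n(q), has order 2, and differs from the identity by a matrix of rank ℓ. So every rank between 1 and n/2 occurs for involutions of SU_n(q). -/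
theorem result {F : Type*} [Field F] [Fintype F] [CharP F 2] {n q : ℕ} (hF : Fintype.card F = q ^ 2) (hn : 3 ≤ n) (ℓ : ℕ) (h1 : 1 ≤ ℓ) (h2 : 2 * ℓ ≤ n) :
    ∃ a : ↥(Cfsg.SU n F q), (((a : Matrix.SpecialLinearGroup (Fin n) F) : Matrix (Fin n) (Fin n) F) = Matrix.of (fun i j : Fin n => if (j.val < ℓ ∧ i.val = j.val + (n - ℓ)) ∨ (i.val < ℓ ∧ j.val = i.val + (n - ℓ)) ∨ (i = j ∧ ℓ ≤ i.val ∧ i.val < n - ℓ) then (1 : F) else 0)) ∧ orderOf a = 2 ∧ ((((a : Matrix.SpecialLinearGroup (Fin n) F) : Matrix (Fin n) (Fin n) F)) - 1).rank = ℓ := by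
  classical
  let f : Fin n → Fin n := fun i =>
    if h : i.val < ℓ then ⟨i.val + (n - ℓ), by omega⟩
    else if h' : n - ℓ ≤ i.val then ⟨i.val - (n - ℓ), by omega⟩ else i
  have hv : ∀ i, (f i).val =
      if i.val < ℓ then i.val + (n - ℓ) else if n - ℓ ≤ i.val then i.val - (n - ℓ) else i.val := fun i => by
    simp only [f]
    split_ifs <;> rfl
  have hf : ∀ i, f (f i) = i := fun i => by
    have := i.isLt
    apply Fin.ext
    rw [hv, hv]
    split_ifs <;> omega
  let π : Equiv.Perm (Fin n) := ⟨f, f, hf, hf⟩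
  let M : Matrix (Fin n) (Fin n) F := Matrix.of (fun i j : Fin n => if (j.val < ℓ ∧ i.val = j.val + (n - ℓ)) ∨ (i.val < ℓ ∧ j.val = i.val + (n - ℓ)) ∨ (i = j ∧ ℓ ≤ i.val ∧ i.val < n - ℓ) then (1 : F) else 0)
  have hM : M = π.permMatrix F := by
    ext i j
    have := i.isLt
    have := j.isLt
    simp only [M, Matrix.of_apply, Equiv.Perm.permMatrix, PEquiv.toMatrix_apply,
      Equiv.toPEquiv_apply, Option.mem_def, Option.some.injEq]
    refine if_congr ?_ rfl rfl
    change _ ↔ f i = j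
    rw [Fin.ext_iff, Fin.ext_iff, hv]
    split_ifs <;> omega
  have hdet : M.det = 1 := by
    rw [hM, Matrix.det_permutation]
    rcases Int.units_eq_one_or (Equiv.Perm.sign π) with h | h <;> simp [h, CharTwo.neg_eq]
  let a₀ : Matrix.SpecialLinearGroup (Fin n) F := ⟨M, hdet⟩
  have hmv : ∀ v : Fin n → F, M *ᵥ v = v ∘ π := fun v => by
    rw [hM]
    ext i
    simp [Equiv.Perm.permMatrix, PEquiv.toMatrix_toPEquiv_mulVec]
  have ha₀ : a₀ ∈ Cfsg.SU n F q := H3.mem_SU_iff.mpr fun u v => by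
    change hermForm n F q (M *ᵥ u) (M *ᵥ v) = _
    rw [hmv, hmv]
    exact Equiv.sum_comp π fun i => u i * v i ^ q
  let P : Matrix (Fin n) (Fin ℓ) F := Matrix.of (fun i k => if i.val = k.val ∨ i.val = k.val + (n - ℓ) then (1 : F) else 0)
  have hPR : M - 1 = P * Pᵀ := by
    ext i j
    have := i.isLt
    have := j.isLt
    simp only [M, P, Matrix.sub_apply, Matrix.of_apply, Matrix.mul_apply, Matrix.transpose_apply,
      Matrix.one_apply, CharTwo.sub_eq_add]
    by_cases hi : i.val < ℓ ∨ n - ℓ ≤ i.val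
    · obtain ⟨k, hk⟩ : ∃ k : Fin ℓ, i.val = k.val ∨ i.val = k.val + (n - ℓ) := by
        by_cases h : i.val < ℓ
        · exact ⟨⟨i.val, h⟩, Or.inl rfl⟩
        · exact ⟨⟨i.val - (n - ℓ), by omega⟩, Or.inr (by simp only; omega)⟩
      rw [Finset.sum_eq_single k (fun l _ hl => by
        rw [if_neg (by have := Fin.val_ne_of_ne hl; omega), zero_mul]) (by simp), if_pos hk, one_mul]
      simp only [Fin.ext_iff]
      have := k.isLt
      split_ifs <;> first | omega | simp [CharTwo.add_self_eq_zero]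
    · rw [Finset.sum_eq_zero (fun l _ => by rw [if_neg (by omega), zero_mul])]
      simp only [Fin.ext_iff]
      split_ifs <;> first | omega | simp [CharTwo.add_self_eq_zero]
  have hrank : (M - 1).rank = ℓ := by
    refine le_antisymm (H65.rank_le_of_eq_mul _ P Pᵀ hPR) (H65.le_rank_of_submatrix_eq_one _
      (fun k => ⟨k.val, by omega⟩) (fun k => ⟨k.val, by omega⟩) ?_)
    ext k k'
    have := k.isLt
    have := k'.isLt
    simp only [M, Matrix.submatrix_apply, Matrix.sub_apply, Matrix.of_apply, Matrix.one_apply,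
      Fin.ext_iff, CharTwo.sub_eq_add]
    split_ifs <;> first | omega | simp
  refine ⟨⟨a₀, ha₀⟩, rfl, orderOf_eq_prime_iff.mpr ⟨?_, ?_⟩, hrank⟩
  · apply Subtype.ext
    apply Subtype.ext
    change ((a₀ ^ 2 : Matrix.SpecialLinearGroup (Fin n) F) : Matrix (Fin n) (Fin n) F) = 1
    rw [Matrix.SpecialLinearGroup.coe_pow, pow_two]
    change M * M = 1
    refine Matrix.toLin'.injective (LinearMap.ext fun v => ?_)
    rw [Matrix.toLin'_mul, Matrix.toLin'_one, LinearMap.comp_apply, Matrix.toLin'_apply,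
      Matrix.toLin'_apply, hmv, hmv, LinearMap.id_apply]
    ext i
    change v (f (f i)) = v i
    rw [hf]
  · intro h
    have e : M = 1 := congrArg (fun x : ↥(Cfsg.SU n F q) => (x.1 : Matrix (Fin n) (Fin n) F)) h
    rw [e, sub_self, Matrix.rank_zero] at hrank
    omega

end Cfsg.Agent.S2165
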