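import Cfsg.Statements.S2166
import Cfsg.Agent.H65.SpMatrix

set_option autoImplicit false
open Cfsg

namespace Cfsg.Agent.S2166

/-- Conjugacy of involutions in the symplectic group Sp_{2m}(F), F a finite field of characteristic two, m ≥ 2 (Sp taken as the matrices A with A J Aᵀ = J, acting on column vectors, with the alternating form f(u, v) = u ⬝ (J v)). For an involution t write V(t) for the set of vectors v with f(v, t v) = 0 (a subspace). Two involutions a, b are conjugate in Sp_{2m}(F) exactly when a − 1 and b − 1 have the same rank and, in case that rank is even, V(a) and V(b) have the same number of elements. -/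
theorem result {F : Type*} [Field F] [Fintype F] [CharP F 2] {m : ℕ} (hm : 2 ≤ m) (a b : ↥(Matrix.symplecticGroup (Fin m) F)) (ha : orderOf a = 2) (hb : orderOf b = 2) :
    IsConj a b ↔ ((((a : ↥(Matrix.symplecticGroup (Fin m) F)) : Matrix (Fin m ⊕ Fin m) (Fin m ⊕ Fin m) F) - 1).rank = (((b : ↥(Matrix.symplecticGroup (Fin m) F)) : Matrix (Fin m ⊕ Fin m) (Fin m ⊕ Fin m) F) - 1).rank ∧
      (Even (((a : ↥(Matrix.symplecticGroup (Fin m) F)) : Matrix (Fin m ⊕ Fin m) (Fin m ⊕ Fin m) F) - 1).rank → Nat.card {v : Fin m ⊕ Fin m → F // Cfsg.sympForm m F v (Matrix.mulVec ((a : ↥(Matrix.symplecticGroup (Fin m) F)) : Matrix (Fin m ⊕ Fin m) (Fin m ⊕ Fin m) F) v) = 0} = Nat.card {v : Fin m ⊕ Fin m → F // Cfsg.sympForm m F v (Matrix.mulVec ((b : ↥(Matrix.symplecticGroup (Fin m) F)) : Matrix (Fin m ⊕ Fin m) (Fin m ⊕ Fin m) F) v) = 0})) := by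
  have ha2 : a ^ 2 = 1 := ha ▸ pow_orderOf_eq_one a
  have hb2 : b ^ 2 = 1 := hb ▸ pow_orderOf_eq_one b
  obtain ⟨ca, ca'⟩ := H65.card_isotropicSet a ha2
  obtain ⟨cb, cb'⟩ := H65.card_isotropicSet b hb2
  have hq : 1 < Nat.card F := Finite.one_lt_card
  have key : ∀ {x y : ℕ}, x = Nat.card F ^ (2 * m) → y * Nat.card F = Nat.card F ^ (2 * m) → x ≠ y := by
    intro x y hx hy h
    subst h hx
    have hpos : 0 < Nat.card F ^ (2 * m) := pow_pos (by omega) _
    have := (Nat.mul_eq_left hpos.ne').mp hy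
    omega
  have ev : ∀ c : ↥(Matrix.symplecticGroup (Fin m) F), c ^ 2 = 1 →
      (∀ v, Cfsg.sympForm m F v (Matrix.mulVec (c : Matrix (Fin m ⊕ Fin m) (Fin m ⊕ Fin m) F) v) = 0) →
      Even ((c : Matrix (Fin m ⊕ Fin m) (Fin m ⊕ Fin m) F) - 1).rank := fun c hc h =>
    (H65.invData_spN c hc).even_rank ((H65.isAltType_spN_iff c).mpr h)
  rw [H65.sp_isConj_iff a b ha2 hb2]
  refine and_congr_right fun hr => ⟨fun hiff _ => ?_, fun h => ?_⟩
  · by_cases hA : ∀ v, Cfsg.sympForm m F v (Matrix.mulVec (a : Matrix (Fin m ⊕ Fin m) (Fin m ⊕ Fin m) F) v) = 0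
    · exact (ca hA).trans (cb (hiff.mp hA)).symm
    · exact Nat.eq_of_mul_eq_mul_right (by omega) ((ca' hA).trans (cb' (mt hiff.mpr hA)).symm)
  · constructor
    · intro hA
      by_contra hB
      exact key (ca hA) (cb' hB) (h (ev a ha2 hA))
    · intro hB
      by_contra hA
      exact key (cb hB) (ca' hA) (h (hr ▸ ev b hb2 hB)).symm

end Cfsg.Agent.S2166
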