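import Cfsg.Statements.S2172
import Cfsg.Agent.H65.OmegaMat
import Cfsg.Agent.H4.StdForms

set_option autoImplicit false
open Cfsg

namespace Cfsg.Agent.S2172

/-- Splitting of involution classes from O to Ω for the hyperbolic quadratic form Q = Σ x_i y_i in dimension 2m over a finite field F of characteristic two, m ≥ 4. Let t, s be involutions of the commutator subgroup Ω that are conjugate in the full isometry group O. If it is not the case that t − 1 has rank m and Q(v + t v) = 0 for every vector v, then t and s are conjugate by an element of Ω. If t − 1 has rank m and Q(v + t v) = 0 for all v, then t and s are conjugate by an element of Ω exactly when the intersection of the images of t − 1 and s − 1 has even dimension (so the class of t in O meets at most two classes of Ω). -/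
theorem result {F : Type*} [Field F] [Fintype F] [CharP F 2] {m : ℕ} (hm : 4 ≤ m) (t s : ↥(Cfsg.isometryGroup F (Cfsg.quadFormPlus m F))) (ht : orderOf t = 2) (hs : orderOf s = 2) (htO : t ∈ Cfsg.Omega F (Cfsg.quadFormPlus m F)) (hsO : s ∈ Cfsg.Omega F (Cfsg.quadFormPlus m F)) (hconj : IsConj t s) :
    (¬ (((((t : ↥(Cfsg.isometryGroup F (Cfsg.quadFormPlus m F))) : GL (Fin m ⊕ Fin m) F) : Matrix (Fin m ⊕ Fin m) (Fin m ⊕ Fin m) F) - 1).rank = m ∧ ∀ v : Fin m ⊕ Fin m → F, Cfsg.quadFormPlus m F (v + Matrix.mulVec (((t : ↥(Cfsg.isometryGroup F (Cfsg.quadFormPlus m F))) : GL (Fin m ⊕ Fin m) F) : Matrix (Fin m ⊕ Fin m) (Fin m ⊕ Fin m) F) v) = 0) →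
      ∃ g ∈ Cfsg.Omega F (Cfsg.quadFormPlus m F), g * t * g⁻¹ = s) ∧
    ((((((t : ↥(Cfsg.isometryGroup F (Cfsg.quadFormPlus m F))) : GL (Fin m ⊕ Fin m) F) : Matrix (Fin m ⊕ Fin m) (Fin m ⊕ Fin m) F) - 1).rank = m ∧ ∀ v : Fin m ⊕ Fin m → F, Cfsg.quadFormPlus m F (v + Matrix.mulVec (((t : ↥(Cfsg.isometryGroup F (Cfsg.quadFormPlus m F))) : GL (Fin m ⊕ Fin m) F) : Matrix (Fin m ⊕ Fin m) (Fin m ⊕ Fin m) F) v) = 0) →
      ((∃ g ∈ Cfsg.Omega F (Cfsg.quadFormPlus m F), g * t * g⁻¹ = s) ↔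
        Even (Module.finrank F ↥(LinearMap.range (Matrix.toLin' ((((t : ↥(Cfsg.isometryGroup F (Cfsg.quadFormPlus m F))) : GL (Fin m ⊕ Fin m) F) : Matrix (Fin m ⊕ Fin m) (Fin m ⊕ Fin m) F) - 1)) ⊓ LinearMap.range (Matrix.toLin' ((((s : ↥(Cfsg.isometryGroup F (Cfsg.quadFormPlus m F))) : GL (Fin m ⊕ Fin m) F) : Matrix (Fin m ⊕ Fin m) (Fin m ⊕ Fin m) F) - 1)))))) := by
  classical
  have hf : ⇑(H4.qPlus m F) = Cfsg.quadFormPlus m F := H4.coe_qPlus m
  have hQ := H65.qPlus_nd (F := F) m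
  have hex : Fintype.card F ≠ 2 ∨ Fintype.card (Fin m ⊕ Fin m) ≠ 4 :=
    Or.inr (by simp [Fintype.card_sum]; omega)
  set T := H5.isoEquiv _ hf t with hT
  constructor
  · intro hno
    refine H65.exists_Omega_conj _ hf hQ hex t s hconj ?_
    by_contra hc
    push Not at hc
    obtain ⟨h1, h2⟩ := H65.fixer_facts _ hf hQ t ht hc
    simp only [Fintype.card_sum, Fintype.card_fin] at h1
    exact hno ⟨by omega, h2⟩
  · rintro ⟨hr, halt⟩
    have hm2 : Even m := hr ▸ (H65.mem_Omega_iff_even_rank _ hf hQ hex t).mp htO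
    have hsing : ∀ w ∈ H5.resid T, H4.qPlus m F w = 0 := by
      rintro _ ⟨v, rfl⟩
      rw [H5.dLin_apply, hT, H5.isoEquiv_apply, hf, ← halt v]
      congr 1
      ext i
      rw [Pi.sub_apply, Pi.add_apply, CharTwo.sub_eq_add, add_comm]
    have hrk : Module.finrank F (H5.resid T) = m := (H65.rk_isoEquiv _ hf t).trans hr
    have himg : ∀ g : ↥(Cfsg.isometryGroup F (Cfsg.quadFormPlus m F)), g * t * g⁻¹ = s →
        (g ∈ Cfsg.Omega F (Cfsg.quadFormPlus m F) ↔
          Even (Module.finrank F ↥(H5.resid T ⊓ H5.resid (H5.isoEquiv _ hf s)) + m)) := by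
      intro g hg
      have hdim : Module.finrank F (Fin m ⊕ Fin m → F) = 2 * m := by
        rw [Module.finrank_fintype_fun_eq_card]; simp; omega
      rw [H5.mem_Omega_iff _ hf, H65.mem_omega_iff_even hQ (H65.excl_of_card hex),
        H65.even_rk_iff_inf hQ (H65.excl_of_card hex) hdim hsing hrk (H5.isoEquiv _ hf g)]
      suffices hh : (H5.resid T).map (((H5.isoEquiv _ hf g : H5.orth (H4.qPlus m F)) :
          (Fin m ⊕ Fin m → F) ≃ₗ[F] (Fin m ⊕ Fin m → F)) : (Fin m ⊕ Fin m → F) →ₗ[F] (Fin m ⊕ Fin m → F))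
          = H5.resid (H5.isoEquiv _ hf s) by rw [hh]
      have hcm : H5.isoEquiv _ hf g * T = H5.isoEquiv _ hf s * H5.isoEquiv _ hf g := by
        rw [hT, ← map_mul, ← map_mul, ← hg]; simp [mul_assoc]
      ext w
      simp only [Submodule.mem_map, LinearMap.mem_range, LinearEquiv.coe_coe, H5.dLin_apply]
      constructor
      · rintro ⟨_, ⟨v, rfl⟩, rfl⟩
        refine ⟨(H5.isoEquiv _ hf g : H5.orth (H4.qPlus m F)).1 v, ?_⟩
        rw [map_sub, ← H5.orth_mul_apply, ← hcm, H5.orth_mul_apply]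
      · rintro ⟨v, rfl⟩
        obtain ⟨u, rfl⟩ := (H5.isoEquiv _ hf g : H5.orth (H4.qPlus m F)).1.surjective v
        refine ⟨(T : H5.orth (H4.qPlus m F)).1 u - u, ⟨u, rfl⟩, ?_⟩
        rw [map_sub, ← H5.orth_mul_apply, hcm, H5.orth_mul_apply]
    have hres : ∀ x : ↥(Cfsg.isometryGroup F (Cfsg.quadFormPlus m F)),
        H5.resid (H5.isoEquiv _ hf x) = LinearMap.range (Matrix.toLin'
          (((x : GL (Fin m ⊕ Fin m) F) : Matrix (Fin m ⊕ Fin m) (Fin m ⊕ Fin m) F) - 1)) := fun x => by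
      rw [H5.resid, H65.dLin_isoEquiv]
    rw [← hres t, ← hres s]
    constructor
    · rintro ⟨g, hgO, hg⟩
      have h := (himg g hg).mp hgO
      exact ((Nat.even_add.mp h).mpr hm2)
    · intro hev
      obtain ⟨g, hg⟩ := isConj_iff.mp hconj
      exact ⟨g, (himg g hg).mpr (Nat.even_add.mpr (iff_of_true hev hm2)), hg⟩

end Cfsg.Agent.S2172
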