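import Cfsg.Statements.S2173
import Cfsg.Agent.H65.OmegaMat
import Cfsg.Agent.H65.MinusType

set_option autoImplicit false
open Cfsg

namespace Cfsg.Agent.S2173

/-- For the quadratic form Σ x_i y_i + (z₁² + c z₁ z₂ + d z₂²) in dimension 2m with anisotropic binary part over a finite field F of characteristic two, m ≥ 4 (minus type): two involutions of the commutator subgroup Ω that are conjugate in the full isometry group O are conjugate by an element of Ω (no class of involutions of O inside Ω splits). -/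
theorem result {F : Type*} [Field F] [Fintype F] [CharP F 2] {m : ℕ} (hm : 4 ≤ m) (c d : F) (hcd : ∀ z₁ z₂ : F, z₁ ^ 2 + c * z₁ * z₂ + d * z₂ ^ 2 = 0 → z₁ = 0 ∧ z₂ = 0) (t s : ↥(Cfsg.isometryGroup F (Cfsg.quadFormMinus (m - 1) F c d))) (ht : orderOf t = 2) (hs : orderOf s = 2) (htO : t ∈ Cfsg.Omega F (Cfsg.quadFormMinus (m - 1) F c d)) (hsO : s ∈ Cfsg.Omega F (Cfsg.quadFormMinus (m - 1) F c d)) (hconj : IsConj t s) :
    ∃ g ∈ Cfsg.Omega F (Cfsg.quadFormMinus (m - 1) F c d), g * t * g⁻¹ = s := by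
  refine H65.exists_Omega_conj _ (H4.coe_qMinus (m - 1) c d) (H65.qMinus_nd (m - 1) hcd)
    (Or.inr (by simp [Fintype.card_sum]; omega)) t s hconj ?_
  by_contra hc
  push Not at hc
  obtain ⟨h1, -⟩ := H65.fixer_facts _ (H4.coe_qMinus (m - 1) c d) (H65.qMinus_nd (m - 1) hcd) t ht hc
  have hle := H4.two_mul_finrank_le (H65.qMinus_nd (m - 1) hcd) hc
  have hadd := H5.rk_add_finrank_fixer (H5.isoEquiv _ (H4.coe_qMinus (m - 1) c d) t)
  rw [H65.rk_isoEquiv, Module.finrank_fintype_fun_eq_card] at hadd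
  simp only [Fintype.card_sum, Fintype.card_fin] at h1 hadd
  exact H65.qMinus_singular_finrank_ne (m - 1) hcd hc (by omega)

end Cfsg.Agent.S2173
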