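import Cfsg.Statements.S2174
import Cfsg.Agent.H71.F4InvClasses

set_option autoImplicit false
open Cfsg

namespace Cfsg.Agent.S2174

open Cfsg.Lie Cfsg.Agent.H46 Cfsg.Agent.H65.Inv Cfsg.Agent.H71.F4Inv

/-- Conjugacy classes of involutions in the Chevalley group of type F₄ over a finite field F of characteristic two (the matrix group generated by the root elements x_r(t)). In this problem's root numbering for type F₄ (the Chevalley data module; fundamental roots p₁, p₂ short and p₃, p₄ long; roots indexed by their coefficient vectors in increasing order) let r = 47 be the highest root (2,4,3,2), s = 44 the highest short root (2,3,2,1), and α = 39 = (1,2,2,1), β = 45 = (2,4,2,1), an orthogonal short/long pair; consider the four elements x_r(1), x_s(1), x_r(1)x_s(1), x_α(1)x_β(1). Then: each invertible matrix equal to one of these four products lies in the group and has order 2; every element of order 2 of the group is conjugate in the group to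 one of them; and no two of them are conjugate in the group (so, the four matrices being distinct, the group has exactly four conjugacy classes of involutions). -/
theorem result {F : Type*} [Field F] [Fintype F] [CharP F 2] :
    (∀ y : GL Cfsg.Lie.chevF4.Idx F, ((y : GL Cfsg.Lie.chevF4.Idx F) : Matrix Cfsg.Lie.chevF4.Idx Cfsg.Lie.chevF4.Idx F) ∈ [Cfsg.Lie.chevF4.x F 47 1, Cfsg.Lie.chevF4.x F 44 1, Cfsg.Lie.chevF4.x F 47 1 * Cfsg.Lie.chevF4.x F 44 1, Cfsg.Lie.chevF4.x F 39 1 * Cfsg.Lie.chevF4.x F 45 1] → y ∈ Cfsg.Lie.chevF4.group F ∧ orderOf y = 2) ∧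
    (∀ g ∈ Cfsg.Lie.chevF4.group F, orderOf g = 2 → ∃ y ∈ Cfsg.Lie.chevF4.group F, ((y : GL Cfsg.Lie.chevF4.Idx F) : Matrix Cfsg.Lie.chevF4.Idx Cfsg.Lie.chevF4.Idx F) ∈ [Cfsg.Lie.chevF4.x F 47 1, Cfsg.Lie.chevF4.x F 44 1, Cfsg.Lie.chevF4.x F 47 1 * Cfsg.Lie.chevF4.x F 44 1, Cfsg.Lie.chevF4.x F 39 1 * Cfsg.Lie.chevF4.x F 45 1] ∧ ∃ h ∈ Cfsg.Lie.chevF4.group F, h * g * h⁻¹ = y) ∧
    (∀ y₁ ∈ Cfsg.Lie.chevF4.group F, ∀ y₂ ∈ Cfsg.Lie.chevF4.group F, ((y₁ : GL Cfsg.Lie.chevF4.Idx F) : Matrix Cfsg.Lie.chevF4.Idx Cfsg.Lie.chevF4.Idx F) ∈ [Cfsg.Lie.chevF4.x F 47 1, Cfsg.Lie.chevF4.x F 44 1, Cfsg.Lie.chevF4.x F 47 1 * Cfsg.Lie.chevF4.x F 44 1, Cfsg.Lie.chevF4.x F 39 1 * Cfsg.Lie.chevF4.x F 45 1] → ((y₂ : GL Cfsg.Lie.chevF4.Idx F) : Matrix Cfsg.Lie.chevF4.Idx Cfsg.Lie.chevF4.Idx F) ∈ [Cfsg.Lie.chevF4.x F 47 1, Cfsg.Lie.chevF4.x F 44 1, Cfsg.Lie.chevF4.x F 47 1 * Cfsg.Lie.chevF4.x F 44 1, Cfsg.Lie.chevF4.x F 39 1 * Cfsg.Lie.chevF4.x F 45 1] →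
      (∃ h ∈ Cfsg.Lie.chevF4.group F, h * y₁ * h⁻¹ = y₂) → ((y₁ : GL Cfsg.Lie.chevF4.Idx F) : Matrix Cfsg.Lie.chevF4.Idx Cfsg.Lie.chevF4.Idx F) = ((y₂ : GL Cfsg.Lie.chevF4.Idx F) : Matrix Cfsg.Lie.chevF4.Idx Cfsg.Lie.chevF4.Idx F)) := by
  classical
  have comm : (prodX goodF4 [47, 44] : GL chevF4.Idx F) = prodX goodF4 [44, 47] :=
    prodX_perm goodF4 (by decide +kernel) (List.Perm.swap 44 47 [])
  have key : ∀ y : GL chevF4.Idx F, (y : Matrix chevF4.Idx chevF4.Idx F) ∈
      [chevF4.x F 47 1, chevF4.x F 44 1, chevF4.x F 47 1 * chevF4.x F 44 1, chevF4.x F 39 1 * chevF4.x F 45 1] →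
      y = prodX goodF4 [47] ∨ y = prodX goodF4 [44] ∨ y = prodX goodF4 [44, 47] ∨ y = prodX goodF4 [39, 45] := by
    intro y hy
    simp only [List.mem_cons, List.not_mem_nil, or_false] at hy
    rcases hy with h | h | h | h
    · exact Or.inl (Units.ext (by simpa [prodX] using h))
    · exact Or.inr (Or.inl (Units.ext (by simpa [prodX] using h)))
    · exact Or.inr (Or.inr (Or.inl (comm ▸ Units.ext (by simpa [prodX] using h))))
    · exact Or.inr (Or.inr (Or.inr (Units.ext (by simpa [prodX] using h))))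
  have hmem : ∀ S : List ℕ, (prodX goodF4 S : GL chevF4.Idx F) ∈ chevF4.group F := fun S =>
    Subgroup.list_prod_mem _ fun x hx => by
      obtain ⟨r, -, rfl⟩ := List.mem_map.1 hx
      exact goodF4.xg_mem_group r _
  obtain ⟨r47, r44, rC, rA⟩ := rank_reps (K := F)
  refine ⟨fun y hy => ?_, fun g hg h2 => ?_, fun y₁ hy₁ y₂ hy₂ m₁ m₂ hc => ?_⟩
  · have h : ∀ S : List ℕ, pairOk goodF4 S = true → (prodX goodF4 S : GL chevF4.Idx F) * prodX goodF4 S = 1 :=
      fun S hS => prodX_mul_self goodF4 hS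
    rcases key y hy with rfl | rfl | rfl | rfl
    all_goals refine ⟨hmem _, (orderOf_eq_prime (hp := ⟨Nat.prime_two⟩) ?_ ?_)⟩
    all_goals first
      | (rw [pow_two]; exact h _ (by decide +kernel))
      | (intro e
         have := congrArg (fun M : GL chevF4.Idx F => ((M : Matrix chevF4.Idx chevF4.Idx F) - 1).rank) e
         simp [r47, r44, rC, rA] at this)
  · have hg2 : g * g = 1 := by rw [← pow_two, ← h2, pow_orderOf_eq_one]
    obtain ⟨h, hh, S, hS, e⟩ := exists_conj_reps hg hg2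
    simp only [reps, List.mem_cons, List.not_mem_nil, or_false] at hS
    refine ⟨prodX goodF4 S, hmem S, ?_, h, hh, e⟩
    rcases hS with rfl | rfl | rfl | rfl | rfl
    · exfalso
      have : g = 1 := by
        have : h * g * h⁻¹ = 1 := e.trans (by simp [prodX])
        rwa [conj_eq_one_iff] at this
      rw [this, orderOf_one] at h2
      omega
    · simp [prodX]
    · simp [prodX]
    · rw [← comm]; simp [prodX]
    · simp [prodX]
  · obtain ⟨h, hh, e⟩ := hc
    have hr := rank_sub_one_conj e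
    have hne : ∀ h ∈ chevF4.group F, h * (prodX goodF4 [47] : GL chevF4.Idx F) * h⁻¹ ≠ prodX goodF4 [44] := by
      intro h hh
      simpa [prodX] using not_conj hh
    rcases key y₁ m₁ with rfl | rfl | rfl | rfl <;> rcases key y₂ m₂ with rfl | rfl | rfl | rfl <;>
      first
      | rfl
      | (simp [r47, r44, rC, rA] at hr; done)
      | exact absurd e (hne h hh)
      | exact absurd (by rw [← e]; group) (hne h⁻¹ (inv_mem hh))

end Cfsg.Agent.S2174
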