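import Cfsg.Statements.S2175
import Cfsg.Agent.H65.Inv.E6
import Cfsg.Agent.H65.Inv.RankE6

set_option autoImplicit false
open Cfsg

namespace Cfsg.Agent.S2175

open Cfsg.Lie Cfsg.Agent.H46 Cfsg.Agent.H65 Cfsg.Agent.H65.Inv

/-- Conjugacy classes of involutions in the Chevalley group of type E₆ over a finite field F of characteristic two (the matrix group generated by the root elements x_r(t)). In this problem's root numbering for type E₆ (the Chevalley data module; fundamental roots numbered so that p₁–p₃–p₄–p₅–p₆ is the long chain of the diagram and p₂ is joined to p₄; roots indexed by their coefficient vectors in increasing order) let r = 71 be the highest root (1,2,2,3,2,1), α = 68 = (1,1,2,2,1,1), β = 66 = (1,1,1,2,2,1), γ = 55 = (0,1,1,2,2,1), δ = 65 = (1,1,1,2,1,1), ε = 67 = (1,1,2,2,1,0) (α ⊥ β and γ, δ, ε pairwise orthogonal); consider x_r(1), x_α(1)x_β(1) and x_γ(1)x_δ(1)x_ε(1). Then: each invertible matrix equal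 to one of these three products lies in the group and has order 2; every element of order 2 of the group is conjugate in the group to one of them; and no two of them are conjugate in the group (so, the three matrices being distinct, the group has exactly three conjugacy classes of involutions). -/
theorem result {F : Type*} [Field F] [Fintype F] [CharP F 2] :
    (∀ y : GL Cfsg.Lie.chevE6.Idx F, ((y : GL Cfsg.Lie.chevE6.Idx F) : Matrix Cfsg.Lie.chevE6.Idx Cfsg.Lie.chevE6.Idx F) ∈ [Cfsg.Lie.chevE6.x F 71 1, Cfsg.Lie.chevE6.x F 68 1 * Cfsg.Lie.chevE6.x F 66 1, Cfsg.Lie.chevE6.x F 55 1 * Cfsg.Lie.chevE6.x F 65 1 * Cfsg.Lie.chevE6.x F 67 1] → y ∈ Cfsg.Lie.chevE6.group F ∧ orderOf y = 2) ∧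
    (∀ g ∈ Cfsg.Lie.chevE6.group F, orderOf g = 2 → ∃ y ∈ Cfsg.Lie.chevE6.group F, ((y : GL Cfsg.Lie.chevE6.Idx F) : Matrix Cfsg.Lie.chevE6.Idx Cfsg.Lie.chevE6.Idx F) ∈ [Cfsg.Lie.chevE6.x F 71 1, Cfsg.Lie.chevE6.x F 68 1 * Cfsg.Lie.chevE6.x F 66 1, Cfsg.Lie.chevE6.x F 55 1 * Cfsg.Lie.chevE6.x F 65 1 * Cfsg.Lie.chevE6.x F 67 1] ∧ ∃ h ∈ Cfsg.Lie.chevE6.group F, h * g * h⁻¹ = y) ∧
    (∀ y₁ ∈ Cfsg.Lie.chevE6.group F, ∀ y₂ ∈ Cfsg.Lie.chevE6.group F, ((y₁ : GL Cfsg.Lie.chevE6.Idx F) : Matrix Cfsg.Lie.chevE6.Idx Cfsg.Lie.chevE6.Idx F) ∈ [Cfsg.Lie.chevE6.x F 71 1, Cfsg.Lie.chevE6.x F 68 1 * Cfsg.Lie.chevE6.x F 66 1, Cfsg.Lie.chevE6.x F 55 1 * Cfsg.Lie.chevE6.x F 65 1 * Cfsg.Lie.chevE6.x F 67 1] → ((y₂ : GL Cfsg.Lie.chevE6.Idx F) : Matrix Cfsg.Lie.chevE6.Idx Cfsg.Lie.chevE6.Idx F) ∈ [Cfsg.Lie.chevE6.x F 71 1, Cfsg.Lie.chevE6.x F 68 1 * Cfsg.Lie.chevE6.x F 66 1, Cfsg.Lie.chevE6.x F 55 1 * Cfsg.Lie.chevE6.x F 65 1 * Cfsg.Lie.chevE6.x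 F 67 1] →
      (∃ h ∈ Cfsg.Lie.chevE6.group F, h * y₁ * h⁻¹ = y₂) → ((y₁ : GL Cfsg.Lie.chevE6.Idx F) : Matrix Cfsg.Lie.chevE6.Idx Cfsg.Lie.chevE6.Idx F) = ((y₂ : GL Cfsg.Lie.chevE6.Idx F) : Matrix Cfsg.Lie.chevE6.Idx Cfsg.Lie.chevE6.Idx F)) := by
  classical
  have key : ∀ y : GL chevE6.Idx F, (y : Matrix chevE6.Idx chevE6.Idx F) ∈
      [chevE6.x F 71 1, chevE6.x F 68 1 * chevE6.x F 66 1, chevE6.x F 55 1 * chevE6.x F 65 1 * chevE6.x F 67 1] →
      y = prodX goodE6 [71] ∨ y = prodX goodE6 [68, 66] ∨ y = prodX goodE6 [55, 65, 67] := by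
    intro y hy
    simp only [List.mem_cons, List.not_mem_nil, or_false] at hy
    rcases hy with h | h | h
    · exact Or.inl (Units.ext (by simpa [prodX] using h))
    · exact Or.inr (Or.inl (Units.ext (by simpa [prodX] using h)))
    · exact Or.inr (Or.inr (Units.ext (by simpa [prodX, mul_assoc] using h)))
  have hmem : ∀ S : List ℕ, (prodX goodE6 S : GL chevE6.Idx F) ∈ chevE6.group F := fun S =>
    Subgroup.list_prod_mem _ fun x hx => by
      obtain ⟨r, -, rfl⟩ := List.mem_map.1 hx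
      exact goodE6.xg_mem_group r _
  refine ⟨fun y hy => ?_, fun g hg h2 => ?_, fun y₁ hy₁ y₂ hy₂ m₁ m₂ hc => ?_⟩
  · have h : ∀ S : List ℕ, pairOk goodE6 S = true → (prodX goodE6 S : GL chevE6.Idx F) * prodX goodE6 S = 1 :=
      fun S hS => prodX_mul_self goodE6 hS
    rcases key y hy with rfl | rfl | rfl
    all_goals refine ⟨hmem _, (orderOf_eq_prime (hp := ⟨Nat.prime_two⟩) ?_ ?_)⟩
    all_goals first
      | (rw [pow_two]; exact h _ (by decide +kernel))
      | (intro e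
         have := congrArg (fun M : GL chevE6.Idx F => ((M : Matrix chevE6.Idx chevE6.Idx F) - 1).rank) e
         simp [E6.rank0, E6.rank1, E6.rank2] at this)
  · have hg2 : g * g = 1 := by rw [← pow_two, ← h2, pow_orderOf_eq_one]
    obtain ⟨h, hh, S, hS, e⟩ := E6.exists_conj F hg hg2
    simp only [E6.L6, List.mem_cons, List.not_mem_nil, or_false] at hS
    refine ⟨prodX goodE6 S, hmem S, ?_, h, hh, e⟩
    rcases hS with rfl | rfl | rfl | rfl
    · exfalso
      have : g = 1 := by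
        have : h * g * h⁻¹ = 1 := e.trans (by simp [prodX])
        rwa [conj_eq_one_iff] at this
      rw [this, orderOf_one] at h2
      omega
    all_goals simp [prodX, mul_assoc]
  · obtain ⟨h, -, e⟩ := hc
    have hr := rank_sub_one_conj e
    rcases key y₁ m₁ with rfl | rfl | rfl <;> rcases key y₂ m₂ with rfl | rfl | rfl <;>
      first | rfl | (simp [E6.rank0, E6.rank1, E6.rank2] at hr)

end Cfsg.Agent.S2175
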