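-- S2177
import Cfsg.Statements.S2177
import Cfsg.Agent.H65.Chev.G2Classes

set_option autoImplicit false
open Cfsg

namespace Cfsg.Agent.S2177

open Cfsg.Lie Cfsg.Agent.H46

/-- Conjugacy classes of involutions in the Chevalley group of type G₂ over a finite field F of characteristic two with at least four elements (the matrix group generated by the root elements x_r(t)). In this problem's root numbering for type G₂ (the Chevalley data module; p₁ = a short, p₂ = b long; roots indexed by coefficient vectors in increasing order) let 11 be the highest root 3a + 2b (long) and 9 the short root 2a + b; consider x_{3a+2b}(1) and x_{2a+b}(1). Then: each invertible matrix equal to one of these two products lies in the group and has order 2; every element of order 2 of the group is conjugate in the group to one of them; and no two of them are conjugate in the group (so, the two matrices being distinct, the group has exactly two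 conjugacy classes of involutions). -/
theorem result {F : Type*} [Field F] [Fintype F] [CharP F 2] (hF : 4 ≤ Fintype.card F) :
    (∀ y : GL Cfsg.Lie.chevG2.Idx F, ((y : GL Cfsg.Lie.chevG2.Idx F) : Matrix Cfsg.Lie.chevG2.Idx Cfsg.Lie.chevG2.Idx F) ∈ [Cfsg.Lie.chevG2.x F 11 1, Cfsg.Lie.chevG2.x F 9 1] → y ∈ Cfsg.Lie.chevG2.group F ∧ orderOf y = 2) ∧
    (∀ g ∈ Cfsg.Lie.chevG2.group F, orderOf g = 2 → ∃ y ∈ Cfsg.Lie.chevG2.group F, ((y : GL Cfsg.Lie.chevG2.Idx F) : Matrix Cfsg.Lie.chevG2.Idx Cfsg.Lie.chevG2.Idx F) ∈ [Cfsg.Lie.chevG2.x F 11 1, Cfsg.Lie.chevG2.x F 9 1] ∧ ∃ h ∈ Cfsg.Lie.chevG2.group F, h * g * h⁻¹ = y) ∧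
    (∀ y₁ ∈ Cfsg.Lie.chevG2.group F, ∀ y₂ ∈ Cfsg.Lie.chevG2.group F, ((y₁ : GL Cfsg.Lie.chevG2.Idx F) : Matrix Cfsg.Lie.chevG2.Idx Cfsg.Lie.chevG2.Idx F) ∈ [Cfsg.Lie.chevG2.x F 11 1, Cfsg.Lie.chevG2.x F 9 1] → ((y₂ : GL Cfsg.Lie.chevG2.Idx F) : Matrix Cfsg.Lie.chevG2.Idx Cfsg.Lie.chevG2.Idx F) ∈ [Cfsg.Lie.chevG2.x F 11 1, Cfsg.Lie.chevG2.x F 9 1] →
      (∃ h ∈ Cfsg.Lie.chevG2.group F, h * y₁ * h⁻¹ = y₂) → ((y₁ : GL Cfsg.Lie.chevG2.Idx F) : Matrix Cfsg.Lie.chevG2.Idx Cfsg.Lie.chevG2.Idx F) = ((y₂ : GL Cfsg.Lie.chevG2.Idx F) : Matrix Cfsg.Lie.chevG2.Idx Cfsg.Lie.chevG2.Idx F)) := by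
  have hmem : ∀ y : GL chevG2.Idx F, (y : Matrix chevG2.Idx chevG2.Idx F) ∈ [chevG2.x F 11 1, chevG2.x F 9 1] →
      y = goodG2.xg 11 1 ∨ y = goodG2.xg 9 1 := fun y hy => by
    simp only [List.mem_cons, List.not_mem_nil, or_false] at hy
    exact hy.imp goodG2.eq_xg goodG2.eq_xg
  refine ⟨fun y hy => ?_, fun g hg ho => ?_, fun y₁ _ y₂ _ h1 h2 ⟨h, hh, e⟩ => ?_⟩
  · rcases hmem y hy with rfl | rfl <;>
    · refine ⟨goodG2.xg_mem_group _ _, orderOf_eq_prime_iff.mpr ⟨?_, ?_⟩⟩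
      · rw [pow_two, goodG2.xg_add, CharTwo.add_self_eq_zero, goodG2.xg_zero]
      · rw [Ne, goodG2.xg_eq_one_iff (by decide +kernel)]; exact one_ne_zero
  · obtain ⟨hg2, hg1⟩ := orderOf_eq_prime_iff.mp ho
    rw [pow_two] at hg2
    obtain ⟨k, hk, hku⟩ := H65.exists_conj_mem_pos goodG2 hg hg2
    obtain ⟨l, hl, hl'⟩ := H65.g2_U_rep hku
      (by rw [show k * g * k⁻¹ * (k * g * k⁻¹) = k * (g * g) * k⁻¹ by group, hg2, mul_one, mul_inv_cancel])
      (fun h => hg1 (conj_eq_one_iff.1 h))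
    rcases hl' with hl' | hl'
    · exact ⟨_, goodG2.xg_mem_group 9 1, by simp, l * k, mul_mem hl hk, by rw [← hl']; group⟩
    · exact ⟨_, goodG2.xg_mem_group 11 1, by simp, l * k, mul_mem hl hk, by rw [← hl']; group⟩
  · rcases hmem y₁ h1 with rfl | rfl <;> rcases hmem y₂ h2 with rfl | rfl
    · rfl
    · exact absurd e (H65.g2_nine_ne_eleven hh)
    · exact absurd (show h⁻¹ * goodG2.xg 11 1 * h⁻¹⁻¹ = goodG2.xg 9 1 by rw [← e]; group)
        (H65.g2_nine_ne_eleven (inv_mem hh))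
    · rfl

end Cfsg.Agent.S2177
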