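-- S2178
import Cfsg.Statements.S2178
import Cfsg.Agent.H46.TypeF4
import Cfsg.Agent.H65.Chev.Central

set_option autoImplicit false
open Cfsg

namespace Cfsg.Agent.S2178

open Cfsg.Lie Cfsg.Agent.H46

theorem comm47 : ∀ r < 48, chevF4.IsPosRoot r → r ≠ 47 → ∀ c ∈ chevF4.commTerms r 47, (2 : ℤ) ∣ c.2.1 := by
  decide +kernel

theorem comm44 : ∀ r < 48, chevF4.IsPosRoot r → r ≠ 44 → ∀ c ∈ chevF4.commTerms r 44, (2 : ℤ) ∣ c.2.1 := by
  decide +kernel

theorem dom47 : ∀ r < 48, chevF4.IsNegRoot r → chevF4.pairing r 47 ≤ 0 := by decide +kernel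

theorem dom44 : ∀ r < 48, chevF4.IsNegRoot r → chevF4.pairing r 44 ≤ 0 := by decide +kernel

theorem zero47 : ∀ k : Fin 4, k ≠ 3 → chevF4.cartan k 47 = 0 := by decide +kernel

theorem zero44 : ∀ k : Fin 4, k ≠ 0 → chevF4.cartan k 44 = 0 := by decide +kernel

theorem domRoot47 {F : Type*} [Field F] [CharP F 2] : H65.DomRoot chevF4 F 47 (⟨3, by decide⟩ : Fin 4) where
  pos := by decide +kernel
  comm := fun r hr hne c hc => by
    obtain ⟨m, hm⟩ := comm47 r hr.1 hr hne c hc
    rw [hm]; push_cast; simp [CharTwo.two_eq_zero]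
  one := by decide +kernel
  zero := fun k hk => zero47 k hk
  dom := fun r hr => dom47 r hr.1 hr

theorem domRoot44 {F : Type*} [Field F] [CharP F 2] : H65.DomRoot chevF4 F 44 (⟨0, by decide⟩ : Fin 4) where
  pos := by decide +kernel
  comm := fun r hr hne c hc => by
    obtain ⟨m, hm⟩ := comm44 r hr.1 hr hne c hc
    rw [hm]; push_cast; simp [CharTwo.two_eq_zero]
  one := by decide +kernel
  zero := fun k hk => zero44 k hk
  dom := fun r hr => dom44 r hr.1 hr

/-- Centralizers of the long and the short root involutions in the Chevalley group G of type F₄ over a finite field F of characteristic two (this problem's root numbering for type F₄, from the Chevalley data module: fundamental roots p₁, p₂ short, p₃, p₄ long, with indices 33, 27, 25, 24, their negatives 14, 20, 22, 23; highest root 47, highest short root 44; U the subgroup generated by the positive root subgroups). For an element t of G with matrix x_47(1): the centralizer of t in G is the subgroup generated by U and the root subgroups X_{−p₁}, X_{−p₂}, X_{−p₃} (the unipotent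 radical of the maximal parabolic subgroup whose Levi factor has fundamental roots p₁, p₂, p₃, together with that Levi factor's root subgroups; the Levi factor is of type C₃). For an element u of G with matrix x_44(1): the centralizer of u in G is generated by U and X_{−p₂}, X_{−p₃}, X_{−p₄} (the same construction for the Levi factor with fundamental roots p₂, p₃, p₄, of type B₃). -/
theorem result {F : Type*} [Field F] [Fintype F] [CharP F 2] (t u : GL Cfsg.Lie.chevF4.Idx F) (ht : (t : Matrix Cfsg.Lie.chevF4.Idx Cfsg.Lie.chevF4.Idx F) = Cfsg.Lie.chevF4.x F 47 1) (hu : (u : Matrix Cfsg.Lie.chevF4.Idx Cfsg.Lie.chevF4.Idx F) = Cfsg.Lie.chevF4.x F 44 1) :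
    Cfsg.Lie.chevF4.group F ⊓ Subgroup.centralizer {t} = Cfsg.Lie.chevF4.posUnipotent F ⊔ Cfsg.Lie.chevF4.rootSubgroup F 14 ⊔ Cfsg.Lie.chevF4.rootSubgroup F 20 ⊔ Cfsg.Lie.chevF4.rootSubgroup F 22 ∧
    Cfsg.Lie.chevF4.group F ⊓ Subgroup.centralizer {u} = Cfsg.Lie.chevF4.posUnipotent F ⊔ Cfsg.Lie.chevF4.rootSubgroup F 20 ⊔ Cfsg.Lie.chevF4.rootSubgroup F 22 ⊔ Cfsg.Lie.chevF4.rootSubgroup F 23 := by
  have e0 : chevF4.neg (chevF4.simple 0) = 14 := by decide +kernel
  have e1 : chevF4.neg (chevF4.simple 1) = 20 := by decide +kernel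
  have e2 : chevF4.neg (chevF4.simple 2) = 22 := by decide +kernel
  have e3 : chevF4.neg (chevF4.simple 3) = 23 := by decide +kernel
  rw [goodF4.eq_xg ht, goodF4.eq_xg hu]
  constructor
  · refine H65.centralizer_domRoot goodF4 domRoot47 _ (le_sup_left.trans (le_sup_left.trans le_sup_left))
      (fun k hk => ?_) (sup_le (sup_le (sup_le le_sup_left ?_) ?_) ?_)
    · change Fin 4 at k
      fin_cases k
      · simp only [e0]; exact le_sup_right.trans (le_sup_left.trans le_sup_left)
      · simp only [e1]; exact le_sup_right.trans le_sup_left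
      · simp only [e2]; exact le_sup_right
      · exact absurd rfl hk
    all_goals refine le_sup_of_le_right ?_
    · exact le_iSup₂_of_le (⟨0, Nat.succ_pos _⟩ : Fin chevF4.rank) (fun h => absurd (congrArg Fin.val h) (by simp))
        (by rw [e0])
    · exact le_iSup₂_of_le (⟨1, by decide +kernel⟩ : Fin chevF4.rank) (fun h => absurd (congrArg Fin.val h) (by simp))
        (by rw [e1])
    · exact le_iSup₂_of_le (⟨2, by decide +kernel⟩ : Fin chevF4.rank) (fun h => absurd (congrArg Fin.val h) (by simp))
        (by rw [e2])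
  · refine H65.centralizer_domRoot goodF4 domRoot44 _ (le_sup_left.trans (le_sup_left.trans le_sup_left))
      (fun k hk => ?_) (sup_le (sup_le (sup_le le_sup_left ?_) ?_) ?_)
    · change Fin 4 at k
      fin_cases k
      · exact absurd rfl hk
      · simp only [e1]; exact le_sup_right.trans (le_sup_left.trans le_sup_left)
      · simp only [e2]; exact le_sup_right.trans le_sup_left
      · simp only [e3]; exact le_sup_right
    all_goals refine le_sup_of_le_right ?_
    · exact le_iSup₂_of_le (⟨1, by decide +kernel⟩ : Fin chevF4.rank) (fun h => absurd (congrArg Fin.val h) (by simp))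
        (by rw [e1])
    · exact le_iSup₂_of_le (⟨2, by decide +kernel⟩ : Fin chevF4.rank) (fun h => absurd (congrArg Fin.val h) (by simp))
        (by rw [e2])
    · exact le_iSup₂_of_le (⟨3, by decide +kernel⟩ : Fin chevF4.rank) (fun h => absurd (congrArg Fin.val h) (by simp))
        (by rw [e3])

end Cfsg.Agent.S2178
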