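-- S2180
import Cfsg.Statements.S2180
import Cfsg.Agent.H65.Chev.G2Cent

set_option autoImplicit false
open Cfsg

namespace Cfsg.Agent.S2180

open Cfsg.Lie Cfsg.Agent.H46

theorem comm11 : ∀ r < 12, chevG2.IsPosRoot r → r ≠ 11 → chevG2.commTerms r 11 = [] := by decide +kernel

theorem dom11 : ∀ r < 12, chevG2.IsNegRoot r → chevG2.pairing r 11 ≤ 0 := by decide +kernel

theorem zero11 : ∀ k : Fin 2, k ≠ 1 → chevG2.cartan k 11 = 0 := by decide +kernel

theorem domRoot11 {F : Type*} [Field F] : H65.DomRoot chevG2 F 11 (⟨1, by decide⟩ : Fin 2) where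
  pos := by decide +kernel
  comm := fun r hr hne c hc => by rw [comm11 r hr.1 hr hne] at hc; simp at hc
  one := by decide +kernel
  zero := fun k hk => zero11 k hk
  dom := fun r hr => dom11 r hr.1 hr

/-- Centralizers of involutions in the Chevalley group G of type G₂ over a finite field F of characteristic two with at least four elements (this problem's root numbering for type G₂, from the Chevalley data module: a = p₁ short with index 7, b = p₂ long with index 6, −a = 4, −b = 5, 2a + b = 9, 3a + b = 10, 3a + 2b = 11; U generated by the positive root subgroups). For an element z of G with matrix x_{3a+2b}(1): the centralizer of z in G is generated by U and X_{−a}. For an element t of G with matrix x_{2a+b}(1): the centralizer of t in G is generated by X_{2a+b}, X_{3a+b}, X_{3a+2b}, X_b and X_{−b}. -/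
theorem result {F : Type*} [Field F] [Fintype F] [CharP F 2] (hF : 4 ≤ Fintype.card F) (z t : GL Cfsg.Lie.chevG2.Idx F) (hz : (z : Matrix Cfsg.Lie.chevG2.Idx Cfsg.Lie.chevG2.Idx F) = Cfsg.Lie.chevG2.x F 11 1) (ht : (t : Matrix Cfsg.Lie.chevG2.Idx Cfsg.Lie.chevG2.Idx F) = Cfsg.Lie.chevG2.x F 9 1) :
    Cfsg.Lie.chevG2.group F ⊓ Subgroup.centralizer {z} = Cfsg.Lie.chevG2.posUnipotent F ⊔ Cfsg.Lie.chevG2.rootSubgroup F 4 ∧
    Cfsg.Lie.chevG2.group F ⊓ Subgroup.centralizer {t} = Cfsg.Lie.chevG2.rootSubgroup F 9 ⊔ Cfsg.Lie.chevG2.rootSubgroup F 10 ⊔ Cfsg.Lie.chevG2.rootSubgroup F 11 ⊔ Cfsg.Lie.chevG2.rootSubgroup F 6 ⊔ Cfsg.Lie.chevG2.rootSubgroup F 5 := by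
  rw [goodG2.eq_xg hz, goodG2.eq_xg ht]
  refine ⟨?_, H65.g2_centralizer_nine _ rfl⟩
  have e0 : chevG2.neg (chevG2.simple 0) = 4 := by decide +kernel
  refine H65.centralizer_domRoot goodG2 domRoot11 _ le_sup_left (fun k hk => ?_) (sup_le le_sup_left ?_)
  · change Fin 2 at k
    fin_cases k
    · simp only [e0]; exact le_sup_right
    · exact absurd rfl hk
  · refine le_sup_of_le_right ?_
    exact le_iSup₂_of_le (⟨0, Nat.succ_pos _⟩ : Fin chevG2.rank) (fun h => absurd (congrArg Fin.val h) (by simp))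
      (by rw [e0])

end Cfsg.Agent.S2180
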