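import Cfsg.Statements.S2181
import Cfsg.Agent.H65.Inv.E7
import Cfsg.Agent.H65.Inv.RankE7

set_option autoImplicit false
open Cfsg

namespace Cfsg.Agent.S2181

open Cfsg.Lie Cfsg.Agent.H46 Cfsg.Agent.H65 Cfsg.Agent.H65.Inv

/-- The Chevalley group of type E₇ over a finite field of characteristic two (the matrix group generated by the root elements) has exactly five conjugacy classes of elements of order 2. -/
theorem result {F : Type*} [Field F] [Fintype F] [CharP F 2] :
    (ConjClasses.mk '' {g : ↥(Cfsg.Lie.chevE7.group F) | orderOf g = 2}).ncard = 5 := by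
  classical
  have hmem : ∀ S : List ℕ, (prodX goodE7 S : GL chevE7.Idx F) ∈ chevE7.group F := fun S =>
    Subgroup.list_prod_mem _ fun x hx => by
      obtain ⟨r, -, rfl⟩ := List.mem_map.1 hx
      exact goodE7.xg_mem_group r _
  let rep : Fin 5 → List ℕ := ![[125], [63, 125], [63, 92, 125], [63, 66, 125], [63, 66, 78, 125]]
  let rk : Fin 5 → ℕ := ![34, 52, 53, 62, 63]
  have hrk : ∀ i, (((prodX goodE7 (rep i) : GL chevE7.Idx F) : Matrix chevE7.Idx chevE7.Idx F) - 1).rank = rk i := by
    intro i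
    fin_cases i
    exacts [E7.rank0 F, E7.rank1 F, E7.rank2 F, E7.rank3 F, E7.rank4 F]
  have hrkinj : ∀ i j : Fin 5, rk i = rk j → i = j := by decide
  have hrk0 : ∀ i : Fin 5, rk i ≠ 0 := by decide
  have hok : ∀ i, pairOk goodE7 (rep i) = true := by
    intro i
    fin_cases i <;> (simp only [rep]; decide +kernel)
  let f : Fin 5 → ConjClasses (chevE7.group F) := fun i => ConjClasses.mk ⟨prodX goodE7 (rep i), hmem _⟩
  have hinj : Function.Injective f := by
    intro i j h
    obtain ⟨c, hc⟩ := isConj_iff.1 (ConjClasses.mk_eq_mk_iff_isConj.1 h)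
    have e := rank_sub_one_conj (D := chevE7) (congrArg Subtype.val hc)
    simp only [hrk] at e
    exact hrkinj _ _ e.symm
  have himg : ConjClasses.mk '' {g : ↥(chevE7.group F) | orderOf g = 2} = Set.range f := by
    apply Set.Subset.antisymm
    · rintro _ ⟨g, hg, rfl⟩
      rw [Set.mem_setOf_eq] at hg
      have hg2 : g * g = 1 := by rw [← pow_two, ← hg, pow_orderOf_eq_one]
      obtain ⟨h, hh, S, hS, e⟩ := E7.exists_conj F g.2 (congrArg Subtype.val hg2)
      have hS' : S = [] ∨ ∃ i, S = rep i := by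
        simp only [E7.L7, List.mem_cons, List.not_mem_nil, or_false] at hS
        rcases hS with rfl | rfl | rfl | rfl | rfl | rfl
        exacts [Or.inl rfl, Or.inr ⟨0, rfl⟩, Or.inr ⟨1, rfl⟩, Or.inr ⟨2, rfl⟩, Or.inr ⟨3, rfl⟩, Or.inr ⟨4, rfl⟩]
      rcases hS' with rfl | ⟨i, rfl⟩
      · exfalso
        have h1 : h * (g : GL chevE7.Idx F) * h⁻¹ = 1 := e.trans (by simp [prodX])
        rw [conj_eq_one_iff] at h1
        rw [show g = 1 from Subtype.ext h1, orderOf_one] at hg
        omega
      · exact ⟨i, (ConjClasses.mk_eq_mk_iff_isConj.2 (isConj_iff.2 ⟨⟨h, hh⟩, Subtype.ext e⟩)).symm⟩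
    · rintro _ ⟨i, rfl⟩
      refine ⟨_, ?_, rfl⟩
      refine orderOf_eq_prime (hp := ⟨Nat.prime_two⟩) ?_ ?_
      · rw [pow_two]
        exact Subtype.ext (prodX_mul_self goodE7 (hok i))
      · intro e
        have h := hrk i
        rw [show (prodX goodE7 (rep i) : GL chevE7.Idx F) = 1 from congrArg Subtype.val e] at h
        simp at h
        exact hrk0 _ h.symm
  rw [himg, Set.ncard_range_of_injective hinj, Nat.card_fin]

end Cfsg.Agent.S2181
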