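import Cfsg.Statements.S2182
import Cfsg.Agent.H71.E6InvClasses

set_option autoImplicit false
open Cfsg

namespace Cfsg.Agent.S2182

open Cfsg.Lie Cfsg.Agent.H46 Cfsg.Agent.H65.Inv Cfsg.Agent.H71.E6Inv

/-- The twisted group ²E₆(q), q even, realised inside the Chevalley group of type E₆ over the field K with q² elements, has exactly three conjugacy classes of elements of order 2. -/
theorem result {K : Type*} [Field K] [Fintype K] [CharP K 2] (q : ℕ) (hK : Fintype.card K = q ^ 2) :
    (ConjClasses.mk '' {g : ↥(Cfsg.Lie.twistedE6 K q) | orderOf g = 2}).ncard = 3 := by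
  classical
  obtain ⟨n, hn, hc⟩ := FiniteField.card K 2
  obtain ⟨k, -, hk⟩ := (Nat.dvd_prime_pow Nat.prime_two).1
    (show q ∣ 2 ^ (n : ℕ) by rw [← hc, hK]; exact dvd_pow_self q two_ne_zero)
  have hk0 : k ≠ 0 := by
    rintro rfl
    have := Fintype.one_lt_card (α := K)
    simp [hK, hk] at this
  obtain ⟨f, hf⟩ := exists_qFrob (F := K) (q := q) (d := 2) (hk ▸ Nat.prime_two.isPrimePow.pow hk0) two_pos hK
  have hψ : ∀ x, f (f x) = x := period_E6 f hf hK
  have hWe : twistedE6 K q = (tdE6 f).G1 := twistedE6_eq f hf hK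
  have hgel : ∀ j < 24, gel f j (1 : K) ∈ twistedE6 K q := fun j hj => by
    rw [hWe]; exact gel_mem hψ hj fun _ => map_one f
  have e1 : (prodX goodE6 [71] : GL chevE6.Idx K) = gel f 23 1 := by simp [prodX, gel, root0, orbs, fixL]
  have e2 : (prodX goodE6 [66, 68] : GL chevE6.Idx K) = gel f 20 1 := by simp [prodX, gel, root0, orbs, fixL]
  have e3 : (prodX goodE6 [55, 67, 65] : GL chevE6.Idx K) = gel f 18 1 * gel f 19 1 := by
    simp [prodX, gel, root0, orbs, fixL, mul_assoc]
  have r1 : (((prodX goodE6 [71] : GL chevE6.Idx K) : Matrix chevE6.Idx chevE6.Idx K) - 1).rank = 22 := E6.rank0 K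
  have r2 : (((prodX goodE6 [66, 68] : GL chevE6.Idx K) : Matrix chevE6.Idx chevE6.Idx K) - 1).rank = 32 := by
    rw [prodX_perm goodE6 (by decide +kernel) (List.Perm.swap 68 66 [])]; exact E6.rank1 K
  have r3 : (((prodX goodE6 [55, 67, 65] : GL chevE6.Idx K) : Matrix chevE6.Idx chevE6.Idx K) - 1).rank = 38 := by
    rw [prodX_perm goodE6 (by decide +kernel) ((List.Perm.swap 65 67 []).cons 55)]; exact E6.rank2 K
  set a : ↥(twistedE6 K q) := ⟨prodX goodE6 [71], e1 ▸ hgel 23 (by omega)⟩ with ha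
  set b : ↥(twistedE6 K q) := ⟨prodX goodE6 [66, 68], e2 ▸ hgel 20 (by omega)⟩ with hb
  set c : ↥(twistedE6 K q) := ⟨prodX goodE6 [55, 67, 65],
    e3 ▸ mul_mem (hgel 18 (by omega)) (hgel 19 (by omega))⟩ with hc'
  have hord : ∀ (x : ↥(twistedE6 K q)) (S : List ℕ), (x : GL chevE6.Idx K) = prodX goodE6 S →
      pairOk goodE6 S = true →
      (((prodX goodE6 S : GL chevE6.Idx K) : Matrix chevE6.Idx chevE6.Idx K) - 1).rank ≠ 0 → orderOf x = 2 := by
    intro x S hx hS hr
    refine orderOf_eq_prime (hp := ⟨Nat.prime_two⟩) (Subtype.ext ?_) fun e => hr ?_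
    · rw [pow_two, Subgroup.coe_mul, hx, prodX_mul_self goodE6 hS]; rfl
    · rw [← hx, e]; simp
  have hne : ∀ (x y : ↥(twistedE6 K q)),
      (((x : GL chevE6.Idx K) : Matrix chevE6.Idx chevE6.Idx K) - 1).rank ≠
        (((y : GL chevE6.Idx K) : Matrix chevE6.Idx chevE6.Idx K) - 1).rank →
      ConjClasses.mk x ≠ ConjClasses.mk y := by
    intro x y h e
    obtain ⟨g, hg⟩ := isConj_iff.1 (ConjClasses.mk_eq_mk_iff_isConj.1 e)
    exact h (rank_sub_one_conj (h := (g : GL chevE6.Idx K)) (congrArg Subtype.val hg)).symm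
  have heq : ConjClasses.mk '' {g : ↥(twistedE6 K q) | orderOf g = 2} =
      {ConjClasses.mk a, ConjClasses.mk b, ConjClasses.mk c} := by
    ext C
    simp only [Set.mem_image, Set.mem_setOf_eq, Set.mem_insert_iff, Set.mem_singleton_iff]
    constructor
    · rintro ⟨g, hg, rfl⟩
      have hg2 : (g : GL chevE6.Idx K) * g = 1 := by
        rw [← Subgroup.coe_mul, ← pow_two, ← hg, pow_orderOf_eq_one]; rfl
      obtain ⟨h, hh, S, hS, e⟩ := exists_conj_reps f hf hK (hWe ▸ g.2) hg2
      simp only [reps, List.mem_cons, List.not_mem_nil, or_false] at hS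
      have mk : ∀ y : ↥(twistedE6 K q), (y : GL chevE6.Idx K) = prodX goodE6 S →
          ConjClasses.mk g = ConjClasses.mk y := fun y hy =>
        ConjClasses.mk_eq_mk_iff_isConj.2 (isConj_iff.2 ⟨⟨h, hWe ▸ hh⟩, Subtype.ext (e.trans hy.symm)⟩)
      rcases hS with rfl | rfl | rfl | rfl
      · exfalso
        have h1 : (g : GL chevE6.Idx K) = 1 := by
          have : h * (g : GL chevE6.Idx K) * h⁻¹ = 1 := e.trans (by simp [prodX])
          rwa [conj_eq_one_iff] at this
        rw [show g = 1 from Subtype.ext h1, orderOf_one] at hg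
        omega
      · exact Or.inl (mk a rfl)
      · exact Or.inr (Or.inl (mk b rfl))
      · exact Or.inr (Or.inr (mk c rfl))
    · rintro (rfl | rfl | rfl)
      · exact ⟨a, hord a _ rfl (by decide +kernel) (by rw [r1]; omega), rfl⟩
      · exact ⟨b, hord b _ rfl (by decide +kernel) (by rw [r2]; omega), rfl⟩
      · exact ⟨c, hord c _ rfl (by decide +kernel) (by rw [r3]; omega), rfl⟩
  rw [heq]
  exact Set.ncard_eq_three.2 ⟨_, _, _, hne a b (by simp [ha, hb, r1, r2]), hne a c (by simp [ha, hc', r1, r3]),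
    hne b c (by simp [hb, hc', r2, r3]), rfl⟩

end Cfsg.Agent.S2182
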