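import Cfsg.Statements.S2183
import Cfsg.Agent.H23.D4Inv.Main
-- import your own Cfsg.Agent.* helpers here

set_option autoImplicit false
open Cfsg

namespace Cfsg.Agent.S2183

/-- The twisted group ³D₄(q), q even, realised inside the Chevalley group of type D₄ over the field K with q³ elements, has exactly two conjugacy classes of elements of order 2. -/
theorem result {K : Type*} [Field K] [Fintype K] [CharP K 2] (q : ℕ) (hK : Fintype.card K = q ^ 3) :
    (ConjClasses.mk '' {g : ↥(Cfsg.Lie.twistedD4 K q) | orderOf g = 2}).ncard = 2 := by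
  obtain ⟨f, hf⟩ := Cfsg.Agent.H46.exists_qFrob (F := K) (q := q) (d := 3) (by
    obtain ⟨n, hn, hc⟩ := FiniteField.card K 2
    have hdvd : q ∣ 2 ^ (n : ℕ) := by rw [← hc, hK]; exact dvd_pow_self q three_ne_zero
    obtain ⟨k, -, hk⟩ := (Nat.dvd_prime_pow Nat.prime_two).1 hdvd
    have hk0 : k ≠ 0 := by
      rintro rfl
      have := Fintype.one_lt_card (α := K)
      simp [hK, hk] at this
    exact hk ▸ (Nat.prime_two.isPrimePow.pow hk0)) (by norm_num) hK
  exact Cfsg.Agent.H23.D4Inv.involution_classes f hf hK

end Cfsg.Agent.S2183
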