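import Cfsg.Statements.S2189
import Cfsg.Agent.H64.Subfield.Main

set_option autoImplicit false
open Cfsg

namespace Cfsg.Agent.S2189

/-- Finite subgroups of an adjoint Chevalley group over an algebraically closed field that contain the group over a finite subfield. Let k be an algebraically closed field of prime characteristic p, G the Chevalley group of type G₂, B₂, D₄, F₄, E₆, E₇ or E₈ over k (the matrix group generated by the root elements x_s(t), t ∈ k), and q = p^a with a ≥ 1. Let L be the subgroup generated by the root elements x_s(t) with t^q = t (the Chevalley group over the field of q elements inside G), and let M be a finite subgroup of G containing L. Then for some r ≥ 1, M contains every root element x_s(t) with t^(q^r) = t and every element of M is a matrix all of whose entries c satisfy c^(q^r) = c (so M lies between the Chevalley group over the field with q^r elements and the group of points of G fixed by the q^r-th power map). -/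
theorem result {k : Type*} [Field k] [IsAlgClosed k] (p : ℕ) [Fact p.Prime] [CharP k p] (D : Cfsg.Lie.ChevalleyDatum) (hD : D ∈ [Cfsg.Lie.chevG2, Cfsg.Lie.chevB2, Cfsg.Lie.chevD4, Cfsg.Lie.chevF4, Cfsg.Lie.chevE6, Cfsg.Lie.chevE7, Cfsg.Lie.chevE8]) (a : ℕ) (ha : 1 ≤ a) (M : Subgroup (GL D.Idx k)) (hMfin : Finite ↥M) (hMG : M ≤ D.group k)
    (hLM : Subgroup.closure {g : GL D.Idx k | ∃ (s : ℕ) (t : k), t ^ (p ^ a) = t ∧ (g : Matrix D.Idx D.Idx k) = D.x k s t} ≤ M) :
    ∃ r : ℕ, 1 ≤ r ∧ Subgroup.closure {g : GL D.Idx k | ∃ (s : ℕ) (t : k), t ^ ((p ^ a) ^ r) = t ∧ (g : Matrix D.Idx D.Idx k) = D.x k s t} ≤ M ∧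
      ∀ g ∈ M, ∀ i j : D.Idx, ((g : Matrix D.Idx D.Idx k) i j) ^ ((p ^ a) ^ r) = (g : Matrix D.Idx D.Idx k) i j := by
  classical
  obtain ⟨G, hG⟩ := H64.Subfield.exists_rational (p := p) (k := k) hD
  set q := p ^ a with hq
  have hq1 : 1 < q := Nat.one_lt_pow (by omega) (Fact.out : p.Prime).one_lt
  have hLM' : ∀ s t, t ^ q = t → G.xg s t ∈ M := fun s t ht =>
    hLM (Subgroup.subset_closure ⟨s, t, ht, G.coe_xg s t⟩)
  let O : H64.Subfield.Over G k := ⟨M, hMfin, hMG, fun r _ => hLM' r 1 (one_pow q)⟩
  obtain ⟨K, hKfin, hmem, hent⟩ := hG O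
  haveI : CharP K p := (RingHom.charP_iff K.subtype K.subtype.injective p).2 inferInstance
  haveI : ExpChar k p := ExpChar.prime (Fact.out : p.Prime)
  -- the roots of `X ^ q = X`
  let E : Subfield k := (iterateFrobenius k p a).eqLocusField (RingHom.id k)
  have hE : ∀ t, t ∈ E ↔ t ^ q = t := fun t => by
    show iterateFrobenius k p a t = t ↔ _
    rw [iterateFrobenius_def]
  have hPne : (Polynomial.X ^ q - Polynomial.X : Polynomial k) ≠ 0 := FiniteField.X_pow_card_sub_X_ne_zero k hq1
  have hEroots : (E : Set k) = ((Polynomial.X ^ q - Polynomial.X : Polynomial k).roots.toFinset : Set k) := by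
    ext t
    rw [SetLike.mem_coe, hE, Finset.mem_coe, Multiset.mem_toFinset, Polynomial.mem_roots hPne]
    simp [sub_eq_zero]
  haveI hEfin : Finite E := by
    have h : (E : Set k).Finite := hEroots ▸ Finset.finite_toSet _
    exact h.to_subtype
  have hEcard : Nat.card E = q := by
    rw [show Nat.card E = (E : Set k).ncard from Nat.card_coe_set_eq _, hEroots, Set.ncard_coe_finset,
      Multiset.toFinset_card_of_nodup, IsAlgClosed.card_roots_eq_natDegree,
      FiniteField.X_pow_card_sub_X_natDegree_eq k hq1]
    have : CharP k p := inferInstance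
    exact Polynomial.nodup_roots (galois_poly_separable p q (dvd_pow_self p (by omega)))
  have hEK : ∀ t ∈ E, t ∈ K := fun t ht =>
    H64.Subfield.mem_of_xg_entries (p := p) G K (H64.Subfield.nroots_pos hD)
      (hent _ (hLM' _ t ((hE t).1 ht)))
  have hle : E ≤ K := hEK
  letI : Algebra E K := (Subfield.inclusion hle).toAlgebra
  haveI : FiniteDimensional E K := Module.Finite.of_finite
  have hcard : Nat.card K = q ^ Module.finrank E K := by
    rw [Module.natCard_eq_pow_finrank (K := E) (V := K), hEcard]
  refine ⟨Module.finrank E K, Module.finrank_pos, ?_, fun g hg i j => ?_⟩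
  · rw [← hcard]
    refine (Subgroup.closure_le _).2 ?_
    rintro g ⟨s, t, ht, hg⟩
    rw [G.eq_xg hg]
    by_cases hs : s < D.nroots
    · exact hmem s hs t ((H64.Subfield.pow_card_eq_iff (p := p) K t).1 ht)
    · rw [show G.xg s t = 1 from Units.ext (G.x_of_le (not_lt.1 hs) t)]
      exact M.one_mem
  · rw [← hcard]
    exact (H64.Subfield.pow_card_eq_iff (p := p) K _).2 (hent g hg i j)

end Cfsg.Agent.S2189
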