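import Cfsg.Statements.S2190
import Cfsg.Agent.H64.Subfield.Main

set_option autoImplicit false
open Cfsg

namespace Cfsg.Agent.S2190

/-- Subfield subgroups of prime degree are maximal. Let K be a finite field with q^r elements, r a prime, q a power of the characteristic, and G the Chevalley group of type G₂, B₂, D₄, F₄, E₆, E₇ or E₈ over K (the matrix group generated by the root elements). Let M be the subgroup of G consisting of the matrices all of whose entries lie in the subfield with q elements (entries c with c^q = c). Then M is a proper subgroup of G and is maximal: every subgroup of G containing M is M or G. -/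
theorem result {K : Type*} [Field K] [Fintype K] (p : ℕ) [Fact p.Prime] [CharP K p] (D : Cfsg.Lie.ChevalleyDatum) (hD : D ∈ [Cfsg.Lie.chevG2, Cfsg.Lie.chevB2, Cfsg.Lie.chevD4, Cfsg.Lie.chevF4, Cfsg.Lie.chevE6, Cfsg.Lie.chevE7, Cfsg.Lie.chevE8]) (a r : ℕ) (ha : 1 ≤ a) (hr : r.Prime) (hK : Fintype.card K = (p ^ a) ^ r) (M : Subgroup (GL D.Idx K))
    (hM : ∀ g : GL D.Idx K, g ∈ M ↔ g ∈ D.group K ∧ ∀ i j : D.Idx, ((g : Matrix D.Idx D.Idx K) i j) ^ (p ^ a) = (g : Matrix D.Idx D.Idx K) i j) :
    M ≠ D.group K ∧ ∀ H : Subgroup (GL D.Idx K), M ≤ H → H ≤ D.group K → H = M ∨ H = D.group K := by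
  classical
  obtain ⟨G, hG⟩ := H64.Subfield.exists_rational (p := p) (k := K) hD
  set q := p ^ a with hq
  have hq1 : 1 < q := Nat.one_lt_pow (by omega) (Fact.out : p.Prime).one_lt
  haveI : ExpChar K p := ExpChar.prime (Fact.out : p.Prime)
  let E : Subfield K := (iterateFrobenius K p a).eqLocusField (RingHom.id K)
  have hE : ∀ t, t ∈ E ↔ t ^ q = t := fun t => by
    show iterateFrobenius K p a t = t ↔ _
    rw [iterateFrobenius_def]
  have hPne : (Polynomial.X ^ q - Polynomial.X : Polynomial K) ≠ 0 := FiniteField.X_pow_card_sub_X_ne_zero K hq1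
  have hEle : Nat.card E ≤ q := by
    have hsub : (E : Set K) ⊆ ((Polynomial.X ^ q - Polynomial.X : Polynomial K).roots.toFinset : Set K) := by
      intro t ht
      rw [SetLike.mem_coe, hE] at ht
      rw [Finset.mem_coe, Multiset.mem_toFinset, Polynomial.mem_roots hPne]
      simp [ht]
    have h2 := Set.ncard_le_ncard hsub (Finset.finite_toSet _)
    rw [Set.ncard_coe_finset] at h2
    rw [show Nat.card E = (E : Set K).ncard from Nat.card_coe_set_eq _]
    refine h2.trans ((Multiset.toFinset_card_le _).trans ((Polynomial.card_roots' _).trans ?_))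
    rw [FiniteField.X_pow_card_sub_X_natDegree_eq K hq1]
  have hEcard : Nat.card E = q := by
    refine le_antisymm hEle ?_
    obtain ⟨g, hg⟩ := IsCyclic.exists_ofOrder_eq_natCard (α := Kˣ)
    have hN : Nat.card Kˣ = q ^ r - 1 := by rw [Nat.card_units, Nat.card_eq_fintype_card, hK]
    have hdvd : q - 1 ∣ orderOf g := by rw [hg, hN]; exact Nat.sub_one_dvd_pow_sub_one _ _
    have ho : orderOf (g ^ (orderOf g / (q - 1))) = q - 1 :=
      orderOf_pow_orderOf_div (orderOf_pos g).ne' hdvd
    set h := g ^ (orderOf g / (q - 1))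
    have hmem : ∀ x ∈ Subgroup.zpowers h, (x : K) ∈ E := by
      rintro x ⟨n, rfl⟩
      rw [hE]
      have h1 : h ^ (q - 1) = 1 := ho ▸ pow_orderOf_eq_one h
      have h2 : (h ^ n) ^ q = h ^ n := by
        rw [show q = q - 1 + 1 by omega, pow_succ, ← zpow_natCast (h ^ n), ← zpow_mul, mul_comm n, zpow_mul,
          zpow_natCast, h1, one_zpow, one_mul]
      have := congrArg Units.val h2
      rwa [Units.val_pow_eq_pow_val] at this
    have hcard : Nat.card (Subgroup.zpowers h) ≤ Nat.card Eˣ := by
      refine Nat.card_le_card_of_injective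
        (fun x => Units.mk0 (⟨((x : Kˣ) : K), hmem x x.2⟩ : E) (fun e => (x : Kˣ).ne_zero (congrArg Subtype.val e))) ?_
      intro x y e
      exact Subtype.ext (Units.ext (congrArg (fun u : Eˣ => ((u : E) : K)) e))
    rw [Nat.card_zpowers, ho, Nat.card_units] at hcard
    have : 0 < Nat.card E := Nat.card_pos
    omega
  have hfin : Module.finrank E K = r := by
    have h := Module.natCard_eq_pow_finrank (K := E) (V := K)
    rw [hEcard, Nat.card_eq_fintype_card, hK] at h
    exact (Nat.pow_right_injective hq1 h).symm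
  have hn0 := H64.Subfield.nroots_pos hD
  constructor
  · intro e
    have hall : ∀ t : K, t ^ q = t := fun t => by
      have h := ((hM (G.xg 0 t)).1 (e ▸ G.xg_mem_group 0 t)).2
      have := H64.Subfield.mem_of_xg_entries (p := p) G E hn0 (t := t) (fun i j => (hE _).2 (h i j))
      exact (hE t).1 this
    have htop : (⊤ : Subfield K) ≤ E := fun t _ => (hE t).2 (hall t)
    have h1 : Fintype.card K ≤ q := by
      rw [← hEcard, ← Nat.card_eq_fintype_card]
      exact Nat.card_le_card_of_injective (fun t => (⟨t, htop trivial⟩ : E))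
        (fun x y e => congrArg Subtype.val e)
    have h2 : q ^ 1 < q ^ r := Nat.pow_lt_pow_right hq1 hr.one_lt
    rw [pow_one] at h2
    omega
  intro H hMH hHG
  have hxM : ∀ s, ∀ t : K, t ^ q = t → G.xg s t ∈ M := fun s t ht => by
    refine (hM _).2 ⟨G.xg_mem_group s t, fun i j => ?_⟩
    have h : H65.mapGL D (iterateFrobenius K p a) (G.xg s t) = G.xg s t := by
      rw [H65.mapGL_xg G, iterateFrobenius_def, ht]
    have e := congrArg (fun g : GL D.Idx K => (g : Matrix D.Idx D.Idx K) i j) h
    simpa [H65.coe_mapGL, iterateFrobenius_def] using e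
  let O : H64.Subfield.Over G K := ⟨H, Finite.of_injective (fun g : H => (g : GL D.Idx K)) Subtype.val_injective,
    hHG, fun s _ => hMH (hxM s 1 (one_pow q))⟩
  obtain ⟨K', -, hmem, hent⟩ := hG O
  have hle : E ≤ K' := fun t ht =>
    H64.Subfield.mem_of_xg_entries (p := p) G K' hn0 (hent _ (hMH (hxM 0 t ((hE t).1 ht))))
  let F : IntermediateField E K := K'.toIntermediateField (fun x => hle x.2)
  haveI := IntermediateField.isSimpleOrder_of_finrank_prime E K (hfin.symm ▸ hr)
  rcases eq_bot_or_eq_top F with h | h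
  · left
    refine le_antisymm (fun g hg => (hM g).2 ⟨hHG hg, fun i j => (hE _).1 ?_⟩) hMH
    have h' : (g : Matrix D.Idx D.Idx K) i j ∈ F := hent g hg i j
    rw [h] at h'
    obtain ⟨x, hx⟩ := IntermediateField.mem_bot.1 h'
    rw [← hx]
    exact x.2
  · right
    refine le_antisymm hHG (G.group_le fun s hs t => hmem s hs t ?_)
    have : t ∈ F := h ▸ IntermediateField.mem_top
    exact this

end Cfsg.Agent.S2190
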