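import Cfsg.Statements.S2192
import Cfsg.Agent.H64.Subfield.DataTwD4

set_option autoImplicit false
open Cfsg

namespace Cfsg.Agent.S2192

/-- In the twisted group ³D₄(q), realised inside the Chevalley group of type D₄ over the field K with q³ elements (q a power of the characteristic) as the subgroup generated by the root elements, and products of root elements, that the twisting map fixes, the subgroup of matrices all of whose entries lie in the subfield with q elements (it contains the subgroup of type G₂ over that subfield) is a proper maximal subgroup. -/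
theorem result {K : Type*} [Field K] [Fintype K] (p : ℕ) [Fact p.Prime] [CharP K p] (q : ℕ) (hq : ∃ a : ℕ, 1 ≤ a ∧ q = p ^ a) (hK : Fintype.card K = q ^ 3) (M : Subgroup (GL Cfsg.Lie.chevD4.Idx K))
    (hM : ∀ g : GL Cfsg.Lie.chevD4.Idx K, g ∈ M ↔ g ∈ Cfsg.Lie.twistedD4 K q ∧ ∀ i j : Cfsg.Lie.chevD4.Idx, ((g : Matrix Cfsg.Lie.chevD4.Idx Cfsg.Lie.chevD4.Idx K) i j) ^ q = (g : Matrix Cfsg.Lie.chevD4.Idx Cfsg.Lie.chevD4.Idx K) i j) :
    M ≠ Cfsg.Lie.twistedD4 K q ∧ ∀ H : Subgroup (GL Cfsg.Lie.chevD4.Idx K), M ≤ H → H ≤ Cfsg.Lie.twistedD4 K q → H = M ∨ H = Cfsg.Lie.twistedD4 K q := by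
  obtain ⟨a, ha1, hqa⟩ := hq
  have hpp : p.Prime := Fact.out
  have hqpp : IsPrimePow q := ⟨p, a, hpp.prime, by omega, hqa.symm⟩
  obtain ⟨f, hf⟩ := Agent.H46.exists_qFrob hqpp (show 0 < 3 by norm_num) hK
  have hper : ∀ t, f^[3] t = t := Agent.H46.period_D4 f hf hK
  set W := Agent.H64.Subfield.twSetD4 f hper
  have hG : Cfsg.Lie.twistedD4 K q = W.G1 := Agent.H46.twistedD4_eq f hf hK
  have hMW : M = W.M := by
    ext g
    rw [hM, hG]
    refine and_congr_right fun _ => ⟨fun h => Units.ext ?_, fun h i j => ?_⟩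
    · ext i j
      exact (hf _).trans (h i j)
    · rw [← hf]
      exact congrArg (fun u : GL Cfsg.Lie.chevD4.Idx K => (u : Matrix _ _ K) i j) (W.mem_fx.1 h)
  rw [hMW, hG]
  refine ⟨Agent.H64.Subfield.Tw.M_ne (Agent.H64.Subfield.topD4 f hper) ?_, fun H h1 h2 => ?_⟩
  · classical
    by_contra hc
    have hc' : ∀ x : K, x ^ q = x := fun x => by
      rw [← hf]
      by_contra hx
      exact hc ⟨x, hx⟩
    have h1q : 1 < q := hqpp.one_lt
    have hne : (Polynomial.X ^ q - Polynomial.X : Polynomial K) ≠ 0 :=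
      FiniteField.X_pow_card_sub_X_ne_zero K h1q
    have hdeg := FiniteField.X_pow_card_sub_X_natDegree_eq K h1q
    have hle := Polynomial.card_le_degree_of_subset_roots (p := (Polynomial.X ^ q - Polynomial.X : Polynomial K))
      (Z := Finset.univ) (fun x _ => by simp [Polynomial.mem_roots hne, hc'])
    rw [hdeg, Finset.card_univ, hK] at hle
    nlinarith [Nat.mul_le_mul h1q h1q]
  · let P : Agent.H64.Subfield.Mid W := ⟨H, h1, h2⟩
    exact Agent.H64.Subfield.eq_or_eq_of_three (p := p) (Agent.H64.Subfield.checksD4 f hper) (Agent.H64.Subfield.cubicD4 f hper) P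

end Cfsg.Agent.S2192
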