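import Cfsg.Statements.S2221
import Cfsg.Agent.H62.AltSylowDecomp

set_option autoImplicit false
open Cfsg

namespace Cfsg.Agent.S2221

/-- Direct decomposability of the Sylow 2-subgroups of the alternating groups. Let n ≥ 4 and let P be a Sylow 2-subgroup of the alternating group of degree n. Then P is the internal direct product of two nontrivial subgroups if and only if n = 4, n = 5, or n ≡ 2, 3 (mod 4) with 4⌊n/4⌋ not a power of 2. In the remaining cases (n ≡ 0, 1 (mod 4) with n ≥ 8, or n ≡ 2, 3 (mod 4) with 4⌊n/4⌋ a power of 2) P is directly indecomposable. -/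
theorem result (n : ℕ) (hn : 4 ≤ n)
    (P : Sylow 2 (alternatingGroup (Fin n))) :
    (∃ S₁ S₂ : Subgroup (alternatingGroup (Fin n)), S₁ ≠ ⊥ ∧ S₂ ≠ ⊥ ∧
        Cfsg.IsInternalDirectProduct S₁ S₂ (P : Subgroup (alternatingGroup (Fin n)))) ↔
      (n = 4 ∨ n = 5 ∨ ((n % 4 = 2 ∨ n % 4 = 3) ∧ ∀ r : ℕ, 4 * (n / 4) ≠ 2 ^ r)) := by
  exact (Cfsg.Agent.H62.Indec.decomp_subgroup_iff _).trans
    (Cfsg.Agent.H62.SylowDecomp.sylow_decomp_iff n hn P)

end Cfsg.Agent.S2221
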