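import Cfsg.Statements.S2225
import Cfsg.Agent.H68.Pro.PSLTwo
import Cfsg.Agent.H68.Pro.Even
import Cfsg.Agent.H89.PronormalOvergroups

set_option autoImplicit false
open Cfsg

namespace Cfsg.Agent.S2225

open Cfsg.Agent.H68.Pro

theorem normalizer_le_of_overgroup {G : Type*} [Group G] [Finite G] (P P0 : Sylow 2 G) {H : Subgroup G}
    (hP : (P : Subgroup G) ≤ H)
    (h0 : ∀ K : Subgroup G, (P0 : Subgroup G) ≤ K →
      Subgroup.normalizer ((P0 : Subgroup G) : Set G) ≤ Subgroup.normalizer (K : Set G)) :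
    Subgroup.normalizer ((P : Subgroup G) : Set G) ≤ Subgroup.normalizer (H : Set G) := by
  have := Fact.mk Nat.prime_two
  obtain ⟨g, rfl⟩ := MulAction.exists_smul_eq G P0 P
  set c := MulAut.conj g with hc
  have hP' : (P0 : Subgroup G).map c.toMonoidHom ≤ H := hP
  have h1 : (P0 : Subgroup G) ≤ H.map c.symm.toMonoidHom := fun x hx =>
    ⟨c x, hP' ⟨x, hx, rfl⟩, c.symm_apply_apply x⟩
  have h2 := Subgroup.map_mono (f := c.toMonoidHom) (h0 _ h1)
  rw [Subgroup.map_equiv_normalizer_eq, Subgroup.map_equiv_normalizer_eq, Subgroup.map_map,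
    show c.toMonoidHom.comp c.symm.toMonoidHom = MonoidHom.id G from
      MonoidHom.ext fun x => c.apply_symm_apply x, Subgroup.map_id] at h2
  rw [Sylow.coe_subgroup_smul]
  exact h2

theorem pronormal_of_selfnorm {G : Type*} [Group G] [Finite G] {S : Subgroup G} (hS : IsPGroup 2 S)
    (hN : Subgroup.normalizer (S : Set G) = S) (H : Subgroup G) (hH : Odd H.index) : Cfsg.IsPronormal H := by
  have := Fact.mk Nat.prime_two
  obtain ⟨P0, hP0⟩ := exists_sylow_eq hS fun g hg _ => hN.le hg
  obtain ⟨P, hP⟩ := Cfsg.Agent.H62.exists_sylow_two_le hH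
  refine Cfsg.Agent.H62.isPronormal_of_sylow P hP (normalizer_le_of_overgroup P P0 hP fun K hK => ?_)
  rw [hP0] at hK ⊢
  exact hN.le.trans (hK.trans Subgroup.le_normalizer)

theorem two_cases {F : Type*} [Field F] [Fintype F] (w : ℕ) (hw : 1 ≤ w)
    (H : Subgroup (Matrix.ProjectiveSpecialLinearGroup (Fin (2 ^ w)) F)) (hH : Odd H.index) :
    Cfsg.IsPronormal H := by
  set f : Matrix.SpecialLinearGroup (Fin (2 ^ w)) F →* Matrix.ProjectiveSpecialLinearGroup (Fin (2 ^ w)) F :=
    QuotientGroup.mk' (Subgroup.center _) with hf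
  have hfs : Function.Surjective f := QuotientGroup.mk'_surjective _
  have hK : Odd (H.comap f).index := by rwa [Subgroup.index_comap_of_surjective _ hfs]
  have reduce : Cfsg.IsPronormal (H.comap f) → Cfsg.IsPronormal H := fun h => by
    have := Cfsg.Agent.H89.isPronormal_map f hfs (K := H.comap f) h
    rwa [Subgroup.map_comap_eq_self_of_surjective hfs] at this
  by_cases hchar : ringChar F = 2
  · apply reduce
    have : CharP F 2 := ringChar.eq_iff.1 hchar
    obtain ⟨P, hP⟩ := Cfsg.Agent.H62.exists_sylow_two_le hK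
    obtain ⟨P0, hP0⟩ := Even.exists_sylow_unitri (n := 2 ^ w) (F := F)
    refine Cfsg.Agent.H62.isPronormal_of_sylow P hP (normalizer_le_of_overgroup P P0 hP fun K hK' => ?_)
    rw [hP0] at hK' ⊢
    exact Even.normalizer_le hK'
  have h2 : (2 : F) ≠ 0 := Ring.two_ne_zero hchar
  have hqodd : Fintype.card F % 2 = 1 := FiniteField.odd_card_of_char_ne_two hchar
  obtain ⟨k, rfl⟩ : ∃ k, w = k + 1 := ⟨w - 1, by omega⟩
  rcases k with _ | k
  · rcases (show Fintype.card F % 8 = 1 ∨ Fintype.card F % 8 = 7 ∨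
        (Fintype.card F % 8 = 3 ∨ Fintype.card F % 8 = 5) by omega) with h | h | h
    · obtain ⟨S, hS, hN⟩ := selfnorm_one h2 h
      exact reduce (pronormal_of_selfnorm hS hN _ hK)
    · obtain ⟨S, hS, hN⟩ := selfnorm_seven h2 h
      exact reduce (pronormal_of_selfnorm hS hN _ hK)
    · exact pronormal_of_four (sylow_four h2 h).1 (sylow_four h2 h).2 (centralizer_four h2)
        (oneInvolution h2) H hH
  · obtain ⟨S, hS, hN⟩ := special_selfnorm h2 k
    exact reduce (pronormal_of_selfnorm hS hN _ hK)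

/-- Let F be a finite field and d = 2^w ≥ 2 a power of 2 such that PSL_d(F) is simple. Then every subgroup H of PSL_d(F) of odd index is pronormal: for every g, H and gHg⁻¹ are conjugate by an element of the subgroup they generate. -/
theorem result {F : Type*} [Field F] [Fintype F]
    (w : ℕ) (hw : 1 ≤ w) (hs : IsSimpleGroup (Matrix.ProjectiveSpecialLinearGroup (Fin (2 ^ w)) F))
    (H : Subgroup (Matrix.ProjectiveSpecialLinearGroup (Fin (2 ^ w)) F)) (hH : Odd H.index) : Cfsg.IsPronormal H := by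
  exact two_cases w hw H hH

end Cfsg.Agent.S2225
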