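import Cfsg.Statements.S2226
import Cfsg.Agent.H68.Pro.UEven
import Cfsg.Agent.S2225

set_option autoImplicit false
open Cfsg

namespace Cfsg.Agent.S2226

open Cfsg.Agent.H68.Pro

theorem overgroup_mapped {G G' : Type*} [Group G] [Finite G] [Group G'] (e : G ≃* G') (U : Subgroup G')
    (h : ∀ K : Subgroup G', U ≤ K →
      Subgroup.normalizer (U : Set G') ≤ Subgroup.normalizer (K : Set G')) (K : Subgroup G)
    (hK : U.map e.symm.toMonoidHom ≤ K) :
    Subgroup.normalizer ((U.map e.symm.toMonoidHom : Subgroup G) : Set G) ≤ Subgroup.normalizer (K : Set G) := by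
  have h1 : U ≤ K.map e.toMonoidHom := fun x hx =>
    ⟨e.symm x, hK ⟨x, hx, rfl⟩, e.apply_symm_apply x⟩
  have h2 := Subgroup.map_mono (f := e.symm.toMonoidHom) (h _ h1)
  rw [Subgroup.map_equiv_normalizer_eq, Subgroup.map_equiv_normalizer_eq, Subgroup.map_map,
    show e.symm.toMonoidHom.comp e.toMonoidHom = MonoidHom.id G from
      MonoidHom.ext fun x => e.symm_apply_apply x, Subgroup.map_id] at h2
  exact h2

theorem all_cases {F : Type*} [Field F] [Fintype F] (q : ℕ) (hF : Fintype.card F = q ^ 2) (w : ℕ) (hw : 2 ≤ w)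
    (H : Subgroup (Cfsg.PSU (2 ^ w) F q)) (hH : Odd H.index) : Cfsg.IsPronormal H := by
  set f : Cfsg.SU (2 ^ w) F q →* Cfsg.PSU (2 ^ w) F q := QuotientGroup.mk' (Subgroup.center _) with hf
  have hfs : Function.Surjective f := QuotientGroup.mk'_surjective _
  have hK : Odd (H.comap f).index := by rwa [Subgroup.index_comap_of_surjective _ hfs]
  suffices h : Cfsg.IsPronormal (H.comap f) by
    have := Cfsg.Agent.H89.isPronormal_map f hfs (K := H.comap f) h
    rwa [Subgroup.map_comap_eq_self_of_surjective hfs] at this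
  have := Fact.mk Nat.prime_two
  rcases Nat.even_or_odd q with hq | hq
  · have hchar : ringChar F = 2 := FiniteField.even_card_iff_char_two.2 (by
      obtain ⟨t, rfl⟩ := hq
      rw [hF, Nat.pow_mod, show (t + t) % 2 = 0 by omega])
    have : CharP F 2 := ringChar.eq_iff.1 hchar
    have hσ2 : ∀ x : F, frobQ hF (frobQ hF x) = x := fun x => by
      simp only [frobQ_apply]; exact Cfsg.Agent.H3.pow_q_pow_q hF x
    have hrev : ∀ i : Fin (2 ^ w), i.rev ≠ i := fun i h => by
      have h1 := congrArg Fin.val h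
      rw [Fin.val_rev] at h1
      have h2 : 2 ∣ 2 ^ w := dvd_pow_self 2 (by omega)
      omega
    obtain ⟨a, ha⟩ := Cfsg.Agent.H3.exists_trace_eq hF (one_pow q : (1 : F) ^ q = 1)
    have ha' : a + frobQ hF a = 1 := by rw [frobQ_apply]; exact ha
    obtain ⟨e⟩ := UEven.exists_equiv (n := 2 ^ w) (q := q) (frobQ hF) (frobQ_apply hF) hrev ha'
    obtain ⟨P1, hP1⟩ := UEven.exists_sylow_UJ (n := 2 ^ w) (frobQ hF) hσ2 hrev
    have hp : IsPGroup 2 ((UEven.UJ (n := 2 ^ w) (frobQ hF)).map e.symm.toMonoidHom) := by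
      rw [← hP1]; exact P1.isPGroup'.map _
    obtain ⟨P0, hP0⟩ := exists_sylow_eq hp fun g hg ⟨k, hk⟩ => by
      rw [← Subgroup.map_equiv_normalizer_eq, ← hP1] at hg
      obtain ⟨g, hg, rfl⟩ := hg
      refine ⟨g, hP1.le (mem_sylow_of_normalizer P1 (k := k) ?_ hg), rfl⟩
      rw [MulEquiv.coe_toMonoidHom, ← map_pow, MulEquiv.map_eq_one_iff] at hk
      exact hk
    obtain ⟨P, hP⟩ := Cfsg.Agent.H62.exists_sylow_two_le hK
    refine Cfsg.Agent.H62.isPronormal_of_sylow P hP
      (Cfsg.Agent.S2225.normalizer_le_of_overgroup P P0 hP fun K hK' => ?_)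
    rw [hP0] at hK' ⊢
    exact overgroup_mapped e _ (fun L hL => UEven.normalizer_le (frobQ hF) hσ2 hrev hL) K hK'
  · obtain ⟨k, rfl⟩ : ∃ k, w = k + 2 := ⟨w - 2, by omega⟩
    obtain ⟨S, hS, hN⟩ := su_selfnorm hF hq k
    exact Cfsg.Agent.S2225.pronormal_of_selfnorm hS hN _ hK

/-- Let F be a finite field with q² elements and d = 2^w ≥ 4 a power of 2 such that the unitary group PSU_d(q) (realised over F) is simple. Then every subgroup H of PSU_d(q) of odd index is pronormal: for every g, H and gHg⁻¹ are conjugate by an element of the subgroup they generate. -/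
theorem result {F : Type*} [Field F] [Fintype F] (q : ℕ)
    (hF : Fintype.card F = q ^ 2) (w : ℕ) (hw : 2 ≤ w) (hs : IsSimpleGroup (Cfsg.PSU (2 ^ w) F q))
    (H : Subgroup (Cfsg.PSU (2 ^ w) F q)) (hH : Odd H.index) : Cfsg.IsPronormal H := by
  exact all_cases q hF w hw H hH

end Cfsg.Agent.S2226
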