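import Cfsg.Statements.S2227
import Cfsg.Agent.H46.E6O5.Main

set_option autoImplicit false
open Cfsg

namespace Cfsg.Agent.S2227

/-- In the twisted group ²E₆(2) all elements of order 5 are conjugate, and the centralizer of an element of order 5 is isomorphic to the direct product of a cyclic group of order 5 with the alternating group of degree 8. -/
theorem result {K : Type*} [Field K] [Fintype K] (hK : Fintype.card K = 4) :
    (∀ x y : ↥(Cfsg.Lie.twistedE6 K 2), orderOf x = 5 → orderOf y = 5 → IsConj x y) ∧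
      ∀ x : ↥(Cfsg.Lie.twistedE6 K 2), orderOf x = 5 →
        Nonempty (↥(Subgroup.centralizer ({x} : Set ↥(Cfsg.Lie.twistedE6 K 2))) ≃* (Multiplicative (ZMod 5) × ↥(alternatingGroup (Fin 8)))) := by
  classical
  haveI : CharP K 2 := by
    obtain ⟨p, hp⟩ := CharP.exists K
    obtain ⟨n, hprime, hn⟩ := FiniteField.card K p
    rw [hK] at hn
    have h2 : p ∣ 2 ^ 2 := by
      rw [show (2 : ℕ) ^ 2 = 4 from rfl, hn]
      exact dvd_pow_self p n.ne_zero
    have : p = 2 := (Nat.prime_dvd_prime_iff_eq hprime Nat.prime_two).1 (hprime.dvd_of_dvd_pow h2)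
    subst this
    exact hp
  have hconj := Cfsg.Agent.H46.E6O5.isConj_of_orderOf (K := K) hK
  refine ⟨fun x y hx hy => (hconj x hx).symm.trans (hconj y hy), fun x hx => ?_⟩
  obtain ⟨x0, hx0, ⟨e⟩⟩ := Cfsg.Agent.H46.E6O5.exists_centralizer (K := K) hK
  obtain ⟨c, hc⟩ := isConj_iff.1 ((hconj x0 hx0).symm.trans (hconj x hx))
  have hmap : (Subgroup.centralizer ({x0} : Set ↥(Cfsg.Lie.twistedE6 K 2))).map (MulAut.conj c).toMonoidHom =
      Subgroup.centralizer ({x} : Set ↥(Cfsg.Lie.twistedE6 K 2)) := by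
    ext y
    simp only [Subgroup.mem_map_equiv, Subgroup.mem_centralizer_singleton_iff, MulAut.conj_symm_apply, ← hc]
    constructor
    · intro h
      calc y * (c * x0 * c⁻¹) = c * (c⁻¹ * y * c * x0) * c⁻¹ := by group
        _ = c * (x0 * (c⁻¹ * y * c)) * c⁻¹ := by rw [h]
        _ = _ := by group
    · intro h
      calc c⁻¹ * y * c * x0 = c⁻¹ * (y * (c * x0 * c⁻¹)) * c := by group
        _ = c⁻¹ * ((c * x0 * c⁻¹) * y) * c := by rw [h]
        _ = _ := by group
  exact ⟨((MulEquiv.subgroupMap (MulAut.conj c) _).trans (MulEquiv.subgroupCongr hmap)).symm.trans e⟩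

end Cfsg.Agent.S2227
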