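import Cfsg.Statements.S2231
import Cfsg.Agent.H68.QdFree

set_option autoImplicit false
open Cfsg

namespace Cfsg.Agent.S2231

/-- Let p be an odd prime and K a finite field of characteristic p. Then Qd(p) (the natural semidirect product of an elementary abelian group of order p² by SL₂(p)) is not involved in the projective special linear group PSL₂(K). -/
theorem result {p : ℕ} [Fact p.Prime] (hp : p ≠ 2) {K : Type*} [Field K] [Fintype K] [CharP K p] : ¬ Cfsg.Involves ↥(Cfsg.qd p) (Matrix.ProjectiveSpecialLinearGroup (Fin 2) K) := by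
  rintro ⟨H, R, hR, ⟨e⟩⟩
  have hS := Cfsg.Agent.H68.pSubgroupsComm_SL2 (K := K) hp
  have hP : Cfsg.Agent.H68.PSubgroupsComm p (Matrix.ProjectiveSpecialLinearGroup (Fin 2) K) :=
    hS.of_surjective (QuotientGroup.mk' _) (QuotientGroup.mk'_surjective _)
  exact Cfsg.Agent.H68.not_pSubgroupsComm_qd ((hP.subgroup H).of_surjective
    (e.toMonoidHom.comp (QuotientGroup.mk' _))
    (e.surjective.comp (QuotientGroup.mk'_surjective _)))

end Cfsg.Agent.S2231

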