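import Cfsg.Statements.S2232
import Cfsg.Agent.H58.PSUThree.LocalClosed

set_option autoImplicit false
open Cfsg

namespace Cfsg.Agent.S2232

/-- Let p be an odd prime, q a power of p and K a finite field with q² elements. Then Qd(p) (the natural semidirect product of an elementary abelian group of order p² by SL₂(p)) is not involved in the projective special unitary group PSU₃(q) realised over K. -/
theorem result {p : ℕ} [Fact p.Prime] (hp : p ≠ 2) {K : Type*} [Field K] [Fintype K] [CharP K p] (n : ℕ) (hn : 1 ≤ n) (hK : Fintype.card K = (p ^ n) ^ 2) : ¬ Cfsg.Involves ↥(Cfsg.qd p) (Cfsg.PSU 3 K (p ^ n)) := by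
  rintro ⟨H, R, hR, ⟨e⟩⟩
  have hS := Cfsg.Agent.H58.PSUThreeLocal.locallyClosed (F := K) (p := p) (q := p ^ n) hK
  have hP : Cfsg.Agent.H58.LocallyClosed p (Cfsg.PSU 3 K (p ^ n)) :=
    hS.of_surjective (QuotientGroup.mk' _) (QuotientGroup.mk'_surjective _)
  exact Cfsg.Agent.H58.not_locallyClosed_qd ((hP.subgroup H).of_surjective
    (e.toMonoidHom.comp (QuotientGroup.mk' _))
    (e.surjective.comp (QuotientGroup.mk'_surjective _)))

end Cfsg.Agent.S2232
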