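import Cfsg.Statements.S2238
import Cfsg.Agent.H7.SzPartition
-- import your own Cfsg.Agent.* helpers here

set_option autoImplicit false
open Cfsg

namespace Cfsg.Agent.S2238

/-- The partition of the Suzuki group: with q = 2^(2m+1), m ≥ 1, r = 2^m and the Suzuki group realised as the stabiliser in SL₄ of the Suzuki–Tits ovoid, every non-identity element lies in exactly one subgroup that is either a Sylow 2-subgroup or a cyclic subgroup of order q − 1, q + 2r + 1 or q − 2r + 1. -/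
theorem result {F : Type*} [Field F] [Fintype F] {m : ℕ} (hm : 1 ≤ m) (hF : Fintype.card F = 2 ^ (2 * m + 1)) (g : ↥(Cfsg.Sz F m)) (hg : g ≠ 1) :
    ∃! U : Subgroup ↥(Cfsg.Sz F m), ((∃ P : Sylow 2 ↥(Cfsg.Sz F m), U = (P : Subgroup ↥(Cfsg.Sz F m))) ∨
      (IsCyclic ↥U ∧ Nat.card ↥U ∈ ({2 ^ (2 * m + 1) - 1, 2 ^ (2 * m + 1) + 2 ^ (m + 1) + 1, 2 ^ (2 * m + 1) - 2 ^ (m + 1) + 1} : Set ℕ))) ∧ g ∈ U := by
  exact (Cfsg.Agent.H7.SzHyp.of_fintype hm hF).partition g hg

end Cfsg.Agent.S2238
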