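import Cfsg.Statements.S2240
import Cfsg.Agent.H7.SzPartition
-- import your own Cfsg.Agent.* helpers here

set_option autoImplicit false
open Cfsg

namespace Cfsg.Agent.S2240

/-- Elementary abelian TI-subgroups of the Suzuki group: let q = 2^(2m+1) with m ≥ 1, the group realised as the stabiliser in SL₄ of the Suzuki–Tits ovoid, and n ≥ 2. There is an elementary abelian 2-subgroup E of order 2^n that is a TI-subgroup (every conjugate of E meeting E nontrivially is E itself) if and only if n divides 2m + 1. -/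
theorem result {F : Type*} [Field F] [Fintype F] {m : ℕ} (hm : 1 ≤ m) (hF : Fintype.card F = 2 ^ (2 * m + 1)) (n : ℕ) (hn : 2 ≤ n) :
    (∃ E : Subgroup ↥(Cfsg.Sz F m), Cfsg.IsElementaryAbelian 2 E ∧ Nat.card ↥E = 2 ^ n ∧
      ∀ x : ↥(Cfsg.Sz F m), E ⊓ E.map (MulAut.conj x).toMonoidHom ≠ ⊥ → x ∈ Subgroup.normalizer (E : Set ↥(Cfsg.Sz F m))) ↔ n ∣ 2 * m + 1 := by
  exact (Cfsg.Agent.H7.SzHyp.of_fintype hm hF).ti_iff n hn

end Cfsg.Agent.S2240
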