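import Cfsg.Statements.S2244
import Cfsg.Agent.H67.ChevWeaklyClosedG2
import Cfsg.Agent.H46.Mem

set_option autoImplicit false
open Cfsg Cfsg.Lie Cfsg.Agent.H46 Cfsg.Agent.H67.Chev

namespace Cfsg.Agent.S2244

/-- Weakly closed unipotent subgroups of Chevalley groups: let G be the Chevalley group of type G₂, B₂, D₄, F₄, E₆, E₇ or E₈ over a finite field F (the matrix group generated by the root elements), with |F| ≠ 2, and |F| ≠ 3 as well for the types G₂, B₂, D₄, F₄. Let U be the subgroup generated by the positive root subgroups. If X ≤ U is weakly closed in U with respect to G (every G-conjugate of X lying in U equals X), then X is the unipotent radical U_J of a standard parabolic subgroup for some set J of fundamental roots. -/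
theorem result {F : Type*} [Field F] [Fintype F] (D : Cfsg.Lie.ChevalleyDatum) (hD : D ∈ [Cfsg.Lie.chevG2, Cfsg.Lie.chevB2, Cfsg.Lie.chevD4, Cfsg.Lie.chevF4, Cfsg.Lie.chevE6, Cfsg.Lie.chevE7, Cfsg.Lie.chevE8])
    (h2 : Fintype.card F ≠ 2) (h3 : D ∈ [Cfsg.Lie.chevG2, Cfsg.Lie.chevB2, Cfsg.Lie.chevD4, Cfsg.Lie.chevF4] → Fintype.card F ≠ 3)
    (X : Subgroup (GL D.Idx F)) (hXU : X ≤ D.posUnipotent F)
    (hwc : ∀ g ∈ D.group F, X.map (MulAut.conj g).toMonoidHom ≤ D.posUnipotent F → X.map (MulAut.conj g).toMonoidHom = X) :
    ∃ J : Set ℕ, (∀ j ∈ J, j < D.rank) ∧ X = D.unipotentRadical F J := by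
  have hc : Nat.card F = Fintype.card F := Nat.card_eq_fintype_card
  have h1 : 2 ≤ Fintype.card F := Fintype.one_lt_card
  refine ⟨nodes X, fun j hj => hj.1, ?_⟩
  simp only [List.mem_cons, List.not_mem_nil, or_false] at hD
  rcases hD with rfl | rfl | rfl | rfl | rfl | rfl | rfl
  · have h3' := h3 (by simp)
    exact g2_eq_radical (wclosed_of_map goodG2 X hXU hwc) (by omega)
  · have h3' := h3 (by simp)
    exact eq_radical_of_check goodB2 (wclosed_of_map goodB2 X hXU hwc) (B := 3) (by omega) (by omega)
      (by decide +kernel) (by decide +kernel)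
  · have h3' := h3 (by simp)
    exact eq_radical_of_check goodD4 (wclosed_of_map goodD4 X hXU hwc) (B := 3) (by omega) (by omega)
      (by decide +kernel) (by decide +kernel)
  · have h3' := h3 (by simp)
    exact eq_radical_of_check goodF4 (wclosed_of_map goodF4 X hXU hwc) (B := 3) (by omega) (by omega)
      (by decide +kernel) (by decide +kernel)
  · exact eq_radical_of_check goodE6 (wclosed_of_map goodE6 X hXU hwc) (B := 2) (by omega) (by omega)
      (by decide +kernel) (by decide +kernel)
  · exact eq_radical_of_check goodE7 (wclosed_of_map goodE7 X hXU hwc) (B := 2) (by omega) (by omega)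
      (by decide +kernel) (by decide +kernel)
  · exact eq_radical_of_check goodE8 (wclosed_of_map goodE8 X hXU hwc) (B := 2) (by omega) (by omega)
      (by decide +kernel) (by decide +kernel)

end Cfsg.Agent.S2244
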