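import Cfsg.Statements.S2251
import Cfsg.Agent.H8.SzSubEmbed

set_option autoImplicit false
open Cfsg
open Cfsg.Agent.H7 Cfsg.Agent.H8.SzSub

namespace Cfsg.Agent.S2251

/-- The subgroups of the Suzuki group: with q = 2^(2m+1), m ≥ 1, r = 2^m and the group realised as the stabiliser in SL₄ of the Suzuki–Tits ovoid, every proper subgroup is contained in the normalizer of a Sylow 2-subgroup, or in the normalizer of a cyclic subgroup of order q − 1, q + 2r + 1 or q − 2r + 1, or in a subgroup isomorphic to a smaller Suzuki group Sz(s) with s = 2^(2k+1) ≥ 8 and 2k+1 a proper divisor of 2m+1. -/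
theorem result {F : Type*} [Field F] [Fintype F] {m : ℕ} (hm : 1 ≤ m) (hF : Fintype.card F = 2 ^ (2 * m + 1)) (M : Subgroup ↥(Cfsg.Sz F m)) (hM : M ≠ ⊤) :
    (∃ P : Sylow 2 ↥(Cfsg.Sz F m), M ≤ Subgroup.normalizer ((P : Subgroup ↥(Cfsg.Sz F m)) : Set ↥(Cfsg.Sz F m))) ∨
    (∃ U : Subgroup ↥(Cfsg.Sz F m), IsCyclic ↥U ∧ Nat.card ↥U ∈ ({2 ^ (2 * m + 1) - 1, 2 ^ (2 * m + 1) + 2 ^ (m + 1) + 1, 2 ^ (2 * m + 1) - 2 ^ (m + 1) + 1} : Set ℕ) ∧
      M ≤ Subgroup.normalizer (U : Set ↥(Cfsg.Sz F m))) ∨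
    (∃ (K : Type) (_ : Field K) (_ : Fintype K) (k : ℕ), 1 ≤ k ∧ k < m ∧ Fintype.card K = 2 ^ (2 * k + 1) ∧ 2 * k + 1 ∣ 2 * m + 1 ∧
      ∃ S : Subgroup ↥(Cfsg.Sz F m), Nonempty (↥S ≃* ↥(Cfsg.Sz K k)) ∧ M ≤ S) := by
  classical
  have H := SzHyp.of_fintype hm hF
  haveI := H.finite_Sz
  haveI : Fact (Nat.Prime 2) := ⟨Nat.prime_two⟩
  by_cases hA : NoAbNormal M
  · rcases eq_or_ne M ⊥ with rfl | hne
    · exact Or.inl ⟨H.sylowQ, bot_le⟩
    right; right
    obtain ⟨g, k, K, hk, hdvd, hK, hg⟩ := classify H hA hne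
    haveI := H.fin
    have hkm : k < m := by
      rcases (le_of_dvd' hdvd).lt_or_eq with h | h
      · exact h
      · subst h
        exfalso
        have hKtop : K = ⊤ := subfield_eq_of_card hK (by
          rw [← H.card]; exact Nat.card_congr Subfield.topEquiv.toEquiv)
        apply hM
        rw [hKtop, SzK_top H] at hg
        refine eq_top_iff.2 fun x _ => ?_
        have hx : g * x * g⁻¹ ∈ cj g M := hg ▸ Subgroup.mem_top _
        rw [mem_cj] at hx
        simpa [mul_assoc] using hx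
    haveI : Fintype (GaloisField 2 (2 * k + 1)) := Fintype.ofFinite _
    have hcard : Fintype.card (GaloisField 2 (2 * k + 1)) = 2 ^ (2 * k + 1) := by
      rw [← Nat.card_eq_fintype_card, GaloisField.card 2 _ (by omega)]
    have H' := SzHyp.of_fintype hk hcard
    obtain ⟨ι⟩ := exists_hom H H' hdvd
    refine ⟨GaloisField 2 (2 * k + 1), inferInstance, inferInstance, k, hk, hkm, hcard, hdvd, M, ⟨?_⟩, le_rfl⟩
    refine (Subgroup.equivMapOfInjective M (MulAut.conj g).toMonoidHom (MulAut.conj g).injective).trans ?_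
    refine (MulEquiv.subgroupCongr (?_ : cj g M = (emb H H' ι hdvd).range)).trans
      (MonoidHom.ofInjective (emb_injective H H' ι hdvd)).symm
    rw [range_emb, hg, subfield_eq_of_card (K₁ := K) (K₂ := ι.fieldRange) hK (card_range H' ι)]
  · unfold NoAbNormal at hA
    push Not at hA
    obtain ⟨A, hAM, hn, hc, hne⟩ := hA
    obtain ⟨a, ha, ha1⟩ := (Subgroup.bot_or_exists_ne_one A).resolve_left hne
    by_cases hQ : ∃ z, z * a * z⁻¹ ∈ H.Q
    · left
      obtain ⟨z, hz⟩ := hQ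
      have hAP : ∀ x ∈ A, x ∈ ((z⁻¹ • H.sylowQ : Sylow 2 _) : Subgroup _) := by
        intro x hx
        rw [Sylow.coe_subgroup_smul, H.coe_sylowQ]
        refine ⟨z * x * z⁻¹, H.centralizer_le_Q hz (fun e => ha1 (conj_eq_one_iff.1 e)) ?_, by simp; group⟩
        rw [Subgroup.mem_centralizer_singleton_iff, conj_mul, conj_mul, hc x hx a ha]
      refine ⟨z⁻¹ • H.sylowQ, fun g hg => ?_⟩
      refine Sylow.smul_eq_iff_mem_normalizer.1 ?_
      refine Sylow.ext (H.sylow_eq_of_mem (g := g * a * g⁻¹) (fun e => ha1 (conj_eq_one_iff.1 e)) ?_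
        (hAP _ (hn g hg a ha)))
      rw [Sylow.coe_subgroup_smul]
      exact ⟨a, hAP a ha, rfl⟩
    · right; left
      obtain ⟨hcyc, hcard, heq⟩ := H.centralizer_cases ha1 hQ
      refine ⟨_, hcyc, hcard, fun g hg => ?_⟩
      have hmem : g * a * g⁻¹ ∈ Subgroup.centralizer {a} :=
        Subgroup.mem_centralizer_singleton_iff.2 (hc _ (hn g hg a ha) a ha)
      rw [Subgroup.mem_normalizer_iff_map_conj_eq]
      show (Subgroup.centralizer {a}).map (MulAut.conj g).toMonoidHom = _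
      rw [map_conj_centralizer, heq _ hmem (fun e => ha1 (conj_eq_one_iff.1 e))]

end Cfsg.Agent.S2251
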