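import Cfsg.Statements.S2255
import Cfsg.Agent.H62.NilBound

set_option autoImplicit false
open Cfsg

namespace Cfsg.Agent.S2255

/-- Let n be a natural number not congruent to 3 modulo 4, with n ∉ {5, 6, 9}. Then every nilpotent subgroup of the alternating group on n letters has order at most the order of a Sylow 2-subgroup of the alternating group (so the nilpotent subgroups of largest order are exactly the Sylow 2-subgroups). -/
theorem result  (n : ℕ) (hn : n % 4 ≠ 3)
    (h5 : n ≠ 5) (h6 : n ≠ 6) (h9 : n ≠ 9)
    (N : Subgroup (alternatingGroup (Fin n))) (hN : Group.IsNilpotent N)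
    (P : Sylow 2 (alternatingGroup (Fin n))) :
    Nat.card N ≤ Nat.card P := by
  rcases Nat.lt_or_ge n 2 with h2 | h2
  · have : Subsingleton (Equiv.Perm (Fin n)) := by interval_cases n <;> infer_instance
    rw [Nat.card_of_subsingleton (1 : N)]
    exact Nat.card_pos
  have : Nontrivial (Fin n) := Fin.nontrivial_iff_two_le.2 h2
  have hcard : Nat.card (N.map (alternatingGroup (Fin n)).subtype) = Nat.card N :=
    Subgroup.card_map_of_injective (alternatingGroup (Fin n)).subtype_injective
  haveI := hN
  have h := (H62.nilBounds n).alt (N.map (alternatingGroup (Fin n)).subtype)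
    (nilpotent_of_mulEquiv (N.equivMapOfInjective _ (alternatingGroup (Fin n)).subtype_injective))
    (Subgroup.map_subtype_le N) (by omega) (by omega) (by omega) h5 h6 h9
  rw [hcard, H62.nilMax_of_mod_ne hn] at h
  have hA := Nat.factorization_mul (by norm_num : (2 : ℕ) ≠ 0)
    (Nat.card_pos (α := alternatingGroup (Fin n))).ne'
  rw [two_mul_nat_card_alternatingGroup, Nat.card_perm, Nat.card_fin] at hA
  have hA2 := congrArg (fun f => f 2) hA
  simp only [Finsupp.add_apply, Nat.Prime.factorization_self Nat.prime_two,
    Nat.factorization_def _ Nat.prime_two] at hA2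
  rw [P.card_eq_multiplicity, Nat.factorization_def _ Nat.prime_two]
  rw [hA2, pow_add, pow_one] at h
  omega

end Cfsg.Agent.S2255
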