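import Cfsg.Statements.S2258
import Cfsg.Agent.H68.SolubilizerThree

set_option autoImplicit false
open Cfsg

namespace Cfsg.Agent.S2258

/-- Let G = PSL_2(F) with F a field of order q = 3^p, p an odd prime, and for x ∈ G call the solubilizer of x the set of y ∈ G such that x and y generate a solvable subgroup. Then the solubilizer of an involution has q(q + 1) elements; that of an element of order 3 has q(q + 5)/2 elements; that of an element of order neither 1 nor 2 dividing q − 1 has q(q − 1) elements; and that of an element of order neither 1 nor 2 dividing q + 1 has q + 1 elements. -/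
theorem result (p : ℕ) (hp : p.Prime) (hodd : Odd p) {F : Type*} [Field F] [Fintype F]
    (hF : Fintype.card F = 3 ^ p) (x : Matrix.ProjectiveSpecialLinearGroup (Fin 2) F) :
    (orderOf x = 2 → Nat.card {y : Matrix.ProjectiveSpecialLinearGroup (Fin 2) F // Group.IsSolvable ↥(Subgroup.closure ({x, y} : Set (Matrix.ProjectiveSpecialLinearGroup (Fin 2) F)))} = 3 ^ p * (3 ^ p + 1)) ∧
    (orderOf x = 3 → 2 * Nat.card {y : Matrix.ProjectiveSpecialLinearGroup (Fin 2) F // Group.IsSolvable ↥(Subgroup.closure ({x, y} : Set (Matrix.ProjectiveSpecialLinearGroup (Fin 2) F)))} = 3 ^ p * (3 ^ p + 5)) ∧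
    (x ≠ 1 → orderOf x ≠ 2 → orderOf x ∣ 3 ^ p - 1 → Nat.card {y : Matrix.ProjectiveSpecialLinearGroup (Fin 2) F // Group.IsSolvable ↥(Subgroup.closure ({x, y} : Set (Matrix.ProjectiveSpecialLinearGroup (Fin 2) F)))} = 3 ^ p * (3 ^ p - 1)) ∧
    (x ≠ 1 → orderOf x ≠ 2 → orderOf x ∣ 3 ^ p + 1 → Nat.card {y : Matrix.ProjectiveSpecialLinearGroup (Fin 2) F // Group.IsSolvable ↥(Subgroup.closure ({x, y} : Set (Matrix.ProjectiveSpecialLinearGroup (Fin 2) F)))} = 3 ^ p + 1) := by
  have h3 : (3 : F) = 0 := by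
    have h := FiniteField.cast_card_eq_zero F
    rw [hF, Nat.cast_pow] at h
    exact_mod_cast (pow_eq_zero_iff hp.ne_zero).1 h
  have : CharP F 3 := CharP.ringChar_of_prime_eq_zero Nat.prime_three (by exact_mod_cast h3) ▸
    ringChar.charP F
  have h8 : 3 ^ p % 8 = 3 := by
    obtain ⟨k, rfl⟩ := hodd
    rw [pow_succ, pow_mul, Nat.mul_mod, Nat.pow_mod]
    norm_num
  exact Cfsg.Agent.H68.Solub.Three.card_solv_three hF h8 x

end Cfsg.Agent.S2258
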