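import Cfsg.Statements.S2259
import Cfsg.Agent.H8.SzSolubCount
import Cfsg.Agent.H7.SzLie

set_option autoImplicit false
open Cfsg
open Cfsg.Agent.H7 Cfsg.Agent.H8.SzSub

namespace Cfsg.Agent.S2259

/-- Let G be the Suzuki group Sz(q), q = 2^(2m+1) with 2m + 1 prime and m ≥ 1, realised inside Sp_4(F) for F the field of order q, write r = 2^(m+1) (so r² = 2q), and for x ∈ G call the solubilizer of x the set of y ∈ G such that x and y generate a solvable subgroup. Then the solubilizer of an involution has q²(4q − 3) elements; that of an element of order 4 has q²(q + 3) elements; that of a non-identity element of order dividing q − 1 has 2q²(q − 1) elements; that of a non-identity element of order dividing q + r + 1 has 4(q + r + 1) elements; and that of a non-identity element of order dividing q − r + 1 has 4(q − r + 1) elements. -/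
theorem result {F : Type*} [Field F] [Fintype F] {m : ℕ} (hm : 1 ≤ m)
    (hp : (2 * m + 1).Prime) (hF : Fintype.card F = 2 ^ (2 * m + 1)) (x : ↥(Cfsg.Lie.Sz F (2 ^ (m + 1)))) :
    (orderOf x = 2 → Nat.card {y : ↥(Cfsg.Lie.Sz F (2 ^ (m + 1))) // Group.IsSolvable ↥(Subgroup.closure ({x, y} : Set (↥(Cfsg.Lie.Sz F (2 ^ (m + 1))))))} = (2 ^ (2 * m + 1)) ^ 2 * (4 * 2 ^ (2 * m + 1) - 3)) ∧
    (orderOf x = 4 → Nat.card {y : ↥(Cfsg.Lie.Sz F (2 ^ (m + 1))) // Group.IsSolvable ↥(Subgroup.closure ({x, y} : Set (↥(Cfsg.Lie.Sz F (2 ^ (m + 1))))))} = (2 ^ (2 * m + 1)) ^ 2 * (2 ^ (2 * m + 1) + 3)) ∧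
    (x ≠ 1 → orderOf x ∣ 2 ^ (2 * m + 1) - 1 →
      Nat.card {y : ↥(Cfsg.Lie.Sz F (2 ^ (m + 1))) // Group.IsSolvable ↥(Subgroup.closure ({x, y} : Set (↥(Cfsg.Lie.Sz F (2 ^ (m + 1))))))} = 2 * (2 ^ (2 * m + 1)) ^ 2 * (2 ^ (2 * m + 1) - 1)) ∧
    (x ≠ 1 → orderOf x ∣ 2 ^ (2 * m + 1) + 2 ^ (m + 1) + 1 → Nat.card {y : ↥(Cfsg.Lie.Sz F (2 ^ (m + 1))) // Group.IsSolvable ↥(Subgroup.closure ({x, y} : Set (↥(Cfsg.Lie.Sz F (2 ^ (m + 1))))))} = 4 * (2 ^ (2 * m + 1) + 2 ^ (m + 1) + 1)) ∧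
    (x ≠ 1 → orderOf x ∣ 2 ^ (2 * m + 1) - 2 ^ (m + 1) + 1 → Nat.card {y : ↥(Cfsg.Lie.Sz F (2 ^ (m + 1))) // Group.IsSolvable ↥(Subgroup.closure ({x, y} : Set (↥(Cfsg.Lie.Sz F (2 ^ (m + 1))))))} = 4 * (2 ^ (2 * m + 1) - 2 ^ (m + 1) + 1)) := by
  classical
  have H := SzHyp.of_fintype hm hF
  haveI := H.finite_Sz
  set x' := H.lieEquiv.symm x with hx'
  have hcard : Nat.card {y : ↥(Cfsg.Lie.Sz F (2 ^ (m + 1))) // Group.IsSolvable ↥(Subgroup.closure
      ({x, y} : Set (↥(Cfsg.Lie.Sz F (2 ^ (m + 1))))))} = (sol x').ncard := by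
    rw [← Nat.card_coe_set_eq]
    refine (Nat.card_congr (H.lieEquiv.toEquiv.subtypeEquiv fun y => ?_)).symm
    have hmap : (Subgroup.closure ({x', y} : Set (Cfsg.Sz F m))).map H.lieEquiv.toMonoidHom =
        Subgroup.closure {x, H.lieEquiv y} := by
      rw [MonoidHom.map_closure, Set.image_insert_eq, Set.image_singleton]
      simp [hx']
    have e := (Subgroup.equivMapOfInjective (Subgroup.closure ({x', y} : Set (Cfsg.Sz F m)))
      H.lieEquiv.toMonoidHom H.lieEquiv.injective).trans (MulEquiv.subgroupCongr hmap)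
    constructor
    · intro h
      haveI : Group.IsSolvable ↥(Subgroup.closure ({x', y} : Set (Cfsg.Sz F m))) := h
      exact Group.isSolvable_of_surjective (f := e.toMonoidHom) e.surjective
    · intro h
      haveI : Group.IsSolvable ↥(Subgroup.closure ({x, H.lieEquiv y} : Set _)) := h
      exact Group.isSolvable_of_surjective (f := e.symm.toMonoidHom) e.symm.surjective
  have ho : orderOf x' = orderOf x := MulEquiv.orderOf_eq H.lieEquiv.symm x
  rw [hcard, ← ho, show (x ≠ 1) ↔ (x' ≠ 1) from (map_ne_one_iff _ H.lieEquiv.symm.injective).symm]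
  clear_value x'
  obtain ⟨hprod, hle⟩ := suzuki_number_identity m
  obtain ⟨hqodd, hcop⟩ := H.toriOrders_coprime
  have two : ∀ n : ℕ, orderOf x' = n → (n = 2 ∨ n = 4) → ∃ z, z * x' * z⁻¹ ∈ H.Q ∧ z * x' * z⁻¹ ≠ 1 ∧
      orderOf (z * x' * z⁻¹) = n := by
    intro n hn hn'
    obtain ⟨z, hz⟩ := H.exists_conj_mem_Q (g := x') ⟨2, orderOf_dvd_iff_pow_eq_one.1 (by
      rw [hn]; rcases hn' with rfl | rfl <;> norm_num)⟩
    have hord : orderOf (z * x' * z⁻¹) = n := hn ▸ MulEquiv.orderOf_eq (MulAut.conj z) x'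
    refine ⟨z, hz, fun e => ?_, hord⟩
    rw [e, orderOf_one] at hord
    omega
  have tor : x' ≠ 1 → ∀ k ∈ SzHyp.toriOrders m, orderOf x' ∣ k → Nat.card (Subgroup.centralizer {x'}) = k := by
    intro h1 k hk hd
    obtain ⟨-, hc, -⟩ := H.centralizer_cases h1 (H.not_conj_Q_of_coprime h1 (hqodd k hk).2 hd)
    by_contra hne
    exact h1 (orderOf_eq_one_iff.1 (Nat.eq_one_of_dvd_coprimes (hcop k hk _ hc (Ne.symm hne)) hd
      (Subgroup.orderOf_dvd_natCard _ (mem_centralizer_self x'))))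
  have ell : x' ≠ 1 → ∀ k ∈ SzHyp.toriOrders m, k ≠ 2 ^ (2 * m + 1) - 1 → k ∣ (2 ^ (2 * m + 1)) ^ 2 + 1 →
      orderOf x' ∣ k → (sol x').ncard = 4 * k := by
    intro h1 k hk hne hdvd hd
    rw [sol_ell (H := H) hp (orderOf_dvd_iff_pow_eq_one.1 (hd.trans hdvd)) h1 (by rw [tor h1 k hk hd]; exact hne),
      tor h1 k hk hd]
  obtain ⟨hlt, hlt2⟩ := H.th_add_two_lt
  rw [H.card] at hlt
  refine ⟨fun h => ?_, fun h => ?_, fun h1 hd => ?_, fun h1 hd => ?_, fun h1 hd => ?_⟩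
  · obtain ⟨z, hz, hz1, hzo⟩ := two 2 h (Or.inl rfl)
    rw [← sol_card_conj z]
    exact (sol_two (H := H) hp hz hz1).1 hzo
  · obtain ⟨z, hz, hz1, hzo⟩ := two 4 h (Or.inr rfl)
    rw [← sol_card_conj z]
    exact (sol_two (H := H) hp hz hz1).2 hzo
  · have hodd := (hqodd _ (Or.inl rfl)).2
    rcases (H.trichotomy h1).resolve_left (H.not_conj_Q_of_coprime h1 hodd hd) with ⟨z, k, hk⟩ | he
    · rw [← sol_card_conj z, ← show H.ds k = z * x' * z⁻¹ from hk]
      exact sol_split (H := H) hp fun e => h1 (conj_eq_one_iff.1 (hk.symm.trans (by rw [e, map_one])))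
    · exact absurd (orderOf_eq_one_iff.1 (Nat.eq_one_of_dvd_coprimes
        (H.coprime_facts.1.coprime_mul_left_right) hd (orderOf_dvd_of_pow_eq_one he))) h1
  · exact ell h1 _ (Or.inr (Or.inl rfl)) (by omega) ⟨_, hprod.symm⟩ hd
  · refine ell h1 _ (Or.inr (Or.inr rfl)) (by omega) ⟨2 ^ (2 * m + 1) + 2 ^ (m + 1) + 1, ?_⟩ hd
    rw [← hprod, mul_comm]
    congr 1
    omega

end Cfsg.Agent.S2259
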