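import Cfsg.Statements.S2268
import Mathlib

set_option autoImplicit false
open Cfsg

namespace Cfsg.Agent.S2268

/-- Let G be a finite group with an abelian Sylow p-subgroup P and let Q ≤ P. Then N_G(Q) = (N_G(Q) ∩ N_G(P))·C_G(Q), so that N_G(Q)/C_G(Q) is a homomorphic image of the subgroup (N_G(Q) ∩ N_G(P))/C_G(P) of N_G(P)/C_G(P); in particular the order of N_G(Q)/C_G(Q) divides the order of N_G(P)/C_G(P). -/
theorem result {G : Type*} [Group G] [Finite G] {p : ℕ} [Fact p.Prime]
    (P : Sylow p G) (hP : IsMulCommutative (P : Subgroup G)) (Q : Subgroup G) (hQ : Q ≤ (P : Subgroup G)) :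
    Subgroup.normalizer (Q : Set G) =
      (Subgroup.normalizer (Q : Set G) ⊓ Subgroup.normalizer ((P : Subgroup G) : Set G)) ⊔ Subgroup.centralizer (Q : Set G) ∧
    ((Subgroup.centralizer (Q : Set G)).subgroupOf (Subgroup.normalizer (Q : Set G))).index ∣ ((Subgroup.centralizer ((P : Subgroup G) : Set G)).subgroupOf (Subgroup.normalizer ((P : Subgroup G) : Set G))).index := by
  have hPC : (P : Subgroup G) ≤ Subgroup.centralizer (Q : Set G) := fun a ha => by
    rw [Subgroup.mem_centralizer_iff]
    exact fun b hb => congrArg Subtype.val (hP.is_comm.comm ⟨b, hQ hb⟩ ⟨a, ha⟩)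
  set N := Subgroup.normalizer (Q : Set G)
  set M := Subgroup.normalizer ((P : Subgroup G) : Set G)
  set C := Subgroup.centralizer (Q : Set G)
  set CP := Subgroup.centralizer ((P : Subgroup G) : Set G)
  have hCN : C ≤ N := Subgroup.centralizer_le_normalizer _
  have hPN : (P : Subgroup G) ≤ N := hPC.trans hCN
  have key : N = (N ⊓ M) ⊔ C := by
    refine le_antisymm (fun g hg => ?_) (sup_le inf_le_left hCN)
    have hCn : (C.subgroupOf N).Normal := Subgroup.normal_subgroupOf_centralizer_normalizer _
    let P' : Sylow p N := P.subtype hPN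
    have hle : (P' : Subgroup N) ≤ C.subgroupOf N := fun a ha => hPC ha
    have hfr := Sylow.normalizer_sup_eq_top (P'.subtype hle)
    have h1 : (⟨g, hg⟩ : N) ∈ Subgroup.normalizer ((Subgroup.map (C.subgroupOf N).subtype (P'.subtype hle) : Subgroup N) : Set N) ⊔ C.subgroupOf N :=
      hfr ▸ Subgroup.mem_top _
    rw [Sylow.coe_subtype, Subgroup.subgroupOf_map_subtype, inf_eq_left.mpr hle] at h1
    obtain ⟨a, ha, b, hb, hab⟩ := Subgroup.mem_sup_of_normal_right.mp h1
    have haM : (a : G) ∈ M := by
      rw [Subgroup.mem_normalizer_iff] at ha ⊢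
      intro z
      constructor
      · intro hz
        exact (ha ⟨z, hPN hz⟩).mp hz
      · intro hz
        have hzN : z ∈ N := by
          have := N.mul_mem (N.mul_mem (N.inv_mem a.2) (hPN hz)) a.2
          simpa [mul_assoc] using this
        exact (ha ⟨z, hzN⟩).mpr hz
    have hg' : g = (a : G) * (b : G) := congrArg Subtype.val hab.symm
    rw [hg']
    exact Subgroup.mul_mem_sup ⟨a.2, haM⟩ hb
  refine ⟨key, ?_⟩
  have hCP : CP ≤ N ⊓ M := le_inf
    ((Subgroup.centralizer_le (fun a ha => hQ ha)).trans hCN) (Subgroup.centralizer_le_normalizer _)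
  have h1 : C.relIndex N = C.relIndex (N ⊓ M) := by
    have hCn : (C.subgroupOf N).Normal := Subgroup.normal_subgroupOf_centralizer_normalizer _
    have htop : (N ⊓ M).subgroupOf N ⊔ C.subgroupOf N = ⊤ := by
      rw [← Subgroup.subgroupOf_sup inf_le_left hCN, ← key, Subgroup.subgroupOf_self]
    have h2 := Subgroup.relIndex_sup_right (H := (N ⊓ M).subgroupOf N) (K := C.subgroupOf N)
    rw [htop, Subgroup.relIndex_top_right, Subgroup.relIndex_subgroupOf inf_le_left] at h2
    exact h2
  show C.relIndex N ∣ CP.relIndex M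
  rw [h1]
  refine (Subgroup.relIndex_dvd_of_le_left (N ⊓ M) (Subgroup.centralizer_le (fun a ha => hQ ha))).trans ?_
  exact Dvd.intro _ (Subgroup.relIndex_mul_relIndex _ _ _ hCP inf_le_right)

end Cfsg.Agent.S2268
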