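import Cfsg.Statements.S2269
import Cfsg.Agent.H62.AbelianSylowAlt

set_option autoImplicit false
open Cfsg

namespace Cfsg.Agent.S2269

/-- Let n ≥ 5 and let P be an abelian Sylow p-subgroup of the alternating group A_n. Then N(P)/C(P) (taken in A_n) has even order, or P is cyclic, except when n = 5 and p = 2, where P is a four-group and N(P)/C(P) has order 3. -/
theorem result (n : ℕ) (hn : 5 ≤ n) {p : ℕ} [Fact p.Prime]
    (P : Sylow p (alternatingGroup (Fin n))) (hP : IsMulCommutative (P : Subgroup (alternatingGroup (Fin n)))) :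
    (¬ (n = 5 ∧ p = 2) → 2 ∣ ((Subgroup.centralizer ((P : Subgroup (alternatingGroup (Fin n))) : Set (alternatingGroup (Fin n)))).subgroupOf (Subgroup.normalizer ((P : Subgroup (alternatingGroup (Fin n))) : Set (alternatingGroup (Fin n))))).index ∨ IsCyclic (P : Subgroup (alternatingGroup (Fin n)))) ∧
    ((n = 5 ∧ p = 2) → ((Subgroup.centralizer ((P : Subgroup (alternatingGroup (Fin n))) : Set (alternatingGroup (Fin n)))).subgroupOf (Subgroup.normalizer ((P : Subgroup (alternatingGroup (Fin n))) : Set (alternatingGroup (Fin n))))).index = 3 ∧ IsKleinFour (P : Subgroup (alternatingGroup (Fin n)))) := by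
  have hp : p.Prime := Fact.out
  refine ⟨fun hne => ?_, ?_⟩
  · rcases Nat.lt_or_ge n (2 * p) with hlt | hge
    · exact Or.inr (H62.isCyclic_sylow_of_lt hlt P)
    left
    rcases hp.eq_two_or_odd' with rfl | hodd
    · exact absurd hP (H62.not_comm_sylow_two (by
        rcases eq_or_lt_of_le hn with h | h
        · exact absurd ⟨h.symm, rfl⟩ hne
        · omega) P)
    have hp3 : 3 ≤ p := by
      obtain ⟨k, hk⟩ := hodd
      have := hp.two_le
      omega
    obtain ⟨σ, hσ⟩ := (Equiv.Perm.exists_with_cycleType_iff (α := Fin n) (m := {p})).2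
      ⟨by simp; omega, by simp; omega⟩
    have hsgn : Equiv.Perm.sign σ = 1 := by
      rw [Equiv.Perm.sign_of_cycleType, hσ]
      simp only [Multiset.sum_singleton, Multiset.card_singleton]
      exact Even.neg_one_pow (hodd.add_odd odd_one)
    let s : alternatingGroup (Fin n) := ⟨σ, Equiv.Perm.mem_alternatingGroup.2 hsgn⟩
    have hs : orderOf s = p := by
      rw [← Subgroup.orderOf_coe]
      show orderOf σ = p
      rw [← Equiv.Perm.lcm_cycleType, hσ]; simp
    obtain ⟨Q, hQ⟩ := (IsPGroup.of_card (G := Subgroup.zpowers s) (p := p) (n := 1)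
      (by rw [Nat.card_zpowers, hs, pow_one])).exists_le_sylow
    obtain ⟨g, hg⟩ := MulAction.exists_smul_eq (alternatingGroup (Fin n)) Q P
    let x : alternatingGroup (Fin n) := MulAut.conj g s
    have hx : x ∈ (P : Subgroup (alternatingGroup (Fin n))) := by
      rw [← hg, Sylow.coe_subgroup_smul]
      exact Subgroup.smul_mem_pointwise_smul _ (MulAut.conj g) _ (hQ (Subgroup.mem_zpowers s))
    have hxc : (x : Equiv.Perm (Fin n)).cycleType = {p} := by
      show ((g : Equiv.Perm (Fin n)) * σ * (g : Equiv.Perm (Fin n))⁻¹).cycleType = {p}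
      rw [Equiv.Perm.cycleType_conj, hσ]
    refine H62.two_dvd_automizer_index P hP hx ?_ (H62.alt_isConj_of_cycleType_eq ?_ ?_)
    · intro h
      have h2 : orderOf x ∣ 2 := orderOf_dvd_of_pow_eq_one (by
        rw [sq]; nth_rewrite 1 [← h]; simp)
      rw [show orderOf x = p from (orderOf_injective (MulAut.conj g).toMonoidHom
        (MulAut.conj g).injective s).trans hs] at h2
      have := Nat.le_of_dvd (by norm_num) h2
      omega
    · rw [Subgroup.coe_inv, Equiv.Perm.cycleType_inv]
    · rw [hxc, Multiset.sum_singleton]; omega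
  · rintro ⟨rfl, rfl⟩
    exact H62.alt_five_sylow_two P

end Cfsg.Agent.S2269
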