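import Cfsg.Statements.S2280
import Cfsg.Agent.H58.ThreeUnipotents

set_option autoImplicit false
open Cfsg

namespace Cfsg.Agent.S2280

/-- Let F be a finite field and n ≥ 3. Then SL_n(F) is generated by three conjugate regular unipotent elements: there are u with u − 1 nilpotent and (u − 1)^(n−1) ≠ 0, and g, h, such that u, g u g⁻¹ and h u h⁻¹ generate SL_n(F). -/
theorem result {F : Type*} [Field F] [Fintype F] (n : ℕ) (hn : 3 ≤ n) :
    ∃ u g h : Matrix.SpecialLinearGroup (Fin n) F, (IsNilpotent ((u : Matrix (Fin n) (Fin n) F) - 1) ∧ ((u : Matrix (Fin n) (Fin n) F) - 1) ^ (n - 1) ≠ 0) ∧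
      Subgroup.closure ({u, g * u * g⁻¹, h * u * h⁻¹} : Set (Matrix.SpecialLinearGroup (Fin n) F)) = ⊤ := by
  obtain ⟨m, rfl⟩ : ∃ m, n = m + 1 := ⟨n - 1, by omega⟩
  exact Cfsg.Agent.H58.sl_three_conjugate_regular_unipotents (by omega)

end Cfsg.Agent.S2280
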