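import Cfsg.Statements.S2282
import Cfsg.Agent.H1.SuThreeMain

set_option autoImplicit false
open Cfsg

namespace Cfsg.Agent.S2282

/-- Let F be a field with q² elements, n ≥ 3 odd with (n, q) ≠ (3, 2), and SU_n(q) the special unitary group of the standard Hermitian form Σ u_i v_i^q. Then SU_n(q) is generated by three conjugate regular unipotent elements: there are u ∈ SU_n(q) with u − 1 nilpotent and (u − 1)^(n−1) ≠ 0, and g, h ∈ SU_n(q), such that u, g u g⁻¹ and h u h⁻¹ generate SU_n(q). -/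
theorem result {F : Type*} [Field F] [Fintype F] (q : ℕ) (hF : Fintype.card F = q ^ 2) (n : ℕ) (hn : 3 ≤ n) (hodd : Odd n) (h32 : ¬ (n = 3 ∧ q = 2)) :
    ∃ u g h : ↥(Cfsg.SU n F q), (IsNilpotent (((u : Matrix.SpecialLinearGroup (Fin n) F) : Matrix (Fin n) (Fin n) F) - 1) ∧ (((u : Matrix.SpecialLinearGroup (Fin n) F) : Matrix (Fin n) (Fin n) F) - 1) ^ (n - 1) ≠ 0) ∧
      Subgroup.closure ({u, g * u * g⁻¹, h * u * h⁻¹} : Set ↥(Cfsg.SU n F q)) = ⊤ := by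
  obtain ⟨m, rfl⟩ := hodd
  obtain ⟨k, rfl⟩ : ∃ k, m = k + 1 := ⟨m - 1, by omega⟩
  have e : 2 * (k + 1) + 1 = 2 * k + 3 := by ring
  obtain ⟨u, x, f, hR, g, g', hgen⟩ :
      Cfsg.Agent.H1.SuThreeGenerated (2 * (k + 1) + 1) F q := by
    rw [e]
    exact Cfsg.Agent.H1.su_three_regular_generate hF k fun h => h32 ⟨by omega, h.2⟩
  refine ⟨u, g, g', ⟨⟨_, hR.vanish⟩, fun h0 => ?_⟩, hgen⟩
  obtain ⟨a, ha, htop⟩ := hR.top
  rw [h0, Matrix.zero_mulVec] at htop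
  exact Cfsg.Agent.H1.suReg_e_ne_zero hF hR ((smul_eq_zero.1 htop.symm).resolve_left ha)

end Cfsg.Agent.S2282
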