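import Cfsg.Statements.S2285
import Cfsg.Agent.H62.BoundedPresentation

set_option autoImplicit false
open Cfsg

namespace Cfsg.Agent.S2285

/-- For every n ≥ 5, the symmetric group S_n and the alternating group A_n each have a presentation with 3 generators and at most 7 relations. -/
theorem result (n : ℕ) (hn : 5 ≤ n) : (∃ rels : Finset (FreeGroup (Fin 3)), rels.card ≤ 7 ∧ Nonempty (PresentedGroup (↑rels : Set (FreeGroup (Fin 3))) ≃* Equiv.Perm (Fin n))) ∧ (∃ rels : Finset (FreeGroup (Fin 3)), rels.card ≤ 7 ∧ Nonempty (PresentedGroup (↑rels : Set (FreeGroup (Fin 3))) ≃* ↥(alternatingGroup (Fin n)))) := by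
  obtain ⟨W⟩ := Cfsg.Agent.H62.perm_window_model hn
  obtain ⟨V⟩ := Cfsg.Agent.H62.alt_window_model hn
  exact ⟨W.three_gen, V.three_gen⟩

end Cfsg.Agent.S2285
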