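import Cfsg.Statements.S2288
import Cfsg.Agent.H81.SLnPres.Cases
-- import your own Cfsg.Agent.* helpers here

set_option autoImplicit false
open Cfsg

namespace Cfsg.Agent.S2288

/-- For every finite field F and n ≥ 4: SL_n(F) has a presentation with 7 generators and at most 25 relations, and PSL_n(F) one with 7 generators and at most 26 relations; moreover SL_4(F) has one with 6 generators and at most 21 relations and SL_5(F) one with 6 generators and at most 22 relations. -/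
theorem result {F : Type*} [Field F] [Fintype F] (n : ℕ) (hn : 4 ≤ n) :
    (∃ rels : Finset (FreeGroup (Fin 7)), rels.card ≤ 25 ∧ Nonempty (PresentedGroup (↑rels : Set (FreeGroup (Fin 7))) ≃* Matrix.SpecialLinearGroup (Fin n) F)) ∧ (∃ rels : Finset (FreeGroup (Fin 7)), rels.card ≤ 26 ∧ Nonempty (PresentedGroup (↑rels : Set (FreeGroup (Fin 7))) ≃* Matrix.ProjectiveSpecialLinearGroup (Fin n) F)) ∧
    (∃ rels : Finset (FreeGroup (Fin 6)), rels.card ≤ 21 ∧ Nonempty (PresentedGroup (↑rels : Set (FreeGroup (Fin 6))) ≃* Matrix.SpecialLinearGroup (Fin 4) F)) ∧ (∃ rels : Finset (FreeGroup (Fin 6)), rels.card ≤ 22 ∧ Nonempty (PresentedGroup (↑rels : Set (FreeGroup (Fin 6))) ≃* Matrix.SpecialLinearGroup (Fin 5) F)) := by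
  classical
  have main : ∀ m : ℕ,
      (∃ rels : Finset (FreeGroup (Fin 7)), rels.card ≤ 25 ∧ Nonempty (PresentedGroup (↑rels : Set (FreeGroup (Fin 7))) ≃* Matrix.SpecialLinearGroup (Fin (m + 4)) F)) ∧
      (∃ rels : Finset (FreeGroup (Fin 7)), rels.card ≤ 26 ∧ Nonempty (PresentedGroup (↑rels : Set (FreeGroup (Fin 7))) ≃* Matrix.ProjectiveSpecialLinearGroup (Fin (m + 4)) F)) := by
    intro m
    rcases Nat.eq_zero_or_pos m with rfl | hm
    · obtain ⟨R, hR, ⟨e⟩⟩ := Cfsg.Agent.H81.SLnPres.case_zero (F := F)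
      obtain ⟨R', hR', ⟨e'⟩⟩ := Cfsg.Agent.H81.SLnPres.psl_of_sl 4 19 R hR e
      exact ⟨Cfsg.Agent.H81.SLnPres.pres_pad 7 25 (by simp) R (by simp; omega) e,
        Cfsg.Agent.H81.SLnPres.pres_pad 7 26 (by simp) R' (by simp; omega) e'⟩
    · obtain ⟨R, hR, ⟨e⟩⟩ := Cfsg.Agent.H81.SLnPres.case_pos (F := F) m hm
      obtain ⟨R', hR', ⟨e'⟩⟩ := Cfsg.Agent.H81.SLnPres.psl_of_sl (m + 4) 23 R hR e
      exact ⟨Cfsg.Agent.H81.SLnPres.pres_pad 7 25 (by simp) R (by simp; omega) e,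
        Cfsg.Agent.H81.SLnPres.pres_pad 7 26 (by simp) R' (by simp; omega) e'⟩
  obtain ⟨m, rfl⟩ : ∃ m, n = m + 4 := ⟨n - 4, by omega⟩
  obtain ⟨h1, h2⟩ := main m
  obtain ⟨R4, hR4, ⟨e4⟩⟩ := Cfsg.Agent.H81.SLnPres.case_zero (F := F)
  obtain ⟨R5, hR5, ⟨e5⟩⟩ := Cfsg.Agent.H81.SLnPres.case_one (F := F)
  exact ⟨h1, h2, Cfsg.Agent.H81.SLnPres.pres_pad 6 21 (by simp) R4 (by simp; omega) e4,
    Cfsg.Agent.H81.SLnPres.pres_pad 6 22 (by simp) R5 (by simp; omega) e5⟩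

end Cfsg.Agent.S2288
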