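import Cfsg.Statements.S2290
import Cfsg.Agent.S2288
import Cfsg.Agent.S2286
import Cfsg.Agent.H81.SLnPres.SL3Assemble
import Cfsg.Agent.H81.SLnPres.TwoGen
-- import your own Cfsg.Agent.* helpers here

set_option autoImplicit false
open Cfsg

namespace Cfsg.Agent.S2290

/-- For every finite field F with q elements and n ≥ 2, with q ≥ 4 when n = 2, the simple group PSL_n(F) has a presentation with 2 generators and at most 80 relations. -/
theorem result {F : Type*} [Field F] [Fintype F] (n : ℕ) (hn : 2 ≤ n) (h2 : n = 2 → 4 ≤ Fintype.card F) :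
    ∃ rels : Finset (FreeGroup (Fin 2)), rels.card ≤ 80 ∧ Nonempty (PresentedGroup (↑rels : Set (FreeGroup (Fin 2))) ≃* Matrix.ProjectiveSpecialLinearGroup (Fin n) F) := by
  classical
  obtain ⟨N, rfl⟩ : ∃ N, n = N + 2 := ⟨n - 2, by omega⟩
  obtain ⟨x, y, hxy⟩ := Cfsg.Agent.H81.SLnPres.exists_two_gen (F := F) N
  let π := QuotientGroup.mk' (Subgroup.center (Matrix.SpecialLinearGroup (Fin (N + 2)) F))
  have hgen : Subgroup.closure (Set.range ![π x, π y]) = ⊤ := by
    rw [show Set.range ![π x, π y] = π '' {x, y} by rw [Matrix.range_cons_cons_empty, Set.image_pair],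
      ← MonoidHom.map_closure, hxy, Subgroup.map_top_of_surjective _ (QuotientGroup.mk'_surjective _)]
  have finish : ∀ (κ : Type) [Fintype κ] (R : Finset (FreeGroup κ)), R.card ≤ 78 →
      ∀ _e : PresentedGroup (↑R : Set (FreeGroup κ)) ≃* Matrix.ProjectiveSpecialLinearGroup (Fin (N + 2)) F,
      ∃ rels : Finset (FreeGroup (Fin 2)), rels.card ≤ 80 ∧ Nonempty (PresentedGroup (↑rels : Set (FreeGroup (Fin 2))) ≃* Matrix.ProjectiveSpecialLinearGroup (Fin (N + 2)) F) := by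
    intro κ _ R hR e
    obtain ⟨rels, hc, he⟩ := Cfsg.Agent.H81.SLnPres.pres_two_gen R e ![π x, π y] hgen
    exact ⟨rels, by omega, he⟩
  rcases N with _ | _ | M
  ·
    obtain ⟨-, ⟨R, hR, ⟨e⟩⟩, -⟩ := Cfsg.Agent.S2286.result (F := F)
    exact finish (Fin 3) R (by omega) e
  ·
    obtain ⟨R, hR, ⟨e⟩⟩ := Cfsg.Agent.H81.SLnPres.sl3_pres (F := F)
    obtain ⟨R', hR', ⟨e'⟩⟩ := Cfsg.Agent.H81.SLnPres.psl_of_sl 3 28 R hR e
    exact finish (Fin 3 ⊕ Unit) R' (by omega) e'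
  ·
    obtain ⟨-, ⟨R, hR, ⟨e⟩⟩, -, -⟩ := Cfsg.Agent.S2288.result (F := F) (M + 2 + 2) (by omega)
    exact finish (Fin 7) R (by omega) e

end Cfsg.Agent.S2290
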