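import Cfsg.Statements.S2411
import Cfsg.Agent.H2.SpTwoGen.Two

set_option autoImplicit false
open Cfsg

namespace Cfsg.Agent.S2411

/-- The projective symplectic group `PSp_{2m}(q)` with `m ≥ 2` (and `q > 2` if `m = 2`) is generated by two of its elements. -/
theorem result {F : Type*} [Field F] [Fintype F] (m : ℕ) (hm : 2 ≤ m) (hF : m = 2 → 2 < Fintype.card F) :
    ∃ a b : Cfsg.PSp m F, Subgroup.closure ({a, b} : Set (Cfsg.PSp m F)) = ⊤ := by
  obtain ⟨a, b, h⟩ : ∃ a b : Matrix.symplecticGroup (Fin m) F, Subgroup.closure {a, b} = ⊤ := by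
    have h1 : 1 < Nat.card F := Finite.one_lt_card
    by_cases hq : 3 ≤ Nat.card F
    · exact H2.SpTwoGen.exists_pair_of_three hm hq
    · refine H2.SpTwoGen.exists_pair_of_two ?_ (by omega)
      by_contra hm3
      have := hF (by omega)
      rw [← Nat.card_eq_fintype_card] at this
      omega
  refine ⟨QuotientGroup.mk' _ a, QuotientGroup.mk' _ b, ?_⟩
  have h2 := MonoidHom.map_closure (QuotientGroup.mk' (Subgroup.center (Matrix.symplecticGroup (Fin m) F))) {a, b}
  rw [h, Subgroup.map_top_of_surjective _ (QuotientGroup.mk'_surjective _), Set.image_pair] at h2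
  exact h2.symm

end Cfsg.Agent.S2411
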