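import Cfsg.Statements.S2292
import Cfsg.Agent.S2411
import Cfsg.Agent.H81.SpPres.SpMain
-- import your own Cfsg.Agent.* helpers here

set_option autoImplicit false
open Cfsg

namespace Cfsg.Agent.S2292

/-- Let F be a finite field with q elements and m ≥ 2 with (m, q) ≠ (2, 2). Then the simple group PSp_2m(F) has a presentation with 2 generators and at most 80 relations. -/
theorem result {F : Type*} [Field F] [Fintype F] (m : ℕ) (hm : 2 ≤ m) (h22 : ¬ (m = 2 ∧ Fintype.card F = 2)) :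
    ∃ rels : Finset (FreeGroup (Fin 2)), rels.card ≤ 80 ∧ Nonempty (PresentedGroup (↑rels : Set (FreeGroup (Fin 2))) ≃* Cfsg.PSp m F) := by
  classical
  obtain ⟨a, b, hab⟩ := Cfsg.Agent.S2411.result (F := F) m hm (fun h => by
    have := Fintype.one_lt_card (α := F)
    have : Fintype.card F ≠ 2 := fun h2 => h22 ⟨h, h2⟩
    omega)
  have hgen : Subgroup.closure (Set.range ![a, b]) = ⊤ := by rwa [Matrix.range_cons_cons_empty]
  have finish : ∀ (κ : Type) [Fintype κ] (R : Finset (FreeGroup κ)) (_ : R.card ≤ 77)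
      (_ : PresentedGroup (↑R : Set (FreeGroup κ)) ≃* Matrix.symplecticGroup (Fin m) F),
      ∃ rels : Finset (FreeGroup (Fin 2)), rels.card ≤ 80 ∧ Nonempty (PresentedGroup (↑rels : Set (FreeGroup (Fin 2))) ≃* Cfsg.PSp m F) := by
    intro κ _ R hR e
    obtain ⟨R', hR', ⟨e'⟩⟩ := Cfsg.Agent.H81.SpPres.psp_of_sp m 77 (by omega) R hR e
    obtain ⟨rels, hc, he⟩ := Cfsg.Agent.H81.SLnPres.pres_two_gen R' e' ![a, b] hgen
    exact ⟨rels, by omega, he⟩
  by_cases h2 : m = 2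
  · subst h2
    obtain ⟨R, hR, ⟨e⟩⟩ := Cfsg.Agent.H81.SpPres.sp4_pres (F := F)
    exact finish _ R (by omega) e
  by_cases h3 : m = 3
  · subst h3
    obtain ⟨R, hR, ⟨e⟩⟩ := Cfsg.Agent.H81.SpPres.sp6_pres (F := F)
    exact finish _ R (by omega) e
  by_cases h4 : m = 4
  · subst h4
    obtain ⟨R, hR, ⟨e⟩⟩ := Cfsg.Agent.H81.SpPres.sp8_pres (F := F)
    exact finish _ R (by omega) e
  obtain ⟨k, rfl⟩ : ∃ k, m = k + 4 := ⟨m - 4, by omega⟩
  obtain ⟨R, hR, ⟨e⟩⟩ := Cfsg.Agent.H81.SpPres.sp_big_pres (F := F) k (by omega)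
  exact finish _ R (by omega) e

end Cfsg.Agent.S2292
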