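import Cfsg.Statements.S2295
import Cfsg.Agent.H78.CTDPres.Final
-- import your own Cfsg.Agent.* helpers here

set_option autoImplicit false
open Cfsg

namespace Cfsg.Agent.S2295

/-- Let F be a finite field and n ≥ 4, and let Ω⁺_2n(F) be the commutator subgroup of the orthogonal group of the hyperbolic quadratic form Σ x_i y_i, with PΩ⁺_2n(F) its central quotient. Then Ω⁺_2n(F) has a presentation with 8 generators and at most 31 relations (at most 29 if n = 4 or 5), and PΩ⁺_2n(F) one with 8 generators and at most 32 relations (at most 30 if n = 4 or 5). -/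
theorem result {F : Type*} [Field F] [Fintype F] (n : ℕ) (hn : 4 ≤ n) :
    (∃ rels : Finset (FreeGroup (Fin 8)), rels.card ≤ 31 ∧ Nonempty (PresentedGroup (↑rels : Set (FreeGroup (Fin 8))) ≃* ↥(Cfsg.Omega F (Cfsg.quadFormPlus n F)))) ∧ (∃ rels : Finset (FreeGroup (Fin 8)), rels.card ≤ 32 ∧ Nonempty (PresentedGroup (↑rels : Set (FreeGroup (Fin 8))) ≃* Cfsg.POmega F (Cfsg.quadFormPlus n F))) ∧
    (n ≤ 5 → (∃ rels : Finset (FreeGroup (Fin 8)), rels.card ≤ 29 ∧ Nonempty (PresentedGroup (↑rels : Set (FreeGroup (Fin 8))) ≃* ↥(Cfsg.Omega F (Cfsg.quadFormPlus n F)))) ∧ (∃ rels : Finset (FreeGroup (Fin 8)), rels.card ≤ 30 ∧ Nonempty (PresentedGroup (↑rels : Set (FreeGroup (Fin 8))) ≃* Cfsg.POmega F (Cfsg.quadFormPlus n F)))) := by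
  obtain ⟨k, rfl⟩ : ∃ k, n = k + 4 := ⟨n - 4, by omega⟩
  rcases Nat.eq_zero_or_pos k with rfl | hk
  · obtain ⟨R, hR, ⟨e⟩⟩ := Cfsg.Agent.H81.SLnPres.case_zero (F := F)
    obtain ⟨⟨a, ha, ia⟩, b, hb, ib⟩ := Cfsg.Agent.H78.CTDPres.both (k := 0) R e 28 (by simp) (by simp; omega)
    exact ⟨⟨a, by omega, ia⟩, ⟨b, by omega, ib⟩, fun _ => ⟨⟨a, by omega, ia⟩, ⟨b, by omega, ib⟩⟩⟩
  rcases Nat.eq_or_lt_of_le hk with h1 | h2
  · obtain rfl : k = 1 := h1.symm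
    obtain ⟨R, hR, ⟨e⟩⟩ := Cfsg.Agent.H81.SLnPres.case_one (F := F)
    obtain ⟨⟨a, ha, ia⟩, b, hb, ib⟩ := Cfsg.Agent.H78.CTDPres.both (k := 1) R e 27 (by simp) (by simp; omega)
    exact ⟨⟨a, by omega, ia⟩, ⟨b, by omega, ib⟩, fun _ => ⟨⟨a, by omega, ia⟩, ⟨b, by omega, ib⟩⟩⟩
  · obtain ⟨R, hR, ⟨e⟩⟩ := Cfsg.Agent.H81.SLnPres.case_pos (F := F) k hk
    obtain ⟨⟨a, ha, ia⟩, b, hb, ib⟩ := Cfsg.Agent.H78.CTDPres.both R e 31 (by simp) (by simp; omega)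
    exact ⟨⟨a, ha, ia⟩, ⟨b, hb, ib⟩, fun h => absurd h (by omega)⟩

end Cfsg.Agent.S2295
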