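import Cfsg.Statements.S2296
import Cfsg.Agent.H81.SpPres.SpMain
-- import your own Cfsg.Agent.* helpers here

set_option autoImplicit false
open Cfsg

namespace Cfsg.Agent.S2296

/-- Let F be a finite field. Sp_2n(F) has a presentation with 10 generators and at most 58 relations for n ≥ 4, with 9 generators and at most 57 relations for n = 4 or 5, and with 8 generators and at most 52 relations for n = 3; in each case PSp_2n(F) has a presentation with the same number of generators and at most one more relation. -/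
theorem result {F : Type*} [Field F] [Fintype F] (n : ℕ) :
    (4 ≤ n → (∃ rels : Finset (FreeGroup (Fin 10)), rels.card ≤ 58 ∧ Nonempty (PresentedGroup (↑rels : Set (FreeGroup (Fin 10))) ≃* Matrix.symplecticGroup (Fin n) F)) ∧ (∃ rels : Finset (FreeGroup (Fin 10)), rels.card ≤ 59 ∧ Nonempty (PresentedGroup (↑rels : Set (FreeGroup (Fin 10))) ≃* Cfsg.PSp n F))) ∧
    ((n = 4 ∨ n = 5) → (∃ rels : Finset (FreeGroup (Fin 9)), rels.card ≤ 57 ∧ Nonempty (PresentedGroup (↑rels : Set (FreeGroup (Fin 9))) ≃* Matrix.symplecticGroup (Fin n) F)) ∧ (∃ rels : Finset (FreeGroup (Fin 9)), rels.card ≤ 58 ∧ Nonempty (PresentedGroup (↑rels : Set (FreeGroup (Fin 9))) ≃* Cfsg.PSp n F))) ∧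
    (n = 3 → (∃ rels : Finset (FreeGroup (Fin 8)), rels.card ≤ 52 ∧ Nonempty (PresentedGroup (↑rels : Set (FreeGroup (Fin 8))) ≃* Matrix.symplecticGroup (Fin n) F)) ∧ (∃ rels : Finset (FreeGroup (Fin 8)), rels.card ≤ 53 ∧ Nonempty (PresentedGroup (↑rels : Set (FreeGroup (Fin 8))) ≃* Cfsg.PSp n F))) := by
  classical
  have key : ∀ k N : ℕ, 4 ≤ n → (k = 9 ∨ k = 10) → 48 ≤ N →
      (∃ rels : Finset (FreeGroup (Fin k)), rels.card ≤ N ∧ Nonempty (PresentedGroup (↑rels : Set (FreeGroup (Fin k))) ≃* Matrix.symplecticGroup (Fin n) F)) ∧ (∃ rels : Finset (FreeGroup (Fin k)), rels.card ≤ N + 1 ∧ Nonempty (PresentedGroup (↑rels : Set (FreeGroup (Fin k))) ≃* Cfsg.PSp n F)) := by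
    intro k N hn hk hN
    rcases Nat.eq_or_lt_of_le hn with rfl | h5
    · obtain ⟨R, hR, ⟨e⟩⟩ := Cfsg.Agent.H81.SpPres.sp8_pres (F := F)
      exact Cfsg.Agent.H81.SpPres.both_pad 4 k N 42 (by omega) (by simp; omega) (by simp; omega) R hR e
    · obtain ⟨m, rfl⟩ : ∃ m, n = m + 4 := ⟨n - 4, by omega⟩
      obtain ⟨R, hR, ⟨e⟩⟩ := Cfsg.Agent.H81.SpPres.sp_big_pres (F := F) m (by omega)
      exact Cfsg.Agent.H81.SpPres.both_pad (m + 4) k N 46 (by omega) (by simp; omega) (by simp; omega) R hR e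
  refine ⟨fun hn => key 10 58 hn (Or.inr rfl) (by omega), fun hn => key 9 57 (by omega) (Or.inl rfl) (by omega), ?_⟩
  rintro rfl
  obtain ⟨R, hR, ⟨e⟩⟩ := Cfsg.Agent.H81.SpPres.sp6_pres (F := F)
  exact Cfsg.Agent.H81.SpPres.both_pad 3 8 52 51 (by omega) (by simp) (by simp) R hR e

end Cfsg.Agent.S2296
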