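import Cfsg.Statements.S2332
import Cfsg.Agent.H44.SLMinDegree.Main
import Cfsg.Agent.H66.VectorPermChar

set_option autoImplicit false
open Cfsg

namespace Cfsg.Agent.S2332

open Cfsg.Agent.H44.SLMin in
/-- Smallest degree of a non-linear irreducible complex representation of SL_n over a finite field with q elements, for n ≥ 3 and (n, q) not one of (3, 2), (3, 4), (4, 2), (4, 3): every irreducible complex representation of SL_n(F) of degree at least 2 has degree at least (q^n − q)/(q − 1), and there is an irreducible complex representation of exactly that degree. -/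
theorem result {F : Type*} [Field F] [Fintype F] [DecidableEq F] (n : ℕ) (hn : 3 ≤ n)
    (hex : (n, Fintype.card F) ≠ (3, 2) ∧ (n, Fintype.card F) ≠ (3, 4) ∧ (n, Fintype.card F) ≠ (4, 2) ∧ (n, Fintype.card F) ≠ (4, 3)) :
    (∀ (k : ℕ) (ρ : Representation ℂ (Matrix.SpecialLinearGroup (Fin n) F) (Fin k → ℂ)), ρ.IsIrreducible → 2 ≤ k → (Fintype.card F ^ n - Fintype.card F) / (Fintype.card F - 1) ≤ k) ∧
    (∃ ρ : Representation ℂ (Matrix.SpecialLinearGroup (Fin n) F) (Fin ((Fintype.card F ^ n - Fintype.card F) / (Fintype.card F - 1)) → ℂ), ρ.IsIrreducible) := by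
  classical
  obtain ⟨m, rfl⟩ : ∃ m, n = m + 1 := ⟨n - 1, by omega⟩
  have hq : 2 ≤ Fintype.card F := Fintype.one_lt_card
  rw [geom_div _ m hq]
  obtain ⟨ψ, hψ⟩ := AddChar.exists_apply_ne_zero.mpr (one_ne_zero (α := F))
  have hψ1 : ψ ≠ 1 := fun h => hψ (by rw [h]; rfl)
  refine ⟨fun k ρ hρ hk => ?_, ?_⟩
  · haveI := hρ
    have hdim : Module.finrank ℂ (Fin k → ℂ) = k := by simp
    rw [← hdim]
    refine irr_bound hψ1 m (by omega) hex (Fin k → ℂ) ρ hρ ?_
    by_contra hall
    push Not at hall
    have h0 := invariants_eq_bot ρ (by omega)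
    have : Representation.invariants ρ = ⊤ := eq_top_iff.mpr fun v _ =>
      (Representation.mem_invariants ρ v).mpr fun g => by rw [hall g]; rfl
    rw [h0] at this
    have := congrArg (fun S : Submodule ℂ (Fin k → ℂ) => Module.finrank ℂ S) this
    simp only [finrank_bot, finrank_top, hdim] at this
    omega
  · obtain ⟨d, ρ, hρ, hχ⟩ := H66.VecChar.psiChar_irr (F := F) hn (1 : Fˣ →* ℂˣ)
    suffices d = Fintype.card F * geom (Fintype.card F) m by subst this; exact ⟨ρ, hρ⟩
    have h1 := congrFun hχ 1
    rw [ρ.char_one, Module.finrank_fin_fun] at h1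
    have heig : ∀ c : Fˣ, (H66.VecChar.eig c (1 : Matrix.SpecialLinearGroup (Fin (m + 1)) F)).card =
        if c = 1 then (H66.VecChar.nz F (m + 1)).card else 0 := by
      intro c
      split_ifs with hc
      · subst hc
        rw [H66.VecChar.eig, Finset.filter_true_of_mem fun v _ => by simp [H66.VecChar.act_one]]
      · refine Finset.card_eq_zero.2 (Finset.filter_eq_empty_iff.2 fun v hv h => hc ?_)
        rw [H66.VecChar.act_one] at h
        exact Units.ext (smul_left_injective F (H66.VecChar.mem_nz.1 hv) (by simpa using h.symm))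
    have hnz : (H66.VecChar.nz F (m + 1)).card = Fintype.card F ^ (m + 1) - 1 := by
      rw [H66.VecChar.nz, Finset.filter_ne', Finset.card_erase_of_mem (Finset.mem_univ _),
        Finset.card_univ, Fintype.card_pi_const]
    simp only [H66.VecChar.psiChar, H66.VecChar.piChar, if_true, Pi.sub_apply, Pi.smul_apply,
      smul_eq_mul, mul_one, map_one, inv_one, MonoidHom.one_apply, Units.val_one, one_mul, heig,
      Nat.cast_ite, Nat.cast_zero, Finset.sum_ite_eq', Finset.mem_univ, hnz,
      ← geom_pow (Fintype.card F) (m + 1) (by omega), Nat.add_sub_cancel, Fintype.card_units] at h1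
    have h2 : ((d : ℕ) : ℂ) + 1 = (geom (Fintype.card F) (m + 1) : ℕ) := by
      rw [h1, Nat.cast_mul, inv_mul_cancel_left₀ (Nat.cast_ne_zero.mpr (by omega))]
      ring
    have h3 : d + 1 = geom (Fintype.card F) (m + 1) := by exact_mod_cast h2
    rw [geom_succ] at h3
    omega

end Cfsg.Agent.S2332
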