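import Cfsg.Statements.S2333
import Cfsg.Agent.H39.SpEvenLower
import Cfsg.Agent.H26.CharBasic
-- import your own Cfsg.Agent.* helpers here

set_option autoImplicit false
open Cfsg

namespace Cfsg.Agent.S2333

/-- For a finite field F of even order q and n ≥ 2 with (n, q) ≠ (2, 2), every irreducible complex representation of the symplectic group Sp_{2n}(F) of degree at least 2 has degree at least (q^n − 1)(q^n − q)/(2(q + 1)). -/
theorem result {F : Type*} [Field F] [Fintype F] [DecidableEq F] (n : ℕ) (hn : 2 ≤ n) (heven : Even (Fintype.card F)) (hex : (n, Fintype.card F) ≠ (2, 2)) :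
    (∀ (k : ℕ) (ρ : Representation ℂ (Matrix.symplecticGroup (Fin n) F) (Fin k → ℂ)), ρ.IsIrreducible → 2 ≤ k → (Fintype.card F ^ n - 1) * (Fintype.card F ^ n - Fintype.card F) / (2 * (Fintype.card F + 1)) ≤ k) := by
  classical
  haveI : CharP F 2 := ringChar.of_eq (FiniteField.even_card_iff_char_two.2 (Nat.even_iff.1 heven))
  intro k ρ hρ hk
  by_contra hlt
  push Not at hlt
  have htriv := Cfsg.Agent.H39.sp_even_rep_trivial_of_finrank_lt hn (fun h2 => by
    by_contra hq
    have := Fintype.one_lt_card (α := F)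
    apply hex
    rw [h2, show Fintype.card F = 2 by omega]) ρ (by
    rw [Module.finrank_fintype_fun_eq_card, Fintype.card_fin]
    have := (Nat.le_div_iff_mul_le (by omega)).1 (Nat.succ_le_of_lt hlt)
    rw [Nat.succ_mul] at this
    omega)
  obtain ⟨-, hinv⟩ := (Cfsg.Agent.H26.isIrreducible_iff_forall ρ).1 hρ
  have he : (Pi.single ⟨0, by omega⟩ 1 : Fin k → ℂ) ≠ 0 := by simp
  rcases hinv (ℂ ∙ (Pi.single ⟨0, by omega⟩ 1 : Fin k → ℂ)) (fun g v hv => by
    rw [htriv g]; exact hv) with h | h
  · exact he (Submodule.span_singleton_eq_bot.1 h)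
  · have := congrArg (fun U : Submodule ℂ (Fin k → ℂ) => Module.finrank ℂ U) h
    simp only [finrank_span_singleton he, finrank_top, Module.finrank_fintype_fun_eq_card,
      Fintype.card_fin] at this
    omega

end Cfsg.Agent.S2333
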