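import Cfsg.Statements.S2335
import Cfsg.Agent.H39.SULower
-- import your own Cfsg.Agent.* helpers here

set_option autoImplicit false
open Cfsg

namespace Cfsg.Agent.S2335

/-- For even n ≥ 4 and a finite field F with q² elements, (n, q) not (4, 2) or (4, 3), every irreducible complex representation of the special unitary group SU_n(q) (the determinant-one isometries of the standard Hermitian form over F) of degree at least 2 has degree at least (q^n − 1)/(q + 1). -/
theorem result {F : Type*} [Field F] [Fintype F] [DecidableEq F] (n q : ℕ) (hn : 4 ≤ n) (heven : Even n) (hF : Fintype.card F = q ^ 2) (hex : (n, q) ≠ (4, 2) ∧ (n, q) ≠ (4, 3)) :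
    (∀ (k : ℕ) (ρ : Representation ℂ (Cfsg.SU n F q) (Fin k → ℂ)), ρ.IsIrreducible → 2 ≤ k → (q ^ n - 1) / (q + 1) ≤ k) := by
  classical
  intro k ρ hρ hk
  by_contra hlt
  push Not at hlt
  obtain ⟨m, hm⟩ := heven
  have htriv := Cfsg.Agent.H39.su_rep_trivial_of_finrank_lt (m := m) hF (by omega)
    (fun h => by omega) ρ (Or.inl ⟨by omega, by
      rw [Module.finrank_fintype_fun_eq_card, Fintype.card_fin]
      have := (Nat.le_div_iff_mul_le (by omega)).1 (Nat.succ_le_of_lt hlt)
      rw [Nat.succ_mul] at this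
      omega⟩)
  obtain ⟨-, hinv⟩ := (Cfsg.Agent.H26.isIrreducible_iff_forall ρ).1 hρ
  have he : (Pi.single ⟨0, by omega⟩ 1 : Fin k → ℂ) ≠ 0 := by simp
  rcases hinv (ℂ ∙ (Pi.single ⟨0, by omega⟩ 1 : Fin k → ℂ)) (fun g v hv => by
    rw [htriv g]; exact hv) with h | h
  · exact he (Submodule.span_singleton_eq_bot.1 h)
  · have := congrArg (fun U : Submodule ℂ (Fin k → ℂ) => Module.finrank ℂ U) h
    simp only [finrank_span_singleton he, finrank_top, Module.finrank_fintype_fun_eq_card,
      Fintype.card_fin] at this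
    omega

end Cfsg.Agent.S2335
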