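import Cfsg.Statements.S2337
import Cfsg.Agent.H71.SuzukiDegree
import Cfsg.Agent.S1162

set_option autoImplicit false
open Cfsg

namespace Cfsg.Agent.S2337

open Cfsg.Agent.H71.Suz

/-- The degree bound, given simplicity. -/
theorem bound_of_simple {F : Type*} [Field F] [Fintype F] (m : ℕ)
    (hF : Fintype.card F = 2 ^ (2 * m + 1))
    (hs : IsSimpleGroup ↥(Cfsg.Lie.Sz F (2 ^ (m + 1)))) (k : ℕ)
    (ρ : Representation ℂ (Cfsg.Lie.Sz F (2 ^ (m + 1))) (Fin k → ℂ)) (hρ : ρ.IsIrreducible)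
    (hk : 2 ≤ k) : 2 ^ m * (2 ^ (2 * m + 1) - 1) ≤ k := by
  classical
  have hne : MonoidHom.ker ρ ≠ ⊤ := by
    intro htop
    have htriv : ∀ g, ρ g = 1 := fun g => MonoidHom.mem_ker.mp (htop ▸ Subgroup.mem_top g)
    have : Nontrivial (Subrepresentation ρ) := hρ.toNontrivial
    let v : Fin k → ℂ := Pi.single ⟨0, by omega⟩ 1
    let S : Subrepresentation ρ :=
      { toSubmodule := Submodule.span ℂ {v}
        apply_mem_toSubmodule := fun g x hx => by simpa [htriv g] using hx }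
    rcases IsSimpleOrder.eq_bot_or_eq_top S with h | h
    · have h1 : v ∈ S.toSubmodule := Submodule.mem_span_singleton_self v
      rw [h] at h1
      have h2 : v = 0 := (Submodule.mem_bot ℂ).mp h1
      simpa [v] using congrFun h2 ⟨0, by omega⟩
    · have h1 : Submodule.span ℂ {v} = ⊤ := congrArg Subrepresentation.toSubmodule h
      have h2 := finrank_span_singleton (K := ℂ) (v := v) (by simp [v])
      rw [h1, finrank_top, Module.finrank_fin_fun] at h2
      omega
  have hker : MonoidHom.ker ρ = ⊥ :=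
    ((inferInstance : (MonoidHom.ker ρ).Normal).eq_bot_or_eq_top).resolve_right hne
  have hT := isTwist_of_card m hF
  have hb : ρ ⟨u (isTwist_of_card m hF) 0 1, u_mem _ _ _⟩ ≠ 1 := by
    intro h
    have h1 : (⟨u (isTwist_of_card m hF) 0 1, u_mem _ _ _⟩ : ↥(Cfsg.Lie.Sz F (2 ^ (m + 1)))) = 1 := by
      rw [← Subgroup.mem_bot, ← hker]; exact h
    have h2 := congrArg (fun g : ↥(Cfsg.Lie.Sz F (2 ^ (m + 1))) =>
      ((g : GL (Fin 4) F) : Matrix (Fin 4) (Fin 4) F) 2 0) h1
    simp [u, uMat] at h2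
  simpa using degree_bound hF ρ hb

/-- For the Suzuki group Sz(q), q = 2^(2m+1) with m ≥ 1 (realised inside Sp₄ over the field with q elements), every irreducible complex representation of degree at least 2 has degree at least 2^m·(q − 1). -/
theorem result {F : Type*} [Field F] [Fintype F] (m : ℕ) (hm : 1 ≤ m) (hF : Fintype.card F = 2 ^ (2 * m + 1)) :
    (∀ (k : ℕ) (ρ : Representation ℂ (Cfsg.Lie.Sz F (2 ^ (m + 1))) (Fin k → ℂ)), ρ.IsIrreducible → 2 ≤ k → 2 ^ m * (2 ^ (2 * m + 1) - 1) ≤ k) := by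
  exact fun k ρ hρ hk => bound_of_simple m hF (Cfsg.Agent.S1162.result hm hF) k ρ hρ hk

end Cfsg.Agent.S2337
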