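import Cfsg.Statements.S2343
import Cfsg.Agent.H71.ReeMinDegree

set_option autoImplicit false
open Cfsg

namespace Cfsg.Agent.S2343

/-- For the Ree group ²G₂(q), q = 3^(2m+1) with m ≥ 1 (realised over the field with q elements), every irreducible complex representation of degree at least 2 has degree at least q² − q + 1. -/
theorem result {K : Type*} [Field K] [Fintype K] (m : ℕ) (hm : 1 ≤ m) (hK : Fintype.card K = 3 ^ (2 * m + 1)) :
    (∀ (k : ℕ) (ρ : Representation ℂ (Cfsg.Lie.twistedG2 K (3 ^ m)) (Fin k → ℂ)), ρ.IsIrreducible → 2 ≤ k → (3 ^ (2 * m + 1)) ^ 2 - 3 ^ (2 * m + 1) + 1 ≤ k) := by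
  exact fun k ρ hρ hk => Cfsg.Agent.H71.ReeMinDegree.min_degree hm hK k ρ hρ hk

end Cfsg.Agent.S2343
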