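import Cfsg.Statements.S2344
import Cfsg.Agent.H39.OmegaOddDeg
-- import your own Cfsg.Agent.* helpers here

set_option autoImplicit false
open Cfsg

namespace Cfsg.Agent.S2344

/-- For a finite field F of odd order q > 3 and n ≥ 3, every irreducible complex representation of degree at least 2 of Ω_{2n+1}(F) (the commutator subgroup of the isometry group of the quadratic form x₀² + x₁y₁ + ⋯ + x_ny_n) has degree at least (q^{2n} − 1)/(q² − 1). -/
theorem result {F : Type*} [Field F] [Fintype F] (n : ℕ) (hn : 3 ≤ n) (hodd : Odd (Fintype.card F)) (h3 : 3 < Fintype.card F) :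
    (∀ (k : ℕ) (ρ : Representation ℂ (Cfsg.Omega F (Cfsg.quadFormOdd n F)) (Fin k → ℂ)), ρ.IsIrreducible → 2 ≤ k → (Fintype.card F ^ (2 * n) - 1) / (Fintype.card F ^ 2 - 1) ≤ k) := by
  intro k ρ hρ hk
  obtain ⟨j, rfl⟩ : ∃ j, n = j + 3 := ⟨n - 3, by omega⟩
  set Q := Cfsg.Agent.H5.qOdd (j + 3) F
  have hform := Cfsg.Agent.H39.oddForm_qOdd (F := F) hodd h3 (j + 3)
  have hdim : 4 ≤ Module.finrank F (Unit ⊕ (Fin (j + 3) ⊕ Fin (j + 3)) → F) := by
    rw [hform.dim]; omega
  classical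
  have hc := Cfsg.Agent.H5.commutator_eq_eichGroup hform.nondeg hdim (Or.inr (by rw [hform.dim]; omega))
  let E : Cfsg.Omega F (Cfsg.quadFormOdd (j + 3) F) ≃* Cfsg.Agent.H5.eichGroup Q :=
    (Cfsg.Agent.H5.omegaEquiv Q (Cfsg.Agent.H5.coe_qOdd (j + 3))).trans
      (MulEquiv.subgroupCongr hc)
  have hlow := Cfsg.Agent.H39.odd_lowDeg hform (Fin k → ℂ) (ρ.comp E.symm.toMonoidHom) ?_
  · rw [Module.finrank_fintype_fun_eq_card, Fintype.card_fin] at hlow
    rw [Cfsg.Agent.H39.oddB_closed (Fintype.card F) (j + 3) (by omega)]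
    exact hlow
  by_contra hc'
  push Not at hc'
  have htriv : ∀ g, ρ g = 1 := fun g => by
    have := hc' (E g)
    simpa using this
  obtain ⟨-, hinv⟩ := (Cfsg.Agent.H26.isIrreducible_iff_forall ρ).1 hρ
  have he : (Pi.single ⟨0, by omega⟩ 1 : Fin k → ℂ) ≠ 0 := by simp
  rcases hinv (ℂ ∙ (Pi.single ⟨0, by omega⟩ 1 : Fin k → ℂ)) (fun g v hv => by
    rw [htriv g]; exact hv) with h | h
  · exact he (Submodule.span_singleton_eq_bot.1 h)
  · have := congrArg (fun U : Submodule ℂ (Fin k → ℂ) => Module.finrank ℂ U) h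
    simp only [finrank_span_singleton he, finrank_top, Module.finrank_fintype_fun_eq_card,
      Fintype.card_fin] at this
    omega

end Cfsg.Agent.S2344
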