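import Cfsg.Statements.S2345
import Cfsg.Agent.H39.OmegaPlusBase
-- import your own Cfsg.Agent.* helpers here

set_option autoImplicit false
open Cfsg

namespace Cfsg.Agent.S2345

/-- For a finite field F with q > 3 elements and n ≥ 4, every irreducible complex representation of degree at least 2 of Ω⁺_{2n}(F) (the commutator subgroup of the isometry group of the hyperbolic quadratic form x₁y₁ + ⋯ + x_ny_n) has degree at least (q^n − 1)(q^{n−1} + q)/(q² − 1). -/
theorem result {F : Type*} [Field F] [Fintype F] (n : ℕ) (hn : 4 ≤ n) (h3 : 3 < Fintype.card F) :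
    (∀ (k : ℕ) (ρ : Representation ℂ (Cfsg.Omega F (Cfsg.quadFormPlus n F)) (Fin k → ℂ)), ρ.IsIrreducible → 2 ≤ k → (Fintype.card F ^ n - 1) * (Fintype.card F ^ (n - 1) + Fintype.card F) / (Fintype.card F ^ 2 - 1) ≤ k) := by
  intro k ρ hρ hk
  obtain ⟨j, rfl⟩ : ∃ j, n = j + 3 := ⟨n - 3, by omega⟩
  set Q := Cfsg.Agent.H5.qPlus (j + 3) F
  have hdim : Module.finrank F (Fin (j + 3) ⊕ Fin (j + 3) → F) = 2 * (j + 3) := by
    rw [Module.finrank_fintype_fun_eq_card, Fintype.card_sum, Fintype.card_fin]; omega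
  classical
  have hc := Cfsg.Agent.H5.commutator_eq_eichGroup (Cfsg.Agent.H5.qPlus_nondegenerate (F := F) (j + 3))
    (by rw [hdim]; omega) (Or.inr (by rw [hdim]; omega))
  let E : Cfsg.Omega F (Cfsg.quadFormPlus (j + 3) F) ≃* Cfsg.Agent.H5.eichGroup Q :=
    (Cfsg.Agent.H5.omegaEquiv Q (Cfsg.Agent.H5.coe_qPlus (j + 3))).trans
      (MulEquiv.subgroupCongr hc)
  have hlow := Cfsg.Agent.H39.plus_lowDeg (F := F) (by omega) j
    (Cfsg.Agent.H39.plusForm_qPlus (F := F) (j + 2)) (Fin k → ℂ) (ρ.comp E.symm.toMonoidHom) ?_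
  · rw [Module.finrank_fintype_fun_eq_card, Fintype.card_fin] at hlow
    rw [show j + 3 - 1 = j + 2 by omega, show j + 3 = j + 2 + 1 from rfl,
      Cfsg.Agent.H39.plusB_closed (Fintype.card F) (j + 2) (by omega)]
    exact hlow
  by_contra hc'
  push Not at hc'
  have htriv : ∀ g, ρ g = 1 := fun g => by
    have := hc' (E g)
    simpa using this
  obtain ⟨-, hinv⟩ := (Cfsg.Agent.H26.isIrreducible_iff_forall ρ).1 hρ
  have he : (Pi.single ⟨0, by omega⟩ 1 : Fin k → ℂ) ≠ 0 := by simp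
  rcases hinv (ℂ ∙ (Pi.single ⟨0, by omega⟩ 1 : Fin k → ℂ)) (fun g v hv => by
    rw [htriv g]; exact hv) with h | h
  · exact he (Submodule.span_singleton_eq_bot.1 h)
  · have := congrArg (fun U : Submodule ℂ (Fin k → ℂ) => Module.finrank ℂ U) h
    simp only [finrank_span_singleton he, finrank_top, Module.finrank_fintype_fun_eq_card,
      Fintype.card_fin] at this
    omega

end Cfsg.Agent.S2345
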