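import Cfsg.Statements.S2346
import Cfsg.Agent.H39.OmegaSporadic
-- import your own Cfsg.Agent.* helpers here

set_option autoImplicit false
open Cfsg

namespace Cfsg.Agent.S2346

/-- For a finite field F with q elements, n ≥ 4, and a, b ∈ F with z₁² + a z₁z₂ + b z₂² anisotropic, every irreducible complex representation of degree at least 2 of Ω⁻_{2n}(F) (the commutator subgroup of the isometry group of x₁y₁ + ⋯ + x_{n−1}y_{n−1} + z₁² + a z₁z₂ + b z₂²) has degree at least (q^n + 1)(q^{n−1} − q)/(q² − 1). -/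
theorem result {F : Type*} [Field F] [Fintype F] (n : ℕ) (hn : 4 ≤ n) (a b : F) (hab : ∀ z₁ z₂ : F, z₁ ^ 2 + a * z₁ * z₂ + b * z₂ ^ 2 = 0 → z₁ = 0 ∧ z₂ = 0) :
    (∀ (k : ℕ) (ρ : Representation ℂ (Cfsg.Omega F (Cfsg.quadFormMinus (n - 1) F a b)) (Fin k → ℂ)), ρ.IsIrreducible → 2 ≤ k → (Fintype.card F ^ n + 1) * (Fintype.card F ^ (n - 1) - Fintype.card F) / (Fintype.card F ^ 2 - 1) ≤ k) := by
  intro k ρ hρ hk
  obtain ⟨j, rfl⟩ : ∃ j, n = j + 4 := ⟨n - 4, by omega⟩
  classical
  rw [show j + 4 - 1 = j + 3 from rfl]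
  have hdim : Module.finrank F ((Fin (j + 3) ⊕ Fin (j + 3)) ⊕ Fin 2 → F) = 2 * (j + 4) := by
    rw [Module.finrank_fintype_fun_eq_card, Fintype.card_sum, Fintype.card_sum, Fintype.card_fin,
      Fintype.card_fin]
    omega
  have hMF := Cfsg.Agent.H39.minusForm_qMinus (F := F) (j + 3) hab
  have hlowAll := Cfsg.Agent.H39.minus_lowDeg (F := F)
    (fun {V} [AddCommGroup V] [Module F V] [FiniteDimensional F V] [Fintype V] {Q} hV hq M
      [AddCommGroup M] [Module ℂ M] [FiniteDimensional ℂ M] σ hne =>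
        Cfsg.Agent.H39.minus_eight_exclude hV hq M σ hne) j hMF
  have hc := Cfsg.Agent.H5.commutator_eq_eichGroup
    (Cfsg.Agent.H5.qMinus_nondegenerate (F := F) (j + 3) hab) (by rw [hdim]; omega)
    (Or.inr (by rw [hdim]; omega))
  let E := (Cfsg.Agent.H5.omegaEquiv (Cfsg.Agent.H5.qMinus (j + 3) F a b)
    (Cfsg.Agent.H5.coe_qMinus (j + 3) a b)).trans (MulEquiv.subgroupCongr hc)
  have hlow := hlowAll (Fin k → ℂ) (ρ.comp E.symm.toMonoidHom) ?_
  · rw [Module.finrank_fintype_fun_eq_card, Fintype.card_fin] at hlow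
    rw [show j + 4 = j + 2 + 2 from rfl,
      show (Fintype.card F ^ (j + 3) - Fintype.card F) =
        (Fintype.card F ^ (j + 2 + 1) - Fintype.card F) from rfl,
      Cfsg.Agent.H39.minusB_closed (Fintype.card F) (j + 2) Fintype.one_lt_card]
    exact hlow
  by_contra hc'
  push Not at hc'
  have htriv : ∀ g, ρ g = 1 := fun g => by
    have := hc' (E g)
    simpa using this
  obtain ⟨-, hinv⟩ := (Cfsg.Agent.H26.isIrreducible_iff_forall ρ).1 hρ
  have he : (Pi.single ⟨0, by omega⟩ 1 : Fin k → ℂ) ≠ 0 := by simp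
  rcases hinv (ℂ ∙ (Pi.single ⟨0, by omega⟩ 1 : Fin k → ℂ)) (fun g v hv => by
    rw [htriv g]; exact hv) with h | h
  · exact he (Submodule.span_singleton_eq_bot.1 h)
  · have := congrArg (fun U : Submodule ℂ (Fin k → ℂ) => Module.finrank ℂ U) h
    simp only [finrank_span_singleton he, finrank_top, Module.finrank_fintype_fun_eq_card,
      Fintype.card_fin] at this
    omega

end Cfsg.Agent.S2346
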