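import Cfsg.Statements.S2347
import Cfsg.Agent.H39.WeilRep
import Cfsg.Agent.H26.CharBasic
-- import your own Cfsg.Agent.* helpers here

set_option autoImplicit false
open Cfsg

namespace Cfsg.Agent.S2347

/-- Smallest degree of a non-linear irreducible complex representation of the symplectic group Sp_{2n} over a finite field of odd order q, n ≥ 2: every irreducible complex representation of degree at least 2 has degree at least (q^n − 1)/2, and there is an irreducible complex representation of exactly that degree (a Weil representation). -/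
theorem result {F : Type*} [Field F] [Fintype F] [DecidableEq F] (n : ℕ) (hn : 2 ≤ n) (hodd : Odd (Fintype.card F)) :
    (∀ (k : ℕ) (ρ : Representation ℂ (Matrix.symplecticGroup (Fin n) F) (Fin k → ℂ)), ρ.IsIrreducible → 2 ≤ k → (Fintype.card F ^ n - 1) / 2 ≤ k) ∧
    (∃ ρ : Representation ℂ (Matrix.symplecticGroup (Fin n) F) (Fin ((Fintype.card F ^ n - 1) / 2) → ℂ), ρ.IsIrreducible) := by
  classical
  have h2 : (2 : F) ≠ 0 := by
    apply Ring.two_ne_zero
    intro h
    have h' := FiniteField.even_card_iff_char_two.1 h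
    have := Nat.odd_iff.1 hodd
    omega
  refine ⟨fun k ρ hρ hk => ?_, ?_⟩
  · by_contra hlt
    have htriv := Cfsg.Agent.H39.sp_rep_trivial_of_finrank_lt (by omega) h2 ρ (by
      rw [Module.finrank_fintype_fun_eq_card, Fintype.card_fin]; omega)
    obtain ⟨-, hinv⟩ := (Cfsg.Agent.H26.isIrreducible_iff_forall ρ).1 hρ
    have he : (Pi.single ⟨0, by omega⟩ 1 : Fin k → ℂ) ≠ 0 := by simp
    rcases hinv (ℂ ∙ (Pi.single ⟨0, by omega⟩ 1 : Fin k → ℂ)) (fun g v hv => by
      rw [htriv g]; exact hv) with h | h
    · exact he (Submodule.span_singleton_eq_bot.1 h)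
    · have := congrArg (fun U : Submodule ℂ (Fin k → ℂ) => Module.finrank ℂ U) h
      simp only [finrank_span_singleton he, finrank_top, Module.finrank_fintype_fun_eq_card,
        Fintype.card_fin] at this
      omega
  · obtain ⟨ψ, hψ⟩ := (AddChar.exists_apply_ne_zero (a := (1 : F))).2 one_ne_zero
    have hψ1 : ψ ≠ 1 := AddChar.ne_one_iff.2 ⟨1, hψ⟩
    set σ := Cfsg.Agent.H39.weilOdd (n := n) h2 hψ1
    set d := (Fintype.card F ^ n - 1) / 2 with hd'
    have hd : Module.finrank ℂ (Cfsg.Agent.H39.parSub F n (-1)) = d := by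
      have := (Cfsg.Agent.H39.finrank_odd (n := n) h2).1
      omega
    let e : Cfsg.Agent.H39.parSub F n (-1) ≃ₗ[ℂ] (Fin d → ℂ) :=
      LinearEquiv.ofFinrankEq _ _ (by rw [hd]; simp)
    let ρ : Representation ℂ (Matrix.symplecticGroup (Fin n) F) (Fin d → ℂ) :=
      { toFun := fun g => e.conj (σ g)
        map_one' := by ext x; simp [LinearEquiv.conj_apply]
        map_mul' := fun a b => by
          rw [map_mul]; exact LinearMap.ext fun x => by simp [LinearEquiv.conj_apply] }
    have hne : ∃ g, ρ g ≠ 1 := by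
      obtain ⟨g, hg⟩ := Cfsg.Agent.H39.exists_weilOdd_ne_one hn h2 hψ1
      refine ⟨g, fun h => hg (LinearMap.ext fun x => ?_)⟩
      have := LinearMap.congr_fun h (e x)
      simpa [ρ, LinearEquiv.conj_apply] using this
    have hpos : 0 < d := by
      have h3 : 3 ≤ Fintype.card F := by
        have := Fintype.one_lt_card (α := F)
        have := Nat.odd_iff.1 hodd
        omega
      have := (Nat.pow_le_pow_left h3 n).trans' (Nat.pow_le_pow_right (by norm_num : 0 < 3) hn)
      omega
    refine ⟨ρ, (Cfsg.Agent.H26.isIrreducible_iff_forall ρ).2 ⟨?_, ?_⟩⟩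
    · haveI : Nonempty (Fin d) := ⟨⟨0, hpos⟩⟩
      infer_instance
    · exact Cfsg.Agent.H39.sp_rep_invariant_of_finrank_eq (by omega) h2 ρ (by simp [d]) hne

end Cfsg.Agent.S2347
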