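import Cfsg.Statements.S2354
import Cfsg.Agent.H71.SuzukiFree

set_option autoImplicit false
open Cfsg

namespace Cfsg.Agent.S2354

open Cfsg.Agent.H71.Suz Polynomial

/-- In a large Suzuki group the word is not a law. -/
theorem not_law (w : FreeGroup ℕ) (hw : w ≠ 1) (N : ℕ) (hN : ∀ y ∈ w.toWord, y.1 ≤ N)
    (F : Type*) [Field F] [Fintype F] (m : ℕ) (hm : w.toWord.length * (N + 2) ≤ m)
    (hF : Fintype.card F = 2 ^ (2 * m + 1)) :
    ∃ f : ℕ → ↥(Cfsg.Lie.Sz F (2 ^ (m + 1))), FreeGroup.lift f w ≠ 1 := by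
  classical
  have hT : IsTwist F (2 ^ (m + 1)) := isTwist_of_card m hF
  have h2 : (2 : F) = 0 := hT.two
  have h2p : (2 : F[X]) = 0 := by rw [← map_ofNat C 2, h2, map_zero]
  have hpw : (2 : ℕ) ≤ 2 ^ (m + 1) := by
    simpa using Nat.pow_le_pow_right (show 2 > 0 by norm_num) (show 1 ≤ m + 1 by omega)
  have hmul : ∀ b d : F, zMat (2 ^ (m + 1)) b * zMat (2 ^ (m + 1)) d = zMat (2 ^ (m + 1)) (b + d) :=
    zMat_mul hT
  -- the dominant polynomial
  obtain ⟨x, l, hl⟩ : ∃ x l, w.toWord = x :: l := by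
    rcases hl : w.toWord with _ | ⟨x, l⟩
    · exact absurd (FreeGroup.toWord_eq_nil_iff.mp hl) hw
    · exact ⟨x, l, rfl⟩
  have hred : FreeGroup.IsReduced (x :: l) := hl ▸ FreeGroup.isReduced_toWord
  have hchar : CharP F[X] 2 := CharTwo.of_one_ne_zero_of_two_eq_zero one_ne_zero h2p
  -- a formal twist is available in the shape lemma only through additivity
  obtain ⟨P, r, hP, hne, hdeg, -⟩ :=
    wordMat_shape' (F := F) (e := 2 ^ (m + 1)) (fun b d => add_pow_char_pow b d 2 (m + 1)) h2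
      hpw l x hred (hl ▸ hN)
  -- choose a point where it does not vanish
  obtain ⟨t, ht⟩ : ∃ t : F, (P 3 3).eval t ≠ 0 := by
    by_contra! hcon
    have hle := Polynomial.card_le_degree_of_subset_roots (Z := Finset.univ)
      (show (Finset.univ : Finset F).val ⊆ (P 3 3).roots from
        fun a _ => (mem_roots hne).mpr (hcon a))
    rw [Finset.card_univ, hF] at hle
    have h1 : l.length + 1 = w.toWord.length := by rw [hl]; rfl
    have h3 : m < 2 ^ m := Nat.lt_two_pow_self
    have h4 : l.length * (N + 2) < 2 ^ m := by nlinarith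
    have h5 : l.length * (2 ^ (m + 1) * (N + 2)) < 2 ^ (2 * m + 1) := by
      rw [show 2 ^ (2 * m + 1) = 2 ^ (m + 1) * 2 ^ m by rw [← pow_add]; congr 1; omega,
        mul_left_comm]
      exact Nat.mul_lt_mul_of_pos_left h4 (by positivity)
    simp only at hdeg
    omega
  let ev : F[X] →+* F := evalRingHom t
  let A : ℕ → F := fun i => t ^ (i + 2)
  let g : ℕ → ↥(Cfsg.Lie.Sz F (2 ^ (m + 1))) := fun i =>
    ⟨u hT 0 (A i + t) * H71.Suz.w * u hT 0 (A i),
      mul_mem (mul_mem (u_mem hT _ _) (w_mem hT)) (u_mem hT _ _)⟩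
  refine ⟨g, fun hcon => ?_⟩
  let val : ↥(Cfsg.Lie.Sz F (2 ^ (m + 1))) →* Matrix (Fin 4) (Fin 4) F :=
    (Units.coeHom _).comp (Cfsg.Lie.Sz F (2 ^ (m + 1))).subtype
  have hgi : ∀ y : ℕ × Bool, val (cond y.2 (g y.1) (g y.1)⁻¹) =
      (zMat (2 ^ (m + 1)) (lft F y) * wMat * zMat (2 ^ (m + 1)) (rgt F y)).map ev := by
    rintro ⟨i, s⟩
    rw [Matrix.map_mul, Matrix.map_mul, zMat_map, zMat_map, wMat_map]
    cases s
    · simp [val, g, A, ev, lft, rgt, u, H71.Suz.w, uMat_zero_eq_zMat hT.ne_zero, Matrix.mul_assoc,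
        zero_pow hT.ne_zero]
    · simp [val, g, A, ev, lft, rgt, u, H71.Suz.w, uMat_zero_eq_zMat hT.ne_zero]
  have himg : val (FreeGroup.lift g w) = (wordMat F (2 ^ (m + 1)) (x :: l)).map ev := by
    conv_lhs => rw [← FreeGroup.mk_toWord (x := w), hl, FreeGroup.lift_mk, map_list_prod]
    rw [wordMat, ← RingHom.mapMatrix_apply, map_list_prod, List.map_map, List.map_map]
    exact congrArg List.prod (List.map_congr_left fun y _ => hgi y)
  rw [hcon, map_one, hP, Matrix.map_mul, Matrix.map_mul, Matrix.map_mul, zMat_map, zMat_map,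
    wMat_map] at himg
  -- `w * P = z⁻¹ * z'⁻¹` is lower triangular
  have hinv : ∀ b : F, zMat (2 ^ (m + 1)) b * zMat (2 ^ (m + 1)) b = 1 := by
    intro b
    rw [hmul, show b + b = 0 by linear_combination b * h2]
    rw [← uMat_zero_eq_zMat hT.ne_zero, uMat_zero hT.ne_zero]
  have hwP : wMat * P.map ev = zMat (2 ^ (m + 1)) (ev (lft F x)) * zMat (2 ^ (m + 1)) (ev r) := by
    calc wMat * P.map ev
        = (zMat (2 ^ (m + 1)) (ev (lft F x)) * zMat (2 ^ (m + 1)) (ev (lft F x))) * (wMat * P.map ev)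
            * (zMat (2 ^ (m + 1)) (ev r) * zMat (2 ^ (m + 1)) (ev r)) := by rw [hinv, hinv]; simp
      _ = zMat (2 ^ (m + 1)) (ev (lft F x)) *
            (zMat (2 ^ (m + 1)) (ev (lft F x)) * wMat * P.map ev * zMat (2 ^ (m + 1)) (ev r))
            * zMat (2 ^ (m + 1)) (ev r) := by simp [Matrix.mul_assoc]
      _ = _ := by rw [← himg]; simp
  rw [hmul] at hwP
  have h03 := congrFun (congrFun hwP 0) 3
  refine ht ?_
  simpa [wMat, zMat, Matrix.mul_apply, Fin.sum_univ_four, ev] using h03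

/-- A non-trivial law holds in only finitely many Suzuki groups: for every non-trivial element w of the free group on countably many generators there is N such that for q = 2^(2m+1) with m ≥ N some substitution of elements of the Suzuki group over the field with q elements into w is not the identity. -/
theorem result (w : FreeGroup ℕ) (hw : w ≠ 1) :
    ∃ N : ℕ, ∀ (F : Type*) [Field F] [Fintype F] (m : ℕ), 1 ≤ m → N ≤ m →
      Fintype.card F = 2 ^ (2 * m + 1) →
      ∃ f : ℕ → ↥(Cfsg.Lie.Sz F (2 ^ (m + 1))), FreeGroup.lift f w ≠ 1 := by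
  refine ⟨w.toWord.length * ((w.toWord.map Prod.fst).sum + 2), fun F _ _ m _ hm hF => ?_⟩
  exact not_law w hw _ (fun y hy => List.le_sum_of_mem (List.mem_map_of_mem hy)) F m hm hF

end Cfsg.Agent.S2354
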