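import Cfsg.Statements.S2356
import Cfsg.Agent.H71.UnitaryInvolutions

set_option autoImplicit false
open Cfsg

namespace Cfsg.Agent.S2356

open Cfsg.Agent.H71.UnitaryInvolutions

/-- Let q be odd, F the field with q² elements, S = SU_3(F) (determinant-one isometries of the standard Hermitian form) and t an involution of S. Then: exactly q(q−1) involutions other than t commute with t; exactly q(q−2)(q²−1) involutions do not commute with t but commute with some involution commuting with t; exactly (q+1)(q²−1) involutions x do not commute with t and admit no involution commuting with both t and x; and every involution can be reached from t in at most three steps, each step going to an involution that commutes with the previous one (the commuting involution graph is connected of diameter 3). -/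
theorem result {F : Type*} [Field F] [Fintype F] {q : ℕ} (hq : Odd q)
    (hF : Fintype.card F = q ^ 2) (t : ↥(Cfsg.SU 3 F q)) (ht : t ≠ 1) (ht2 : t * t = 1) :
    Nat.card {x : ↥(Cfsg.SU 3 F q) // x ≠ 1 ∧ x * x = 1 ∧ x ≠ t ∧ Commute t x} = q * (q - 1) ∧
    Nat.card {x : ↥(Cfsg.SU 3 F q) // x ≠ 1 ∧ x * x = 1 ∧ ¬ Commute t x ∧
        ∃ y : ↥(Cfsg.SU 3 F q), y ≠ 1 ∧ y * y = 1 ∧ Commute t y ∧ Commute y x} = q * (q - 2) * (q ^ 2 - 1) ∧
    Nat.card {x : ↥(Cfsg.SU 3 F q) // x ≠ 1 ∧ x * x = 1 ∧ ¬ Commute t x ∧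
        ∀ y : ↥(Cfsg.SU 3 F q), y ≠ 1 → y * y = 1 → ¬ (Commute t y ∧ Commute y x)} = (q + 1) * (q ^ 2 - 1) ∧
    ∀ x : ↥(Cfsg.SU 3 F q), x ≠ 1 → x * x = 1 →
      ∃ y z : ↥(Cfsg.SU 3 F q), y ≠ 1 ∧ y * y = 1 ∧ z ≠ 1 ∧ z * z = 1 ∧
        Commute t y ∧ Commute y z ∧ Commute z x := by
  classical
  obtain ⟨a, rfl⟩ := exists_iv_eq hF hq t ht ht2
  obtain ⟨g, hg⟩ := exists_conj_e2 hF a
  let φ := MulAut.conj g
  have hφt : φ (iv hF e2) = iv hF a := hg
  clear ht ht2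
  rw [← hφt]
  clear hφt hg
  -- transport along `φ`
  have tr : ∀ (P : ↥(Cfsg.SU 3 F q) → Prop) (Q : ↥(Cfsg.SU 3 F q) → Prop) (N : ℕ),
      (∀ x, P (φ x) ↔ Q x) → Nat.card {x // Q x} = N → Nat.card {x // P x} = N := by
    intro P Q N h hN
    rw [← hN]
    exact (Nat.card_congr (Equiv.subtypeEquiv φ.toEquiv fun x => (h x).symm)).symm
  have hex : ∀ P : ↥(Cfsg.SU 3 F q) → Prop, (∃ y, P y) ↔ ∃ y, P (φ y) := fun P =>
    ⟨fun ⟨y, h⟩ => ⟨φ.symm y, by rwa [MulEquiv.apply_symm_apply]⟩, fun ⟨y, h⟩ => ⟨φ y, h⟩⟩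
  have hall : ∀ P : ↥(Cfsg.SU 3 F q) → Prop, (∀ y, P y) ↔ ∀ y, P (φ y) := fun P =>
    φ.surjective.forall
  have h1 : ∀ x, φ x ≠ 1 ↔ x ≠ 1 := fun x => not_congr (map_eq_one_iff φ φ.injective)
  have h2 : ∀ x, φ x * φ x = 1 ↔ x * x = 1 := fun x => by rw [← map_mul, map_eq_one_iff φ φ.injective]
  have h3 : ∀ x y, Commute (φ x) (φ y) ↔ Commute x y := fun x y => by
    rw [commute_iff_eq, commute_iff_eq, ← map_mul, ← map_mul, φ.injective.eq_iff]
  set s := iv hF (e2 (F := F) (q := q)) with hs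
  have hs1 : s ≠ 1 := iv_ne_one hF hq e2
  have hs2 : s * s = 1 := iv_sq hF e2
  -- the common perpendicular
  have hcom : ∀ v : {v : Fin 3 → F // Cfsg.hermForm 3 F q v v = 1}, ¬ Commute s (iv hF v) →
      ((∃ y, y ≠ 1 ∧ y * y = 1 ∧ Commute s y ∧ Commute y (iv hF v)) ↔ v.1 2 ^ (q + 1) ≠ 1) := by
    intro v hnc
    constructor
    · rintro ⟨y, y1, y2, c1, c2⟩ hN
      obtain ⟨w, rfl⟩ := exists_iv_eq hF hq y y1 y2
      have hw2 : w.1 2 = 0 := ((commute_e2_iff hF hq w).mp c1).resolve_right fun h => hnc (by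
        rwa [(iv_eq_e2_iff hF hq w).mpr h] at c2)
      have hwv := ((commute_iff hF hq w v).mp c2).resolve_right fun e => hnc (e ▸ c1)
      rw [hermForm_three hF, hw2, zero_mul, add_zero] at hwv
      have hwn := w.2
      rw [hermForm_three hF, hw2, zero_mul, add_zero] at hwn
      have hvn := v.2
      rw [hermForm_three hF, ← pow_succ' (v.1 2), hN, add_eq_right] at hvn
      have hqq : ∀ x : F, (x ^ q) ^ q = x := H3.pow_q_pow_q hF
      have hwv' : w.1 0 ^ q * v.1 0 + w.1 1 ^ q * v.1 1 = 0 := by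
        have := congrArg (fun x : F => x ^ q) hwv
        simpa [H3.add_pow_q hF, mul_pow, hqq, hq.pos.ne'] using this
      have hΔ : (w.1 1 * v.1 0 - w.1 0 * v.1 1) * (w.1 1 ^ q * v.1 0 ^ q - w.1 0 ^ q * v.1 1 ^ q) = 0 := by
        linear_combination hvn * (w.1 0 * w.1 0 ^ q + w.1 1 * w.1 1 ^ q) -
          (w.1 0 * v.1 0 ^ q + w.1 1 * v.1 1 ^ q) * hwv'
      refine hnc ((commute_e2_iff hF hq v).mpr (Or.inr ?_))
      rcases mul_eq_zero.mp hΔ with h | h
      · have := congrArg (fun x : F => x ^ q) h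
        have e0 : v.1 0 = 0 := by linear_combination (-v.1 0) * hwn + w.1 0 * hwv' + w.1 1 ^ q * h
        have e1 : v.1 1 = 0 := by linear_combination (-v.1 1) * hwn + w.1 1 * hwv' - w.1 0 ^ q * h
        exact ⟨e0, e1⟩
      · have e0 : v.1 0 ^ q = 0 := by linear_combination (-v.1 0 ^ q) * hwn + w.1 0 ^ q * hwv + w.1 1 * h
        have e1 : v.1 1 ^ q = 0 := by linear_combination (-v.1 1 ^ q) * hwn + w.1 1 ^ q * hwv - w.1 0 * h
        exact ⟨eq_zero_of_pow_eq_zero e0, eq_zero_of_pow_eq_zero e1⟩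
    · intro hN
      obtain ⟨z, hz2, hzv⟩ := exists_perp hF v 2 hN
      exact ⟨iv hF z, iv_ne_one hF hq z, iv_sq hF z, (commute_e2_iff hF hq z).mpr (Or.inl hz2),
        (commute_iff hF hq z v).mpr (Or.inl hzv)⟩
  have hq2 : 2 ≤ q := H3.two_le_q hF
  have hle : 1 ≤ q ^ 2 := Nat.one_le_pow _ _ (by omega)
  have hN0 : ∀ v : {v : Fin 3 → F // Cfsg.hermForm 3 F q v v = 1}, v.1 2 ^ (q + 1) = 1 → v.1 2 ≠ 0 :=
    fun v h e => by rw [e, zero_pow (Nat.succ_ne_zero q)] at h; exact zero_ne_one h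
  -- commuting
  have cA : Nat.card {x : ↥(Cfsg.SU 3 F q) // x ≠ 1 ∧ x * x = 1 ∧ x ≠ s ∧ Commute s x} = q * (q - 1) := by
    have h := card_invol_mul hF hq (fun x => x ≠ s ∧ Commute s x)
    rw [Nat.card_congr (Equiv.subtypeEquivRight (q := fun v : {v : Fin 3 → F // Cfsg.hermForm 3 F q v v = 1} =>
      v.1 2 = 0) fun v => ?_), card_last_zero hF] at h
    · refine Nat.eq_of_mul_eq_mul_right (Nat.succ_pos q) (h.trans ?_)
      have : 1 ≤ q := by omega
      zify [hle, this]; ring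
    · rw [ne_eq, iv_eq_e2_iff hF hq, commute_e2_iff hF hq]
      refine ⟨fun h => h.2.resolve_right h.1, fun h => ⟨fun h' => ?_, Or.inl h⟩⟩
      have := v.2
      rw [hermForm_three hF, h, h'.1, h'.2] at this
      simp at this
  -- tangent
  have cC : Nat.card {x : ↥(Cfsg.SU 3 F q) // x ≠ 1 ∧ x * x = 1 ∧ ¬ Commute s x ∧
      ∀ y : ↥(Cfsg.SU 3 F q), y ≠ 1 → y * y = 1 → ¬ (Commute s y ∧ Commute y x)} = (q + 1) * (q ^ 2 - 1) := by
    have h := card_invol_mul hF hq (fun x => ¬ Commute s x ∧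
      ∀ y : ↥(Cfsg.SU 3 F q), y ≠ 1 → y * y = 1 → ¬ (Commute s y ∧ Commute y x))
    rw [Nat.card_congr (Equiv.subtypeEquivRight (q := fun v : {v : Fin 3 → F // Cfsg.hermForm 3 F q v v = 1} =>
      v.1 2 ^ (q + 1) = 1 ∧ ¬ (v.1 0 = 0 ∧ v.1 1 = 0)) fun v => ?_), card_tangent hF] at h
    · exact Nat.eq_of_mul_eq_mul_right (Nat.succ_pos q) (h.trans (by rw [Nat.succ_eq_add_one]; ring))
    · constructor
      · rintro ⟨hnc, h⟩
        refine ⟨by_contra fun hN => ?_, fun h' => hnc ((commute_e2_iff hF hq v).mpr (Or.inr h'))⟩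
        obtain ⟨y, y1, y2, c1, c2⟩ := (hcom v hnc).mpr hN
        exact h y y1 y2 ⟨c1, c2⟩
      · rintro ⟨hN, hna⟩
        have hnc : ¬ Commute s (iv hF v) := fun c =>
          ((commute_e2_iff hF hq v).mp c).elim (hN0 v hN) hna
        exact ⟨hnc, fun y y1 y2 c => (hcom v hnc).mp ⟨y, y1, y2, c.1, c.2⟩ hN⟩
  -- distance two
  have cB : Nat.card {x : ↥(Cfsg.SU 3 F q) // x ≠ 1 ∧ x * x = 1 ∧ ¬ Commute s x ∧
      ∃ y : ↥(Cfsg.SU 3 F q), y ≠ 1 ∧ y * y = 1 ∧ Commute s y ∧ Commute y x} = q * (q - 2) * (q ^ 2 - 1) := by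
    let A := fun x : ↥(Cfsg.SU 3 F q) => Commute s x
    let B := fun x : ↥(Cfsg.SU 3 F q) =>
      ∃ y : ↥(Cfsg.SU 3 F q), y ≠ 1 ∧ y * y = 1 ∧ Commute s y ∧ Commute y x
    have e := card_invol_mul hF hq (fun x => ¬ A x ∧ B x)
    rw [Nat.card_congr (Equiv.subtypeEquivRight (q := fun v : {v : Fin 3 → F // Cfsg.hermForm 3 F q v v = 1} =>
      ¬ ((v.1 2 = 0 ∨ (v.1 0 = 0 ∧ v.1 1 = 0)) ∨ (v.1 2 ^ (q + 1) = 1 ∧ ¬ (v.1 0 = 0 ∧ v.1 1 = 0)))) fun v => ?_)] at e
    · have hs3 := Nat.card_congr (Equiv.sumCompl (fun v : {v : Fin 3 → F // Cfsg.hermForm 3 F q v v = 1} =>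
        (v.1 2 = 0 ∨ (v.1 0 = 0 ∧ v.1 1 = 0)) ∨ (v.1 2 ^ (q + 1) = 1 ∧ ¬ (v.1 0 = 0 ∧ v.1 1 = 0))))
      rw [Nat.card_sum, card_units_three hF, ← e, Nat.card_congr (subtypeOrEquiv _ _ ?_), Nat.card_sum,
        Nat.card_congr (subtypeOrEquiv _ _ ?_), Nat.card_sum, card_last_zero hF, card_axis hF,
        card_tangent hF] at hs3
      · refine Nat.eq_of_mul_eq_mul_right (Nat.succ_pos q) ?_
        zify [hle, hq2] at hs3 ⊢
        linear_combination hs3
      · rw [Pi.disjoint_iff]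
        intro v
        simp only [Prop.disjoint_iff]
        rintro ⟨h0, e0, e1⟩
        have := v.2
        rw [hermForm_three hF, h0, e0, e1] at this
        simp at this
      · rw [Pi.disjoint_iff]
        intro v
        simp only [Prop.disjoint_iff]
        rintro ⟨h | h, hN, hna⟩
        · exact hN0 v hN h
        · exact hna h
    · show ¬ A (iv hF v) ∧ B (iv hF v) ↔ _
      simp only [A, B]
      constructor
      · rintro ⟨hnc, hy⟩ (h | h)
        · exact hnc ((commute_e2_iff hF hq v).mpr h)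
        · exact (hcom v hnc).mp hy h.1
      · intro h
        have hnc : ¬ Commute s (iv hF v) := fun c => h (Or.inl ((commute_e2_iff hF hq v).mp c))
        exact ⟨hnc, (hcom v hnc).mpr fun hN => h (Or.inr ⟨hN, fun h' => hnc ((commute_e2_iff hF hq v).mpr (Or.inr h'))⟩)⟩
  have hd : ∀ x : ↥(Cfsg.SU 3 F q), x ≠ 1 → x * x = 1 →
      ∃ y z : ↥(Cfsg.SU 3 F q), y ≠ 1 ∧ y * y = 1 ∧ z ≠ 1 ∧ z * z = 1 ∧
        Commute s y ∧ Commute y z ∧ Commute z x := by
    intro x hx hx2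
    by_cases hc : Commute s x
    · exact ⟨x, x, hx, hx2, hx, hx2, hc, Commute.refl x, Commute.refl x⟩
    obtain ⟨v, rfl⟩ := exists_iv_eq hF hq x hx hx2
    by_cases hN : v.1 2 ^ (q + 1) = 1
    · have hi : ∃ i : Fin 3, i ≠ 2 ∧ v.1 i ^ (q + 1) ≠ 1 := by
        by_contra h
        push Not at h
        have hv := v.2
        rw [hermForm_three hF, ← pow_succ', ← pow_succ', ← pow_succ', h 0 (by decide), h 1 (by decide), hN] at hv
        exact two_ne_zero_of_odd hq hF (by linear_combination hv)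
      obtain ⟨i, hi2, hi⟩ := hi
      obtain ⟨z, hzi, hzv⟩ := exists_perp hF v i hi
      let w : {v : Fin 3 → F // Cfsg.hermForm 3 F q v v = 1} := ⟨Pi.single i 1, by
        rw [H3.hermForm_single_left, Pi.single_eq_same, one_pow, mul_one]⟩
      refine ⟨iv hF w, iv hF z, iv_ne_one hF hq w, iv_sq hF w, iv_ne_one hF hq z, iv_sq hF z,
        (commute_e2_iff hF hq w).mpr (Or.inl (Pi.single_eq_of_ne hi2.symm _)),
        (commute_iff hF hq w z).mpr (Or.inl ?_), (commute_iff hF hq z v).mpr (Or.inl hzv)⟩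
      show Cfsg.hermForm 3 F q (Pi.single i 1) z.1 = 0
      rw [H3.hermForm_single_left, hzi, zero_pow hq.pos.ne', mul_zero]
    · obtain ⟨y, y1, y2, c1, c2⟩ := (hcom v hc).mpr hN
      exact ⟨y, y, y1, y2, y1, y2, c1, Commute.refl y, c2⟩
  refine ⟨tr _ _ _ (fun x => ?_) cA, tr _ _ _ (fun x => ?_) cB, tr _ _ _ (fun x => ?_) cC, ?_⟩
  · rw [h1, h2, h3, φ.injective.ne_iff]
  · rw [h1, h2, h3, hex]
    simp only [h1, h2, h3]
  · rw [h1, h2, h3, hall]
    simp only [h1, h2, h3]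
  · rw [hall]
    intro x hx hx2
    obtain ⟨y, z, a1, a2, a3, a4, a5, a6, a7⟩ := hd x ((h1 x).mp hx) ((h2 x).mp hx2)
    exact ⟨φ y, φ z, (h1 y).mpr a1, (h2 y).mpr a2, (h1 z).mpr a3, (h2 z).mpr a4,
      (h3 s y).mpr a5, (h3 y z).mpr a6, (h3 z x).mpr a7⟩

end Cfsg.Agent.S2356
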