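import Cfsg.Statements.S2360
import Cfsg.Agent.H71.UnitaryInvolutions
import Cfsg.Agent.H3.Geometry

set_option autoImplicit false
open Cfsg

namespace Cfsg.Agent.S2360

open Cfsg.Agent.H71.UnitaryInvolutions

/-- Let q be odd, F the field with q² elements and S = SU_3(F) (determinant-one isometries of the standard Hermitian form). Then all involutions of S are conjugate; there are exactly q²(q²−q+1) of them; the centralizer of an involution has order q(q+1)(q²−1), the order of the full unitary group of degree 2; and for two distinct commuting involutions t and x there is exactly one further involution commuting with both. -/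
theorem result {F : Type*} [Field F] [Fintype F] {q : ℕ} (hq : Odd q)
    (hF : Fintype.card F = q ^ 2) (t : ↥(Cfsg.SU 3 F q)) (ht : t ≠ 1) (ht2 : t * t = 1) :
    (∀ x : ↥(Cfsg.SU 3 F q), x ≠ 1 → x * x = 1 → ∃ g : ↥(Cfsg.SU 3 F q), g * t * g⁻¹ = x) ∧
    Nat.card {x : ↥(Cfsg.SU 3 F q) // x ≠ 1 ∧ x * x = 1} = q ^ 2 * (q ^ 2 - q + 1) ∧
    Nat.card ↥(Subgroup.centralizer ({t} : Set ↥(Cfsg.SU 3 F q))) = q * (q + 1) * (q ^ 2 - 1) ∧
    ∀ x : ↥(Cfsg.SU 3 F q), x ≠ 1 → x * x = 1 → x ≠ t → Commute t x →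
      Nat.card {y : ↥(Cfsg.SU 3 F q) // y ≠ 1 ∧ y * y = 1 ∧ y ≠ t ∧ y ≠ x ∧ Commute t y ∧ Commute x y} = 1 := by
  classical
  have h1 : ∀ x : ↥(Cfsg.SU 3 F q), x ≠ 1 → x * x = 1 → ∃ g : ↥(Cfsg.SU 3 F q), g * t * g⁻¹ = x := by
    intro x hx hx2
    obtain ⟨v, rfl⟩ := exists_iv_eq hF hq x hx hx2
    obtain ⟨a, rfl⟩ := exists_iv_eq hF hq t ht ht2
    obtain ⟨g, hg⟩ := exists_conj_e2 hF v
    obtain ⟨g', hg'⟩ := exists_conj_e2 hF a
    exact ⟨g * g'⁻¹, by rw [← hg, ← hg']; group⟩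
  have hq2 : 2 ≤ q := H3.two_le_q hF
  have h2 : Nat.card {x : ↥(Cfsg.SU 3 F q) // x ≠ 1 ∧ x * x = 1} = q ^ 2 * (q ^ 2 - q + 1) := by
    have h := card_invol_mul hF hq (fun _ => True)
    rw [Nat.card_congr (Equiv.subtypeUnivEquiv fun _ => trivial), card_units_three hF,
      Nat.card_congr (Equiv.subtypeEquivRight fun x : ↥(Cfsg.SU 3 F q) =>
        (show x ≠ 1 ∧ x * x = 1 ∧ True ↔ x ≠ 1 ∧ x * x = 1 by simp))] at h
    have hle : q ≤ q ^ 2 := Nat.le_self_pow two_ne_zero q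
    refine Nat.eq_of_mul_eq_mul_right (Nat.succ_pos q) (h.trans ?_)
    zify [hle]
    ring
  refine ⟨h1, h2, ?_, ?_⟩
  · let φ : ↥(Cfsg.SU 3 F q) → {x : ↥(Cfsg.SU 3 F q) // x ≠ 1 ∧ x * x = 1} := fun g =>
      ⟨g * t * g⁻¹, fun e => ht (conj_eq_one_iff.mp e), by rw [show g * t * g⁻¹ * (g * t * g⁻¹) = g * (t * t) * g⁻¹ by group, ht2, mul_one, mul_inv_cancel]⟩
    have hc := H3.card_eq_mul_of_fibres φ (fun x => (h1 x.1 x.2.1 x.2.2).imp fun g hg => Subtype.ext hg)
      (Subgroup.centralizer {t}) (fun g g' => by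
        rw [Subgroup.mem_centralizer_singleton_iff, Subtype.ext_iff]
        show g * t * g⁻¹ = g' * t * g'⁻¹ ↔ _
        constructor
        · intro e
          calc g⁻¹ * g' * t = g⁻¹ * (g' * t * g'⁻¹) * g' := by group
            _ = t * (g⁻¹ * g') := by rw [← e]; group
        · intro e
          calc g * t * g⁻¹ = g * (t * (g⁻¹ * g')) * g'⁻¹ := by group
            _ = g' * t * g'⁻¹ := by rw [← e]; group)
    rw [h2] at hc
    have hG := H3.card_SU hF (show 1 ≤ 3 by norm_num)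
    rw [H3.card_GU hF, hc] at hG
    simp [Finset.prod_range_succ, Nat.even_add_one, -Nat.card_eq_fintype_card] at hG
    have hle : q ≤ q ^ 2 := Nat.le_self_pow two_ne_zero q
    have h1q : 1 ≤ q ^ 2 := Nat.one_le_pow _ _ (by omega)
    have hpos : 0 < (q + 1) * (q ^ 2 * (q ^ 2 - q + 1)) := by positivity
    refine Nat.eq_of_mul_eq_mul_left hpos ?_
    rw [mul_assoc, hG]
    zify [hle, h1q]
    ring
  · intro x hx hx2 hxt hc
    obtain ⟨a, rfl⟩ := exists_iv_eq hF hq t ht ht2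
    obtain ⟨g, hg⟩ := exists_conj_e2 hF a
    let φ := MulAut.conj g
    obtain ⟨b, hb⟩ := exists_iv_eq hF hq (φ.symm x) (by simpa using hx) (by rw [← map_mul, hx2, map_one])
    have hφt : φ (iv hF e2) = iv hF a := hg
    have hbe : iv hF b ≠ iv hF e2 := fun e => hxt (by rw [← hφt, ← e, hb, MulEquiv.apply_symm_apply])
    have hcb : Commute (iv hF e2) (iv hF b) := by
      have := hc.map φ.symm.toMonoidHom
      simpa [← hφt, ← hb] using this
    have hxb : x = φ (iv hF b) := by rw [hb, MulEquiv.apply_symm_apply]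
    subst hxb
    rw [← hφt]
    refine Eq.trans (Nat.card_congr (Equiv.subtypeEquiv φ.symm.toEquiv (q := fun y : ↥(Cfsg.SU 3 F q) =>
      y ≠ 1 ∧ y * y = 1 ∧ y ≠ iv hF e2 ∧ y ≠ iv hF b ∧ Commute (iv hF e2) y ∧ Commute (iv hF b) y) fun y => ?_)) ?_
    · simp only [MulEquiv.toEquiv_eq_coe, MulEquiv.coe_toEquiv]
      obtain ⟨y, rfl⟩ := φ.surjective y
      simp [commute_iff_eq, ← map_mul]
    have hb0 : b.1 2 = 0 := ((commute_e2_iff hF hq b).mp hcb).resolve_right fun h =>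
      hbe ((iv_eq_e2_iff hF hq b).mpr h)
    have hbn := b.2
    rw [hermForm_three hF, hb0, zero_mul, add_zero] at hbn
    have hiff : ∀ v : {v : Fin 3 → F // Cfsg.hermForm 3 F q v v = 1},
        (iv hF v ≠ iv hF e2 ∧ iv hF v ≠ iv hF b ∧ Commute (iv hF e2) (iv hF v) ∧ Commute (iv hF b) (iv hF v)) ↔
          v.1 2 = 0 ∧ b.1 0 * v.1 0 ^ q + b.1 1 * v.1 1 ^ q = 0 := by
      intro v
      have hone := v.2
      rw [hermForm_three hF] at hone
      constructor
      · rintro ⟨n1, n2, c1, c2⟩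
        have hv0 : v.1 2 = 0 := ((commute_e2_iff hF hq v).mp c1).resolve_right fun h =>
          n1 ((iv_eq_e2_iff hF hq v).mpr h)
        have := ((commute_iff hF hq b v).mp c2).resolve_right fun h => n2 h.symm
        rw [hermForm_three hF, hb0, zero_mul, add_zero] at this
        exact ⟨hv0, this⟩
      · rintro ⟨hv0, h⟩
        refine ⟨fun e => ?_, fun e => ?_, (commute_e2_iff hF hq v).mpr (Or.inl hv0),
          (commute_iff hF hq b v).mpr (Or.inl (by rw [hermForm_three hF, hb0, zero_mul, add_zero]; exact h))⟩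
        · obtain ⟨e0, e1⟩ := (iv_eq_e2_iff hF hq v).mp e
          simp [hv0, e0, e1] at hone
        · obtain ⟨c, hcv⟩ := (iv_eq_iff hF hq b v).mp e.symm
          rw [hcv] at h
          simp [mul_pow] at h
          have hc0 : c = 0 := by
            have h' : c ^ q = 0 := by linear_combination h - c ^ q * hbn
            exact eq_zero_of_pow_eq_zero h'
          rw [hcv, hc0] at hone
          simp [hq.pos.ne'] at hone
    obtain ⟨z, hz2, hzb⟩ := exists_perp hF b 2 (by rw [hb0, zero_pow (Nat.succ_ne_zero q)]; exact zero_ne_one)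
    rw [Nat.card_eq_one_iff_unique]
    refine ⟨⟨?_⟩, ?_⟩
    · rintro ⟨y1, a1, b1, c1⟩ ⟨y2, a2, b2, c2⟩
      obtain ⟨v1, rfl⟩ := exists_iv_eq hF hq y1 a1 b1
      obtain ⟨v2, rfl⟩ := exists_iv_eq hF hq y2 a2 b2
      obtain ⟨p1, q1⟩ := (hiff v1).mp c1
      obtain ⟨p2, q2⟩ := (hiff v2).mp c2
      refine Subtype.ext ((iv_eq_iff hF hq v1 v2).mpr ?_)
      have hqq : ∀ x : F, (x ^ q) ^ q = x := H3.pow_q_pow_q hF
      have conj0 : ∀ v : Fin 3 → F, b.1 0 * v 0 ^ q + b.1 1 * v 1 ^ q = 0 →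
          b.1 0 ^ q * v 0 + b.1 1 ^ q * v 1 = 0 := fun v h => by
        have := congrArg (fun x : F => x ^ q) h
        simpa [H3.add_pow_q hF, mul_pow, hqq, hq.pos.ne'] using this
      have r1 := conj0 _ q1
      have r2 := conj0 _ q2
      have v1n := v1.2
      rw [hermForm_three hF, p1, zero_mul, add_zero] at v1n
      have hΔ : v1.1 1 * v2.1 0 - v1.1 0 * v2.1 1 = 0 := by
        linear_combination (b.1 0 * v1.1 1 - b.1 1 * v1.1 0) * r2 + (b.1 1 * v2.1 0 - b.1 0 * v2.1 1) * r1 -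
          (v1.1 1 * v2.1 0 - v1.1 0 * v2.1 1) * hbn
      refine ⟨v2.1 0 * v1.1 0 ^ q + v2.1 1 * v1.1 1 ^ q, funext fun i => ?_⟩
      fin_cases i
      · show v2.1 0 = _ * v1.1 0
        linear_combination (-v2.1 0) * v1n + v1.1 1 ^ q * hΔ
      · show v2.1 1 = _ * v1.1 1
        linear_combination (-v2.1 1) * v1n - v1.1 0 ^ q * hΔ
      · show v2.1 2 = _ * v1.1 2
        rw [p1, p2, mul_zero]
    · exact ⟨⟨iv hF z, iv_ne_one hF hq z, iv_sq hF z, (hiff z).mpr ⟨hz2, by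
        have e : Cfsg.hermForm 3 F q b.1 z.1 = 0 := by
          rw [← H3.hermForm_pow_q hF, hzb, zero_pow hq.pos.ne']
        rwa [hermForm_three hF, hb0, zero_mul, add_zero] at e⟩⟩⟩

end Cfsg.Agent.S2360
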