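import Cfsg.Statements.S2436
import Cfsg.Agent.H69.SL2McKay

set_option autoImplicit false
open Cfsg

namespace Cfsg.Agent.S2436

/-- Let F be a finite field with q elements, q odd, ℓ any prime and S a Sylow ℓ-subgroup of SL₂ over F with normaliser N. Then SL₂ and N have the same number of irreducible complex characters of degree not divisible by ℓ (the McKay equality holds for SL₂ over F at every prime). -/
theorem result {F : Type*} [Field F] [Fintype F] (hodd : Odd (Fintype.card F)) (ℓ : ℕ) [Fact ℓ.Prime] (S : Sylow ℓ (Matrix.SpecialLinearGroup (Fin 2) F)) :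
    Nat.card {χ : Cfsg.IrrCharacter (Matrix.SpecialLinearGroup (Fin 2) F) // ¬ ℓ ∣ Cfsg.charDegree (χ : Matrix.SpecialLinearGroup (Fin 2) F → ℂ)} =
      Nat.card {ψ : Cfsg.IrrCharacter (Subgroup.normalizer ((S : Subgroup (Matrix.SpecialLinearGroup (Fin 2) F)) : Set (Matrix.SpecialLinearGroup (Fin 2) F))) //
        ¬ ℓ ∣ Cfsg.charDegree (ψ : Subgroup.normalizer ((S : Subgroup (Matrix.SpecialLinearGroup (Fin 2) F)) : Set (Matrix.SpecialLinearGroup (Fin 2) F)) → ℂ)} := by
  classical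
  obtain ⟨p, hpc⟩ := CharP.exists F
  obtain ⟨m, hpp, hm⟩ := FiniteField.card F p
  haveI := Fact.mk hpp
  have h2 : (2 : F) ≠ 0 := fun h => by
    have := Cfsg.Agent.H69.field_two_eq_zero_iff.1 h
    rw [Nat.odd_iff] at hodd
    omega
  obtain ⟨k, hk⟩ := hodd
  have hL := Cfsg.Agent.H69.primeDegCount_sl2 h2 hk ℓ
  have hℓ := (Fact.out : ℓ.Prime)
  have hk0 : 1 ≤ k := by
    have := Fintype.one_lt_card (α := F)
    omega
  change Cfsg.Agent.H69.McKay.primeDegCount ℓ _ = Cfsg.Agent.H69.McKay.primeDegCount ℓ _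
  by_cases hd : ℓ ∣ Fintype.card F
  · -- the characteristic
    obtain rfl : ℓ = p := (Nat.prime_dvd_prime_iff_eq hℓ hpp).1 (hℓ.dvd_of_dvd_pow (hm ▸ hd))
    rw [hk] at hd
    have a0 : ¬ ℓ ∣ 1 := hℓ.not_dvd_one
    have a4 : ¬ ℓ ∣ k := fun h =>
      a0 ((Nat.dvd_add_right (dvd_mul_of_dvd_right h 2)).1 hd)
    have a5 : ¬ ℓ ∣ k + 1 := fun h => a4 (by
      have := Nat.dvd_sub hd h
      rwa [show 2 * k + 1 - (k + 1) = k by omega] at this)
    have a3 : ¬ ℓ ∣ 2 * k + 2 := fun h => a0 (by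
      have := Nat.dvd_sub h hd
      rwa [show 2 * k + 2 - (2 * k + 1) = 1 by omega] at this)
    have a6 : ¬ ℓ ∣ 2 * k := fun h => a0 ((Nat.dvd_add_right h).1 hd)
    rw [Cfsg.Agent.H69.primeDegCount_normalizer_char h2 ℓ S, hL, hk]
    simp only [a0, hd, a3, a4, a5, a6, if_true, if_false]
    omega
  · rw [hk] at hd
    by_cases h2l : ℓ = 2
    · subst h2l
      rw [Cfsg.Agent.H69.primeDegCount_normalizer_two h2 S, hL]
      simp only [show ¬ 2 ∣ 1 by omega, hd, show 2 ∣ 2 * k + 2 by omega,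
        show 2 ∣ 2 * k by omega, if_true, if_false]
      by_cases h : 2 ∣ k
      · simp only [h, show ¬ 2 ∣ k + 1 by omega, if_true, if_false]
        omega
      · simp only [h, show 2 ∣ k + 1 by omega, if_true, if_false]
        omega
    have hl2 : ¬ ℓ ∣ 2 := fun h => h2l ((Nat.prime_dvd_prime_iff_eq hℓ Nat.prime_two).1 h)
    by_cases hd' : ℓ ∣ Fintype.card F - 1 ∨ ℓ ∣ Fintype.card F + 1
    · obtain ⟨n, hn, hln, hR⟩ :=
        Cfsg.Agent.H69.primeDegCount_normalizer_odd h2 h2l hd' S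
      have hsw : ∀ x, ℓ ∣ 2 * x → ℓ ∣ x := fun x h => (hℓ.dvd_mul.1 h).resolve_left hl2
      rcases hn with rfl | rfl
      · rw [hk, Nat.add_sub_cancel] at hln
        have a5 : ¬ ℓ ∣ k + 1 := fun h =>
          hℓ.not_dvd_one ((Nat.dvd_add_right (hsw _ hln)).1 h)
        have a3 : ¬ ℓ ∣ 2 * k + 2 := fun h => a5 (hsw _ (by rwa [mul_add, mul_one]))
        rw [hL]
        simp only [hℓ.not_dvd_one, hd, a3, a5, hsw _ hln, hln, if_true, if_false]
        omega
      · rw [hk, show 2 * k + 1 + 1 = 2 * (k + 1) by ring] at hln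
        have a4 : ¬ ℓ ∣ k := fun h =>
          hℓ.not_dvd_one ((Nat.dvd_add_right h).1 (hsw _ hln))
        rw [hL]
        simp only [hℓ.not_dvd_one, hd, a4, hsw _ hln, show 2 * k + 2 = 2 * (k + 1) by ring, hln,
          show ¬ ℓ ∣ 2 * k from fun h => a4 (hsw k h), if_true, if_false]
        omega
    · have hndvd : ¬ ℓ ∣ Nat.card (Matrix.SpecialLinearGroup (Fin 2) F) := by
        rw [Cfsg.Agent.H69.card_sl2', hℓ.dvd_mul, hℓ.dvd_mul, hk]
        push Not at hd'
        rintro ((h | h) | h)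
        · exact hd h
        · exact hd'.1 (hk ▸ h)
        · exact hd'.2 (hk ▸ h)
      have hS : (S : Subgroup (Matrix.SpecialLinearGroup (Fin 2) F)) = ⊥ := by
        refine Subgroup.eq_bot_of_card_eq _ ?_
        rw [S.card_eq_multiplicity, Nat.factorization_eq_zero_of_not_dvd hndvd, pow_zero]
      have htop : Subgroup.normalizer ((S : Subgroup (Matrix.SpecialLinearGroup (Fin 2) F)) :
          Set (Matrix.SpecialLinearGroup (Fin 2) F)) = ⊤ := by
        rw [hS]
        exact Subgroup.normalizer_eq_top (H := (⊥ : Subgroup (Matrix.SpecialLinearGroup (Fin 2) F)))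
      exact (Cfsg.Agent.H69.McKay.primeDegCount_congr ℓ
        ((MulEquiv.subgroupCongr htop).trans Subgroup.topEquiv).symm).symm

end Cfsg.Agent.S2436
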