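import Cfsg.Statements.S2444
import Mathlib
import Cfsg.Agent.H87.Ore.Main

set_option autoImplicit false
open Cfsg

namespace Cfsg.Agent.S2444

/-- In the special linear group SL(n,F) over a finite field F, with n ≥ 2 and (n, |F|) not (2,2) or (2,3), every element is a commutator a·b·a⁻¹·b⁻¹ of two elements of SL(n,F). -/
theorem result {F : Type*} [Field F] [Fintype F] (n : ℕ) (hn : 2 ≤ n) (hex : n = 2 → 4 ≤ Fintype.card F) :
    ∀ g : Matrix.SpecialLinearGroup (Fin n) F, ∃ a b : Matrix.SpecialLinearGroup (Fin n) F, g = a * b * a⁻¹ * b⁻¹ := by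
  intro g
  classical
  obtain ⟨M, hM⟩ := g
  suffices h : ∃ A B : Matrix (Fin n) (Fin n) F, A.det = 1 ∧ B.det = 1 ∧ A * B = M * (B * A) by
    obtain ⟨A, B, hA, hB, hAB⟩ := h
    refine ⟨⟨A, hA⟩, ⟨B, hB⟩, ?_⟩
    let A' : Matrix.SpecialLinearGroup (Fin n) F := ⟨A, hA⟩
    let B' : Matrix.SpecialLinearGroup (Fin n) F := ⟨B, hB⟩
    let M' : Matrix.SpecialLinearGroup (Fin n) F := ⟨M, hM⟩
    have h' : M' * B' * A' = A' * B' := by
      apply Subtype.ext
      show M * B * A = A * B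
      rw [hAB, mul_assoc]
    show M' = A' * B' * A'⁻¹ * B'⁻¹
    exact eq_mul_inv_iff_mul_eq.2 (eq_mul_inv_iff_mul_eq.2 h')
  let e := Matrix.toLinAlgEquiv' (R := F) (n := Fin n)
  by_cases hs : ∀ a : F, e M = a • 1 → a = 1
  · have hdim : Module.finrank F (Fin n → F) = n := by simp
    obtain ⟨A, B, hA, hB, hAB⟩ := Cfsg.Agent.H87.Ore.isComm_of_not_scalar (F := F)
      (V := Fin n → F) (S := e M) (by omega) (fun h => hex (by omega))
      ((LinearMap.det_toLin' M).trans hM) hs
    refine ⟨e.symm A, e.symm B, ?_, ?_, e.injective ?_⟩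
    · rw [← LinearMap.det_toLin']
      exact (congrArg LinearMap.det (e.apply_symm_apply A)).trans hA
    · rw [← LinearMap.det_toLin']
      exact (congrArg LinearMap.det (e.apply_symm_apply B)).trans hB
    · simpa only [map_mul, AlgEquiv.apply_symm_apply] using hAB
  · push Not at hs
    obtain ⟨a, ha, -⟩ := hs
    have hMa : M = a • 1 := e.injective (by rw [ha, map_smul, map_one])
    obtain ⟨m, rfl⟩ : ∃ m, n = m + 1 := ⟨n - 1, by omega⟩
    subst hMa
    obtain ⟨A, B, hA, hB, hAB⟩ := Cfsg.Agent.H87.Ore.scalar_isComm (F := F) (n := m) (l := a)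
      (by simpa using hM)
    exact ⟨A, B, hA, hB, by rw [hAB, smul_mul_assoc, one_mul]⟩

end Cfsg.Agent.S2444
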