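import Cfsg.Statements.S2450
import Cfsg.Agent.H69.PSL2Products
import Cfsg.Agent.H69.SL2Tori

set_option autoImplicit false
open Cfsg

namespace Cfsg.Agent.S2450

open Cfsg.Agent.H69

/-- The Arad–Herzog conjecture for PSL(2,q): let F be a finite field with q ≥ 4 elements. For any two non-identity elements a, b of PSL(2,F), the set of products of a conjugate of a with a conjugate of b is not a single conjugacy class. -/
theorem result {F : Type*} [Field F] [Fintype F] (h4 : 4 ≤ Fintype.card F)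
    (a b : Matrix.ProjectiveSpecialLinearGroup (Fin 2) F) (ha : a ≠ 1) (hb : b ≠ 1) (c : Matrix.ProjectiveSpecialLinearGroup (Fin 2) F) :
    {g : Matrix.ProjectiveSpecialLinearGroup (Fin 2) F | ∃ u v : Matrix.ProjectiveSpecialLinearGroup (Fin 2) F, g = (u * a * u⁻¹) * (v * b * v⁻¹)} ≠ {g | IsConj c g} := by
  intro hset
  classical
  obtain ⟨A, rfl⟩ := Cfsg.Agent.H6.π_surjective a
  obtain ⟨B, rfl⟩ := Cfsg.Agent.H6.π_surjective b
  obtain ⟨C, rfl⟩ := Cfsg.Agent.H6.π_surjective c
  obtain ⟨y, hy⟩ := exists_conj_lower_ne_zero (not_isScalar2_of_psl_ne_one ha)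
  obtain ⟨z, hz⟩ := exists_conj_lower_ne_zero (not_isScalar2_of_psl_ne_one hb)
  set A' := y * A * y⁻¹ with hA'
  set B' := z * B * z⁻¹ with hB'
  set τ := (C : Matrix (Fin 2) (Fin 2) F).trace with hτ
  have hP : ∀ w : Matrix.SpecialLinearGroup (Fin 2) F,
      ((A' * (w * B' * w⁻¹) : Matrix.SpecialLinearGroup (Fin 2) F) :
        Matrix (Fin 2) (Fin 2) F).trace = τ ∨
      ((A' * (w * B' * w⁻¹) : Matrix.SpecialLinearGroup (Fin 2) F) :
        Matrix (Fin 2) (Fin 2) F).trace = -τ := by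
    intro w
    have hmem : Cfsg.Agent.H6.π (A' * (w * B' * w⁻¹)) ∈
        {g : Matrix.ProjectiveSpecialLinearGroup (Fin 2) F | ∃ u v, g =
          (u * Cfsg.Agent.H6.π A * u⁻¹) * (v * Cfsg.Agent.H6.π B * v⁻¹)} :=
      ⟨Cfsg.Agent.H6.π y, Cfsg.Agent.H6.π (w * z), by simp [hA', hB', mul_assoc]⟩
    rw [hset] at hmem
    obtain ⟨d, hd⟩ := isConj_iff.1 hmem
    obtain ⟨D, rfl⟩ := Cfsg.Agent.H6.π_surjective d
    rw [← map_inv, ← map_mul, ← map_mul, Cfsg.Agent.H6.π_eq_iff] at hd
    rcases hd with hd | hd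
    · left
      rw [← hd, sl2_trace_conj]
    · right
      rw [← sl2_trace_conj D C] at hτ
      rw [hτ, hd, Matrix.SpecialLinearGroup.coe_neg, Matrix.trace_neg, neg_neg]
  let k2 : F := -((A' : Matrix (Fin 2) (Fin 2) F) 1 0 * (B' : Matrix (Fin 2) (Fin 2) F) 1 0)
  let k1 : F := (A' : Matrix (Fin 2) (Fin 2) F) 0 0 * (B' : Matrix (Fin 2) (Fin 2) F) 1 0 +
    (A' : Matrix (Fin 2) (Fin 2) F) 1 0 * ((B' : Matrix (Fin 2) (Fin 2) F) 1 1
      - (B' : Matrix (Fin 2) (Fin 2) F) 0 0) -
    (A' : Matrix (Fin 2) (Fin 2) F) 1 1 * (B' : Matrix (Fin 2) (Fin 2) F) 1 0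
  let k0 : F := ((A' * B' : Matrix.SpecialLinearGroup (Fin 2) F) : Matrix (Fin 2) (Fin 2) F).trace
  have hk2 : k2 ≠ 0 := neg_ne_zero.2 (mul_ne_zero hy hz)
  have hval : ∀ s : F, k2 * s ^ 2 + k1 * s + k0 = τ ∨ k2 * s ^ 2 + k1 * s + k0 = -τ := by
    intro s
    have he : k2 * s ^ 2 + k1 * s + k0 =
        ((A' * (Cfsg.Agent.H6.sl2 1 s 0 1 (by ring) * B' *
          (Cfsg.Agent.H6.sl2 1 s 0 1 (by ring))⁻¹) : Matrix.SpecialLinearGroup (Fin 2) F) :
            Matrix (Fin 2) (Fin 2) F).trace := by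
      simp only [k2, k1, k0, Matrix.trace_fin_two, Cfsg.Agent.H6.sl2_mul,
        Cfsg.Agent.H6.sl2_inv_00, Cfsg.Agent.H6.sl2_inv_01, Cfsg.Agent.H6.sl2_inv_10,
        Cfsg.Agent.H6.sl2_inv_11, Cfsg.Agent.H6.sl2_00, Cfsg.Agent.H6.sl2_01,
        Cfsg.Agent.H6.sl2_10, Cfsg.Agent.H6.sl2_11]
      ring
    rw [he]
    exact hP _
  have hbound : ∀ r : F,
      (Finset.univ.filter fun s : F => k2 * s ^ 2 + k1 * s + k0 = r).card ≤ 2 := by
    intro r
    let P : Polynomial F := Polynomial.C k2 * Polynomial.X ^ 2 + Polynomial.C k1 * Polynomial.X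
      + Polynomial.C (k0 - r)
    have hdeg : P.natDegree = 2 := Polynomial.natDegree_quadratic hk2
    refine le_trans (Finset.card_le_card (t := P.roots.toFinset) ?_)
      ((Multiset.toFinset_card_le _).trans ((Polynomial.card_roots' P).trans hdeg.le))
    intro s hs
    have hs' := (Finset.mem_filter.1 hs).2
    rw [Multiset.mem_toFinset, Polynomial.mem_roots
      (Polynomial.ne_zero_of_natDegree_gt (n := 1) (by omega))]
    simp only [P, Polynomial.IsRoot.def, Polynomial.eval_add, Polynomial.eval_mul,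
      Polynomial.eval_C, Polynomial.eval_pow, Polynomial.eval_X]
    linear_combination hs'
  by_cases h2 : (2 : F) = 0
  · have : (Finset.univ : Finset F) ⊆
        Finset.univ.filter fun s : F => k2 * s ^ 2 + k1 * s + k0 = τ := by
      intro s _
      refine Finset.mem_filter.2 ⟨Finset.mem_univ _, ?_⟩
      rcases hval s with h | h
      · exact h
      · linear_combination h - τ * h2
    have := Finset.card_le_card this
    have := hbound τ
    rw [Finset.card_univ] at *
    omega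
  · have : (Finset.univ : Finset F) ⊆
        (Finset.univ.filter fun s : F => k2 * s ^ 2 + k1 * s + k0 = τ) ∪
        (Finset.univ.filter fun s : F => k2 * s ^ 2 + k1 * s + k0 = -τ) := by
      intro s _
      rw [Finset.mem_union]
      exact (hval s).imp (fun h => Finset.mem_filter.2 ⟨Finset.mem_univ _, h⟩)
        (fun h => Finset.mem_filter.2 ⟨Finset.mem_univ _, h⟩)
    have := (Finset.card_le_card this).trans (Finset.card_union_le _ _)
    have := hbound τ
    have := hbound (-τ)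
    have hodd : Fintype.card F % 2 = 1 := FiniteField.odd_card_of_char_ne_two fun h => h2 (by
      have hcast := ringChar.Nat.cast_ringChar (R := F)
      rw [h] at hcast
      exact_mod_cast hcast)
    rw [Finset.card_univ] at *
    omega

end Cfsg.Agent.S2450
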