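import Cfsg.Statements.S2455
import Cfsg.Agent.H69.PSL2Products
import Cfsg.Agent.H69.SL2Tori

set_option autoImplicit false
open Cfsg

namespace Cfsg.Agent.S2455

open Cfsg.Agent.H69

/-- A strong covering result in the direction of Thompson's conjecture (non-identity elements) for PSL(2,q), q odd: let F be a finite field of odd characteristic p with at least 5 elements and let x ∈ PSL(2,F) have order greater than 2 and not divisible by p (so x is not unipotent). Then every non-identity element of PSL(2,F) is a product of two conjugates of x. -/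
theorem result {F : Type*} [Field F] [Fintype F] (p : ℕ) [Fact p.Prime] [CharP F p] (hp : p ≠ 2) (h5 : 5 ≤ Fintype.card F)
    (x : Matrix.ProjectiveSpecialLinearGroup (Fin 2) F) (hx2 : 2 < orderOf x) (hxp : ¬ p ∣ orderOf x) : ∀ g : Matrix.ProjectiveSpecialLinearGroup (Fin 2) F, g ≠ 1 → ∃ u v : Matrix.ProjectiveSpecialLinearGroup (Fin 2) F, g = (u * x * u⁻¹) * (v * x * v⁻¹) := by
  intro g hg
  obtain ⟨X, rfl⟩ := Cfsg.Agent.H6.π_surjective x
  have ht0 := trace_ne_zero_of_two_lt_orderOf hx2
  have ht4 : (X : Matrix (Fin 2) (Fin 2) F).trace ^ 2 ≠ 4 := by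
    intro h
    rcases (Fact.out : p.Prime).eq_one_or_self_of_dvd _
      (orderOf_dvd_of_pow_eq_one (psl2_pow_char_of_trace_sq p h)) with h1 | h1
    · omega
    · exact hxp (h1 ▸ dvd_rfl)
  have two : (2 : F) ≠ 0 := Ring.two_ne_zero (fun h => hp (by rw [← h]; exact (ringChar.eq F p).symm))
  obtain ⟨G, rfl, hG⟩ := exists_lift_trace_eq_neg_two (g := g)
  exact psl2_eq_conj_mul_conj (sl2_exists_conj_mul_conj (not_isScalar2_of_psl_ne_one hg) ht4
    (hG.imp id (fun h => Or.inr ⟨two, ht0, h⟩)))

end Cfsg.Agent.S2455
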