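import Cfsg.Statements.S2456
import Cfsg.Agent.H69.PSL2Products
import Cfsg.Agent.H69.SL2Tori

set_option autoImplicit false
open Cfsg

namespace Cfsg.Agent.S2456

open Cfsg.Agent.H69

/-- A strong covering result in the direction of Thompson's conjecture (non-identity elements) for PSL(2,q), q even: let F be a finite field of characteristic 2 with q ≥ 4 elements and let x ∈ PSL(2,F) have order greater than 2 and not dividing q + 1. Then every non-identity element of PSL(2,F) is a product of two conjugates of x. -/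
theorem result {F : Type*} [Field F] [Fintype F] [CharP F 2] (h4 : 4 ≤ Fintype.card F)
    (x : Matrix.ProjectiveSpecialLinearGroup (Fin 2) F) (hx2 : 2 < orderOf x) (hxq : ¬ orderOf x ∣ Fintype.card F + 1) : ∀ g : Matrix.ProjectiveSpecialLinearGroup (Fin 2) F, g ≠ 1 → ∃ u v : Matrix.ProjectiveSpecialLinearGroup (Fin 2) F, g = (u * x * u⁻¹) * (v * x * v⁻¹) := by
  intro g hg
  obtain ⟨X, rfl⟩ := Cfsg.Agent.H6.π_surjective x
  haveI : Fact (Nat.Prime 2) := ⟨Nat.prime_two⟩
  have ht4 : (X : Matrix (Fin 2) (Fin 2) F).trace ^ 2 ≠ 4 := by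
    intro h
    have := Nat.le_of_dvd two_pos (orderOf_dvd_of_pow_eq_one (psl2_pow_char_of_trace_sq 2 h))
    omega
  obtain ⟨r, hr⟩ : ∃ r : F, r ^ 2 - (X : Matrix (Fin 2) (Fin 2) F).trace * r + 1 = 0 := by
    by_contra! h
    apply hxq
    have hc := card_centralizer_elliptic (not_isScalar2_of_trace ht4) (rootCount_eq_zero_iff.2 h)
    rw [Nat.card_eq_fintype_card (α := F)] at hc
    refine (orderOf_map_dvd _ X).trans ?_
    rw [← hc]
    exact Subgroup.orderOf_dvd_natCard _ (Subgroup.mem_centralizer_singleton_iff.2 rfl)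
  obtain ⟨G, rfl⟩ := Cfsg.Agent.H6.π_surjective g
  exact psl2_eq_conj_mul_conj (sl2_exists_conj_mul_conj (not_isScalar2_of_psl_ne_one hg) ht4
    (Or.inr (Or.inl ⟨r, hr⟩)))

end Cfsg.Agent.S2456
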