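import Cfsg.Statements.S2459
import Cfsg.Agent.H71.SourourThree
import Cfsg.Agent.H71.SLThreeThree

set_option autoImplicit false
open Cfsg

namespace Cfsg.Agent.S2459

open Matrix

/-- Three distinct non-zero elements with product one. -/
theorem exists_three_distinct {F : Type*} [Field F] [Fintype F] (h4 : 4 ≤ Fintype.card F) :
    ∃ β : Fin 3 → Fˣ, Function.Injective β ∧ β 0 * (β 1 * β 2) = 1 := by
  classical
  suffices h : ∃ a b c : Fˣ, a ≠ b ∧ a ≠ c ∧ b ≠ c ∧ a * (b * c) = 1 by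
    obtain ⟨a, b, c, h1, h2, h3, h4⟩ := h
    refine ⟨![a, b, c], ?_, h4⟩
    intro i j
    fin_cases i <;> fin_cases j <;> simp [h1, h2, h3, h1.symm, h2.symm, h3.symm]
  obtain ⟨g, hg⟩ := IsCyclic.exists_generator (α := Fˣ)
  have hord : orderOf g = Fintype.card F - 1 := by
    rw [orderOf_eq_card_of_forall_mem_zpowers hg, Nat.card_eq_fintype_card, Fintype.card_units]
  have h3 : 3 ≤ orderOf g := by omega
  have hpow : ∀ k, 0 < k → k < 3 → g ^ k ≠ 1 := fun k hk0 hk h =>
    absurd (Nat.le_of_dvd hk0 (orderOf_dvd_of_pow_eq_one h)) (by omega)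
  refine ⟨1, g, g⁻¹, ?_, ?_, ?_, by simp⟩
  · exact fun h => hpow 1 (by omega) (by omega) (by rw [pow_one]; exact h.symm)
  · intro h
    exact hpow 1 (by omega) (by omega) (by rw [pow_one]; exact inv_eq_one.mp h.symm)
  · intro h
    exact hpow 2 (by omega) (by omega) (by rw [pow_two]; exact mul_eq_one_iff_eq_inv.mpr h)

/-- For `q ≥ 4` the square of the class of a regular diagonal element covers the non-scalars. -/
theorem cover_big {F : Type*} [Field F] [Fintype F] (h4 : 4 ≤ Fintype.card F) :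
    ∃ x : Matrix.SpecialLinearGroup (Fin 3) F, x ^ (Fintype.card F - 1) = 1 ∧
      ∀ g : Matrix.SpecialLinearGroup (Fin 3) F, (¬ ∃ c : F, (g : Matrix (Fin 3) (Fin 3) F) = c • 1) →
        ∃ u v : Matrix.SpecialLinearGroup (Fin 3) F, g = (u * x * u⁻¹) * (v * x * v⁻¹) := by
  classical
  obtain ⟨β, hβ, hprod⟩ := exists_three_distinct h4
  let d : Fin 3 → F := fun i => (β i : F)
  have hd : d 0 * (d 1 * d 2) = 1 := by simpa [d] using congrArg Units.val hprod
  let x : Matrix.SpecialLinearGroup (Fin 3) F := ⟨Matrix.diagonal d, by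
    rw [Matrix.det_diagonal, Fin.prod_univ_three, mul_assoc]; exact hd⟩
  refine ⟨x, ?_, fun g hg => ?_⟩
  · refine Subtype.ext ?_
    rw [Matrix.SpecialLinearGroup.coe_pow, Matrix.SpecialLinearGroup.coe_one]
    show Matrix.diagonal d ^ _ = 1
    rw [Matrix.diagonal_pow, ← Matrix.diagonal_one]
    congr 1
    funext i
    exact FiniteField.pow_card_sub_one_eq_one _ (Units.ne_zero _)
  obtain ⟨X, Y, hXY⟩ := H71.exists_product_of_diagonal_conjugates
    (Matrix.SpecialLinearGroup.toGL g) hg (Matrix.SpecialLinearGroup.toGL x)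
    (Matrix.SpecialLinearGroup.toGL x) d d rfl rfl
    (fun i j h => hβ (Units.ext h)) (fun i j h => hβ (Units.ext h)) (by
      show _ = (g : Matrix (Fin 3) (Fin 3) F).det
      rw [g.det_coe]
      linear_combination (d 0 * (d 1 * d 2) + 1) * hd)
  have fix : ∀ Z : GL (Fin 3) F, ∃ u : Matrix.SpecialLinearGroup (Fin 3) F,
      Matrix.SpecialLinearGroup.toGL (u * x * u⁻¹) = Z * Matrix.SpecialLinearGroup.toGL x * Z⁻¹ := by
    intro Z
    set δ := (Matrix.GeneralLinearGroup.det Z)⁻¹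
    let T : GL (Fin 3) F := ⟨Matrix.diagonal ![(δ : F), 1, 1], Matrix.diagonal ![((δ⁻¹ : Fˣ) : F), 1, 1],
      by rw [Matrix.diagonal_mul_diagonal, ← Matrix.diagonal_one]; congr 1; funext i; fin_cases i <;> simp,
      by rw [Matrix.diagonal_mul_diagonal, ← Matrix.diagonal_one]; congr 1; funext i; fin_cases i <;> simp⟩
    obtain ⟨u0, hu⟩ : ∃ u0 : Matrix.SpecialLinearGroup (Fin 3) F,
        Matrix.SpecialLinearGroup.toGL u0 = Z * T := by
      refine ⟨⟨(Z * T : GL (Fin 3) F), ?_⟩, Units.ext rfl⟩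
      rw [Units.val_mul, Matrix.det_mul]
      show _ * (Matrix.diagonal ![(δ : F), 1, 1]).det = 1
      simp [Matrix.det_diagonal, Fin.prod_univ_three, δ]
      exact mul_inv_cancel₀ (Matrix.GeneralLinearGroup.det Z).ne_zero
    refine ⟨u0, ?_⟩
    rw [map_mul, map_mul, map_inv, hu]
    have hcomm : T * Matrix.SpecialLinearGroup.toGL x = Matrix.SpecialLinearGroup.toGL x * T := by
      refine Units.ext ?_
      show Matrix.diagonal _ * Matrix.diagonal d = Matrix.diagonal d * Matrix.diagonal _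
      rw [Matrix.diagonal_mul_diagonal, Matrix.diagonal_mul_diagonal]
      congr 1; funext i; ring
    calc Z * T * Matrix.SpecialLinearGroup.toGL x * (Z * T)⁻¹
        = Z * (T * Matrix.SpecialLinearGroup.toGL x) * T⁻¹ * Z⁻¹ := by group
      _ = _ := by rw [hcomm]; group
  obtain ⟨u, hu⟩ := fix X
  obtain ⟨v, hv⟩ := fix Y
  refine ⟨u, v, ?_⟩
  have h : Matrix.SpecialLinearGroup.toGL g = Matrix.SpecialLinearGroup.toGL ((u * x * u⁻¹) * (v * x * v⁻¹)) := by
    rw [hXY, map_mul, hu, hv]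
  exact Matrix.SpecialLinearGroup.toGL_injective h

/-- For `q = 3` the square of a class of elements of order four covers the non-scalars. -/
theorem cover_three {F : Type*} [Field F] [Fintype F] (h3 : Fintype.card F = 3) :
    ∃ x : Matrix.SpecialLinearGroup (Fin 3) F, x ^ 4 = 1 ∧
      ∀ g : Matrix.SpecialLinearGroup (Fin 3) F, (¬ ∃ c : F, (g : Matrix (Fin 3) (Fin 3) F) = c • 1) →
        ∃ u v : Matrix.SpecialLinearGroup (Fin 3) F, g = (u * x * u⁻¹) * (v * x * v⁻¹) := by
  classical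
  have : Fact (Nat.Prime 3) := ⟨Nat.prime_three⟩
  let φ : ZMod 3 ≃+* F := ZMod.ringEquivOfPrime F Nat.prime_three h3
  let f : Matrix.SpecialLinearGroup (Fin 3) (ZMod 3) →* Matrix.SpecialLinearGroup (Fin 3) F :=
    Matrix.SpecialLinearGroup.map (φ : ZMod 3 →+* F)
  refine ⟨f H71.ThreeThree.x, ?_, fun g hg => ?_⟩
  · rw [← map_pow, show H71.ThreeThree.x ^ 4 = 1 from Subtype.ext (by decide +kernel), map_one]
  obtain ⟨P, a, b, c, d, e, k, hP⟩ := H71.exists_cyclic_start (g : Matrix (Fin 3) (Fin 3) F) hg 0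
  set M : Matrix (Fin 3) (Fin 3) F := !![0, a, b; 1, c, d; 0, e, k] with hM
  have hdM : M.det = 1 := by
    have h := congrArg Matrix.det hP
    rw [Matrix.det_mul, Matrix.det_mul, g.det_coe, one_mul] at h
    exact mul_left_cancel₀ (Matrix.GeneralLinearGroup.det P).ne_zero (by rw [mul_one]; exact h.symm)
  set M0 : Matrix (Fin 3) (Fin 3) (ZMod 3) :=
    !![0, φ.symm a, φ.symm b; 1, φ.symm c, φ.symm d; 0, φ.symm e, φ.symm k] with hM0
  have hmap : M0.map φ = M := by
    ext i j; fin_cases i <;> fin_cases j <;> simp [hM, hM0]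
  have hd0 : M0.det = 1 := φ.injective (by
    rw [RingEquiv.map_det, map_one]
    show (M0.map φ).det = 1
    rw [hmap]; exact hdM)
  obtain ⟨u, v, huv⟩ := H71.ThreeThree.normal_form _ _ _ _ _ _ hd0
  let S : GL (Fin 3) F := P
  -- replace the conjugator by one of determinant one
  have hδ : ∃ w : Matrix.SpecialLinearGroup (Fin 3) F,
      g = w * f ((u * H71.ThreeThree.x * u⁻¹) * (v * H71.ThreeThree.x * v⁻¹)) * w⁻¹ := by
    set δ := ((Matrix.GeneralLinearGroup.det P : Fˣ) : F) with hδ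
    have hδ2 : δ * δ = 1 := by
      have := FiniteField.pow_card_sub_one_eq_one δ (Units.ne_zero _)
      rwa [h3, pow_two] at this
    let w : Matrix.SpecialLinearGroup (Fin 3) F := ⟨δ • (P : Matrix (Fin 3) (Fin 3) F), by
      rw [Matrix.det_smul, Fintype.card_fin]
      show δ ^ 3 * δ = 1
      linear_combination (δ * δ + 1) * hδ2⟩
    refine ⟨w, eq_mul_inv_iff_mul_eq.mpr (Subtype.ext ?_)⟩
    show (g : Matrix (Fin 3) (Fin 3) F) * (δ • (P : Matrix (Fin 3) (Fin 3) F)) =
      (δ • (P : Matrix (Fin 3) (Fin 3) F)) * (f ((u * H71.ThreeThree.x * u⁻¹) * (v * H71.ThreeThree.x * v⁻¹))).1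
    rw [show (f ((u * H71.ThreeThree.x * u⁻¹) * (v * H71.ThreeThree.x * v⁻¹))).1 = M by
      rw [← hmap, hM0, ← huv]; rfl]
    rw [Matrix.mul_smul, Matrix.smul_mul, hP]
  obtain ⟨w, hw⟩ := hδ
  refine ⟨w * f u, w * f v, ?_⟩
  rw [hw]
  simp only [map_mul, map_inv]
  group

/-- A form of Thompson's conjecture for PSL(3,q), q > 2 (covering the non-identity elements), with a semisimple class: for F a finite field of characteristic p with more than 2 elements there is an element x of PSL(3,F) of order prime to p such that every non-identity element of PSL(3,F) is a product of two conjugates of x. -/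
theorem result {F : Type*} [Field F] [Fintype F] (p : ℕ) [Fact p.Prime] [CharP F p] (h3 : 3 ≤ Fintype.card F) :
    ∃ x : Matrix.ProjectiveSpecialLinearGroup (Fin 3) F, ¬ p ∣ orderOf x ∧ ∀ g : Matrix.ProjectiveSpecialLinearGroup (Fin 3) F, g ≠ 1 → ∃ u v : Matrix.ProjectiveSpecialLinearGroup (Fin 3) F, g = (u * x * u⁻¹) * (v * x * v⁻¹) := by
  classical
  have hcase : ∃ (x : Matrix.SpecialLinearGroup (Fin 3) F) (k : ℕ), ¬ p ∣ k ∧ x ^ k = 1 ∧
      ∀ g : Matrix.SpecialLinearGroup (Fin 3) F, (¬ ∃ c : F, (g : Matrix (Fin 3) (Fin 3) F) = c • 1) →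
        ∃ u v : Matrix.SpecialLinearGroup (Fin 3) F, g = (u * x * u⁻¹) * (v * x * v⁻¹) := by
    obtain ⟨n, hp, hcard⟩ := FiniteField.card F p
    rcases eq_or_lt_of_le h3 with h | h
    · obtain ⟨x, hx, hc⟩ := cover_three h.symm
      refine ⟨x, 4, fun hd => ?_, hx, hc⟩
      have hp3 : p ∣ 3 := by rw [h, hcard]; exact dvd_pow_self p n.pos.ne'
      have := (Nat.prime_dvd_prime_iff_eq hp Nat.prime_three).mp hp3
      subst this
      omega
    · obtain ⟨x, hx, hc⟩ := cover_big (show 4 ≤ Fintype.card F by omega)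
      refine ⟨x, Fintype.card F - 1, fun hd => ?_, hx, hc⟩
      have hpd : p ∣ Fintype.card F := by rw [hcard]; exact dvd_pow_self p n.pos.ne'
      have := Nat.dvd_sub hpd hd
      rw [Nat.sub_sub_self (by omega), Nat.dvd_one] at this
      exact hp.one_lt.ne' this
  obtain ⟨x, k, hk, hx, hc⟩ := hcase
  refine ⟨QuotientGroup.mk x, fun hd => hk (hd.trans (orderOf_dvd_of_pow_eq_one ?_)), fun g hg => ?_⟩
  · rw [← QuotientGroup.mk_pow, hx, QuotientGroup.mk_one]
  · obtain ⟨g, rfl⟩ := QuotientGroup.mk_surjective g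
    have hns : ¬ ∃ c : F, (g : Matrix (Fin 3) (Fin 3) F) = c • 1 := by
      rintro ⟨c, hc'⟩
      apply hg
      rw [QuotientGroup.eq_one_iff, Matrix.SpecialLinearGroup.mem_center_iff]
      refine ⟨c, ?_, ?_⟩
      · have h := g.det_coe
        rw [hc', Matrix.det_smul, Matrix.det_one, mul_one] at h
        exact h
      · rw [hc', Matrix.smul_one_eq_diagonal]; rfl
    obtain ⟨u, v, rfl⟩ := hc g hns
    exact ⟨QuotientGroup.mk u, QuotientGroup.mk v, rfl⟩

end Cfsg.Agent.S2459
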