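import Cfsg.Statements.S2460
import Cfsg.Agent.H19.PSpFour.SquareCover

set_option autoImplicit false
open Cfsg

namespace Cfsg.Agent.S2460

/-- A form of Thompson's conjecture for the simple groups PSp(4,q), q ≥ 3 (covering the non-identity elements), with a semisimple class: for F a finite field of characteristic p with at least 3 elements there is an element x of PSp(4,F) of order prime to p such that every non-identity element of PSp(4,F) is a product of two conjugates of x. -/
theorem result {F : Type*} [Field F] [Fintype F] (p : ℕ) [Fact p.Prime] [CharP F p] (h3 : 3 ≤ Fintype.card F) :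
    ∃ x : Cfsg.PSp 2 F, ¬ p ∣ orderOf x ∧ ∀ g : Cfsg.PSp 2 F, g ≠ 1 → ∃ u v : Cfsg.PSp 2 F, g = (u * x * u⁻¹) * (v * x * v⁻¹) := by
  classical
  obtain ⟨d, hd0, hd1, hodd⟩ : ∃ d : F, d ≠ 0 ∧ d ≠ 1 ∧ ((2 : F) ≠ 0 → d = -1) := by
    by_cases h2 : (2 : F) = 0
    · obtain ⟨d, -, hd⟩ := Finset.exists_mem_notMem_of_card_lt_card
        (s := ({0, 1} : Finset F)) (t := Finset.univ) (by
          have := Finset.card_le_two (a := (0 : F)) (b := 1)
          rw [Finset.card_univ]; omega)
      simp only [Finset.mem_insert, Finset.mem_singleton, not_or] at hd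
      exact ⟨d, hd.1, hd.2, fun h => absurd h2 h⟩
    · exact ⟨-1, by simp, fun h => h2 (by linear_combination -h), fun _ => rfl⟩
  obtain ⟨t, ht, h⟩ := Cfsg.Agent.H19.PSpFour.exists_noRoot hd1 hd0
  set π := QuotientGroup.mk' (Subgroup.center (Matrix.symplecticGroup (Fin 2) F))
  refine ⟨π (Cfsg.Agent.H19.PSpFour.xRep h), ?_, ?_⟩
  · intro hp
    have h1 : π (Cfsg.Agent.H19.PSpFour.xRep h) ^ (Fintype.card F ^ 2 - 1) = 1 := by
      rw [← map_pow, Cfsg.Agent.H19.PSpFour.xRep_pow, map_one]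
    obtain ⟨n, hp1, hcard⟩ := FiniteField.card F p
    have h2 : p ∣ Fintype.card F ^ 2 - 1 := hp.trans (orderOf_dvd_of_pow_eq_one h1)
    have h3' : p ∣ Fintype.card F ^ 2 := by
      rw [hcard]; exact dvd_pow (dvd_pow_self p n.ne_zero) (by norm_num)
    have h4 := Nat.dvd_sub h3' h2
    rw [Nat.sub_sub_self (Nat.one_le_pow _ _ Fintype.card_pos)] at h4
    exact hp1.one_lt.ne' (Nat.dvd_one.mp h4)
  · intro g hg
    obtain ⟨g, rfl⟩ := QuotientGroup.mk'_surjective _ g
    have hg' : g ∉ Subgroup.center (Matrix.symplecticGroup (Fin 2) F) := fun hc =>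
      hg ((QuotientGroup.eq_one_iff g).mpr hc)
    obtain ⟨a, b, ha, hb, rfl⟩ := Cfsg.Agent.H19.PSpFour.cover h ht hd1 hodd g hg'
    obtain ⟨u, rfl⟩ := isConj_iff.mp ha
    obtain ⟨v, rfl⟩ := isConj_iff.mp hb
    exact ⟨π u, π v, by simp [π]⟩

end Cfsg.Agent.S2460
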