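import Cfsg.Statements.S2462
import Cfsg.Agent.H23.Ore3D4.Gauss
import Cfsg.Agent.H23.Ore3D4.Large
import Cfsg.Agent.H23.Ore3D4.Three
import Cfsg.Agent.H23.Ore3D4.Two

set_option autoImplicit false
open Cfsg

namespace Cfsg.Agent.S2462

open Cfsg.Agent.H23.Ore3D4 in
theorem covering {K : Type*} [Field K] [Fintype K] (p : ℕ) [Fact p.Prime] [CharP K p] (q : ℕ) (hq : IsPrimePow q)
    (hK : Fintype.card K = q ^ 3) : ∃ x ∈ Cfsg.Lie.twistedD4 K q, ¬ p ∣ orderOf x ∧
      ∀ g ∈ Cfsg.Lie.twistedD4 K q, g ≠ 1 → ∃ a b, ConjS q x a ∧ ConjS q x b ∧ g = a * b := by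
  obtain ⟨f, hf⟩ := Cfsg.Agent.H46.exists_qFrob hq (by norm_num : 0 < 3) hK
  obtain ⟨n, hp, hn⟩ := FiniteField.card K p
  have hchar : ∀ r : ℕ, r.Prime → q = r → p = r := fun r hr e => by
    have h : p ∣ r ^ 3 := by rw [← e, ← hK, hn]; exact dvd_pow_self p n.pos.ne'
    exact (Nat.prime_dvd_prime_iff_eq hp hr).1 (hp.dvd_of_dvd_pow h)
  rcases lt_or_ge q 4 with h4 | h4
  · have h2 := hq.two_le
    interval_cases q
    · obtain rfl := hchar 2 Nat.prime_two rfl
      exact exists_two f hf hK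
    · obtain rfl := hchar 3 Nat.prime_three rfl
      obtain ⟨x, hx, hord, hmid⟩ := exists_three f hf hK
      exact ⟨x, hx, hord, covers_of_mid f hf hK (map_one f) one_ne_zero hmid⟩
  · obtain ⟨x, hx, hord, c, hc, hc0, hmid⟩ := exists_large p f hf hK h4 hq
    exact ⟨x, hx, hord, covers_of_mid f hf hK hc hc0 hmid⟩

/-- A form of Thompson's conjecture for the triality groups ³D₄(q) (covering the non-identity elements) with a semisimple class: for q a power of the prime p and K the field with q³ elements there is an element x of ³D₄(q) (realised over K) of order prime to p such that every non-identity element of ³D₄(q) is a product of two conjugates of x. -/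
theorem result {K : Type*} [Field K] [Fintype K] (p : ℕ) [Fact p.Prime] [CharP K p] (q : ℕ) (hq : IsPrimePow q) (hK : Fintype.card K = q ^ 3) :
    ∃ x : Cfsg.Lie.twistedD4 K q, ¬ p ∣ orderOf x ∧ ∀ g : Cfsg.Lie.twistedD4 K q, g ≠ 1 → ∃ u v : Cfsg.Lie.twistedD4 K q, g = (u * x * u⁻¹) * (v * x * v⁻¹) := by
  obtain ⟨x, hx, hord, h⟩ := covering p q hq hK
  refine ⟨⟨x, hx⟩, by simpa only [Subgroup.orderOf_mk] using hord, fun g hg => ?_⟩
  obtain ⟨a, b, ⟨u, hu, rfl⟩, ⟨v, hv, rfl⟩, e⟩ := h g.1 g.2 fun h1 => hg (Subtype.ext h1)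
  exact ⟨⟨u, hu⟩, ⟨v, hv⟩, Subtype.ext e⟩

end Cfsg.Agent.S2462
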