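import Cfsg.Statements.S2463
import Cfsg.Agent.H75.ReeCover.Transport
import Cfsg.Agent.H75.ReeCover.Diag
import Cfsg.Agent.H88.ReeCover.Levi
import Cfsg.Agent.H46.TitsCover.Main

set_option autoImplicit false
open Cfsg

set_option maxRecDepth 100000

namespace Cfsg.Agent.S2463

attribute [local irreducible] Cfsg.Lie.twistedF4 Cfsg.Lie.chevF4

/-- A form of Thompson's conjecture for the simple groups of type ²F₄ (covering the non-identity elements) with a semisimple class: if M is a large Ree group ²F₄(2^(2m+1)) with m ≥ 1, or the Tits group, then there is an element x of M of odd order such that every non-identity element of M is a product of two conjugates of x. -/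
theorem result {M : Type*} [Group M] [Finite M] (hM : Cfsg.Lie.Iso2F4 M ∨ Cfsg.Lie.IsoTits M) :
    ∃ x : M, Odd (orderOf x) ∧ ∀ g : M, g ≠ 1 → ∃ u v : M, g = (u * x * u⁻¹) * (v * x * v⁻¹) := by
  rcases hM with ⟨K, _, _, m, hm, hK, ⟨e⟩⟩ | ⟨⟨e⟩⟩
  · haveI : CharP K 2 := charP_of_card_eq_prime_pow hK
    obtain ⟨x0, hx0, h5, -, hcov⟩ := Cfsg.Agent.H88.ReeCover.levi_cover hK hm
    exact Cfsg.Agent.H75.ReeCover.cover_transport hK e
      (Cfsg.Agent.H75.ReeCover.cover_of_levi hK hm ⟨x0, hx0, h5, hcov⟩ (Cfsg.Agent.H75.ReeCover.exists_wt_one hK))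
  · exact Cfsg.Agent.H46.TitsCover.transport (K := Cfsg.Lie.TitsGroup) e Cfsg.Agent.H46.TitsCover.main

end Cfsg.Agent.S2463
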