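import Cfsg.Statements.S2466
import Cfsg.Agent.H62.AltOrders

set_option autoImplicit false
open Cfsg

namespace Cfsg.Agent.S2466

/-- Adjacency of odd primes in the prime graph of the alternating groups: let r ≠ s be odd primes at most n. The alternating group of degree n has an element of order r·s if and only if r + s ≤ n. -/
theorem result (n r s : ℕ) (hr : r.Prime) (hs : s.Prime) (hr2 : r ≠ 2) (hs2 : s ≠ 2) (hrs : r ≠ s) (hrn : r ≤ n) (hsn : s ≤ n) :
    (r * s ∈ Set.range (orderOf : alternatingGroup (Fin n) → ℕ)) ↔ r + s ≤ n := by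
  exact H62.alt_odd_primes_iff hr hs hr2 hs2 hrs

end Cfsg.Agent.S2466
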