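import Cfsg.Statements.S2467
import Cfsg.Agent.H62.AltOrders

set_option autoImplicit false
open Cfsg

namespace Cfsg.Agent.S2467

/-- Adjacency of 2 and an odd prime in the prime graph of the alternating groups: let r be an odd prime at most n, with n ≥ 4. The alternating group of degree n has an element of order 2r if and only if r + 4 ≤ n. -/
theorem result (n r : ℕ) (hn : 4 ≤ n) (hr : r.Prime) (hr2 : r ≠ 2) (hrn : r ≤ n) :
    (2 * r ∈ Set.range (orderOf : alternatingGroup (Fin n) → ℕ)) ↔ r + 4 ≤ n := by
  exact H62.alt_twice_prime_iff hr hr2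

end Cfsg.Agent.S2467
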