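import Cfsg.Statements.S2471
import Cfsg.Agent.H69.PSL2Elements

set_option autoImplicit false
open Cfsg

namespace Cfsg.Agent.S2471

open Cfsg.Agent.H69

/-- In PSL(2,q) with q odd, the characteristic p is isolated from 2 in the prime graph: for F a finite field of odd characteristic p with at least 5 elements, PSL(2,F) has no element of order 2p. -/
theorem result {F : Type*} [Field F] [Fintype F] (p : ℕ) [Fact p.Prime] [CharP F p] (hp : p ≠ 2) (h5 : 5 ≤ Fintype.card F) (g : Matrix.ProjectiveSpecialLinearGroup (Fin 2) F) :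
    orderOf g ≠ 2 * p := by
  intro hg
  have hp2 : 2 ≤ p := (Fact.out : p.Prime).two_le
  have hpq : p ∣ Fintype.card F := by
    obtain ⟨n, -, hn⟩ := FiniteField.card F p
    rw [hn]
    exact dvd_pow_self p n.ne_zero
  have hp3 : ¬ p ∣ 1 := fun h => by
    have := Nat.le_of_dvd one_pos h
    omega
  have hmem : 2 * p ∈ Set.range (orderOf : Matrix.ProjectiveSpecialLinearGroup (Fin 2) F → ℕ) :=
    ⟨g, hg⟩
  rw [psl2_spectrum p (by omega)] at hmem
  rcases hmem with h | h | h
  · have := Nat.le_of_dvd (by omega) h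
    omega
  · have h' : p ∣ Fintype.card F - 1 :=
      ((dvd_mul_left p 2).trans h).trans (Nat.div_dvd_of_dvd (Nat.gcd_dvd_right _ _))
    exact hp3 (by
      have := Nat.dvd_sub hpq h'
      rwa [Nat.sub_sub_self (by omega)] at this)
  · have h' : p ∣ Fintype.card F + 1 :=
      ((dvd_mul_left p 2).trans h).trans (Nat.div_dvd_of_dvd gcd_two_dvd_sub_add.2)
    exact hp3 ((Nat.dvd_add_right hpq).1 h')

end Cfsg.Agent.S2471
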