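import Cfsg.Statements.S2474
import Cfsg.Agent.H71.SympOddPrimeGraph

set_option autoImplicit false
open Cfsg

namespace Cfsg.Agent.S2474

/-- For q odd and n ≥ 3 the simple groups PΩ(2n+1,q) and PSp(2n,q) (which have the same order but different sets of element orders) have the same prime graph: for all distinct primes r, s, one of them has an element of order r·s if and only if the other does. -/
theorem result {F : Type*} [Field F] [Fintype F] (hodd : Odd (Fintype.card F)) (n : ℕ) (hn : 3 ≤ n) (r s : ℕ) (hr : r.Prime) (hs : s.Prime) (hrs : r ≠ s) :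
    (r * s ∈ Set.range (orderOf : Cfsg.POmega F (Cfsg.quadFormOdd n F) → ℕ)) ↔ (r * s ∈ Set.range (orderOf : Cfsg.PSp n F → ℕ)) := by
  exact Cfsg.Agent.H71.SympOddPrimeGraph.main hodd hn hr hs hrs

end Cfsg.Agent.S2474
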