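import Cfsg.Statements.S2478
import Cfsg.Agent.H66.ClassBound
-- import your own Cfsg.Agent.* helpers here

set_option autoImplicit false
open Cfsg

namespace Cfsg.Agent.S2478

/-- The number of conjugacy classes of GL(n,q): for F a finite field with q elements and n ≥ 1, the number k of conjugacy classes of GL(n,F) satisfies q^n − q^(n−1) ≤ k ≤ q^n. -/
theorem result {F : Type*} [Field F] [Fintype F] (n : ℕ) (hn : 1 ≤ n) :
    Fintype.card F ^ n - Fintype.card F ^ (n - 1) ≤ Nat.card (ConjClasses (Matrix.GeneralLinearGroup (Fin n) F)) ∧ Nat.card (ConjClasses (Matrix.GeneralLinearGroup (Fin n) F)) ≤ Fintype.card F ^ n := by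
  exact ⟨Cfsg.Agent.H66.le_card_conjClasses_GL hn, Cfsg.Agent.H66.card_conjClasses_GL_le hn⟩

end Cfsg.Agent.S2478
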