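import Cfsg.Statements.S2479
import Cfsg.Agent.H62.ClassNumber.Main

set_option autoImplicit false
open Cfsg

namespace Cfsg.Agent.S2479

/-- The number of conjugacy classes of SL(n,q): for F a finite field with q elements, the number k of conjugacy classes of SL(n,F) satisfies q^(n−1) < k and k ≤ (5/2)·q^(n−1) for n ≥ 2, and k ≤ q^(n−1) + 3q^(n−2) for n ≥ 3. -/
theorem result {F : Type*} [Field F] [Fintype F] (n : ℕ) (hn : 2 ≤ n) :
    Fintype.card F ^ (n - 1) < Nat.card (ConjClasses (Matrix.SpecialLinearGroup (Fin n) F)) ∧ 2 * Nat.card (ConjClasses (Matrix.SpecialLinearGroup (Fin n) F)) ≤ 5 * Fintype.card F ^ (n - 1) ∧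
      (3 ≤ n → Nat.card (ConjClasses (Matrix.SpecialLinearGroup (Fin n) F)) ≤ Fintype.card F ^ (n - 1) + 3 * Fintype.card F ^ (n - 2)) := by
  obtain ⟨h2, h3⟩ := Agent.H62.ClassNumber.card_SL_bounds (K := F) hn
  refine ⟨Agent.H62.ClassNumber.lt_card_SL hn, ?_, h3⟩
  have hq := Fintype.one_lt_card (α := F)
  rcases (show n = 2 ∨ 3 ≤ n by omega) with rfl | hn3
  · have h := h2 rfl
    simp only [show 2 - 1 = 1 from rfl, pow_one]
    rcases (show Fintype.card F = 2 ∨ 3 ≤ Fintype.card F by omega) with hF | hF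
    · have hle := Agent.H62.ClassNumber.card_SL_le (K := F) (n := 2) (by norm_num)
      have hw := Agent.H62.ClassNumber.mul_fibreSum_le 2 ((-1 : F) ^ 2) (by simp)
      have hd := Agent.H62.ClassNumber.weightSum_le (K := F) 2 (by norm_num)
      have hc := Agent.H62.ClassNumber.card_classTuple_le (K := F) 2 (by norm_num)
      have he : Agent.H62.ClassNumber.gamDivisors 2 (Fintype.card F - 1) = ∅ := by
        rw [hF]; decide
      rw [he, Finset.sum_empty] at hd
      rw [hF] at hw hc ⊢
      omega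
    · omega
  · have h := h3 hn3
    obtain ⟨j, rfl⟩ : ∃ j, n = j + 2 := ⟨n - 2, by omega⟩
    simp only [show j + 2 - 1 = j + 1 by omega, Nat.add_sub_cancel, pow_succ] at h ⊢
    have := Nat.mul_le_mul_left (Fintype.card F ^ j) (show 2 ≤ Fintype.card F by omega)
    linarith

end Cfsg.Agent.S2479
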