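import Cfsg.Statements.S2480
import Cfsg.Agent.H62.ClassNumber.Main

set_option autoImplicit false
open Cfsg

namespace Cfsg.Agent.S2480

/-- The number of conjugacy classes of PSL(n,q): for F a finite field with q elements, n ≥ 2 and d = gcd(n, q − 1), the number k of conjugacy classes of PSL(n,F) satisfies q^(n−1) ≤ d·k ≤ q^(n−1) + 5q^(n−2). -/
theorem result {F : Type*} [Field F] [Fintype F] (n : ℕ) (hn : 2 ≤ n) :
    Fintype.card F ^ (n - 1) ≤ Nat.gcd n (Fintype.card F - 1) * Nat.card (ConjClasses (Matrix.ProjectiveSpecialLinearGroup (Fin n) F)) ∧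
      Nat.gcd n (Fintype.card F - 1) * Nat.card (ConjClasses (Matrix.ProjectiveSpecialLinearGroup (Fin n) F)) ≤ Fintype.card F ^ (n - 1) + 5 * Fintype.card F ^ (n - 2) := by
  exact ⟨Agent.H62.ClassNumber.card_PSL_lower hn, Agent.H62.ClassNumber.card_PSL_upper hn⟩

end Cfsg.Agent.S2480
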