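import Cfsg.Statements.S2481
import Cfsg.Agent.H66.SemisimpleSU
import Cfsg.Agent.H62.ClassNumber.UnitaryClasses

set_option autoImplicit false
open Cfsg

namespace Cfsg.Agent.S2481

/-- The number of conjugacy classes of SU(n,q): for n ≥ 2, q a prime power and F the field with q² elements, the number k of conjugacy classes of SU(n,q) (the determinant-one isometries of the standard Hermitian form on F^n) satisfies q^(n−1) ≤ k ≤ 8.26·q^(n−1). -/
theorem result {F : Type*} [Field F] [Fintype F] (n q : ℕ) (hn : 2 ≤ n) (hF : Fintype.card F = q ^ 2) :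
    q ^ (n - 1) ≤ Nat.card (ConjClasses (Cfsg.SU n F q)) ∧ 100 * Nat.card (ConjClasses (Cfsg.SU n F q)) ≤ 826 * q ^ (n - 1) := by
  refine ⟨?_, ?_⟩
  · obtain ⟨p, hp⟩ := CharP.exists F
    have : Fact p.Prime := ⟨CharP.char_is_prime F p⟩
    obtain ⟨m, rfl⟩ : ∃ m, n = m + 1 := ⟨n - 1, by omega⟩
    rw [Nat.add_sub_cancel, ← Cfsg.Agent.H66.card_semisimple_classes_SU hF p m]
    exact Nat.card_le_card_of_injective _ Subtype.val_injective
  · have h1 := Cfsg.Agent.H62.ClassNumber.mul_card_SU_le (n := n) hF (by omega)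
    have h2 := Cfsg.Agent.H62.ClassNumber.uWeightSum_bound (q := q) (n := n) (Cfsg.Agent.H3.two_le_q hF) hn
    have h3 : (q + 1) * (50 * Nat.card (ConjClasses (Cfsg.SU n F q))) ≤ (q + 1) * (413 * q ^ (n - 1)) := by
      calc _ = 50 * ((q + 1) * Nat.card (ConjClasses (Cfsg.SU n F q))) := by ring
        _ ≤ 50 * Cfsg.Agent.H62.ClassNumber.uWeightSum q n := Nat.mul_le_mul_left _ h1
        _ ≤ _ := h2.trans (le_of_eq (by ring))
    have h4 := Nat.le_of_mul_le_mul_left h3 (Nat.succ_pos q)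
    omega

end Cfsg.Agent.S2481
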