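import Cfsg.Statements.S2482
import Cfsg.Statements.S2482
import Cfsg.Agent.H66.SpClassData

set_option autoImplicit false
open Cfsg

namespace Cfsg.Agent.S2482

/-- The number of conjugacy classes of Sp(2n,q), q odd: for F a finite field of odd order q and n ≥ 1, the number k of conjugacy classes of Sp(2n,F) satisfies q^n ≤ k ≤ 10.8·q^n. -/
theorem result {F : Type*} [Field F] [Fintype F] (hodd : Odd (Fintype.card F)) (n : ℕ) (hn : 1 ≤ n) :
    Fintype.card F ^ n ≤ Nat.card (ConjClasses (Matrix.symplecticGroup (Fin n) F)) ∧ 5 * Nat.card (ConjClasses (Matrix.symplecticGroup (Fin n) F)) ≤ 54 * Fintype.card F ^ n := by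
  obtain ⟨p, hc⟩ := CharP.exists F
  obtain ⟨k, hpp, hk⟩ := FiniteField.card F p
  have := Fact.mk hpp
  have hp : p ≠ 2 := by
    rintro rfl
    rw [hk, Nat.odd_iff] at hodd
    have : (2 : ℕ) ∣ 2 ^ (k : ℕ) := dvd_pow_self 2 (PNat.ne_zero k)
    omega
  have h2 : (2 : F) ≠ 0 := fun h0 => hp ((Nat.prime_dvd_prime_iff_eq hpp Nat.prime_two).1
    ((CharP.cast_eq_zero_iff F p 2).1 (by exact_mod_cast h0)))
  have hq : 3 ≤ Fintype.card F := by
    have := Fintype.one_lt_card (α := F)
    rw [Nat.odd_iff] at hodd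
    omega
  obtain ⟨n, rfl⟩ := Nat.exists_eq_add_of_le' hn
  exact ⟨H66.SpChar.pow_le_card_classes h2 (n + 1), (Nat.mul_le_mul_left 5 (H66.SpData.card_classes_le hp n)).trans
    (H66.SpTuple.card_data_le_const hq (2 * n + 1) (n + 1) (n + 1))⟩

end Cfsg.Agent.S2482
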