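import Cfsg.Statements.S2486
import Cfsg.Agent.H37.SylowMeet
import Cfsg.Agent.H37.FlagsOpposite

set_option autoImplicit false
open scoped Pointwise
open Cfsg

namespace Cfsg.Agent.S2486

/-- Let n ≥ 4 and let G be a finite group with a normal subgroup N of index 2 isomorphic to SL(n,2) and with trivial centralizer in G (so G is the extension of the simple group L_n(2) by its inverse-transpose automorphism, its full automorphism group). Then any two Sylow 2-subgroups of G have a non-trivial intersection: for a Sylow 2-subgroup H and every x ∈ G, H ∩ H^x ≠ 1. -/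
theorem result {G : Type*} [Group G] [Finite G] {n : ℕ} (hn : 4 ≤ n) (N : Subgroup G) [N.Normal]
    (e : N ≃* Matrix.SpecialLinearGroup (Fin n) (ZMod 2)) (hidx : N.index = 2)
    (hC : Subgroup.centralizer (N : Set G) = ⊥)
    (H : Sylow 2 G) (x : G) :
    (H : Subgroup G) ⊓ MulAut.conj x • (H : Subgroup G) ≠ ⊥ := by
  open Cfsg.Agent.H37 in
  refine sylow_meet_of_index_two N hidx ((Flags.flagStab n).comap e.toMonoidHom) ?_ ?_ ?_ H x
  · exact Flags.isPGroup_flagStab.comap_of_injective e.toMonoidHom e.injective
  · intro y hy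
    refine Flags.normalizer_flagStab fun A hA => ?_
    have := hy (e.symm A) (show e (e.symm A) ∈ Flags.flagStab n by rwa [e.apply_symm_apply])
    have : e (y * e.symm A * y⁻¹) ∈ Flags.flagStab n := this
    rwa [map_mul, map_mul, map_inv, e.apply_symm_apply] at this
  · intro g g' h h'
    have conv : ∀ g : N, (∀ y ∈ (Flags.flagStab n).comap e.toMonoidHom, g⁻¹ * y * g ∈ (Flags.flagStab n).comap e.toMonoidHom → y = 1) →
        ∀ A ∈ Flags.flagStab n, (e g)⁻¹ * A * e g ∈ Flags.flagStab n → A = 1 := by
      intro g h A hA hA'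
      have := h (e.symm A) (show e (e.symm A) ∈ Flags.flagStab n by rwa [e.apply_symm_apply])
        (show e (g⁻¹ * e.symm A * g) ∈ Flags.flagStab n by rwa [map_mul, map_mul, map_inv, e.apply_symm_apply])
      rw [← e.apply_symm_apply A, this, map_one]
    obtain ⟨u, hu, hu'⟩ := Flags.one_orbit (conv g h) (conv g' h')
    exact ⟨e.symm u, show e (e.symm u) ∈ Flags.flagStab n by rwa [e.apply_symm_apply],
      show e (g'⁻¹ * e.symm u * g) ∈ Flags.flagStab n by rwa [map_mul, map_mul, map_inv, e.apply_symm_apply]⟩

end Cfsg.Agent.S2486
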