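import Cfsg.Agent.H59.OPlusTwoFlag
import Cfsg.Agent.H5.OmegaForms

set_option autoImplicit false
open scoped Pointwise
open Cfsg

namespace Cfsg.Agent.S2487

open Cfsg.Agent.H59

/-- Let m ≥ 4 and let G be the full isometry group of the hyperbolic quadratic form x₁y₁ + ⋯ + x_m y_m on the 2m-dimensional space over the field with 2 elements (the orthogonal group O⁺(2m,2), which contains Ω⁺(2m,2) with index 2). Then any two Sylow 2-subgroups of G have a non-trivial intersection: for a Sylow 2-subgroup H and every x ∈ G, H ∩ H^x ≠ 1. -/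
theorem result {F : Type*} [Field F] [Fintype F] (hF : Fintype.card F = 2) {m : ℕ} (hm : 4 ≤ m)
    (H : Sylow 2 (Cfsg.isometryGroup F (Cfsg.quadFormPlus m F)))
    (x : Cfsg.isometryGroup F (Cfsg.quadFormPlus m F)) :
    (H : Subgroup (Cfsg.isometryGroup F (Cfsg.quadFormPlus m F))) ⊓ MulAut.conj x • (H : Subgroup _) ≠ ⊥ := by
  classical
  have h2 : ∀ t : F, t = 0 ∨ t = 1 := by
    intro t
    by_contra! h
    have : ({0, 1, t} : Finset F).card ≤ Fintype.card F := Finset.card_le_univ _
    rw [Finset.card_insert_of_notMem (by simp [h.1.symm]),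
      Finset.card_insert_of_notMem (by simp [h.2.symm]), Finset.card_singleton, hF] at this
    omega
  have h20 : (2 : F) = 0 := by
    rcases h2 2 with h | h
    · exact h
    · exfalso
      have : (1 : F) + 1 = 1 + 0 := by rw [one_add_one_eq_two, h, add_zero]
      exact one_ne_zero (add_left_cancel this)
  let Q := Cfsg.Agent.H5.qPlus m F
  have hQ := Cfsg.Agent.H5.qPlus_nondegenerate (F := F) m
  let e := Cfsg.Agent.H5.isoEquiv Q (Cfsg.Agent.H5.coe_qPlus m)
  have hdim : Module.finrank F (Fin m ⊕ Fin m → F) = 2 * m := by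
    rw [Module.finrank_fintype_fun_eq_card, Fintype.card_sum, Fintype.card_fin]; omega
  -- a maximal totally singular subspace
  let ι : (Fin m → F) →ₗ[F] (Fin m ⊕ Fin m → F) :=
    { toFun := fun v => Sum.elim v 0
      map_add' := fun a b => by funext i; cases i <;> simp
      map_smul' := fun a b => by funext i; cases i <;> simp }
  have hι : Function.Injective ι := fun a b h => funext fun i => congrFun h (Sum.inl i)
  let M := LinearMap.range ι
  have hM : Module.finrank F M = m := by
    rw [LinearMap.finrank_range_of_inj hι, Module.finrank_fin_fun]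
  have hM0 : ∀ v ∈ M, Q v = 0 := by
    rintro _ ⟨v, rfl⟩
    rw [show Q (ι v) = Cfsg.quadFormPlus m F (ι v) from congrFun (Cfsg.Agent.H5.coe_qPlus m) _]
    simp [Cfsg.quadFormPlus, ι]
  obtain ⟨V0, hV0, hV0s, hV0P⟩ := OPlusTwo.exists_invariant h2 h20 hQ hdim hM hM0
    ((H : Subgroup _).map e.toMonoidHom) (H.2.map _) (m - 1) (by omega)
  -- the pointwise fixer of `V0` is inside `H`
  let R : Subgroup (Cfsg.isometryGroup F (Cfsg.quadFormPlus m F)) :=
    { carrier := {r | ∀ v ∈ V0, (e r : _ ≃ₗ[F] _) v = v}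
      one_mem' := fun v _ => by rw [map_one]; rfl
      mul_mem' := fun {a b} ha hb v hv => by
        rw [map_mul, H5.orth_mul_apply, hb v hv, ha v hv]
      inv_mem' := fun {a} ha v hv => by
        rw [map_inv]
        conv_lhs => rw [← ha v hv]
        exact H5.orth_inv_apply_apply _ _ }
  have hR : IsPGroup 2 R := fun r => ⟨3, Subtype.ext (e.injective (by
    rw [Subgroup.coe_pow, map_pow, Subgroup.coe_one, map_one]
    exact OPlusTwo.pow_eight_of_fix h2 h20 (by omega) hQ hdim hM hM0 V0 (by omega) hV0s _ r.2))⟩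
  have hHR : (H : Subgroup _) ≤ Subgroup.normalizer (R : Set (Cfsg.isometryGroup F (Cfsg.quadFormPlus m F))) := by
    intro h hh
    have key : ∀ k ∈ (H : Subgroup _), ∀ r ∈ R, k * r * k⁻¹ ∈ R := by
      intro k hk r hr v hv
      rw [map_mul, map_mul, map_inv, H5.orth_mul_apply, H5.orth_mul_apply, hr _ ?_,
        H5.orth_apply_inv_apply]
      rw [← map_inv]
      exact hV0P _ (Subgroup.mem_map_of_mem _ (inv_mem hk)) v hv
    rw [Subgroup.mem_normalizer_iff]
    intro r
    refine ⟨fun hr => key h hh r hr, fun hr => ?_⟩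
    have := key h⁻¹ (inv_mem hh) _ hr
    simpa [mul_assoc] using this
  have hRH : R ≤ (H : Subgroup _) :=
    le_sup_right.trans (H.3 (H.2.to_sup_of_normal_right' hR hHR) le_sup_left).le
  let g : (Fin m ⊕ Fin m → F) ≃ₗ[F] (Fin m ⊕ Fin m → F) := (e x : H5.orth Q)
  obtain ⟨t, ht1, ht0, htg⟩ := OPlusTwo.exists_common_fix (m := m) hQ hdim V0
    (V0.map g.toLinearMap) (by omega) (by rw [LinearEquiv.finrank_map_eq]; omega)
  intro hbot
  refine ht1 ?_
  have hmem : e.symm t ∈ (H : Subgroup _) ⊓ MulAut.conj x • (H : Subgroup _) := by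
    refine ⟨hRH fun v hv => by rw [e.apply_symm_apply]; exact ht0 v hv, ?_⟩
    show e.symm t ∈ MulAut.conj x • (H : Subgroup (Cfsg.isometryGroup F (Cfsg.quadFormPlus m F)))
    rw [Subgroup.mem_pointwise_smul_iff_inv_smul_mem]
    refine hRH fun v hv => ?_
    rw [MulAut.smul_def, ← map_inv, MulAut.conj_apply, map_mul, map_mul, e.apply_symm_apply,
      inv_inv, map_inv, H5.orth_mul_apply, H5.orth_mul_apply,
      show (t : (Fin m ⊕ Fin m → F) ≃ₗ[F] (Fin m ⊕ Fin m → F)) (g v) = g v from htg _ (Submodule.mem_map_of_mem hv)]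
    exact H5.orth_inv_apply_apply _ _
  rw [hbot, Subgroup.mem_bot] at hmem
  rw [← e.apply_symm_apply t, hmem, map_one]

end Cfsg.Agent.S2487
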