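import Cfsg.Statements.S2488
import Cfsg.Agent.H62.AutASixSylow

set_option autoImplicit false
open scoped Pointwise
open Cfsg

namespace Cfsg.Agent.S2488

/-- Let G be a finite group with a normal subgroup N of index 4 isomorphic to the alternating group of degree 6 and with trivial centralizer in G (so G is the full automorphism group of A₆). Then any two Sylow 2-subgroups of G have a non-trivial intersection: for a Sylow 2-subgroup H and every x ∈ G, H ∩ H^x ≠ 1. -/
theorem result {G : Type*} [Group G] [Finite G] (N : Subgroup G) [N.Normal]
    (e : N ≃* alternatingGroup (Fin 6)) (hidx : N.index = 4)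
    (hC : Subgroup.centralizer (N : Set G) = ⊥)
    (H : Sylow 2 G) (x : G) :
    (H : Subgroup G) ⊓ MulAut.conj x • (H : Subgroup G) ≠ ⊥ := by
  exact Cfsg.Agent.H62.ASix.sylow_two_inf_ne_bot N e hidx H x

end Cfsg.Agent.S2488
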