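import Cfsg.Statements.S2493
import Cfsg.Agent.H45.AltDoubleCover

set_option autoImplicit false
open Cfsg

namespace Cfsg.Agent.S2493

/-- Let n ≥ 5 and let G be a finite perfect group whose centre has order 2 with G/Z(G) isomorphic to the alternating group of degree n (the double cover of the alternating group). Then every element of G is a commutator. -/
theorem result {G : Type*} [Group G] [Finite G] (hperf : commutator G = ⊤) {n : ℕ} (hn : 5 ≤ n)
    (hZ : Nat.card (Subgroup.center G) = 2) (e : G ⧸ Subgroup.center G ≃* alternatingGroup (Fin n))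
    (g : G) :
    ∃ a b : G, a * b * a⁻¹ * b⁻¹ = g := by
  let σ : G →* alternatingGroup (Fin n) := e.toMonoidHom.comp (QuotientGroup.mk' _)
  have hker : σ.ker = Subgroup.center G := by
    ext x
    simp [σ, MonoidHom.mem_ker]
  obtain ⟨z, hzne, hzu⟩ : ∃ z : Subgroup.center G, z ≠ 1 ∧ ∀ u : Subgroup.center G, u ≠ 1 → u = z :=
    (Nat.card_eq_two_iff' 1).1 hZ
  refine H45.AltCover.Setting.isCommutator (σ := σ) (z := (z : G)) ⟨hn, ⟨?_, hker.le, ?_⟩,
    fun h => hzne (Subtype.ext h), hker.ge z.2, fun u hu => ?_⟩ g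
  · exact e.surjective.comp (QuotientGroup.mk'_surjective _)
  · rw [hperf]; exact le_top
  · rw [hker] at hu
    by_cases hu1 : u = 1
    · exact Or.inl hu1
    · exact Or.inr (congrArg Subtype.val (hzu ⟨u, hu⟩ fun h => hu1 (congrArg Subtype.val h)))

end Cfsg.Agent.S2493
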