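import Cfsg.Statements.S2503
import Cfsg.Agent.H69.SL2Tori
import Cfsg.Agent.H6.Basic

set_option autoImplicit false
open Cfsg

namespace Cfsg.Agent.S2503

open Cfsg.Agent.H69

/-- Let F be a finite field with q = 2^t ≥ 4 elements and L = PSL(2,F). Then L has a cyclic subgroup A of order q + 1 and an elementary abelian 2-subgroup B of order q such that L = ABA: every element of L is a product a·b·a' with a, a' ∈ A and b ∈ B. -/
theorem result {F : Type*} [Field F] [Fintype F]
    (h2 : 2 ∣ Fintype.card F) (h4 : 4 ≤ Fintype.card F) :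
    ∃ A B : Subgroup (Matrix.ProjectiveSpecialLinearGroup (Fin 2) F),
      IsCyclic A ∧ Nat.card A = Fintype.card F + 1 ∧ IsMulCommutative B ∧ (∀ b ∈ B, b * b = 1) ∧
        Nat.card B = Fintype.card F ∧
        ∀ g : Matrix.ProjectiveSpecialLinearGroup (Fin 2) F, ∃ a ∈ A, ∃ b ∈ B, ∃ c ∈ A, g = a * b * c := by
  classical
  have hchar : ringChar F = 2 :=
    FiniteField.even_card_iff_char_two.2 (by omega)
  have two : (2 : F) = 0 := by
    have h := ringChar.Nat.cast_ringChar (R := F)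
    rw [hchar] at h
    exact_mod_cast h
  have hneg : ∀ a : F, -a = a := fun a => by linear_combination -a * two
  have hπ : Function.Injective (Cfsg.Agent.H6.π : Matrix.SpecialLinearGroup (Fin 2) F →
      Matrix.ProjectiveSpecialLinearGroup (Fin 2) F) := by
    intro g h hgh
    rcases Cfsg.Agent.H6.π_eq_iff.1 hgh with h1 | h1
    · exact h1
    · rw [h1]
      ext i j
      rw [Matrix.SpecialLinearGroup.coe_neg, Matrix.neg_apply, hneg]
  obtain ⟨t, ht⟩ := exists_rootCount_zero (F := F)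
  set T : Matrix.SpecialLinearGroup (Fin 2) F := slComp t with hT
  have hTns : ¬ IsScalar2 (T : Matrix (Fin 2) (Fin 2) F) := not_isScalar2_slComp t
  have htr : (T : Matrix (Fin 2) (Fin 2) F).trace = t := trace_slComp t
  have ht4 : (T : Matrix (Fin 2) (Fin 2) F).trace ^ 2 ≠ 4 := by
    rw [htr]; exact sq_ne_four_of_rootCount_zero ht
  let A := Subgroup.centralizer ({T} : Set (Matrix.SpecialLinearGroup (Fin 2) F))
  let U : F → Matrix.SpecialLinearGroup (Fin 2) F := fun x => Cfsg.Agent.H6.sl2 1 x 0 1 (by ring)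
  have hUmul : ∀ x y : F, U x * U y = U (x + y) := by
    intro x y
    apply Cfsg.Agent.H6.sl2_ext <;> simp [U, Cfsg.Agent.H6.sl2_mul, add_comm]
  have hU0 : U 0 = 1 := by apply Cfsg.Agent.H6.sl2_ext <;> simp [U]
  let UH : Multiplicative F →* Matrix.SpecialLinearGroup (Fin 2) F :=
    { toFun := fun x => U x.toAdd
      map_one' := hU0
      map_mul' := fun x y => (hUmul _ _).symm }
  have hUinj : Function.Injective UH := fun x y h => by
    have := congrArg (fun g : Matrix.SpecialLinearGroup (Fin 2) F =>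
      (g : Matrix (Fin 2) (Fin 2) F) 0 1) h
    simpa [UH, U] using this
  refine ⟨A.map Cfsg.Agent.H6.π, UH.range.map Cfsg.Agent.H6.π, ?_, ?_, ?_, ?_, ?_, ?_⟩
  · haveI := isCyclic_centralizer hTns ht4
    exact isCyclic_of_surjective (Cfsg.Agent.H6.π.subgroupMap A)
      (Cfsg.Agent.H6.π.subgroupMap_surjective A)
  · rw [Subgroup.card_map_of_injective hπ]
    have := card_centralizer_elliptic hTns (htr.symm ▸ ht)
    rwa [Nat.card_eq_fintype_card (α := F)] at this
  · refine ⟨⟨?_⟩⟩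
    rintro ⟨_, _, ⟨x, rfl⟩, rfl⟩ ⟨_, _, ⟨y, rfl⟩, rfl⟩
    apply Subtype.ext
    simp only [Subgroup.coe_mul, ← map_mul, mul_comm x y]
  · rintro _ ⟨_, ⟨x, rfl⟩, rfl⟩
    rw [← map_mul, ← map_mul]
    have : x * x = 1 := by
      apply Multiplicative.toAdd.injective
      simp only [toAdd_mul, toAdd_one]
      linear_combination x.toAdd * two
    rw [this, map_one, map_one]
  · rw [Subgroup.card_map_of_injective hπ]
    rw [← Nat.card_congr (MonoidHom.ofInjective hUinj).toEquiv, Nat.card_congr Multiplicative.toAdd,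
      Nat.card_eq_fintype_card]
  · intro g
    obtain ⟨G, rfl⟩ := Cfsg.Agent.H6.π_surjective g
    let Q : F → F → F := fun a b => normForm t (a, b)
    have haniso : ∀ a b : F, ¬ (a = 0 ∧ b = 0) → Q a b ≠ 0 := by
      intro a b hab hz
      by_cases hb : b = 0
      · exact hab ⟨by simpa [Q, normForm, hb] using hz, hb⟩
      · refine rootCount_eq_zero_iff.1 ht (-a / b) ?_
        simp only [Q, normForm] at hz
        field_simp
        linear_combination hz
    set g00 := (G : Matrix (Fin 2) (Fin 2) F) 0 0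
    set g01 := (G : Matrix (Fin 2) (Fin 2) F) 0 1
    set g10 := (G : Matrix (Fin 2) (Fin 2) F) 1 0
    set g11 := (G : Matrix (Fin 2) (Fin 2) F) 1 1
    obtain ⟨α, hα⟩ := FiniteField.isSquare_of_char_two hchar (Q g00 g10 + 1)
    obtain ⟨β, hβ⟩ := FiniteField.isSquare_of_char_two hchar (Q g01 g11 + 1)
    obtain ⟨x0, y0, hne, hline⟩ : ∃ x0 y0 : F, ¬ (x0 = 0 ∧ y0 = 0) ∧ α * x0 + β * y0 = 0 := by
      by_cases h : β = 0 ∧ α = 0
      · exact ⟨1, 0, by simp, by simp [h.2]⟩
      · exact ⟨β, α, h, by linear_combination α * β * two⟩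
    obtain ⟨r, hr⟩ := FiniteField.isSquare_of_char_two hchar (Q x0 y0)
    have hr0 : r ≠ 0 := by
      rintro rfl
      exact haniso x0 y0 hne (by linear_combination hr)
    have hd : g00 * g11 - g01 * g10 = 1 := by
      have := G.2
      rwa [Matrix.det_fin_two] at this
    have hv : Q (x0 / r) (y0 / r) = 1 := by
      simp only [Q, normForm] at hr ⊢
      field_simp
      linear_combination hr
    have hw : Q (g00 * (x0 / r) + g01 * (y0 / r)) (g10 * (x0 / r) + g11 * (y0 / r)) = 1 := by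
      simp only [Q, normForm] at hr hα hβ ⊢
      field_simp
      have hsq : (α * x0 + β * y0) ^ 2 = 0 := by rw [hline]; ring
      linear_combination hsq + hr + x0 ^ 2 * hα + y0 ^ 2 * hβ + t * x0 * y0 * hd +
        (g00 * g01 * x0 * y0 + g10 * g11 * x0 * y0 + t * g01 * g10 * x0 * y0 - α * β * x0 * y0
          - x0 ^ 2 - y0 ^ 2) * two
    obtain ⟨a, haA, ha0, ha1⟩ : ∃ a ∈ A, (a : Matrix (Fin 2) (Fin 2) F) 0 0 =
        g00 * (x0 / r) + g01 * (y0 / r) ∧ (a : Matrix (Fin 2) (Fin 2) F) 1 0 =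
        g10 * (x0 / r) + g11 * (y0 / r) := by
      refine ⟨_, (centMap T ⟨(_, _), (by rw [htr]; exact hw)⟩).2, ?_, ?_⟩ <;>
        simp [centMap_coe, hT, slComp, comp2]
    obtain ⟨c, hcA, hc0, hc1⟩ : ∃ c ∈ A, (c : Matrix (Fin 2) (Fin 2) F) 0 0 = x0 / r ∧
        (c : Matrix (Fin 2) (Fin 2) F) 1 0 = y0 / r := by
      refine ⟨_, (centMap T ⟨(_, _), (by rw [htr]; exact hv)⟩).2, ?_, ?_⟩ <;>
        simp [centMap_coe, hT, slComp, comp2]
    have hda : (a : Matrix (Fin 2) (Fin 2) F) 0 0 * (a : Matrix (Fin 2) (Fin 2) F) 1 1 -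
        (a : Matrix (Fin 2) (Fin 2) F) 0 1 * (a : Matrix (Fin 2) (Fin 2) F) 1 0 = 1 :=
      Cfsg.Agent.H6.sl2_det a
    set b := a⁻¹ * G * c with hb
    have hb10 : (b : Matrix (Fin 2) (Fin 2) F) 1 0 = 0 := by
      simp only [hb, Cfsg.Agent.H6.sl2_mul, Cfsg.Agent.H6.sl2_inv_10, Cfsg.Agent.H6.sl2_inv_11,
        hc0, hc1, ha0, ha1]
      simp only [g00, g01, g10, g11]
      ring
    have hb00 : (b : Matrix (Fin 2) (Fin 2) F) 0 0 = 1 := by
      simp only [hb, Cfsg.Agent.H6.sl2_mul, Cfsg.Agent.H6.sl2_inv_00, Cfsg.Agent.H6.sl2_inv_01,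
        hc0, hc1]
      simp only [g00, g01, g10, g11] at ha0 ha1
      linear_combination hda - (a : Matrix (Fin 2) (Fin 2) F) 1 1 * ha0 +
        (a : Matrix (Fin 2) (Fin 2) F) 0 1 * ha1
    have hb11 : (b : Matrix (Fin 2) (Fin 2) F) 1 1 = 1 := by
      have := Cfsg.Agent.H6.sl2_det b
      rw [hb10, hb00] at this
      linear_combination this
    have hbU : b = UH (Multiplicative.ofAdd ((b : Matrix (Fin 2) (Fin 2) F) 0 1)) := by
      apply Cfsg.Agent.H6.sl2_ext <;> simp [UH, U, hb10, hb00, hb11]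
    refine ⟨_, Subgroup.mem_map_of_mem _ haA, _,
      Subgroup.mem_map_of_mem _ ⟨_, hbU.symm⟩, _, Subgroup.mem_map_of_mem _ (A.inv_mem hcA), ?_⟩
    rw [← map_mul, ← map_mul, hb]
    congr 1
    simp [mul_assoc]

end Cfsg.Agent.S2503
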