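import Cfsg.Statements.S2506
import Cfsg.Agent.H63.AbelianPermConj

set_option autoImplicit false
open scoped Pointwise
open Cfsg

namespace Cfsg.Agent.S2506

/-- In the alternating group of any degree, any two abelian subgroups of the largest possible order (among abelian subgroups) are conjugate. -/
theorem result (n : ℕ)
    (A B : Subgroup (alternatingGroup (Fin n))) (hA : IsMulCommutative A) (hB : IsMulCommutative B)
    (hAmax : ∀ C : Subgroup (alternatingGroup (Fin n)), IsMulCommutative C → Nat.card C ≤ Nat.card A)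
    (hBmax : ∀ C : Subgroup (alternatingGroup (Fin n)), IsMulCommutative C → Nat.card C ≤ Nat.card B) :
    ∃ g : alternatingGroup (Fin n), B = MulAut.conj g • A := by
  by_cases hn : n ≤ 2
  · have : Subsingleton ↥(alternatingGroup (Fin n)) := by
      rw [alternatingGroup.eq_bot_of_card_le_two (by simpa using hn)]
      infer_instance
    exact ⟨1, Subsingleton.elim _ _⟩
  obtain ⟨C, hC, hCc⟩ := (H63.isGreatest_alternating n (by omega)).1
  let ι := (alternatingGroup (Fin n)).subtype
  have hι : Function.Injective ι := Subtype.val_injective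
  have key : ∀ D : Subgroup (alternatingGroup (Fin n)), IsMulCommutative D →
      (∀ C : Subgroup (alternatingGroup (Fin n)), IsMulCommutative C → Nat.card C ≤ Nat.card D) →
      IsMulCommutative ↥(D.map ι) ∧ Nat.card ↥(D.map ι) = H63.maxProdNoTwo n := by
    intro D hD hDmax
    let e := D.equivMapOfInjective ι hι
    refine ⟨⟨⟨fun a b => e.symm.injective (by rw [map_mul, map_mul, mul_comm'])⟩⟩, ?_⟩
    rw [← Nat.card_congr e.toEquiv]
    exact le_antisymm ((H63.isGreatest_alternating n (by omega)).2 ⟨D, hD, rfl⟩)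
      (hCc ▸ hDmax C hC)
  obtain ⟨hA', hAc⟩ := key A hA hAmax
  obtain ⟨hB', hBc⟩ := key B hB hBmax
  haveI := hA'
  haveI := hB'
  obtain ⟨g, hg, hconj⟩ := H63.exists_alternating_conj (A := A.map ι) (B := B.map ι)
    (by simpa using by omega) (Subgroup.map_subtype_le A) (Subgroup.map_subtype_le B)
    (by simpa using hAc) (by simpa using hBc)
  refine ⟨⟨g, hg⟩, (Subgroup.eq_of_le_of_card_ge (H := MulAut.conj (⟨g, hg⟩ : alternatingGroup (Fin n)) • A) ?_ ?_).symm⟩
  · intro x hx
    obtain ⟨a, ha, rfl⟩ := Subgroup.mem_map.1 hx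
    obtain ⟨b, hb, hbeq⟩ := Subgroup.mem_map.1 (hconj _ (Subgroup.mem_map_of_mem ι ha))
    have : MulAut.conj (⟨g, hg⟩ : alternatingGroup (Fin n)) a = b := Subtype.ext hbeq.symm
    show MulAut.conj (⟨g, hg⟩ : alternatingGroup (Fin n)) a ∈ B
    rwa [this]
  · rw [← Nat.card_congr (B.equivMapOfInjective ι hι).symm.toEquiv, hBc, ← hAc,
      Nat.card_congr (A.equivMapOfInjective ι hι).symm.toEquiv]
    exact le_of_eq (Nat.card_congr (Subgroup.equivSMul _ A).toEquiv)

end Cfsg.Agent.S2506
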