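import Cfsg.Statements.S2510
import Cfsg.Agent.H71.PSLSpectrum

set_option autoImplicit false
open Cfsg

namespace Cfsg.Agent.S2510

open Cfsg.Agent.H71.PSLBlocks Cfsg.Agent.H71.PSLSpectrum

theorem range_prod3_eq {L V : Type*} [Group L] [Finite L] [Group V] (r : ℕ)
    (hV : ∀ v : V, orderOf v ∣ r)
    (h : ∀ a b c : L, ∃ a' b' c' : L,
      Nat.lcm (orderOf a) (Nat.lcm (orderOf b) (Nat.lcm (orderOf c) r)) ∣ orderOf (a', b', c')) :
    Set.range (orderOf : L × L × L × V → ℕ) = Set.range (orderOf : L × L × L → ℕ) := by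
  ext N
  constructor
  · rintro ⟨⟨a, b, c, v⟩, rfl⟩
    obtain ⟨a', b', c', h'⟩ := h a b c
    have hd : orderOf (a, b, c, v) ∣ orderOf (a', b', c') := by
      refine dvd_trans ?_ h'
      simp only [Prod.orderOf_mk]
      exact lcm_dvd_lcm dvd_rfl (lcm_dvd_lcm dvd_rfl (lcm_dvd_lcm dvd_rfl (hV v)))
    exact ⟨(a', b', c') ^ (orderOf (a', b', c') / orderOf (a, b, c, v)),
      orderOf_pow_orderOf_div (orderOf_pos _).ne' hd⟩
  · rintro ⟨⟨a, b, c⟩, rfl⟩
    exact ⟨(a, b, c, 1), by simp [Prod.orderOf_mk]⟩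

theorem range_prod2_eq {L V : Type*} [Group L] [Finite L] [Group V] (r : ℕ)
    (hV : ∀ v : V, orderOf v ∣ r)
    (h : ∀ a b : L, ∃ a' b' : L,
      Nat.lcm (orderOf a) (Nat.lcm (orderOf b) r) ∣ orderOf (a', b')) :
    Set.range (orderOf : L × L × V → ℕ) = Set.range (orderOf : L × L → ℕ) := by
  ext N
  constructor
  · rintro ⟨⟨a, b, v⟩, rfl⟩
    obtain ⟨a', b', h'⟩ := h a b
    have hd : orderOf (a, b, v) ∣ orderOf (a', b') := by
      refine dvd_trans ?_ h'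
      simp only [Prod.orderOf_mk]
      exact lcm_dvd_lcm dvd_rfl (lcm_dvd_lcm dvd_rfl (hV v))
    exact ⟨(a', b') ^ (orderOf (a', b') / orderOf (a, b, v)),
      orderOf_pow_orderOf_div (orderOf_pos _).ne' hd⟩
  · rintro ⟨⟨a, b⟩, rfl⟩
    exact ⟨(a, b, 1), by simp [Prod.orderOf_mk]⟩

theorem mul_dvd_lcm {a b : ℕ} (h : Nat.Coprime a b) {M : ℕ} (ha : a ∣ M) (hb : b ∣ M) :
    a * b ∣ M := h.mul_dvd_of_dvd_of_dvd ha hb

theorem coprime_geomQuot {q p a d e : ℕ} (hp : p.Prime) (hq : q = p ^ a) (ha : 1 ≤ a) (hd : 1 ≤ d) :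
    Nat.Coprime (geomQuot q d) (p ^ e) := by
  refine Nat.Coprime.pow_right _ ((hp.coprime_iff_not_dvd).mpr fun h => ?_).symm
  have hq1 : 2 ≤ q := hq ▸ (hp.two_le.trans (Nat.le_self_pow (by omega) p))
  have h1 : p ∣ q ^ d - 1 := (h.mul_right (q - 1)).trans (geomQuot_mul q d).dvd
  have h2 : p ∣ q ^ d := (dvd_pow_self p (by omega : a ≠ 0)).trans (hq ▸ dvd_pow_self q (by omega))
  have h3 : 1 ≤ q ^ d := Nat.one_le_pow _ _ (by omega)
  have h4 := Nat.dvd_sub h2 h1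
  rw [Nat.sub_sub_self h3, Nat.dvd_one] at h4
  exact hp.ne_one h4

/-- Let F be a finite field with q = p^a elements, n ≥ 2 (with q ≥ 4 when n = 2), L = PSL(n, F), and let r be a prime dividing q − 1 and not dividing n. Then for every m the direct product L × L × L × (ℤ/r)^m has the same set of element orders as L × L × L; and if n − 1 ≠ p^j for every j ≥ 0 (so never when n = 2, since 1 = p^0), then already L × L × (ℤ/r)^m has the same set of element orders as L × L. -/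
theorem result {F : Type*} [Field F] [Fintype F] (p a n r m : ℕ) (hp : p.Prime) (ha : 1 ≤ a) (hF : Fintype.card F = p ^ a)
    (hn : 2 ≤ n) (hn2 : n = 2 → 4 ≤ Fintype.card F) (hr : r.Prime) (hrq : r ∣ Fintype.card F - 1) (hrn : ¬ r ∣ n) :
    Set.range (orderOf : Matrix.ProjectiveSpecialLinearGroup (Fin n) F × Matrix.ProjectiveSpecialLinearGroup (Fin n) F × Matrix.ProjectiveSpecialLinearGroup (Fin n) F × Multiplicative (Fin m → ZMod r) → ℕ) =
      Set.range (orderOf : Matrix.ProjectiveSpecialLinearGroup (Fin n) F × Matrix.ProjectiveSpecialLinearGroup (Fin n) F × Matrix.ProjectiveSpecialLinearGroup (Fin n) F → ℕ) ∧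
    ((¬ ∃ j : ℕ, n - 1 = p ^ j) →
      Set.range (orderOf : Matrix.ProjectiveSpecialLinearGroup (Fin n) F × Matrix.ProjectiveSpecialLinearGroup (Fin n) F × Multiplicative (Fin m → ZMod r) → ℕ) =
        Set.range (orderOf : Matrix.ProjectiveSpecialLinearGroup (Fin n) F × Matrix.ProjectiveSpecialLinearGroup (Fin n) F → ℕ)) := by
  classical
  have : Fact r.Prime := ⟨hr⟩
  have : Fact p.Prime := ⟨hp⟩
  have : CharP F p := by
    obtain ⟨p', hp'⟩ := CharP.exists F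
    obtain ⟨e, hpp, hcard⟩ := FiniteField.card F p'
    have he : p = p' := by
      have h1 : p ∣ p' ^ (e : ℕ) := by rw [← hcard, hF]; exact dvd_pow_self p (by omega)
      exact (Nat.prime_dvd_prime_iff_eq hp hpp).mp (hp.dvd_of_dvd_pow h1)
    rwa [he]
  have hn1 : 1 ≤ n := by omega
  have hV : ∀ v : Multiplicative (Fin m → ZMod r), orderOf v ∣ r := fun v => by
    refine orderOf_dvd_of_pow_eq_one (Multiplicative.toAdd.injective ?_)
    funext i
    simp
  have h2d : ∀ {d k : ℕ}, 2 ≤ k → d * k = n → 2 * d ≤ n := fun {d k} hk h => by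
    have := Nat.mul_le_mul_left d hk
    omega
  obtain ⟨S, hS⟩ := exists_A (F := F) hn1
  obtain ⟨U, hU⟩ := exists_U (F := F) p hn1
  have hB : ∀ {o d k M : ℕ}, 1 ≤ d → o ∣ geomQuot (Fintype.card F) d * p ^ Nat.clog p k →
      geomQuot (Fintype.card F) d ∣ M → p ^ Nat.clog p k ∣ M → o ∣ M :=
    fun hd ho h1 h2 => ho.trans (mul_dvd_lcm (coprime_geomQuot hp hF ha hd) h1 h2)
  have hUk : ∀ {d k : ℕ}, 1 ≤ d → d * k = n → p ^ Nat.clog p k ∣ orderOf U := fun {d k} hd h =>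
    (pow_dvd_pow p (Nat.clog_mono_right p (h ▸ Nat.le_mul_of_pos_left k hd))).trans hU
  refine ⟨range_prod3_eq r hV fun x y z => ?_, fun hnp => range_prod2_eq r hV fun x y => ?_⟩
  · have key : ∀ (x' y' z' : Matrix.ProjectiveSpecialLinearGroup (Fin n) F) (M : ℕ), M = orderOf (x', y', z') → orderOf x ∣ M → orderOf y ∣ M →
        orderOf z ∣ M → r ∣ M → ∃ a' b' c' : Matrix.ProjectiveSpecialLinearGroup (Fin n) F,
          Nat.lcm (orderOf x) (Nat.lcm (orderOf y) (Nat.lcm (orderOf z) r)) ∣ orderOf (a', b', c') := by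
      rintro x' y' z' M rfl h1 h2 h3 h4
      exact ⟨x', y', z', Nat.lcm_dvd h1 (Nat.lcm_dvd h2 (Nat.lcm_dvd h3 h4))⟩
    have c1 : ∀ a' b' c' : Matrix.ProjectiveSpecialLinearGroup (Fin n) F,
        orderOf a' ∣ orderOf (a', b', c') ∧ orderOf b' ∣ orderOf (a', b', c') ∧
          orderOf c' ∣ orderOf (a', b', c') := fun a' b' c' => by
      simp only [Prod.orderOf_mk]
      exact ⟨dvd_lcm_left _ _, (dvd_lcm_left _ _).trans (dvd_lcm_right _ _),
        (dvd_lcm_right _ _).trans (dvd_lcm_right _ _)⟩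
    rcases cases_elt p r hrq hrn hn1 x with ⟨h, hx⟩ | hx'
    · obtain ⟨e1, e2, e3⟩ := c1 h y z
      exact key h y z _ rfl ((Nat.dvd_lcm_left _ _).trans (hx.trans e1)) e2 e3
        ((Nat.dvd_lcm_right _ _).trans (hx.trans e1))
    rcases cases_elt p r hrq hrn hn1 y with ⟨h, hy⟩ | hy'
    · obtain ⟨e1, e2, e3⟩ := c1 x h z
      exact key x h z _ rfl e1 ((Nat.dvd_lcm_left _ _).trans (hy.trans e2)) e3
        ((Nat.dvd_lcm_right _ _).trans (hy.trans e2))
    rcases cases_elt p r hrq hrn hn1 z with ⟨h, hz⟩ | hz'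
    · obtain ⟨e1, e2, e3⟩ := c1 x y h
      exact key x y h _ rfl e1 e2 ((Nat.dvd_lcm_left _ _).trans (hz.trans e3))
        ((Nat.dvd_lcm_right _ _).trans (hz.trans e3))
    rcases hx' with hx | ⟨dx, kx, hdx, hkx, hnx, hx⟩ <;>
      rcases hy' with hy | ⟨dy, ky, hdy, hky, hny, hy⟩ <;>
      rcases hz' with hz | ⟨dz, kz, hdz, hkz, hnz, hz⟩
    · obtain ⟨Y, f1, f2, f3⟩ := exists_Y1 r hrq hrn (n := n) le_rfl le_rfl hn hn
      obtain ⟨e1, e2, e3⟩ := c1 S U Y
      exact key S U Y _ rfl ((hx.trans hS).trans e1) ((hy.trans hS).trans e1) ((hz.trans hS).trans e1)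
        (f3.trans e3)
    · obtain ⟨Y, f1, f2, f3⟩ := exists_Y1 r hrq hrn hdz hdz (h2d hkz hnz) (h2d hkz hnz)
      obtain ⟨e1, e2, e3⟩ := c1 S U Y
      exact key S U Y _ rfl ((hx.trans hS).trans e1) ((hy.trans hS).trans e1)
        (hB hdz hz (f1.trans e3) ((hUk hdz hnz).trans e2)) (f3.trans e3)
    · obtain ⟨Y, f1, f2, f3⟩ := exists_Y1 r hrq hrn hdy hdy (h2d hky hny) (h2d hky hny)
      obtain ⟨e1, e2, e3⟩ := c1 S U Y
      exact key S U Y _ rfl ((hx.trans hS).trans e1)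
        (hB hdy hy (f1.trans e3) ((hUk hdy hny).trans e2)) ((hz.trans hS).trans e1) (f3.trans e3)
    · obtain ⟨Y, f1, f2, f3⟩ := exists_Y1 r hrq hrn hdy hdz (h2d hky hny) (h2d hkz hnz)
      obtain ⟨e1, e2, e3⟩ := c1 S U Y
      exact key S U Y _ rfl ((hx.trans hS).trans e1)
        (hB hdy hy (f1.trans e3) ((hUk hdy hny).trans e2))
        (hB hdz hz (f2.trans e3) ((hUk hdz hnz).trans e2)) (f3.trans e3)
    · obtain ⟨Y, f1, f2, f3⟩ := exists_Y1 r hrq hrn hdx hdx (h2d hkx hnx) (h2d hkx hnx)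
      obtain ⟨e1, e2, e3⟩ := c1 S U Y
      exact key S U Y _ rfl (hB hdx hx (f1.trans e3) ((hUk hdx hnx).trans e2))
        ((hy.trans hS).trans e1) ((hz.trans hS).trans e1) (f3.trans e3)
    · obtain ⟨Y, f1, f2, f3⟩ := exists_Y1 r hrq hrn hdx hdz (h2d hkx hnx) (h2d hkz hnz)
      obtain ⟨e1, e2, e3⟩ := c1 S U Y
      exact key S U Y _ rfl (hB hdx hx (f1.trans e3) ((hUk hdx hnx).trans e2))
        ((hy.trans hS).trans e1)
        (hB hdz hz (f2.trans e3) ((hUk hdz hnz).trans e2)) (f3.trans e3)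
    · obtain ⟨Y, f1, f2, f3⟩ := exists_Y1 r hrq hrn hdx hdy (h2d hkx hnx) (h2d hky hny)
      obtain ⟨e1, e2, e3⟩ := c1 S U Y
      exact key S U Y _ rfl (hB hdx hx (f1.trans e3) ((hUk hdx hnx).trans e2))
        (hB hdy hy (f2.trans e3) ((hUk hdy hny).trans e2)) ((hz.trans hS).trans e1) (f3.trans e3)
    · obtain ⟨Y, f1, f2, f3⟩ := exists_Y1 r hrq hrn hdx hdy (h2d hkx hnx) (h2d hky hny)
      obtain ⟨Y', g1, g2, g3⟩ := exists_Y1 r hrq hrn hdz hdz (h2d hkz hnz) (h2d hkz hnz)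
      obtain ⟨e1, e2, e3⟩ := c1 Y U Y'
      exact key Y U Y' _ rfl (hB hdx hx (f1.trans e1) ((hUk hdx hnx).trans e2))
        (hB hdy hy (f2.trans e1) ((hUk hdy hny).trans e2))
        (hB hdz hz (g1.trans e3) ((hUk hdz hnz).trans e2)) (f3.trans e1)
  · have key : ∀ (x' y' : Matrix.ProjectiveSpecialLinearGroup (Fin n) F) (M : ℕ), M = orderOf (x', y') → orderOf x ∣ M → orderOf y ∣ M →
        r ∣ M → ∃ a' b' : Matrix.ProjectiveSpecialLinearGroup (Fin n) F,
          Nat.lcm (orderOf x) (Nat.lcm (orderOf y) r) ∣ orderOf (a', b') := by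
      rintro x' y' M rfl h1 h2 h4
      exact ⟨x', y', Nat.lcm_dvd h1 (Nat.lcm_dvd h2 h4)⟩
    have c1 : ∀ a' b' : Matrix.ProjectiveSpecialLinearGroup (Fin n) F,
        orderOf a' ∣ orderOf (a', b') ∧ orderOf b' ∣ orderOf (a', b') := fun a' b' => by
      simp only [Prod.orderOf_mk]
      exact ⟨dvd_lcm_left _ _, dvd_lcm_right _ _⟩
    rcases cases_elt p r hrq hrn hn1 x with ⟨h, hx⟩ | hx'
    · obtain ⟨e1, e2⟩ := c1 h y
      exact key h y _ rfl ((Nat.dvd_lcm_left _ _).trans (hx.trans e1)) e2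
        ((Nat.dvd_lcm_right _ _).trans (hx.trans e1))
    rcases cases_elt p r hrq hrn hn1 y with ⟨h, hy⟩ | hy'
    · obtain ⟨e1, e2⟩ := c1 x h
      exact key x h _ rfl e1 ((Nat.dvd_lcm_left _ _).trans (hy.trans e2))
        ((Nat.dvd_lcm_right _ _).trans (hy.trans e2))
    rcases hx' with hx | ⟨dx, kx, hdx, hkx, hnx, hx⟩ <;>
      rcases hy' with hy | ⟨dy, ky, hdy, hky, hny, hy⟩
    · obtain ⟨Y, f1, f2, f3⟩ := exists_Y1 r hrq hrn (n := n) le_rfl le_rfl hn hn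
      obtain ⟨e1, e2⟩ := c1 S Y
      exact key S Y _ rfl ((hx.trans hS).trans e1) ((hy.trans hS).trans e1) (f3.trans e2)
    · obtain ⟨Y, f1, f2, f3⟩ := exists_Y2 r hrq hrn p hnp hdy hky hny
      obtain ⟨e1, e2⟩ := c1 S Y
      exact key S Y _ rfl ((hx.trans hS).trans e1) (hB hdy hy (f1.trans e2) (f2.trans e2))
        (f3.trans e2)
    · obtain ⟨Y, f1, f2, f3⟩ := exists_Y2 r hrq hrn p hnp hdx hkx hnx
      obtain ⟨e1, e2⟩ := c1 S Y
      exact key S Y _ rfl (hB hdx hx (f1.trans e2) (f2.trans e2)) ((hy.trans hS).trans e1)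
        (f3.trans e2)
    · obtain ⟨Y, f1, f2, f3⟩ := exists_Y1 r hrq hrn hdx hdy (h2d hkx hnx) (h2d hky hny)
      obtain ⟨e1, e2⟩ := c1 Y U
      exact key Y U _ rfl (hB hdx hx (f1.trans e1) ((hUk hdx hnx).trans e2))
        (hB hdy hy (f2.trans e1) ((hUk hdy hny).trans e2)) (f3.trans e1)

end Cfsg.Agent.S2510
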