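import Cfsg.Statements.S2511
import Cfsg.Agent.H71.UnitarySpectrum
import Cfsg.Agent.S2510

set_option autoImplicit false
open Cfsg Cfsg.Agent

namespace Cfsg.Agent.S2511

theorem coprime_uQuot {q p a d e : ℕ} (hp : p.Prime) (hq : q = p ^ a) (ha : 1 ≤ a) (hd : 1 ≤ d) :
    Nat.Coprime (H71.UnitaryBlocks.uQuot q d) (p ^ e) := by
  refine Nat.Coprime.pow_right _ ((hp.coprime_iff_not_dvd).mpr fun h => ?_).symm
  have h2 : p ∣ q ^ d := (dvd_pow_self p (by omega : a ≠ 0)).trans (hq ▸ dvd_pow_self q (by omega))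
  have hq1 : 1 ≤ q := hq ▸ Nat.one_le_pow _ _ hp.pos
  rcases Nat.even_or_odd d with ⟨c, rfl⟩ | ho
  · rw [← two_mul] at h h2
    have h1 : p ∣ q ^ (2 * c) - 1 :=
      (h.mul_right (q + 1)).trans (H71.UnitaryBlocks.uQuot_mul_even q c).dvd
    have h4 := Nat.dvd_sub h2 h1
    rw [Nat.sub_sub_self (Nat.one_le_pow _ _ hq1), Nat.dvd_one] at h4
    exact hp.ne_one h4
  · have h1 : p ∣ q ^ d + 1 := (h.mul_right (q + 1)).trans (H71.UnitaryBlocks.uQuot_mul_odd ho).dvd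
    exact hp.ne_one (Nat.dvd_one.mp ((Nat.dvd_add_right h2).mp h1))

/-- Let F be a finite field with q² elements, q = p^a, n ≥ 3 with (n, q) ≠ (3, 2), L = PSU(n, q) realised over F, and let r be a prime dividing q + 1 and not dividing n. Then for every m the direct product L × L × L × (ℤ/r)^m has the same set of element orders as L × L × L; and if n − 1 is not a power of p, then already L × L × (ℤ/r)^m has the same set of element orders as L × L. -/
theorem result {F : Type*} [Field F] [Fintype F] (p a n q r m : ℕ) (hp : p.Prime) (ha : 1 ≤ a) (hq : q = p ^ a) (hF : Fintype.card F = q ^ 2)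
    (hn : 3 ≤ n) (hn3 : ¬ (n = 3 ∧ q = 2)) (hr : r.Prime) (hrq : r ∣ q + 1) (hrn : ¬ r ∣ n) :
    Set.range (orderOf : Cfsg.PSU n F q × Cfsg.PSU n F q × Cfsg.PSU n F q × Multiplicative (Fin m → ZMod r) → ℕ) = Set.range (orderOf : Cfsg.PSU n F q × Cfsg.PSU n F q × Cfsg.PSU n F q → ℕ) ∧
    ((¬ ∃ j : ℕ, n - 1 = p ^ j) →
      Set.range (orderOf : Cfsg.PSU n F q × Cfsg.PSU n F q × Multiplicative (Fin m → ZMod r) → ℕ) = Set.range (orderOf : Cfsg.PSU n F q × Cfsg.PSU n F q → ℕ)) := by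
  classical
  have : Fact r.Prime := ⟨hr⟩
  have : Fact p.Prime := ⟨hp⟩
  have hn2 : 2 ≤ n := by omega
  have : CharP F p := by
    obtain ⟨p', e, hp', hc', he, hqe⟩ := H3.exists_q_eq_pow hF
    have he : p = p' := by
      have h1 : p ∣ p' ^ e := by rw [← hqe, hq]; exact dvd_pow_self p (by omega)
      exact (Nat.prime_dvd_prime_iff_eq hp hp').mp (hp.dvd_of_dvd_pow h1)
    rw [he]; exact hc'
  have hn1 : 1 ≤ n := by omega
  have hV : ∀ v : Multiplicative (Fin m → ZMod r), orderOf v ∣ r := fun v => by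
    refine orderOf_dvd_of_pow_eq_one (Multiplicative.toAdd.injective ?_)
    funext i
    simp
  have h2d : ∀ {d k : ℕ}, 2 ≤ k → d * k = n → 2 * d ≤ n := fun {d k} hk h => by
    have := Nat.mul_le_mul_left d hk
    omega
  obtain ⟨S, hS⟩ := H71.UnitarySpectrum.exists_A (F := F) hF hn2
  obtain ⟨U, hU⟩ := H71.UnitarySpectrum.exists_U (F := F) hF hn2 p
  have hB : ∀ {o d k M : ℕ}, 1 ≤ d → o ∣ H71.UnitaryBlocks.uQuot q d * p ^ Nat.clog p k →
      H71.UnitaryBlocks.uQuot q d ∣ M → p ^ Nat.clog p k ∣ M → o ∣ M :=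
    fun hd ho h1 h2 => ho.trans (S2510.mul_dvd_lcm (coprime_uQuot hp hq ha hd) h1 h2)
  have hUk : ∀ {d k : ℕ}, 1 ≤ d → d * k = n → p ^ Nat.clog p k ∣ orderOf U := fun {d k} hd h =>
    (pow_dvd_pow p (Nat.clog_mono_right p (h ▸ Nat.le_mul_of_pos_left k hd))).trans hU
  refine ⟨S2510.range_prod3_eq r hV fun x y z => ?_, fun hnp => S2510.range_prod2_eq r hV fun x y => ?_⟩
  · have key : ∀ (x' y' z' : Cfsg.PSU n F q) (M : ℕ), M = orderOf (x', y', z') → orderOf x ∣ M → orderOf y ∣ M →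
        orderOf z ∣ M → r ∣ M → ∃ a' b' c' : Cfsg.PSU n F q,
          Nat.lcm (orderOf x) (Nat.lcm (orderOf y) (Nat.lcm (orderOf z) r)) ∣ orderOf (a', b', c') := by
      rintro x' y' z' M rfl h1 h2 h3 h4
      exact ⟨x', y', z', Nat.lcm_dvd h1 (Nat.lcm_dvd h2 (Nat.lcm_dvd h3 h4))⟩
    have c1 : ∀ a' b' c' : Cfsg.PSU n F q,
        orderOf a' ∣ orderOf (a', b', c') ∧ orderOf b' ∣ orderOf (a', b', c') ∧
          orderOf c' ∣ orderOf (a', b', c') := fun a' b' c' => by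
      simp only [Prod.orderOf_mk]
      exact ⟨dvd_lcm_left _ _, (dvd_lcm_left _ _).trans (dvd_lcm_right _ _),
        (dvd_lcm_right _ _).trans (dvd_lcm_right _ _)⟩
    rcases H71.UnitarySpectrum.cases_elt r hrq hrn hF hn2 p x with ⟨h, hx⟩ | hx'
    · obtain ⟨e1, e2, e3⟩ := c1 h y z
      exact key h y z _ rfl ((Nat.dvd_lcm_left _ _).trans (hx.trans e1)) e2 e3
        ((Nat.dvd_lcm_right _ _).trans (hx.trans e1))
    rcases H71.UnitarySpectrum.cases_elt r hrq hrn hF hn2 p y with ⟨h, hy⟩ | hy'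
    · obtain ⟨e1, e2, e3⟩ := c1 x h z
      exact key x h z _ rfl e1 ((Nat.dvd_lcm_left _ _).trans (hy.trans e2)) e3
        ((Nat.dvd_lcm_right _ _).trans (hy.trans e2))
    rcases H71.UnitarySpectrum.cases_elt r hrq hrn hF hn2 p z with ⟨h, hz⟩ | hz'
    · obtain ⟨e1, e2, e3⟩ := c1 x y h
      exact key x y h _ rfl e1 e2 ((Nat.dvd_lcm_left _ _).trans (hz.trans e3))
        ((Nat.dvd_lcm_right _ _).trans (hz.trans e3))
    rcases hx' with hx | ⟨dx, kx, hdx, hkx, hnx, hx⟩ <;>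
      rcases hy' with hy | ⟨dy, ky, hdy, hky, hny, hy⟩ <;>
      rcases hz' with hz | ⟨dz, kz, hdz, hkz, hnz, hz⟩
    · obtain ⟨Y, f1, f2, f3⟩ := H71.UnitarySpectrum.exists_Y1 r hrq hrn hF (n := n) le_rfl le_rfl hn2 hn2
      obtain ⟨e1, e2, e3⟩ := c1 S U Y
      exact key S U Y _ rfl ((hx.trans hS).trans e1) ((hy.trans hS).trans e1) ((hz.trans hS).trans e1)
        (f3.trans e3)
    · obtain ⟨Y, f1, f2, f3⟩ := H71.UnitarySpectrum.exists_Y1 r hrq hrn hF hdz hdz (h2d hkz hnz) (h2d hkz hnz)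
      obtain ⟨e1, e2, e3⟩ := c1 S U Y
      exact key S U Y _ rfl ((hx.trans hS).trans e1) ((hy.trans hS).trans e1)
        (hB hdz hz (f1.trans e3) ((hUk hdz hnz).trans e2)) (f3.trans e3)
    · obtain ⟨Y, f1, f2, f3⟩ := H71.UnitarySpectrum.exists_Y1 r hrq hrn hF hdy hdy (h2d hky hny) (h2d hky hny)
      obtain ⟨e1, e2, e3⟩ := c1 S U Y
      exact key S U Y _ rfl ((hx.trans hS).trans e1)
        (hB hdy hy (f1.trans e3) ((hUk hdy hny).trans e2)) ((hz.trans hS).trans e1) (f3.trans e3)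
    · obtain ⟨Y, f1, f2, f3⟩ := H71.UnitarySpectrum.exists_Y1 r hrq hrn hF hdy hdz (h2d hky hny) (h2d hkz hnz)
      obtain ⟨e1, e2, e3⟩ := c1 S U Y
      exact key S U Y _ rfl ((hx.trans hS).trans e1)
        (hB hdy hy (f1.trans e3) ((hUk hdy hny).trans e2))
        (hB hdz hz (f2.trans e3) ((hUk hdz hnz).trans e2)) (f3.trans e3)
    · obtain ⟨Y, f1, f2, f3⟩ := H71.UnitarySpectrum.exists_Y1 r hrq hrn hF hdx hdx (h2d hkx hnx) (h2d hkx hnx)
      obtain ⟨e1, e2, e3⟩ := c1 S U Y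
      exact key S U Y _ rfl (hB hdx hx (f1.trans e3) ((hUk hdx hnx).trans e2))
        ((hy.trans hS).trans e1) ((hz.trans hS).trans e1) (f3.trans e3)
    · obtain ⟨Y, f1, f2, f3⟩ := H71.UnitarySpectrum.exists_Y1 r hrq hrn hF hdx hdz (h2d hkx hnx) (h2d hkz hnz)
      obtain ⟨e1, e2, e3⟩ := c1 S U Y
      exact key S U Y _ rfl (hB hdx hx (f1.trans e3) ((hUk hdx hnx).trans e2))
        ((hy.trans hS).trans e1)
        (hB hdz hz (f2.trans e3) ((hUk hdz hnz).trans e2)) (f3.trans e3)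
    · obtain ⟨Y, f1, f2, f3⟩ := H71.UnitarySpectrum.exists_Y1 r hrq hrn hF hdx hdy (h2d hkx hnx) (h2d hky hny)
      obtain ⟨e1, e2, e3⟩ := c1 S U Y
      exact key S U Y _ rfl (hB hdx hx (f1.trans e3) ((hUk hdx hnx).trans e2))
        (hB hdy hy (f2.trans e3) ((hUk hdy hny).trans e2)) ((hz.trans hS).trans e1) (f3.trans e3)
    · obtain ⟨Y, f1, f2, f3⟩ := H71.UnitarySpectrum.exists_Y1 r hrq hrn hF hdx hdy (h2d hkx hnx) (h2d hky hny)
      obtain ⟨Y', g1, g2, g3⟩ := H71.UnitarySpectrum.exists_Y1 r hrq hrn hF hdz hdz (h2d hkz hnz) (h2d hkz hnz)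
      obtain ⟨e1, e2, e3⟩ := c1 Y U Y'
      exact key Y U Y' _ rfl (hB hdx hx (f1.trans e1) ((hUk hdx hnx).trans e2))
        (hB hdy hy (f2.trans e1) ((hUk hdy hny).trans e2))
        (hB hdz hz (g1.trans e3) ((hUk hdz hnz).trans e2)) (f3.trans e1)
  · have key : ∀ (x' y' : Cfsg.PSU n F q) (M : ℕ), M = orderOf (x', y') → orderOf x ∣ M → orderOf y ∣ M →
        r ∣ M → ∃ a' b' : Cfsg.PSU n F q,
          Nat.lcm (orderOf x) (Nat.lcm (orderOf y) r) ∣ orderOf (a', b') := by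
      rintro x' y' M rfl h1 h2 h4
      exact ⟨x', y', Nat.lcm_dvd h1 (Nat.lcm_dvd h2 h4)⟩
    have c1 : ∀ a' b' : Cfsg.PSU n F q,
        orderOf a' ∣ orderOf (a', b') ∧ orderOf b' ∣ orderOf (a', b') := fun a' b' => by
      simp only [Prod.orderOf_mk]
      exact ⟨dvd_lcm_left _ _, dvd_lcm_right _ _⟩
    rcases H71.UnitarySpectrum.cases_elt r hrq hrn hF hn2 p x with ⟨h, hx⟩ | hx'
    · obtain ⟨e1, e2⟩ := c1 h y
      exact key h y _ rfl ((Nat.dvd_lcm_left _ _).trans (hx.trans e1)) e2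
        ((Nat.dvd_lcm_right _ _).trans (hx.trans e1))
    rcases H71.UnitarySpectrum.cases_elt r hrq hrn hF hn2 p y with ⟨h, hy⟩ | hy'
    · obtain ⟨e1, e2⟩ := c1 x h
      exact key x h _ rfl e1 ((Nat.dvd_lcm_left _ _).trans (hy.trans e2))
        ((Nat.dvd_lcm_right _ _).trans (hy.trans e2))
    rcases hx' with hx | ⟨dx, kx, hdx, hkx, hnx, hx⟩ <;>
      rcases hy' with hy | ⟨dy, ky, hdy, hky, hny, hy⟩
    · obtain ⟨Y, f1, f2, f3⟩ := H71.UnitarySpectrum.exists_Y1 r hrq hrn hF (n := n) le_rfl le_rfl hn2 hn2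
      obtain ⟨e1, e2⟩ := c1 S Y
      exact key S Y _ rfl ((hx.trans hS).trans e1) ((hy.trans hS).trans e1) (f3.trans e2)
    · obtain ⟨Y, f1, f2, f3⟩ := H71.UnitarySpectrum.exists_Y2 r hrq hrn hF p hnp hdy hky hny
      obtain ⟨e1, e2⟩ := c1 S Y
      exact key S Y _ rfl ((hx.trans hS).trans e1) (hB hdy hy (f1.trans e2) (f2.trans e2))
        (f3.trans e2)
    · obtain ⟨Y, f1, f2, f3⟩ := H71.UnitarySpectrum.exists_Y2 r hrq hrn hF p hnp hdx hkx hnx
      obtain ⟨e1, e2⟩ := c1 S Y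
      exact key S Y _ rfl (hB hdx hx (f1.trans e2) (f2.trans e2)) ((hy.trans hS).trans e1)
        (f3.trans e2)
    · obtain ⟨Y, f1, f2, f3⟩ := H71.UnitarySpectrum.exists_Y1 r hrq hrn hF hdx hdy (h2d hkx hnx) (h2d hky hny)
      obtain ⟨e1, e2⟩ := c1 Y U
      exact key Y U _ rfl (hB hdx hx (f1.trans e1) ((hUk hdx hnx).trans e2))
        (hB hdy hy (f2.trans e1) ((hUk hdy hny).trans e2)) (f3.trans e1)

end Cfsg.Agent.S2511
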