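import Cfsg.Statements.S2512
import Cfsg.Agent.H71.SympSpectrum
import Cfsg.Agent.S2510

set_option autoImplicit false
open Cfsg

namespace Cfsg.Agent.S2512

open Cfsg.Agent.H71 Cfsg.Agent.H71.SympBlocks

theorem coprime_half {q p a d e : ℕ} (s : Bool) (hp : p.Prime) (hq : q = p ^ a) (ha : 1 ≤ a)
    (hodd : Odd q) (hd : 1 ≤ d) : Nat.Coprime (half q s d) (p ^ e) := by
  refine Nat.Coprime.pow_right _ ((hp.coprime_iff_not_dvd).mpr fun h => ?_).symm
  have h2 : p ∣ q ^ d := (dvd_pow_self p (by omega : a ≠ 0)).trans (hq ▸ dvd_pow_self q (by omega))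
  have h3 : 1 ≤ q ^ d := Nat.one_le_pow _ _ hodd.pos
  cases s with
  | false =>
    have h1 : p ∣ q ^ d - 1 := by
      refine h.trans ?_
      simp only [half, Bool.false_eq_true, if_false]
      exact Nat.div_dvd_of_dvd (even_iff_two_dvd.mp (Nat.Odd.sub_odd hodd.pow odd_one))
    have h4 := Nat.dvd_sub h2 h1
    rw [Nat.sub_sub_self h3, Nat.dvd_one] at h4
    exact hp.ne_one h4
  | true =>
    have h1 : p ∣ q ^ d + 1 := by
      refine h.trans ?_
      simp only [half, if_true]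
      exact Nat.div_dvd_of_dvd (even_iff_two_dvd.mp (Odd.add_one hodd.pow))
    have h4 := Nat.dvd_sub h1 h2
    rw [Nat.add_sub_cancel_left, Nat.dvd_one] at h4
    exact hp.ne_one h4

theorem two_dvd_half {q n : ℕ} (hodd : Odd q) :
    2 ∣ half q false n ∨ 2 ∣ half q true n := by
  obtain ⟨k, hk⟩ := (hodd.pow : Odd (q ^ n))
  simp only [half, Bool.false_eq_true, if_false, if_true]
  omega

/-- Let F be a finite field of odd order q = p^a, n ≥ 2 (with q ≥ 3 automatic), and L = PSp(2n, F). Then for every m the direct product L × L × L × (ℤ/2)^m has the same set of element orders as L × L × L; and if 2n − 1 is not a power of p, then already L × L × (ℤ/2)^m has the same set of element orders as L × L. -/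
theorem result {F : Type*} [Field F] [Fintype F] (p a n m : ℕ) (hp : p.Prime) (ha : 1 ≤ a) (hF : Fintype.card F = p ^ a) (hodd : Odd (Fintype.card F))
    (hn : 2 ≤ n) :
    Set.range (orderOf : Cfsg.PSp n F × Cfsg.PSp n F × Cfsg.PSp n F × Multiplicative (Fin m → ZMod 2) → ℕ) = Set.range (orderOf : Cfsg.PSp n F × Cfsg.PSp n F × Cfsg.PSp n F → ℕ) ∧
    ((¬ ∃ j : ℕ, 2 * n - 1 = p ^ j) →
      Set.range (orderOf : Cfsg.PSp n F × Cfsg.PSp n F × Multiplicative (Fin m → ZMod 2) → ℕ) = Set.range (orderOf : Cfsg.PSp n F × Cfsg.PSp n F → ℕ)) := by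
  classical
  have : Fact p.Prime := ⟨hp⟩
  have : CharP F p := by
    obtain ⟨p', hp'⟩ := CharP.exists F
    obtain ⟨e, hpp, hcard⟩ := FiniteField.card F p'
    have he : p = p' := by
      have h1 : p ∣ p' ^ (e : ℕ) := by rw [← hcard, hF]; exact dvd_pow_self p (by omega)
      exact (Nat.prime_dvd_prime_iff_eq hp hpp).mp (hp.dvd_of_dvd_pow h1)
    rwa [he]
  have hn1 : 1 ≤ n := by omega
  have hV : ∀ v : Multiplicative (Fin m → ZMod 2), orderOf v ∣ 2 := fun v => by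
    refine orderOf_dvd_of_pow_eq_one (Multiplicative.toAdd.injective ?_)
    funext i
    simp
    exact Or.inl rfl
  set q := Fintype.card F with hq
  obtain ⟨Sp, hSp⟩ := SympSpectrum.exists_S (m := n) hodd true hn1
  obtain ⟨Sm, hSm⟩ := SympSpectrum.exists_S (m := n) hodd false hn1
  obtain ⟨U, hU⟩ := SympSpectrum.exists_U (m := n) hodd p hn1
  -- the two kinds of orders which do not absorb `2`
  let A : ℕ → Prop := fun o => ∃ s, o ∣ half q s n
  let B : ℕ → Prop := fun o => o ∣ p ^ Nat.clog p (2 * n) ∨ ∃ (s : Bool) (d k : ℕ), 1 ≤ d ∧ 2 ≤ k ∧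
    d * k = n ∧ o ∣ half q s d * p ^ Nat.clog p k
  have hB : ∀ {o}, B o → ∃ (s : Bool) (d : ℕ), 1 ≤ d ∧ 2 * d ≤ n ∧
      o ∣ half q s d * p ^ Nat.clog p (2 * n) := by
    rintro o (h | ⟨s, d, k, hd, hk, hdk, h⟩)
    · exact ⟨true, 1, le_rfl, by omega, h.trans (dvd_mul_left _ _)⟩
    · have h2 := Nat.mul_le_mul_left d hk
      have h3 : k ≤ d * k := Nat.le_mul_of_pos_left k hd
      exact ⟨s, d, hd, by omega,
        h.trans (mul_dvd_mul_left _ (pow_dvd_pow p (Nat.clog_mono_right p (by omega))))⟩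
  have hmul : ∀ {o d M e : ℕ} {s : Bool}, 1 ≤ d → o ∣ half q s d * p ^ e → half q s d ∣ M →
      p ^ e ∣ M → o ∣ M :=
    fun hd ho h1 h2 => ho.trans ((coprime_half _ hp (hq.trans hF) ha hodd hd).mul_dvd_of_dvd_of_dvd h1 h2)
  have hA : ∀ {o M : ℕ}, A o → orderOf Sp ∣ M → orderOf Sm ∣ M → o ∣ M := by
    rintro o M ⟨s, h⟩ h1 h2
    cases s
    · exact (h.trans hSm).trans h2
    · exact (h.trans hSp).trans h1
  have h2pm : ∀ {M : ℕ}, orderOf Sp ∣ M → orderOf Sm ∣ M → 2 ∣ M := by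
    intro M h1 h2
    rcases two_dvd_half (n := n) hodd with h | h
    · exact (h.trans hSm).trans h2
    · exact (h.trans hSp).trans h1
  refine ⟨S2510.range_prod3_eq 2 hV fun x y z => ?_, fun hnp => S2510.range_prod2_eq 2 hV fun x y => ?_⟩
  · let P : ℕ → ℕ → ℕ → Prop := fun a b c => ∃ a' b' c' : Cfsg.PSp n F,
      Nat.lcm a (Nat.lcm b (Nat.lcm c 2)) ∣ orderOf (a', b', c')
    have mk : ∀ (a b c : ℕ) (a' b' c' : Cfsg.PSp n F),
        (∀ M, orderOf a' ∣ M → orderOf b' ∣ M → orderOf c' ∣ M → a ∣ M ∧ b ∣ M ∧ c ∣ M ∧ 2 ∣ M) →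
        P a b c := by
      intro a b c a' b' c' h
      obtain ⟨e1, e2, e3, e4⟩ := h (orderOf (a', b', c'))
        (by simp only [Prod.orderOf_mk]; exact dvd_lcm_left _ _)
        (by simp only [Prod.orderOf_mk]; exact (dvd_lcm_left _ _).trans (dvd_lcm_right _ _))
        (by simp only [Prod.orderOf_mk]; exact (dvd_lcm_right _ _).trans (dvd_lcm_right _ _))
      exact ⟨a', b', c', Nat.lcm_dvd e1 (Nat.lcm_dvd e2 (Nat.lcm_dvd e3 e4))⟩
    have sw1 : ∀ {a b c : ℕ}, P a b c → P b a c := by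
      rintro a b c ⟨a', b', c', h⟩
      simp only [Nat.lcm_dvd_iff] at h
      exact ⟨a', b', c', Nat.lcm_dvd h.2.1 (Nat.lcm_dvd h.1 (Nat.lcm_dvd h.2.2.1 h.2.2.2))⟩
    have sw2 : ∀ {a b c : ℕ}, P a b c → P a c b := by
      rintro a b c ⟨a', b', c', h⟩
      simp only [Nat.lcm_dvd_iff] at h
      exact ⟨a', b', c', Nat.lcm_dvd h.1 (Nat.lcm_dvd h.2.2.1 (Nat.lcm_dvd h.2.1 h.2.2.2))⟩
    have AAA : ∀ {a b c}, A a → A b → A c → P a b c := fun ha hb hc =>
      mk _ _ _ Sp Sm Sp fun M h1 h2 _ => ⟨hA ha h1 h2, hA hb h1 h2, hA hc h1 h2, h2pm h1 h2⟩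
    have AAB : ∀ {a b c}, A a → A b → B c → P a b c := by
      rintro a b c ha hb (hc | ⟨s, d, k, hd, hk, hdk, hc⟩)
      · exact mk _ _ _ Sp Sm U fun M h1 h2 h3 =>
          ⟨hA ha h1 h2, hA hb h1 h2, (hc.trans hU).trans h3, h2pm h1 h2⟩
      · obtain ⟨Y, f1, f2, f3⟩ := SympSpectrum.exists_Y2 (m := n) hodd p s hd hk hdk
        exact mk _ _ _ Sp Sm Y fun M h1 h2 h3 =>
          ⟨hA ha h1 h2, hA hb h1 h2, hmul hd hc (f1.trans h3) (f2.trans h3), h2pm h1 h2⟩
    have ABB : ∀ {a b c}, A a → B b → B c → P a b c := by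
      rintro a b c ⟨s, ha⟩ hb hc
      obtain ⟨s₁, d₁, hd₁, l₁, hb⟩ := hB hb
      obtain ⟨s₂, d₂, hd₂, l₂, hc⟩ := hB hc
      obtain ⟨S, hS⟩ := SympSpectrum.exists_S (m := n) hodd s hn1
      obtain ⟨Y, f1, f2, f3⟩ := SympSpectrum.exists_Y1 (m := n) hodd s₁ s₂ hd₁ hd₂ l₁ l₂
      exact mk _ _ _ S U Y fun M h1 h2 h3 =>
        ⟨(ha.trans hS).trans h1, hmul hd₁ hb (f1.trans h3) (hU.trans h2),
          hmul hd₂ hc (f2.trans h3) (hU.trans h2), f3.trans h3⟩
    have BBB : ∀ {a b c}, B a → B b → B c → P a b c := by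
      intro a b c ha hb hc
      obtain ⟨s₀, d₀, hd₀, l₀, ha⟩ := hB ha
      obtain ⟨s₁, d₁, hd₁, l₁, hb⟩ := hB hb
      obtain ⟨s₂, d₂, hd₂, l₂, hc⟩ := hB hc
      obtain ⟨Y, f1, f2, f3⟩ := SympSpectrum.exists_Y1 (m := n) hodd s₀ s₁ hd₀ hd₁ l₀ l₁
      obtain ⟨Y', g1, g2, g3⟩ := SympSpectrum.exists_Y1 (m := n) hodd s₂ s₂ hd₂ hd₂ l₂ l₂
      exact mk _ _ _ Y U Y' fun M h1 h2 h3 =>
        ⟨hmul hd₀ ha (f1.trans h1) (hU.trans h2), hmul hd₁ hb (f2.trans h1) (hU.trans h2),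
          hmul hd₂ hc (g1.trans h3) (hU.trans h2), f3.trans h1⟩
    show P (orderOf x) (orderOf y) (orderOf z)
    have absorbed : ∀ (w : Cfsg.PSp n F) (b c : Cfsg.PSp n F), (∃ h : Cfsg.PSp n F, Nat.lcm (orderOf w) 2 ∣ orderOf h) →
        P (orderOf w) (orderOf b) (orderOf c) := by
      rintro w b c ⟨h, hh⟩
      exact mk _ _ _ h b c fun M h1 h2 h3 => ⟨((Nat.dvd_lcm_left _ _).trans hh).trans h1, h2, h3,
        ((Nat.dvd_lcm_right _ _).trans hh).trans h1⟩
    have split : ∀ w : Cfsg.PSp n F, (∃ h : Cfsg.PSp n F, Nat.lcm (orderOf w) 2 ∣ orderOf h) ∨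
        A (orderOf w) ∨ B (orderOf w) := fun w => by
      rcases SympSpectrum.cases_elt hodd p hn w with h | h | h | h
      · exact Or.inl h
      · exact Or.inr (Or.inr (Or.inl h))
      · exact Or.inr (Or.inl h)
      · exact Or.inr (Or.inr (Or.inr h))
    rcases split x with hx | hx | hx
    · exact absorbed _ _ _ hx
    all_goals rcases split y with hy | hy | hy
    all_goals try exact sw1 (absorbed _ _ _ hy)
    all_goals rcases split z with hz | hz | hz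
    all_goals try exact sw2 (sw1 (absorbed _ _ _ hz))
    · exact AAA hx hy hz
    · exact AAB hx hy hz
    · exact sw2 (AAB hx hz hy)
    · exact ABB hx hy hz
    · exact sw1 (sw2 (AAB hy hz hx))
    · exact sw1 (ABB hy hx hz)
    · exact sw2 (sw1 (ABB hz hx hy))
    · exact BBB hx hy hz
  · let P : ℕ → ℕ → Prop := fun a b => ∃ a' b' : Cfsg.PSp n F,
      Nat.lcm a (Nat.lcm b 2) ∣ orderOf (a', b')
    have mk : ∀ (a b : ℕ) (a' b' : Cfsg.PSp n F),
        (∀ M, orderOf a' ∣ M → orderOf b' ∣ M → a ∣ M ∧ b ∣ M ∧ 2 ∣ M) → P a b := by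
      intro a b a' b' h
      obtain ⟨e1, e2, e4⟩ := h (orderOf (a', b'))
        (by simp only [Prod.orderOf_mk]; exact dvd_lcm_left _ _)
        (by simp only [Prod.orderOf_mk]; exact dvd_lcm_right _ _)
      exact ⟨a', b', Nat.lcm_dvd e1 (Nat.lcm_dvd e2 e4)⟩
    have sw : ∀ {a b : ℕ}, P a b → P b a := by
      rintro a b ⟨a', b', h⟩
      simp only [Nat.lcm_dvd_iff] at h
      exact ⟨a', b', Nat.lcm_dvd h.2.1 (Nat.lcm_dvd h.1 h.2.2)⟩
    have AA : ∀ {a b}, A a → A b → P a b := fun ha hb =>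
      mk _ _ Sp Sm fun M h1 h2 => ⟨hA ha h1 h2, hA hb h1 h2, h2pm h1 h2⟩
    have AB : ∀ {a b}, A a → B b → P a b := by
      rintro a b ⟨s, ha⟩ (hb | ⟨t, d, k, hd, hk, hdk, hb⟩)
      · obtain ⟨S, hS⟩ := SympSpectrum.exists_S (m := n) hodd s hn1
        obtain ⟨Y, f1, f2⟩ := SympSpectrum.exists_Y3 (m := n) hodd p hn hnp
        exact mk _ _ S Y fun M h1 h2 => ⟨(ha.trans hS).trans h1, (hb.trans f1).trans h2, f2.trans h2⟩
      · obtain ⟨S, hS⟩ := SympSpectrum.exists_S (m := n) hodd s hn1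
        obtain ⟨Y, f1, f2, f3⟩ := SympSpectrum.exists_Y2 (m := n) hodd p t hd hk hdk
        exact mk _ _ S Y fun M h1 h2 =>
          ⟨(ha.trans hS).trans h1, hmul hd hb (f1.trans h2) (f2.trans h2), f3.trans h2⟩
    have BB : ∀ {a b}, B a → B b → P a b := by
      intro a b ha hb
      obtain ⟨s₀, d₀, hd₀, l₀, ha⟩ := hB ha
      obtain ⟨s₁, d₁, hd₁, l₁, hb⟩ := hB hb
      obtain ⟨Y, f1, f2, f3⟩ := SympSpectrum.exists_Y1 (m := n) hodd s₀ s₁ hd₀ hd₁ l₀ l₁
      exact mk _ _ Y U fun M h1 h2 => ⟨hmul hd₀ ha (f1.trans h1) (hU.trans h2),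
        hmul hd₁ hb (f2.trans h1) (hU.trans h2), f3.trans h1⟩
    show P (orderOf x) (orderOf y)
    have absorbed : ∀ (w b : Cfsg.PSp n F), (∃ h : Cfsg.PSp n F, Nat.lcm (orderOf w) 2 ∣ orderOf h) →
        P (orderOf w) (orderOf b) := by
      rintro w b ⟨h, hh⟩
      exact mk _ _ h b fun M h1 h2 => ⟨((Nat.dvd_lcm_left _ _).trans hh).trans h1, h2,
        ((Nat.dvd_lcm_right _ _).trans hh).trans h1⟩
    rcases SympSpectrum.cases_elt hodd p hn x with hx | hx | hx | hx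
    · exact absorbed _ _ hx
    all_goals rcases SympSpectrum.cases_elt hodd p hn y with hy | hy | hy | hy
    all_goals try exact sw (absorbed _ _ hy)
    · exact BB (Or.inl hx) (Or.inl hy)
    · exact sw (AB hy (Or.inl hx))
    · exact BB (Or.inl hx) (Or.inr hy)
    · exact AB hx (Or.inl hy)
    · exact AA hx hy
    · exact AB hx (Or.inr hy)
    · exact BB (Or.inr hx) (Or.inl hy)
    · exact sw (AB hy (Or.inr hx))
    · exact BB (Or.inr hx) (Or.inr hy)

end Cfsg.Agent.S2512
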