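import Cfsg.Statements.S2513
import Cfsg.Agent.H71.DirectPowerSpectrum
import Cfsg.Agent.H71.SemisimpleOrder

set_option autoImplicit false
open Cfsg

namespace Cfsg.Agent.S2513

open Matrix in
/-- A family of `(n+3)/2` elements of `SL_n(2)` whose orders have lcm a multiple of every element order. -/
theorem exists_exponent_family {F : Type*} [Field F] [Fintype F] (hF : Fintype.card F = 2) (n : ℕ)
    (hn : 2 ≤ n) :
    ∃ f : Fin ((n + 3) / 2) → Matrix.ProjectiveSpecialLinearGroup (Fin n) F,
      ∀ g : Matrix.ProjectiveSpecialLinearGroup (Fin n) F, orderOf g ∣ orderOf f := by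
  classical
  have hq : Nat.card F = 2 := by rw [Nat.card_eq_fintype_card, hF]
  have hunit : ∀ u : Fˣ, u = 1 := by
    have hcu : Fintype.card Fˣ = 1 := by rw [Fintype.card_units, hF]
    obtain ⟨x, hx⟩ := Fintype.card_eq_one_iff.mp hcu
    exact fun u => (hx u).trans (hx 1).symm
  let ι : GL (Fin n) F →* Matrix.SpecialLinearGroup (Fin n) F :=
    { toFun := fun g => ⟨g.1, by
        have h := hunit (Matrix.GeneralLinearGroup.det g)
        simpa [Units.ext_iff] using h⟩
      map_one' := rfl
      map_mul' := fun _ _ => rfl }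
  have hι : Function.Injective ι := fun a b h =>
    Units.ext (congrArg (fun x : Matrix.SpecialLinearGroup (Fin n) F => x.1) h)
  let π : Matrix.SpecialLinearGroup (Fin n) F →* Matrix.ProjectiveSpecialLinearGroup (Fin n) F :=
    QuotientGroup.mk' _
  have hπ : Function.Injective π := by
    rw [← MonoidHom.ker_eq_bot_iff, QuotientGroup.ker_mk', eq_bot_iff]
    intro x hx
    obtain ⟨r, hr, hrx⟩ := Matrix.SpecialLinearGroup.mem_center_iff.mp hx
    have hr0 : r ≠ 0 := by rintro rfl; simp [zero_pow (show n ≠ 0 by omega)] at hr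
    have hr1 : r = 1 := by simpa [Units.ext_iff] using hunit (Units.mk0 r hr0)
    exact Subgroup.mem_bot.mpr (Subtype.ext (by rw [← hrx, hr1]; simp))
  have hel : ∀ i : ℕ, i < (n + 1) / 2 → ∃ g : Matrix.ProjectiveSpecialLinearGroup (Fin n) F,
      orderOf g = 2 ^ (n - i) - 1 := by
    intro i hi
    obtain ⟨g, hg⟩ := H71.exists_orderOf_card_pow_sub_one (F := F) (n := n) (j := n - i)
      (by omega) (by omega)
    exact ⟨π (ι g), by rw [orderOf_injective _ hπ, orderOf_injective _ hι, hg, hq]⟩
  choose el hel using hel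
  obtain ⟨g₂, hg₂⟩ := Nat.prime_two.exists_orderOf_eq_pow_factorization_exponent
    (Matrix.ProjectiveSpecialLinearGroup (Fin n) F)
  refine ⟨fun i => if h : (i : ℕ) < (n + 1) / 2 then el i h else g₂, fun g => ?_⟩
  generalize hf : (fun i : Fin ((n + 3) / 2) =>
    if h : (i : ℕ) < (n + 1) / 2 then el i h else g₂) = f
  have hlast : 2 ^ (Monoid.exponent (Matrix.ProjectiveSpecialLinearGroup (Fin n) F)).factorization 2
      ∣ orderOf f := by
    have := H71.orderOf_apply_dvd_pi f ⟨(n + 1) / 2, by omega⟩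
    rw [← hf] at this ⊢
    simpa [hg₂] using this
  have hodd : ∀ d, 1 ≤ d → d ≤ n → 2 ^ d - 1 ∣ orderOf f := by
    intro d hd1 hdn
    have hlt : n < 2 * (n / d * d) := by
      have h1 := Nat.div_add_mod n d
      have h2 := Nat.mod_lt n (by omega : d > 0)
      have h3 : d ≤ n / d * d := Nat.le_mul_of_pos_left d (Nat.div_pos hdn (by omega))
      rw [mul_comm] at h1
      omega
    have hle : n / d * d ≤ n := Nat.div_mul_le_self n d
    have hi : n - n / d * d < (n + 1) / 2 := by omega
    have := H71.orderOf_apply_dvd_pi f ⟨n - n / d * d, by omega⟩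
    have h' : 2 ^ (n / d * d) - 1 ∣ orderOf f := by
      rw [← hf] at this ⊢
      simp only [dif_pos hi, hel, Nat.sub_sub_self hle] at this
      exact this
    exact (Nat.pow_sub_one_dvd_pow_sub_one 2 (Dvd.intro_left _ rfl)).trans h'
  obtain ⟨x, rfl⟩ := QuotientGroup.mk'_surjective _ g
  refine (orderOf_map_dvd _ x).trans ?_
  obtain ⟨a, m, hm, ham⟩ := Nat.exists_eq_two_pow_mul_odd (orderOf_pos x).ne'
  rw [ham]
  have hex : orderOf x ∣ Monoid.exponent (Matrix.ProjectiveSpecialLinearGroup (Fin n) F) := by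
    rw [← orderOf_injective π hπ x]; exact Monoid.order_dvd_exponent _
  refine (Nat.Coprime.pow_left a (Nat.coprime_two_left.mpr hm)).mul_dvd_of_dvd_of_dvd
    ((pow_dvd_pow 2 ?_).trans hlast) ?_
  · refine (Nat.Prime.pow_dvd_iff_le_factorization Nat.prime_two
      Monoid.exponent_ne_zero_of_finite).mp ?_
    exact (Dvd.intro m rfl).trans (ham ▸ hex)
  · have hxm : orderOf (x ^ (2 ^ a)) = m := by
      rw [orderOf_pow_of_dvd (by positivity) (ham ▸ Dvd.intro m rfl), ham,
        Nat.mul_div_cancel_left _ (by positivity)]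
    rw [← hxm]
    refine orderOf_dvd_of_pow_eq_one (Subtype.ext ?_)
    have hgk : ((x ^ (2 ^ a) : Matrix.SpecialLinearGroup (Fin n) F) : Matrix (Fin n) (Fin n) F) ^ m
        = 1 := by
      rw [← hxm, ← Matrix.SpecialLinearGroup.coe_pow, pow_orderOf_eq_one,
        Matrix.SpecialLinearGroup.coe_one]
    have hmF : (m : F) ≠ 0 := by
      have h2 : (2 : F) = 0 := by
        have := FiniteField.cast_card_eq_zero F
        rwa [hF, Nat.cast_two] at this
      obtain ⟨c, rfl⟩ := hm
      simp [h2]
    rw [Matrix.SpecialLinearGroup.coe_pow, Matrix.SpecialLinearGroup.coe_one]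
    exact H71.pow_eq_one_of_semisimple _ hmF hgk fun d hd1 hd2 => by
      rw [hq]; exact hodd d hd1 (by simpa using hd2)

/-- Let F be the field with two elements, n ≥ 2, L = PSL(n, F) and k₀ = ⌊(n + 3)/2⌋. Then for every k ≥ k₀ the direct product of k copies of L has the same set of element orders as the direct product of k₀ copies of L. -/
theorem result {F : Type*} [Field F] [Fintype F] (hF : Fintype.card F = 2) (n k : ℕ) (hn : 2 ≤ n) (hk : (n + 3) / 2 ≤ k) :
    Set.range (orderOf : (Fin k → Matrix.ProjectiveSpecialLinearGroup (Fin n) F) → ℕ) = Set.range (orderOf : (Fin ((n + 3) / 2) → Matrix.ProjectiveSpecialLinearGroup (Fin n) F) → ℕ) := by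
  obtain ⟨f, hf⟩ := exists_exponent_family hF n hn
  rw [H71.range_orderOf_pi_eq f hf hk, H71.range_orderOf_pi_eq f hf le_rfl]

end Cfsg.Agent.S2513
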