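import Cfsg.Statements.S2514
import Mathlib

set_option autoImplicit false
open Cfsg

namespace Cfsg.Agent.S2514

/-- Maximal element orders. -/
def maxOrders (G : Type*) [Monoid G] : Set ℕ :=
  {n : ℕ | n ∈ Set.range (orderOf : G → ℕ) ∧ ∀ m ∈ Set.range (orderOf : G → ℕ), n ∣ m → m = n}

theorem exists_maxOrder {G : Type*} [Group G] [Finite G] (g : G) :
    ∃ M ∈ maxOrders G, orderOf g ∣ M := by
  classical
  obtain ⟨y, hy, hmax⟩ := Set.exists_max_image {y : G | orderOf g ∣ orderOf y} orderOf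
    (Set.toFinite _) ⟨g, show orderOf g ∣ orderOf g from dvd_rfl⟩
  refine ⟨orderOf y, ⟨⟨y, rfl⟩, ?_⟩, hy⟩
  rintro _ ⟨z, rfl⟩ hz
  exact le_antisymm (hmax z (hy.trans hz)) (Nat.le_of_dvd (orderOf_pos z) hz)

theorem exists_orderOf_of_dvd {G : Type*} [Group G] [Finite G] (g : G) {d : ℕ}
    (hd : d ∣ orderOf g) : ∃ h : G, orderOf h = d := by
  refine ⟨g ^ (orderOf g / d), ?_⟩
  rw [orderOf_pow_of_dvd (Nat.div_pos (Nat.le_of_dvd (orderOf_pos g) hd)
    (Nat.pos_of_dvd_of_pos hd (orderOf_pos g))).ne' (Nat.div_dvd_of_dvd hd)]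
  exact Nat.div_div_self hd (orderOf_pos g).ne'

theorem orderOf_pi_dvd_iff {ι G : Type*} [Monoid G] (f : ι → G) (N : ℕ) :
    orderOf f ∣ N ↔ ∀ i, orderOf (f i) ∣ N := by
  simp [orderOf_dvd_iff_pow_eq_one, funext_iff]

/-- For a finite group X write μ(X) for the set of element orders of X that are maximal under divisibility. Let G and H be finite groups and k ≥ 1 such that μ(H) ⊆ μ(G) and μ(G) has fewer than k elements outside μ(H). Then the direct product of k copies of G has the same set of element orders as the direct product of k − 1 copies of G with H. -/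
theorem result {G H : Type*} [Group G] [Finite G] [Group H] [Finite H] (k : ℕ) (hk : 1 ≤ k)
    (hsub : {n : ℕ | n ∈ Set.range (orderOf : H → ℕ) ∧ ∀ m ∈ Set.range (orderOf : H → ℕ), n ∣ m → m = n} ⊆ {n : ℕ | n ∈ Set.range (orderOf : G → ℕ) ∧ ∀ m ∈ Set.range (orderOf : G → ℕ), n ∣ m → m = n})
    (hfew : ({n : ℕ | n ∈ Set.range (orderOf : G → ℕ) ∧ ∀ m ∈ Set.range (orderOf : G → ℕ), n ∣ m → m = n} \ {n : ℕ | n ∈ Set.range (orderOf : H → ℕ) ∧ ∀ m ∈ Set.range (orderOf : H → ℕ), n ∣ m → m = n}).ncard < k) :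
    Set.range (orderOf : (Fin k → G) → ℕ) = Set.range (orderOf : (Fin (k - 1) → G) × H → ℕ) := by
  classical
  obtain ⟨n, rfl⟩ : ∃ n, k = n + 1 := ⟨k - 1, by omega⟩
  show _ = Set.range (orderOf : (Fin n → G) × H → ℕ)
  have hsub' : maxOrders H ⊆ maxOrders G := hsub
  apply Set.Subset.antisymm
  · rintro _ ⟨x, rfl⟩
    choose M hM hxM using fun i => exists_maxOrder (x i)
    by_cases hex : ∃ i, M i ∈ maxOrders H
    · obtain ⟨i, hi⟩ := hex
      obtain ⟨h0, hh0⟩ := hi.1
      obtain ⟨h, hh⟩ := exists_orderOf_of_dvd h0 (hh0 ▸ hxM i)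
      refine ⟨(fun j => x (i.succAbove j), h), Nat.dvd_right_iff_eq.mp fun N => ?_⟩
      rw [Prod.orderOf, Nat.lcm_dvd_iff, orderOf_pi_dvd_iff, orderOf_pi_dvd_iff, hh,
        Fin.forall_iff_succAbove (P := fun j => orderOf (x j) ∣ N) i]
      exact ⟨fun a => ⟨a.2, a.1⟩, fun a => ⟨a.2, a.1⟩⟩
    · push Not at hex
      obtain ⟨i, j, hij, hMij⟩ : ∃ i j, i ≠ j ∧ M i = M j := by
        by_contra! hinj
        have hM' : Function.Injective M := fun a b hab => by
          by_contra hne; exact hinj a b hne hab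
        have hsub2 : Set.range M ⊆ maxOrders G \ maxOrders H := by
          rintro _ ⟨i, rfl⟩; exact ⟨hM i, hex i⟩
        have h1 := Set.ncard_le_ncard hsub2
          ((Set.finite_range (orderOf : G → ℕ)).subset fun m hm => hm.1.1)
        rw [Set.ncard_range_of_injective hM', Nat.card_fin] at h1
        exact absurd h1 (not_le.mpr hfew)
      obtain ⟨g0, hg0⟩ := (hM i).1
      obtain ⟨g, hg⟩ := exists_orderOf_of_dvd g0 (d := Nat.lcm (orderOf (x i)) (orderOf (x j)))
        (hg0 ▸ Nat.lcm_dvd (hxM i) (hMij ▸ hxM j))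
      refine ⟨(fun l => if j.succAbove l = i then g else x (j.succAbove l), 1),
        Nat.dvd_right_iff_eq.mp fun N => ?_⟩
      rw [Prod.orderOf, orderOf_one, Nat.lcm_one_right, orderOf_pi_dvd_iff, orderOf_pi_dvd_iff]
      constructor
      · intro hall
        obtain ⟨li, hli⟩ := Fin.exists_succAbove_eq hij
        have hgN := hall li
        simp only [hli, if_true, hg, Nat.lcm_dvd_iff] at hgN
        refine (Fin.forall_iff_succAbove (P := fun l => orderOf (x l) ∣ N) j).mpr ⟨hgN.2, fun l => ?_⟩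
        by_cases hl : j.succAbove l = i
        · rw [hl]; exact hgN.1
        · simpa [hl] using hall l
      · intro hall l
        by_cases hl : j.succAbove l = i
        · simp only [hl, if_true, hg]; exact Nat.lcm_dvd (hall i) (hall j)
        · simpa [hl] using hall _
  · rintro _ ⟨⟨f, h⟩, rfl⟩
    obtain ⟨M, hM, hdvd⟩ := exists_maxOrder h
    obtain ⟨g0, hg0⟩ := (hsub' hM).1
    obtain ⟨g, hg⟩ := exists_orderOf_of_dvd g0 (hg0 ▸ hdvd)
    refine ⟨Fin.cons g f, Nat.dvd_right_iff_eq.mp fun N => ?_⟩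
    rw [Prod.orderOf, Nat.lcm_dvd_iff, orderOf_pi_dvd_iff, orderOf_pi_dvd_iff, Fin.forall_fin_succ]
    simp [hg, and_comm]

end Cfsg.Agent.S2514
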