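import Cfsg.Statements.S2515
import Cfsg.Agent.H37.TwistedOrders

set_option autoImplicit false
open Cfsg

namespace Cfsg.Agent.S2515

/-- Let q = 3^α with α ≥ 3 odd. There is a finite group H having a non-trivial normal 3-subgroup and whose element orders maximal under divisibility are exactly 6, 9, q − 1 and (q + 1)/2. -/
theorem result (α : ℕ) (hα : 3 ≤ α) (hodd : Odd α) :
    ∃ (H : Type) (_ : Group H) (_ : Fintype H), (∃ P : Subgroup H, P.Normal ∧ P ≠ ⊥ ∧ IsPGroup 3 ↥P) ∧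
      {n : ℕ | n ∈ Set.range (orderOf : H → ℕ) ∧ ∀ m ∈ Set.range (orderOf : H → ℕ), n ∣ m → m = n} = ({6, 9, 3 ^ α - 1, (3 ^ α + 1) / 2} : Set ℕ) := by
  classical
  haveI : Fact (Nat.Prime 3) := ⟨Nat.prime_three⟩
  let F := GaloisField 3 α
  haveI : Fintype F := Fintype.ofFinite F
  have hcard : Fintype.card F = 3 ^ α := by
    rw [← Nat.card_eq_fintype_card]; exact GaloisField.card 3 α (by omega)
  have hq4 : 3 ^ α % 4 = 3 := by
    obtain ⟨k, rfl⟩ := hodd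
    rw [pow_succ, pow_mul, Nat.mul_mod, Nat.pow_mod]
    norm_num
  have hq27 : 27 ≤ 3 ^ α := (show 27 = 3 ^ 3 by norm_num) ▸ Nat.pow_le_pow_right (by norm_num) hα
  have h3 : 3 ∣ 3 ^ α := dvd_pow_self 3 (by omega)
  have hq : Fintype.card F % 4 = 3 := by rw [hcard]; exact hq4
  haveI : Finite (Cfsg.Agent.H37.Twisted.Ext F) := Finite.of_equiv _ SemidirectProduct.equivProd.symm
  haveI : Fintype (Cfsg.Agent.H37.Twisted.Ext F) := Fintype.ofFinite _
  refine ⟨Cfsg.Agent.H37.Twisted.Ext F, inferInstance, inferInstance, ?_, ?_⟩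
  · refine ⟨(SemidirectProduct.inl : _ →* Cfsg.Agent.H37.Twisted.Ext F).range, ?_, ?_, ?_⟩
    · rw [SemidirectProduct.range_inl_eq_ker_rightHom]; infer_instance
    · intro h
      have hh : (SemidirectProduct.inl (Multiplicative.ofAdd (1 : Matrix (Fin 2) (Fin 2) F)) : Cfsg.Agent.H37.Twisted.Ext F) = 1 :=
        Subgroup.mem_bot.1 (h ▸ ⟨_, rfl⟩)
      have h0 := congrArg Multiplicative.toAdd (SemidirectProduct.inl_injective (hh.trans (map_one _).symm))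
      exact one_ne_zero (show (1 : Matrix (Fin 2) (Fin 2) F) = 0 from h0)
    · rintro ⟨_, w, rfl⟩
      exact ⟨1, Subtype.ext (Cfsg.Agent.H37.Twisted.inl_pow_three w)⟩
  obtain ⟨x6, hx6⟩ := Cfsg.Agent.H37.Twisted.exists_order_six (F := F) hq
  obtain ⟨x9, hx9⟩ := Cfsg.Agent.H37.Twisted.exists_order_nine (F := F)
  obtain ⟨xs, hxs⟩ := Cfsg.Agent.H37.Twisted.exists_order_split (F := F) hq (by rw [hcard]; omega)
  obtain ⟨xn, hxn⟩ := Cfsg.Agent.H37.Twisted.exists_order_nonsplit (F := F) hq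
  rw [hcard] at hxs hxn
  have hdiv : ∀ h : Cfsg.Agent.H37.Twisted.Ext F, orderOf h ∣ 6 ∨ orderOf h ∣ 9 ∨ orderOf h ∣ 3 ^ α - 1 ∨
      orderOf h ∣ (3 ^ α + 1) / 2 := fun h => by
    have := Cfsg.Agent.H37.Twisted.pow_cases hq h
    rw [hcard] at this
    simpa only [orderOf_dvd_iff_pow_eq_one] using this
  have n6a : ¬ 6 ∣ 3 ^ α - 1 := by omega
  have n6b : ¬ 6 ∣ (3 ^ α + 1) / 2 := by omega
  have n9a : ¬ 9 ∣ 3 ^ α - 1 := by omega
  have n9b : ¬ 9 ∣ (3 ^ α + 1) / 2 := by omega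
  have nsa : ¬ 3 ^ α - 1 ∣ 6 := fun h => by have := Nat.le_of_dvd (by norm_num) h; omega
  have nsb : ¬ 3 ^ α - 1 ∣ 9 := fun h => by have := Nat.le_of_dvd (by norm_num) h; omega
  have nsc : ¬ 3 ^ α - 1 ∣ (3 ^ α + 1) / 2 := fun h => by have := Nat.le_of_dvd (by omega) h; omega
  have nna : ¬ (3 ^ α + 1) / 2 ∣ 6 := fun h => by have := Nat.le_of_dvd (by norm_num) h; omega
  have nnb : ¬ (3 ^ α + 1) / 2 ∣ 9 := fun h => by have := Nat.le_of_dvd (by norm_num) h; omega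
  have nnc : ¬ (3 ^ α + 1) / 2 ∣ 3 ^ α - 1 := fun h => by
    have h2 := Nat.dvd_sub (dvd_mul_of_dvd_right (dvd_refl ((3 ^ α + 1) / 2)) 2) h
    rw [show 2 * ((3 ^ α + 1) / 2) - (3 ^ α - 1) = 2 by omega] at h2
    have := Nat.le_of_dvd (by norm_num) h2
    omega
  ext n
  simp only [Set.mem_ofPred_eq, Set.mem_range, Set.mem_insert_iff, Set.mem_singleton_iff]
  constructor
  · rintro ⟨⟨h, rfl⟩, hmax⟩
    rcases hdiv h with d | d | d | d
    · exact Or.inl (hmax 6 ⟨x6, hx6⟩ d).symm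
    · exact Or.inr (Or.inl (hmax 9 ⟨x9, hx9⟩ d).symm)
    · exact Or.inr (Or.inr (Or.inl (hmax _ ⟨xs, hxs⟩ d).symm))
    · exact Or.inr (Or.inr (Or.inr (hmax _ ⟨xn, hxn⟩ d).symm))
  · intro hn
    refine ⟨?_, ?_⟩
    · rcases hn with rfl | rfl | rfl | rfl
      exacts [⟨x6, hx6⟩, ⟨x9, hx9⟩, ⟨xs, hxs⟩, ⟨xn, hxn⟩]
    · rintro m ⟨h, rfl⟩ hnm
      rcases hn with rfl | rfl | rfl | rfl <;> rcases hdiv h with d | d | d | d <;>
        first
          | exact Nat.dvd_antisymm d hnm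
          | exact absurd (hnm.trans d) (by first | decide | assumption)

end Cfsg.Agent.S2515
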