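import Cfsg.Statements.S2516
import Mathlib

set_option autoImplicit false
open Cfsg

namespace Cfsg.Agent.S2516

/-- Let F be a field of characteristic p > 0, V a non-zero finite-dimensional F-vector space, G a finite group and ρ a representation of G on V; form the semidirect product V ⋊ G. For g ∈ G of order k, the coset Vg contains an element of order pk if and only if the minimal polynomial of ρ(g) does not divide 1 + X + ⋯ + X^(k−1). -/
theorem result {F : Type*} [Field F] (p : ℕ) [Fact p.Prime] [CharP F p] {V : Type*} [AddCommGroup V] [Module F V] [FiniteDimensional F V] [Nontrivial V]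
    {G : Type*} [Group G] [Finite G] (ρ : Representation F G V) (g : G) :
    (∃ x : Multiplicative V ⋊[(MulAutMultiplicative V).symm.toMonoidHom.comp
        ((DistribMulAction.toAddAut ((V →ₗ[F] V)ˣ) V).comp ρ.asGroupHom)] G,
        x.right = g ∧ orderOf x = p * orderOf g) ↔
      ¬ (minpoly F (ρ g) ∣ ∑ i ∈ Finset.range (orderOf g), (Polynomial.X : Polynomial F) ^ i) := by
  classical
  have hn : 0 < orderOf g := orderOf_pos g
  have hpow : ∀ (x : Multiplicative V ⋊[(MulAutMultiplicative V).symm.toMonoidHom.comp
        ((DistribMulAction.toAddAut ((V →ₗ[F] V)ˣ) V).comp ρ.asGroupHom)] G) (k : ℕ),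
      x ^ k = ⟨Multiplicative.ofAdd (∑ i ∈ Finset.range k, ((ρ x.right) ^ i) x.left.toAdd), x.right ^ k⟩ := by
    intro x k
    induction k with
    | zero => exact (pow_zero x).trans (SemidirectProduct.ext (by simp) (by simp))
    | succ k ih =>
        rw [pow_succ', ih]
        refine SemidirectProduct.ext ?_ (pow_succ' x.right k).symm
        rw [SemidirectProduct.mul_left]
        show x.left * Multiplicative.ofAdd (ρ x.right (∑ i ∈ Finset.range k, ((ρ x.right) ^ i) x.left.toAdd)) = _
        apply Multiplicative.toAdd.injective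
        simp only [toAdd_mul, toAdd_ofAdd, map_sum, Finset.sum_range_succ', pow_zero,
          Module.End.one_apply, pow_succ', Module.End.mul_apply]
        abel
  let S : Module.End F V := ∑ i ∈ Finset.range (orderOf g), (ρ g) ^ i
  have hS : Polynomial.aeval (ρ g) (∑ i ∈ Finset.range (orderOf g), (Polynomial.X : Polynomial F) ^ i) = S := by
    simp [S]
  rw [minpoly.dvd_iff, hS]
  constructor
  · rintro ⟨x, rfl, hord⟩ hS0
    have h1 : x ^ orderOf x.right = 1 := by
      rw [hpow]
      refine SemidirectProduct.ext ?_ (pow_orderOf_eq_one _)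
      have := LinearMap.congr_fun hS0 x.left.toAdd
      simp only [S, LinearMap.sum_apply, LinearMap.zero_apply] at this
      simp [this]
    have h2 := Nat.le_of_dvd hn (orderOf_dvd_of_pow_eq_one h1)
    rw [hord] at h2
    have := (Fact.out : p.Prime).two_le
    nlinarith
  · intro hS0
    obtain ⟨v, hv⟩ : ∃ v, S v ≠ 0 := by
      by_contra! h; exact hS0 (LinearMap.ext h)
    let x : Multiplicative V ⋊[(MulAutMultiplicative V).symm.toMonoidHom.comp
        ((DistribMulAction.toAddAut ((V →ₗ[F] V)ˣ) V).comp ρ.asGroupHom)] G := ⟨Multiplicative.ofAdd v, g⟩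
    refine ⟨x, rfl, ?_⟩
    have hxn : x ^ orderOf g = ⟨Multiplicative.ofAdd (S v), 1⟩ := by
      rw [hpow]
      refine SemidirectProduct.ext ?_ (pow_orderOf_eq_one g)
      simp [x, S, LinearMap.sum_apply]
    have hdvd : orderOf g ∣ orderOf x := orderOf_map_dvd SemidirectProduct.rightHom x
    have hpv : (x ^ orderOf g) ^ p = 1 := by
      rw [hxn]
      refine SemidirectProduct.ext ?_ ?_
      · rw [hpow]
        simp [Finset.sum_const, ← Nat.cast_smul_eq_nsmul F, CharP.cast_eq_zero]
      · rw [hpow]; simp
    rw [← pow_mul, ← orderOf_dvd_iff_pow_eq_one] at hpv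
    obtain ⟨c, hc⟩ := hdvd
    rw [hc, Nat.mul_dvd_mul_iff_left hn] at hpv
    rcases (Nat.dvd_prime Fact.out).mp hpv with rfl | rfl
    · exfalso
      have h1 := pow_orderOf_eq_one x
      rw [hc, mul_one, hxn] at h1
      exact hv (by simpa using congrArg (fun y => (SemidirectProduct.left y).toAdd) h1)
    · rw [hc, mul_comm]

end Cfsg.Agent.S2516
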