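import Cfsg.Statements.S2518
import Cfsg.Agent.H69.G2Three.Spectrum
import Cfsg.Agent.H69.PSL2Elements

set_option autoImplicit false
open Cfsg

namespace Cfsg.Agent.S2518

/-- Let F₃ be the field with 3 elements and F₁₃ the field with 13 elements. The Chevalley group G₂(F₃) and PSL(2, F₁₃) have the same prime graph: the same prime divisors of their orders, and for distinct primes r, s an element of order rs in one iff in the other. -/
theorem result {F : Type*} [Field F] [Fintype F] (hF : Fintype.card F = 3) {E : Type*} [Field E] [Fintype E] (hE : Fintype.card E = 13) :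
    ((∀ r : ℕ, r.Prime → (r ∣ Nat.card ↥(Cfsg.Lie.chevG2.group F) ↔ r ∣ Nat.card (Matrix.ProjectiveSpecialLinearGroup (Fin 2) E))) ∧
      (∀ r s : ℕ, r.Prime → s.Prime → r ≠ s → ((∃ x : ↥(Cfsg.Lie.chevG2.group F), orderOf x = r * s) ↔ (∃ y : (Matrix.ProjectiveSpecialLinearGroup (Fin 2) E), orderOf y = r * s)))) := by
  haveI : Fact (Nat.Prime 3) := ⟨by norm_num⟩
  haveI : Fact (Nat.Prime 13) := ⟨by norm_num⟩
  haveI : CharP E 13 := charP_of_card_eq_prime hE
  obtain ⟨e⟩ : Nonempty (↥(Cfsg.Lie.chevG2.group F) ≃* ↥(Cfsg.Lie.chevG2.group (ZMod 3))) :=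
    ⟨Cfsg.Agent.H69.G2Three.groupMapEquiv _ (ZMod.ringEquivOfPrime F Nat.prime_three hF).symm⟩
  have hspec : ∀ m : ℕ, (∃ y : Matrix.ProjectiveSpecialLinearGroup (Fin 2) E, orderOf y = m) ↔
      m ∈ ({1, 2, 3, 6, 7, 13} : Finset ℕ) := by
    intro m
    have h := Set.ext_iff.1
      (Cfsg.Agent.H69.psl2_spectrum (F := E) 13 (by rw [hE]; norm_num)) m
    rw [Set.mem_range, Set.mem_setOf_eq, hE] at h
    rw [h, show (13 - 1) / Nat.gcd 2 (13 - 1) = 6 by decide,
      show (13 + 1) / Nat.gcd 2 (13 - 1) = 7 by decide]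
    constructor
    · intro h
      have hle : m ≤ 13 := by
        rcases h with h | h | h <;> exact (Nat.le_of_dvd (by norm_num) h).trans (by norm_num)
      interval_cases m <;> simp_all
    · intro h
      simp only [Finset.mem_insert, Finset.mem_singleton] at h
      rcases h with rfl | rfl | rfl | rfl | rfl | rfl <;> norm_num
  constructor
  · intro r hr
    rw [Nat.card_congr e.toEquiv, Cfsg.Agent.H69.G2Three.prime_dvd_card hr]
    constructor
    · intro h
      obtain ⟨y, hy⟩ := (hspec r).2 (by rcases h with rfl | rfl | rfl | rfl <;> decide)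
      exact hy ▸ orderOf_dvd_natCard y
    · intro h
      haveI := Fact.mk hr
      obtain ⟨y, hy⟩ := exists_prime_orderOf_dvd_card' r h
      have hm := (hspec r).1 ⟨y, hy⟩
      simp only [Finset.mem_insert, Finset.mem_singleton] at hm
      rcases hm with rfl | rfl | rfl | rfl | rfl | rfl
      · exact absurd hr Nat.not_prime_one
      · simp
      · simp
      · exact absurd hr (by norm_num)
      · simp
      · simp
  · intro r s hr hs hne
    rw [hspec]
    have h : (∃ x : ↥(Cfsg.Lie.chevG2.group F), orderOf x = r * s) ↔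
        (∃ x : ↥(Cfsg.Lie.chevG2.group (ZMod 3)), orderOf x = r * s) :=
      e.toEquiv.exists_congr fun x => by rw [MulEquiv.toEquiv_eq_coe, MulEquiv.coe_toEquiv, MulEquiv.orderOf_eq]
    rw [h, Cfsg.Agent.H69.G2Three.exists_orderOf_mul hr hs hne]
    constructor
    · intro h6
      rw [h6]
      decide
    · intro hm
      simp only [Finset.mem_insert, Finset.mem_singleton] at hm
      have hnp : ¬ (r * s).Prime := Nat.not_prime_mul hr.ne_one hs.ne_one
      have h1 : r * s ≠ 1 := fun h => hr.ne_one (Nat.eq_one_of_mul_eq_one_right h)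
      rcases hm with h | h | h | h | h | h
      · exact absurd h h1
      · exact absurd (h ▸ Nat.prime_two) hnp
      · exact absurd (h ▸ Nat.prime_three) hnp
      · exact h
      · exact absurd (h ▸ (by norm_num : Nat.Prime 7)) hnp
      · exact absurd (h ▸ (by norm_num : Nat.Prime 13)) hnp

end Cfsg.Agent.S2518
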