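import Cfsg.Statements.S2519
import Cfsg.Agent.H48.G2Spec.Lower

set_option autoImplicit false
open Cfsg

namespace Cfsg.Agent.S2519

open Cfsg.Agent.H48.G2Spec

/-- The five numbers form an antichain with `p ^ 2`. -/
theorem antichain {p a : ℕ} (hp : p.Prime) (ha : 1 ≤ a) (hq5 : 5 ≤ p ^ a) :
    ∀ n ∈ oddSet p a, ∀ m ∈ oddSet p a, n ∣ m → n = m := by
  have hpq : p ∣ p ^ a := dvd_pow_self p (by omega)
  have hple : p ≤ p ^ a := Nat.le_of_dvd (by omega) hpq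
  have hq2 : p ^ (2 * a) = p ^ a * p ^ a := by rw [two_mul, pow_add]
  obtain ⟨q, hq⟩ : ∃ q, q = p ^ a := ⟨_, rfl⟩
  rw [← hq] at hpq hple hq5 hq2
  have hp2 := hp.two_le
  have hqq : 5 * q ≤ q * q := Nat.mul_le_mul_right q hq5
  have hpqq : p ∣ q * q := dvd_mul_of_dvd_left hpq q
  have hnd : ∀ x : ℕ, p ∣ x → ¬ p ∣ x + 1 := fun x hx h =>
    hp.not_dvd_one ((Nat.dvd_add_right hx).1 h)
  have hnd' : ∀ x : ℕ, p ∣ x → 1 ≤ x → ¬ p ∣ x - 1 := fun x hx h1 h => by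
    have h2 := (Nat.dvd_sub hx h)
    rw [Nat.sub_sub_self h1] at h2
    exact hp.not_dvd_one h2
  have hA : ¬ p ∣ q + 1 := hnd q hpq
  have hB : ¬ p ∣ q - 1 := hnd' q hpq (by omega)
  have hC : ¬ p ∣ q * q - 1 := hnd' _ hpqq (by omega)
  have hD : ¬ p ∣ q * q + q + 1 := hnd _ (dvd_add hpqq hpq)
  have hE : ¬ p ∣ q * q - q + 1 := hnd _ (Nat.dvd_sub hpqq hpq)
  have hbig : ∀ x, q * q - q + 1 ≤ x → ¬ p ∣ x → ∀ y, y ≤ q + 1 → 0 < y → ¬ x ∣ p * y := by
    intro x hx hpx y hy hy0 h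
    have h' := Nat.le_of_dvd hy0 (((hp.coprime_iff_not_dvd.2 hpx).symm).dvd_of_dvd_mul_left h)
    omega
  have hsmall : ∀ x, q * q - q + 1 ≤ x → ¬ p ∣ x → ¬ x ∣ p ^ 2 := by
    intro x hx hpx h
    have h1 : x ∣ 1 := by
      have : x.Coprime (p ^ 2) := ((hp.coprime_iff_not_dvd.2 hpx).symm).pow_right 2
      exact this.dvd_of_dvd_mul_left (by rwa [mul_one])
    have := Nat.le_of_dvd one_pos h1
    omega
  have hclose : ∀ x y, q * q - q + 1 ≤ x → y ≤ q * q + q + 1 → 0 < y → x ∣ y → x = y := by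
    rintro x y hx hy hy0 ⟨j, rfl⟩
    rcases j with _ | _ | j
    · simp at hy0
    · simp
    · exfalso
      have : x * 2 ≤ x * (j + 1 + 1) := Nat.mul_le_mul_left x (by omega)
      omega
  have hPA : ∀ y, ¬ p ∣ y → ¬ p ^ 2 ∣ p * y := fun y hy h => hy (by
    rw [pow_two] at h; exact (Nat.mul_dvd_mul_iff_left hp.pos).1 h)
  have hAP : ∀ y, q - 1 ≤ y → y ≤ q + 1 → ¬ p ∣ y → ¬ p * y ∣ p ^ 2 := by
    intro y hy1 hy2 hpy h
    rw [pow_two, Nat.mul_dvd_mul_iff_left hp.pos] at h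
    rcases (Nat.dvd_prime hp).1 h with h1 | h1
    · omega
    · exact hpy (h1 ▸ dvd_rfl)
  have hBA : ¬ p * (q - 1) ∣ p * (q + 1) := by
    rw [Nat.mul_dvd_mul_iff_left hp.pos]
    intro h
    have h2 : q - 1 ∣ 2 := by
      have := Nat.dvd_sub h (dvd_refl (q - 1))
      rwa [show q + 1 - (q - 1) = 2 by omega] at this
    have := Nat.le_of_dvd two_pos h2
    omega
  have hAB : ¬ p * (q + 1) ∣ p * (q - 1) := by
    rw [Nat.mul_dvd_mul_iff_left hp.pos]
    intro h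
    have := Nat.le_of_dvd (by omega) h
    omega
  have five : ∀ n ∈ fiveSet p a,
      n = p * (q + 1) ∨ n = p * (q - 1) ∨ n = q * q - 1 ∨ n = q * q + q + 1 ∨ n = q * q - q + 1 := by
    intro n hn
    simpa only [fiveSet, hq2, ← hq, Set.mem_insert_iff, Set.mem_singleton_iff] using hn
  have all : ∀ n ∈ oddSet p a, n = p * (q + 1) ∨ n = p * (q - 1) ∨ n = p ^ 2 ∨
      (q * q - q + 1 ≤ n ∧ n ≤ q * q + q + 1 ∧ ¬ p ∣ n) := by
    rintro n (hn | hn)
    · rcases five n hn with h | h | h | h | h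
      · exact Or.inl h
      · exact Or.inr (Or.inl h)
      all_goals
        refine Or.inr (Or.inr (Or.inr ⟨?_, ?_, ?_⟩))
        · omega
        · omega
        · subst h; assumption
    · by_cases h35 : p = 3 ∨ p = 5
      · rw [if_pos h35] at hn; exact Or.inr (Or.inr (Or.inl hn))
      · rw [if_neg h35] at hn; exact hn.elim
  intro n hn m hm hdvd
  rcases all n hn with rfl | rfl | rfl | ⟨n1, n2, n3⟩ <;> rcases all m hm with rfl | rfl | rfl | ⟨m1, m2, m3⟩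
  · rfl
  · exact absurd hdvd hAB
  · exact absurd hdvd (hAP _ (by omega) (by omega) hA)
  · exact absurd ((dvd_mul_right p _).trans hdvd) m3
  · exact absurd hdvd hBA
  · rfl
  · exact absurd hdvd (hAP _ (by omega) (by omega) hB)
  · exact absurd ((dvd_mul_right p _).trans hdvd) m3
  · exact absurd hdvd (hPA _ hA)
  · exact absurd hdvd (hPA _ hB)
  · rfl
  · exact absurd ((dvd_pow_self p two_ne_zero).trans hdvd) m3
  · exact absurd hdvd (hbig n n1 n3 _ le_rfl (by omega))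
  · exact absurd hdvd (hbig n n1 n3 _ (by omega) (by omega))
  · exact absurd hdvd (hsmall n n1 n3)
  · exact hclose n m n1 m2 (by omega) hdvd

/-- Let F be a finite field of odd order q = p^a ≥ 5. The element orders of the Chevalley group G₂(F) that are maximal under divisibility are exactly p(q + 1), p(q − 1), q² − 1, q² + q + 1, q² − q + 1, together with p² when p is 3 or 5. -/
theorem result {F : Type*} [Field F] [Fintype F] (p a : ℕ) (hp : p.Prime) (hp2 : p ≠ 2) (ha : 1 ≤ a) (hF : Fintype.card F = p ^ a) (hq5 : 5 ≤ Fintype.card F) :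
    {n : ℕ | n ∈ Set.range (orderOf : ↥(Cfsg.Lie.chevG2.group F) → ℕ) ∧ ∀ m ∈ Set.range (orderOf : ↥(Cfsg.Lie.chevG2.group F) → ℕ), n ∣ m → m = n} =
      ({p * (p ^ a + 1), p * (p ^ a - 1), p ^ (2 * a) - 1, p ^ (2 * a) + p ^ a + 1, p ^ (2 * a) - p ^ a + 1} : Set ℕ) ∪
        (if p = 3 ∨ p = 5 then ({p ^ 2} : Set ℕ) else ∅) := by
  haveI := Fact.mk hp
  haveI : CharP F p := charP_of_card_eq_prime_pow hF
  have hodd : Odd (Fintype.card F) := hF ▸ (hp.odd_of_ne_two hp2).pow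
  rw [hF] at hq5
  have hpq : p ∣ p ^ a := dvd_pow_self p (by omega)
  have hq2 : p ^ (2 * a) = (p ^ a) ^ 2 := by rw [← pow_mul, mul_comm]
  have hcop : Nat.Coprime p (p ^ a + 1) := hp.coprime_iff_not_dvd.2 fun h =>
    hp.not_dvd_one ((Nat.dvd_add_right hpq).1 h)
  have hcop' : Nat.Coprime p (p ^ a - 1) := hp.coprime_iff_not_dvd.2 fun h => by
    have h2 := Nat.dvd_sub hpq h
    rw [Nat.sub_sub_self (by omega)] at h2
    exact hp.not_dvd_one h2
  obtain ⟨⟨Q₁, hQ₁d, hQ₁⟩, Q₂, hQ₂d, hQ₂⟩ := exists_sl2 (F := F) (p ^ a) hF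
  have attained : ∀ n ∈ oddSet p a, ∃ g : ↥(Cfsg.Lie.chevG2.group F), orderOf g = n := by
    rintro n ((rfl | rfl | rfl | rfl | rfl) | hn)
    · exact exists_orderOf_mul hodd hcop Q₂ hQ₂d hQ₂
    · exact exists_orderOf_mul hodd hcop' Q₁ hQ₁d hQ₁
    · rw [hq2]; exact exists_orderOf_sq_sub_one hodd _ hF
    · obtain ⟨H, hcyc, hcard, -⟩ := H23.G2Torus.exists_selfCentralizing (F := F) (p ^ a) hF (by omega)
      obtain ⟨g, hg⟩ := hcyc.exists_generator
      exact ⟨g, by rw [← Subgroup.orderOf_coe g |>.symm, orderOf_eq_card_of_forall_mem_zpowers hg, hcard, hq2]⟩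
    · rw [hq2]; exact exists_orderOf_cox _ hF
    · by_cases h35 : p = 3 ∨ p = 5
      · rw [if_pos h35] at hn; obtain rfl := hn; exact exists_orderOf_prime_sq h35 hodd
      · rw [if_neg h35] at hn; exact hn.elim
  show _ = oddSet p a
  ext n
  constructor
  · rintro ⟨⟨g, rfl⟩, hmax⟩
    obtain ⟨m, hm, hdvd⟩ := H48.G2Spec.orderOf_dvd hp2 a hF g
    exact hmax m (attained m hm) hdvd ▸ hm
  · intro hn
    refine ⟨attained n hn, ?_⟩
    rintro _ ⟨g, rfl⟩ hdvd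
    obtain ⟨m, hm, hdvd'⟩ := H48.G2Spec.orderOf_dvd hp2 a hF g
    obtain rfl := antichain hp ha hq5 n hn m hm (hdvd.trans hdvd')
    exact Nat.dvd_antisymm hdvd' hdvd

end Cfsg.Agent.S2519
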