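import Cfsg.Statements.S2520
import Cfsg.Agent.H62.G2Orders.Lower
import Cfsg.Agent.H62.G2Orders.Upper
import Cfsg.Agent.H93.G2Bridge

set_option autoImplicit false
open Cfsg

namespace Cfsg.Agent.S2520

/-- Let F be a finite field with q = 2^a ≥ 4 elements and G₂(F) the Chevalley group of type G₂ over it. Every element order of G₂(F) maximal under divisibility lies in the set {8, 12, 2(q + 1), 2(q − 1), q² − 1, q² + q + 1, q² − q + 1}, and every member of that set is an element order of G₂(F). -/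
theorem result {F : Type*} [Field F] [Fintype F] (a : ℕ) (ha : 2 ≤ a) (hF : Fintype.card F = 2 ^ a) :
    {n : ℕ | n ∈ Set.range (orderOf : ↥(Cfsg.Lie.chevG2.group F) → ℕ) ∧ ∀ m ∈ Set.range (orderOf : ↥(Cfsg.Lie.chevG2.group F) → ℕ), n ∣ m → m = n} ⊆ ({8, 12, 2 * (2 ^ a + 1), 2 * (2 ^ a - 1), 2 ^ (2 * a) - 1, 2 ^ (2 * a) + 2 ^ a + 1, 2 ^ (2 * a) - 2 ^ a + 1} : Set ℕ) ∧
    ({8, 12, 2 * (2 ^ a + 1), 2 * (2 ^ a - 1), 2 ^ (2 * a) - 1, 2 ^ (2 * a) + 2 ^ a + 1, 2 ^ (2 * a) - 2 ^ a + 1} : Set ℕ) ⊆ Set.range (orderOf : ↥(Cfsg.Lie.chevG2.group F) → ℕ) := by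
  haveI : Nontrivial F := inferInstance
  haveI hp : CharP F 2 := by
    obtain ⟨p, hp⟩ := CharP.exists F
    haveI := hp
    obtain ⟨n, hprime, hn⟩ := FiniteField.card F p
    have h : p ∣ 2 ^ a := by rw [← hF, hn]; exact dvd_pow_self p n.ne_zero
    have h2 : p = 2 := (Nat.prime_dvd_prime_iff_eq hprime Nat.prime_two).1 (hprime.dvd_of_dvd_pow h)
    exact h2 ▸ hp
  have h4 : 4 ≤ 2 ^ a := by
    calc 4 = 2 ^ 2 := by norm_num
      _ ≤ _ := Nat.pow_le_pow_right (by norm_num) ha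
  have hsq : (2 ^ a) ^ 2 = 2 ^ (2 * a) := by rw [← pow_mul, mul_comm]
  have hmem : ∀ n ∈ H62.G2Orders.maxSet a,
      n ∈ Set.range (orderOf : ↥(Cfsg.Lie.chevG2.group F) → ℕ) := by
    intro n hn
    simp only [H62.G2Orders.maxSet, Set.mem_insert_iff, Set.mem_singleton_iff] at hn
    rcases hn with rfl | rfl | rfl | rfl | rfl | rfl | rfl
    · exact H62.G2Orders.mem_range_eight
    · exact H62.G2Orders.mem_range_twelve
    · simpa [H89.PSpFour.pmOne, hF] using H62.G2Orders.mem_range_double (K := F) true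
    · simpa [H89.PSpFour.pmOne, hF] using H62.G2Orders.mem_range_double (K := F) false
    · simpa [hsq] using H62.G2Orders.mem_range_sq_sub_one (K := F) hF
    · simpa [hsq] using H62.G2Orders.mem_range_singer (K := F) hF (by omega)
    · simpa [hsq] using H62.G2Orders.mem_range_twisted (K := F) a rfl hF (by omega)
  refine ⟨?_, fun n hn => hmem n hn⟩
  classical
  rintro n ⟨⟨g, rfl⟩, hmax⟩
  obtain ⟨ψ, hψ, -⟩ := H93.G2Bridge.exists_hom F (by
    obtain ⟨x, hx, hx'⟩ := Finset.exists_mem_notMem_of_card_lt_card (s := ({0, 1} : Finset F))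
      (t := Finset.univ) (lt_of_le_of_lt Finset.card_le_two (by rw [Finset.card_univ, hF]; omega))
    simp only [Finset.mem_insert, Finset.mem_singleton, not_or] at hx'
    exact ⟨x, hx'⟩)
  obtain ⟨m, hm, hdvd⟩ := H62.G2Orders.orderOf_dvd a hF (ψ g)
  rw [orderOf_injective ψ hψ] at hdvd
  exact hmax m (hmem m hm) hdvd ▸ hm

end Cfsg.Agent.S2520
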