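import Cfsg.Statements.S2521
import Mathlib

set_option autoImplicit false
open Cfsg

namespace Cfsg.Agent.S2521

/-- Let B be a finite group that is the semidirect product of a nilpotent normal subgroup U by an abelian subgroup T (U ∩ T = 1, UT = B), and let t ∈ T have centralizer exactly T. Then every element of the coset tU is conjugate to t in B: for each u ∈ U there is b ∈ B with b t b⁻¹ = t u. -/
theorem result {B : Type*} [Group B] [Finite B] (U T : Subgroup B) [U.Normal] (hU : Group.IsNilpotent ↥U) (hT : IsMulCommutative ↥T)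
    (hcompl : Subgroup.IsComplement' U T) (t : B) (ht : t ∈ T) (hreg : Subgroup.centralizer ({t} : Set B) = T) (u : B) (hu : u ∈ U) :
    ∃ b : B, b * t * b⁻¹ = t * u := by
  have hmem : ∀ v : U, t⁻¹ * v * t * (v : B)⁻¹ ∈ U := fun v => by
    have h := Subgroup.Normal.conj_mem inferInstance (v : B) v.2 t⁻¹
    rw [inv_inv] at h
    exact U.mul_mem h (U.inv_mem v.2)
  let f : U → U := fun v => ⟨t⁻¹ * v * t * (v : B)⁻¹, hmem v⟩
  have hf : Function.Injective f := by
    intro v w hvw
    have he : t⁻¹ * v * t * (v : B)⁻¹ = t⁻¹ * w * t * (w : B)⁻¹ := congrArg Subtype.val hvw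
    have hc : (w : B)⁻¹ * v ∈ Subgroup.centralizer ({t} : Set B) := by
      rw [Subgroup.mem_centralizer_singleton_iff]
      calc (w : B)⁻¹ * v * t = (w : B)⁻¹ * t * (t⁻¹ * v * t * (v : B)⁻¹) * v := by group
        _ = (w : B)⁻¹ * t * (t⁻¹ * w * t * (w : B)⁻¹) * v := by rw [he]
        _ = t * ((w : B)⁻¹ * v) := by group
    rw [hreg] at hc
    have h1 : (w : B)⁻¹ * v ∈ U ⊓ T := ⟨U.mul_mem (U.inv_mem w.2) v.2, hc⟩
    rw [hcompl.disjoint.eq_bot, Subgroup.mem_bot, inv_mul_eq_one] at h1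
    exact Subtype.ext h1.symm
  obtain ⟨v, hv⟩ := Finite.surjective_of_injective hf ⟨u, hu⟩
  refine ⟨v, ?_⟩
  have he : t⁻¹ * v * t * (v : B)⁻¹ = u := congrArg Subtype.val hv
  rw [← he]; group

end Cfsg.Agent.S2521
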