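import Cfsg.Statements.S2524
import Cfsg.Agent.H39.WeilGapMain
-- import your own Cfsg.Agent.* helpers here

set_option autoImplicit false
open Cfsg

namespace Cfsg.Agent.S2524

/-- Let F be a finite field of odd order q and G = Sp(2n, F) with n ≥ 2. Then G has exactly four irreducible complex characters of degree (q^n + 1)/2 or (q^n − 1)/2 (two of each), and every other non-principal irreducible character has degree at least (q^n − 1)(q^n − q)/(2(q + 1)). -/
theorem result {F : Type*} [Field F] [Fintype F] (hodd : Odd (Fintype.card F)) (n : ℕ) (hn : 2 ≤ n) :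
    Nat.card {χ : Cfsg.IrrCharacter ↥(Matrix.symplecticGroup (Fin n) F) // (χ : ↥(Matrix.symplecticGroup (Fin n) F) → ℂ) 1 = (((Fintype.card F) ^ n + 1 : ℕ) : ℂ) / 2} = 2 ∧
    Nat.card {χ : Cfsg.IrrCharacter ↥(Matrix.symplecticGroup (Fin n) F) // (χ : ↥(Matrix.symplecticGroup (Fin n) F) → ℂ) 1 = (((Fintype.card F) ^ n - 1 : ℕ) : ℂ) / 2} = 2 ∧
    ∀ χ : Cfsg.IrrCharacter ↥(Matrix.symplecticGroup (Fin n) F),
      (χ : ↥(Matrix.symplecticGroup (Fin n) F) → ℂ) 1 ≠ 1 →
      (χ : ↥(Matrix.symplecticGroup (Fin n) F) → ℂ) 1 ≠ (((Fintype.card F) ^ n + 1 : ℕ) : ℂ) / 2 →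
      (χ : ↥(Matrix.symplecticGroup (Fin n) F) → ℂ) 1 ≠ (((Fintype.card F) ^ n - 1 : ℕ) : ℂ) / 2 →
      (((Fintype.card F) ^ n - 1 : ℕ) : ℝ) * (((Fintype.card F) ^ n - Fintype.card F : ℕ) : ℝ) / (2 * ((Fintype.card F : ℕ) + 1 : ℝ)) ≤ ‖(χ : ↥(Matrix.symplecticGroup (Fin n) F) → ℂ) 1‖ := by
  classical
  have h2 : (2 : F) ≠ 0 := by
    apply Ring.two_ne_zero
    intro h
    have h' := FiniteField.even_card_iff_char_two.1 h
    have := Nat.odd_iff.1 hodd
    omega
  obtain ⟨ψ, hψ'⟩ := (AddChar.exists_apply_ne_zero (a := (1 : F))).2 one_ne_zero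
  have hψ : ψ ≠ 1 := AddChar.ne_one_iff.2 ⟨1, hψ'⟩
  have hF2 : ringChar F ≠ 2 := fun h => h2 (by
    haveI := ringChar.of_eq h
    exact_mod_cast CharTwo.two_eq_zero (R := F))
  obtain ⟨ν, hν⟩ := FiniteField.exists_nonsquare hF2
  have hν0 : ν ≠ 0 := fun h => hν (by rw [h]; exact IsSquare.zero)
  set G := ↥(Matrix.symplecticGroup (Fin n) F)
  set q := Fintype.card F with hq
  set N := q ^ n with hN
  have hq3 : 3 ≤ q := by
    have := Fintype.one_lt_card (α := F)
    have := Nat.odd_iff.1 hodd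
    omega
  have hNq : q * q ≤ N := by
    rw [hN, ← pow_two]
    exact Nat.pow_le_pow_right (by omega) hn
  have hbig : (N + 1) * (q + 1) < (N - 1) * (N - q) := by
    obtain ⟨M, hM⟩ : ∃ M, N = M + q := ⟨N - q, by nlinarith [Nat.sub_add_cancel (show q ≤ N by nlinarith)]⟩
    rw [hM, Nat.add_sub_cancel, show M + q - 1 = M + (q - 1) by omega]
    obtain ⟨r, hr⟩ : ∃ r, q = r + 1 := ⟨q - 1, by omega⟩
    rw [hr] at hM hNq ⊢
    rw [Nat.add_sub_cancel]
    have h4 : r + 4 ≤ M := by nlinarith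
    nlinarith [Nat.mul_le_mul h4 h4]
  have small : ∀ χ : Cfsg.IrrCharacter G, ∀ d : ℕ, χ.1 1 = d → 2 ≤ d →
      2 * (q + 1) * d < (N - 1) * (N - q) →
      ∃ (s : ℂ) (hs : s * s = 1), (s = 1 ∨ s = -1) ∧
        (χ.1 = (Cfsg.Agent.H39.weilPar (n := n) h2 hψ hs).character ∨
          χ.1 = (Cfsg.Agent.H39.weilPar (n := n) h2
            (Cfsg.Agent.H39.mulShift_ne_one hψ hν0) hs).character) := by
    intro χ d hd hd2 hlt
    obtain ⟨k, ρ, hρ, hχ⟩ := χ.2
    haveI := hρ
    have hk : k = d := by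
      rw [← hχ, Representation.char_one, Module.finrank_fintype_fun_eq_card, Fintype.card_fin] at hd
      exact_mod_cast hd
    rw [← hχ]
    refine Cfsg.Agent.H39.exists_weilPar_of_small h2 hψ hn hν hν0 ρ ?_ ?_
    · simpa [hk] using hd2
    · simpa [hk] using hlt
  have hdeg : ∀ {φ : AddChar F ℂ} (hφ : φ ≠ 1) {s : ℂ} (hs : s * s = 1),
      (Cfsg.Agent.H39.weilPar (n := n) h2 hφ hs).character 1 = ((N : ℂ) + s) / 2 := by
    intro φ hφ s hs
    rw [Cfsg.Agent.H39.weilPar_char_one h2 hφ hs, hN, Nat.cast_pow]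
  have hp1 : (((N + 1 : ℕ) : ℂ)) / 2 = ((N : ℂ) + 1) / 2 := by push_cast; ring
  have hm1 : (((N - 1 : ℕ) : ℂ)) / 2 = ((N : ℂ) + (-1)) / 2 := by
    rw [Nat.cast_sub (by nlinarith)]
    push_cast
    ring
  have count : ∀ (s : ℂ) (hs : s * s = 1), (s = 1 ∨ s = -1) →
      Nat.card {χ : Cfsg.IrrCharacter G // (χ : G → ℂ) 1 = ((N : ℂ) + s) / 2} = 2 := by
    intro s hs hs'
    haveI := Cfsg.Agent.H39.weilPar_irreducible (n := n) h2 hψ hn hs
    haveI := Cfsg.Agent.H39.weilPar_irreducible (n := n) h2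
      (Cfsg.Agent.H39.mulShift_ne_one hψ hν0) hn hs
    let χ₁ : Cfsg.IrrCharacter G := Cfsg.Agent.H26.irrOf (Cfsg.Agent.H39.weilPar (n := n) h2 hψ hs)
    let χ₂ : Cfsg.IrrCharacter G := Cfsg.Agent.H26.irrOf
      (Cfsg.Agent.H39.weilPar (n := n) h2 (Cfsg.Agent.H39.mulShift_ne_one hψ hν0) hs)
    have hne : χ₁ ≠ χ₂ := fun h => Cfsg.Agent.H39.weilPar_char_ne (n := n) h2 hψ hn hν hν0 hs
      (congrArg Subtype.val h)
    have hset : {χ : Cfsg.IrrCharacter G | (χ : G → ℂ) 1 = ((N : ℂ) + s) / 2} = {χ₁, χ₂} := by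
      ext χ
      simp only [Set.mem_setOf_eq, Set.mem_insert_iff, Set.mem_singleton_iff]
      constructor
      · intro hχ
        obtain ⟨k, hk⟩ := Cfsg.Agent.H26.exists_nat_char_one (Cfsg.Agent.H26.irr_isCharacter χ)
        have h2k : 2 * k + 1 = N + 2 ∨ 2 * k + 1 = N := by
          rw [hk] at hχ
          rcases hs' with rfl | rfl
          · left
            have : ((2 * k + 1 : ℕ) : ℂ) = ((N + 2 : ℕ) : ℂ) := by
              push_cast
              linear_combination 2 * hχ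
            exact_mod_cast this
          · right
            have : ((2 * k + 1 : ℕ) : ℂ) = (N : ℂ) := by
              push_cast
              linear_combination 2 * hχ
            exact_mod_cast this
        have hk2 : 2 ≤ k := by
          have : 9 ≤ N := le_trans (by nlinarith) hNq
          omega
        have hlt : 2 * (q + 1) * k < (N - 1) * (N - q) := by
          refine lt_of_le_of_lt ?_ hbig
          calc 2 * (q + 1) * k = (2 * k) * (q + 1) := by ring
            _ ≤ (N + 1) * (q + 1) := Nat.mul_le_mul_right _ (by omega)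
        obtain ⟨t, ht, -, h⟩ := small χ k hk hk2 hlt
        obtain rfl : t = s := by
          rcases h with h | h <;>
          · have h1 := congrFun h 1
            rw [hχ, hdeg] at h1
            linear_combination (-2 : ℂ) * h1
        rcases h with h | h
        · exact Or.inl (Subtype.ext h)
        · exact Or.inr (Subtype.ext h)
      · rintro (rfl | rfl) <;> exact hdeg _ hs
    show Set.ncard {χ : Cfsg.IrrCharacter G | (χ : G → ℂ) 1 = ((N : ℂ) + s) / 2} = 2
    rw [hset, Set.ncard_pair hne]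
  refine ⟨?_, ?_, ?_⟩
  · rw [hp1]; exact count 1 (by ring) (Or.inl rfl)
  · rw [hm1]; exact count (-1) (by ring) (Or.inr rfl)
  intro χ h1 hp hm
  by_contra hlt
  obtain ⟨k, hk⟩ := Cfsg.Agent.H26.exists_nat_char_one (Cfsg.Agent.H26.irr_isCharacter χ)
  have hk2 : 2 ≤ k := by
    have h0 : (χ : G → ℂ) 1 ≠ 0 := Cfsg.Agent.H26.irr_one_ne_zero χ
    rw [hk] at h0 h1
    have : k ≠ 0 := by exact_mod_cast h0
    have : k ≠ 1 := by exact_mod_cast h1
    omega
  have hsm : 2 * (q + 1) * k < (N - 1) * (N - q) := by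
    by_contra hge
    push Not at hge
    apply hlt
    rw [hk, Complex.norm_natCast, div_le_iff₀ (by positivity)]
    have : (((N - 1) * (N - q) : ℕ) : ℝ) ≤ ((2 * (q + 1) * k : ℕ) : ℝ) := by exact_mod_cast hge
    rw [Nat.cast_mul, Nat.cast_mul, Nat.cast_mul] at this
    push_cast at this ⊢
    linarith
  obtain ⟨s, hs, hs', h⟩ := small χ k hk hk2 hsm
  have hval : (χ : G → ℂ) 1 = ((N : ℂ) + s) / 2 := by
    rcases h with h | h <;> rw [h, hdeg]
  rcases hs' with rfl | rfl
  · exact hp (hval.trans hp1.symm)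
  · exact hm (hval.trans hm1.symm)

end Cfsg.Agent.S2524
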