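import Cfsg.Statements.S2525
import Cfsg.Agent.H48.F4Graph.Adj

set_option autoImplicit false
open Cfsg

namespace Cfsg.Agent.S2525

open Cfsg.Agent.H48.F4Graph

/-- The condition on a pair of orders. -/
def Far (k l : ℕ) : Prop :=
  k < l ∧ (l ∈ ({8, 12} : Finset ℕ) ∨ (l = 6 ∧ k ∈ ({3, 4} : Finset ℕ)) ∨ (l = 4 ∧ k = 3))

instance (k l : ℕ) : Decidable (Far k l) := inferInstanceAs (Decidable (_ ∧ _))

theorem far_not_allowed : ∀ k ∈ ({1, 2, 3, 4, 6, 8, 12} : Finset ℕ), ∀ l ∈ ({1, 2, 3, 4, 6, 8, 12} : Finset ℕ),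
    Far k l → ∀ i ∈ Finset.Icc 1 5, ¬ (k ∈ allowed i ∧ l ∈ allowed i) := by
  decide

theorem exists_allowed_of_not_far : ∀ k ∈ ({1, 2, 3, 4, 6, 8, 12} : Finset ℕ),
    ∀ l ∈ ({1, 2, 3, 4, 6, 8, 12} : Finset ℕ), ¬ Far k l → ¬ Far l k →
      ∃ i ∈ Finset.Icc 1 5, k ∈ allowed i ∧ l ∈ allowed i := by
  decide

theorem far_orders : ∀ k ∈ ({1, 2, 3, 4, 6, 8, 12} : Finset ℕ), ∀ l ∈ ({1, 2, 3, 4, 6, 8, 12} : Finset ℕ),
    Far k l → l ∈ ({8, 12} : Finset ℕ) ∨ (3 ≤ k ∧ 3 ≤ l ∧ k ∣ 24 ∧ l ∣ 24) := by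
  decide

/-- Let F be a finite field with q = 2^n elements and G = F₄(F). For an odd prime r let e(r, q) be the multiplicative order of q modulo r. Two distinct primes r, s dividing the order of G are non-adjacent in the prime graph of G (no element of order rs) if and only if, up to swapping r and s, either r = 2 and e(s, q) ∈ {8, 12}, or r, s are both odd with k = e(r, q) < l = e(s, q) and one of: l ∈ {8, 12}; l = 6 and k ∈ {3, 4}; l = 4 and k = 3. -/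
theorem result {F : Type*} [Field F] [Fintype F] (n : ℕ) (hn : 1 ≤ n) (hF : Fintype.card F = 2 ^ n)
    (r s : ℕ) (hr : r.Prime) (hs : s.Prime) (hrs : r ≠ s) (hrG : r ∣ Nat.card ↥(Cfsg.Lie.chevF4.group F)) (hsG : s ∣ Nat.card ↥(Cfsg.Lie.chevF4.group F)) :
    (¬ ∃ x : ↥(Cfsg.Lie.chevF4.group F), orderOf x = r * s) ↔
      ((r = 2 ∧ orderOf ((Fintype.card F : ℕ) : ZMod s) ∈ ({8, 12} : Finset ℕ)) ∨ (s = 2 ∧ orderOf ((Fintype.card F : ℕ) : ZMod r) ∈ ({8, 12} : Finset ℕ)) ∨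
       (r ≠ 2 ∧ s ≠ 2 ∧
         ((orderOf ((Fintype.card F : ℕ) : ZMod r) < orderOf ((Fintype.card F : ℕ) : ZMod s) ∧ (orderOf ((Fintype.card F : ℕ) : ZMod s) ∈ ({8, 12} : Finset ℕ) ∨ (orderOf ((Fintype.card F : ℕ) : ZMod s) = 6 ∧ orderOf ((Fintype.card F : ℕ) : ZMod r) ∈ ({3, 4} : Finset ℕ)) ∨ (orderOf ((Fintype.card F : ℕ) : ZMod s) = 4 ∧ orderOf ((Fintype.card F : ℕ) : ZMod r) = 3))) ∨
          (orderOf ((Fintype.card F : ℕ) : ZMod s) < orderOf ((Fintype.card F : ℕ) : ZMod r) ∧ (orderOf ((Fintype.card F : ℕ) : ZMod r) ∈ ({8, 12} : Finset ℕ) ∨ (orderOf ((Fintype.card F : ℕ) : ZMod r) = 6 ∧ orderOf ((Fintype.card F : ℕ) : ZMod s) ∈ ({3, 4} : Finset ℕ)) ∨ (orderOf ((Fintype.card F : ℕ) : ZMod r) = 4 ∧ orderOf ((Fintype.card F : ℕ) : ZMod s) = 3)))))) := by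
  have key : ∀ (r s : ℕ), r.Prime → s.Prime → r ≠ s → r ≠ 2 → s ≠ 2 →
      r ∣ Nat.card ↥(Cfsg.Lie.chevF4.group F) → s ∣ Nat.card ↥(Cfsg.Lie.chevF4.group F) →
      Far (orderOf ((Fintype.card F : ℕ) : ZMod r)) (orderOf ((Fintype.card F : ℕ) : ZMod s)) →
      ∀ x : ↥(Cfsg.Lie.chevF4.group F), orderOf x ≠ r * s := by
    intro r s hr hs hrs hr2 hs2 hrG hsG hfar x hx
    have hkr := mem_orders_of_dvd_card hF hr hr2 hrG
    have hks := mem_orders_of_dvd_card hF hs hs2 hsG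
    have h : orderOf ((Fintype.card F : ℕ) : ZMod s) ∈ ({8, 12} : Finset ℕ) ∨
        (5 ≤ r ∧ 5 ≤ s ∧ orderOf ((Fintype.card F : ℕ) : ZMod r) ∣ 24 ∧
          orderOf ((Fintype.card F : ℕ) : ZMod s) ∣ 24) := by
      rcases far_orders _ hkr _ hks hfar with h8 | ⟨a, b, c, d⟩
      · exact Or.inl h8
      · exact Or.inr ⟨five_le_of_order hr rfl a, five_le_of_order hs rfl b, c, d⟩
    obtain ⟨-, -, i, hi1, hi5, hi⟩ := restriction hF hr hs hrs hx h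
    exact far_not_allowed _ hkr _ hks hfar i (Finset.mem_Icc.2 ⟨hi1, hi5⟩) hi
  have two : ∀ s : ℕ, s.Prime → s ∣ Nat.card ↥(Cfsg.Lie.chevF4.group F) → s ≠ 2 →
      ((¬ ∃ x : ↥(Cfsg.Lie.chevF4.group F), orderOf x = 2 * s) ↔
        orderOf ((Fintype.card F : ℕ) : ZMod s) ∈ ({8, 12} : Finset ℕ)) := by
    intro s hs hsG hs2
    constructor
    · intro hno
      by_contra h8
      refine hno (exists_orderOf_two_mul hn hF hs hs2 ?_)
      have hks := mem_orders_of_dvd_card hF hs hs2 hsG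
      simp only [Finset.mem_insert, Finset.mem_singleton] at hks h8 ⊢
      omega
    · rintro h8 ⟨x, hx⟩
      exact (restriction hF Nat.prime_two hs hs2.symm hx (Or.inl h8)).1 rfl
  rcases eq_or_ne r 2 with rfl | hr2
  · rw [two s hs hsG hrs.symm]
    refine ⟨fun h => Or.inl ⟨rfl, h⟩, ?_⟩
    rintro (⟨-, h⟩ | ⟨h, -⟩ | ⟨h, -⟩)
    · exact h
    · exact absurd h hrs.symm
    · exact absurd rfl h
  rcases eq_or_ne s 2 with rfl | hs2
  · rw [mul_comm r 2, two r hr hrG hr2]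
    refine ⟨fun h => Or.inr (Or.inl ⟨rfl, h⟩), ?_⟩
    rintro (⟨h, -⟩ | ⟨-, h⟩ | ⟨-, h, -⟩)
    · exact absurd h hr2
    · exact h
    · exact absurd rfl h
  constructor
  · intro hno
    refine Or.inr (Or.inr ⟨hr2, hs2, ?_⟩)
    by_contra hfar
    obtain ⟨h1, h2⟩ := not_or.1 hfar
    obtain ⟨i, hi, hir, his⟩ := exists_allowed_of_not_far _ (mem_orders_of_dvd_card hF hr hr2 hrG) _
      (mem_orders_of_dvd_card hF hs hs2 hsG) h1 h2
    exact hno (exists_orderOf_mul_of_allowed hn hF hr hs hrs (Finset.mem_Icc.1 hi) hir his)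
  · rintro (⟨h, -⟩ | ⟨h, -⟩ | ⟨-, -, h | h⟩) ⟨x, hx⟩
    · exact hr2 h
    · exact hs2 h
    · exact key r s hr hs hrs hr2 hs2 hrG hsG h x hx
    · exact key s r hs hr hrs.symm hs2 hr2 hsG hrG h x (by rw [hx, mul_comm])

end Cfsg.Agent.S2525
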