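import Cfsg.Statements.S2550
import Cfsg.Agent.H1.Orders
import Cfsg.Agent.H71.PSLBlocks
import Cfsg.Agent.S2476

set_option autoImplicit false
open Cfsg

namespace Cfsg.Agent.S2550

/-- Let F be a field with 2 elements and K a field with 4 elements. PSL_4(F) and PSL_3(K) have the same order (20160) but are not isomorphic. -/
theorem result {F K : Type*} [Field F] [Fintype F] [Field K] [Fintype K] (hF : Fintype.card F = 2) (hK : Fintype.card K = 4) : Nat.card (Matrix.ProjectiveSpecialLinearGroup (Fin 4) F) = Nat.card (Matrix.ProjectiveSpecialLinearGroup (Fin 3) K) ∧ ¬ Nonempty (Matrix.ProjectiveSpecialLinearGroup (Fin 4) F ≃* Matrix.ProjectiveSpecialLinearGroup (Fin 3) K) := by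
  classical
  have h1 := Cfsg.Agent.H1.sub_one_mul_card_SL hF 4 (by norm_num)
  have h2 := Cfsg.Agent.H1.sub_one_mul_card_SL hK 3 (by norm_num)
  simp [Fin.prod_univ_succ] at h1 h2
  have g1 := Cfsg.Agent.H1.gcd_mul_card_PSL (ι := Fin 4) (F := F)
  have g2 := Cfsg.Agent.H1.gcd_mul_card_PSL (ι := Fin 3) (F := K)
  rw [Fintype.card_fin, Cfsg.Agent.H1.natCard_units hF] at g1
  rw [Fintype.card_fin, Cfsg.Agent.H1.natCard_units hK] at g2
  norm_num at g1 g2
  refine ⟨by simp only [Nat.card_eq_fintype_card]; omega, ?_⟩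
  rintro ⟨e⟩
  obtain ⟨Z, hZ, -⟩ := Cfsg.Agent.H71.PSLBlocks.exists_singer (F := F) (j := 4) (by norm_num)
  rw [hF] at hZ
  have hsub : Subsingleton Fˣ := by
    rw [← Finite.card_le_one_iff_subsingleton, Cfsg.Agent.H1.natCard_units hF]
  have hdet : (Z : Matrix (Fin 4) (Fin 4) F).det = 1 :=
    congrArg Units.val (Subsingleton.elim (Matrix.GeneralLinearGroup.det Z) 1)
  let z : Matrix.SpecialLinearGroup (Fin 4) F := ⟨Z, hdet⟩
  have hz : orderOf z = 15 := by
    rw [← orderOf_injective Matrix.SpecialLinearGroup.toGL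
      Matrix.SpecialLinearGroup.toGL_injective z]
    rw [show Matrix.SpecialLinearGroup.toGL z = Z from Units.ext rfl, hZ]
    norm_num
  have hc : Subgroup.center (Matrix.SpecialLinearGroup (Fin 4) F) = ⊥ := by
    rw [← Subgroup.card_eq_one, Cfsg.Agent.H1.card_center_SL, Fintype.card_fin,
      Cfsg.Agent.H1.natCard_units hF]
    norm_num
  have hinj : Function.Injective (QuotientGroup.mk' (Subgroup.center (Matrix.SpecialLinearGroup (Fin 4) F))) := by
    rw [← MonoidHom.ker_eq_bot_iff, QuotientGroup.ker_mk', hc]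
  obtain ⟨p, _⟩ := CharP.exists K
  have : Fact p.Prime := ⟨CharP.char_is_prime K p⟩
  have hp : p = 2 := by
    obtain ⟨n, hpp, hn⟩ := FiniteField.card K p
    have h : p ∣ 2 ^ 2 := by
      rw [show (2 : ℕ) ^ 2 = 4 by norm_num, ← hK, hn]
      exact dvd_pow_self p n.ne_zero
    exact (Nat.prime_dvd_prime_iff_eq hpp Nat.prime_two).mp (hpp.dvd_of_dvd_pow h)
  subst hp
  have hmem : 15 ∈ Set.range (orderOf : Matrix.ProjectiveSpecialLinearGroup (Fin 3) K → ℕ) :=
    ⟨e (QuotientGroup.mk' _ z), by rw [e.orderOf_eq, orderOf_injective _ hinj, hz]⟩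
  rw [Cfsg.Agent.S2476.result 2, hK] at hmem
  norm_num at hmem

end Cfsg.Agent.S2550
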