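import Cfsg.Statements.S2551
import Cfsg.Agent.H63.GLFourTwo
import Cfsg.Agent.H63.AltSevenTransitive

set_option autoImplicit false
open Cfsg

namespace Cfsg.Agent.S2551

/-- Let F be the field with 2 elements. GL_4(F) (≅ A_8) has a subgroup isomorphic to the alternating group A_7, and every such subgroup acts 2-transitively on the 15 non-zero vectors of F⁴: any ordered pair of distinct non-zero vectors is carried to any other by some element of the subgroup. -/
theorem result {F : Type*} [Field F] [Fintype F] (hF : Fintype.card F = 2) : (∃ H : Subgroup (Matrix.GeneralLinearGroup (Fin 4) F), Nonempty (H ≃* alternatingGroup (Fin 7))) ∧ ∀ H : Subgroup (Matrix.GeneralLinearGroup (Fin 4) F), Nonempty (H ≃* alternatingGroup (Fin 7)) → ∀ v w v' w' : Fin 4 → F, v ≠ 0 → w ≠ 0 → v ≠ w → v' ≠ 0 → w' ≠ 0 → v' ≠ w' → ∃ g ∈ H, (g : Matrix (Fin 4) (Fin 4) F).mulVec v = v' ∧ (g : Matrix (Fin 4) (Fin 4) F).mulVec w = w' := by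
  have hcard : Nat.card ↥(alternatingGroup (Fin 7)) = 2520 := by
    rw [nat_card_alternatingGroup, Nat.card_fin]; rfl
  refine ⟨?_, fun H hH v w v' w' => ?_⟩
  · obtain ⟨e⟩ := H63.nonempty_mulEquiv_gl_four_two
    let φ : GL (Fin 4) F ≃* alternatingGroup (Fin 8) :=
      (Units.mapEquiv (ZMod.ringEquivOfPrime F Nat.prime_two hF).mapMatrix.symm.toMulEquiv).trans e
    let i : Equiv.Perm (Fin 7) →* Equiv.Perm (Fin 8) :=
      Equiv.Perm.viaEmbeddingHom (Fin.castSuccEmb : Fin 7 ↪ Fin 8)
    let j : alternatingGroup (Fin 7) →* alternatingGroup (Fin 8) :=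
      (i.comp (alternatingGroup (Fin 7)).subtype).codRestrict _ fun σ => by
        rw [Equiv.Perm.mem_alternatingGroup]
        show Equiv.Perm.sign (Equiv.Perm.viaEmbedding (σ : Equiv.Perm (Fin 7)) _) = 1
        rw [Equiv.Perm.viaEmbedding, Equiv.Perm.sign_extendDomain]
        exact σ.2
    have hj : Function.Injective (φ.symm.toMonoidHom.comp j) :=
      φ.symm.injective.comp fun a b hab =>
        Subtype.ext (Equiv.Perm.viaEmbeddingHom_injective _ (congrArg Subtype.val hab))
    exact ⟨_, ⟨(MonoidHom.ofInjective hj).symm⟩⟩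
  · obtain ⟨e⟩ := hH
    exact H63.two_transitive_of_card hF H ((Nat.card_congr e.toEquiv).trans hcard) v w v' w'

end Cfsg.Agent.S2551
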