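import Cfsg.Statements.S2556
import Cfsg.Agent.H7.SzAut
import Cfsg.Agent.H7.SzLie
-- import your own Cfsg.Agent.* helpers here

set_option autoImplicit false
open Cfsg

namespace Cfsg.Agent.S2556

/-- Let S be a Sylow 2-subgroup of the Suzuki group Sz(q), q = 2ⁿ with n = 2m + 1 ≥ 3 (realised as 4 × 4 matrices over the field with q elements). Then the largest normal 2-subgroup of the automorphism group of S is elementary abelian of order 2^(n²), and the automorphism group of S has order 2^(n²) · n · (q − 1). -/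
theorem result {S : Type*} [Group S] [Finite S] (m : ℕ) (hm : 1 ≤ m)
    {F : Type*} [Field F] [Fintype F] (hF : Fintype.card F = 2 ^ (2 * m + 1))
    (P : Sylow 2 ↥(Cfsg.Lie.Sz F (2 ^ (m + 1)))) (hS : Nonempty (S ≃* ↥(P : Subgroup ↥(Cfsg.Lie.Sz F (2 ^ (m + 1)))))) :
    Cfsg.IsElementaryAbelian 2 (Cfsg.pCore 2 (MulAut S)) ∧ Nat.card ↥(Cfsg.pCore 2 (MulAut S)) = 2 ^ ((2 * m + 1) ^ 2) ∧
      Nat.card (MulAut S) = 2 ^ ((2 * m + 1) ^ 2) * ((2 * m + 1) * (2 ^ (2 * m + 1) - 1)) := by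
  have H := Cfsg.Agent.H7.SzHyp.of_fintype hm hF
  obtain ⟨e⟩ := hS
  haveI := H.finite_Sz
  haveI : Fact (Nat.Prime 2) := ⟨Nat.prime_two⟩
  obtain ⟨e'⟩ := H.nonempty_sylow_equiv (P.mapSurjective (f := H.lieEquiv.symm.toMonoidHom) H.lieEquiv.symm.surjective)
  exact H.aut_statement ((e.trans ((P : Subgroup _).equivMapOfInjective H.lieEquiv.symm.toMonoidHom
    H.lieEquiv.symm.injective)).trans e'.symm)

end Cfsg.Agent.S2556
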