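import Cfsg.Statements.S2558
import Cfsg.Agent.H66.OrthClassData
import Cfsg.Agent.H66.OrthCharpoly
import Cfsg.Agent.H4.StdForms

set_option autoImplicit false
open Cfsg

namespace Cfsg.Agent.S2558

open QuadraticMap Module

/-- Both bounds for the isometry group of a form in even dimension. -/
theorem bounds {F : Type*} [Field F] [Fintype F] (hodd : Odd (Fintype.card F)) {ι : Type} [Fintype ι]
    [DecidableEq ι] (Q : QuadraticForm F (ι → F)) (hQ : (polarBilin Q).Nondegenerate) {n : ℕ}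
    (hι : Fintype.card ι = 2 * n) (hn : 2 ≤ n) :
    Fintype.card F ^ n ≤ 2 * Nat.card (ConjClasses ↥(Cfsg.isometryGroup F ⇑Q)) ∧
      2 * Nat.card (ConjClasses ↥(Cfsg.isometryGroup F ⇑Q)) ≤ 19 * Fintype.card F ^ n := by
  classical
  obtain ⟨p, hp⟩ := CharP.exists F
  obtain ⟨k, hpp, hk⟩ := FiniteField.card F p
  have : Fact p.Prime := ⟨hpp⟩
  have hp2 : p ≠ 2 := by
    rintro rfl
    rw [hk] at hodd
    exact absurd hodd (Nat.not_odd_iff_even.2 (Nat.even_pow.2 ⟨even_two, k.2.ne'⟩))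
  have h2 : (2 : F) ≠ 0 := fun h0 => hp2 ((Nat.prime_dvd_prime_iff_eq hpp Nat.prime_two).1
    ((CharP.cast_eq_zero_iff F p 2).1 (by exact_mod_cast h0)))
  have hmem : ∀ g : GL ι F, g ∈ Cfsg.isometryGroup F ⇑Q ↔
      ∀ v, Q ((g : Matrix ι ι F).mulVec v) = Q v :=
    fun g => ⟨fun h v => h v v, fun h u _ => h u⟩
  let ρ : ↥(Cfsg.isometryGroup F ⇑Q) →* Module.End F (ι → F) :=
    ((Matrix.toLinAlgEquiv' : Matrix ι ι F ≃ₐ[F] _).toAlgHom.toMonoidHom.comp
      (Units.coeHom (Matrix ι ι F))).comp (Subgroup.subtype _)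
  have hρv : ∀ g x, ρ g x = (g.1 : Matrix ι ι F).mulVec x := fun g x => Matrix.toLinAlgEquiv'_apply _ _
  have hρi : Function.Injective ρ := fun a b h =>
    Subtype.ext (Units.ext (Matrix.toLinAlgEquiv'.injective h))
  have hsurj : ∀ φ : (ι → F) ≃ₗ[F] (ι → F), (∀ x, Q (φ x) = Q x) → ∃ c, ∀ x, ρ c x = φ x := by
    intro φ hφ
    let u : GL ι F := ⟨LinearMap.toMatrix' φ.toLinearMap, LinearMap.toMatrix' φ.symm.toLinearMap,
      by rw [← LinearMap.toMatrix'_comp, LinearEquiv.comp_symm, LinearMap.toMatrix'_id],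
      by rw [← LinearMap.toMatrix'_comp, LinearEquiv.symm_comp, LinearMap.toMatrix'_id]⟩
    have hu : ∀ v, (u : Matrix ι ι F).mulVec v = φ v := fun v => by
      show (LinearMap.toMatrix' φ.toLinearMap).mulVec v = φ v
      rw [LinearMap.toMatrix'_mulVec]; rfl
    exact ⟨⟨u, (hmem u).2 fun v => by rw [hu, hφ]⟩, fun x => by rw [hρv]; exact hu x⟩
  have hsys : ∀ g, H66.OrthSplit.IsOSys (polarBilin Q) (ρ g) := fun g =>
    ⟨hQ, fun x y => QuadraticMap.polar_comm _ x y, fun x y => by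
      simp only [polarBilin_apply_apply, QuadraticMap.polar, ← map_add, hρv, ← Matrix.mulVec_add,
        (hmem _).1 g.2]⟩
  obtain ⟨m, rfl⟩ : ∃ m, n = m + 2 := ⟨n - 2, by omega⟩
  have hV : finrank F (ι → F) = 2 * (m + 2) := by rw [finrank_pi]; exact hι
  refine ⟨H66.OrthChar.pow_le_card_classes h2 hQ hV ρ hsurj, ?_⟩
  refine (H66.OrthData.card_classes_le (B := polarBilin Q) hp2 (n := m + 1) hV ρ hρi hsys
    fun φ hφ => hsurj φ fun x => ?_).trans (H66.OrthTuple.card_data_le_const ?_ _ _ _)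
  · have h := hφ x x
    simp only [polarBilin_apply_apply, QuadraticMap.polar_self, smul_eq_mul, two_smul] at h
    exact mul_left_cancel₀ h2 (by linear_combination h)
  · obtain ⟨r, hr⟩ := hodd
    have := Fintype.one_lt_card (α := F)
    omega

/-- The number of conjugacy classes of the full orthogonal groups O⁺(2n,q) and O⁻(2n,q), q odd, 2n ≥ 4: for F a finite field of odd order q and n ≥ 2, the number k of conjugacy classes of the isometry group of the hyperbolic quadratic form Σ xᵢyᵢ on F^{2n}, and likewise of the elliptic form Σ xᵢyᵢ + (z₁² + a z₁z₂ + b z₂²) with anisotropic binary part, satisfies q^n/2 ≤ k ≤ 9.5·q^n. -/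
theorem result {F : Type*} [Field F] [Fintype F] (hodd : Odd (Fintype.card F)) (n : ℕ) (hn : 2 ≤ n) (a b : F) (hab : ∀ z₁ z₂ : F, z₁ ^ 2 + a * z₁ * z₂ + b * z₂ ^ 2 = 0 → z₁ = 0 ∧ z₂ = 0) :
    (Fintype.card F ^ n ≤ 2 * Nat.card (ConjClasses ↥(Cfsg.isometryGroup F (Cfsg.quadFormPlus n F))) ∧
      2 * Nat.card (ConjClasses ↥(Cfsg.isometryGroup F (Cfsg.quadFormPlus n F))) ≤ 19 * Fintype.card F ^ n) ∧
    (Fintype.card F ^ n ≤ 2 * Nat.card (ConjClasses ↥(Cfsg.isometryGroup F (Cfsg.quadFormMinus (n - 1) F a b))) ∧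
      2 * Nat.card (ConjClasses ↥(Cfsg.isometryGroup F (Cfsg.quadFormMinus (n - 1) F a b))) ≤ 19 * Fintype.card F ^ n) := by
  obtain ⟨m, rfl⟩ : ∃ m, n = m + 1 := ⟨n - 1, by omega⟩
  have h2 : (2 : F) ≠ 0 := fun h0 => by
    have h := FiniteField.even_card_of_char_two (F := F) (CharP.ringChar_of_prime_eq_zero Nat.prime_two (by exact_mod_cast h0))
    rw [Nat.odd_iff] at hodd
    omega
  have hd : a ^ 2 - 4 * b ≠ 0 := fun h => by
    have := hab (-a / 2) 1 (by field_simp; linear_combination -h)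
    exact one_ne_zero this.2
  have h1 := bounds hodd (H4.qPlus (m + 1) F) (H4.qPlus_nondegenerate _) (n := m + 1) (by simp; omega) hn
  have h3 := bounds hodd (H4.qMinus m F a b) (H4.qMinus_nondegenerate hd _) (n := m + 1) (by simp; omega) hn
  rw [H4.coe_qPlus] at h1
  rw [H4.coe_qMinus] at h3
  exact ⟨h1, by simpa using h3⟩

end Cfsg.Agent.S2558
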