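import Cfsg.Statements.S2560
import Cfsg.Agent.H66.OrthClassOdd
import Cfsg.Agent.H5.OmegaForms
import Cfsg.Agent.H4.StdForms

set_option autoImplicit false
open Cfsg

namespace Cfsg.Agent.S2560

/-- The number of conjugacy classes of Ω(2n+1,q), q odd, n ≥ 2: for F a finite field of odd order q, the number k of conjugacy classes of the commutator subgroup of the isometry group of the quadratic form x₀² + Σ xᵢyᵢ on F^{2n+1} satisfies q^n/2 ≤ k ≤ 7.3·q^n. -/
theorem result {F : Type*} [Field F] [Fintype F] (hodd : Odd (Fintype.card F)) (n : ℕ) (hn : 2 ≤ n) :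
    Fintype.card F ^ n ≤ 2 * Nat.card (ConjClasses ↥(Cfsg.Omega F (Cfsg.quadFormOdd n F))) ∧
      10 * Nat.card (ConjClasses ↥(Cfsg.Omega F (Cfsg.quadFormOdd n F))) ≤ 73 * Fintype.card F ^ n := by
  classical
  obtain ⟨p, hp⟩ := CharP.exists F
  obtain ⟨k, hpp, hk⟩ := FiniteField.card F p
  have : Fact p.Prime := ⟨hpp⟩
  have hp2 : p ≠ 2 := by
    rintro rfl
    rw [hk] at hodd
    exact absurd hodd (Nat.not_odd_iff_even.2 (Nat.even_pow.2 ⟨even_two, k.2.ne'⟩))
  have h2 : (2 : F) ≠ 0 := fun h0 => hp2 ((Nat.prime_dvd_prime_iff_eq hpp Nat.prime_two).1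
    ((CharP.cast_eq_zero_iff F p 2).1 (by exact_mod_cast h0)))
  have hQ := H4.qOdd_nondegenerate (F := F) h2 n
  have hV : Module.finrank F (Unit ⊕ (Fin n ⊕ Fin n) → F) = 2 * n + 1 := by
    rw [Module.finrank_pi]; simp; omega
  let e := ConjClasses.map (H5.omegaEquiv (H4.qOdd n F) (H4.coe_qOdd n)).toMonoidHom
  have he : Nat.card (ConjClasses ↥(Cfsg.Omega F (Cfsg.quadFormOdd n F))) =
      Nat.card (ConjClasses ↥(commutator (H5.orth (H4.qOdd n F)))) := by
    refine Nat.card_eq_of_bijective e ⟨fun a b h => ?_, ConjClasses.map_surjective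
      (H5.omegaEquiv (H4.qOdd n F) (H4.coe_qOdd n)).surjective⟩
    obtain ⟨x, rfl⟩ := ConjClasses.mk_surjective a
    obtain ⟨y, rfl⟩ := ConjClasses.mk_surjective b
    obtain ⟨w, hw⟩ := isConj_iff.1 (ConjClasses.mk_eq_mk_iff_isConj.1 h)
    set E := H5.omegaEquiv (H4.qOdd n F) (H4.coe_qOdd n)
    refine ConjClasses.mk_eq_mk_iff_isConj.2 (isConj_iff.2 ⟨E.symm w, E.injective ?_⟩)
    rw [map_mul, map_mul, map_inv, E.apply_symm_apply]
    exact hw
  rw [he]
  have h3 : 3 ≤ Fintype.card F := by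
    obtain ⟨r, hr⟩ := hodd
    have := Fintype.one_lt_card (α := F)
    omega
  refine ⟨H66.OrthOdd.pow_le_two_mul_card_classes h2 hQ hV (by omega), ?_⟩
  have h4 := H66.OrthOdd.four_mul_card_classes_le hp2 hQ hV (by omega)
  have h5 := H66.OddTuple.card_const (K := F) h3 hodd n hn
  omega

end Cfsg.Agent.S2560
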