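import Cfsg.Statements.S2648
import Cfsg.Agent.H86.SpSylowTwo


set_option autoImplicit false
open Cfsg

namespace Cfsg.Agent.S2648

/-- Let q be odd, F a field with q elements and n ≥ 1. A Sylow 2-subgroup R of the symplectic group Sp_{2n}(F) has derived length exactly k + 1, where 2^k ≤ 2n < 2^{k+1}: the (k+1)-st term of its derived series is trivial and the k-th is not. -/
theorem result {F : Type*} [Field F] [Fintype F] [DecidableEq F] (q : ℕ) (hF : Fintype.card F = q) (hq : Odd q) (n : ℕ) (hn : 1 ≤ n) (R : Sylow 2 ↥(Matrix.symplecticGroup (Fin n) F)) : derivedSeries ↥(R : Subgroup ↥(Matrix.symplecticGroup (Fin n) F)) (Nat.log 2 (2 * n) + 1) = ⊥ ∧ derivedSeries ↥(R : Subgroup ↥(Matrix.symplecticGroup (Fin n) F)) (Nat.log 2 (2 * n)) ≠ ⊥ := by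
  exact H86.derivedSeries_sylow_two_sp hF hq hn R

end Cfsg.Agent.S2648
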