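import Cfsg.Statements.S2731
import Cfsg.Agent.H4.LocalBalance.OddOrth

set_option autoImplicit false
open Cfsg

namespace Cfsg.Agent.S2731

/-- A criterion for the failure of local balance in almost simple groups whose socle is an odd-dimensional orthogonal group Ω_{2m+1}(F) (m ≥ 3, |F| odd; the form x₀² + Σ xᵢ yᵢ). Let F be a finite field of characteristic r and K the (simple) group in question; let A be a group of automorphisms of K containing all inner automorphisms, and x ∈ A an automorphism of prime order p ≠ r that is not inner-diagonal (not induced by a similarity of the form). Then the largest normal subgroup of C_A(x) of order prime to p is nontrivial if and only if x is a field automorphism of K (conjugate under Aut(K) to a non-identity standard field automorphism) and p does not divide the number of fixed points of x on K. -/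
theorem result {F : Type*} [Field F] [Fintype F] {r : ℕ} [Fact r.Prime] [CharP F r] (hodd : Odd (Fintype.card F)) {m : ℕ} (hm : 3 ≤ m) (hK : IsSimpleGroup (Cfsg.POmega F (Cfsg.quadFormOdd m F))) (A : Subgroup (MulAut (Cfsg.POmega F (Cfsg.quadFormOdd m F)))) (hinn : ∀ k : Cfsg.POmega F (Cfsg.quadFormOdd m F), MulAut.conj k ∈ A) {p : ℕ} [Fact p.Prime] (hpr : p ≠ r) (x : MulAut (Cfsg.POmega F (Cfsg.quadFormOdd m F))) (hxA : x ∈ A) (hord : orderOf x = p) (hnot : ¬ Cfsg.IsInnerDiagonalAutPOmegaOdd m x) :
    Cfsg.pPrimeCore p ↥(A ⊓ Subgroup.centralizer {x}) ≠ ⊥ ↔ (Cfsg.IsFieldAutClassPOmega (Cfsg.quadFormOdd m F) x ∧ Nat.Coprime p (Nat.card ↥(MonoidHom.eqLocus x.toMonoidHom (MonoidHom.id (Cfsg.POmega F (Cfsg.quadFormOdd m F)))))) := by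
  refine Cfsg.Agent.H4.LocalBalance.odd_local_balance (fun h2 => ?_) hm A hinn x hxA hord hnot
  haveI := CharTwo.of_one_ne_zero_of_two_eq_zero (R := F) one_ne_zero h2
  exact Nat.not_even_iff_odd.2 hodd
    (Nat.even_iff.2 (FiniteField.even_card_of_char_two (ringChar.eq F 2)))

end Cfsg.Agent.S2731
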