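import Cfsg.Statements.S2756
-- import your own Cfsg.Agent.* helpers here
import Cfsg.Agent.H85.TwoClosedCriterion

set_option autoImplicit false
open Cfsg

namespace Cfsg.Agent.S2756

/-- For a finite group G the following are equivalent: (a) G has a normal Sylow 2-subgroup; (b) for every odd prime q dividing the order of G and every Sylow q-subgroup T, the normalizer of Z(J(T)) has a normal Sylow 2-subgroup; (c) for every odd prime q and every Sylow q-subgroup T, no nonidentity element of T is inverted by an element of the normalizer of Z(J(T)). Here J(T) is the Thompson subgroup generated by the abelian subgroups of T of largest order. Stated as the two equivalences (a) ⇔ (b) and (a) ⇔ (c). -/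
theorem result {G : Type*} [Group G] [Finite G] : ((∀ P : Sylow 2 G, (P : Subgroup G).Normal) ↔ ∀ (q : ℕ) [Fact q.Prime], q ≠ 2 → q ∣ Nat.card G → ∀ T : Sylow q G, ∀ P : Sylow 2 ↥(Subgroup.normalizer (Cfsg.centerThompsonAOf (T : Subgroup G) : Set G)), (P : Subgroup ↥(Subgroup.normalizer (Cfsg.centerThompsonAOf (T : Subgroup G) : Set G))).Normal) ∧ ((∀ P : Sylow 2 G, (P : Subgroup G).Normal) ↔ ∀ (q : ℕ) [Fact q.Prime], q ≠ 2 → ∀ T : Sylow q G, ∀ x ∈ (T : Subgroup G), x ≠ 1 → ∀ g ∈ Subgroup.normalizer (Cfsg.centerThompsonAOf (T : Subgroup G) : Set G), g * x * g⁻¹ ≠ x⁻¹) := by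
  have hab : (∀ P : Sylow 2 G, (P : Subgroup G).Normal) →
      ∀ (q : ℕ) [Fact q.Prime], q ≠ 2 → q ∣ Nat.card G → ∀ T : Sylow q G,
      ∀ P : Sylow 2 ↥(Subgroup.normalizer (Cfsg.centerThompsonAOf (T : Subgroup G) : Set G)),
        (P : Subgroup ↥(Subgroup.normalizer (Cfsg.centerThompsonAOf (T : Subgroup G) : Set G))).Normal :=
    fun h q _ _ _ T P => H85.sylow_two_normal_subgroup h _ P
  have hbc : (∀ (q : ℕ) [Fact q.Prime], q ≠ 2 → q ∣ Nat.card G → ∀ T : Sylow q G,
      ∀ P : Sylow 2 ↥(Subgroup.normalizer (Cfsg.centerThompsonAOf (T : Subgroup G) : Set G)),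
        (P : Subgroup ↥(Subgroup.normalizer (Cfsg.centerThompsonAOf (T : Subgroup G) : Set G))).Normal) →
      ∀ (q : ℕ) [Fact q.Prime], q ≠ 2 → ∀ T : Sylow q G, ∀ x ∈ (T : Subgroup G), x ≠ 1 →
        ∀ g ∈ Subgroup.normalizer (Cfsg.centerThompsonAOf (T : Subgroup G) : Set G),
          g * x * g⁻¹ ≠ x⁻¹ := by
    intro hb q _ hq T x hx hx1 g hg hgx
    obtain ⟨k, hk⟩ := T.isPGroup' ⟨x, hx⟩
    have hk' : x ^ q ^ k = 1 := congrArg Subtype.val hk
    have hdvd : q ∣ Nat.card G := by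
      obtain ⟨i, -, hi⟩ := (Nat.dvd_prime_pow (Fact.out : q.Prime)).1 (orderOf_dvd_of_pow_eq_one hk')
      cases i with
      | zero => rw [pow_zero, orderOf_eq_one_iff] at hi; exact absurd hi hx1
      | succ i => exact (dvd_pow_self q (Nat.succ_ne_zero i)).trans (hi ▸ orderOf_dvd_natCard x)
    have hxN := (Subgroup.le_normalizer.trans
      (H35.normalizer_le_normalizer_centerThompsonAOf _)) hx
    exact H85.not_inverted_of_two_closed (hb q hq hdvd T) hq (g := ⟨g, hg⟩) (x := ⟨x, hxN⟩)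
      ⟨k, Subtype.ext hk'⟩ (fun h => hx1 (congrArg Subtype.val h)) (Subtype.ext hgx)
  have hca : (∀ (q : ℕ) [Fact q.Prime], q ≠ 2 → ∀ T : Sylow q G, ∀ x ∈ (T : Subgroup G), x ≠ 1 →
        ∀ g ∈ Subgroup.normalizer (Cfsg.centerThompsonAOf (T : Subgroup G) : Set G),
          g * x * g⁻¹ ≠ x⁻¹) → ∀ P : Sylow 2 G, (P : Subgroup G).Normal := by
    intro hc
    by_contra hna
    obtain ⟨q, hqf, hq, hinv⟩ := H85.exists_involves_of_not_two_closed hna
    obtain ⟨T⟩ : Nonempty (Sylow q G) := inferInstance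
    obtain ⟨g, y, -, ⟨k, hk⟩, hy1, hgy⟩ :=
      (Agent.S2758.result hq).2.1 (H85.involves_normalizer_centerThompson hq hinv T)
    obtain ⟨U, hU⟩ := (IsPGroup.of_card (p := q) (n := k)
      (show Nat.card (Subgroup.zpowers y) = q ^ k by rw [Nat.card_zpowers, hk])).exists_le_sylow
    have hTN := Subgroup.le_normalizer.trans
      (H35.normalizer_le_normalizer_centerThompsonAOf (T : Subgroup G))
    obtain ⟨c, hc'⟩ := MulAction.exists_smul_eq ↥(Subgroup.normalizer (Cfsg.centerThompsonAOf (T : Subgroup G) : Set G)) U (T.subtype hTN)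
    have hmem : c * y * c⁻¹ ∈ ((T.subtype hTN : Sylow q _) : Subgroup _) := by
      rw [← hc', Sylow.coe_subgroup_smul]
      exact ⟨y, hU (Subgroup.mem_zpowers y), rfl⟩
    refine hc q hq T _ hmem ?_ _ (c * g * c⁻¹).2 ?_
    · exact fun h => hy1 (conj_eq_one_iff.1 (Subtype.ext h))
    · have e : (c * g * c⁻¹) * (c * y * c⁻¹) * (c * g * c⁻¹)⁻¹ = (c * y * c⁻¹)⁻¹ := by
        calc (c * g * c⁻¹) * (c * y * c⁻¹) * (c * g * c⁻¹)⁻¹ = c * (g * y * g⁻¹) * c⁻¹ := by group
          _ = (c * y * c⁻¹)⁻¹ := by rw [hgy]; group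
      exact congrArg Subtype.val e
  exact ⟨⟨hab, fun h => hca (hbc h)⟩, ⟨fun h => hbc (hab h), hca⟩⟩

end Cfsg.Agent.S2756
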