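import Cfsg.Statements.S2758
import Cfsg.Agent.S3684

set_option autoImplicit false
open Cfsg

namespace Cfsg.Agent.S2758

variable {G : Type*} [Group G] [Finite G] {p : ℕ} [Fact p.Prime]

/-- An element of order `p` inverted by a `2`-element gives a dihedral section. -/
theorem involves_of_inverted (hp : p ≠ 2) {x y : G} (hx : ∃ k : ℕ, orderOf x = 2 ^ k)
    (hy : orderOf y = p) (hxy : x * y * x⁻¹ = y⁻¹) : Cfsg.Involves (DihedralGroup p) G := by
  have hpp : p.Prime := Fact.out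
  obtain ⟨k, hk⟩ := hx
  have hcop : Nat.Coprime p (2 ^ k) :=
    Nat.Coprime.pow_right _ ((Nat.coprime_primes hpp Nat.prime_two).2 hp)
  set K := Subgroup.closure ({x, y} : Set G) with hK
  set R := Subgroup.zpowers (x ^ 2) with hR
  have hxK : x ∈ K := Subgroup.subset_closure (Or.inl rfl)
  have hyK : y ∈ K := Subgroup.subset_closure (Or.inr rfl)
  have hx2y : x ^ 2 * y = y * x ^ 2 := by
    calc x ^ 2 * y = x * (x * y * x⁻¹) * x := by rw [sq]; group
      _ = x * y⁻¹ * x := by rw [hxy]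
      _ = (x * y * x⁻¹)⁻¹ * x ^ 2 := by rw [sq]; group
      _ = y * x ^ 2 := by rw [hxy, inv_inv]
  have hcent : K ≤ Subgroup.centralizer ({x ^ 2} : Set G) := by
    rw [hK, Subgroup.closure_le]
    rintro z (h | h)
    · rw [h]; exact Subgroup.mem_centralizer_singleton_iff.2 (Commute.self_pow x 2).eq
    · rw [Set.mem_singleton_iff] at h
      rw [h]; exact Subgroup.mem_centralizer_singleton_iff.2 hx2y.symm
  have hRn : (R.subgroupOf K).Normal := by
    refine ⟨fun r hr g => ?_⟩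
    rw [Subgroup.mem_subgroupOf] at hr ⊢
    obtain ⟨i, hi⟩ := hr
    have hc : Commute (g : G) (r : G) := by
      rw [← hi]
      exact (show Commute (g : G) (x ^ 2) from
        Subgroup.mem_centralizer_singleton_iff.1 (hcent g.2)).zpow_right i
    rw [Subgroup.coe_mul, Subgroup.coe_mul, Subgroup.coe_inv, hc.eq, mul_inv_cancel_right]
    exact ⟨i, hi⟩
  let f := QuotientGroup.mk' (R.subgroupOf K)
  set a := f ⟨y, hyK⟩ with ha
  set b := f ⟨x, hxK⟩ with hb
  have hone : ∀ w : K, f w = 1 ↔ (w : G) ∈ R := fun w => by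
    rw [QuotientGroup.mk'_apply, QuotientGroup.eq_one_iff, Subgroup.mem_subgroupOf]
  have hnR : ∀ w : G, w ∈ R → orderOf w ∣ 2 ^ k := by
    rintro w ⟨i, rfl⟩
    refine orderOf_dvd_of_pow_eq_one ?_
    show ((x ^ 2) ^ i) ^ (2 ^ k) = 1
    rw [← zpow_natCast ((x ^ 2) ^ i), ← zpow_mul, mul_comm i, zpow_mul, zpow_natCast, ← pow_mul,
      mul_comm 2, pow_mul, ← hk, pow_orderOf_eq_one, one_pow, one_zpow]
  have hap : orderOf a = p := by
    refine orderOf_eq_prime ?_ fun h => ?_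
    · rw [ha, ← map_pow]
      exact (hone _).2 (by
        rw [SubgroupClass.coe_pow, ← hy, pow_orderOf_eq_one]; exact one_mem _)
    · have h1 := hnR y ((hone ⟨y, hyK⟩).1 h)
      rw [hy] at h1
      exact hpp.ne_one (Nat.eq_one_of_dvd_coprimes hcop dvd_rfl h1)
  have hbb : b * b = 1 := by
    rw [hb, ← map_mul]
    exact (hone _).2 (by rw [Subgroup.coe_mul, ← sq]; exact Subgroup.mem_zpowers _)
  have hbinv : b⁻¹ = b := inv_eq_of_mul_eq_one_right hbb
  have hba : b * a * b = a⁻¹ := by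
    nth_rewrite 2 [← hbinv]
    rw [hb, ha, ← map_inv, ← map_mul, ← map_mul, ← map_inv]
    exact congrArg f (Subtype.ext hxy)
  have hns : b ∉ Subgroup.zpowers a := by
    intro h
    obtain ⟨i, hi⟩ := h
    have hi' : a ^ i = b := hi
    have h1 : b * a * b = a := by
      rw [← hi', ((Commute.self_zpow a i).symm).eq, mul_assoc, hi', hbb, mul_one]
    rw [hba, inv_eq_iff_mul_eq_one, ← sq] at h1
    have h2 := orderOf_dvd_of_pow_eq_one h1
    rw [hap] at h2
    exact hp ((Nat.prime_dvd_prime_iff_eq hpp Nat.prime_two).1 h2)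
  have : NeZero (orderOf a) := ⟨by rw [hap]; exact hpp.ne_zero⟩
  have hai : ∀ i : ℕ, ∃ j : ℕ, (a ^ i)⁻¹ = a ^ j := fun i => by
    obtain ⟨j, hj⟩ := mem_powers_iff_mem_zpowers.2 (inv_mem (pow_mem (Subgroup.mem_zpowers a) i))
    exact ⟨j, hj.symm⟩
  have hgen : ∀ g : K ⧸ R.subgroupOf K, ∃ i : ℕ, g = a ^ i ∨ g = b * a ^ i := by
    intro g
    obtain ⟨⟨w, hw⟩, rfl⟩ := QuotientGroup.mk'_surjective _ g
    have hswap : ∀ i : ℕ, a ^ i * b = b * (a ^ i)⁻¹ := fun i => by
      have h1 : b * a * b⁻¹ = a⁻¹ := by rw [hbinv, hba]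
      have h2 : b * a ^ i * b⁻¹ = (a ^ i)⁻¹ := by rw [← conj_pow, h1, inv_pow]
      calc a ^ i * b = b * (b * a ^ i * b⁻¹) := by
            rw [hbinv, ← mul_assoc, ← mul_assoc, hbb, one_mul]
        _ = b * (a ^ i)⁻¹ := by rw [h2]
    induction hw using Subgroup.closure_induction with
    | mem z hz =>
      rcases hz with h | h
      · subst h; exact ⟨0, Or.inr (by rw [pow_zero, mul_one])⟩
      · rw [Set.mem_singleton_iff] at h
        subst h; exact ⟨1, Or.inl (pow_one a).symm⟩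
    | one => exact ⟨0, Or.inl (by rw [pow_zero]; exact map_one f)⟩
    | mul u v hu hv iu iv =>
      have e : f ⟨u * v, mul_mem hu hv⟩ = f ⟨u, hu⟩ * f ⟨v, hv⟩ := map_mul f ⟨u, hu⟩ ⟨v, hv⟩
      show ∃ i : ℕ, f ⟨u * v, _⟩ = _ ∨ f ⟨u * v, _⟩ = _
      rw [e]
      obtain ⟨i, hi | hi⟩ := iu <;> obtain ⟨j, hj | hj⟩ := iv <;> rw [hi, hj]
      · exact ⟨i + j, Or.inl (pow_add a i j).symm⟩
      · obtain ⟨i', hi'⟩ := hai i
        exact ⟨i' + j, Or.inr (by rw [← mul_assoc, hswap, hi', mul_assoc, ← pow_add])⟩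
      · exact ⟨i + j, Or.inr (by rw [mul_assoc, ← pow_add])⟩
      · obtain ⟨i', hi'⟩ := hai i
        exact ⟨i' + j, Or.inl (by
          rw [mul_assoc, ← mul_assoc (a ^ i), hswap, hi', mul_assoc b, ← pow_add, ← mul_assoc, hbb,
            one_mul])⟩
    | inv u hu iu =>
      have e : f ⟨u⁻¹, inv_mem hu⟩ = (f ⟨u, hu⟩)⁻¹ := map_inv f ⟨u, hu⟩
      show ∃ i : ℕ, f ⟨u⁻¹, _⟩ = _ ∨ f ⟨u⁻¹, _⟩ = _
      rw [e]
      obtain ⟨i, hi | hi⟩ := iu <;> rw [hi]
      · obtain ⟨i', hi'⟩ := hai i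
        exact ⟨i', Or.inl hi'⟩
      · exact ⟨i, Or.inr (by
          have h1 := hswap i
          rw [mul_inv_rev, hbinv]
          calc (a ^ i)⁻¹ * b = (a ^ i)⁻¹ * (b * (a ^ i)⁻¹) * a ^ i := by group
            _ = b * a ^ i := by rw [← h1, inv_mul_cancel_left])⟩
  obtain ⟨e⟩ := Agent.S3684.dihedral_of_relations a b hbb hba hns hgen
  exact ⟨K, R, hRn, hap ▸ ⟨e⟩⟩

/-- A `2`-element acting nontrivially on a `p`-group gives an inverted element of order `p`. -/
theorem exists_inverted (hp : p ≠ 2) {x : G} {P : Subgroup G} (hx : ∃ k : ℕ, orderOf x = 2 ^ k)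
    (hP : IsPGroup p P) (hn : x ∈ Subgroup.normalizer (P : Set G))
    (hc : x ∉ Subgroup.centralizer (P : Set G)) :
    ∃ x' y : G, (∃ k : ℕ, orderOf x' = 2 ^ k) ∧ orderOf y = p ∧ x' * y * x'⁻¹ = y⁻¹ := by
  classical
  obtain ⟨k, hk⟩ := hx
  have hex : ∃ j, x ^ 2 ^ j ∈ Subgroup.centralizer (P : Set G) :=
    ⟨k, by rw [← hk, pow_orderOf_eq_one]; exact one_mem _⟩
  obtain ⟨j, hj⟩ : ∃ j, Nat.find hex = j + 1 := by
    refine ⟨Nat.find hex - 1, ?_⟩
    have : Nat.find hex ≠ 0 := fun h => hc (by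
      have := Nat.find_spec hex
      rwa [h, pow_zero, pow_one] at this)
    omega
  set z := x ^ 2 ^ j with hz
  have hzC : z ∉ Subgroup.centralizer (P : Set G) := Nat.find_min hex (by omega)
  have hz2 : z * z ∈ Subgroup.centralizer (P : Set G) := by
    rw [hz, ← pow_add, ← two_mul, ← pow_succ', ← hj]
    exact Nat.find_spec hex
  have hzN : z ∈ Subgroup.normalizer (P : Set G) := pow_mem hn _
  obtain ⟨u, hu, hne⟩ : ∃ u ∈ P, u * z ≠ z * u := by
    by_contra h
    push Not at h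
    exact hzC (Subgroup.mem_centralizer_iff.2 h)
  have hzu : z * u * z⁻¹ ∈ P := (Subgroup.mem_normalizer_iff.1 hzN u).1 hu
  set w := u⁻¹ * (z * u * z⁻¹) with hw
  have hwP : w ∈ P := mul_mem (inv_mem hu) hzu
  have hw1 : w ≠ 1 := fun h => hne (by
    rw [hw, inv_mul_eq_one, eq_mul_inv_iff_mul_eq] at h
    exact h)
  have hinv : z * w * z⁻¹ = w⁻¹ := by
    have h2 : u * (z * z) = (z * z) * u := Subgroup.mem_centralizer_iff.1 hz2 u hu
    calc z * w * z⁻¹ = (z * u⁻¹ * z⁻¹) * (z * z * u * (z * z)⁻¹) := by rw [hw]; group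
      _ = (z * u⁻¹ * z⁻¹) * u := by rw [← h2, mul_inv_cancel_right]
      _ = w⁻¹ := by rw [hw]; group
  obtain ⟨m, hm⟩ := hP ⟨w, hwP⟩
  obtain ⟨i, -, hi⟩ := (Nat.dvd_prime_pow Fact.out).1
    (orderOf_dvd_of_pow_eq_one (show w ^ p ^ m = 1 by simpa using congrArg Subtype.val hm))
  cases i with
  | zero => rw [pow_zero, orderOf_eq_one_iff] at hi; exact absurd hi hw1
  | succ i =>
    refine ⟨z, w ^ p ^ i, ?_, ?_, ?_⟩
    · obtain ⟨l, -, hl⟩ := (Nat.dvd_prime_pow Nat.prime_two).1 (hk ▸ orderOf_pow_dvd (x := x) (2 ^ j))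
      exact ⟨l, hl⟩
    · rw [orderOf_pow, hi, Nat.gcd_eq_right (pow_dvd_pow p (Nat.le_succ i)), pow_succ',
        Nat.mul_div_cancel _ (pow_pos (Fact.out : p.Prime).pos i)]
    · rw [← conj_pow, hinv, inv_pow]

/-- A dihedral section gives a `2`-element acting nontrivially on a `p`-subgroup. -/
theorem exists_acting (hp : p ≠ 2) (h : Cfsg.Involves (DihedralGroup p) G) :
    ∃ (x : G) (P : Subgroup G), (∃ k : ℕ, orderOf x = 2 ^ k) ∧ IsPGroup p ↥P ∧
      x ∈ Subgroup.normalizer (P : Set G) ∧ x ∉ Subgroup.centralizer (P : Set G) := by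
  have hpp : p.Prime := Fact.out
  obtain ⟨K, R, hRn, ⟨e⟩⟩ := h
  let φ : K →* DihedralGroup p := e.toMonoidHom.comp (QuotientGroup.mk' (R.subgroupOf K))
  have hφ : Function.Surjective φ := e.surjective.comp (QuotientGroup.mk'_surjective _)
  set Rot := Subgroup.zpowers (DihedralGroup.r 1 : DihedralGroup p) with hRot
  have hRi : Rot.index = 2 := by
    have h := Rot.card_mul_index
    rw [hRot, Nat.card_zpowers, DihedralGroup.orderOf_r_one, DihedralGroup.nat_card, mul_comm 2] at h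
    exact Nat.eq_of_mul_eq_mul_left hpp.pos h
  set K1 := Rot.comap φ with hK1
  have hK1i : K1.index = 2 := by rw [hK1, Subgroup.index_comap_of_surjective _ hφ, hRi]
  have hK1n : K1.Normal := Subgroup.normal_of_index_eq_two hK1i
  obtain ⟨P⟩ : Nonempty (Sylow p K1) := inferInstance
  have hfr := Sylow.normalizer_sup_eq_top P
  set Q := (P : Subgroup K1).map K1.subtype with hQ
  obtain ⟨n, hnN, hn⟩ : ∃ n ∈ Subgroup.normalizer (Q : Set K), n ∉ K1 := by
    by_contra hcon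
    push Not at hcon
    have : K1 = ⊤ := top_le_iff.1 (hfr.ge.trans (sup_le hcon le_rfl))
    rw [this, Subgroup.index_top] at hK1i
    omega
  obtain ⟨a, m, hm, ha⟩ := Nat.exists_eq_pow_mul_and_not_dvd (orderOf_pos n).ne' 2 (by norm_num)
  set x := n ^ m with hx
  have hxK1 : x ∉ K1 := by
    obtain ⟨c, rfl⟩ : Odd m := Nat.odd_iff.2 (Nat.two_dvd_ne_zero.1 hm)
    intro h
    have h2 : n ^ (2 * c) ∈ K1 := by rw [pow_mul]; exact pow_mem (Subgroup.sq_mem_of_index_two hK1i n) c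
    rw [hx, pow_succ] at h
    exact hn ((K1.mul_mem_cancel_left h2).1 h)
  refine ⟨(x : G), Q.map K.subtype, ⟨a, ?_⟩, (P.isPGroup'.map _).map _, ?_, ?_⟩
  · rw [Subgroup.orderOf_coe, hx, orderOf_pow, ha, Nat.gcd_eq_right (dvd_mul_left m _),
      Nat.mul_div_cancel _ (Nat.pos_of_ne_zero fun h => hm (by rw [h]; exact dvd_zero 2))]
  · have hxN : x ∈ Subgroup.normalizer (Q : Set K) := pow_mem hnN m
    exact Subgroup.le_normalizer_map K.subtype ⟨x, hxN, rfl⟩
  · intro hxc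
    -- some element of `Q` maps to a nontrivial rotation
    obtain ⟨q, hqQ, hq⟩ : ∃ q ∈ Q, φ q ≠ 1 := by
      by_contra hcon
      push Not at hcon
      let φ1 : K1 →* Rot := (φ.comp K1.subtype).codRestrict Rot fun w => w.2
      have hsurj : Function.Surjective φ1 := by
        rintro ⟨d, hd⟩
        obtain ⟨w, rfl⟩ := hφ d
        exact ⟨⟨w, hd⟩, rfl⟩
      have hle : (P : Subgroup K1) ≤ φ1.ker := fun w hw =>
        Subtype.ext (hcon _ ⟨w, hw, rfl⟩)
      have h1 := Subgroup.index_dvd_of_le hle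
      rw [Subgroup.index_ker, MonoidHom.range_eq_top.2 hsurj, Subgroup.card_top, hRot,
        Nat.card_zpowers, DihedralGroup.orderOf_r_one] at h1
      exact P.not_dvd_index h1
    have hqK1 : q ∈ K1 := Subgroup.map_subtype_le _ hqQ
    have hcomm : q * x = x * q := by
      have := Subgroup.mem_centralizer_iff.1 hxc (q : G) ⟨q, hqQ, rfl⟩
      exact Subtype.ext this
    have h2 : φ q * φ x = φ x * φ q := by rw [← map_mul, hcomm, map_mul]
    have h3 : φ x ∉ Rot := hxK1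
    have h4 : φ q ∈ Rot := hqK1
    obtain ⟨i, hi⟩ := h4
    have hqi : φ q = DihedralGroup.r (i : ZMod p) := by rw [← hi]; exact DihedralGroup.r_one_zpow i
    rcases hxx : φ x with c | c
    · apply h3
      exact ⟨(c.val : ℤ), by
        show (DihedralGroup.r 1 : DihedralGroup p) ^ (c.val : ℤ) = _
        rw [hxx, zpow_natCast, DihedralGroup.r_one_pow, ZMod.natCast_zmod_val]⟩
    · rw [hxx, hqi, DihedralGroup.r_mul_sr, DihedralGroup.sr_mul_r] at h2
      have h5 : c - (i : ZMod p) = c + i := DihedralGroup.sr.inj h2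
      have h6 : (2 : ZMod p) * i = 0 := by linear_combination -h5
      rcases mul_eq_zero.1 h6 with h7 | h7
      · have : ((2 : ℕ) : ZMod p) = 0 := by exact_mod_cast h7
        rw [ZMod.natCast_eq_zero_iff] at this
        exact hp ((Nat.prime_dvd_prime_iff_eq hpp Nat.prime_two).1 this)
      · exact hq (by rw [hqi, h7, DihedralGroup.r_zero])


/-- For an odd prime p and a finite group G the following are equivalent: the dihedral group of order 2p is involved in G; some element of 2-power order normalizes but does not centralize some p-subgroup of G; some element of 2-power order inverts some nonidentity element of p-power order. -/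
theorem result {G : Type*} [Group G] [Finite G] {p : ℕ} [Fact p.Prime] (hp : p ≠ 2) : (Cfsg.Involves (DihedralGroup p) G ↔ ∃ (x : G) (P : Subgroup G), (∃ k : ℕ, orderOf x = 2 ^ k) ∧ IsPGroup p ↥P ∧ x ∈ Subgroup.normalizer (P : Set G) ∧ x ∉ Subgroup.centralizer (P : Set G)) ∧ (Cfsg.Involves (DihedralGroup p) G ↔ ∃ x y : G, (∃ k : ℕ, orderOf x = 2 ^ k) ∧ (∃ k : ℕ, orderOf y = p ^ k) ∧ y ≠ 1 ∧ x * y * x⁻¹ = y⁻¹) := by
  have hA := fun h => exists_acting (G := G) hp h
  refine ⟨⟨hA, ?_⟩, ⟨fun h => ?_, ?_⟩⟩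
  · rintro ⟨x, P, hx, hP, hn, hc⟩
    obtain ⟨x', y, hx', hy, hinv⟩ := exists_inverted hp hx hP hn hc
    exact involves_of_inverted hp hx' hy hinv
  · obtain ⟨x, P, hx, hP, hn, hc⟩ := hA h
    obtain ⟨x', y, hx', hy, hinv⟩ := exists_inverted hp hx hP hn hc
    refine ⟨x', y, hx', ⟨1, by rw [hy, pow_one]⟩, fun h => ?_, hinv⟩
    rw [h, orderOf_one] at hy
    exact (Fact.out : p.Prime).ne_one hy.symm
  · rintro ⟨x, y, hx, ⟨k, hk⟩, hy1, hinv⟩
    cases k with
    | zero => rw [pow_zero, orderOf_eq_one_iff] at hk; exact absurd hk hy1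
    | succ i =>
      refine involves_of_inverted hp (y := y ^ p ^ i) hx ?_ ?_
      · rw [orderOf_pow, hk, Nat.gcd_eq_right (pow_dvd_pow p (Nat.le_succ i)), pow_succ',
          Nat.mul_div_cancel _ (pow_pos (Fact.out : p.Prime).pos i)]
      · rw [← conj_pow, hinv, inv_pow]

end Cfsg.Agent.S2758
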