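import Cfsg.Statements.S2896
import Cfsg.Agent.H73.CharPLocal

set_option autoImplicit false
open Cfsg

namespace Cfsg.Agent.S2896

/-- Let p be a prime dividing the order of the finite group G, S a Sylow p-subgroup of G and X a subgroup of S. (i) If some nontrivial element z of the centre of X has F*(C_G(z)) = O_p(C_G(z)), then F*(N_G(X)) = O_p(N_G(X)). (ii) G has parabolic characteristic p if and only if F*(C_G(z)) = O_p(C_G(z)) for every nontrivial z ∈ Ω₁(Z(S)). (iii) If F*(C_G(z)) = O_p(C_G(z)) for every element z of S of order p, then G has local characteristic p. -/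
theorem result {G : Type*} [Group G] [Finite G] {p : ℕ} [Fact p.Prime] (hdiv : p ∣ Nat.card G) (S : Sylow p G) (X : Subgroup G) (hX : X ≤ (S : Subgroup G)) : (∀ z : G, z ≠ 1 → z ∈ X → (∀ x ∈ X, x * z = z * x) → Cfsg.generalizedFittingSubgroup ↥(Subgroup.centralizer ({z} : Set G)) = Cfsg.pCore p ↥(Subgroup.centralizer ({z} : Set G)) → Cfsg.generalizedFittingSubgroup ↥(Subgroup.normalizer (X : Set G)) = Cfsg.pCore p ↥(Subgroup.normalizer (X : Set G))) ∧ (Cfsg.IsOfParabolicCharacteristic p G ↔ ∀ z : G, z ≠ 1 → z ∈ Cfsg.omegaOne p ((S : Subgroup G) ⊓ Subgroup.centralizer ((S : Subgroup G) : Set G)) → Cfsg.generalizedFittingSubgroup ↥(Subgroup.centralizer ({z} : Set G)) = Cfsg.pCore p ↥(Subgroup.centralizer ({z} : Set G))) ∧ ((∀ z : G, z ∈ (S : Subgroup G) → orderOf z = p → Cfsg.generalizedFittingSubgroup ↥(Subgroup.centralizer ({z} : Set G)) = Cfsg.pCore p ↥(Subgroup.centralizer ({z} : Set G))) → Cfsg.IsOfLocalCharacteristic p G) := by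
  refine ⟨fun z _ hzX hzc hz => ?_, ?_, fun h => ?_⟩
  · exact H73.charP_iff_generalizedFitting.1 (H73.charP_normalizer_of_central (S.2.to_le hX) hzX hzc
      (H73.charP_iff_generalizedFitting.2 hz))
  · rw [H73.parabolic_iff_centralizers S]
    exact ⟨fun h z h1 h2 => H73.charP_iff_generalizedFitting.1 (h z h1 h2),
      fun h z h1 h2 => H73.charP_iff_generalizedFitting.2 (h z h1 h2)⟩
  · refine ⟨hdiv, fun T hT hT1 => ?_⟩
    obtain ⟨z, hzT, hzo, hzc⟩ := H73.exists_central_orderOf_eq_prime hT hT1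
    obtain ⟨P, hP⟩ := hT.exists_le_sylow
    obtain ⟨g, hg⟩ := MulAction.exists_smul_eq G P S
    have hgz : g * z * g⁻¹ ∈ (S : Subgroup G) := by rw [← hg]; exact ⟨z, hP hzT, rfl⟩
    have ho : orderOf (g * z * g⁻¹) = p := (MulEquiv.orderOf_eq (MulAut.conj g) z).trans hzo
    have := H73.charP_centralizer_conj (g := g⁻¹) (H73.charP_iff_generalizedFitting.2 (h _ hgz ho))
    have e : g⁻¹ * (g * z * g⁻¹) * g⁻¹⁻¹ = z := by group
    rw [e] at this
    exact H73.charP_normalizer_of_central hT hzT hzc this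

end Cfsg.Agent.S2896
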