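import Cfsg.Statements.S2897
import Cfsg.Agent.H73.CharPLocal
import Cfsg.Agent.H22.PResidual

set_option autoImplicit false
open Cfsg

namespace Cfsg.Agent.S2897

/-- Let p be a prime dividing the order of the finite group G, suppose G has parabolic characteristic p, let S be a Sylow p-subgroup of G and G₁ a normal subgroup of G. If Ω₁(Z(S ∩ G₁)) is nontrivial and contained in Ω₁(Z(S)), then G₁ has parabolic characteristic p. -/
theorem result {G : Type*} [Group G] [Finite G] {p : ℕ} [Fact p.Prime] (hdiv : p ∣ Nat.card G) (hG : Cfsg.IsOfParabolicCharacteristic p G) (S : Sylow p G) (G₁ : Subgroup G) [G₁.Normal] (hne : Cfsg.omegaOne p (((S : Subgroup G) ⊓ G₁) ⊓ Subgroup.centralizer (((S : Subgroup G) ⊓ G₁ : Subgroup G) : Set G)) ≠ ⊥) (hle : Cfsg.omegaOne p (((S : Subgroup G) ⊓ G₁) ⊓ Subgroup.centralizer (((S : Subgroup G) ⊓ G₁ : Subgroup G) : Set G)) ≤ Cfsg.omegaOne p ((S : Subgroup G) ⊓ Subgroup.centralizer ((S : Subgroup G) : Set G))) : Cfsg.IsOfParabolicCharacteristic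 p ↥G₁ := by
  have hG1 : ((S : Subgroup G) ⊓ G₁) ≤ G₁ := inf_le_right
  have hdvd : ¬ p ∣ (((S : Subgroup G).subgroupOf G₁)).index := by
    rw [← Subgroup.relIndex]
    exact H22.sylow_not_dvd_relIndex_normal S G₁
  have hp1 : IsPGroup p ((S : Subgroup G).subgroupOf G₁) := S.2.comap_of_injective _ Subtype.val_injective
  set S₁ : Sylow p ↥G₁ := hp1.toSylow hdvd with hS₁
  have hcoe : (S₁ : Subgroup ↥G₁) = (S : Subgroup G).subgroupOf G₁ := rfl
  rw [H73.parabolic_iff_centralizers S₁]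
  intro z hz1 hz
  obtain ⟨⟨hzS, hzc⟩, hzp⟩ := H73.mem_omegaOne_center hz
  have hzG : (z : G) ∈ omegaOne p ((S : Subgroup G) ⊓ Subgroup.centralizer ((S : Subgroup G) : Set G)) := by
    refine hle (Subgroup.subset_closure ⟨⟨⟨hzS, z.2⟩, ?_⟩, by rw [← Subgroup.coe_pow, hzp, Subgroup.coe_one]⟩)
    exact Subgroup.mem_centralizer_iff.2 fun s hs => congrArg Subtype.val (hzc ⟨s, hs.2⟩ hs.1)
  obtain ⟨⟨hzS', hzc'⟩, -⟩ := H73.mem_omegaOne_center hzG
  have hC := H73.charP_centralizer_of_parabolic hG S (fun h => hz1 (Subtype.ext h)) hzS' hzc'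
  have hsub : G₁ ⊓ Subgroup.centralizer ({(z : G)} : Set G) ≤ Subgroup.centralizer ({(z : G)} : Set G) :=
    inf_le_right
  have h2 := H74.charP_of_normal_in hsub (by rw [Subgroup.inf_subgroupOf_right]; infer_instance) hC
  have e : (Subgroup.centralizer ({z} : Set ↥G₁)).map G₁.subtype =
      G₁ ⊓ Subgroup.centralizer ({(z : G)} : Set G) := by
    ext x
    constructor
    · rintro ⟨y, hy, rfl⟩
      exact ⟨y.2, Subgroup.mem_centralizer_singleton_iff.2
        (congrArg Subtype.val (Subgroup.mem_centralizer_singleton_iff.1 hy))⟩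
    · rintro ⟨hx, hxc⟩
      exact ⟨⟨x, hx⟩, Subgroup.mem_centralizer_singleton_iff.2
        (Subtype.ext (Subgroup.mem_centralizer_singleton_iff.1 hxc)), rfl⟩
  exact H74.charP_congr ((MulEquiv.subgroupCongr e.symm).trans
    (Subgroup.equivMapOfInjective _ _ G₁.subtype_injective).symm) h2

end Cfsg.Agent.S2897
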