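import Cfsg.Statements.S2898
import Cfsg.Agent.H73.CharPLocal
import Cfsg.Agent.H22.PResidual

set_option autoImplicit false
open Cfsg

namespace Cfsg.Agent.S2898

/-- Let G be a finite group of even order with parabolic characteristic 2. If the centre of G ⧸ O(G) is trivial, then O(G) = 1. -/
theorem result {G : Type*} [Group G] [Finite G] (h2 : 2 ∣ Nat.card G) (hG : Cfsg.IsOfParabolicCharacteristic 2 G) [hN : (Cfsg.oddCore G).Normal] (hZ : Subgroup.center (G ⧸ Cfsg.oddCore G) = ⊥) : Cfsg.oddCore G = ⊥ := by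
  have : Fact (Nat.Prime 2) := ⟨Nat.prime_two⟩
  by_contra hO1
  set O := oddCore G with hOdef
  have hOc : (Nat.card O).Coprime 2 := H19.pPrimeCore_coprime 2
  obtain ⟨S⟩ := (inferInstance : Nonempty (Sylow 2 G))
  -- the involutions central in `S` invert `O`
  have hinv : ∀ z : G, z ∈ (S : Subgroup G) → orderOf z = 2 → (∀ s ∈ (S : Subgroup G), s * z = z * s) →
      ∀ x ∈ O, z * x * z⁻¹ = x⁻¹ := by
    intro z hzS hzo hzc
    have hz1 : z ≠ 1 := fun h => by rw [h, orderOf_one] at hzo; exact absurd hzo (by norm_num)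
    have hC := H73.charP_centralizer_of_parabolic hG S hz1 hzS hzc
    have hfix : ∀ x ∈ O, z * x * z⁻¹ = x → x = 1 := by
      intro x hx hxz
      have hxC : x ∈ Subgroup.centralizer ({z} : Set G) :=
        Subgroup.mem_centralizer_singleton_iff.2 (mul_inv_eq_iff_eq_mul.1 hxz).symm
      set C := Subgroup.centralizer ({z} : Set G)
      have hdisj : Disjoint (O.subgroupOf C) (pCore 2 ↥C) := by
        rw [disjoint_iff]
        refine Subgroup.inf_eq_bot_of_coprime (Nat.Coprime.coprime_dvd_left (k := Nat.card O) ?_ ?_)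
        · exact Subgroup.card_comap_dvd_of_injective O C.subtype C.subtype_injective
        · obtain ⟨k, hk⟩ := IsPGroup.iff_card.1 (H19.pCore_isPGroup (G := ↥C) 2)
          rw [hk]
          exact Nat.Coprime.pow_right k hOc
      have hmem : (⟨x, hxC⟩ : C) ∈ pCore 2 ↥C := hC (Subgroup.mem_centralizer_iff.2 fun y hy =>
        Subgroup.commute_of_normal_of_disjoint _ _ (H19.pCore_normal 2 ↥C) inferInstance hdisj.symm
          y ⟨x, hxC⟩ hy hx)
      exact congrArg Subtype.val (Subgroup.disjoint_def.1 hdisj (x := ⟨x, hxC⟩) hx hmem)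
    intro x hx
    let f : O → O := fun y =>
      ⟨(y : G)⁻¹ * (z * (y : G) * z⁻¹), mul_mem (inv_mem y.2) (hN.conj_mem _ y.2 z)⟩
    have hinj : Function.Injective f := by
      intro a b hab
      have h : (a : G)⁻¹ * (z * (a : G) * z⁻¹) = (b : G)⁻¹ * (z * (b : G) * z⁻¹) := congrArg Subtype.val hab
      have := hfix ((b : G) * (a : G)⁻¹) (mul_mem b.2 (inv_mem a.2)) (by
        calc z * ((b : G) * (a : G)⁻¹) * z⁻¹
            = (z * (b : G) * z⁻¹) * (z * (a : G) * z⁻¹)⁻¹ := by group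
          _ = (b : G) * ((b : G)⁻¹ * (z * (b : G) * z⁻¹)) * (z * (a : G) * z⁻¹)⁻¹ := by group
          _ = (b : G) * ((a : G)⁻¹ * (z * (a : G) * z⁻¹)) * (z * (a : G) * z⁻¹)⁻¹ := by rw [h]
          _ = (b : G) * (a : G)⁻¹ := by group)
      exact Subtype.ext (mul_inv_eq_one.1 this).symm
    obtain ⟨y, hy⟩ := (Finite.injective_iff_surjective.1 hinj) ⟨x, hx⟩
    have h : (y : G)⁻¹ * (z * (y : G) * z⁻¹) = x := congrArg Subtype.val hy
    have hzz : z * z = 1 := by rw [← pow_two, ← hzo, pow_orderOf_eq_one]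
    have hzi : z⁻¹ = z := inv_eq_of_mul_eq_one_right hzz
    rw [← h]
    simp only [mul_inv_rev, inv_inv, hzi, mul_assoc, hzz, mul_one]
  obtain ⟨z, hzS, hzo, hzc⟩ := H73.exists_central_orderOf_eq_prime S.2 (S.ne_bot_of_dvd_card h2)
  have hzinv := hinv z hzS hzo hzc
  -- the centralizer of `O` lies in `O`
  set C := Subgroup.centralizer (O : Set G) with hC
  have : C.Normal := inferInstance
  have hCO : C ≤ O := by
    refine H19.le_pPrimeCore this (Nat.Coprime.symm (Nat.prime_two.coprime_iff_not_dvd.2 ?_))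
    refine H22.not_dvd_card_of_sylow_inf_eq_bot S C ?_
    by_contra hne
    have hn : ((S : Subgroup G) ⊓ C).subgroupOf (S : Subgroup G) = C.subgroupOf (S : Subgroup G) :=
      Subgroup.inf_subgroupOf_left C _
    obtain ⟨w, hwC, hwc, hwo⟩ := H24.exists_central_orderOf S.2
      (N := C.subgroupOf (S : Subgroup G)) (by
        rw [Ne, Subgroup.subgroupOf_eq_bot, disjoint_iff, inf_comm]
        exact hne)
    refine hO1 ((Subgroup.eq_bot_iff_forall _).2 fun x hx => ?_)
    have h1 := hinv w w.2 (by rw [Subgroup.orderOf_coe]; exact hwo)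
      (fun s hs => congrArg Subtype.val (Subgroup.mem_center_iff.1 hwc ⟨s, hs⟩)) x hx
    have h2 : x * (w : G) = w * x := (Subgroup.mem_centralizer_iff.1 hwC x hx)
    rw [← h2, mul_inv_cancel_right] at h1
    have h3 : x ^ 2 = 1 := by rw [pow_two]; nth_rw 1 [h1]; exact inv_mul_cancel x
    have : orderOf x ∣ 1 := hOc.gcd_eq_one ▸ Nat.dvd_gcd (O.orderOf_dvd_natCard hx) (orderOf_dvd_of_pow_eq_one h3)
    exact orderOf_eq_one_iff.1 (Nat.dvd_one.1 this)
  have hzO : z ∈ O := by
    have : (z : G ⧸ O) ∈ Subgroup.center (G ⧸ O) := by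
      refine Subgroup.mem_center_iff.2 fun q => ?_
      induction q using QuotientGroup.induction_on with
      | H g =>
        rw [← QuotientGroup.mk_mul, ← QuotientGroup.mk_mul, eq_comm, QuotientGroup.eq]
        refine hCO (Subgroup.mem_centralizer_iff.2 fun x hx => ?_)
        have hzi : z⁻¹ = z := inv_eq_of_mul_eq_one_right (by rw [← pow_two, ← hzo, pow_orderOf_eq_one])
        have h1 : z * (g * x⁻¹ * g⁻¹) * z⁻¹ = (g * x⁻¹ * g⁻¹)⁻¹ :=
          hzinv _ (hN.conj_mem _ (inv_mem hx) g)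
        have h2' : z⁻¹ * (g * (z * x * z⁻¹) * g⁻¹) * z = (g * x⁻¹ * g⁻¹)⁻¹ := by
          rw [hzinv x hx, hzi]
          nth_rw 2 [← hzi]
          exact h1
        have h3 : ((z * g)⁻¹ * (g * z)) * x * ((z * g)⁻¹ * (g * z))⁻¹ = x := by
          calc ((z * g)⁻¹ * (g * z)) * x * ((z * g)⁻¹ * (g * z))⁻¹
              = g⁻¹ * (z⁻¹ * (g * (z * x * z⁻¹) * g⁻¹) * z) * g := by group
            _ = g⁻¹ * (g * x⁻¹ * g⁻¹)⁻¹ * g := by rw [h2']
            _ = x := by group
        exact (mul_inv_eq_iff_eq_mul.1 h3).symm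
    rw [hZ, Subgroup.mem_bot, QuotientGroup.eq_one_iff] at this
    exact this
  have : orderOf z ∣ 1 := hOc.gcd_eq_one ▸ Nat.dvd_gcd (O.orderOf_dvd_natCard hzO) (by rw [hzo])
  rw [hzo] at this
  omega

end Cfsg.Agent.S2898
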