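import Cfsg.Statements.S2907


set_option autoImplicit false
open Cfsg

namespace Cfsg.Agent.S2907

/-- Let X be a finite semi-extraspecial p-group and x an element of X outside the centre. Then the index of C_X(x) in X equals the order of Z(X), and the commutators [x, y], y ∈ X, form exactly the centre Z(X). -/
theorem result {X : Type*} [Group X] [Finite X] {p : ℕ} [Fact p.Prime] (hX : Cfsg.IsSemiExtraspecial p X) (x : X) (hx : x ∉ Subgroup.center X) : (Subgroup.centralizer ({x} : Set X)).index = Nat.card ↥(Subgroup.center X) ∧ {z : X | ∃ y : X, z = x * y * x⁻¹ * y⁻¹} = (Subgroup.center X : Set X) := by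
  obtain ⟨⟨hXp, hfr, hcomm⟩, hY⟩ := hX
  have hmem : ∀ a b : X, a * b * a⁻¹ * b⁻¹ ∈ Subgroup.center X := fun a b =>
    hcomm ▸ Subgroup.commutator_mem_commutator (Subgroup.mem_top a) (Subgroup.mem_top b)
  let f : X →* Subgroup.center X :=
    { toFun := fun y => ⟨x * y * x⁻¹ * y⁻¹, hmem x y⟩
      map_one' := Subtype.ext (by simp)
      map_mul' := fun a b => Subtype.ext (by
        have h := Subgroup.mem_center_iff.mp (hmem x b) a
        calc x * (a * b) * x⁻¹ * (a * b)⁻¹
            = (x * a * x⁻¹) * (x * b * x⁻¹ * b⁻¹) * a⁻¹ := by group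
          _ = (x * a * x⁻¹) * ((x * b * x⁻¹ * b⁻¹) * a⁻¹) := by group
          _ = (x * a * x⁻¹) * (a⁻¹ * (x * b * x⁻¹ * b⁻¹)) := by
              rw [(Subgroup.mem_center_iff.mp (hmem x b) a⁻¹)]
          _ = (x * a * x⁻¹ * a⁻¹) * (x * b * x⁻¹ * b⁻¹) := by group) }
  have hker : f.ker = Subgroup.centralizer ({x} : Set X) := by
    ext y
    rw [MonoidHom.mem_ker, Subgroup.mem_centralizer_singleton_iff, Subtype.ext_iff]
    show x * y * x⁻¹ * y⁻¹ = 1 ↔ _
    rw [mul_inv_eq_one, mul_inv_eq_iff_eq_mul, eq_comm]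
  have hrange : f.range = ⊤ := by
    by_contra hne
    obtain ⟨Y₀, hY₀, hle⟩ := (eq_top_or_exists_le_coatom f.range).resolve_left hne
    set Y := Y₀.map (Subgroup.center X).subtype with hYdef
    have hYZ : Y ≤ Subgroup.center X := Subgroup.map_subtype_le _
    have hYsub : Y.subgroupOf (Subgroup.center X) = Y₀ :=
      Subgroup.comap_map_eq_self_of_injective (Subgroup.center X).subtype_injective Y₀
    obtain ⟨hYn, ⟨-, -, -⟩, hZcard⟩ := hY Y hYZ (hYsub.symm ▸ hY₀)
    set π := QuotientGroup.mk' Y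
    have hxc : π x ∈ Subgroup.center (X ⧸ Y) := by
      refine Subgroup.mem_center_iff.mpr fun b => ?_
      obtain ⟨b, rfl⟩ := QuotientGroup.mk'_surjective Y b
      have h1 : x * b * x⁻¹ * b⁻¹ ∈ Y := ⟨f b, hle ⟨b, rfl⟩, rfl⟩
      have h2 : π (x * b * x⁻¹ * b⁻¹) = 1 := (QuotientGroup.eq_one_iff _).mpr h1
      rw [map_mul, map_mul, map_mul, map_inv, map_inv, mul_inv_eq_one, mul_inv_eq_iff_eq_mul] at h2
      exact h2.symm
    have hle' : (Subgroup.center X).map π ≤ Subgroup.center (X ⧸ Y) := by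
      rintro _ ⟨z, hz, rfl⟩
      refine Subgroup.mem_center_iff.mpr fun b => ?_
      obtain ⟨b, rfl⟩ := QuotientGroup.mk'_surjective Y b
      rw [← map_mul, ← map_mul, Subgroup.mem_center_iff.mp hz b]
    have hne1 : (Subgroup.center X).map π ≠ ⊥ := by
      intro h
      rw [Subgroup.map_eq_bot_iff, QuotientGroup.ker_mk'] at h
      exact hY₀.1 (hYsub ▸ Subgroup.subgroupOf_eq_top.mpr h)
    have heq : (Subgroup.center X).map π = Subgroup.center (X ⧸ Y) := by
      refine Subgroup.eq_of_le_of_card_ge hle' ?_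
      rw [hZcard]
      have hd := Subgroup.card_dvd_of_le hle'
      rw [hZcard, Nat.dvd_prime Fact.out] at hd
      rcases hd with hd | hd
      · exact absurd (Subgroup.card_eq_one.mp hd) hne1
      · exact hd.ge
    obtain ⟨z, hz, hzx⟩ := (heq ▸ hxc : π x ∈ (Subgroup.center X).map π)
    have : z⁻¹ * x ∈ Y := QuotientGroup.eq.mp hzx
    exact hx (by simpa using mul_mem hz (hYZ this))
  refine ⟨?_, ?_⟩
  · rw [← hker, Subgroup.index_ker, hrange, Subgroup.card_top]
  · ext z
    constructor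
    · rintro ⟨y, rfl⟩
      exact hmem x y
    · intro hz
      obtain ⟨y, hy⟩ := (hrange ▸ Subgroup.mem_top (⟨z, hz⟩ : Subgroup.center X) : _ ∈ f.range)
      exact ⟨y, (congrArg Subtype.val hy).symm⟩

end Cfsg.Agent.S2907
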