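import Cfsg.Statements.S2909
import Cfsg.Agent.H74.CoprimeContainment

set_option autoImplicit false
open Cfsg

namespace Cfsg.Agent.S2909

/-- Let p be a prime, E a normal p-subgroup of the finite group G, and U a non-cyclic elementary abelian p-subgroup of G such that either C_E(U) = C_E(u) for every nontrivial u ∈ U, or [E, U] = [E, ⟨u⟩] for every nontrivial u ∈ U. If R is a subgroup of order prime to p normalized by U, then [R, U] centralizes E. -/
theorem result {G : Type*} [Group G] [Finite G] {p : ℕ} [Fact p.Prime] (E : Subgroup G) [E.Normal] (hE : IsPGroup p ↥E) (U : Subgroup G) (hU : Cfsg.IsElementaryAbelian p U) (hnc : ¬ IsCyclic ↥U) (hcond : (∀ u ∈ U, u ≠ 1 → E ⊓ Subgroup.centralizer (U : Set G) = E ⊓ Subgroup.centralizer ({u} : Set G)) ∨ (∀ u ∈ U, u ≠ 1 → ⁅E, U⁆ = ⁅E, Subgroup.zpowers u⁆)) (R : Subgroup G) (hR : ¬ p ∣ Nat.card ↥R) (hRU : U ≤ Subgroup.normalizer (R : Set G)) : ⁅R, U⁆ ≤ Subgroup.centralizer (E : Set G) := by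
  haveI := hU.1
  have hUp : IsPGroup p ↥U := fun u => ⟨1, Subtype.ext (by simpa using hU.2 u u.2)⟩
  exact H74.noncyclic_commutator_centralizes hE hUp hnc hcond hR hRU

end Cfsg.Agent.S2909
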