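import Cfsg.Statements.S2910
import Cfsg.Agent.H22.Frobenius
import Cfsg.Agent.H53.OmegaFaithful

set_option autoImplicit false
open Cfsg

namespace Cfsg.Agent.S2910

/-- Let p be an odd prime dividing the order of the finite group G and P a Sylow p-subgroup of G. If Ω₁(P) (generated by the elements of order dividing p) is contained in the centre of G, then G has a normal p-complement. In particular, if G is quasisimple then Ω₁(P) is not central in G. -/
theorem result {G : Type*} [Group G] [Finite G] {p : ℕ} [Fact p.Prime] (hp : p ≠ 2) (hdiv : p ∣ Nat.card G) (P : Sylow p G) (hZ : Cfsg.omegaOne p (P : Subgroup G) ≤ Subgroup.center G) : Cfsg.HasNormalPComplement p G ∧ ¬ Cfsg.IsQuasisimple G := by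
  have hcompl : Cfsg.HasNormalPComplement p G := by
    refine H22.hasNormalPComplement_of_frobenius (H22.frobeniusCondition_of_sylow P fun Q hQ g hg hgp => ?_)
    refine H53.le_centralizer_of_fixes_order_p hp Q (Subgroup.zpowers g) (P.isPGroup'.to_le hQ)
      (Subgroup.zpowers_le.mpr hg) (by rwa [Nat.card_zpowers]) (fun x hx hxp => ?_) (Subgroup.mem_zpowers g)
    have hxZ : x ∈ Subgroup.center G :=
      hZ (Subgroup.subset_closure ⟨hQ hx, hxp ▸ pow_orderOf_eq_one x⟩)
    exact Subgroup.mem_centralizer_iff.mpr fun y _ => Subgroup.mem_center_iff.mp hxZ y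
  refine ⟨hcompl, fun hq => ?_⟩
  obtain ⟨Q, N, hN, hc⟩ := hcompl
  haveI := hN
  have hQp : IsPGroup p (G ⧸ N) :=
    Q.isPGroup'.of_equiv hc.symm.QuotientMulEquiv.symm
  haveI : Group.IsNilpotent (G ⧸ N) := hQp.isNilpotent
  haveI : Nontrivial (G ⧸ N) := by
    refine Finite.one_lt_card_iff_nontrivial.mp ?_
    rw [← Subgroup.index_eq_card, hc.symm.index_eq_card]
    exact lt_of_lt_of_le (Fact.out : p.Prime).one_lt (Nat.le_of_dvd Nat.card_pos (Q.dvd_card_of_dvd_card hdiv))
  have h1 : commutator (G ⧸ N) < ⊤ := Group.IsSolvable.commutator_lt_top_of_nontrivial (G ⧸ N)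
  refine h1.ne ?_
  rw [commutator_def, ← Subgroup.map_top_of_surjective _ (QuotientGroup.mk'_surjective N),
    ← Subgroup.map_commutator, ← commutator_def]
  haveI := hq.1
  rw [Group.IsPerfect.commutator_eq_top]

end Cfsg.Agent.S2910
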