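import Cfsg.Statements.S2911
import Cfsg.Agent.H74.TwoTimesDihedral

set_option autoImplicit false
open Cfsg

namespace Cfsg.Agent.S2911

/-- A finite group whose Sylow 2-subgroups are isomorphic to the direct product of a group of order 2 and a dihedral group of order 8 has a subgroup of index two. -/
theorem result {G : Type*} [Group G] [Finite G] (S : Sylow 2 G) (hS : Nonempty (↥(S : Subgroup G) ≃* Multiplicative (ZMod 2) × DihedralGroup 4)) : ∃ H : Subgroup G, H.index = 2 := by
  by_contra h
  push Not at h
  obtain ⟨e⟩ := hS
  exact H74.TwoDih.false_of_no_index_two S e h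

end Cfsg.Agent.S2911
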