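import Cfsg.Statements.S2912
import Cfsg.Agent.H74.ExtraspecialAction
import Cfsg.Agent.H24.Extraspecial

set_option autoImplicit false
open Cfsg
open scoped commutatorElement

namespace Cfsg.Agent.S2912

/-- Let p and r be distinct primes, let E be an extraspecial subgroup of order p^(2w+1) of a finite group, and let A be an elementary abelian r-subgroup normalized by E on which E acts faithfully (C_E(A) = 1). If n ≥ 1 is least with p dividing rⁿ − 1 (the smallest dimension of a faithful representation of a group of order p over the field with r elements), then the order of A is at least r^(n·p^w). -/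
theorem result {G : Type*} [Group G] [Finite G] {p r : ℕ} [Fact p.Prime] [hr : Fact r.Prime] (hpr : p ≠ r) (E A : Subgroup G) (w : ℕ) (hE : Cfsg.IsExtraspecial p ↥E) (hEcard : Nat.card ↥E = p ^ (2 * w + 1)) (hA : Cfsg.IsElementaryAbelian r A) (hnorm : E ≤ Subgroup.normalizer (A : Set G)) (hfaith : E ⊓ Subgroup.centralizer (A : Set G) = ⊥) (n : ℕ) (hn : 1 ≤ n) (hdiv : p ∣ r ^ n - 1) (hmin : ∀ k : ℕ, 1 ≤ k → p ∣ r ^ k - 1 → n ≤ k) : r ^ (n * p ^ w) ≤ Nat.card ↥A := by
  classical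
  obtain ⟨z0, hz0, hz01⟩ := H24.espec_exists_center hE
  have hcard : Nat.card (Subgroup.center ↥E) = p := hE.2
  have hgen : Subgroup.zpowers z0 = Subgroup.center ↥E := H24.zpowers_eq_of_card_prime hcard hz0 hz01
  have hz0p : z0 ^ p = 1 := H24.pow_eq_one_of_card_eq hcard hz0
  set z : G := (z0 : G) with hz
  have hzE : z ∈ E := z0.2
  have hzp : z ^ p = 1 := by simpa [hz] using congrArg Subtype.val hz0p
  have hzc : ∀ e ∈ E, Commute e z := fun e he =>
    congrArg Subtype.val (Subgroup.mem_center_iff.mp hz0 ⟨e, he⟩)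
  have hzp' : ∀ v : ↥E, v ∈ Subgroup.center ↥E → (v : G) ∈ Subgroup.zpowers z := by
    intro v hv
    rw [← hgen] at hv
    obtain ⟨m, rfl⟩ := Subgroup.mem_zpowers_iff.mp hv
    exact Subgroup.mem_zpowers_iff.mpr ⟨m, by simp [hz]⟩
  have hAc : ∀ a ∈ A, ∀ b ∈ A, Commute a b := fun a ha b hb =>
    congrArg Subtype.val (hA.1.is_comm.comm ⟨a, ha⟩ ⟨b, hb⟩)
  have hN : ∀ e ∈ E, ∀ a ∈ A, e * a * e⁻¹ ∈ A := fun e he a ha =>
    (Subgroup.mem_normalizer_iff.mp (hnorm he) a).mp ha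
  let A₁ : Subgroup G :=
    { carrier := {u | ∃ a ∈ A, ⁅z, a⁆ = u}
      one_mem' := ⟨1, one_mem _, by simp⟩
      mul_mem' := by
        rintro _ _ ⟨a, ha, rfl⟩ ⟨b, hb, rfl⟩
        refine ⟨a * b, mul_mem ha hb, ?_⟩
        have hm : ⁅z, b⁆ ∈ A := by rw [commutatorElement_def]; exact mul_mem (hN z hzE b hb) (inv_mem hb)
        have : ⁅z, a * b⁆ = ⁅z, a⁆ * (a * ⁅z, b⁆ * a⁻¹) := by simp only [commutatorElement_def]; group
        rw [this, (hAc a ha _ hm).eq, mul_inv_cancel_right]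
      inv_mem' := by
        rintro _ ⟨a, ha, rfl⟩
        refine ⟨a⁻¹, inv_mem ha, ?_⟩
        have hm : z * a * z⁻¹ * a⁻¹ ∈ A := mul_mem (hN z hzE a ha) (inv_mem ha)
        rw [commutatorElement_def, commutatorElement_def]
        calc z * a⁻¹ * z⁻¹ * a⁻¹⁻¹ = a⁻¹ * (a * (z * a * z⁻¹ * a⁻¹)⁻¹) := by
              rw [(hAc a ha _ (inv_mem hm)).eq]; group
          _ = _ := by group }
  have hA₁ : A₁ ≤ A := by
    rintro _ ⟨a, ha, rfl⟩
    rw [commutatorElement_def]
    exact mul_mem (hN z hzE a ha) (inv_mem ha)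
  have hn₁ : E ≤ Subgroup.normalizer (A₁ : Set G) := by
    intro e he
    have key : ∀ e ∈ E, ∀ u ∈ A₁, e * u * e⁻¹ ∈ A₁ := by
      rintro e he _ ⟨a, ha, rfl⟩
      refine ⟨e * a * e⁻¹, hN e he a ha, ?_⟩
      have hcz := (hzc e he).eq
      have hez : z = e * z * e⁻¹ := by rw [hcz, mul_inv_cancel_right]
      conv_lhs => rw [hez]
      simp only [commutatorElement_def]; group
    refine Subgroup.mem_normalizer_iff.mpr fun u => ⟨key e he u, fun hu => ?_⟩
    have := key e⁻¹ (inv_mem he) _ hu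
    simpa [mul_assoc] using this
  have hne : A₁ ≠ ⊥ := by
    intro hbot
    have hz1 : z ∈ E ⊓ Subgroup.centralizer (A : Set G) := by
      refine ⟨hzE, Subgroup.mem_centralizer_iff.mpr fun a ha => ?_⟩
      have : ⁅z, a⁆ ∈ A₁ := ⟨a, ha, rfl⟩
      rw [hbot, Subgroup.mem_bot] at this
      exact (commutatorElement_eq_one_iff_mul_comm.mp this).symm
    rw [hfaith, Subgroup.mem_bot] at hz1
    exact hz01 (Subtype.ext hz1)
  have hfix : ∀ u ∈ A₁, z * u = u * z → u = 1 := by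
    rintro u ⟨a, ha, rfl⟩ hcu
    set u := ⁅z, a⁆ with hu
    have huA : u ∈ A := hA₁ ⟨a, ha, rfl⟩
    have hk : ∀ k : ℕ, z ^ k * a * (z ^ k)⁻¹ = u ^ k * a := by
      intro k
      induction k with
      | zero => simp
      | succ k ih =>
        have hzu : z * u ^ k * z⁻¹ = u ^ k := by
          rw [(Commute.pow_right (hcu : Commute z u) k).eq, mul_inv_cancel_right]
        have hza : z * a * z⁻¹ = u * a := by rw [hu, commutatorElement_def]; group
        calc z ^ (k + 1) * a * (z ^ (k + 1))⁻¹ = z * (z ^ k * a * (z ^ k)⁻¹) * z⁻¹ := by rw [pow_succ']; group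
          _ = (z * u ^ k * z⁻¹) * (z * a * z⁻¹) := by rw [ih]; group
          _ = _ := by rw [hzu, hza, pow_succ]; group
    have hup : u ^ p = 1 := by
      have h0 := hk p
      rw [hzp, one_mul, inv_one, mul_one] at h0
      exact mul_right_cancel (h0.symm.trans (one_mul a).symm)
    exact orderOf_eq_one_iff.mp (Nat.eq_one_of_dvd_coprimes ((Nat.coprime_primes Fact.out hr.out).mpr hpr)
      (orderOf_dvd_of_pow_eq_one hup) (orderOf_dvd_of_pow_eq_one (hA.2 u huA)))
  refine le_trans (H74.EspecAct.bound hpr hmin w E A₁ z hzE hzp hzc ?_ ?_ ?_ hn₁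
    (fun a ha b hb => hAc a (hA₁ ha) b (hA₁ hb)) (fun a ha => hA.2 a (hA₁ ha)) hne hfix)
    (Nat.le_of_dvd Nat.card_pos (Subgroup.card_dvd_of_le hA₁))
  · intro a ha b hb
    exact hzp' ⁅(⟨a, ha⟩ : ↥E), ⟨b, hb⟩⁆ (H24.espec_comm_mem hE _ _)
  · intro e he
    exact hzp' ((⟨e, he⟩ : ↥E) ^ p) (H24.espec_pow_mem hE _)
  · have hle : Nat.card ↥(E ⊓ Subgroup.centralizer (E : Set G)) ≤ p := by
      have hsub : E ⊓ Subgroup.centralizer (E : Set G) ≤ Subgroup.zpowers z := fun v hv =>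
        hzp' ⟨v, hv.1⟩ (Subgroup.mem_center_iff.mpr fun e => Subtype.ext (Subgroup.mem_centralizer_iff.mp hv.2 e e.2))
      refine (Nat.le_of_dvd Nat.card_pos (Subgroup.card_dvd_of_le hsub)).trans (le_of_eq ?_)
      rw [Nat.card_zpowers, orderOf_eq_prime hzp fun h => hz01 (Subtype.ext h)]
    rw [hEcard, pow_succ]
    exact Nat.mul_le_mul_left _ hle

end Cfsg.Agent.S2912
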