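import Cfsg.Statements.S2922
import Cfsg.Agent.H73.CharPLocal

set_option autoImplicit false
open Cfsg

namespace Cfsg.Agent.S2922

/-- Let p be a prime, X a finite group, B a p-subgroup of X and C a normal subgroup of B. If N_X(C) has characteristic p (its generalized Fitting subgroup is O_p(N_X(C))), then N_X(B) and C_X(B) have characteristic p. -/
theorem result {X : Type*} [Group X] [Finite X] {p : ℕ} [Fact p.Prime] (B C : Subgroup X) (hB : IsPGroup p ↥B) (hCB : C ≤ B) (hCn : (C.subgroupOf B).Normal) (hC : Cfsg.generalizedFittingSubgroup ↥(Subgroup.normalizer (C : Set X)) = Cfsg.pCore p ↥(Subgroup.normalizer (C : Set X))) : Cfsg.generalizedFittingSubgroup ↥(Subgroup.normalizer (B : Set X)) = Cfsg.pCore p ↥(Subgroup.normalizer (B : Set X)) ∧ Cfsg.generalizedFittingSubgroup ↥(Subgroup.centralizer (B : Set X)) = Cfsg.pCore p ↥(Subgroup.centralizer (B : Set X)) := by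
  rw [← H73.charP_iff_generalizedFitting] at hC ⊢
  rw [← H73.charP_iff_generalizedFitting]
  set K := Subgroup.normalizer (C : Set X)
  set NB := Subgroup.normalizer (B : Set X)
  set CB := Subgroup.centralizer (B : Set X)
  have hBK : B ≤ K := (Subgroup.normal_subgroupOf_iff_le_normalizer hCB).mp hCn
  set B' := B.subgroupOf K
  have h1 := (H74.charP_subgroup_iff (Subgroup.normalizer (B' : Set ↥K))).mpr
    (H74.charP_normalizer (p := p) hC (hB.comap_subtype))
  -- transfer to `N_K(B)`
  have hmap : (Subgroup.normalizer (B' : Set ↥K)).map K.subtype = K ⊓ NB := by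
    ext x
    constructor
    · rintro ⟨y, hy, rfl⟩
      refine ⟨y.2, Subgroup.mem_normalizer_iff.mpr fun b => ⟨fun hb => ?_, fun hb => ?_⟩⟩
      · exact Subgroup.mem_subgroupOf.mp ((Subgroup.mem_normalizer_iff.mp hy ⟨b, hBK hb⟩).mp hb)
      · have hbK : b ∈ K := by simpa [mul_assoc] using mul_mem (mul_mem (inv_mem y.2) (hBK hb)) y.2
        exact Subgroup.mem_subgroupOf.mp ((Subgroup.mem_normalizer_iff.mp hy ⟨b, hbK⟩).mpr hb)
    · rintro ⟨hxK, hxN⟩
      exact ⟨⟨x, hxK⟩, Subgroup.mem_normalizer_iff.mpr fun b => Subgroup.mem_normalizer_iff.mp hxN b, rfl⟩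
  have h2 := H74.charP_congr ((Subgroup.equivMapOfInjective _ K.subtype K.subtype_injective).trans
    (MulEquiv.subgroupCongr hmap)) h1
  have hCBle : CB ≤ K ⊓ NB := le_inf
    ((Subgroup.centralizer_le hCB).trans (Subgroup.centralizer_le_normalizer _))
    (Subgroup.centralizer_le_normalizer _)
  have hCBn : (CB.subgroupOf (K ⊓ NB)).Normal :=
    (Subgroup.normal_subgroupOf_iff_le_normalizer hCBle).mpr
      (inf_le_right.trans H74.normalizer_le_normalizer_centralizer)
  have hCBp := H74.charP_of_normal_in hCBle hCBn h2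
  refine ⟨(H74.charP_subgroup_iff NB).mpr ?_, hCBp⟩
  have hBle : B ≤ Cfsg.pCoreOf p NB := H74.le_pCoreOf Subgroup.le_normalizer le_rfl hB
  have hCBn' : NB ≤ Subgroup.normalizer (CB : Set X) := H74.normalizer_le_normalizer_centralizer
  have hOle : Cfsg.pCoreOf p CB ≤ Cfsg.pCoreOf p NB :=
    H74.le_pCoreOf ((H74.pCoreOf_le CB).trans (Subgroup.centralizer_le_normalizer _))
      (hCBn'.trans (H73.normalizer_le_normalizer_pCoreOf CB)) (H74.pCoreOf_isPGroup CB)
  rintro x ⟨-, hx⟩
  have hxC : x ∈ CB := Subgroup.centralizer_le hBle hx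
  exact hOle ((H74.charP_subgroup_iff CB).mp hCBp ⟨hxC, Subgroup.centralizer_le hOle hx⟩)

end Cfsg.Agent.S2922
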