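import Cfsg.Statements.S2925
import Cfsg.Agent.H51.Component
import Cfsg.Agent.S0542

set_option autoImplicit false
open Cfsg

namespace Cfsg.Agent.S2925

/-- Let K be a component of the finite group X and T a Sylow 2-subgroup of X. If some abelian normal subgroup Y of T does not normalize K, then K ⧸ Z(K) has abelian Sylow 2-subgroups. -/
theorem result {X : Type*} [Group X] [Finite X] (K : Subgroup X) (hK : Cfsg.IsComponent K) (T : Sylow 2 X) (Y : Subgroup X) (hYT : Y ≤ (T : Subgroup X)) (hYn : (Y.subgroupOf (T : Subgroup X)).Normal) (hYab : IsMulCommutative ↥Y) (hnot : ¬ Y ≤ Subgroup.normalizer (K : Set X)) (P : Sylow 2 (↥K ⧸ Subgroup.center ↥K)) : IsMulCommutative ↥(P : Subgroup (↥K ⧸ Subgroup.center ↥K)) := by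
  haveI : Fact (Nat.Prime 2) := ⟨Nat.prime_two⟩
  obtain ⟨y, hyY, hyK⟩ := SetLike.not_le_iff_exists.mp hnot
  set K' := K.map (MulAut.conj y).toMonoidHom with hK'
  have hne : K ≠ K' := by
    intro h
    refine hyK (Subgroup.mem_normalizer_iff.mpr fun k => ⟨fun hk => h ▸ ⟨k, hk, rfl⟩, fun hk => ?_⟩)
    obtain ⟨l, hl, hlk⟩ := (h ▸ hk : y * k * y⁻¹ ∈ K')
    have : y * l * y⁻¹ = y * k * y⁻¹ := hlk
    rwa [mul_left_cancel (mul_right_cancel this)] at hl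
  have hcom := (H51.component_eq_or_commute hK (H51.component_map_conj hK y)).resolve_left hne
  rw [Subgroup.commutator_eq_bot_iff_le_centralizer] at hcom
  have hc : ∀ a ∈ K, ∀ b ∈ K', Commute a b := fun a ha b hb =>
    (Subgroup.mem_centralizer_iff.mp (hcom ha) b hb).symm
  obtain ⟨Q, hQ⟩ := S0542.result 2 K hK.1 T
  have key : ∀ a b : ↥K, a ∈ (Q : Subgroup ↥K) → b ∈ (Q : Subgroup ↥K) →
      (QuotientGroup.mk' (Subgroup.center ↥K) a) * QuotientGroup.mk' _ b =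
        QuotientGroup.mk' _ b * QuotientGroup.mk' _ a := by
    intro a b ha hb
    rw [hQ] at ha hb
    have hyT : y ∈ (T : Subgroup X) := hYT hyY
    have hu : ∀ c : ↥K, (c : X) ∈ (T : Subgroup X) → (c : X)⁻¹ * (y * (c : X) * y⁻¹) ∈ Y := by
      intro c hcT
      have h1 : (c : X)⁻¹ * y * (c : X) ∈ Y := by
        simpa [Subgroup.mem_subgroupOf] using hYn.conj_mem ⟨y, hyT⟩ hyY ⟨(c : X)⁻¹, inv_mem hcT⟩
      simpa [mul_assoc] using mul_mem h1 (inv_mem hyY)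
    have huv := congrArg Subtype.val (hYab.is_comm.comm ⟨_, hu a ha⟩ ⟨_, hu b hb⟩)
    set a' := y * (a : X) * y⁻¹ with ha'
    set b' := y * (b : X) * y⁻¹ with hb'
    have ma : a' ∈ K' := ⟨(a : X), a.2, rfl⟩
    have mb : b' ∈ K' := ⟨(b : X), b.2, rfl⟩
    simp only [Subgroup.coe_mul] at huv
    have e1 : a' * (b : X)⁻¹ = (b : X)⁻¹ * a' := ((hc _ (inv_mem b.2) _ ma).eq).symm
    have e2 : b' * (a : X)⁻¹ = (a : X)⁻¹ * b' := ((hc _ (inv_mem a.2) _ mb).eq).symm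
    have huv' : (a : X)⁻¹ * (b : X)⁻¹ * (a' * b') = (b : X)⁻¹ * (a : X)⁻¹ * (b' * a') := by
      calc (a : X)⁻¹ * (b : X)⁻¹ * (a' * b') = (a : X)⁻¹ * ((b : X)⁻¹ * a') * b' := by group
        _ = (a : X)⁻¹ * (a' * (b : X)⁻¹) * b' := by rw [e1]
        _ = (a : X)⁻¹ * a' * ((b : X)⁻¹ * b') := by group
        _ = (b : X)⁻¹ * b' * ((a : X)⁻¹ * a') := huv
        _ = (b : X)⁻¹ * (b' * (a : X)⁻¹) * a' := by group
        _ = (b : X)⁻¹ * ((a : X)⁻¹ * b') * a' := by rw [e2]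
        _ = _ := by group
    have hcc : ((a * b * a⁻¹ * b⁻¹ : ↥K) : X) = b' * a' * b'⁻¹ * a'⁻¹ := by
      push_cast
      calc (a : X) * b * (a : X)⁻¹ * (b : X)⁻¹
          = (a : X) * b * ((a : X)⁻¹ * (b : X)⁻¹ * (a' * b')) * (b'⁻¹ * a'⁻¹) := by group
        _ = _ := by rw [huv']; group
    have hK'c : ((a * b * a⁻¹ * b⁻¹ : ↥K) : X) ∈ K' :=
      hcc ▸ mul_mem (mul_mem (mul_mem mb ma) (inv_mem mb)) (inv_mem ma)
    have hz : (a * b * a⁻¹ * b⁻¹ : ↥K) ∈ Subgroup.center ↥K :=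
      Subgroup.mem_center_iff.mpr fun k => Subtype.ext (hc _ k.2 _ hK'c).eq
    have h1 := (QuotientGroup.eq_one_iff _).mpr hz
    change QuotientGroup.mk' (Subgroup.center ↥K) (a * b * a⁻¹ * b⁻¹) = 1 at h1
    rw [map_mul, map_mul, map_mul, map_inv, map_inv, mul_inv_eq_one, mul_inv_eq_iff_eq_mul] at h1
    exact h1
  let P₀ := Q.mapSurjective (QuotientGroup.mk'_surjective (Subgroup.center ↥K))
  obtain ⟨g, hg⟩ := MulAction.exists_smul_eq (↥K ⧸ Subgroup.center ↥K) P₀ P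
  refine ⟨⟨fun u v => Subtype.ext ?_⟩⟩
  have hmem : ∀ u : ↥(P : Subgroup (↥K ⧸ Subgroup.center ↥K)), ∃ a ∈ (Q : Subgroup ↥K), g * QuotientGroup.mk' _ a * g⁻¹ = (u : ↥K ⧸ Subgroup.center ↥K) := by
    intro u
    have hu : (u : ↥K ⧸ Subgroup.center ↥K) ∈ ((g • P₀ : Sylow 2 _) : Subgroup (↥K ⧸ Subgroup.center ↥K)) :=
      hg.symm ▸ u.2
    obtain ⟨_, ⟨a, ha, rfl⟩, h⟩ := hu
    exact ⟨a, ha, h⟩
  obtain ⟨a, ha, hau⟩ := hmem u
  obtain ⟨b, hb, hbv⟩ := hmem v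
  push_cast
  rw [← hau, ← hbv]
  calc g * QuotientGroup.mk' _ a * g⁻¹ * (g * QuotientGroup.mk' _ b * g⁻¹)
      = g * (QuotientGroup.mk' _ a * QuotientGroup.mk' _ b) * g⁻¹ := by group
    _ = _ := by rw [key a b ha hb]; group

end Cfsg.Agent.S2925
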