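import Cfsg.Statements.S2931
import Cfsg.Agent.H74.SylowEight
import Cfsg.Agent.H2.Card
import Cfsg.Agent.H2.Center
import Cfsg.Agent.H4.Orders

set_option autoImplicit false
open Cfsg

namespace Cfsg.Agent.S2931

open Matrix
open Cfsg.Agent.H74

set_option maxHeartbeats 1000000
attribute [local irreducible] Syl8.toGL Syl8.toSp Syl8.toAlt Syl8.toPerm Syl8.dmat Syl8.qf

lemma sylow_range {W G : Type*} [Group W] [Group G] [Finite G] (f : W →* G) (k m : ℕ)
    (hG : Nat.card G = 2 ^ k * m) (hm : ¬ 2 ∣ m) (hr : Nat.card f.range = 2 ^ k)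
    (P : Sylow 2 G) : Nonempty (↥(P : Subgroup G) ≃* f.range) := by
  haveI : Fact (Nat.Prime 2) := ⟨Nat.prime_two⟩
  have hm0 : m ≠ 0 := fun h => hm (h ▸ dvd_zero 2)
  have h : Nat.card f.range = 2 ^ (Nat.card G).factorization 2 := by
    rw [hr, hG, Nat.factorization_mul (pow_ne_zero _ (by norm_num)) hm0,
      Nat.prime_two.factorization_pow]
    simp [Nat.factorization_eq_zero_of_not_dvd hm]
  exact ⟨P.equiv (Sylow.ofCard f.range h)⟩

lemma card_range_of_ker {W G : Type*} [Group W] [Group G] (f : W →* G) {a b : ℕ} (hb : b ≠ 0)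
    (hW : Nat.card W = a * b) (hk : Nat.card f.ker = b) : Nat.card f.range = a := by
  have h := Subgroup.card_eq_card_quotient_mul_card_subgroup f.ker
  rw [Nat.card_congr (QuotientGroup.quotientKerEquivRange f).toEquiv, hW, hk] at h
  exact (Nat.eq_of_mul_eq_mul_right (Nat.pos_of_ne_zero hb) h).symm

lemma card_WQ : Nat.card Syl8.WQ = 128 := by
  rw [SemidirectProduct.card, Nat.card_prod, Nat.card_eq_fintype_card, QuaternionGroup.card,
    show Nat.card Syl8.C2 = 2 from Nat.card_zmod 2]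

lemma card_WD : Nat.card Syl8.WD = 128 := by
  rw [SemidirectProduct.card, Nat.card_prod, DihedralGroup.nat_card,
    show Nat.card Syl8.C2 = 2 from Nat.card_zmod 2]

lemma a2_ne_one : (QuaternionGroup.a 2 : Syl8.Q8) ≠ 1 := by decide
lemma zmod2_cases : ∀ y : ZMod 2, y = 0 ∨ y = 1 := by decide
lemma zmod2_add : (1 : ZMod 2) + 1 = 0 := by decide

/-- Map on symplectic groups from a ring homomorphism. -/
def spMap {R S : Type*} [CommRing R] [CommRing S] (φ : R →+* S) :
    Matrix.symplecticGroup (Fin 2) R →* Matrix.symplecticGroup (Fin 2) S where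
  toFun g := ⟨(g : Matrix (Fin 2 ⊕ Fin 2) (Fin 2 ⊕ Fin 2) R).map φ, by
    have h : (g : Matrix (Fin 2 ⊕ Fin 2) (Fin 2 ⊕ Fin 2) R) * Matrix.J (Fin 2) R * gᵀ =
      Matrix.J (Fin 2) R := g.2
    have hJ : (Matrix.J (Fin 2) R).map φ = Matrix.J (Fin 2) S := by
      ext i j
      rcases i with i | i <;> rcases j with j | j <;>
        simp [Matrix.J, Matrix.one_apply, apply_ite φ]
    have := congrArg (fun M => M.map φ) h
    simp only [Matrix.map_mul, ← Matrix.transpose_map, hJ] at this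
    exact this⟩
  map_one' := Subtype.ext (by simp)
  map_mul' a b := Subtype.ext (by simp [Matrix.map_mul])

/-- The Sylow 2-subgroups of the alternating group of degree 8 and of PSp₄(3) are isomorphic, and so are the Sylow 2-subgroups of the symmetric group of degree 8 and of the full isometry group of a non-degenerate quadratic form of minus type in dimension 6 over the field with 2 elements. -/
theorem result (F : Type) [Field F] [Fintype F] (hF : Fintype.card F = 3) (K : Type) [Field K] [Fintype K] (hK : Fintype.card K = 2) (a b : K) (hab : ∀ z₁ z₂ : K, z₁ ^ 2 + a * z₁ * z₂ + b * z₂ ^ 2 = 0 → z₁ = 0 ∧ z₂ = 0) (P : Sylow 2 ↥(alternatingGroup (Fin 8))) (Q : Sylow 2 (Cfsg.PSp 2 F)) (P' : Sylow 2 (Equiv.Perm (Fin 8))) (Q' : Sylow 2 ↥(Cfsg.isometryGroup K (Cfsg.quadFormMinus 2 K a b))) : Nonempty (↥(P : Subgroup ↥(alternatingGroup (Fin 8))) ≃* ↥(Q : Subgroup (Cfsg.PSp 2 F))) ∧ Nonempty (↥(P' : Subgroup (Equiv.Perm (Fin 8))) ≃* ↥(Q' : Subgroup ↥(Cfsg.isometryGroup K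 (Cfsg.quadFormMinus 2 K a b)))) := by
  classical
  have hnF : Nat.card F = 3 := by rw [Nat.card_eq_fintype_card, hF]
  have hnK : Nat.card K = 2 := by rw [Nat.card_eq_fintype_card, hK]
  haveI : Fact (Nat.Prime 3) := ⟨Nat.prime_three⟩
  haveI : Fact (Nat.Prime 2) := ⟨Nat.prime_two⟩
  let eF : ZMod 3 ≃+* F := ZMod.ringEquivOfPrime F Nat.prime_three hF
  let eK : ZMod 2 ≃+* K := ZMod.ringEquivOfPrime K Nat.prime_two hK
  constructor
  · -- `A₈` and `PSp₄(3)`
    let f : Syl8.WQ →* PSp 2 F :=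
      (QuotientGroup.mk' _).comp ((spMap (eF : ZMod 3 →+* F)).comp Syl8.toSp)
    have hker : f.ker = Syl8.toAlt.ker := by
      ext w
      rw [MonoidHom.mem_ker, MonoidHom.mem_ker]
      have hinj : Function.Injective
          (fun M : Matrix Syl8.I4 Syl8.I4 (ZMod 3) => M.map (eF : ZMod 3 →+* F)) :=
        Matrix.map_injective eF.injective
      show QuotientGroup.mk' _ (spMap (eF : ZMod 3 →+* F) (Syl8.toSp w)) = 1 ↔ _
      rw [QuotientGroup.mk'_apply, QuotientGroup.eq_one_iff, H2.mem_center_iff_eq (by norm_num)]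
      show ((Syl8.toSp w : Matrix Syl8.I4 Syl8.I4 (ZMod 3)).map (eF : ZMod 3 →+* F) = 1 ∨
        (Syl8.toSp w : Matrix Syl8.I4 Syl8.I4 (ZMod 3)).map (eF : ZMod 3 →+* F) = -1) ↔ _
      have h1 : (1 : Matrix Syl8.I4 Syl8.I4 (ZMod 3)).map (eF : ZMod 3 →+* F) = 1 :=
        Matrix.map_one _ (map_zero _) (map_one _)
      have h2 : (-1 : Matrix Syl8.I4 Syl8.I4 (ZMod 3)).map (eF : ZMod 3 →+* F) = -1 := by
        ext i j
        simp [Matrix.one_apply, apply_ite (eF : ZMod 3 →+* F)]
        try split_ifs <;> simp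
      rw [show ∀ M, M.map (eF : ZMod 3 →+* F) = 1 ↔ M = (1 : Matrix Syl8.I4 Syl8.I4 (ZMod 3)) from
        fun M => ⟨fun h => hinj (h.trans h1.symm), fun h => h ▸ h1⟩,
        show ∀ M, M.map (eF : ZMod 3 →+* F) = -1 ↔ M = (-1 : Matrix Syl8.I4 Syl8.I4 (ZMod 3)) from
        fun M => ⟨fun h => hinj (h.trans h2.symm), fun h => h ▸ h2⟩,
        Syl8.toSp_apply, Syl8.q_kernels, ← Syl8.toAlt_apply]
      exact OneMemClass.coe_eq_one
    have hcard : Nat.card Syl8.toAlt.ker = 2 := by
      let c : Syl8.WQ := ⟨(QuaternionGroup.a 2, QuaternionGroup.a 2), 1⟩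
      have hc : (c : Syl8.WQ) ≠ 1 := fun h =>
        a2_ne_one (congrArg (fun w : Syl8.WQ => w.left.1) h)
      have hset : (Syl8.toAlt.ker : Set Syl8.WQ) = {1, c} := by
        ext w
        simp only [SetLike.mem_coe, MonoidHom.mem_ker, Set.mem_insert_iff, Set.mem_singleton_iff]
        rw [← OneMemClass.coe_eq_one, Syl8.toAlt_apply, Syl8.q_kernel_two]
        constructor
        · rintro ⟨hz, hn | hn⟩
          · exact Or.inl (SemidirectProduct.ext hn hz)
          · exact Or.inr (SemidirectProduct.ext hn hz)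
        · rintro (rfl | rfl)
          · exact ⟨rfl, Or.inl rfl⟩
          · exact ⟨rfl, Or.inr rfl⟩
      show Nat.card (Syl8.toAlt.ker : Set Syl8.WQ) = 2
      rw [hset, Nat.card_coe_set_eq, Set.ncard_pair (Ne.symm hc)]
    have h64 : Nat.card Syl8.toAlt.range = 2 ^ 6 :=
      card_range_of_ker _ two_ne_zero (by rw [card_WQ]; norm_num) hcard
    have h64' : Nat.card f.range = 2 ^ 6 :=
      card_range_of_ker _ two_ne_zero (by rw [card_WQ]; norm_num) (by rw [hker, hcard])
    have hA : Nat.card (alternatingGroup (Fin 8)) = 2 ^ 6 * 315 := by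
      rw [nat_card_alternatingGroup, Nat.card_fin]; rfl
    have hS : Nat.card (PSp 2 F) = 2 ^ 6 * 405 := by
      have h := Subgroup.card_eq_card_quotient_mul_card_subgroup
        (Subgroup.center (Matrix.symplecticGroup (Fin 2) F))
      rw [H2.card_sp, H2.card_center_sp (by norm_num), hnF] at h
      norm_num [Finset.prod_range_succ] at h
      show Nat.card (Matrix.symplecticGroup (Fin 2) F ⧸ _) = _
      norm_num
      omega
    obtain ⟨e1⟩ := sylow_range Syl8.toAlt 6 315 hA (by norm_num) h64 P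
    obtain ⟨e2⟩ := sylow_range f 6 405 hS (by norm_num) h64' Q
    exact ⟨e1.trans ((QuotientGroup.quotientKerEquivRange _).symm.trans
      ((QuotientGroup.quotientMulEquivOfEq hker.symm).trans
        ((QuotientGroup.quotientKerEquivRange f).trans e2.symm)))⟩
  · -- `S₈` and `O⁻₆(2)`
    have h01 : ∀ x : K, x = 0 ∨ x = 1 := fun x => by
      obtain ⟨y, rfl⟩ := eK.surjective x
      have := zmod2_cases y
      rcases this with rfl | rfl <;> simp
    have h11 : (1 : K) + 1 = 0 := by
      rw [← map_one eK, ← map_add, zmod2_add, map_zero]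
    have hb : b = 1 := (h01 b).resolve_left fun h => by
      subst h; exact one_ne_zero (hab 0 1 (by ring)).2
    have ha : a = 1 := (h01 a).resolve_left fun h => by
      subst h; subst hb
      refine one_ne_zero (hab 1 1 ?_).1
      linear_combination h11
    subst ha hb
    let g0 : Syl8.WD →* GL Syl8.I6 K :=
      (Matrix.GeneralLinearGroup.map (eK : ZMod 2 →+* K)).comp Syl8.toGL
    have hmem : ∀ w, g0 w ∈ isometryGroup K (quadFormMinus 2 K 1 1) := by
      intro w u v
      show quadFormMinus 2 K 1 1 (((g0 w : GL Syl8.I6 K) : Matrix Syl8.I6 Syl8.I6 K) *ᵥ u) =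
        quadFormMinus 2 K 1 1 u
      obtain ⟨u, rfl⟩ : ∃ u0 : Syl8.I6 → ZMod 2, (eK : ZMod 2 →+* K) ∘ u0 = u :=
        ⟨eK.symm ∘ u, funext fun i => eK.apply_symm_apply _⟩
      have hq : ∀ x : Syl8.I6 → ZMod 2,
          quadFormMinus 2 K 1 1 ((eK : ZMod 2 →+* K) ∘ x) = eK (Syl8.qf x) := fun x => by
        simp only [quadFormMinus, Syl8.qf, Fin.sum_univ_two, Function.comp_apply, RingEquiv.coe_toRingHom,
          map_add, map_mul, map_pow, one_mul]
      rw [show ((g0 w : GL Syl8.I6 K) : Matrix Syl8.I6 Syl8.I6 K) =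
        (Syl8.toGL w : Matrix Syl8.I6 Syl8.I6 (ZMod 2)).map (eK : ZMod 2 →+* K) from rfl,
        ← show (eK : ZMod 2 →+* K) ∘ ((Syl8.toGL w : Matrix Syl8.I6 Syl8.I6 (ZMod 2)) *ᵥ u) = _
          from funext fun i => RingHom.map_mulVec _ _ u i, hq, hq, Syl8.toGL_apply]
      refine congrArg _ ?_
      by_cases hz : w.right = 1
      · rw [if_pos hz, mul_one, Syl8.qf_dmat]
      · rw [if_neg hz, ← mulVec_mulVec, Syl8.qf_dmat, Syl8.qf_T]
    let g : Syl8.WD →* isometryGroup K (quadFormMinus 2 K 1 1) := g0.codRestrict _ hmem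
    have hg : Function.Injective g := by
      refine (injective_iff_map_eq_one g).2 fun w hw => ?_
      have h1 : (Syl8.toGL w : Matrix Syl8.I6 Syl8.I6 (ZMod 2)) = 1 := by
        refine Matrix.map_injective (f := (eK : ZMod 2 →+* K)) eK.injective ?_
        show (Syl8.toGL w : Matrix Syl8.I6 Syl8.I6 (ZMod 2)).map (eK : ZMod 2 →+* K) =
          (1 : Matrix Syl8.I6 Syl8.I6 (ZMod 2)).map (eK : ZMod 2 →+* K)
        rw [Matrix.map_one _ (map_zero _) (map_one _)]
        exact congrArg (fun x : isometryGroup K (quadFormMinus 2 K 1 1) =>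
          ((x : GL Syl8.I6 K) : Matrix Syl8.I6 Syl8.I6 K)) hw
      rw [Syl8.toGL_apply] at h1
      obtain ⟨hn, hz⟩ := Syl8.d_injective_mat _ _ h1
      exact SemidirectProduct.ext hn hz
    have hp : Function.Injective Syl8.toPerm := by
      refine (injective_iff_map_eq_one _).2 fun w hw => ?_
      rw [Syl8.toPerm_apply] at hw
      obtain ⟨hn, hz⟩ := Syl8.d_injective _ _ hw
      exact SemidirectProduct.ext hn hz
    have hc1 : Nat.card Syl8.toPerm.range = 2 ^ 7 := by
      rw [← Nat.card_congr (MonoidHom.ofInjective hp).toEquiv, card_WD]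
      rfl
    have hc2 : Nat.card g.range = 2 ^ 7 := by
      rw [← Nat.card_congr (MonoidHom.ofInjective hg).toEquiv, card_WD]
      rfl
    have hS : Nat.card (Equiv.Perm (Fin 8)) = 2 ^ 7 * 315 := by
      rw [Nat.card_perm, Nat.card_fin]; rfl
    have hO : Nat.card (isometryGroup K (quadFormMinus 2 K 1 1)) = 2 ^ 7 * 405 := by
      have hd : (1 : K) ^ 2 - 4 * 1 ≠ 0 := by
        rw [show (4 : K) = (1 + 1) * (1 + 1) by norm_num, h11]; simp
      rw [H4.card_isometryGroup (H4.qMinus 2 K 1 1) (H4.coe_qMinus 2 1 1)]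
      have h := H4.card_qIsoms_qMinus hab hd 2
      rw [hK] at h
      norm_num [Finset.prod_range_succ] at h
      exact_mod_cast h
    obtain ⟨e1⟩ := sylow_range Syl8.toPerm 7 315 hS (by norm_num) hc1 P'
    obtain ⟨e2⟩ := sylow_range g 7 405 hO (by norm_num) hc2 Q'
    exact ⟨e1.trans ((MonoidHom.ofInjective hp).symm.trans
      ((MonoidHom.ofInjective hg).trans e2.symm))⟩

end Cfsg.Agent.S2931
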