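import Cfsg.Statements.S2932
import Cfsg.Agent.H34.Trans.Transport

set_option autoImplicit false
open Cfsg

namespace Cfsg.Agent.S2932

/-- Let p be a prime. Inside a finite ambient group let V be an elementary abelian p-subgroup and G a subgroup normalizing V and acting faithfully on it (G ∩ C(V) = 1), and let L ≤ G act on V as SL₂(F) on its natural module, F a finite field of characteristic p, with L ≅ SL₂(F). If every Sylow p-subgroup of N_G(L) is a Sylow p-subgroup of G, then either L is normal in G, or F has 4 elements and G is isomorphic to the alternating group of degree 7. -/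
theorem result {X : Type*} [Group X] [Finite X] {p : ℕ} [Fact p.Prime] (F : Type) [Field F] [Fintype F] [CharP F p] (V G L : Subgroup X) (hV : Cfsg.IsElementaryAbelian p V) (hGV : G ≤ Subgroup.normalizer (V : Set X)) (hfaith : G ⊓ Subgroup.centralizer (V : Set X) = ⊥) (hLG : L ≤ G) (hnat : Cfsg.IsNaturalSL2Module F V L) (hLiso : Nonempty (↥L ≃* Matrix.SpecialLinearGroup (Fin 2) F)) (hSyl : ∀ S : Sylow p ↥(G ⊓ Subgroup.normalizer (L : Set X)), ∀ P : Sylow p ↥G, Nat.card S = Nat.card P) : (L.subgroupOf G).Normal ∨ (Fintype.card F = 4 ∧ Nonempty (↥G ≃* ↥(alternatingGroup (Fin 7)))) := by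
  exact Cfsg.Agent.H34.Trans.natural_overgroup F V G L hV hGV hfaith hLG hnat hLiso hSyl

end Cfsg.Agent.S2932
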