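import Cfsg.Statements.S2958


set_option autoImplicit false
open Cfsg

namespace Cfsg.Agent.S2958

/-- Let X, A, B be subgroups of a group G such that G is generated by the conjugates of X and every conjugate of X is contained in A or in B. Then A = G or B = G. -/
theorem result {G : Type*} [Group G] (X A B : Subgroup G) (hgen : (⨆ g : G, X.map (MulAut.conj g).toMonoidHom) = ⊤) (hcover : ∀ g : G, X.map (MulAut.conj g).toMonoidHom ≤ A ∨ X.map (MulAut.conj g).toMonoidHom ≤ B) : A = ⊤ ∨ B = ⊤ := by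
  by_cases hA : A = ⊤
  · exact Or.inl hA
  right
  set c : G → Subgroup G := fun g => X.map (MulAut.conj g).toMonoidHom with hc
  have hcomp : ∀ a g : G, (c g).map (MulAut.conj a).toMonoidHom = c (a * g) := fun a g => by
    simp only [hc]
    rw [Subgroup.map_map]
    congr 1
    ext x
    simp [mul_assoc]
  set E := ⨆ g ∈ {g : G | ¬ c g ≤ A}, c g with hE
  have hEB : E ≤ B := iSup₂_le fun g hg => (hcover g).resolve_left hg
  have hA' : ∀ a ∈ A, ∀ x ∈ E, a * x * a⁻¹ ∈ E := by
    intro a ha x hx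
    have hle : E.map (MulAut.conj a).toMonoidHom ≤ E := by
      rw [hE, Subgroup.map_iSup]
      refine iSup_le fun g => ?_
      rw [Subgroup.map_iSup]
      refine iSup_le fun hg => ?_
      rw [hcomp]
      refine le_iSup₂_of_le (a * g) (fun h => hg ?_) le_rfl
      intro y hy
      have h1 : a * y * a⁻¹ ∈ c (a * g) := hcomp a g ▸ ⟨y, hy, rfl⟩
      simpa [mul_assoc] using mul_mem (mul_mem (inv_mem ha) (h h1)) ha
    exact hle ⟨x, hx, rfl⟩
  have hnA : A ≤ Subgroup.normalizer (E : Set G) := by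
    intro a ha
    refine Subgroup.mem_normalizer_iff.mpr fun x => ⟨hA' a ha x, fun hx => ?_⟩
    simpa [mul_assoc] using hA' a⁻¹ (inv_mem ha) _ hx
  have htop : Subgroup.normalizer (E : Set G) = ⊤ := by
    refine top_le_iff.mp (hgen ▸ iSup_le fun g => ?_)
    by_cases hg : c g ≤ A
    · exact hg.trans hnA
    · exact (le_iSup₂ (f := fun g (_ : g ∈ {g : G | ¬ c g ≤ A}) => c g) g hg).trans Subgroup.le_normalizer
  haveI : E.Normal := Subgroup.normalizer_eq_top_iff.mp htop
  obtain ⟨g₀, hg₀⟩ : ∃ g, ¬ c g ≤ A := by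
    by_contra h
    push Not at h
    exact hA (top_le_iff.mp (hgen ▸ iSup_le h))
  refine top_le_iff.mp (le_trans (hgen ▸ iSup_le fun g => ?_) hEB)
  have h1 : (c g₀).map (MulAut.conj (g * g₀⁻¹)).toMonoidHom ≤ E := by
    rintro _ ⟨x, hx, rfl⟩
    exact (inferInstance : E.Normal).conj_mem x
      (le_iSup₂ (f := fun g (_ : g ∈ {g : G | ¬ c g ≤ A}) => c g) g₀ hg₀ hx) _
  rwa [hcomp, inv_mul_cancel_right] at h1

end Cfsg.Agent.S2958
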