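import Cfsg.Statements.S2960
import Cfsg.Agent.H74.CharP

set_option autoImplicit false
open Cfsg

namespace Cfsg.Agent.S2960

/-- Let G be a finite group of characteristic p (C_G(O_p(G)) ≤ O_p(G)), p prime, T a Sylow p-subgroup of G and Q a normal subgroup of T with C_T(Q) ≤ Q. Then C_G(Q) ≤ Q. -/
theorem result {G : Type*} [Group G] [Finite G] {p : ℕ} [Fact p.Prime] (hG : Subgroup.centralizer (Cfsg.pCore p G : Set G) ≤ Cfsg.pCore p G) (T : Sylow p G) (Q : Subgroup G) (hQT : Q ≤ (T : Subgroup G)) (hQn : (T : Subgroup G) ≤ Subgroup.normalizer (Q : Set G)) (hC : (T : Subgroup G) ⊓ Subgroup.centralizer (Q : Set G) ≤ Q) : Subgroup.centralizer (Q : Set G) ≤ Q := by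
  exact H74.centralizer_le_of_sylow hG T hQn hC

end Cfsg.Agent.S2960
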