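import Cfsg.Statements.S2963


set_option autoImplicit false
open Cfsg

namespace Cfsg.Agent.S2963

/-- Let n be odd. If the symmetric group of degree n is a minimal parabolic group for the prime 2, that is, a Sylow 2-subgroup is not normal and lies in exactly one maximal subgroup, then n = 2^m + 1 for some natural number m. -/
theorem result (n : ℕ) (hn : Odd n) (h : Cfsg.IsPMinimal 2 (Equiv.Perm (Fin n))) : ∃ m : ℕ, n = 2 ^ m + 1 := by
  have hcard : Nat.card (Fin n) = n := Nat.card_fin n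
  obtain ⟨P⟩ : Nonempty (Sylow 2 (Equiv.Perm (Fin n))) := inferInstance
  obtain ⟨hnn, hM⟩ := h P
  obtain ⟨x, hx⟩ := P.isPGroup'.nonempty_fixed_point_of_prime_not_dvd_card (Fin n)
    (by rw [hcard]; exact hn.not_two_dvd_nat)
  by_cases hex : ∃ y : Fin n, y ≠ x
  swap
  · push Not at hex
    exfalso
    apply hnn
    haveI : Subsingleton (Fin n) := ⟨fun a b => by rw [hex a, hex b]⟩
    haveI : Subsingleton (Equiv.Perm (Fin n)) := inferInstance
    exact ⟨fun a ha g => by rwa [Subsingleton.elim (g * a * g⁻¹) a]⟩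
  obtain ⟨y, hyx⟩ := hex
  set B : Set (Fin n) := MulAction.orbit (P : Subgroup (Equiv.Perm (Fin n))) y with hB
  obtain ⟨a, ha⟩ := P.isPGroup'.card_orbit y
  have hxB : x ∉ B := by
    rintro ⟨s, hs⟩
    exact hyx (by
      have := congrArg (fun z => s⁻¹ • z) hs
      simp only [inv_smul_smul] at this
      rw [this]; exact hx s⁻¹)
  by_cases hfull : ∀ z, z ≠ x → z ∈ B
  · refine ⟨a, ?_⟩
    have hBeq : B = {x}ᶜ := Set.ext fun z => ⟨fun hz he => hxB (he ▸ hz), hfull z⟩
    have : Nat.card B = n - 1 := by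
      rw [hBeq, Nat.card_coe_set_eq, Set.ncard_compl, Set.ncard_singleton, hcard]
    have hn0 : 0 < n := x.pos
    rw [hB, ha] at this
    omega
  push Not at hfull
  obtain ⟨z, hzx, hzB⟩ := hfull
  exfalso
  -- two different maximal subgroups above `P`
  let M₁ : Subgroup (Equiv.Perm (Fin n)) := MulAction.stabilizer (Equiv.Perm (Fin n)) x
  let M₂ : Subgroup (Equiv.Perm (Fin n)) :=
    { carrier := {g | ∀ w, g w ∈ B ↔ w ∈ B}
      one_mem' := fun w => Iff.rfl
      mul_mem' := fun {g k} hg hk w => by rw [Equiv.Perm.mul_apply, hg, hk]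
      inv_mem' := fun {g} hg w => by rw [← hg (g⁻¹ w)]; simp }
  have hP₁ : (P : Subgroup (Equiv.Perm (Fin n))) ≤ M₁ := fun g hg => hx ⟨g, hg⟩
  have hP₂ : (P : Subgroup (Equiv.Perm (Fin n))) ≤ M₂ := fun g hg w => by
    show (⟨g, hg⟩ : (P : Subgroup (Equiv.Perm (Fin n)))) • w ∈ B ↔ w ∈ B
    rw [hB, MulAction.mem_orbit_symm, MulAction.orbit_smul, MulAction.mem_orbit_symm]
  have hM₁ : M₁ ≠ ⊤ := fun h' => by
    have : Equiv.swap x y ∈ M₁ := h' ▸ Subgroup.mem_top _
    have h2 : Equiv.swap x y • x = x := this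
    simp at h2
    exact hyx h2
  have hM₂ : M₂ ≠ ⊤ := fun h' => by
    have : Equiv.swap y x ∈ M₂ := h' ▸ Subgroup.mem_top _
    have h2 := (this x).mp (by rw [Equiv.swap_apply_right]; exact MulAction.mem_orbit_self y)
    exact hxB h2
  obtain ⟨L₁, hL₁, hle₁⟩ := (eq_top_or_exists_le_coatom M₁).resolve_left hM₁
  obtain ⟨L₂, hL₂, hle₂⟩ := (eq_top_or_exists_le_coatom M₂).resolve_left hM₂
  have hLeq : L₁ = L₂ := hM.unique ⟨hL₁, hP₁.trans hle₁⟩ ⟨hL₂, hP₂.trans hle₂⟩
  have hne2 : Equiv.swap x z ∈ L₂ := hle₂ (fun w => by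
    rcases eq_or_ne w x with rfl | hwx
    · simp [hxB, hzB]
    rcases eq_or_ne w z with rfl | hwz
    · simp [hxB, hzB]
    rw [Equiv.swap_apply_of_ne_of_ne hwx hwz])
  apply hL₁.1
  refine top_le_iff.mp ?_
  intro g _
  -- swaps with `x` and the stabilizer of `x` generate everything
  have hall : ∀ w, w ≠ x → Equiv.swap x w ∈ L₁ := by
    intro w hw
    have h1 : Equiv.swap z w ∈ L₁ := hle₁ (show Equiv.swap z w • x = x by
      simp [Equiv.swap_apply_of_ne_of_ne (Ne.symm hzx) (Ne.symm hw)])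
    rcases eq_or_ne w z with rfl | hwz
    · exact hLeq ▸ hne2
    have e : Equiv.swap x w = Equiv.swap z w * Equiv.swap x z * (Equiv.swap z w)⁻¹ := by
      rw [← Equiv.swap_apply_apply, Equiv.swap_apply_of_ne_of_ne (Ne.symm hzx) (Ne.symm hw),
        Equiv.swap_apply_left]
    rw [e]
    exact mul_mem (mul_mem h1 (hLeq ▸ hne2)) (inv_mem h1)
  rcases eq_or_ne (g x) x with hgx | hgx
  · exact hle₁ hgx
  have h1 : Equiv.swap x (g x) * g ∈ L₁ := hle₁ (show (Equiv.swap x (g x) * g) • x = x by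
    simp)
  simpa [← mul_assoc] using mul_mem (hall _ hgx) h1

end Cfsg.Agent.S2963
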