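import Cfsg.Statements.S2982
import Cfsg.Agent.H34.Push.Main

set_option autoImplicit false
open Cfsg

namespace Cfsg.Agent.S2982

/-- Pushing up for minimal parabolic groups. Let G be a finite p-minimal group (a Sylow p-subgroup T is not normal and lies in exactly one maximal subgroup) of characteristic p (C_G(O_p(G)) ≤ O_p(G)). Suppose that no nontrivial characteristic subgroup of the Baumann subgroup B(T) is normal in G and that Ω₁(Z(T)) is not normal in G. Then G has a set of B(T)-blocks with the block structure of the local C*(G,T)-Theorem, every block E with E/O_p(E) alternating of degree 2m+1 (p = 2) has 2m+1 = 2ⁿ+1, and C*(G,T) = (C*(G,T) ∩ ⟨blocks⟩)·T. -/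
theorem result {G : Type*} [Group G] [Finite G] {p : ℕ} [Fact p.Prime] (hmin : Cfsg.IsPMinimal p G) (hG : Subgroup.centralizer (Cfsg.pCore p G : Set G) ≤ Cfsg.pCore p G) (T : Sylow p G) (hchar : ∀ C : Subgroup G, C ≤ Cfsg.baumannSubgroupOf p (T : Subgroup G) → C ≠ ⊥ → (C.subgroupOf (Cfsg.baumannSubgroupOf p (T : Subgroup G))).Characteristic → ¬ C.Normal) (hz : ¬ (Cfsg.omegaOneCenter p (T : Subgroup G)).Normal) : ∃ 𝓑 : Set (Subgroup G), Cfsg.HasBaumannBlockStructure p (T : Subgroup G) 𝓑 ∧ (∀ E ∈ 𝓑, ∀ m : ℕ, Nonempty (↥E ⧸ Cfsg.pCore p ↥E ≃* ↥(alternatingGroup (Fin (2 * m + 1)))) → ∃ n : ℕ, 2 * m + 1 = 2 ^ n + 1) ∧ Cfsg.cStarOf p (T : Subgroup G) = (Cfsg.cStarOf p (T : Subgroup G) ⊓ sSup 𝓑) ⊔ (T : Subgroup G) := by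
  exact Cfsg.Agent.H34.Push.pushing_up hmin hG T hchar hz

end Cfsg.Agent.S2982
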