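import Cfsg.Statements.S2985
import Cfsg.Agent.H68.Block.BlockCentralizerMain

set_option autoImplicit false
open Cfsg
open scoped commutatorElement

namespace Cfsg.Agent.S2985

/-- Let G be a finite group of characteristic p (C_G(O_p(G)) ≤ O_p(G)), T a Sylow p-subgroup and E a B(T)-block of G, with W_E = [Ω₁(Z(O_p(E))), E]. Then E is normalized by C_G(W_E); that is, E is a normal subgroup of E·C_G(W_E). -/
theorem result {G : Type*} [Group G] [Finite G] {p : ℕ} [Fact p.Prime] (hG : Subgroup.centralizer (Cfsg.pCore p G : Set G) ≤ Cfsg.pCore p G) (T : Sylow p G) (E : Subgroup G) (hE : Cfsg.IsBaumannBlock p (T : Subgroup G) E) : Subgroup.centralizer ((⁅Cfsg.omegaOneCenter p (Cfsg.pCoreOf p E), E⁆ : Subgroup G) : Set G) ≤ Subgroup.normalizer (E : Set G) := by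
  haveI := Cfsg.Agent.H51.pCore_normal p G
  by_cases hsmall : ⁅Cfsg.pCore p G, E⁆ ≤ Cfsg.omegaOneCenter p (Cfsg.pCoreOf p E)
  · exact Cfsg.Agent.H68Block.centralizer_le_normalizer_of_small hG T hE hsmall
  obtain ⟨hR, hER⟩ := Cfsg.Agent.H51.pCore_normalizes_block T hE
  have hRQ : ⁅Cfsg.pCore p G, E⁆ ≤ Cfsg.pCoreOf p E := by
    rw [Subgroup.commutator_comm]; exact hER
  have hQW : ¬ Cfsg.pCoreOf p E = Cfsg.omegaOneCenter p (Cfsg.pCoreOf p E) := fun h => hsmall (hRQ.trans h.le)
  rcases hE.2.2.2.2 with ⟨F, iF, iFin, n, hn, ⟨e₀⟩, hsec, h | ⟨rfl, hts, hQQ, -, hcen, hcard, hquad⟩⟩ |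
    ⟨-, m, -, -, h⟩
  · exact absurd h hQW
  · have hn0 : n ≠ 0 := by
      rintro rfl
      have := Fintype.one_lt_card (α := F)
      simp at hn
      omega
    haveI : CharP F 3 := charP_of_card_eq_prime_pow hn
    obtain ⟨D⟩ := Cfsg.Agent.H68Block.exists_sl2Coord hE (Nat.card_congr e₀.toEquiv) hsec
    obtain ⟨D₂⟩ := Cfsg.Agent.H68Block.exists_sl2Coord_top hE (Nat.card_congr e₀.toEquiv) hts
    set R := Cfsg.pCore 3 G with hRdef
    set Q := Cfsg.pCoreOf 3 E with hQdef
    set W := Cfsg.omegaOneCenter 3 Q with hWdef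
    have hVR : ⁅W, E⁆ ≤ ⁅R, E⁆ := by
      have h1 : Cfsg.Agent.H68Block.modV 3 E ≤ R := fun v hv =>
        hG (Cfsg.Agent.H51.block_commutator_centralized T hE hv)
      exact (Cfsg.Agent.H68Block.modV_commutator hE).ge.trans (Subgroup.commutator_mono h1 le_rfl)
    have hsup : ⁅R, E⁆ ⊔ W = Q := by
      refine (Cfsg.Agent.H51.block_top_irreducible hE _ le_sup_right
        (sup_le hRQ (Cfsg.Agent.H51.omega_le_core E)) ?_).resolve_left fun h => hsmall (le_sup_left.trans h.le)
      intro e he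
      rw [Subgroup.mem_normalizer_iff_map_conj_eq]
      exact (Subgroup.map_sup _ _ _).trans (congrArg₂ (· ⊔ ·)
        (Subgroup.mem_normalizer_iff_map_conj_eq.mp (Subgroup.normalizer_commutator_ge_right R E he))
        (Subgroup.mem_normalizer_iff_map_conj_eq.mp
          (Cfsg.Agent.H51.normalizer_le_normalizer_omegaCore E (Subgroup.le_normalizer he))))
    have hcore : ⁅R, E⁆ = Q := by
      refine le_antisymm hRQ ?_
      have hW : W ≤ ⁅R, E⁆ ⊔ (W ⊓ Subgroup.centralizer (E : Set G)) := by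
        conv_lhs => rw [hWdef, hQdef, ← Cfsg.Agent.H51.block_module_decomp hE]
        exact sup_le_sup_right hVR _
      have hQ : Q ≤ ⁅R, E⁆ ⊔ (W ⊓ Subgroup.centralizer (E : Set G)) := by
        rw [← hsup]; exact sup_le le_sup_left hW
      have hQE : ⁅Q, E⁆ = Q := hE.2.2.1
      rw [← hQE, Subgroup.commutator_le]
      intro q hq e he
      have hle : ⁅R, E⁆ ≤ Subgroup.normalizer
          ((W ⊓ Subgroup.centralizer (E : Set G) : Subgroup G) : Set G) := fun x hx =>
        Cfsg.Agent.H51.normalizer_le_normalizer_omegaCore_fixed E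
          (Subgroup.le_normalizer ((hRQ.trans (H74.pCoreOf_le E)) hx))
      have hq' := hQ hq
      rw [← SetLike.mem_coe, Subgroup.coe_mul_of_left_le_normalizer_right _ _ hle] at hq'
      obtain ⟨x, hx, ζ, hζ, rfl⟩ := hq'
      have hc : e * ζ = ζ * e := Subgroup.mem_centralizer_iff.mp hζ.2 e he
      have e1 : ⁅x * ζ, e⁆ = x * e * x⁻¹ * e⁻¹ := by
        simp only [commutatorElement_def, mul_inv_rev]
        calc x * ζ * e * (ζ⁻¹ * x⁻¹) * e⁻¹ = x * (ζ * e) * ζ⁻¹ * x⁻¹ * e⁻¹ := by group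
          _ = x * (e * ζ) * ζ⁻¹ * x⁻¹ * e⁻¹ := by rw [hc]
          _ = x * e * x⁻¹ * e⁻¹ := by group
      rw [e1, show x * e * x⁻¹ * e⁻¹ = x * (e * x⁻¹ * e⁻¹) by group]
      exact mul_mem hx ((Subgroup.mem_normalizer_iff.mp
        (Subgroup.normalizer_commutator_ge_right R E he) _).mp (inv_mem hx))
    have hF : Nat.card F = 3 ∨ 5 < Nat.card F := by
      rw [Nat.card_eq_fintype_card, hn]
      rcases Nat.lt_or_ge n 2 with h | h
      · left; rw [show n = 1 by omega]; norm_num
      · right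
        have := Nat.pow_le_pow_right (show 0 < 3 by norm_num) h
        omega
    let X : Cfsg.Agent.H68Block.ExcBlock T E F :=
      { block := hE
        constrained := hG
        core_eq := hcore
        mc := D
        tc := D₂
        derived := hQQ
        cardZ := by rw [← hcen, hcard, Nat.card_eq_fintype_card, hn]
        cardF := hF
        quad := fun b hb hbc => by rw [← hcen]; exact hquad b hb hbc }
    exact X.centralizer_le_normalizer
  · exact absurd h hQW

end Cfsg.Agent.S2985
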