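import Cfsg.Statements.S2988
import Cfsg.Agent.H73.GN.Main

set_option autoImplicit false
universe u
open scoped Pointwise
open Cfsg Cfsg.Agent

namespace Cfsg.Agent.S2988

/-- Let p be a prime and S a nontrivial finite p-group. Write J(S) for the subgroup generated by the abelian subgroups of S of largest order (the large abelian subgroups) and J̃(S) = C_S(Z(J(S))). Unless S satisfies all of the following conditions — S is non-abelian; J(S) = S; Z(S) and Φ(S) are elementary abelian; Φ(S) ≤ Z(S) if p = 2, Φ(S) ≤ Z₂(S) if p = 3, and Φ(S) ≤ Z(S) with S of exponent p if p > 3; some large abelian subgroup is elementary abelian; and for all large abelian subgroups A, B and all subgroups Q of S one has |A|² = |S|·|Z(S)| ≥ |Q|·|Z(Q)| and ⟨A, B⟩ = AB = C_S(A ∩ B) — there exist nontrivial characteristic subgroups S₁ ≤ Z(S) and S₂ ≤ J̃(S) of S, S₂ characteristic in J̃(S), such that whenever S is embedded as a Sylow p-subgroup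 of a finite group G in the basic pushing-up situation, the image of S₁ or of S₂ is normal in G. -/
theorem result {p : ℕ} [Fact p.Prime] (S : Type u) [Group S] [Finite S] [Nontrivial S] (hS : IsPGroup p S) (hexc : ¬ (¬ IsMulCommutative S ∧ Cfsg.thompsonSubgroupA S = ⊤ ∧ Cfsg.IsElementaryAbelian p (Subgroup.center S) ∧ Cfsg.IsElementaryAbelian p (frattini S) ∧ (p = 2 → frattini S ≤ Subgroup.center S) ∧ (p = 3 → frattini S ≤ Subgroup.upperCentralSeries S 2) ∧ (3 < p → frattini S ≤ Subgroup.center S ∧ Monoid.exponent S = p) ∧ (∃ A ∈ Cfsg.maxAbelianSubgroups S, Cfsg.IsElementaryAbelian p A) ∧ (∀ A ∈ Cfsg.maxAbelianSubgroups S, ∀ B ∈ Cfsg.maxAbelianSubgroups S, ∀ Q : Subgroup S, Nat.card ↥A ^ 2 = Nat.card S * Nat.card ↥(Subgroup.center S) ∧ Nat.card ↥Q * Nat.card ↥(Subgroup.center ↥Q) ≤ Nat.card S * Nat.card ↥(Subgroup.center S) ∧ ((A ⊔ B : Subgroup S) : Set S) = (A : Set S) * (B : Set S) ∧ A ⊔ B = Subgroup.centralizer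 ((A ⊓ B : Subgroup S) : Set S)))) : ∃ S₁ S₂ : Subgroup S, S₁ ≠ ⊥ ∧ S₂ ≠ ⊥ ∧ S₁.Characteristic ∧ S₂.Characteristic ∧ S₁ ≤ Subgroup.center S ∧ S₂ ≤ Subgroup.centralizer ((Cfsg.thompsonSubgroupA S ⊓ Subgroup.centralizer (Cfsg.thompsonSubgroupA S : Set S) : Subgroup S) : Set S) ∧ (S₂.subgroupOf (Subgroup.centralizer ((Cfsg.thompsonSubgroupA S ⊓ Subgroup.centralizer (Cfsg.thompsonSubgroupA S : Set S) : Subgroup S) : Set S))).Characteristic ∧ ∀ (G : Type u) [Group G] [Finite G] (P : Subgroup G) (e : S ≃* ↥P), Cfsg.IsPushingUpSituation p P → ((S₁).map ((P.subtype).comp (e : S ≃* ↥P).toMonoidHom)).Normal ∨ ((S₂).map ((P.subtype).comp (e : S ≃* ↥P).toMonoidHom)).Normal := by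
  have hexp : ∃ S₁ S₂ : Subgroup S, H73.GN.IsPair p S₁ S₂ := by
    by_cases h : ¬ IsMulCommutative S ∧ Cfsg.thompsonSubgroupA S = ⊤ ∧
        Cfsg.IsElementaryAbelian p (Subgroup.center S) ∧ H73.GN.sZero p (⊤ : Subgroup S) = ⊥ ∧
        H73.GN.AbelianCondition S
    · obtain ⟨h1, h2, h3, h4, h5⟩ := h
      obtain ⟨f1, f2, f3, f4⟩ := H73.GN.frattini_conditions hS h3 h4
      exact H73.GN.exists_pair_frattini hS h2 h5 fun hA => hexc ⟨h1, h2, h3, f1, f2, f3, f4, hA, h5⟩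
    · obtain ⟨S₁, S₂, hp, -⟩ := H73.GN.exists_pair hS h
      exact ⟨S₁, S₂, hp⟩
  obtain ⟨S₁, S₂, h⟩ : ∃ S₁ S₂ : Subgroup S, H73.GN.IsPair p S₁ S₂ := hexp
  refine ⟨S₁, S₂, h.ne₁, h.ne₂, h.char₁, h.char₂, h.le₁, h.le₂, h.charIn, fun G _ _ P e hE => ?_⟩
  refine h.normal G _ (P.subtype_injective.comp e.injective) ?_
  have hr : ((P.subtype).comp (e : S ≃* ↥P).toMonoidHom).range = P := by
    ext x
    exact ⟨fun ⟨s, hs⟩ => hs ▸ (e s).2, fun hx => ⟨e.symm ⟨x, hx⟩, by simp⟩⟩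
  rwa [hr]

end Cfsg.Agent.S2988
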