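import Cfsg.Statements.S2989
import Cfsg.Agent.H74.PushingUpCL

set_option autoImplicit false
open Cfsg

namespace Cfsg.Agent.S2989

/-- Let G be a finite group and S a Sylow p-subgroup of G in the basic pushing-up situation (G ≠ 1, C_G(O_p(G)) ≤ O_p(G), S lies in a unique maximal subgroup of G, and some quotient of G is isomorphic to PSL₂ over a field of order a power of p), and suppose that S centralizes Z(J(S)), where J(S) is generated by the abelian subgroups of S of largest order (that is, J̃(S) = C_S(Z(J(S))) = S). Call a subgroup R of S centrally large if |R|·|Z(R)| is as large as possible among subgroups of S, and let S_Φ be the subgroup generated by the Frattini subgroups Φ(Q) of those minimal centrally large subgroups Q of S whose Ω₁(Z(Q)) has the largest order among minimal centrally large subgroups. Then Z(S) or S_Φ is normal in G; and if S_Φ = 1, the minimal centrally large subgroups of S are exactly the abelian subgroups of S of largest order, and at least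 one of them is elementary abelian. -/
theorem result {G : Type*} [Group G] [Finite G] {p : ℕ} [Fact p.Prime] (S : Subgroup G) (hE : Cfsg.IsPushingUpSituation p S) (hJ : S ≤ Subgroup.centralizer (Cfsg.centerThompsonAOf S : Set G)) : ((S ⊓ Subgroup.centralizer (S : Set G)).Normal ∨ ((Cfsg.frattiniOfMinimalCLJoin p ↥S).map S.subtype).Normal) ∧ (Cfsg.frattiniOfMinimalCLJoin p ↥S = ⊥ → (∀ Q : Subgroup ↥S, Cfsg.IsMinimalCentrallyLarge Q ↔ Q ∈ Cfsg.maxAbelianSubgroups ↥S) ∧ ∃ A ∈ Cfsg.maxAbelianSubgroups ↥S, Cfsg.IsElementaryAbelian p A) := by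
  obtain ⟨P, hP⟩ := hE.2.1
  have hSp : IsPGroup p S := hP ▸ P.isPGroup'
  refine ⟨H74.pushing_up_frattini hE, fun h => ?_⟩
  set T := {k : ℕ | ∃ Q : Subgroup ↥S, Cfsg.IsMinimalCentrallyLarge Q ∧
    Nat.card ↥(Cfsg.omegaOneCenter p Q) = k} with hT
  have hne : T.Nonempty := by
    obtain ⟨Q, hQ⟩ := H74.exists_minimalCentrallyLarge (G := ↥S)
    exact ⟨_, Q, hQ, rfl⟩
  have hbdd : BddAbove T :=
    ((Set.finite_range fun Y : Subgroup ↥S => Nat.card ↥(Cfsg.omegaOneCenter p Y)).bddAbove).mono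
      (by rintro _ ⟨Y, -, hY⟩; exact ⟨Y, hY⟩)
  obtain ⟨Q, hQ, hQm⟩ := Nat.sSup_mem hne hbdd
  have hΦ : (frattini ↥Q).map Q.subtype = ⊥ := le_bot_iff.mp (h ▸ le_iSup
    (fun Q : {Q : Subgroup ↥S // Cfsg.IsMinimalCentrallyLarge Q ∧
      Nat.card ↥(Cfsg.omegaOneCenter p Q) = Cfsg.maxOmegaCenterOfMinimalCL p ↥S} =>
      (frattini ↥(Q : Subgroup ↥S)).map (Q : Subgroup ↥S).subtype) ⟨Q, hQ, hQm⟩)
  have hab : ⁅Q, Q⁆ = ⊥ := le_bot_iff.mp (Subgroup.commutator_le.mpr fun a ha b hb =>
    hΦ ▸ H74.commutator_mem_frattini_map (hSp.to_subgroup Q) ha hb)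
  have hiff := H74.minimal_iff_maxAbelian hQ hab
  refine ⟨hiff, Q, (hiff Q).mp hQ, ((hiff Q).mp hQ).1, fun a ha => ?_⟩
  exact Subgroup.mem_bot.mp (hΦ ▸ H74.pow_mem_frattini_map (hSp.to_subgroup Q) ha)

end Cfsg.Agent.S2989
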