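import Cfsg.Statements.S2990
import Cfsg.Agent.H74.PushingUpCL

set_option autoImplicit false
open Cfsg

namespace Cfsg.Agent.S2990

/-- Let G be a finite group and S a Sylow p-subgroup of G in the basic pushing-up situation (G ≠ 1, C_G(O_p(G)) ≤ O_p(G), S lies in a unique maximal subgroup of G, and some quotient of G is isomorphic to PSL₂ over a field of order a power of p), and suppose that S centralizes Z(J(S)), where J(S) is generated by the abelian subgroups of S of largest order (that is, J̃(S) = C_S(Z(J(S))) = S). Call a subgroup R of S centrally large if |R|·|Z(R)| is as large as possible among subgroups of S, let Q be a minimal centrally large subgroup of S and let S_MCL be the subgroup generated by all minimal centrally large subgroups of S. Then the derived subgroup [Q, Q] is characteristic in S; Z(S) ∩ [Q, Q] or S_MCL is normal in G; and if [Q, Q] = 1, the minimal centrally large subgroups of S are exactly the abelian subgroups of S of largest order. -/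
theorem result {G : Type*} [Group G] [Finite G] {p : ℕ} [Fact p.Prime] (S : Subgroup G) (hE : Cfsg.IsPushingUpSituation p S) (hJ : S ≤ Subgroup.centralizer (Cfsg.centerThompsonAOf S : Set G)) (Q : Subgroup ↥S) (hQ : Cfsg.IsMinimalCentrallyLarge Q) : (⁅Q, Q⁆).Characteristic ∧ (((S ⊓ Subgroup.centralizer (S : Set G)) ⊓ (⁅Q, Q⁆).map S.subtype).Normal ∨ ((Cfsg.minimalCentrallyLargeJoin ↥S).map S.subtype).Normal) ∧ (⁅Q, Q⁆ = ⊥ → ∀ R : Subgroup ↥S, Cfsg.IsMinimalCentrallyLarge R ↔ R ∈ Cfsg.maxAbelianSubgroups ↥S) := by
  refine ⟨Subgroup.characteristic_iff_map_eq.mpr fun φ => ?_, H74.pushing_up_derived hE Q hQ,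
    fun h R => H74.minimal_iff_maxAbelian hQ h R⟩
  have h2 := H74.minimal_of_card_eq (H74.cl_map_equiv φ hQ.1) hQ
    (Nat.card_congr (Q.equivMapOfInjective _ φ.injective).toEquiv).symm
  rw [Subgroup.map_commutator]
  exact H74.minimal_commutator_eq h2 hQ

end Cfsg.Agent.S2990
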