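import Cfsg.Statements.S2998
import Cfsg.Agent.H74.Isolated

set_option autoImplicit false
open Cfsg

namespace Cfsg.Agent.S2998

/-- Let G be a finite group, p a prime, P a Sylow p-subgroup of G and x ∈ P an element such that N_G(R) ≤ C_G(x) for every nontrivial subgroup R of P. Then P ≤ C_G(x); every G-conjugate of x lying in P equals x (so g ∈ C_G(x) whenever g x g⁻¹ ∈ P); and for every normal subgroup N of G, the image of x in G ⧸ N has the same property with respect to the image of P: the normalizer of every nontrivial subgroup of the image of P centralizes the image of x. -/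
theorem result {G : Type*} [Group G] [Finite G] {p : ℕ} [Fact p.Prime] (P : Sylow p G) (x : G) (hxP : x ∈ (P : Subgroup G)) (hlc : ∀ R : Subgroup G, R ≤ (P : Subgroup G) → R ≠ ⊥ → Subgroup.normalizer (R : Set G) ≤ Subgroup.centralizer ({x} : Set G)) : (P : Subgroup G) ≤ Subgroup.centralizer ({x} : Set G) ∧ (∀ g : G, g * x * g⁻¹ ∈ (P : Subgroup G) → g * x * g⁻¹ = x) ∧ ∀ (N : Subgroup G) [N.Normal], ∀ R : Subgroup (G ⧸ N), R ≤ (P : Subgroup G).map (QuotientGroup.mk' N) → R ≠ ⊥ → Subgroup.normalizer (R : Set (G ⧸ N)) ≤ Subgroup.centralizer ({(QuotientGroup.mk x : G ⧸ N)} : Set (G ⧸ N)) := by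
  refine ⟨?_, fun g hg => H74.locallyCentral_fusion P hxP hlc hg,
    fun N _ R hR hR1 => H74.locallyCentral_quotient P hlc N R hR hR1⟩
  by_cases hP : (P : Subgroup G) = ⊥
  · rw [hP]; exact bot_le
  · exact Subgroup.le_normalizer.trans (hlc _ le_rfl hP)

end Cfsg.Agent.S2998
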