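import Cfsg.Statements.S3000
import Cfsg.Agent.H34.Para.Setup
import Cfsg.Agent.H34.Para.Orbit
import Cfsg.Agent.H34.Para.Two

set_option autoImplicit false
open Cfsg

namespace Cfsg.Agent.S3000

/-- Let p be a prime and let P and V be subgroups of a finite group with V elementary abelian, P normalizing V and acting faithfully on it (P ∩ C(V) = 1). Suppose P is p-minimal (a Sylow p-subgroup T of P is not normal and lies in a unique maximal subgroup M of P), O_p(P) = 1, C_P(C_V(T)) ≤ M, and P has a best offender on V: a subgroup A not centralizing V, with A/C_A(V) elementary abelian, such that |B|·|C_V(B)| ≤ |A|·|C_V(A)| for every subgroup B of A. Then there are subgroups E₁, …, E_r of P (r ≥ 1), pairwise commuting and forming with T a product P = (E₁ × ⋯ × E_r)T (internal direct product of the E_i), any two of which are conjugate by an element of T, such that V = C_V(E₁⋯E_r)·∏[V, E_i] with [V, E_i, E_j]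 = 1 for i ≠ j, and for each i there is n ≥ 1 with either E_i ≅ SL₂(pⁿ) acting on [V, E_i]/C_{[V,E_i]}(E_i) as on its natural two-dimensional module, or p = 2 and E_i isomorphic to the symmetric group of degree 2ⁿ + 1 acting on [V, E_i]/C_{[V,E_i]}(E_i) as on its even-weight permutation module. -/
theorem result {G : Type*} [Group G] [Finite G] {p : ℕ} [Fact p.Prime] (V P : Subgroup G) (hV : Cfsg.IsElementaryAbelian p V) (hPV : P ≤ Subgroup.normalizer (V : Set G)) (hfaith : P ⊓ Subgroup.centralizer (V : Set G) = ⊥) (hmin : Cfsg.IsPMinimal p ↥P) (T : Sylow p ↥P) (M : Subgroup ↥P) (hM : IsCoatom M) (hTM : (T : Subgroup ↥P) ≤ M) (hOp : Cfsg.pCore p ↥P = ⊥) (hoff : ∃ A : Subgroup G, A ≤ P ∧ ¬ A ≤ Subgroup.centralizer (V : Set G) ∧ Cfsg.IsBestOffenderOn p V A) (hCT : P ⊓ Subgroup.centralizer ((V ⊓ Subgroup.centralizer ((((T : Subgroup ↥P).map P.subtype) : Subgroup G) : Set G)) : Set G) ≤ M.map P.subtype) : ∃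 (r : ℕ) (E : Fin r → Subgroup G), 1 ≤ r ∧ (∀ i, E i ≤ P) ∧ (∀ i j, i ≠ j → ⁅E i, E j⁆ = ⊥) ∧ (∀ i, E i ⊓ (⨆ j ∈ {j | j ≠ i}, E j) = ⊥) ∧ (⨆ i, E i) ⊔ ((T : Subgroup ↥P).map P.subtype) = P ∧ (∀ i j, ∃ t ∈ ((T : Subgroup ↥P).map P.subtype), (E i).map (MulAut.conj t).toMonoidHom = E j) ∧ (V ⊓ Subgroup.centralizer (((⨆ i, E i) : Subgroup G) : Set G)) ⊔ (⨆ i, ⁅V, E i⁆) = V ∧ (∀ i j, i ≠ j → ⁅⁅V, E i⁆, E j⁆ = ⊥) ∧ ∀ i, ∃ n : ℕ, 1 ≤ n ∧ ((∃ (F : Type) (_ : Field F) (_ : Fintype F), Fintype.card F = p ^ n ∧ Nonempty (↥(E i) ≃* Matrix.SpecialLinearGroup (Fin 2) F) ∧ Cfsg.ActsAsSL2OnSection F ⊤ (E i) ⁅V, E i⁆ (⁅V, E i⁆ ⊓ Subgroup.centralizer ((E i : Subgroup G) : Set G))) ∨ (p = 2 ∧ Nonempty (↥(E i) ≃* Equiv.Perm (Fin (2 ^ n + 1))) ∧ Cfsg.ActsAsOddPermModuleOnSection (2 ^ n + 1) ⊤ (E i) ⁅V, E i⁆ (⁅V, E i⁆ ⊓ Subgroup.centralizer ((E i : Subgroup G) : Set G)))) := by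
  classical
  set T' : Subgroup G := (T : Subgroup ↥P).map P.subtype with hT'
  have hpm := Cfsg.Agent.H34.Para.pmin_of hmin T hM hTM
  obtain ⟨A, hAP, hAV, hA⟩ := hoff
  obtain ⟨hne, hAc, hAe, hAl⟩ := Cfsg.Agent.H34.Para.offender_of hfaith hAP hAV hA
  have hFFP : Cfsg.Agent.H34.Para.FFP p V P T' (M.map P.subtype) :=
    { comm := fun a ha b hb => congrArg Subtype.val (hV.1.is_comm.comm ⟨a, ha⟩ ⟨b, hb⟩)
      expV := hV.2
      hPV := hPV
      faith := hfaith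
      pm := hpm
      op1 := Cfsg.Agent.H34.Para.op1_of hOp
      hz := by
        by_contra hcon
        push Not at hcon
        refine hpm.hne (le_antisymm hpm.hMP (le_trans (fun g hg => ?_) hCT))
        refine ⟨hg, Subgroup.mem_centralizer_iff.2 fun z hz => ?_⟩
        exact (Subgroup.mem_centralizer_iff.1 (hcon z hz.1 hz.2) g hg).symm }
  obtain ⟨A₀, hA₀P, hA₀⟩ := Cfsg.Agent.H34.Para.exists_minOff hAP hne hAc hAe hAl
  by_cases hq : 3 ≤ Nat.card ↥A₀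
  · obtain ⟨r, E, h1, h2, h3, h4, h5, h6, h7, h8, h9⟩ := Cfsg.Agent.H34.Para.exists_components_large hFFP hA₀P hA₀ hq
    refine ⟨r, E, h1, h2, h3, h4, h5, h6, h7, h8, fun i => ?_⟩
    obtain ⟨n, hn, hF⟩ := h9 i
    exact ⟨n, hn, Or.inl hF⟩
  · have h1 : 1 < Nat.card ↥A₀ := (Subgroup.one_lt_card_iff_ne_bot _).2 hA₀.ne
    have h2 : Nat.card ↥A₀ = 2 := by omega
    have hA₀p : IsPGroup p ↥A₀ := fun g => ⟨1, Subtype.ext (by simpa using hA₀.expA g g.2)⟩
    obtain ⟨k, hk⟩ := IsPGroup.iff_card.1 hA₀p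
    have hp2 : p = 2 := by
      have hp := (Fact.out : p.Prime)
      rcases k with _ | k
      · rw [pow_zero] at hk; omega
      have hle : p ∣ 2 := h2 ▸ hk.symm ▸ dvd_pow_self p (Nat.succ_ne_zero k)
      exact (Nat.prime_dvd_prime_iff_eq hp Nat.prime_two).1 hle
    subst hp2
    letI : CommGroup ↥V := { (inferInstance : Group ↥V) with mul_comm := hV.1.is_comm.comm }
    obtain ⟨r, E, h1, h2', h3, h4, h5, h6, h7, h8, h9⟩ := Cfsg.Agent.H34.Para.exists_components_two hFFP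
      (AddEquiv.refl (Additive ↥V)) hA₀P hA₀ h2
    refine ⟨r, E, h1, h2', h3, h4, h5, h6, h7, h8, fun i => ?_⟩
    obtain ⟨n, hn, hF⟩ := h9 i
    exact ⟨n, hn, Or.inr ⟨rfl, hF⟩⟩

end Cfsg.Agent.S3000
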