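import Cfsg.Statements.S3003
import Cfsg.Agent.H20.Hyperplane

set_option autoImplicit false
open Cfsg

namespace Cfsg.Agent.S3003

/-- Let G be a finite group, p a prime and Q a large p-subgroup of G: C_G(Q) ≤ Q and N_G(U) ≤ N_G(Q) for every nontrivial subgroup U of C_G(Q). Let Q ≤ G₁ ≤ G, let R be a subgroup of order prime to p normalized by G₁, and let U ≤ G₁ be a p-subgroup. If U contains a nontrivial element which is G₁-conjugate to an element of Z(Q), then C_R(U) = 1. In particular, if U is elementary abelian of order at least p² and every maximal subgroup of U contains a nontrivial element G₁-conjugate into Z(Q), then R = 1. -/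
theorem result {G : Type*} [Group G] [Finite G] {p : ℕ} [Fact p.Prime] (Q : Subgroup G) (hQp : IsPGroup p ↥Q) (hlarge : Cfsg.IsLarge Q) (G₁ : Subgroup G) (hQG : Q ≤ G₁) (R : Subgroup G) (hR : (Nat.card ↥R).Coprime p) (hGR : G₁ ≤ Subgroup.normalizer (R : Set G)) (U : Subgroup G) (hUG : U ≤ G₁) (hUp : IsPGroup p ↥U) : ((∃ x ∈ U, x ≠ 1 ∧ ∃ g ∈ G₁, g * x * g⁻¹ ∈ Q ⊓ Subgroup.centralizer (Q : Set G)) → R ⊓ Subgroup.centralizer (U : Set G) = ⊥) ∧ (Cfsg.IsElementaryAbelian p U → p ^ 2 ≤ Nat.card ↥U → (∀ U₀ : Subgroup G, U₀ ≤ U → IsCoatom (U₀.subgroupOf U) → ∃ x ∈ U₀, x ≠ 1 ∧ ∃ g ∈ G₁, g * x * g⁻¹ ∈ Q ⊓ Subgroup.centralizer (Q : Set G)) → R = ⊥) := by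
  have hcopQ : Q ⊓ R = ⊥ := by
    refine (Subgroup.disjoint_of_coprime_natCard ?_).eq_bot
    obtain ⟨k, hk⟩ := hQp.exists_card_eq
    rw [hk]
    exact Nat.Coprime.pow_left k hR.symm
  have part1 : ∀ W : Subgroup G, (∃ x ∈ W, x ≠ 1 ∧ ∃ g ∈ G₁, g * x * g⁻¹ ∈ Q ⊓ Subgroup.centralizer (Q : Set G)) →
      R ⊓ Subgroup.centralizer (W : Set G) = ⊥ := by
    rintro W ⟨x, hxW, hx1, g, hg, hz⟩
    refine (Subgroup.eq_bot_iff_forall _).mpr fun y hy => ?_
    set z := g * x * g⁻¹ with hzdef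
    have hrR : g * y * g⁻¹ ∈ R := (Subgroup.mem_normalizer_iff.mp (hGR hg) y).mp hy.1
    have hrz : Commute (g * y * g⁻¹) z := by
      have h1 : Commute y x := (Subgroup.mem_centralizer_iff.mp hy.2 x hxW).symm
      exact h1.map (MulAut.conj g).toMonoidHom
    have hrN : g * y * g⁻¹ ∈ Subgroup.normalizer (Q : Set G) := by
      refine hlarge.2 (Subgroup.zpowers z) (Subgroup.zpowers_le.mpr hz.2)
        (by simpa [Subgroup.zpowers_eq_bot, hzdef] using hx1) ?_
      refine Subgroup.centralizer_le_normalizer _ (Subgroup.mem_centralizer_iff.mpr fun u hu => ?_)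
      obtain ⟨i, rfl⟩ := hu
      exact (hrz.zpow_right i).eq.symm
    set r := g * y * g⁻¹ with hr
    have hrC : r ∈ Q := by
      refine hlarge.1 (Subgroup.mem_centralizer_iff.mpr fun q (hq : q ∈ Q) => ?_)
      have h1 : r * q * r⁻¹ * q⁻¹ ∈ Q ⊓ R := Subgroup.mem_inf.mpr ⟨mul_mem ((Subgroup.mem_normalizer_iff.mp hrN q).mp hq) (inv_mem hq), by
        rw [show r * q * r⁻¹ * q⁻¹ = r * (q * r⁻¹ * q⁻¹) by group]
        exact mul_mem hrR ((Subgroup.mem_normalizer_iff.mp (hGR (hQG hq)) _).mp (inv_mem hrR))⟩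
      rw [hcopQ, Subgroup.mem_bot, mul_inv_eq_one, mul_inv_eq_iff_eq_mul] at h1
      exact h1.symm
    have hr1 : r ∈ Q ⊓ R := ⟨hrC, hrR⟩
    rw [hcopQ, Subgroup.mem_bot, hr] at hr1
    exact conj_eq_one_iff.mp hr1
  refine ⟨fun h => part1 U h, fun hel hcard hmax => ?_⟩
  haveI := hel.1
  refine le_bot_iff.mp (H20.le_of_cocyclic_centralizers_le (A := U) (hUG.trans hGR) ?_ ?_)
  · obtain ⟨k, hk⟩ := hUp.exists_card_eq
    rw [hk]
    exact Nat.Coprime.pow_left k hR.symm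
  intro B hBU ⟨a, ha, hgen⟩
  by_cases hBtop : B.subgroupOf U = ⊤
  · haveI : Nontrivial U := Finite.one_lt_card_iff_nontrivial.mp
      (lt_of_lt_of_le (Nat.one_lt_pow two_ne_zero (Fact.out : p.Prime).one_lt) hcard)
    obtain ⟨L, hL, -⟩ := (eq_top_or_exists_le_coatom (⊥ : Subgroup U)).resolve_left bot_ne_top
    have hsub : (L.map U.subtype).subgroupOf U = L :=
      Subgroup.comap_map_eq_self_of_injective U.subtype_injective L
    rw [← part1 _ (hmax _ (Subgroup.map_subtype_le L) (hsub.symm ▸ hL))]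
    exact inf_le_inf_left R (Subgroup.centralizer_le
      ((Subgroup.map_subtype_le L).trans (Subgroup.subgroupOf_eq_top.mp hBtop)))
  refine (part1 B (hmax B hBU ⟨hBtop, fun L hL => ?_⟩)).le
  -- a subgroup strictly above `B` in `U` contains an element outside `B`, hence is everything
  refine top_le_iff.mp fun w _ => ?_
  obtain ⟨v, hvL, hvB⟩ := SetLike.exists_of_lt hL
  have haL : (⟨a, ha⟩ : U) ∈ L := by
    have hv : (v : G) ∈ B ⊔ Subgroup.zpowers a := hgen.symm ▸ v.2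
    rw [← SetLike.mem_coe, Subgroup.coe_mul_of_right_le_normalizer_left _ _
      ((Subgroup.zpowers_le.mpr ha).trans (fun u hu => Subgroup.mem_normalizer_iff.mpr fun b => by
        constructor
        · intro hb
          rw [show u * b * u⁻¹ = b by
            rw [show u * b = b * u from congrArg Subtype.val (hel.1.is_comm.comm (⟨u, hu⟩ : U) ⟨b, hBU hb⟩), mul_inv_cancel_right]]
          exact hb
        · intro hb
          have hbU : b ∈ U := by
            simpa [mul_assoc] using mul_mem (mul_mem (inv_mem hu) (hBU hb)) hu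
          have e : u * b * u⁻¹ = b := by
            rw [show u * b = b * u from congrArg Subtype.val (hel.1.is_comm.comm (⟨u, hu⟩ : U) ⟨b, hbU⟩), mul_inv_cancel_right]
          rwa [e] at hb))] at hv
    obtain ⟨b, hb, c, ⟨i, rfl⟩, hbc⟩ := hv
    have hbL : (⟨b, hBU hb⟩ : U) ∈ L := hL.le (Subgroup.mem_subgroupOf.mpr hb)
    have hbc' : (⟨b, hBU hb⟩ : U) * (⟨a, ha⟩ : U) ^ i = v := Subtype.ext (by simpa using hbc)
    have hai : (⟨a, ha⟩ : U) ^ i ∈ L := by
      simpa [← hbc'] using mul_mem (inv_mem hbL) hvL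
    have hpi : ¬ (p : ℤ) ∣ i := by
      rintro ⟨j, rfl⟩
      apply hvB
      rw [Subgroup.mem_subgroupOf, ← hbc']
      have : a ^ ((p : ℤ) * j) = 1 := by rw [zpow_mul, zpow_natCast, hel.2 a ha, one_zpow]
      simpa [this] using hb
    obtain ⟨s, t, hst⟩ := (Nat.prime_iff_prime_int.mp (Fact.out : p.Prime)).coprime_iff_not_dvd.mpr hpi
    have hap : (⟨a, ha⟩ : U) ^ (p : ℤ) = 1 := Subtype.ext (by simp [hel.2 a ha])
    have : (⟨a, ha⟩ : U) = ((⟨a, ha⟩ : U) ^ i) ^ t := by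
      conv_lhs => rw [← zpow_one (⟨a, ha⟩ : U), ← hst, zpow_add, mul_comm s, zpow_mul, hap, one_zpow, one_mul, mul_comm t, zpow_mul]
    rw [this]
    exact zpow_mem hai t
  have hw : (w : G) ∈ B ⊔ Subgroup.zpowers a := hgen.symm ▸ w.2
  have hle : B ⊔ Subgroup.zpowers a ≤ L.map U.subtype := sup_le
    (fun b hb => ⟨⟨b, hBU hb⟩, hL.le (Subgroup.mem_subgroupOf.mpr hb), rfl⟩)
    (Subgroup.zpowers_le.mpr ⟨⟨a, ha⟩, haL, rfl⟩)
  obtain ⟨w', hw', e⟩ := hle hw
  exact (Subtype.ext e : w' = w) ▸ hw' 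

end Cfsg.Agent.S3003
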