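import Cfsg.Statements.S3009
import Cfsg.Agent.H75.SL2Natural

set_option autoImplicit false
set_option linter.all false
open Cfsg

namespace Cfsg.Agent.S3009

open Cfsg.Agent Matrix
open Cfsg.Agent.H75


/-- Let p be a prime and let G and V be subgroups of a finite group with V elementary abelian and normalized by G, and G isomorphic to SL₂(F) for a finite field F with pⁿ elements. Suppose G acts irreducibly and nontrivially on V by conjugation (no G-invariant subgroups of V other than 1 and V, and [V, G] ≠ 1), and let S be a Sylow p-subgroup of G and V₀ = C_V(S). If [V, S, S] = 1 or |V| ≤ |V₀|², then G acts on V as SL₂(F) on its natural two-dimensional module; in particular |V| = |F|². -/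
theorem result {X : Type*} [Group X] [Finite X] {p : ℕ} [Fact p.Prime] (G V : Subgroup X) (hV : Cfsg.IsElementaryAbelian p V) (hGV : G ≤ Subgroup.normalizer (V : Set X)) (F : Type) [Field F] [Fintype F] (n : ℕ) (hF : Fintype.card F = p ^ n) (hG : Nonempty (↥G ≃* Matrix.SpecialLinearGroup (Fin 2) F)) (hirr : ∀ U : Subgroup X, U ≤ V → G ≤ Subgroup.normalizer (U : Set X) → U = ⊥ ∨ U = V) (hnt : ⁅V, G⁆ ≠ ⊥) (S : Sylow p ↥G) (hyp : ⁅⁅V, (S : Subgroup ↥G).map G.subtype⁆, (S : Subgroup ↥G).map G.subtype⁆ = ⊥ ∨ Nat.card ↥V ≤ Nat.card ↥(V ⊓ Subgroup.centralizer (((S : Subgroup ↥G).map G.subtype : Subgroup X) : Set X)) ^ 2) : Cfsg.ActsAsSL2OnSection F ⊤ G V ⊥ := by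
  classical
  obtain ⟨hc, hpow⟩ := hV
  haveI : CharP F p := by
    obtain ⟨c, hc'⟩ := CharP.exists F
    obtain ⟨m, hcp, hm⟩ := FiniteField.card F c
    have hdvd : c ∣ p ^ n := by rw [← hF, hm]; exact dvd_pow_self c m.ne_zero
    have : c = p := (Nat.prime_dvd_prime_iff_eq hcp Fact.out).1 (hcp.dvd_of_dvd_pow hdvd)
    exact this ▸ hc'
  obtain ⟨e⟩ := hG
  let Se : Sylow p (SpecialLinearGroup (Fin 2) F) :=
    S.mapSurjective (f := e.toMonoidHom) e.surjective
  obtain ⟨g, hg⟩ := MulAction.exists_smul_eq (SpecialLinearGroup (Fin 2) F) Se (H1.sylowSL (F := F) p)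
  let σ : G ≃* SpecialLinearGroup (Fin 2) F := e.trans (MulAut.conj g)
  have hS : ∀ c, σ.symm (SL2Natural.xu c) ∈ (S : Subgroup G) := by
    intro c
    have h1 : SL2Natural.xu c ∈ (H1.sylowSL (F := F) p : Subgroup _) := by
      rw [H1.coe_sylowSL]; exact ⟨Multiplicative.ofAdd c, rfl⟩
    rw [← hg] at h1
    have h2 : SL2Natural.xu c ∈ ((S : Subgroup G).map e.toMonoidHom).map (MulAut.conj g).toMonoidHom := h1
    rw [Subgroup.map_map, Subgroup.mem_map] at h2
    obtain ⟨s, hs, hss⟩ := h2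
    rw [← hss]
    show σ.symm (σ s) ∈ _
    rwa [σ.symm_apply_apply]
  have hSsurj : ∀ s : G, s ∈ (S : Subgroup G) → ∃ c, σ.symm (SL2Natural.xu c) = s := by
    intro s hs
    have h1 : σ s ∈ ((g • Se : Sylow p _) : Subgroup _) :=
      ⟨e s, ⟨s, hs, rfl⟩, rfl⟩
    rw [hg, H1.coe_sylowSL] at h1
    obtain ⟨c, hc'⟩ := h1
    exact ⟨c.toAdd, by rw [show SL2Natural.xu c.toAdd = σ s from hc', σ.symm_apply_apply]⟩
  have hconj : ∀ g : G, ∀ v ∈ V, (g : X) * v * (g : X)⁻¹ ∈ V := fun g v hv =>
    (Subgroup.mem_normalizer_iff.1 (hGV g.2) v).1 hv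
  letI : CommGroup V := { (inferInstance : Group V) with mul_comm := hc.is_comm.comm }
  let act : G → AddMonoid.End (Additive V) := fun g =>
    { toFun := fun v => Additive.ofMul ⟨(g : X) * v.toMul.1 * (g : X)⁻¹, hconj g _ v.toMul.2⟩
      map_zero' := congrArg Additive.ofMul (Subtype.ext (by simp))
      map_add' := fun a b => congrArg Additive.ofMul (Subtype.ext (by
        show (g : X) * ((a.toMul : X) * b.toMul) * (g : X)⁻¹ =
          (g : X) * a.toMul * (g : X)⁻¹ * ((g : X) * b.toMul * (g : X)⁻¹)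
        group)) }
  let ρ : SpecialLinearGroup (Fin 2) F →* AddMonoid.End (Additive V) :=
    { toFun := fun g => act (σ.symm g)
      map_one' := by
        refine AddMonoidHom.ext fun v => congrArg Additive.ofMul (Subtype.ext ?_)
        show ((σ.symm 1 : G) : X) * v.toMul.1 * ((σ.symm 1 : G) : X)⁻¹ = v.toMul.1
        rw [map_one]
        simp
      map_mul' := fun a b => by
        refine AddMonoidHom.ext fun v => congrArg Additive.ofMul (Subtype.ext ?_)
        show ((σ.symm (a * b) : G) : X) * v.toMul.1 * ((σ.symm (a * b) : G) : X)⁻¹ =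
          (σ.symm a : X) * ((σ.symm b : X) * v.toMul.1 * (σ.symm b : X)⁻¹) * (σ.symm a : X)⁻¹
        rw [map_mul, Subgroup.coe_mul]
        group }
  have hρ : ∀ g (v : Additive V), ((ρ g v).toMul : X) =
      (σ.symm g : X) * v.toMul * (σ.symm g : X)⁻¹ := fun _ _ => rfl
  have hp : ∀ v : Additive V, p • v = 0 := fun v =>
    congrArg Additive.ofMul (show v.toMul ^ p = 1 from Subtype.ext (hpow _ v.toMul.2))
  have hirr' : ∀ U : AddSubgroup (Additive V), (∀ g, ∀ v ∈ U, ρ g v ∈ U) → U = ⊥ ∨ U = ⊤ := by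
    intro U hU
    let U' : Subgroup V := AddSubgroup.toSubgroup' U
    have key : ∀ g : G, ∀ u ∈ U', (⟨(g : X) * u.1 * (g : X)⁻¹, hconj g _ u.2⟩ : V) ∈ U' := by
      intro g u hu
      have h : Additive.ofMul (⟨(σ.symm (σ g) : X) * u.1 * (σ.symm (σ g) : X)⁻¹, hconj _ _ u.2⟩ : V) ∈ U :=
        hU (σ g) (Additive.ofMul u) hu
      simp only [MulEquiv.symm_apply_apply] at h
      exact h
    have hle : U'.map V.subtype ≤ V := Subgroup.map_subtype_le _
    have hnorm : G ≤ Subgroup.normalizer ((U'.map V.subtype : Subgroup X) : Set X) := by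
      intro g hg
      rw [Subgroup.mem_normalizer_iff]
      intro h
      constructor
      · rintro ⟨u, hu, rfl⟩
        exact ⟨_, key ⟨g, hg⟩ u hu, rfl⟩
      · rintro ⟨u, hu, hu'⟩
        refine ⟨_, key ⟨g, hg⟩⁻¹ u hu, ?_⟩
        show g⁻¹ * (u : X) * g⁻¹⁻¹ = h
        rw [show (u : X) = g * h * g⁻¹ from hu']
        group
    rcases hirr _ hle hnorm with h | h
    · left
      refine eq_bot_iff.2 fun v hv => ?_
      have h1 : (v.toMul : X) ∈ U'.map V.subtype := ⟨v.toMul, hv, rfl⟩
      rw [h, Subgroup.mem_bot] at h1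
      exact congrArg Additive.ofMul (show v.toMul = 1 from Subtype.ext h1)
    · right
      refine eq_top_iff.2 fun v _ => ?_
      have h1 : (v.toMul : X) ∈ U'.map V.subtype := by rw [h]; exact v.toMul.2
      obtain ⟨u, hu, huv⟩ := h1
      have : u = v.toMul := Subtype.ext huv
      rw [this] at hu
      exact hu
  have hnt' : ∃ g v, ρ g v ≠ v := by
    by_contra h
    push Not at h
    apply hnt
    rw [Subgroup.commutator_eq_bot_iff_le_centralizer]
    intro v hv g hg
    have h1 := congrArg (fun w : Additive V => (w.toMul : X)) (h (σ ⟨g, hg⟩) (Additive.ofMul ⟨v, hv⟩))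
    simp only [hρ, MulEquiv.symm_apply_apply, toMul_ofMul] at h1
    exact mul_inv_eq_iff_eq_mul.1 h1
  have hyp' : (∀ c d v, ρ (SL2Natural.xu d) (ρ (SL2Natural.xu c) v - v) = ρ (SL2Natural.xu c) v - v) ∨
      Nat.card (Additive V) ≤
        Nat.card {v : Additive V // ∀ c, ρ (SL2Natural.xu c) v = v} ^ 2 := by
    rcases hyp with h | h
    · left
      intro c d v
      set s := ((σ.symm (SL2Natural.xu c) : G) : X) with hs
      set t := ((σ.symm (SL2Natural.xu d) : G) : X) with ht
      have hsS : s ∈ (S : Subgroup G).map G.subtype := ⟨_, hS c, rfl⟩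
      have htS : t ∈ (S : Subgroup G).map G.subtype := ⟨_, hS d, rfl⟩
      have h1 := Subgroup.commutator_eq_bot_iff_le_centralizer.1 h
        (Subgroup.commutator_mem_commutator v.toMul.2 hsS) t htS
      rw [commutatorElement_def] at h1
      refine congrArg Additive.ofMul (Subtype.ext ?_)
      show t * (s * (v.toMul : X) * s⁻¹ / (v.toMul : X)) * t⁻¹ = s * (v.toMul : X) * s⁻¹ / (v.toMul : X)
      rw [mul_inv_eq_iff_eq_mul]
      have h2 : Commute t ((v.toMul : X) * s * (v.toMul : X)⁻¹ * s⁻¹) := h1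
      have h3 := h2.inv_right
      simp only [_root_.mul_inv_rev, inv_inv, ← mul_assoc] at h3
      rw [div_eq_mul_inv]
      exact h3
    · right
      refine le_of_eq_of_le (Nat.card_congr Additive.toMul) (h.trans (Nat.pow_le_pow_left (le_of_eq ?_) 2))
      refine Nat.card_congr
        { toFun := fun u => ⟨Additive.ofMul ⟨u.1, u.2.1⟩, fun c => ?_⟩
          invFun := fun v => ⟨v.1.toMul.1, v.1.toMul.2, fun s hs => ?_⟩
          left_inv := fun u => rfl
          right_inv := fun v => rfl }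
      · refine congrArg Additive.ofMul (Subtype.ext ?_)
        show (σ.symm (SL2Natural.xu c) : X) * u.1 * (σ.symm (SL2Natural.xu c) : X)⁻¹ = u.1
        exact mul_inv_eq_iff_eq_mul.2 (u.2.2 _ ⟨_, hS c, rfl⟩)
      · obtain ⟨s', hs', rfl⟩ := hs
        obtain ⟨c, rfl⟩ := hSsurj s' hs'
        have h1 := congrArg (fun w : Additive V => (w.toMul : X)) (v.2 c)
        exact mul_inv_eq_iff_eq_mul.1 h1
  obtain ⟨ψ, hψ⟩ := SL2Natural.exists_natural ρ hp hirr' hnt' hyp'
  refine ⟨hGV, bot_le, σ.toMonoidHom, AddMonoidHom.toMultiplicativeRight ψ.toAddMonoidHom, ?_, ?_, ?_, ?_⟩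
  · exact MonoidHom.range_eq_top.2 σ.surjective
  · intro y
    obtain ⟨v, hv⟩ := ψ.surjective y.toAdd
    exact ⟨v.toMul, congrArg Multiplicative.ofAdd hv⟩
  · intro u
    constructor
    · intro h
      have h1 : ψ (Additive.ofMul u) = ψ 0 := by rw [map_zero]; exact congrArg Multiplicative.toAdd h
      rw [Subgroup.mem_bot]
      exact congrArg (fun w : Additive V => (w.toMul : X)) (ψ.injective h1)
    · intro h
      obtain rfl : u = 1 := Subtype.ext (Subgroup.mem_bot.1 h)
      exact map_one _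
  · intro g u
    refine ⟨⟨(g : X) * u * (g : X)⁻¹, hconj g _ u.2⟩, rfl, ?_⟩
    have h1 := hψ (σ g) (Additive.ofMul u)
    have h2 : ρ (σ g) (Additive.ofMul u) = Additive.ofMul ⟨(g : X) * u * (g : X)⁻¹, hconj g _ u.2⟩ := by
      refine congrArg Additive.ofMul (Subtype.ext ?_)
      show (σ.symm (σ g) : X) * (u : X) * (σ.symm (σ g) : X)⁻¹ = _
      rw [σ.symm_apply_apply]
    rw [h2] at h1
    exact h1

end Cfsg.Agent.S3009
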