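import Cfsg.Statements.S3011
import Cfsg.Agent.S0200
import Mathlib

set_option autoImplicit false
set_option linter.all false
open Cfsg

namespace Cfsg.Agent.S3011
/-- An element of the four group other than `1, a, b` is `a * b`. -/
theorem eq_mul_of_four {G : Type*} [Group G] [Finite G] {V : Subgroup G} (h4 : Nat.card V ≤ 4)
    {a b w : G} (ha : a ∈ V) (hb : b ∈ V) (hw : w ∈ V) (ha1 : a ≠ 1) (hb1 : b ≠ 1) (hab : a ≠ b)
    (ha2 : a * a = 1) (hw1 : w ≠ 1) (hwa : w ≠ a) (hwb : w ≠ b) : w = a * b := by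
  classical
  by_contra hne
  have h1 : a * b ≠ 1 := fun h => hab (by
    calc a = a * (a * b) := by rw [h, mul_one]
      _ = b := by rw [← mul_assoc, ha2, one_mul])
  have h2 : a * b ≠ a := fun h => hb1 (mul_left_cancel (h.trans (mul_one a).symm))
  have h3 : a * b ≠ b := fun h => ha1 (mul_right_cancel (h.trans (one_mul b).symm))
  have hs : ({1, a, b, a * b, w} : Finset G).card = 5 := by
    repeat rw [Finset.card_insert_of_notMem]
    · rfl
    all_goals simp [ha1.symm, hb1.symm, hab, h1.symm, h2.symm, h3.symm, hw1.symm, hwa.symm, hwb.symm, Ne.symm hne]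
  have hsub : (({1, a, b, a * b, w} : Finset G) : Set G) ⊆ (V : Set G) := by
    simp [Set.insert_subset_iff, one_mem V, ha, hb, mul_mem ha hb, hw]
  have := Set.ncard_le_ncard hsub (Set.toFinite _)
  rw [Set.ncard_coe_finset, hs, ← Nat.card_coe_set_eq] at this
  change 5 ≤ Nat.card V at this
  omega


/-- Let G be a finite group and V a nontrivial elementary abelian 2-subgroup of G of order at most 4 such that, whenever an element of V inverts an element h of G of odd order, some nontrivial element of V commutes with h. Then V meets O₂(G) nontrivially. (The case of order at most 4 has a short argument from the Baer–Suzuki theorem.) -/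
theorem result {G : Type*} [Group G] [Finite G] (V : Subgroup G) (hV : Cfsg.IsElementaryAbelian 2 V) (hV1 : V ≠ ⊥) (hS : Cfsg.IsSidkiPair V) (h4 : Nat.card V ≤ 4) : V ⊓ Cfsg.pCore 2 G ≠ ⊥ := by
  intro hbot
  obtain ⟨hVc, hV2⟩ := hV
  have hcomm : ∀ x ∈ V, ∀ y ∈ V, x * y = y * x := fun x hx y hy =>
    congrArg Subtype.val (hVc.is_comm.comm (⟨x, hx⟩ : V) ⟨y, hy⟩)
  have hinv : ∀ v ∈ V, v ≠ 1 → ∃ h : G, h ≠ 1 ∧ Odd (orderOf h) ∧ v * h * v⁻¹ = h⁻¹ := by
    intro v hv hv1
    refine Cfsg.Agent.S0200.result v (orderOf_eq_prime (hV2 v hv) hv1) fun N hN hN2 hvN => ?_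
    have h1 : N ≤ Cfsg.pCore 2 G := le_sSup ⟨hN, hN2⟩
    have h2 : v ∈ V ⊓ Cfsg.pCore 2 G := ⟨hv, h1 hvN⟩
    rw [hbot] at h2
    exact hv1 (Subgroup.mem_bot.mp h2)
  have hne : ∀ h : G, Odd (orderOf h) → h * h = 1 → h = 1 := by
    intro h ho h2
    have := orderOf_dvd_of_pow_eq_one (x := h) (n := 2) (by rw [pow_two]; exact h2)
    rcases (Nat.dvd_prime Nat.prime_two).mp this with h1 | h1
    · exact orderOf_eq_one_iff.mp h1
    · rw [h1] at ho; exact absurd ho (by decide)
  have hnc : ∀ (v h : G), h ≠ 1 → Odd (orderOf h) → v * h * v⁻¹ = h⁻¹ → v * h ≠ h * v := by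
    intro v h h1 ho hi hc
    rw [hc, mul_inv_cancel_right, eq_inv_iff_mul_eq_one] at hi
    exact h1 (hne h ho hi)
  obtain ⟨⟨a, ha⟩, ha'⟩ := (Subgroup.ne_bot_iff_exists_ne_one).mp hV1
  have ha1 : a ≠ 1 := fun h => ha' (Subtype.ext h)
  obtain ⟨h₀, h₀1, h₀o, h₀i⟩ := hinv a ha ha1
  obtain ⟨b, hb, hb1, hbh₀⟩ := hS h₀ a ha h₀o h₀i
  -- a power of prime order
  obtain ⟨q, hq, hqd⟩ := Nat.exists_prime_and_dvd (show orderOf h₀ ≠ 1 from fun h => h₀1 (orderOf_eq_one_iff.mp h))
  set n := orderOf h₀ / q with hn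
  set h := h₀ ^ n with hh
  have hho : orderOf h = q := by
    have hqn : q * n = orderOf h₀ := Nat.mul_div_cancel' hqd
    rw [hh, orderOf_pow' _ (fun h0 => by rw [h0, mul_zero] at hqn; exact (orderOf_pos h₀).ne hqn),
      Nat.gcd_eq_right ⟨q, by rw [mul_comm, hqn]⟩, hn, Nat.div_div_self hqd (orderOf_pos h₀).ne']
  have hq2 : q ≠ 2 := by
    rintro rfl
    exact Nat.not_even_iff_odd.mpr h₀o (even_iff_two_dvd.mpr hqd)
  have hodd : Odd (orderOf h) := hho ▸ hq.odd_of_ne_two hq2
  have h1 : h ≠ 1 := fun h' => hq.ne_one (by rw [← hho, h', orderOf_one])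
  have haa : a * a = 1 := by rw [← pow_two]; exact hV2 a ha
  have hainv : a⁻¹ = a := inv_eq_of_mul_eq_one_left haa
  have hi : a * h * a⁻¹ = h⁻¹ := by
    rw [hh, ← conj_pow, h₀i, inv_pow]
  have hbh : b * h = h * b := Commute.pow_right (hbh₀ : Commute b h₀) n
  have hab : a ≠ b := fun h' => hnc a h h1 hodd hi (h' ▸ hbh)
  obtain ⟨k, k1, ko, ki⟩ := hinv b hb hb1
  -- the conjugates of the four group by powers of `h`
  have hcase : ∀ j : ℕ, h ^ (2 * j) * a * k = k * (h ^ (2 * j) * a) ∨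
      h ^ (2 * j) * a * b * k = k * (h ^ (2 * j) * a * b) := by
    intro j
    set s := h ^ j with hs
    have hsb : b * s = s * b := Commute.pow_right (hbh : Commute b h) j
    have hsa : s * a * s⁻¹ = h ^ (2 * j) * a := by
      have h3 : a * s * a⁻¹ = s⁻¹ := by rw [hs, ← conj_pow, hi, inv_pow]
      calc s * a * s⁻¹ = s * (a * s * a⁻¹)⁻¹ * a := by group
        _ = s * s * a := by rw [h3, inv_inv]
        _ = _ := by rw [hs, ← pow_add, two_mul]
    have hbs' : s⁻¹ * b = b * s⁻¹ := (Commute.inv_right (hsb : Commute b s)).symm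
    set k' := s⁻¹ * k * s with hk'
    have ko' : Odd (orderOf k') := by
      have : orderOf k' = orderOf k := by
        have := MulEquiv.orderOf_eq (MulAut.conj s⁻¹) k
        simpa [hk'] using this
      rw [this]; exact ko
    have k1' : k' ≠ 1 := fun h' => k1 (by
      have : k = s * k' * s⁻¹ := by rw [hk']; group
      rw [this, h']; group)
    have ki' : b * k' * b⁻¹ = k'⁻¹ := by
      calc b * k' * b⁻¹ = (b * s⁻¹) * k * (b * s⁻¹)⁻¹ := by rw [hk']; group
        _ = s⁻¹ * (b * k * b⁻¹) * s := by rw [← hbs']; group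
        _ = _ := by rw [ki, hk']; group
    obtain ⟨w, hw, hw1, hwk⟩ := hS k' b hb ko' ki'
    have hwb : w ≠ b := fun h' => hnc b k' k1' ko' ki' (h' ▸ hwk)
    by_cases hwa : w = a
    · left
      rw [hwa] at hwk
      calc h ^ (2 * j) * a * k = s * (a * k') * s⁻¹ := by rw [← hsa, hk']; group
        _ = s * (k' * a) * s⁻¹ := by rw [hwk]
        _ = k * (h ^ (2 * j) * a) := by rw [← hsa, hk']; group
    · right
      rw [eq_mul_of_four h4 ha hb hw ha1 hb1 hab haa hw1 hwa hwb] at hwk
      have hsab : s * (a * b) * s⁻¹ = h ^ (2 * j) * a * b := by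
        calc s * (a * b) * s⁻¹ = (s * a * s⁻¹) * (s * b * s⁻¹) := by group
          _ = _ := by rw [hsa, ← hsb, mul_inv_cancel_right]
      calc h ^ (2 * j) * a * b * k = s * ((a * b) * k') * s⁻¹ := by rw [← hsab, hk']; group
        _ = s * (k' * (a * b)) * s⁻¹ := by rw [hwk]
        _ = k * (h ^ (2 * j) * a * b) := by rw [← hsab, hk']; group
  -- `k` commutes with `h`
  have hkh : Commute k h := by
    obtain ⟨i, j, hij, hcom⟩ : ∃ i j : ℕ, i < j ∧ j ≤ 2 ∧ True ∧ ∃ c : G, Commute k (h ^ (2 * i) * c) ∧ Commute k (h ^ (2 * j) * c) := by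
      rcases hcase 0 with h0 | h0 <;> rcases hcase 1 with h1' | h1' <;> rcases hcase 2 with h2 | h2
      all_goals first
        | exact ⟨0, 1, by omega, by omega, trivial, a, h0.symm, h1'.symm⟩
        | exact ⟨0, 2, by omega, by omega, trivial, a, h0.symm, h2.symm⟩
        | exact ⟨1, 2, by omega, by omega, trivial, a, h1'.symm, h2.symm⟩
        | exact ⟨0, 1, by omega, by omega, trivial, a * b, by rw [← mul_assoc]; exact h0.symm, by rw [← mul_assoc]; exact h1'.symm⟩
        | exact ⟨0, 2, by omega, by omega, trivial, a * b, by rw [← mul_assoc]; exact h0.symm, by rw [← mul_assoc]; exact h2.symm⟩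
        | exact ⟨1, 2, by omega, by omega, trivial, a * b, by rw [← mul_assoc]; exact h1'.symm, by rw [← mul_assoc]; exact h2.symm⟩
    obtain ⟨hj2, -, c, hci, hcj⟩ := hcom
    have hd : Commute k (h ^ (2 * (j - i))) := by
      have e : h ^ (2 * (j - i)) = (h ^ (2 * j) * c) * (h ^ (2 * i) * c)⁻¹ := by
        rw [mul_inv_rev, mul_assoc, mul_inv_cancel_left, eq_mul_inv_iff_mul_eq, ← pow_add]
        congr 1; omega
      rw [e]
      exact hcj.mul_right hci.inv_right
    have hcop : Nat.Coprime (2 * (j - i)) q := by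
      refine (hq.coprime_iff_not_dvd.mpr fun hd' => ?_).symm
      have h5 := Nat.le_of_dvd (by omega) hd'
      have h6 := hq.two_le
      have h8 : q ≤ 4 := by omega
      have h9 := hho ▸ hodd
      interval_cases q <;> first | omega | exact absurd h9 (by decide)
    obtain ⟨m, hm⟩ := exists_pow_eq_self_of_coprime (hho ▸ hcop)
    exact hm ▸ hd.pow_right m
  -- an element inverted by one involution which commutes with neither of the other two
  have hprod : ∀ u : G, Odd (orderOf u) → Odd (orderOf (h * u)) ∨ ¬ Commute h u := by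
    intro u hu
    by_cases hc : Commute h u
    · exact Or.inl (Odd.of_dvd_nat (hodd.mul hu) hc.orderOf_mul_dvd_mul_orderOf)
    · exact Or.inr hc
  obtain ⟨w, hw, hw1, hwk⟩ := hS k b hb ko ki
  have hwb : w ≠ b := fun h' => hnc b k k1 ko ki (h' ▸ hwk)
  have habc : a * b = b * a := hcomm a ha b hb
  have hbc : b * h * b⁻¹ = h := by rw [hbh, mul_inv_cancel_right]
  by_cases hwa : w = a
  · -- `a * b` inverts `h` and `k`
    rw [hwa] at hwk
    have e1 : (a * b) * (h * k) * (a * b)⁻¹ = (h * k)⁻¹ := by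
      calc (a * b) * (h * k) * (a * b)⁻¹ = (a * (b * h * b⁻¹) * a⁻¹) * (a * (b * k * b⁻¹) * a⁻¹) := by group
        _ = h⁻¹ * k⁻¹ := by rw [hbc, hi, ki, (Commute.inv_right (hwk : Commute a k)).eq, mul_inv_cancel_right]
        _ = _ := by rw [← mul_inv_rev, hkh.eq]
    obtain ⟨c, hc, hc1, hck⟩ := hS (h * k) (a * b) (mul_mem ha hb)
      ((hprod k ko).resolve_right (fun hn => hn hkh.symm)) e1
    by_cases hca : c = a
    · rw [hca] at hck
      have h5 := congrArg (fun x => x * a⁻¹) hck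
      have e : a * (h * k) * a⁻¹ = h⁻¹ * k := by
        calc a * (h * k) * a⁻¹ = (a * h * a⁻¹) * (a * k * a⁻¹) := by group
          _ = _ := by rw [hi, hwk, mul_inv_cancel_right]
      simp only [e, mul_inv_cancel_right, mul_left_inj] at h5
      exact h1 (hne h hodd (eq_inv_iff_mul_eq_one.mp h5.symm))
    by_cases hcb : c = b
    · rw [hcb] at hck
      have h5 := congrArg (fun x => x * b⁻¹) hck
      have e : b * (h * k) * b⁻¹ = h * k⁻¹ := by
        calc b * (h * k) * b⁻¹ = (b * h * b⁻¹) * (b * k * b⁻¹) := by group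
          _ = _ := by rw [hbc, ki]
      simp only [e, mul_inv_cancel_right, mul_right_inj] at h5
      exact k1 (hne k ko (eq_inv_iff_mul_eq_one.mp h5.symm))
    rw [eq_mul_of_four h4 ha hb hc ha1 hb1 hab haa hc1 hca hcb] at hck
    rw [hck, mul_inv_cancel_right, eq_inv_iff_mul_eq_one] at e1
    have := hne _ ((hprod k ko).resolve_right (fun hn => hn hkh.symm)) e1
    rw [mul_eq_one_iff_eq_inv] at this
    rw [this] at hbh
    exact hnc b k k1 ko ki (Commute.inv_right_iff.mp hbh)
  · -- `a` inverts `h` and `k`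
    rw [eq_mul_of_four h4 ha hb hw ha1 hb1 hab haa hw1 hwa hwb] at hwk
    have hak : a * k * a⁻¹ = k⁻¹ := by
      have h5 : (a * b) * k * (a * b)⁻¹ = k := by rw [hwk, mul_inv_cancel_right]
      have h6 : a * (b * k * b⁻¹) * a⁻¹ = k := by
        calc a * (b * k * b⁻¹) * a⁻¹ = (a * b) * k * (a * b)⁻¹ := by group
          _ = k := h5
      rw [ki] at h6
      have : (a * k⁻¹ * a⁻¹)⁻¹ = k⁻¹ := by rw [h6]
      rw [← this]; group
    have e1 : a * (h * k) * a⁻¹ = (h * k)⁻¹ := by
      calc a * (h * k) * a⁻¹ = (a * h * a⁻¹) * (a * k * a⁻¹) := by group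
        _ = h⁻¹ * k⁻¹ := by rw [hi, hak]
        _ = _ := by rw [← mul_inv_rev, hkh.eq]
    have hhk := (hprod k ko).resolve_right (fun hn => hn hkh.symm)
    obtain ⟨c, hc, hc1, hck⟩ := hS (h * k) a ha hhk e1
    by_cases hca : c = a
    · rw [hca] at hck
      rw [hck, mul_inv_cancel_right, eq_inv_iff_mul_eq_one] at e1
      have := hne _ hhk e1
      rw [mul_eq_one_iff_eq_inv] at this
      rw [this] at hbh
      exact hnc b k k1 ko ki (Commute.inv_right_iff.mp hbh)
    by_cases hcb : c = b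
    · rw [hcb] at hck
      have h5 := congrArg (fun x => x * b⁻¹) hck
      have e : b * (h * k) * b⁻¹ = h * k⁻¹ := by
        calc b * (h * k) * b⁻¹ = (b * h * b⁻¹) * (b * k * b⁻¹) := by group
          _ = _ := by rw [hbc, ki]
      simp only [e, mul_inv_cancel_right, mul_right_inj] at h5
      exact k1 (hne k ko (eq_inv_iff_mul_eq_one.mp h5.symm))
    rw [eq_mul_of_four h4 ha hb hc ha1 hb1 hab haa hc1 hca hcb] at hck
    have h5 := congrArg (fun x => x * (a * b)⁻¹) hck
    have e : (a * b) * (h * k) * (a * b)⁻¹ = h⁻¹ * k := by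
      calc (a * b) * (h * k) * (a * b)⁻¹ = (a * (b * h * b⁻¹) * a⁻¹) * ((a * b) * k * (a * b)⁻¹) := by group
        _ = _ := by rw [hbc, hi, hwk, mul_inv_cancel_right]
    simp only [e, mul_inv_cancel_right, mul_left_inj] at h5
    exact h1 (hne h hodd (eq_inv_iff_mul_eq_one.mp h5.symm))

end Cfsg.Agent.S3011
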