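import Cfsg.Statements.S3012
import Mathlib

set_option autoImplicit false
set_option linter.all false
open Cfsg

namespace Cfsg.Agent.S3012

/-- Let G be a finite group, V a nontrivial elementary abelian 2-subgroup of G satisfying the Sidki pair condition (every odd-order element inverted by an element of V commutes with a nontrivial element of V), and K a normal subgroup of G with V ∩ K = 1. Then the image of V in G/K satisfies the Sidki pair condition in G/K. -/
theorem result {G : Type*} [Group G] [Finite G] (V K : Subgroup G) [K.Normal] (hV : Cfsg.IsElementaryAbelian 2 V) (hV1 : V ≠ ⊥) (hS : Cfsg.IsSidkiPair V) (hVK : V ⊓ K = ⊥) : Cfsg.IsSidkiPair (V.map (QuotientGroup.mk' K)) := by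
  obtain ⟨hVc, hV2⟩ := hV
  rintro hb vb ⟨v, hv, rfl⟩ hodd hinv
  set π := QuotientGroup.mk' K with hπ
  have hv2 : v * v = 1 := by rw [← pow_two]; exact hV2 v hv
  have hvi : v⁻¹ = v := inv_eq_of_mul_eq_one_left hv2
  -- a square root of `hb`
  obtain ⟨k, hk⟩ := hodd
  set sb := hb ^ (k + 1) with hsb
  have hss : sb * sb = hb := by
    rw [hsb, ← pow_add, show k + 1 + (k + 1) = orderOf hb + 1 by omega, pow_succ, pow_orderOf_eq_one, one_mul]
  obtain ⟨t, ht⟩ := QuotientGroup.mk'_surjective K sb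
  set x := v * (t⁻¹ * v * t) with hx
  have hxinv : v * x * v⁻¹ = x⁻¹ := by
    rw [hx, mul_inv_rev, mul_inv_rev, mul_inv_rev, inv_inv, hvi]
    simp only [mul_assoc]
    rw [← mul_assoc v v, hv2, one_mul]
  have hvs : π v * sb * (π v)⁻¹ = sb⁻¹ := by rw [hsb, ← conj_pow, hinv, inv_pow]
  have hxim : π x = hb := by
    have h4 : (π v)⁻¹ = π v := by rw [← map_inv, hvi]
    have h2 : π v * sb⁻¹ * (π v)⁻¹ = sb := by
      rw [← hvs]
      calc π v * (π v * sb * (π v)⁻¹) * (π v)⁻¹ = (π v * π v) * sb * (π v * π v)⁻¹ := by group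
        _ = sb := by rw [← map_mul, hv2, map_one]; group
    calc π x = π v * (sb⁻¹ * π v * sb) := by rw [hx, map_mul, map_mul, map_mul, map_inv, ht]
      _ = (π v * sb⁻¹ * (π v)⁻¹) * sb := by rw [h4]; group
      _ = hb := by rw [h2, hss]
  obtain ⟨a, o, ho, hao⟩ := Nat.exists_eq_two_pow_mul_odd (orderOf_pos x).ne'
  have hcop : Nat.Coprime (2 ^ a) (orderOf hb) := by
    refine Nat.Coprime.pow_left a ?_
    rw [Nat.Prime.coprime_iff_not_dvd Nat.prime_two]
    omega
  obtain ⟨m, hm1, hm2⟩ := Nat.chineseRemainder hcop 0 1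
  set h := x ^ m with hh
  have hhim : π h = hb := by
    rw [hh, map_pow, hxim]
    calc hb ^ m = hb ^ (m % orderOf hb) := (pow_mod_orderOf hb m).symm
      _ = hb ^ (1 % orderOf hb) := by rw [hm2]
      _ = hb := by rw [pow_mod_orderOf, pow_one]
  have hho : Odd (orderOf h) := by
    refine Odd.of_dvd_nat ho (orderOf_dvd_of_pow_eq_one ?_)
    rw [hh, ← pow_mul, ← orderOf_dvd_iff_pow_eq_one, hao]
    exact Nat.mul_dvd_mul_right (Nat.modEq_zero_iff_dvd.mp hm1) o
  obtain ⟨w, hw, hw1, hwh⟩ := hS h v hv hho (by rw [hh, ← conj_pow, hxinv, inv_pow])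
  refine ⟨π w, Subgroup.mem_map_of_mem _ hw, fun h1 => hw1 ?_, by rw [← hhim, ← map_mul, ← map_mul, hwh]⟩
  rw [hπ, QuotientGroup.mk'_apply, QuotientGroup.eq_one_iff] at h1
  exact Subgroup.mem_bot.mp (hVK ▸ ⟨hw, h1⟩)

end Cfsg.Agent.S3012
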