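import Cfsg.Statements.S3013
import Mathlib

set_option autoImplicit false
set_option linter.all false
open Cfsg

namespace Cfsg.Agent.S3013

/-- Let G be a finite group and V a nontrivial elementary abelian 2-subgroup of G satisfying the Sidki pair condition. Let v ∈ V and let x be an element of odd order inverted by v, and put C = C_G(v) ∩ C_G(x), the centralizer of the dihedral subgroup generated by v and x. Then C ∩ V is nontrivial and satisfies the Sidki pair condition inside C: every odd-order element of C inverted by an element of C ∩ V commutes with a nontrivial element of C ∩ V. -/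
theorem result {G : Type*} [Group G] [Finite G] (V : Subgroup G) (hV : Cfsg.IsElementaryAbelian 2 V) (hV1 : V ≠ ⊥) (hS : Cfsg.IsSidkiPair V) (v x : G) (hv : v ∈ V) (hx : Odd (orderOf x)) (hinv : v * x * v⁻¹ = x⁻¹) (C : Subgroup G) (hC : C = Subgroup.centralizer ({v} : Set G) ⊓ Subgroup.centralizer ({x} : Set G)) : C ⊓ V ≠ ⊥ ∧ Cfsg.IsSidkiPair ((C ⊓ V).subgroupOf C) := by
  obtain ⟨hVc, hV2⟩ := hV
  have hcomm : ∀ a ∈ V, ∀ b ∈ V, a * b = b * a := fun a ha b hb =>
    congrArg Subtype.val (hVc.is_comm.comm (⟨a, ha⟩ : V) ⟨b, hb⟩)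
  have hmem : ∀ g, g ∈ C ↔ g * v = v * g ∧ g * x = x * g := fun g => by
    rw [hC, Subgroup.mem_inf, Subgroup.mem_centralizer_singleton_iff, Subgroup.mem_centralizer_singleton_iff]
  refine ⟨fun hbot => ?_, ?_⟩
  · obtain ⟨w, hw, hw1, hwx⟩ := hS x v hv hx hinv
    have : w ∈ C ⊓ V := ⟨(hmem w).mpr ⟨hcomm w hw v hv, hwx⟩, hw⟩
    rw [hbot] at this
    exact hw1 (Subgroup.mem_bot.mp this)
  intro h u hu hodd hi
  have huV : (u : G) ∈ V := (Subgroup.mem_subgroupOf.mp hu).2
  obtain ⟨huv, hux⟩ := (hmem u).mp u.2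
  obtain ⟨hhv, hhx⟩ := (hmem h).mp h.2
  rw [← Subgroup.orderOf_coe] at hodd
  have hi' : (u : G) * h * (u : G)⁻¹ = (h : G)⁻¹ := congrArg Subtype.val hi
  have hc : Commute (h : G) x := hhx
  have hxh : Odd (orderOf (x * (h : G))) :=
    Odd.of_dvd_nat (hx.mul hodd) (hc.symm.orderOf_mul_dvd_mul_orderOf)
  have e : (v * u) * (x * h) * (v * u)⁻¹ = (x * (h : G))⁻¹ := by
    calc (v * u) * (x * h) * (v * u)⁻¹ = (v * (↑u * x * (↑u)⁻¹) * v⁻¹) * (v * (↑u * ↑h * (↑u)⁻¹) * v⁻¹) := by group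
      _ = x⁻¹ * (h : G)⁻¹ := by
        rw [hux, mul_inv_cancel_right, hinv, hi', ((Commute.inv_left (hhv : Commute (h : G) v)).eq).symm,
          mul_inv_cancel_right]
      _ = _ := by rw [← mul_inv_rev, hhx]
  obtain ⟨w, hw, hw1, hwxh⟩ := hS _ _ (mul_mem hv huV) hxh e
  have h1 : Commute w (x * (h : G)⁻¹) := by
    have h2 : (u : G) * (x * h) * (u : G)⁻¹ = x * (h : G)⁻¹ := by
      calc (u : G) * (x * h) * (u : G)⁻¹ = (↑u * x * (↑u)⁻¹) * (↑u * ↑h * (↑u)⁻¹) := by group
        _ = _ := by rw [hux, mul_inv_cancel_right, hi']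
    rw [← h2]
    have hwu : Commute w (u : G) := hcomm w hw u huV
    exact (hwu.mul_right hwxh).mul_right hwu.inv_right
  have h2 : Commute w ((h : G) ^ 2) := by
    have : (h : G) ^ 2 = (x * (h : G)⁻¹)⁻¹ * (x * h) := by
      rw [pow_two, mul_inv_rev, inv_inv]; group
    rw [this]
    exact h1.inv_right.mul_right hwxh
  obtain ⟨k, hk⟩ := hodd
  have h3 : Commute w (h : G) := by
    have : ((h : G) ^ 2) ^ (k + 1) = h := by
      rw [← pow_mul, show 2 * (k + 1) = orderOf (h : G) + 1 by omega, pow_succ, pow_orderOf_eq_one, one_mul]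
    exact this ▸ h2.pow_right _
  have h4 : Commute w x := by
    have : x = (x * (h : G)) * (h : G)⁻¹ := by group
    rw [this]
    exact (show Commute w (x * (h : G)) from hwxh).mul_right h3.inv_right
  refine ⟨⟨w, (hmem w).mpr ⟨hcomm w hw v hv, h4⟩⟩,
    Subgroup.mem_subgroupOf.mpr ⟨(hmem w).mpr ⟨hcomm w hw v hv, h4⟩, hw⟩, ?_, Subtype.ext h3⟩
  exact fun h => hw1 (congrArg Subtype.val h)

end Cfsg.Agent.S3013
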