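import Cfsg.Statements.S3014
import Cfsg.Agent.H61.Basic

set_option autoImplicit false
open Cfsg Cfsg.Agent Cfsg.Agent.H61

namespace Cfsg.Agent.S3014

/-- Let G be a finite group and H ≤ M ≤ G subgroups such that for every g ∈ G the subgroup generated by H and g H g⁻¹ meets M exactly in H. If H is a maximal subgroup of M and M is a maximal subgroup of G, then the normal closure of H in G meets M exactly in H. -/
theorem result {G : Type*} [Group G] [Finite G] (H M : Subgroup G) (hHM : H ≤ M) (hcl : ∀ g : G, (H ⊔ H.map (MulAut.conj g).toMonoidHom) ⊓ M = H) (hmaxH : IsCoatom (H.subgroupOf M)) (hmaxM : IsCoatom M) : Subgroup.normalClosure (H : Set G) ⊓ M = H := by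
  classical
  set N := Subgroup.normalClosure (H : Set G) with hN
  refine le_antisymm ?_ (le_inf (fun h hh => Subgroup.subset_normalClosure hh) hHM)
  have hMN : M ≤ Subgroup.normalizer (H : Set G) := by
    intro m hm
    refine mem_normalizer_of_cj (cj_eq_of_le ?_)
    have h2 : cj m H ≤ (H ⊔ cj m H) ⊓ M := le_inf le_sup_right (by
      have h3 := cj_mono m hHM
      rwa [cj_eq_self (Subgroup.le_normalizer hm)] at h3)
    rwa [hcl m] at h2
  by_cases hHn : H.Normal
  · exact inf_le_left.trans (Subgroup.normalClosure_le_normal le_rfl)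
  have hNH : Subgroup.normalizer (H : Set G) ≤ M := by
    rcases hMN.eq_or_lt with e | hlt
    · exact e.ge
    · exact absurd (Subgroup.normalizer_eq_top_iff.1 (hmaxM.2 _ hlt)) hHn
  have hnot : ∀ x ∈ M, x ∉ H → H ⊔ Subgroup.zpowers x = M := by
    intro x hx hxH
    refine le_antisymm (sup_le hHM (Subgroup.zpowers_le.2 hx)) ?_
    have hlt : H.subgroupOf M < (H ⊔ Subgroup.zpowers x).subgroupOf M := by
      refine lt_of_le_of_ne (Subgroup.comap_mono le_sup_left) fun e => hxH ?_
      have : (⟨x, hx⟩ : M) ∈ H.subgroupOf M := e ▸ Subgroup.mem_subgroupOf.2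
        (Subgroup.mem_sup_right (Subgroup.mem_zpowers x))
      exact Subgroup.mem_subgroupOf.1 this
    exact Subgroup.subgroupOf_eq_top.1 (hmaxH.2 _ hlt)
  by_cases hint : ∀ g : G, g ∉ M → ∀ x ∈ M, x ∈ cj g M → x ∈ H
  · intro y hy
    obtain ⟨hyN, hyM⟩ := Subgroup.mem_inf.1 hy
    by_contra hyH
    have hHn' : (H.subgroupOf M).Normal := (Subgroup.normal_subgroupOf_iff_le_normalizer hHM).2 hMN
    let f := QuotientGroup.mk' (H.subgroupOf M)
    have hcomm : ∀ a b : M ⧸ H.subgroupOf M, a * b = b * a := by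
      have hgen : ∀ a : M ⧸ H.subgroupOf M, a ∈ Subgroup.zpowers (f ⟨y, hyM⟩) := by
        intro a
        obtain ⟨m, rfl⟩ := QuotientGroup.mk'_surjective _ a
        have hm : (m : G) ∈ ((Subgroup.zpowers (f ⟨y, hyM⟩)).comap f).map M.subtype := by
          refine (show M ≤ _ from ?_) m.2
          refine (hnot y hyM hyH).ge.trans ?_
          refine sup_le (fun h hh => ⟨⟨h, hHM hh⟩, ?_, rfl⟩) (Subgroup.zpowers_le.2
            ⟨⟨y, hyM⟩, Subgroup.mem_zpowers (f ⟨y, hyM⟩), rfl⟩)
          show f ⟨h, hHM hh⟩ ∈ Subgroup.zpowers (f ⟨y, hyM⟩)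
          rw [show f ⟨h, hHM hh⟩ = 1 from (QuotientGroup.eq_one_iff _).2 (Subgroup.mem_subgroupOf.2 hh)]
          exact one_mem _
        obtain ⟨m', hm', e⟩ := hm
        exact Subtype.ext e ▸ hm'
      intro a b
      obtain ⟨i, rfl⟩ := Subgroup.mem_zpowers_iff.1 (hgen a)
      obtain ⟨j, rfl⟩ := Subgroup.mem_zpowers_iff.1 (hgen b)
      exact (Commute.refl _).zpow_zpow i j
    letI : CommGroup (M ⧸ H.subgroupOf M) := { (inferInstance : Group (M ⧸ H.subgroupOf M)) with mul_comm := hcomm }
    let φ : M →* M ⧸ H.subgroupOf M := QuotientGroup.mk' _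
    have hφ : ∀ (z : G) (hz : z ∈ M), φ ⟨z, hz⟩ = 1 ↔ z ∈ H := fun z hz =>
      (QuotientGroup.eq_one_iff _).trans Subgroup.mem_subgroupOf
    letI := fun g : G => Fintype.ofFinite (Quotient (MulAction.orbitRel (Subgroup.zpowers g) (G ⧸ M)))
    -- the transfer kills the normal closure of `H`
    have hker : N ≤ (MonoidHom.transfer φ).ker := by
      refine Subgroup.normalClosure_le_normal fun h hh => ?_
      rw [SetLike.mem_coe, MonoidHom.mem_ker, MonoidHom.transfer_eq_prod_quotient_orbitRel_zpowers_quot]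
      refine Finset.prod_eq_one fun q _ => (hφ _ _).2 ?_
      set t := q.out.out
      have h1 := QuotientGroup.out_conj_pow_minimalPeriod_mem M h q.out
      have h2 : t⁻¹ * h ^ Function.minimalPeriod (h • ·) q.out * t ∈ cj t⁻¹ H := by
        have := conj_mem_cj (g := t⁻¹) (H.pow_mem hh (Function.minimalPeriod (h • ·) q.out))
        rwa [inv_inv] at this
      exact (hcl t⁻¹).le (Subgroup.mem_inf.2 ⟨Subgroup.mem_sup_right h2, h1⟩)
    -- but not `y`
    refine hyH ((hφ y hyM).1 ?_)
    have hy1 : MonoidHom.transfer φ y = 1 := hker hyN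
    rw [MonoidHom.transfer_eq_prod_quotient_orbitRel_zpowers_quot] at hy1
    set x0 : G ⧸ M := ((1 : G) : G ⧸ M) with hx0
    have hfix : ∀ z : Subgroup.zpowers y, z • x0 = x0 := fun z => QuotientGroup.eq.2 (by
      have : (z : G) ∈ M := Subgroup.zpowers_le.2 hyM z.2
      simpa using inv_mem this)
    set q0 : Quotient (MulAction.orbitRel (Subgroup.zpowers y) (G ⧸ M)) := ⟦x0⟧ with hq0
    have hout : q0.out = x0 := by
      obtain ⟨z, hz⟩ := Quotient.mk_out (s := MulAction.orbitRel (Subgroup.zpowers y) (G ⧸ M)) x0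
      exact hz.symm.trans (hfix z)
    rw [Finset.prod_eq_single q0] at hy1
    · have ht : q0.out.out ∈ M := by
        have e := (QuotientGroup.out_eq' q0.out).trans hout
        have := QuotientGroup.eq.1 e
        simpa using inv_mem this
      have hk : Function.minimalPeriod (y • ·) q0.out = 1 := by
        rw [Function.minimalPeriod_eq_one_iff_isFixedPt, hout]
        exact hfix ⟨y, Subgroup.mem_zpowers y⟩
      rw [← hy1]
      simp only [hk, pow_one]
      show φ ⟨y, hyM⟩ = φ ⟨q0.out.out⁻¹ * y * q0.out.out, _⟩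
      have e : (⟨q0.out.out⁻¹ * y * q0.out.out, mul_mem (mul_mem (inv_mem ht) hyM) ht⟩ : M) =
          ⟨_, ht⟩⁻¹ * ⟨y, hyM⟩ * ⟨_, ht⟩ := rfl
      rw [e, map_mul, map_mul, map_inv, mul_comm (φ _)⁻¹, inv_mul_cancel_right]
    · intro q _ hq
      refine (hφ _ _).2 ?_
      set t := q.out.out
      have htM : t ∉ M := by
        intro ht
        refine hq ?_
        rw [hq0, ← Quotient.out_eq q]
        congr 1
        rw [← QuotientGroup.out_eq' q.out, hx0]
        exact QuotientGroup.eq.2 (by simpa using inv_mem ht)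
      have h1 := QuotientGroup.out_conj_pow_minimalPeriod_mem M y q.out
      refine hint t⁻¹ (fun h => htM (by simpa using inv_mem h)) _ h1 ?_
      have := conj_mem_cj (g := t⁻¹) (M.pow_mem hyM (Function.minimalPeriod (y • ·) q.out))
      rwa [inv_inv] at this
    · intro h; exact absurd (Finset.mem_univ _) h
  · push Not at hint
    obtain ⟨g, hgM, x, hxM, hxg, hxH⟩ := hint
    set L := H ⊔ cj g H with hL
    have hx : x ∈ Subgroup.normalizer (L : Set G) := by
      refine mem_normalizer_of_cj ?_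
      have h1 : x ∈ Subgroup.normalizer ((cj g H : Subgroup G) : Set G) := by
        rw [← cj_normalizer]; exact cj_mono g hMN hxg
      rw [hL, cj_sup, cj_eq_self (hMN hxM), cj_eq_self h1]
    have hML : M ≤ Subgroup.normalizer (L : Set G) := by
      rw [← hnot x hxM hxH]
      exact sup_le (le_sup_left.trans Subgroup.le_normalizer) (Subgroup.zpowers_le.2 hx)
    rcases hML.eq_or_lt with e | hlt
    · exfalso
      have hLM : L ≤ M := Subgroup.le_normalizer.trans e.ge
      have hLH : L = H := (inf_eq_left.2 hLM).symm.trans (hcl g)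
      exact hgM (hNH (mem_normalizer_of_cj (cj_eq_of_le (le_sup_right.trans hLH.le))))
    · have hLn : L.Normal := Subgroup.normalizer_eq_top_iff.1 (hmaxM.2 _ hlt)
      exact (inf_le_inf_right _ (Subgroup.normalClosure_le_normal
        (show (H : Set G) ⊆ L from fun h hh => Subgroup.mem_sup_left hh))).trans (hcl g).le

end Cfsg.Agent.S3014
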