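import Cfsg.Statements.S3015
import Cfsg.Agent.H75.PrimeIndexTransfer

set_option autoImplicit false
set_option linter.all false
open Cfsg

namespace Cfsg.Agent.S3015


/-- Let G be a finite non-abelian simple group, M a maximal subgroup of G and H a normal subgroup of M of prime index in M. Then G is generated by H together with one of its conjugates. -/
theorem result {G : Type*} [Group G] [Finite G] [IsSimpleGroup G] (hG : ¬ IsMulCommutative G) (M H : Subgroup G) (hmaxM : IsCoatom M) (hHM : H ≤ M) (hHn : (H.subgroupOf M).Normal) (hidx : (H.relIndex M).Prime) : ∃ g : G, H ⊔ H.map (MulAut.conj g).toMonoidHom = ⊤ := by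
  by_contra hcon
  push Not at hcon
  have hnn : M ≤ Subgroup.normalizer (H : Set G) := (Subgroup.normal_subgroupOf_iff_le_normalizer hHM).1 hHn
  have hsimple : ∀ N : Subgroup G, N.Normal → N = ⊥ ∨ N = ⊤ := fun N hN => hN.eq_bot_or_eq_top
  have hMbot : M ≠ ⊥ := by
    intro e
    rw [e] at hidx
    rw [Subgroup.relIndex_bot_right] at hidx
    exact Nat.not_prime_one hidx
  have hMN : ∀ g : G, M.map (MulAut.conj g).toMonoidHom = M → g ∈ M := by
    intro g hg
    have hgN : g ∈ Subgroup.normalizer (M : Set G) := by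
      refine Subgroup.mem_normalizer_iff.2 fun z => ⟨fun hz => hg ▸ ⟨z, hz, rfl⟩, fun hz => ?_⟩
      rw [← hg] at hz
      obtain ⟨w, hw, hwz⟩ := hz
      simp only [MulEquiv.coe_toMonoidHom, MulAut.conj_apply] at hwz
      rwa [← mul_left_cancel (mul_right_cancel hwz)]
    by_contra hgM
    have htop : Subgroup.normalizer (M : Set G) = ⊤ := hmaxM.2 _
      (lt_of_le_not_ge Subgroup.le_normalizer fun h => hgM (h hgN))
    rcases hsimple M (Subgroup.normalizer_eq_top_iff.1 htop) with e | e
    · exact hMbot e
    · exact hmaxM.1 e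
  obtain ⟨K, hKn, hKt, hKc, -⟩ := H75.exists_normal_of_pairs_proper M H hmaxM hHM hnn hidx hMN hcon (by
    intro g hg hLn
    rcases hsimple _ hLn with e | e
    · exact hg ((le_sup_right.trans e.le).trans bot_le)
    · exact hcon g e)
  rcases hsimple K hKn with e | e
  · refine hG ⟨⟨fun a b => ?_⟩⟩
    have := hKc a b
    rw [e, Subgroup.mem_bot, mul_inv_eq_one, mul_inv_eq_iff_eq_mul] at this
    exact this
  · exact hKt e

end Cfsg.Agent.S3015
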