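import Cfsg.Statements.S3016
import Cfsg.Agent.H92.EC.Normal
import Cfsg.Agent.H92.EC.Fixed

set_option autoImplicit false
open Cfsg

namespace Cfsg.Agent.S3016

/-- Let G be a finite group, p an odd prime, and H an abelian p-subgroup of G that is extremely closed (for every g, the subgroup generated by H and g H g⁻¹ meets N_G(H) exactly in H). Then the normal closure of H meets N_G(H) exactly in H, and G = N_G(H) O_{p'}(G). -/
theorem result {G : Type*} [Group G] [Finite G] {p : ℕ} [Fact p.Prime] (hp : p ≠ 2) (H : Subgroup G) (hHp : IsPGroup p H) (hHab : IsMulCommutative H) (hcl : Cfsg.IsExtremelyClosed H) : Subgroup.normalClosure (H : Set G) ⊓ Subgroup.normalizer (H : Set G) = H ∧ Subgroup.normalizer (H : Set G) ⊔ Cfsg.pPrimeCore p G = ⊤ := by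
  have hH : H92.EC.Hyp p H :=
    ⟨hHp, fun a ha b hb => congrArg Subtype.val (hHab.is_comm.comm (⟨a, ha⟩ : H) ⟨b, hb⟩), hcl⟩
  have hRn := H19.pPrimeCore_normal p G
  set R := Cfsg.pPrimeCore p G with hRdef
  have hR : ¬ p ∣ Nat.card R :=
    (Fact.out : p.Prime).coprime_iff_not_dvd.1 (H19.pPrimeCore_coprime p).symm
  set f := QuotientGroup.mk' R with hf
  have hn : (H.map f).Normal := H92.EC.normal_of_core_eq_bot hp (hH.quotient_coprime R hR)
    (H19.pPrimeCore_quotient_pPrimeCore p)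
  set K := H ⊔ R with hKdef
  have hKc : K = (H.map f).comap f := by
    rw [Subgroup.comap_map_eq, hf, QuotientGroup.ker_mk']
  have hKn : K.Normal := hKc ▸ hn.comap f
  have hHK : H ≤ K := le_sup_left
  set M := Subgroup.normalClosure (H : Set G) with hMdef
  have hMK : M ≤ K := Subgroup.normalClosure_le_normal hHK
  have hHM : H ≤ M := Subgroup.le_normalClosure
  have hconjR : ∀ g : G, ∃ h ∈ H, ∃ r ∈ R, ∀ x ∈ H, g * x * g⁻¹ ∈ H92.EC.conjH (h * r) H := by
    intro g
    obtain ⟨Q, hQ⟩ := hH.exists_kernel g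
    obtain ⟨q, hq, m, hm, e⟩ := hQ.exists_decomp hH
    have hT : H ⊔ H92.EC.conjH g H ≤ K := sup_le hHK fun y hy => by
      obtain ⟨x, hx, rfl⟩ := H92.EC.mem_conjH.1 hy
      exact hKn.conj_mem x (hHK hx) g
    obtain ⟨h, hh, r, hr, e'⟩ := Subgroup.mem_sup_of_normal_right.1 (hT (hQ.le hq))
    refine ⟨h, hh, r, hr, fun x hx => H92.EC.mem_conjH.2
      ⟨m * x * m⁻¹, H92.EC.conj_mem_of_mem_NH hm hx, ?_⟩⟩
    rw [e', e]; group
  constructor
  · refine le_antisymm (fun x hx => ?_) (le_inf hHM Subgroup.le_normalizer)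
    obtain ⟨hxM, hxN⟩ := hx
    obtain ⟨h, hh, r, hr, rfl⟩ := Subgroup.mem_sup_of_normal_right.1 (hMK hxM)
    have hrM : r ∈ M := by
      have := M.mul_mem (M.inv_mem (hHM hh)) hxM
      simpa using this
    have hrN : r ∈ H92.EC.NH H := by
      have := (H92.EC.NH H).mul_mem ((H92.EC.NH H).inv_mem (H92.EC.le_NH H hh)) hxN
      simpa using this
    suffices hr1 : r = 1 by rw [hr1, mul_one]; exact hh
    have hsup : H.subgroupOf K ⊔ R.subgroupOf K = ⊤ := by
      rw [← Subgroup.subgroupOf_sup hHK le_sup_right, Subgroup.subgroupOf_self]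
    have hR' : ¬ p ∣ Nat.card (R.subgroupOf K) := fun h => hR (h.trans (by
      rw [← Subgroup.card_map_of_injective K.subtype_injective, Subgroup.subgroupOf_map_subtype]
      exact Subgroup.card_dvd_of_le inf_le_left))
    have hle : M ≤ (Subgroup.normalClosure (H.subgroupOf K : Set K)).map K.subtype := by
      rw [hMdef, Subgroup.normalClosure, Subgroup.closure_le]
      intro y hy
      obtain ⟨b, hb, hby⟩ := Group.mem_conjugatesOfSet_iff.1 hy
      obtain ⟨g, rfl⟩ := isConj_iff.1 hby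
      obtain ⟨h', hh', r', hr', hconj⟩ := hconjR g
      obtain ⟨z, hz, ez⟩ := H92.EC.mem_conjH.1 (hconj b hb)
      refine ⟨⟨h' * r', K.mul_mem (hHK hh') (Subgroup.mem_sup_right hr')⟩ * ⟨z, hHK hz⟩ *
        ⟨h' * r', K.mul_mem (hHK hh') (Subgroup.mem_sup_right hr')⟩⁻¹,
        Subgroup.normalClosure_normal.conj_mem _ (Subgroup.le_normalClosure (show (⟨z, hHK hz⟩ : K) ∈ H.subgroupOf K from hz)) _, ?_⟩
      exact ez
    obtain ⟨y, hy, rfl⟩ := hle hrM
    exact congrArg Subtype.val (H92.EC.fixed_eq_bot hp (hH.subgroupOf hHK) hR' hsup y hy hr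
      (Subgroup.mem_normalizer_iff.2 fun w => Subgroup.mem_normalizer_iff.1 hrN (w : G)))
  · refine top_le_iff.1 fun g _ => ?_
    obtain ⟨h, hh, r, hr, hconj⟩ := hconjR g
    have hm : (h * r)⁻¹ * g ∈ H92.EC.NH H := hH.mem_NH_of_conjH_le fun y hy => by
      obtain ⟨x, hx, rfl⟩ := H92.EC.mem_conjH.1 hy
      obtain ⟨z, hz, ez⟩ := H92.EC.mem_conjH.1 (hconj x hx)
      refine H92.EC.le_NH H ?_
      have e : (h * r)⁻¹ * g * x * ((h * r)⁻¹ * g)⁻¹ = z := by
        calc (h * r)⁻¹ * g * x * ((h * r)⁻¹ * g)⁻¹ = (h * r)⁻¹ * (g * x * g⁻¹) * (h * r) := by group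
          _ = (h * r)⁻¹ * (h * r * z * (h * r)⁻¹) * (h * r) := by rw [ez]
          _ = z := by group
      rw [e]
      exact hz
    have := Subgroup.mul_mem_sup (H92.EC.le_NH H hh) hr
    have h2 := (Subgroup.normalizer (H : Set G) ⊔ R).mul_mem this
      (Subgroup.mem_sup_left hm)
    rwa [mul_inv_cancel_left] at h2

end Cfsg.Agent.S3016
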