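import Cfsg.Statements.S3019
import Cfsg.Agent.H92.Pairs.Reduce

set_option autoImplicit false
open Cfsg

namespace Cfsg.Agent.S3019

/-- Let G be a finite group, p a prime and P a Sylow p-subgroup of G. Then G is p-solvable if and only if, for every g ∈ G, the subgroup generated by P and g P g⁻¹ is p-solvable. -/
theorem result {G : Type*} [Group G] [Finite G] {p : ℕ} [Fact p.Prime] (P : Sylow p G) : Cfsg.IsPSolvable p G ↔ ∀ g : G, Cfsg.IsPSolvable p ↥((P : Subgroup G) ⊔ (P : Subgroup G).map (MulAut.conj g).toMonoidHom) := by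
  refine ⟨fun h g => H35.isPSolvable_subgroup h _, fun h => ?_⟩
  refine H92.Pairs.isPSolvable_of_pairs (Nat.card G) G rfl fun S T => ?_
  obtain ⟨a, rfl⟩ := MulAction.exists_smul_eq G P S
  obtain ⟨b, rfl⟩ := MulAction.exists_smul_eq G P T
  have e : ((P : Subgroup G) ⊔ (P : Subgroup G).map (MulAut.conj (a⁻¹ * b)).toMonoidHom).map
      (MulAut.conj a).toMonoidHom = ((a • P : Sylow p G) : Subgroup G) ⊔ ((b • P : Sylow p G) : Subgroup G) := by
    rw [Subgroup.map_sup, Subgroup.map_map]
    congr 1
    show _ = (P : Subgroup G).map (MulAut.conj b).toMonoidHom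
    congr 1
    ext x
    simp only [MonoidHom.comp_apply, MulEquiv.coe_toMonoidHom, MulAut.conj_apply]
    group
  exact H92.Pairs.isPSolvable_of_equiv
    ((Subgroup.equivMapOfInjective _ _ (MulAut.conj a).injective).trans (MulEquiv.subgroupCongr e))
    (h (a⁻¹ * b))

end Cfsg.Agent.S3019
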