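import Cfsg.Statements.S3021
import Cfsg.Agent.H75.Basic
import Mathlib

set_option autoImplicit false
set_option linter.all false
open Cfsg

namespace Cfsg.Agent.S3021
theorem conj_mem_of_map_le {G : Type*} [Group G] [Finite G] {H : Subgroup G}
    (hcl : Cfsg.IsExtremelyClosed H) (g : G)
    (h : H.map (MulAut.conj g).toMonoidHom ≤ Subgroup.normalizer (H : Set G)) :
    g ∈ Subgroup.normalizer (H : Set G) := by
  have h1 : H.map (MulAut.conj g).toMonoidHom ≤ H := fun x hx =>
    (SetLike.ext_iff.mp (hcl g) x).mp ⟨Subgroup.mem_sup_right hx, h hx⟩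
  have h2 : H.map (MulAut.conj g).toMonoidHom = H := Subgroup.eq_of_le_of_card_ge h1
    (le_of_eq (Subgroup.card_map_of_injective (f := (MulAut.conj g).toMonoidHom)
      (MulAut.conj g).injective).symm)
  refine Subgroup.mem_normalizer_iff.mpr fun x => ⟨fun hx => h1 ⟨x, hx, rfl⟩, fun hx => ?_⟩
  have : g * x * g⁻¹ ∈ H.map (MulAut.conj g).toMonoidHom := h2.symm ▸ hx
  obtain ⟨y, hy, e⟩ := this
  have : y = x := (MulAut.conj g).injective e
  exact this ▸ hy


/-- Let G be a finite group, p a prime and H a p-subgroup of G that is extremely closed (for every g, the subgroup generated by H and g H g⁻¹ meets N_G(H) exactly in H). Then every p-subgroup Q of G containing H has N_G(Q) ≤ N_G(H); in particular every Sylow p-subgroup P of G containing H normalizes H, and H is strongly closed in P with respect to G. -/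
theorem result {G : Type*} [Group G] [Finite G] {p : ℕ} [Fact p.Prime] (H : Subgroup G) (hHp : IsPGroup p H) (hcl : Cfsg.IsExtremelyClosed H) : (∀ Q : Subgroup G, IsPGroup p Q → H ≤ Q → Subgroup.normalizer (Q : Set G) ≤ Subgroup.normalizer (H : Set G)) ∧ ∀ P : Sylow p G, H ≤ (P : Subgroup G) → (P : Subgroup G) ≤ Subgroup.normalizer (H : Set G) ∧ Cfsg.IsStronglyClosed H (P : Subgroup G) := by
  have key : ∀ Q : Subgroup G, IsPGroup p Q → H ≤ Q → Q ≤ Subgroup.normalizer (H : Set G) := by
    intro Q hQ hHQ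
    haveI : Group.IsNilpotent Q := hQ.isNilpotent
    set D := (Subgroup.normalizer (H : Set G)).subgroupOf Q with hD
    rw [← Subgroup.subgroupOf_eq_top, ← hD]
    by_contra hne
    refine (Group.normalizerCondition_of_isNilpotent D (lt_top_iff_ne_top.mpr hne)).not_ge fun x hx => ?_
    refine conj_mem_of_map_le hcl _ ?_
    rintro _ ⟨y, hy, rfl⟩
    exact ((Subgroup.mem_normalizer_iff.mp hx) ⟨y, hHQ hy⟩).mp (Subgroup.le_normalizer hy)
  refine ⟨fun Q hQ hHQ g hg => conj_mem_of_map_le hcl g ?_, fun P hHP => ⟨key P P.2 hHP, hHP, ?_⟩⟩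
  · rintro _ ⟨y, hy, rfl⟩
    exact key Q hQ hHQ (((Subgroup.mem_normalizer_iff.mp hg) y).mp (hHQ hy))
  · intro x hx g hgx
    exact (SetLike.ext_iff.mp (hcl g) _).mp ⟨Subgroup.mem_sup_right ⟨x, hx, rfl⟩, key P P.2 hHP hgx⟩

end Cfsg.Agent.S3021
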