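import Cfsg.Statements.S3022
import Cfsg.Agent.H35.OddPush.Main

set_option autoImplicit false
open Cfsg

namespace Cfsg.Agent.S3022

/-- Let G be a finite group all of whose non-abelian simple sections are known simple groups, such that a Sylow 2-subgroup of G lies in exactly one maximal subgroup of G and C_G(O₂(G)) ≤ O₂(G). Let S be a Sylow 2-subgroup of G and A a group of automorphisms of S of odd order. Then some nontrivial A-invariant subgroup of S is normal in G. -/
theorem result {G : Type*} [Group G] [Finite G] (hK : Cfsg.IsKGroup G) (hirr : ∀ S : Sylow 2 G, ∃! M : Subgroup G, IsCoatom M ∧ (S : Subgroup G) ≤ M) (hchar : Subgroup.centralizer (Cfsg.pCore 2 G : Set G) ≤ Cfsg.pCore 2 G) (S : Sylow 2 G) (A : Subgroup (MulAut ↥(S : Subgroup G))) (hA : Odd (Nat.card A)) : ∃ U : Subgroup G, U ≠ ⊥ ∧ U.Normal ∧ U ≤ (S : Subgroup G) ∧ ∀ a ∈ A, ∀ x : ↥(S : Subgroup G), (x : G) ∈ U → ((a x : ↥(S : Subgroup G)) : G) ∈ U :=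
  Cfsg.Agent.H35.OddPush.exists_invariant_normal hirr hchar S A hA

end Cfsg.Agent.S3022
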