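import Cfsg.Statements.S3023
import Cfsg.Agent.H72.CharP
import Cfsg.Agent.H74.CharP
import Cfsg.Agent.H73.CharPLocal
import Cfsg.Agent.H24.PGroupBasic
import Cfsg.Agent.S0542

set_option autoImplicit false
set_option linter.all false
open Cfsg

namespace Cfsg.Agent.S3023

open Subgroup
open scoped Pointwise


/-- Let p be a prime, G a finite group of parabolic characteristic p (every p-local subgroup containing a Sylow p-subgroup of G has characteristic p), S a Sylow p-subgroup of G and G₁ a subnormal subgroup of G. If the centre of S ∩ G₁ is nontrivial and contained in the centre of S, then G₁ has parabolic characteristic p. -/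
theorem result {G : Type*} [Group G] [Finite G] {p : ℕ} [Fact p.Prime] (hG : Cfsg.IsOfParabolicCharacteristic p G) (S : Sylow p G) (G₁ : Subgroup G) (hsn : G₁.IsSubnormal) (hne : ((S : Subgroup G) ⊓ G₁) ⊓ Subgroup.centralizer (((S : Subgroup G) ⊓ G₁ : Subgroup G) : Set G) ≠ ⊥) (hle : ((S : Subgroup G) ⊓ G₁) ⊓ Subgroup.centralizer (((S : Subgroup G) ⊓ G₁ : Subgroup G) : Set G) ≤ (S : Subgroup G) ⊓ Subgroup.centralizer ((S : Subgroup G) : Set G)) : Cfsg.IsOfParabolicCharacteristic p ↥G₁ := by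
  classical
  intro R hR hRne hpar
  obtain ⟨T, hTN⟩ := hpar
  set N1 := Subgroup.normalizer (R : Set G₁) with hN1
  -- a Sylow subgroup of `G` whose trace on `G₁` is `T`
  obtain ⟨T₀, hT₀⟩ := Cfsg.Agent.S0542.result p G₁ hsn S
  obtain ⟨g, hg⟩ := MulAction.exists_smul_eq G₁ T₀ T
  set S' := (g : G) • S with hS'
  have hTmem : ∀ t : G₁, t ∈ T ↔ (t : G) ∈ (S' : Subgroup G) := by
    intro t
    have h1 : t ∈ T ↔ g⁻¹ * t * g ∈ T₀ := by
      rw [← hg]
      show t ∈ ((g • T₀ : Sylow p G₁) : Subgroup G₁) ↔ _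
      rw [Sylow.coe_subgroup_smul, Subgroup.mem_pointwise_smul_iff_inv_smul_mem]
      simp [MulAut.smul_def]
      rfl
    have h2 : (t : G) ∈ (S' : Subgroup G) ↔ (g : G)⁻¹ * t * (g : G) ∈ (S : Subgroup G) := by
      rw [hS', Sylow.coe_subgroup_smul, Subgroup.mem_pointwise_smul_iff_inv_smul_mem]
      simp [MulAut.smul_def]
    rw [h1, h2]
    show g⁻¹ * t * g ∈ (T₀ : Subgroup G₁) ↔ _
    rw [hT₀, Subgroup.mem_subgroupOf]
    simp
  set Qg := Cfsg.pCoreOf p N1 with hQg
  have hQT : Qg ≤ (T : Subgroup G₁) := by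
    rintro _ ⟨y, hy, rfl⟩
    exact H19.pCore_le_sylow (T.subtype hTN) hy
  have hRQ : R ≤ Qg := H72.le_pCoreOf le_normalizer le_rfl hR
  -- a central element of `T` in the core
  haveI hQn : (Qg.subgroupOf (T : Subgroup G₁)).Normal :=
    normal_subgroupOf_of_le_normalizer (hTN.trans (H72.le_normalizer_pCoreOf p N1))
  have hne : Qg.subgroupOf (T : Subgroup G₁) ≠ ⊥ := by
    rw [Ne, subgroupOf_eq_bot, disjoint_iff, inf_of_le_left hQT]
    exact fun h => hRne (le_bot_iff.1 (h ▸ hRQ))
  obtain ⟨zT, hzT, hzne⟩ := (bot_or_exists_ne_one _).resolve_left (H24.inf_center_ne_bot T.isPGroup' hne)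
  obtain ⟨hzQ, hzc⟩ := mem_inf.1 hzT
  set z : G₁ := (zT : G₁) with hz
  have hzne' : (z : G) ≠ 1 := fun h => hzne (Subtype.ext (Subtype.ext h))
  have hzcomm : ∀ t : G₁, t ∈ T → t * z = z * t := fun t ht =>
    congrArg Subtype.val (mem_center_iff.1 hzc ⟨t, ht⟩)
  -- central in `S'`
  have hzS' : ∀ s ∈ (S' : Subgroup G), s * (z : G) = (z : G) * s := by
    intro s hs
    have hmem : (g : G)⁻¹ * (z : G) * g ∈
        ((S : Subgroup G) ⊓ G₁) ⊓ centralizer (((S : Subgroup G) ⊓ G₁ : Subgroup G) : Set G) := by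
      refine ⟨⟨?_, G₁.mul_mem (G₁.mul_mem (G₁.inv_mem g.2) (z : G₁).2) g.2⟩, mem_centralizer_iff.2 fun b hb => ?_⟩
      · have := (hTmem z).1 zT.2
        rw [hS', Sylow.coe_subgroup_smul, Subgroup.mem_pointwise_smul_iff_inv_smul_mem] at this
        show _ ∈ (S : Subgroup G)
        simpa [MulAut.smul_def] using this
      · have ht : g * ⟨b, hb.2⟩ * g⁻¹ ∈ T := by
          rw [hTmem]
          rw [hS', Sylow.coe_subgroup_smul, Subgroup.mem_pointwise_smul_iff_inv_smul_mem]
          have hb1 : b ∈ (S : Subgroup G) := hb.1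
          simpa [MulAut.smul_def, mul_assoc] using hb1
        have h := congrArg Subtype.val (hzcomm _ ht)
        simp only [Subgroup.coe_mul, InvMemClass.coe_inv] at h
        calc b * ((g : G)⁻¹ * z * g) = (g : G)⁻¹ * (((g : G) * b * (g : G)⁻¹) * z) * g := by group
          _ = (g : G)⁻¹ * (z * ((g : G) * b * (g : G)⁻¹)) * g := by rw [h]
          _ = (g : G)⁻¹ * z * g * b := by group
    have h := mem_centralizer_iff.1 (hle hmem).2
    rw [hS', Sylow.coe_subgroup_smul, Subgroup.mem_pointwise_smul_iff_inv_smul_mem] at hs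
    have h2 := h ((g : G)⁻¹ * s * g) (by show _ ∈ (S : Subgroup G); simpa [MulAut.smul_def] using hs)
    calc s * (z : G) = (g : G) * (((g : G)⁻¹ * s * g) * ((g : G)⁻¹ * z * g)) * (g : G)⁻¹ := by group
      _ = (g : G) * (((g : G)⁻¹ * z * g) * ((g : G)⁻¹ * s * g)) * (g : G)⁻¹ := by rw [h2]
      _ = z * s := by group
  -- the local subgroup of `G`
  set R' := zpowers (z : G) with hR'
  have hzS : (z : G) ∈ (S' : Subgroup G) := (hTmem z).1 zT.2
  have hloc := hG R' (S'.isPGroup'.to_le (zpowers_le.2 hzS)) (by rw [hR', Ne, zpowers_eq_bot]; exact hzne')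
    ⟨S', fun s hs => by
      refine centralizer_le_normalizer _ (mem_centralizer_iff.2 ?_)
      rintro _ ⟨i, rfl⟩
      exact ((Commute.zpow_right (hzS' s hs : Commute s (z : G)) i).eq).symm⟩
  set NG := Subgroup.normalizer (R' : Set G) with hNG
  set CG := centralizer ({(z : G)} : Set G) with hCG
  have hCN : CG ≤ NG := by
    intro c hc
    refine centralizer_le_normalizer _ (mem_centralizer_iff.2 ?_)
    rintro _ ⟨i, rfl⟩
    exact ((Commute.zpow_right (mem_centralizer_singleton_iff.1 hc : Commute c (z : G)) i).eq).symm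
  have hCn : (CG.subgroupOf NG).Normal := by
    refine normal_subgroupOf_of_le_normalizer ?_
    have e : CG = centralizer (R' : Set G) := by
      rw [hR', hCG, zpowers_eq_closure, centralizer_closure]
    rw [e]
    exact H74.normalizer_le_normalizer_centralizer
  have hsub : (G₁.subgroupOf NG ⊓ CG.subgroupOf NG).IsSubnormal :=
    (hsn.subgroupOf).inf hCn.isSubnormal
  have hcharK := H72.isCharP_iff.1 (H72.isCharP_of_isSubnormal hloc hsub)
  set C1 := centralizer ({z} : Set G₁) with hC1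
  let e : ↥(G₁.subgroupOf NG ⊓ CG.subgroupOf NG) ≃* C1 :=
    { toFun := fun x => ⟨⟨((x : NG) : G), x.2.1⟩,
        mem_centralizer_singleton_iff.2 (Subtype.ext (mem_centralizer_singleton_iff.1 x.2.2))⟩
      invFun := fun c => ⟨⟨((c : G₁) : G),
          hCN (mem_centralizer_singleton_iff.2 (congrArg Subtype.val (mem_centralizer_singleton_iff.1 c.2)))⟩,
        (c : G₁).2, mem_centralizer_singleton_iff.2 (congrArg Subtype.val (mem_centralizer_singleton_iff.1 c.2))⟩
      left_inv := fun x => rfl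
      right_inv := fun c => rfl
      map_mul' := fun x y => rfl }
  have hC1char := H74.charP_congr e hcharK
  have hRC : R ≤ C1 := fun r hr => mem_centralizer_singleton_iff.2 (hzcomm r (hQT (hRQ hr)))
  set B := R.subgroupOf C1 with hB
  have hBn : normalizer (B : Set C1) = N1.subgroupOf C1 := (subgroupOf_normalizer_eq hRC).symm
  have hM := H74.charP_normalizer hC1char (hR.comap_of_injective C1.subtype C1.subtype_injective : IsPGroup p B)
  rw [show R.comap C1.subtype = B from rfl, hBn] at hM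
  rw [← H74.charP_subgroup_iff] at hM
  have hMe : (N1.subgroupOf C1).map C1.subtype = N1 ⊓ C1 := subgroupOf_map_subtype _ _
  have hM' := H74.charP_congr ((N1.subgroupOf C1).equivMapOfInjective C1.subtype C1.subtype_injective) hM
  rw [hMe] at hM'
  have hMchar : H72.IsCharP p (N1 ⊓ C1) := H72.isCharP_iff.2 hM'
  set X := N1 ⊓ centralizer (Qg : Set G₁) with hX
  have hXM : X ≤ N1 ⊓ C1 := inf_le_inf_left _ fun y hy =>
    mem_centralizer_singleton_iff.2 (mem_centralizer_iff.1 hy z hzQ).symm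
  have hXn : N1 ≤ normalizer (X : Set G₁) := H72.le_normalizer_inf_centralizer_pCoreOf N1
  have hXchar := hMchar.of_normal hXM (inf_le_left.trans hXn)
  have hOX : Cfsg.pCoreOf p X ≤ Qg :=
    H72.le_pCoreOf ((H72.pCoreOf_le p X).trans inf_le_left)
      (hXn.trans (H73.normalizer_le_normalizer_pCoreOf X)) (H72.pCoreOf_isPGroup p X)
  exact H72.isCharP_iff.1 fun y hy hyc => hOX (hXchar y ⟨hy, hyc⟩
    (centralizer_le (SetLike.coe_subset_coe.2 hOX) hyc))

end Cfsg.Agent.S3023
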