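import Cfsg.Statements.S3025
import Cfsg.Agent.H61.Basic
import Cfsg.Agent.H21.UniqueSubgroup

set_option autoImplicit false
open Cfsg Cfsg.Agent Cfsg.Agent.H61

namespace Cfsg.Agent.S3025

/-- Let F be a finite group and H a nontrivial subgroup of F that is contained in every nontrivial subgroup of F which H normalizes. Then F has a nontrivial normal subgroup N contained in every nontrivial normal subgroup of F (a unique minimal normal subgroup), N is simple, and one of the following holds: C_F(N) = 1; or H = N has prime order p, C_F(N) is cyclic of order a power of p, and F/C_F(N) is cyclic of order dividing p − 1; or H = N has order 2, N is central in F, and F is a generalized quaternion group. -/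
theorem result {F : Type*} [Group F] [Finite F] (H : Subgroup F) (hH : H ≠ ⊥)
    (hmin : ∀ R : Subgroup F, R ≠ ⊥ → H ≤ Subgroup.normalizer (R : Set F) → H ≤ R) :
    ∃ N : Subgroup F, N.Normal ∧ N ≠ ⊥ ∧ (∀ M : Subgroup F, M.Normal → M ≠ ⊥ → N ≤ M) ∧ IsSimpleGroup ↥N ∧
      (Subgroup.centralizer (N : Set F) = ⊥ ∨
       (H = N ∧ (Nat.card N).Prime ∧ IsCyclic ↥(Subgroup.centralizer (N : Set F)) ∧
          (∃ k : ℕ, 1 ≤ k ∧ Nat.card ↥(Subgroup.centralizer (N : Set F)) = Nat.card N ^ k) ∧
          (∃ g : F, Subgroup.centralizer (N : Set F) ⊔ Subgroup.zpowers g = ⊤) ∧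
          (Subgroup.centralizer (N : Set F)).index ∣ Nat.card N - 1) ∨
       (H = N ∧ Nat.card N = 2 ∧ Subgroup.centralizer (N : Set F) = ⊤ ∧
          ∃ k : ℕ, 1 ≤ k ∧ Nonempty (F ≃* QuaternionGroup (2 ^ k)))) := by
  classical
  set N := Subgroup.normalClosure (H : Set F) with hN
  have hHN : H ≤ N := fun h hh => Subgroup.subset_normalClosure hh
  have hN0 : N ≠ ⊥ := fun e => hH (le_bot_iff.1 (e ▸ hHN))
  have hmin' : ∀ M : Subgroup F, M.Normal → M ≠ ⊥ → N ≤ M := fun M hM hM0 =>
    Subgroup.normalClosure_le_normal (hmin M hM0 (by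
      rw [Subgroup.normalizer_eq_top_iff.2 hM]; exact le_top))
  have hNn : N.Normal := Subgroup.normalClosure_normal
  have : Nontrivial N := (Subgroup.nontrivial_iff_ne_bot N).2 hN0
  have hsimple : IsSimpleGroup N := by
    refine ⟨fun R hR => ?_⟩
    by_contra hcon
    push Not at hcon
    -- the intersection of the nontrivial normal subgroups of `N` is normal in `F` and contains `H`
    have hchar : ∀ R : Subgroup N, R.Normal → R ≠ ⊥ → H.subgroupOf N ≤ R := by
      intro R hR hR0 h hh
      have h1 := hmin (R.map N.subtype)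
        (fun e => hR0 ((Subgroup.map_eq_bot_iff_of_injective _ N.subtype_injective).1 e)) ?_
        (Subgroup.mem_subgroupOf.1 hh)
      · exact (Subgroup.mem_map_iff_mem N.subtype_injective).1 h1
      · intro x hx
        refine mem_normalizer_of_cj (cj_eq_of_le ?_)
        rintro _ ⟨_, ⟨r, hr, rfl⟩, rfl⟩
        exact ⟨⟨x, hHN hx⟩ * r * ⟨x, hHN hx⟩⁻¹, hR.conj_mem r hr _, rfl⟩
    set N0 : Subgroup N := ⨅ R : {R : Subgroup N // R.Normal ∧ R ≠ ⊥}, (R : Subgroup N) with hN0'
    have hle : N ≤ N0.map N.subtype := by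
      have hn : (N0.map N.subtype).Normal := by
        refine ⟨fun z hz x => ?_⟩
        obtain ⟨r, hr, rfl⟩ := hz
        refine ⟨MulAut.conjNormal x r, ?_, MulAut.conjNormal_apply x r⟩
        rw [SetLike.mem_coe, hN0', Subgroup.mem_iInf] at hr ⊢
        rintro ⟨S, hS, hS0⟩
        obtain ⟨h1, h2⟩ : (S.comap (MulAut.conjNormal (H := N) x).toMonoidHom).Normal ∧
            S.comap (MulAut.conjNormal (H := N) x).toMonoidHom ≠ ⊥ := by
          refine ⟨hS.comap _, fun e => hS0 ?_⟩
          rw [← Subgroup.map_comap_eq_self_of_surjective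
            (f := (MulAut.conjNormal (H := N) x).toMonoidHom) (MulEquiv.surjective _) S, e, Subgroup.map_bot]
        exact hr ⟨_, h1, h2⟩
      refine hmin' _ hn fun e => hH ?_
      rw [eq_bot_iff]
      intro h hh
      rw [← e]
      refine ⟨⟨h, hHN hh⟩, ?_, rfl⟩
      rw [SetLike.mem_coe, hN0', Subgroup.mem_iInf]
      exact fun S => hchar _ S.2.1 S.2.2 (Subgroup.mem_subgroupOf.2 hh)
    refine hcon.2 (top_le_iff.1 fun z _ => ?_)
    obtain ⟨r, hr, e⟩ := hle z.2
    rw [N.subtype_injective e, SetLike.mem_coe, hN0', Subgroup.mem_iInf] at hr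
    exact hr ⟨R, hR, hcon.1⟩
  refine ⟨N, hNn, hN0, hmin', hsimple, ?_⟩
  set C := Subgroup.centralizer (N : Set F) with hC
  refine or_iff_not_imp_left.2 fun hC0 => ?_
  have hNC : N ≤ C := hmin' C inferInstance hC0
  letI : CommGroup N := { (inferInstance : Group N) with
    mul_comm := fun a b => Subtype.ext (Subgroup.mem_centralizer_iff.1 (hNC b.2) a a.2) }
  have hp : (Nat.card N).Prime := IsSimpleGroup.prime_card
  have : Fact (Nat.card N).Prime := ⟨hp⟩
  have hHeq : H = N := by
    refine Subgroup.eq_of_le_of_card_ge hHN (le_of_eq ?_)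
    rcases (Nat.dvd_prime hp).1 (Subgroup.card_dvd_of_le hHN) with h | h
    · exact absurd (Subgroup.eq_bot_of_card_eq H h) hH
    · exact h.symm
  have hsub : ∀ R : Subgroup F, R ≤ C → R ≠ ⊥ → N ≤ R := fun R hR hR0 => hHeq ▸ hmin R hR0 (by
    refine le_trans ?_ (Subgroup.centralizer_le_normalizer _)
    exact (hHeq ▸ le_refl N : H ≤ N).trans (Subgroup.le_centralizer_iff.1 hR))
  have hCp : IsPGroup (Nat.card N) C := by
    rw [IsPGroup.iff_card]
    refine ⟨_, Nat.eq_prime_pow_of_unique_prime_dvd Nat.card_pos.ne' fun {q} hq hqd => ?_⟩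
    have : Fact q.Prime := ⟨hq⟩
    obtain ⟨x, hx⟩ := exists_prime_orderOf_dvd_card' q hqd
    have hne : Subgroup.zpowers (x : F) ≠ ⊥ := by
      rw [Ne, Subgroup.zpowers_eq_bot, ← orderOf_eq_one_iff, Subgroup.orderOf_coe, hx]
      exact hq.ne_one
    have := Subgroup.card_dvd_of_le (hsub _ (Subgroup.zpowers_le.2 x.2) hne)
    rw [Nat.card_zpowers, Subgroup.orderOf_coe, hx] at this
    exact ((Nat.prime_dvd_prime_iff_eq hp hq).1 this).symm
  have huniq : ∀ R S : Subgroup C, Nat.card R = Nat.card N → Nat.card S = Nat.card N → R = S := by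
    have key : ∀ R : Subgroup C, Nat.card R = Nat.card N → R.map C.subtype = N := fun R hR => by
      have hc : Nat.card (R.map C.subtype) = Nat.card N := by
        rw [Subgroup.card_map_of_injective C.subtype_injective, hR]
      refine (Subgroup.eq_of_le_of_card_ge (hsub _ (Subgroup.map_subtype_le R) fun e => ?_) hc.le).symm
      rw [e, Subgroup.card_bot] at hc
      exact hp.ne_one hc.symm
    exact fun R S hR hS => Subgroup.map_injective C.subtype_injective ((key R hR).trans (key S hS).symm)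
  have hcardC : ∃ k : ℕ, 1 ≤ k ∧ Nat.card C = Nat.card N ^ k := by
    obtain ⟨k, hk⟩ := IsPGroup.iff_card.1 hCp
    refine ⟨k, Nat.one_le_iff_ne_zero.2 fun e => hC0 ?_, hk⟩
    rw [e, pow_zero] at hk
    exact Subgroup.eq_bot_of_card_eq C hk
  -- the quotient by the centralizer
  let f : F →* MulAut N := MulAut.conjNormal
  have hker : f.ker = C := by
    ext x
    rw [MonoidHom.mem_ker, hC, Subgroup.mem_centralizer_iff]
    refine ⟨fun h a ha => ?_, fun h => MulEquiv.ext fun a => Subtype.ext ?_⟩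
    · have h1 := congrArg (fun φ : MulAut N => ((φ ⟨a, ha⟩ : N) : F)) h
      simp only [f, MulAut.conjNormal_apply, MulAut.one_apply] at h1
      exact (mul_inv_eq_iff_eq_mul.1 h1).symm
    · simp only [f, MulAut.conjNormal_apply, MulAut.one_apply]
      rw [← h _ a.2, mul_inv_cancel_right]
  have hcycN : IsCyclic N := isCyclic_of_prime_card rfl
  let ψ : F →* (ZMod (Nat.card N))ˣ := (IsCyclic.mulAutMulEquiv N).toMonoidHom.comp f
  have hkψ : ψ.ker = C := by
    rw [← hker]; ext x; simp [ψ, MonoidHom.mem_ker]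
  have hidx : C.index ∣ Nat.card N - 1 := by
    rw [← hkψ, Subgroup.index_ker]
    have := Subgroup.card_subgroup_dvd_card ψ.range
    rwa [Nat.card_eq_fintype_card (α := (ZMod (Nat.card N))ˣ), ZMod.card_units] at this
  have hgen : ∃ g : F, C ⊔ Subgroup.zpowers g = ⊤ := by
    obtain ⟨y, hy⟩ := IsCyclic.exists_generator (α := ψ.range)
    obtain ⟨g, hg⟩ := y.2
    refine ⟨g, top_le_iff.1 fun x _ => ?_⟩
    obtain ⟨i, hi⟩ := Subgroup.mem_zpowers_iff.1 (hy ⟨ψ x, x, rfl⟩)
    have : x * (g ^ i)⁻¹ ∈ C := by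
      rw [← hkψ, MonoidHom.mem_ker, map_mul, map_inv, map_zpow, hg, mul_inv_eq_one]
      exact (congrArg Subtype.val hi).symm
    have := Subgroup.mul_mem_sup this (Subgroup.zpow_mem_zpowers g i)
    rwa [inv_mul_cancel_right] at this
  rcases Cfsg.Agent.H21.cyclic_or_quaternion (Nat.card N) hCp huniq with hc | ⟨h2, n, ⟨e⟩⟩
  · exact Or.inl ⟨hHeq, hp, hc, hcardC, hgen, hidx⟩
  by_cases hc : IsCyclic C
  · exact Or.inl ⟨hHeq, hp, hc, hcardC, hgen, hidx⟩
  have htop : C = ⊤ := Subgroup.index_eq_one.1 (Nat.dvd_one.1 (by rw [h2] at hidx; exact hidx))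
  refine Or.inr ⟨hHeq, h2, htop, n, Nat.one_le_iff_ne_zero.2 fun e0 => hc ?_, ⟨?_⟩⟩
  · subst e0
    have : IsCyclic (QuaternionGroup (2 ^ 0)) := isCyclic_of_orderOf_eq_card (QuaternionGroup.xa 0) (by
      rw [QuaternionGroup.orderOf_xa, Nat.card_eq_fintype_card, QuaternionGroup.card]; norm_num)
    exact isCyclic_of_surjective e.symm.toMonoidHom e.symm.surjective
  · exact (Subgroup.topEquiv.symm.trans (MulEquiv.subgroupCongr htop.symm)).trans e

end Cfsg.Agent.S3025
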