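import Cfsg.Statements.S3027
import Cfsg.Agent.H75.Basic
import Mathlib

set_option autoImplicit false
set_option linter.all false
open Cfsg

namespace Cfsg.Agent.S3027
universe v

/-- The meet of all normal supplements of `D`, when `G ⧸ D` is perfect, is a normal supplement. -/
theorem exists_least_normal {G : Type v} [Group G] [Finite G] (D : Subgroup G) [D.Normal]
    (hperf : ⁅(⊤ : Subgroup G), (⊤ : Subgroup G)⁆ ⊔ D = ⊤) :
    ∃ B : Subgroup G, B.Normal ∧ B ⊔ D = ⊤ ∧ ∀ B' : Subgroup G, B'.Normal → B' ⊔ D = ⊤ → B ≤ B' := by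
  obtain ⟨B, -, hB⟩ := Finite.exists_le_minimal (p := fun B : Subgroup G => B.Normal ∧ B ⊔ D = ⊤)
    (a := ⊤) ⟨inferInstance, top_sup_eq D⟩
  refine ⟨B, hB.1.1, hB.1.2, fun B' hn hsup => ?_⟩
  haveI := hB.1.1
  haveI := hn
  have key : B ⊓ B' ⊔ D = ⊤ := by
    rw [eq_top_iff, ← hperf, sup_le_iff]
    refine ⟨?_, le_sup_right⟩
    have h1 : (⊤ : Subgroup (G ⧸ D)) = B.map (QuotientGroup.mk' D) := by
      rw [← Subgroup.map_top_of_surjective _ (QuotientGroup.mk'_surjective D), ← hB.1.2,
        Subgroup.map_sup, QuotientGroup.map_mk'_self, sup_bot_eq]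
    have h2 : (⊤ : Subgroup (G ⧸ D)) = B'.map (QuotientGroup.mk' D) := by
      rw [← Subgroup.map_top_of_surjective _ (QuotientGroup.mk'_surjective D), ← hsup,
        Subgroup.map_sup, QuotientGroup.map_mk'_self, sup_bot_eq]
    calc ⁅(⊤ : Subgroup G), (⊤ : Subgroup G)⁆
        ≤ (⁅(⊤ : Subgroup G), (⊤ : Subgroup G)⁆.map (QuotientGroup.mk' D)).comap (QuotientGroup.mk' D) :=
          Subgroup.le_comap_map _ _
      _ = (⁅B, B'⁆.map (QuotientGroup.mk' D)).comap (QuotientGroup.mk' D) := by
          rw [Subgroup.map_commutator, Subgroup.map_commutator, ← h1, ← h2,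
            Subgroup.map_top_of_surjective _ (QuotientGroup.mk'_surjective D)]
      _ = ⁅B, B'⁆ ⊔ D := by rw [Subgroup.comap_map_eq, QuotientGroup.ker_mk']
      _ ≤ B ⊓ B' ⊔ D := sup_le_sup_right (Subgroup.commutator_le_inf B B') _
  exact (hB.2 ⟨inferInstance, key⟩ inf_le_left).trans inf_le_right

/-- Every subnormal supplement contains the least normal one; induction on the group order. -/
theorem least_subnormal (n : ℕ) : ∀ (G : Type v) [Group G] [Finite G], Nat.card G ≤ n →
    ∀ (D B₀ B' : Subgroup G) [D.Normal], ⁅(⊤ : Subgroup G), (⊤ : Subgroup G)⁆ ⊔ D = ⊤ →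
      (∀ C : Subgroup G, C.Normal → C ⊔ D = ⊤ → B₀ ≤ C) → B'.IsSubnormal → B' ⊔ D = ⊤ → B₀ ≤ B' := by
  induction n with
  | zero => intro G _ _ h; exact absurd (Nat.card_pos (α := G)) (by omega)
  | succ n ih =>
    intro G _ _ hn D B₀ B' _ hperf hB₀ hsn hsup
    rcases hsn.lt_normal with rfl | ⟨K, hKn, hBK, hKt⟩
    · exact le_top
    haveI := hKn
    have hKD : K ⊔ D = ⊤ := top_le_iff.mp (hsup ▸ sup_le_sup_right hBK D)
    have hcard : Nat.card K ≤ n := by
      have : Nat.card K < Nat.card G := by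
        refine lt_of_le_of_ne (Subgroup.card_le_card_group K) fun h => hKt.ne (Subgroup.eq_top_of_card_eq K h)
      omega
    set D₁ := D.subgroupOf K with hD₁
    haveI : D₁.Normal := Subgroup.normal_subgroupOf
    let π : K →* G ⧸ D := (QuotientGroup.mk' D).comp K.subtype
    have hπ : Function.Surjective π := by
      rw [← MonoidHom.range_eq_top]
      simp only [π, MonoidHom.range_comp, Subgroup.range_subtype]
      rw [← Subgroup.map_top_of_surjective _ (QuotientGroup.mk'_surjective D), ← hKD, Subgroup.map_sup,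
        QuotientGroup.map_mk'_self, sup_bot_eq]
    have hker : π.ker = D₁ := by
      ext x; simp [π, D₁, MonoidHom.mem_ker, Subgroup.mem_subgroupOf]
    have htr : ∀ C : Subgroup K, C.map π = ⊤ ↔ C ⊔ D₁ = ⊤ := fun C => by
      constructor
      · intro h; rw [← hker, ← Subgroup.comap_map_eq, h, Subgroup.comap_top]
      · intro h
        rw [← Subgroup.map_top_of_surjective π hπ, ← h, Subgroup.map_sup, ← hker]
        simp [Subgroup.map_eq_bot_iff]
    have hperf₁ : ⁅(⊤ : Subgroup K), (⊤ : Subgroup K)⁆ ⊔ D₁ = ⊤ := by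
      rw [← htr, Subgroup.map_commutator, Subgroup.map_top_of_surjective π hπ]
      rw [← Subgroup.map_top_of_surjective _ (QuotientGroup.mk'_surjective D), ← Subgroup.map_commutator]
      conv_rhs => rw [← hperf, Subgroup.map_sup, QuotientGroup.map_mk'_self, sup_bot_eq]
    obtain ⟨C, hCn, hCD, hC⟩ := exists_least_normal D₁ hperf₁
    have hB'₁ : (B'.subgroupOf K).map π = ⊤ := by
      simp only [π, ← Subgroup.map_map, Subgroup.subgroupOf_map_subtype, inf_eq_left.mpr hBK]
      rw [← Subgroup.map_top_of_surjective _ (QuotientGroup.mk'_surjective D), ← hsup, Subgroup.map_sup,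
        QuotientGroup.map_mk'_self, sup_bot_eq]
    have hCB : C ≤ B'.subgroupOf K :=
      ih K hcard D₁ C (B'.subgroupOf K) hperf₁ hC hsn.subgroupOf ((htr _).mp hB'₁)
    have hCG : (C.map K.subtype).Normal := by
      refine ⟨fun x hx g => ?_⟩
      obtain ⟨c, hc, rfl⟩ := hx
      let φ : K ≃* K := MulAut.conjNormal g
      have hDφ : D₁.comap φ.toMonoidHom = D₁ := by
        ext y
        simp only [D₁, φ, Subgroup.mem_comap, Subgroup.mem_subgroupOf, MulEquiv.coe_toMonoidHom,
          MulAut.conjNormal_apply]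
        refine ⟨fun h => ?_, fun h => Subgroup.Normal.conj_mem inferInstance _ h g⟩
        simpa [mul_assoc] using Subgroup.Normal.conj_mem (inferInstance : D.Normal) _ h g⁻¹
      have h1 : C ≤ C.comap φ.toMonoidHom := by
        refine hC _ (hCn.comap _) ?_
        rw [← hDφ]
        exact (Subgroup.comap_sup_eq φ.toMonoidHom C D₁ φ.surjective).trans (by rw [hCD]; exact Subgroup.comap_top _)
      exact ⟨φ c, h1 hc, by simp [φ]⟩
    have hCD' : C.map K.subtype ⊔ D = ⊤ := by
      have h := (htr C).mpr hCD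
      rw [show π = (QuotientGroup.mk' D).comp K.subtype from rfl, ← Subgroup.map_map] at h
      rw [← QuotientGroup.ker_mk' D, ← Subgroup.comap_map_eq, h, Subgroup.comap_top]
    refine (hB₀ _ hCG hCD').trans ?_
    rintro _ ⟨c, hc, rfl⟩
    exact hCB hc


/-- Let G be a finite group and D a normal subgroup of G such that G/D is perfect (that is, G = G′D). Then among the subnormal subgroups B of G with BD = G there is a least one, and it is normal in G. -/
theorem result {G : Type*} [Group G] [Finite G] (D : Subgroup G) [D.Normal] (hperf : ⁅(⊤ : Subgroup G), (⊤ : Subgroup G)⁆ ⊔ D = ⊤) :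
    ∃ B : Subgroup G, B.Normal ∧ B ⊔ D = ⊤ ∧ ∀ B' : Subgroup G, B'.IsSubnormal → B' ⊔ D = ⊤ → B ≤ B' := by
  obtain ⟨B, hn, hBD, hB⟩ := exists_least_normal D hperf
  exact ⟨B, hn, hBD, fun B' hsn hsup =>
    least_subnormal (Nat.card G) G le_rfl D B B' hperf hB hsn hsup⟩

end Cfsg.Agent.S3027
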