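import Cfsg.Statements.S3044
import Cfsg.Agent.H51.IsolatedPMin

set_option autoImplicit false
set_option linter.style.haveILetI false
open Cfsg

namespace Cfsg.Agent.S3044

/-- Let G be a finite group, p a prime, S a Sylow p-subgroup of G and P a p-minimal subgroup of G containing S (S is not normal in P and lies in exactly one maximal subgroup of P). Let L be the subgroup generated by N_G(S) and all p-minimal subgroups of G containing S other than P, and suppose P is isolated: O_p(L) is not contained in O_p(P). Put Y for the normal closure of O^p(P) in G. Then G = YL; P is again isolated in the subgroup YS (the subgroup L₀ generated by N_{YS}(S) and the p-minimal subgroups of YS containing S other than P has O_p(L₀) not contained in O_p(P)); and either Y = O^p(P), or p divides |Y/O_p(Y)|, Y/O_p(Y) is generated by its components (a central product of quasisimple groups), and S permutes these components transitively by conjugation.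 -/
theorem result {G : Type*} [Group G] [Finite G] {p : ℕ} [Fact p.Prime] (S : Sylow p G) (P : Subgroup G) (hSP : (S : Subgroup G) ≤ P) (hPmin : Cfsg.IsPMinimal p ↥P)
    (L Y : Subgroup G)
    (hL : L = Subgroup.normalizer ((S : Subgroup G) : Set G) ⊔ ⨆ P' : {P' : Subgroup G // (S : Subgroup G) ≤ P' ∧ Cfsg.IsPMinimal p ↥P' ∧ P' ≠ P}, (P' : Subgroup G))
    (hiso : ¬ (Cfsg.pCore p ↥L).map L.subtype ≤ (Cfsg.pCore p ↥P).map P.subtype)
    (hY : Y = Subgroup.normalClosure (((Cfsg.pResidual p ↥P).map P.subtype : Subgroup G) : Set G)) :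
    Y ⊔ L = ⊤ ∧
    ¬ (Cfsg.pCore p ↥((Subgroup.normalizer ((S : Subgroup G) : Set G) ⊓ (Y ⊔ (S : Subgroup G))) ⊔
          ⨆ P' : {P' : Subgroup G // (S : Subgroup G) ≤ P' ∧ P' ≤ Y ⊔ (S : Subgroup G) ∧ Cfsg.IsPMinimal p ↥P' ∧ P' ≠ P}, (P' : Subgroup G))).map
        (Subgroup.subtype _) ≤ (Cfsg.pCore p ↥P).map P.subtype ∧
    ((Cfsg.pResidual p ↥P).map P.subtype = Y ∨
     ∃ _ : (Cfsg.pCore p ↥Y).Normal,
       p ∣ Nat.card (↥Y ⧸ Cfsg.pCore p ↥Y) ∧ Cfsg.layer (↥Y ⧸ Cfsg.pCore p ↥Y) = ⊤ ∧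
       ∀ K₁ K₂ : Subgroup (↥Y ⧸ Cfsg.pCore p ↥Y), Cfsg.IsComponent K₁ → Cfsg.IsComponent K₂ →
         ∃ s ∈ (S : Subgroup G), ((K₂.comap (QuotientGroup.mk' (Cfsg.pCore p ↥Y))).map Y.subtype) = (((K₁.comap (QuotientGroup.mk' (Cfsg.pCore p ↥Y))).map Y.subtype)).map (MulAut.conj s).toMonoidHom) := by
  have h : Cfsg.Agent.H51.IsIsolatedPMin S P L := ⟨hSP, hPmin, hL, hiso⟩
  haveI hYn : Y.Normal := hY ▸ Subgroup.normalClosure_normal
  refine ⟨h.closure_sup_eq hY, fun hle => ?_, ?_⟩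
  · set L₀ := (Subgroup.normalizer ((S : Subgroup G) : Set G) ⊓ (Y ⊔ (S : Subgroup G))) ⊔
      ⨆ P' : {P' : Subgroup G // (S : Subgroup G) ≤ P' ∧ P' ≤ Y ⊔ (S : Subgroup G) ∧
        Cfsg.IsPMinimal p ↥P' ∧ P' ≠ P}, (P' : Subgroup G) with hL₀
    have hL₀L : L₀ ≤ L := by
      rw [hL]
      exact sup_le_sup inf_le_left (iSup_le fun P' =>
        le_iSup_of_le ⟨(P' : Subgroup G), P'.2.1, P'.2.2.2⟩ le_rfl)
    refine hiso (le_trans ?_ hle)
    refine Cfsg.Agent.H74.le_pCoreOf (h.pCore_L_le.trans ?_)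
      (hL₀L.trans (Cfsg.Agent.H74.le_normalizer_pCoreOf L)) (Cfsg.Agent.H74.pCoreOf_isPGroup L)
    exact le_sup_of_le_left (le_inf Subgroup.le_normalizer le_sup_right)
  haveI hn : (Cfsg.pCore p G).Normal := Cfsg.Agent.H51.pCore_normal p G
  have hs := h.setting hY
  set π := QuotientGroup.mk' (Cfsg.pCore p G) with hπ
  by_cases hsol : Group.IsSolvable ↥(Y.map π)
  · exact Or.inl (h.residual_eq_closure hY (hs.residual_eq (hs.solvable_class_two hsol).2))
  refine Or.inr ⟨Cfsg.Agent.H51.pCore_normal p ↥Y, ?_⟩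
  haveI := Cfsg.Agent.H51.pCore_normal p ↥Y
  obtain ⟨e, he⟩ := Cfsg.Agent.H51.exists_quotient_pCore_equiv (p := p) Y
  have hsub : (Y.map π).IsSubnormal := Subgroup.Normal.isSubnormal hs.normal
  refine ⟨?_, ?_, ?_⟩
  · rw [Nat.card_congr e.toEquiv]
    exact (hs.perfect_of_not_solvable hsol).2
  · have h1 : Cfsg.layer ↥(Y.map π) = ⊤ := by
      refine Subgroup.map_injective (Subgroup.subtype_injective _) ?_
      rw [Cfsg.Agent.H51.layer_map_subtype_of_subnormal hsub, ← MonoidHom.range_eq_map,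
        Subgroup.range_subtype]
      exact (hs.eq_sSup_components hsol).symm
    rw [← Cfsg.Agent.H51.layer_map_equiv e.symm, h1]
    exact Subgroup.map_top_of_surjective _ e.symm.surjective
  intro K₁ K₂ hK₁ hK₂
  set J : Subgroup (↥Y ⧸ Cfsg.pCore p ↥Y) → Subgroup (G ⧸ Cfsg.pCore p G) :=
    fun K => (K.map e.toMonoidHom).map (Y.map π).subtype with hJ
  have hJc : ∀ K, Cfsg.IsComponent K → Cfsg.IsComponent (J K) := fun K hK =>
    (Cfsg.Agent.H51.component_subgroup_iff hsub _).mp (Cfsg.Agent.H51.component_map_equiv hK e)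
  obtain ⟨s', hs', hJJ⟩ := hs.components_transitive hsol (hJc K₁ hK₁) (Subgroup.map_subtype_le _)
    (hJc K₂ hK₂) (Subgroup.map_subtype_le _)
  obtain ⟨s, hsS, rfl⟩ := hs'
  refine ⟨s, hsS, ?_⟩
  have key : ∀ (K : Subgroup (↥Y ⧸ Cfsg.pCore p ↥Y)) (x : G),
      x ∈ (K.comap (QuotientGroup.mk' (Cfsg.pCore p ↥Y))).map Y.subtype ↔ x ∈ Y ∧ π x ∈ J K := by
    intro K x
    constructor
    · rintro ⟨y, hy, rfl⟩
      exact ⟨y.2, e (QuotientGroup.mk' _ y), Subgroup.mem_map_of_mem _ hy, he y⟩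
    · rintro ⟨hx, w, ⟨k, hk, rfl⟩, hw⟩
      refine ⟨⟨x, hx⟩, ?_, rfl⟩
      have : k = QuotientGroup.mk' (Cfsg.pCore p ↥Y) ⟨x, hx⟩ :=
        e.injective (Subtype.ext (hw.trans (he ⟨x, hx⟩).symm))
      exact Subgroup.mem_comap.mpr (this ▸ hk)
  ext x
  rw [key, hJJ, Subgroup.mem_map_equiv, Subgroup.mem_map_equiv, key]
  have hmem : (MulAut.conj s).symm x ∈ Y ↔ x ∈ Y := by
    rw [MulAut.conj_symm_apply]
    exact ⟨fun hh => by simpa [mul_assoc] using hYn.conj_mem _ hh s,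
      fun hh => by simpa using hYn.conj_mem _ hh s⁻¹⟩
  rw [hmem, MulAut.conj_symm_apply, MulAut.conj_symm_apply, map_mul, map_mul, map_inv]

end Cfsg.Agent.S3044
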