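import Cfsg.Statements.S3045
import Cfsg.Agent.H51.IsolatedPMin

set_option autoImplicit false
set_option linter.style.haveILetI false
open Cfsg

namespace Cfsg.Agent.S3045

/-- Let G be a finite group, p a prime, S a Sylow p-subgroup of G and P a p-minimal subgroup of G containing S. Let L be the subgroup generated by N_G(S) and all p-minimal subgroups of G containing S other than P, and suppose O_p(L) is not contained in O_p(P). Put Y for the normal closure of O^p(P) in G. Then O^p(P) is contained in the preimage in G of F*(G/O_p(G)); and if Y is solvable, then Y = O^p(P) and Y/O_p(Y) is a t-group of nilpotency class at most 2 for some prime t ≠ p. -/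
theorem result {G : Type*} [Group G] [Finite G] {p : ℕ} [Fact p.Prime] (S : Sylow p G) (P : Subgroup G) (hSP : (S : Subgroup G) ≤ P) (hPmin : Cfsg.IsPMinimal p ↥P)
    (L Y : Subgroup G)
    (hL : L = Subgroup.normalizer ((S : Subgroup G) : Set G) ⊔ ⨆ P' : {P' : Subgroup G // (S : Subgroup G) ≤ P' ∧ Cfsg.IsPMinimal p ↥P' ∧ P' ≠ P}, (P' : Subgroup G))
    (hiso : ¬ (Cfsg.pCore p ↥L).map L.subtype ≤ (Cfsg.pCore p ↥P).map P.subtype)
    (hY : Y = Subgroup.normalClosure (((Cfsg.pResidual p ↥P).map P.subtype : Subgroup G) : Set G)) [hn : (Cfsg.pCore p G).Normal] :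
    (Cfsg.pResidual p ↥P).map P.subtype ≤ (Cfsg.generalizedFittingSubgroup (G ⧸ Cfsg.pCore p G)).comap (QuotientGroup.mk' (Cfsg.pCore p G)) ∧
    (Group.IsSolvable ↥Y → (Cfsg.pResidual p ↥P).map P.subtype = Y ∧
       ∃ _ : (Cfsg.pCore p ↥Y).Normal, ∃ t : ℕ, t.Prime ∧ t ≠ p ∧ IsPGroup t (↥Y ⧸ Cfsg.pCore p ↥Y) ∧
         ∃ _ : Group.IsNilpotent (↥Y ⧸ Cfsg.pCore p ↥Y), Group.nilpotencyClass (↥Y ⧸ Cfsg.pCore p ↥Y) ≤ 2) := by
  have h : Cfsg.Agent.H51.IsIsolatedPMin S P L := ⟨hSP, hPmin, hL, hiso⟩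
  have hs := h.setting hY
  haveI hYn : Y.Normal := hY ▸ Subgroup.normalClosure_normal
  have hXY : (Cfsg.pResidual p ↥P).map P.subtype ≤ Y := hY.ge.trans' Subgroup.le_normalClosure
  refine ⟨hXY.trans (Subgroup.map_le_iff_le_comap.mp hs.le_fstar), fun hsol => ?_⟩
  have hsol' : Group.IsSolvable ↥(Y.map (QuotientGroup.mk' (Cfsg.pCore p G))) :=
    Group.isSolvable_of_surjective ((QuotientGroup.mk' (Cfsg.pCore p G)).subgroupMap_surjective Y)
  obtain ⟨hcl, hpY⟩ := hs.solvable_class_two hsol'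
  obtain ⟨t, ht, htp, hYt, -⟩ := hs.pPrime_case hpY
  refine ⟨h.residual_eq_closure hY (hs.residual_eq hpY), ?_⟩
  have hn' : (Cfsg.pCore p ↥Y).Normal := Cfsg.Agent.H51.pCore_normal p ↥Y
  obtain ⟨e, -⟩ := Cfsg.Agent.H51.exists_quotient_pCore_equiv (p := p) Y
  refine ⟨hn', t, ht, htp, hYt.of_equiv e.symm, ?_⟩
  haveI hnil := Cfsg.Agent.H51.isNilpotent_of_commutator_commutator_eq_bot hcl
  haveI : Group.IsNilpotent (↥Y ⧸ Cfsg.pCore p ↥Y) := Group.nilpotent_of_mulEquiv e.symm
  refine ⟨this, (Group.nilpotencyClass_le_of_surjective e.symm.toMonoidHom e.symm.surjective).trans ?_⟩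
  rw [← Subgroup.lowerCentralSeries_eq_bot_iff_nilpotencyClass_le]
  refine Subgroup.map_injective (Subgroup.subtype_injective _) ?_
  rw [Subgroup.map_bot, ← hcl, Subgroup.lowerCentralSeries_succ, Subgroup.lowerCentralSeries_succ,
    Subgroup.lowerCentralSeries_zero, Subgroup.map_commutator, Subgroup.map_commutator,
    ← MonoidHom.range_eq_map, Subgroup.range_subtype]

end Cfsg.Agent.S3045
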