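import Cfsg.Statements.S3047
import Cfsg.Agent.H77.RankOneSL2Data
import Cfsg.Agent.H77.RankOneSU3Data

set_option autoImplicit false
open Cfsg

namespace Cfsg.Agent.S3047

/-- Let p ≥ 5 be a prime, G a finite group all of whose composition factors are known simple groups, S a Sylow p-subgroup and P a p-minimal subgroup of G containing S such that O^p(P/O_p(P)) is isomorphic to SL₂(pᵃ), PSL₂(pᵃ), SU₃(pᵃ) or PSU₃(pᵃ) for some a ≥ 1. Let L be the subgroup generated by N_G(S) and the p-minimal subgroups of G containing S other than P. Then either O^p(P) is normal in G, or every p-element of the centre of L lies in O_p(P). -/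
theorem result {G : Type*} [Group G] [Finite G] {p : ℕ} [Fact p.Prime] (hp : 5 ≤ p) (hK : Cfsg.IsCompositionKGroup G)
    (S : Sylow p G) (P : Subgroup G) (hSP : (S : Subgroup G) ≤ P) (hPmin : Cfsg.IsPMinimal p ↥P) [hn : (Cfsg.pCore p ↥P).Normal]
    (hrk1 : ∃ (F : Type) (_ : Field F) (_ : Fintype F) (a : ℕ), 1 ≤ a ∧
      ((Fintype.card F = p ^ a ∧ (Nonempty (↥(Cfsg.pResidual p (↥P ⧸ Cfsg.pCore p ↥P)) ≃* Matrix.SpecialLinearGroup (Fin 2) F) ∨
                                  Nonempty (↥(Cfsg.pResidual p (↥P ⧸ Cfsg.pCore p ↥P)) ≃* Matrix.ProjectiveSpecialLinearGroup (Fin 2) F))) ∨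
       (Fintype.card F = p ^ (2 * a) ∧ (Nonempty (↥(Cfsg.pResidual p (↥P ⧸ Cfsg.pCore p ↥P)) ≃* ↥(Cfsg.SU 3 F (p ^ a))) ∨
                                        Nonempty (↥(Cfsg.pResidual p (↥P ⧸ Cfsg.pCore p ↥P)) ≃* Cfsg.PSU 3 F (p ^ a))))))
    (L : Subgroup G)
    (hL : L = Subgroup.normalizer ((S : Subgroup G) : Set G) ⊔ ⨆ P' : {P' : Subgroup G // (S : Subgroup G) ≤ P' ∧ Cfsg.IsPMinimal p ↥P' ∧ P' ≠ P}, (P' : Subgroup G)) :
    ((Cfsg.pResidual p ↥P).map P.subtype).Normal ∨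
    ∀ z ∈ L ⊓ Subgroup.centralizer (L : Set G), (∃ k : ℕ, orderOf z = p ^ k) → z ∈ (Cfsg.pCore p ↥P).map P.subtype := by
  refine Or.inr fun z hz hzp => ?_
  obtain ⟨k, hk⟩ := hzp
  have hNL : Subgroup.normalizer ((S : Subgroup G) : Set G) ≤ L := hL ▸ le_sup_left
  have hcomm : ∀ n ∈ Subgroup.normalizer ((S : Subgroup G) : Set G), n * z = z * n := fun n hn =>
    Subgroup.mem_centralizer_iff.1 hz.2 n (hNL hn)
  have hzN : z ∈ Subgroup.normalizer ((S : Subgroup G) : Set G) := by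
    refine Subgroup.mem_normalizer_fintype fun s hs => ?_
    rw [← hcomm s (Subgroup.le_normalizer hs), mul_inv_cancel_right]
    exact hs
  have hzS : z ∈ (S : Subgroup G) := by
    have hzp : IsPGroup p (Subgroup.zpowers z) := IsPGroup.of_card (n := k) (by rw [Nat.card_zpowers, hk])
    have h1 : IsPGroup p ↥((S : Subgroup G) ⊔ Subgroup.zpowers z) :=
      IsPGroup.to_sup_of_normal_left' S.2 hzp (Subgroup.zpowers_le.2 hzN)
    rw [← S.3 h1 le_sup_left]
    exact Subgroup.mem_sup_right (Subgroup.mem_zpowers z)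
  set Q := Cfsg.pCore p ↥P with hQ
  let S' : Sylow p ↥P := S.subtype hSP
  set f := QuotientGroup.mk' Q with hf
  have hfs : Function.Surjective f := QuotientGroup.mk'_surjective Q
  set R := Cfsg.pResidual p (↥P ⧸ Q) with hR
  haveI hRn : R.Normal := Cfsg.Agent.H22.pResidual_normal
  have hd : Nonempty (H77.RankOne.Data p ↥R) := by
    obtain ⟨F, _, _, a, ha, hcases⟩ := hrk1
    have hchar : ∀ {b : ℕ}, Fintype.card F = p ^ b → CharP F p := fun h =>
      charP_of_card_eq_prime_pow h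
    rcases hcases with ⟨hcard, hiso⟩ | ⟨hcard, hiso⟩
    · haveI := hchar hcard
      obtain ⟨d⟩ := H77.RankOne.nonempty_data_SL2 (F := F) hp
      rcases hiso with ⟨⟨e⟩⟩ | ⟨⟨e⟩⟩
      · exact ⟨d.map e.symm.toMonoidHom e.symm.surjective
          (by rw [(MonoidHom.ker_eq_bot_iff _).2 e.symm.injective]; exact bot_le)⟩
      · refine ⟨d.map (e.symm.toMonoidHom.comp (QuotientGroup.mk' _))
          (e.symm.surjective.comp (QuotientGroup.mk'_surjective _)) fun x hx => ?_⟩
        rw [MonoidHom.mem_ker, MonoidHom.comp_apply] at hx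
        have h1 := e.symm.injective (hx.trans (map_one e.symm).symm)
        exact (QuotientGroup.eq_one_iff x).1 h1
    · haveI := hchar hcard
      have hcard' : Fintype.card F = (p ^ a) ^ 2 := by rw [hcard, ← pow_mul, mul_comm]
      obtain ⟨d⟩ := H77.RankOne.nonempty_data_SU3 (F := F) hcard' hp rfl
      rcases hiso with ⟨⟨e⟩⟩ | ⟨⟨e⟩⟩
      · exact ⟨d.map e.symm.toMonoidHom e.symm.surjective
          (by rw [(MonoidHom.ker_eq_bot_iff _).2 e.symm.injective]; exact bot_le)⟩
      · refine ⟨d.map (e.symm.toMonoidHom.comp (QuotientGroup.mk' _))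
          (e.symm.surjective.comp (QuotientGroup.mk'_surjective _)) fun x hx => ?_⟩
        rw [MonoidHom.mem_ker, MonoidHom.comp_apply] at hx
        have h1 := e.symm.injective (hx.trans (map_one e.symm).symm)
        exact (QuotientGroup.eq_one_iff x).1 h1
  obtain ⟨d⟩ := hd
  set zP : ↥P := ⟨z, hSP hzS⟩ with hzP
  have h1 : f zP = 1 := by
    refine H77.RankOne.eq_one R d (fun h => ?_) (Cfsg.Agent.H19.pCore_quotient_pCore p)
      (S'.mapSurjective hfs) ⟨zP, hzS, rfl⟩ fun n hn => ?_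
    · obtain ⟨j, hj⟩ := Cfsg.Agent.H22.exists_pow_mem_pResidual (p := p) h
      exact ⟨j, hj⟩
    · obtain ⟨m, rfl⟩ := hfs n
      have hQS : Q ≤ (S' : Subgroup ↥P) := Cfsg.Agent.H19.pCore_le_sylow S'
      have hm : (m : G) ∈ Subgroup.normalizer ((S : Subgroup G) : Set G) := by
        refine Subgroup.mem_normalizer_fintype fun s hs => ?_
        have hmem : f m * f ⟨s, hSP hs⟩ * (f m)⁻¹ ∈ (S' : Subgroup ↥P).map f :=
          (Subgroup.mem_normalizer_iff.1 hn _).1 ⟨⟨s, hSP hs⟩, hs, rfl⟩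
        obtain ⟨y, hy, e⟩ := hmem
        rw [← map_inv, ← map_mul, ← map_mul] at e
        have he : y⁻¹ * (m * ⟨s, hSP hs⟩ * m⁻¹) ∈ Q := QuotientGroup.eq.1 e
        have := mul_mem hy (hQS he)
        rw [mul_inv_cancel_left] at this
        exact this
      rw [← map_mul, ← map_mul]
      exact congrArg f (Subtype.ext (hcomm m hm))
  exact ⟨zP, (QuotientGroup.eq_one_iff zP).1 h1, rfl⟩

end Cfsg.Agent.S3047
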