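import Cfsg.Statements.S3050
import Cfsg.Agent.H75.SL2FPFGroup

set_option autoImplicit false
set_option linter.all false
open Cfsg

namespace Cfsg.Agent.S3050

open Cfsg.Agent Matrix
open Cfsg.Agent.H75
open scoped IsMulCommutative


/-- Let G be a finite group with a normal 2-subgroup Q such that G/Q is isomorphic to SL(2, 2ⁿ) with n ≥ 2, and suppose some element of G of order 3 fixes no nonidentity element of Q under conjugation. Then Q is elementary abelian and is the direct product of normal subgroups of G on each of which G acts as SL(2, 2ⁿ) acts on its natural two-dimensional module (a Galois twist of the natural action allowed). -/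
theorem result {G : Type*} [Group G] [Finite G]
    (Q : Subgroup G) [Q.Normal] (hQ : IsPGroup 2 ↥Q) (n : ℕ) (hn : 2 ≤ n)
    (K : Type*) [Field K] [Fintype K] (hK : Fintype.card K = 2 ^ n)
    (e : G ⧸ Q ≃* Matrix.SpecialLinearGroup (Fin 2) K)
    (x : G) (hx : orderOf x = 3) (hfpf : ∀ q ∈ Q, x * q * x⁻¹ = q → q = 1) :
    Cfsg.IsElementaryAbelian 2 Q ∧
      ∃ (k : ℕ) (V : Fin k → Subgroup G), (∀ i, V i ≤ Q ∧ (V i).Normal ∧
        Cfsg.ActsAsSL2OnSection K ⊤ ⊤ (V i) ⊥) ∧ iSupIndep V ∧ ⨆ i, V i = Q := by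
  classical
  haveI : CharP K 2 := by
    haveI := Fact.mk Nat.prime_two
    obtain ⟨c, hc⟩ := CharP.exists K
    obtain ⟨m, hcp, hm⟩ := FiniteField.card K c
    have hdvd : c ∣ 2 ^ n := by rw [← hK, hm]; exact dvd_pow_self c m.ne_zero
    have : c = 2 := (Nat.prime_dvd_prime_iff_eq hcp Nat.prime_two).1 (hcp.dvd_of_dvd_pow hdvd)
    exact this ▸ hc
  obtain ⟨y, hy, hy3, hyf⟩ := SL2FPF.exists_standard Q e hQ x hx hfpf
  obtain ⟨hab, hsq⟩ := SL2FPF.isElementaryAbelian_aux hn hK (Nat.card Q) Q e hQ rfl y hy hy3 hyf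
  haveI hcomm : IsMulCommutative Q := IsMulCommutative.of_comm fun a b =>
    Subtype.ext (hab a a.2 b b.2)
  refine ⟨⟨hcomm, fun a ha => by rw [pow_two]; exact hsq a ha⟩, ?_⟩
  obtain ⟨k, ψ, hψ⟩ := SL2FPF.exists_coords_group Q hn hK e Q hab le_rfl hsq hy hy3 hyf
  have hact : ∀ g (v : Additive Q) i (w : Q), (w : G) = g * (v.toMul : G) * g⁻¹ →
      ψ (Additive.ofMul w) i =
        ((e (g : G ⧸ Q)) : Matrix (Fin 2) (Fin 2) K).mulVec (ψ v i) := by
    intro g v i w hw
    rw [← hψ]
    refine congrFun (congrArg ψ ?_) i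
    apply Additive.toMul.injective
    apply Subtype.ext
    rw [SL2FPF.actionHom_apply]
    exact hw
  let W : Fin k → Subgroup Q := fun i =>
    { carrier := {v | ∀ j, j ≠ i → ψ (Additive.ofMul v) j = 0}
      one_mem' := fun j _ => by rw [ofMul_one, map_zero]; rfl
      mul_mem' := fun {a b} ha hb j hj => by
        rw [ofMul_mul, map_add, Pi.add_apply, ha j hj, hb j hj, add_zero]
      inv_mem' := fun {a} ha j hj => by
        rw [ofMul_inv, map_neg, Pi.neg_apply, ha j hj, neg_zero] }
  refine ⟨k, fun i => (W i).map Q.subtype, fun i => ⟨Subgroup.map_subtype_le _, ?_, ?_⟩, ?_, ?_⟩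
  · refine ⟨?_⟩
    rintro _ ⟨v, hv, rfl⟩ g
    refine ⟨⟨g * v * g⁻¹, ‹Q.Normal›.conj_mem v v.2 g⟩, fun j hj => ?_, rfl⟩
    rw [hact g (Additive.ofMul v) j _ rfl, hv j hj, Matrix.mulVec_zero]
  · have hmem : ∀ u : ((W i).map Q.subtype : Subgroup G), ∃ v : Q, v ∈ W i ∧ (v : G) = u := by
      rintro ⟨_, v, hv, rfl⟩
      exact ⟨v, hv, rfl⟩
    have hQu : ∀ u : ((W i).map Q.subtype : Subgroup G), (u : G) ∈ Q :=
      fun u => Subgroup.map_subtype_le _ u.2
    let φ : ((W i).map Q.subtype : Subgroup G) →* Multiplicative (Fin 2 → K) :=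
      { toFun := fun u => Multiplicative.ofAdd (ψ (Additive.ofMul ⟨u, hQu u⟩) i)
        map_one' := by
          show Multiplicative.ofAdd (ψ (Additive.ofMul (1 : Q)) i) = 1
          rw [ofMul_one, map_zero]
          rfl
        map_mul' := fun a b => by
          show Multiplicative.ofAdd (ψ (Additive.ofMul ((⟨a, hQu a⟩ : Q) * ⟨b, hQu b⟩)) i) = _
          rw [ofMul_mul, map_add, Pi.add_apply, ofAdd_add] }
    have hnorm : (⊤ : Subgroup G) ≤ Subgroup.normalizer (((W i).map Q.subtype : Subgroup G) : Set G) := by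
      intro g _
      rw [Subgroup.mem_normalizer_iff]
      intro h
      have key : ∀ g : G, ∀ z, z ∈ (W i).map Q.subtype → g * z * g⁻¹ ∈ (W i).map Q.subtype := by
        rintro g _ ⟨v, hv, rfl⟩
        refine ⟨⟨g * v * g⁻¹, ‹Q.Normal›.conj_mem v v.2 g⟩, fun j hj => ?_, rfl⟩
        rw [hact g (Additive.ofMul v) j _ rfl, hv j hj, Matrix.mulVec_zero]
      refine ⟨key g h, fun hh' => ?_⟩
      have := key g⁻¹ _ hh'
      convert this using 1
      group
    refine ⟨hnorm, bot_le,
      e.toMonoidHom.comp ((QuotientGroup.mk' Q).comp (⊤ : Subgroup G).subtype), φ, ?_, ?_, ?_, ?_⟩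
    · refine MonoidHom.range_eq_top.2 fun s => ?_
      obtain ⟨g, hg⟩ := QuotientGroup.mk_surjective (e.symm s)
      refine ⟨⟨g, Subgroup.mem_top g⟩, ?_⟩
      show e (g : G ⧸ Q) = s
      rw [hg, e.apply_symm_apply]
    · intro z
      obtain ⟨v, hv⟩ := ψ.surjective (Pi.single i z.toAdd)
      have hvW : v.toMul ∈ W i := fun j hj => by
        rw [ofMul_toMul, hv, Pi.single_eq_of_ne hj]
      refine ⟨⟨v.toMul, v.toMul, hvW, rfl⟩, ?_⟩
      show Multiplicative.ofAdd (ψ v i) = z
      rw [hv, Pi.single_eq_same, ofAdd_toAdd]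
    · intro u
      obtain ⟨v, hv, hvu⟩ := hmem u
      have hveq : (⟨(u : G), hQu u⟩ : Q) = v := Subtype.ext hvu.symm
      show Multiplicative.ofAdd (ψ (Additive.ofMul ⟨(u : G), hQu u⟩) i) = 1 ↔ _
      rw [hveq, Subgroup.mem_bot, ← hvu]
      constructor
      · intro h
        have h0 : ψ (Additive.ofMul v) = 0 := by
          funext j
          by_cases hj : j = i
          · subst hj; exact congrArg Multiplicative.toAdd h
          · exact hv j hj
        have h1 : Additive.ofMul v = 0 := ψ.injective (h0.trans (map_zero ψ).symm)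
        exact congrArg (fun w : Additive Q => (w.toMul : G)) h1
      · intro h
        obtain rfl : v = 1 := Subtype.ext h
        rw [ofMul_one, map_zero]
        rfl
    · intro g u
      refine ⟨⟨(g : G) * u * (g : G)⁻¹, ?_⟩, rfl, ?_⟩
      · exact (Subgroup.mem_normalizer_iff.1 (hnorm (Subgroup.mem_top _)) u).1 u.2
      · exact hact g (Additive.ofMul ⟨u, hQu u⟩) i _ rfl
  · intro i
    rw [Subgroup.disjoint_def]
    rintro _ ⟨v, hv, rfl⟩ hsup
    let W' : Subgroup Q :=
      { carrier := {v | ψ (Additive.ofMul v) i = 0}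
        one_mem' := by show ψ (Additive.ofMul (1 : Q)) i = 0; rw [ofMul_one, map_zero]; rfl
        mul_mem' := fun {a b} (ha : ψ (Additive.ofMul a) i = 0) (hb : ψ (Additive.ofMul b) i = 0) => by
          show ψ (Additive.ofMul (a * b)) i = 0
          rw [ofMul_mul, map_add, Pi.add_apply, ha, hb, add_zero]
        inv_mem' := fun {a} (ha : ψ (Additive.ofMul a) i = 0) => by
          show ψ (Additive.ofMul a⁻¹) i = 0
          rw [ofMul_inv, map_neg, Pi.neg_apply, ha, neg_zero] }
    have hle : (⨆ j, ⨆ (_ : j ≠ i), (W j).map Q.subtype) ≤ W'.map Q.subtype :=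
      iSup₂_le fun j hj => Subgroup.map_mono fun w hw => hw i (Ne.symm hj)
    obtain ⟨w, hw, hwv⟩ := hle hsup
    obtain rfl : w = v := Subtype.ext hwv
    have h0 : ψ (Additive.ofMul w) = 0 := by
      funext j
      by_cases hj : j = i
      · subst hj; exact hw
      · exact hv j hj
    have h1 : Additive.ofMul w = 0 := ψ.injective (h0.trans (map_zero ψ).symm)
    exact congrArg (fun w : Additive Q => (w.toMul : G)) h1
  · rw [← Subgroup.map_iSup]
    refine le_antisymm (Subgroup.map_subtype_le _) fun z hz => ⟨⟨z, hz⟩, ?_, rfl⟩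
    set v := ψ (Additive.ofMul (⟨z, hz⟩ : Q)) with hv
    have hsum : v = ∑ j, Pi.single j (v j) := (Finset.univ_sum_single v).symm
    have key : ∀ s : Finset (Fin k),
        (ψ.symm (∑ j ∈ s, Pi.single j (v j))).toMul ∈ ⨆ j, W j := by
      intro s
      induction s using Finset.induction_on with
      | empty => rw [Finset.sum_empty, map_zero, toMul_zero]; exact one_mem _
      | insert b s hb ih =>
        rw [Finset.sum_insert hb, map_add, toMul_add]
        refine mul_mem (Subgroup.mem_iSup_of_mem b fun j hj => ?_) ih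
        rw [ofMul_toMul, ψ.apply_symm_apply, Pi.single_eq_of_ne hj]
    have := key Finset.univ
    rwa [← hsum, hv, ψ.symm_apply_apply, toMul_ofMul] at this

end Cfsg.Agent.S3050
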