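import Cfsg.Statements.S3053
import Cfsg.Agent.H23.ClassTwo
import Cfsg.Agent.H75.SylowGraph

set_option autoImplicit false
set_option linter.all false
open Cfsg

namespace Cfsg.Agent.S3053

open Subgroup
open scoped commutatorElement


/-- Let p be an odd prime and G a finite group with a Sylow p-subgroup P that is extraspecial of order p³ and exponent p². Then the centre of P is strongly closed in P with respect to G: a G-conjugate of an element of Z(P) that lies in P already lies in Z(P). In particular a nontrivial central element of P is conjugate in G to no noncentral element of P. -/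
theorem result {G : Type*} [Group G] [Finite G]
    {p : ℕ} [Fact p.Prime] (hp : p ≠ 2) (P : Sylow p G) (hE : Cfsg.IsExtraspecial p ↥P)
    (hcard : Nat.card P = p ^ 3) (hexp : Monoid.exponent ↥P = p ^ 2) :
    Cfsg.IsStronglyClosed ((Subgroup.center ↥P).map (P : Subgroup G).subtype) (P : Subgroup G) := by
  classical
  have hpp : p.Prime := Fact.out
  obtain ⟨⟨hPp, -, hPc⟩, hZcard⟩ := hE
  set P₀ := (P : Subgroup G) with hP₀
  set Z := (Subgroup.center ↥P).map P₀.subtype with hZ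
  have hZP : Z ≤ P₀ := map_subtype_le _
  have hZc : ∀ z ∈ Z, ∀ a ∈ P₀, a * z = z * a := by
    rintro _ ⟨z, hz, rfl⟩ a ha
    exact congrArg Subtype.val (mem_center_iff.1 hz ⟨a, ha⟩)
  have hZmem : ∀ z ∈ P₀, (∀ a ∈ P₀, a * z = z * a) → z ∈ Z := fun z hz h =>
    ⟨⟨z, hz⟩, mem_center_iff.2 fun a => Subtype.ext (h a a.2), rfl⟩
  have hcomm : ∀ a ∈ P₀, ∀ b ∈ P₀, ⁅a, b⁆ ∈ Z := by
    intro a ha b hb
    refine ⟨⁅(⟨a, ha⟩ : P₀), ⟨b, hb⟩⁆, ?_, rfl⟩
    rw [← hPc]
    exact commutator_mem_commutator (mem_top _) (mem_top _)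
  have hZcard' : Nat.card Z = p := by
    rw [hZ, card_map_of_injective P₀.subtype_injective]; exact hZcard
  have hZpow : ∀ z ∈ Z, z ^ p = 1 := fun z hz => by
    have h := orderOf_dvd_iff_pow_eq_one.1 (hZcard' ▸ Z.orderOf_dvd_natCard hz)
    exact h
  have hZgen : ∀ w ∈ Z, w ≠ 1 → zpowers w = Z := by
    intro w hw hne
    refine eq_of_le_of_card_ge (zpowers_le.2 hw) ?_
    rw [hZcard', Nat.card_zpowers]
    rcases (Nat.dvd_prime hpp).1 (hZcard' ▸ Z.orderOf_dvd_natCard hw) with h | h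
    · exact absurd (orderOf_eq_one_iff.1 h) hne
    · exact h.ge
  have hmulpow : ∀ a ∈ P₀, ∀ b ∈ P₀, (a * b) ^ p = a ^ p * b ^ p := by
    intro a ha b hb
    have hc := hcomm b hb a ha
    obtain ⟨m, hm⟩ : p ∣ p.choose 2 := hpp.dvd_choose_self (by norm_num)
      (lt_of_le_of_ne hpp.two_le (Ne.symm hp))
    rw [H23.mul_pow_class_two (hZc _ hc a ha).symm (hZc _ hc b hb).symm, hm, pow_mul, hZpow _ hc,
      one_pow, mul_one]
  let Om : Subgroup G :=
    { carrier := {g | g ∈ P₀ ∧ g ^ p = 1}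
      one_mem' := ⟨one_mem _, one_pow _⟩
      mul_mem' := by
        rintro a b ⟨ha, ha'⟩ ⟨hb, hb'⟩
        exact ⟨mul_mem ha hb, by rw [hmulpow a ha b hb, ha', hb', mul_one]⟩
      inv_mem' := by
        rintro a ⟨ha, ha'⟩
        exact ⟨inv_mem ha, by rw [inv_pow, ha', inv_one]⟩ }
  have hZOm : Z ≤ Om := fun z hz => ⟨hZP hz, hZpow z hz⟩
  refine ⟨hZP, fun z hz g hgP => ?_⟩
  by_contra hxZ
  set x := g * z * g⁻¹ with hx
  have hz1 : z ≠ 1 := fun e => hxZ (by rw [hx, e, mul_one, mul_inv_cancel]; exact one_mem _)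
  have hxOm : x ∈ Om := ⟨hgP, by rw [hx, conj_pow, hZpow z hz, mul_one, mul_inv_cancel]⟩
  have hcardP : Nat.card P₀ = p ^ 3 := hcard
  have hOmP : Om ≤ P₀ := fun a ha => ha.1
  have hOmne : Om ≠ P₀ := by
    intro e
    have : Monoid.exponent ↥P ∣ p := Monoid.exponent_dvd_of_forall_pow_eq_one fun a =>
      Subtype.ext (by
        have h := (e.ge a.2).2
        simpa using h)
    rw [hexp] at this
    have := Nat.le_of_dvd hpp.pos this
    nlinarith [hpp.two_le]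
  have hOmcard : Nat.card Om = p ^ 2 := by
    have hd : Nat.card Om ∣ p ^ 3 := hcardP ▸ card_dvd_of_le hOmP
    obtain ⟨k, hk, hk'⟩ := (Nat.dvd_prime_pow hpp).1 hd
    have hk2 : k ≤ 2 := by
      by_contra h
      have hk3 : k = 3 := by omega
      exact hOmne (eq_of_le_of_card_ge hOmP (by rw [hk', hk3, hcardP]))
    have hk1 : 2 ≤ k := by
      by_contra h
      have h2 : Nat.card Om ≤ Nat.card Z := by
        rw [hk', hZcard']
        exact (Nat.pow_le_pow_right hpp.pos (show k ≤ 1 by omega)).trans (pow_one p).le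
      exact hxZ ((eq_of_le_of_card_ge hZOm h2).ge hxOm)
    rw [hk', show k = 2 by omega]
  haveI hOmc : IsMulCommutative Om := IsPGroup.isMulCommutative_of_card_eq_prime_sq hOmcard
  have hOc : ∀ a ∈ Om, ∀ b ∈ Om, a * b = b * a := fun a ha b hb =>
    congrArg Subtype.val (hOmc.is_comm.comm (⟨a, ha⟩ : Om) ⟨b, hb⟩)
  have hspan : ∀ e ∈ Om, e ∉ Z → zpowers e ⊔ Z = Om := by
    intro e he heZ
    have hle : zpowers e ⊔ Z ≤ Om := sup_le (zpowers_le.2 he) hZOm
    refine eq_of_le_of_card_ge hle ?_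
    obtain ⟨k, hk, hk'⟩ := (Nat.dvd_prime_pow hpp).1 (hOmcard ▸ card_dvd_of_le hle)
    by_contra hlt
    have hk1 : k ≤ 1 := by
      by_contra h
      exact hlt (by rw [hOmcard, hk', show k = 2 by omega])
    have h2 : Nat.card ↥(zpowers e ⊔ Z) ≤ Nat.card Z := by
      rw [hk', hZcard']
      exact (Nat.pow_le_pow_right hpp.pos hk1).trans (pow_one p).le
    exact heZ ((eq_of_le_of_card_ge le_sup_right h2).ge (mem_sup_left (mem_zpowers e)))
  have hCx : ∀ a ∈ P₀, a * x = x * a → a ∈ Om := by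
    intro a ha hax
    by_contra haO
    have hle : Om ⊔ zpowers a ≤ P₀ := sup_le hOmP (zpowers_le.2 ha)
    have htop : Om ⊔ zpowers a = P₀ := by
      refine eq_of_le_of_card_ge hle ?_
      obtain ⟨k, hk, hk'⟩ := (Nat.dvd_prime_pow hpp).1 (hcardP ▸ card_dvd_of_le hle)
      by_contra hlt
      have hk2 : k ≤ 2 := by
        by_contra h
        exact hlt (by rw [hcardP, hk', show k = 3 by omega])
      have h2 : Nat.card ↥(Om ⊔ zpowers a) ≤ Nat.card Om := by
        rw [hk', hOmcard]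
        exact Nat.pow_le_pow_right hpp.pos hk2
      exact haO ((eq_of_le_of_card_ge le_sup_left h2).ge (mem_sup_right (mem_zpowers a)))
    refine hxZ (hZmem x hgP fun b hb => ?_)
    have hc : P₀ ≤ centralizer {x} := htop ▸ sup_le
      (fun c hc => mem_centralizer_singleton_iff.2 (hOc c hc x hxOm))
      (zpowers_le.2 (mem_centralizer_singleton_iff.2 hax))
    exact mem_centralizer_singleton_iff.1 (hc hb)
  -- move `Om` to itself
  obtain ⟨g', hg', hg'Om⟩ : ∃ g' : G, g' * z * g'⁻¹ = x ∧ ∀ e ∈ Om, g' * e * g'⁻¹ ∈ Om := by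
    set C := centralizer ({x} : Set G) with hC
    have hgP' : ((g • P : Sylow p G) : Subgroup G) ≤ C := by
      rintro _ ⟨a, ha, rfl⟩
      refine mem_centralizer_singleton_iff.2 ?_
      show g * a * g⁻¹ * x = x * (g * a * g⁻¹)
      calc g * a * g⁻¹ * x = g * (a * z) * g⁻¹ := by rw [hx]; group
        _ = g * (z * a) * g⁻¹ := by rw [hZc z hz a ha]
        _ = x * (g * a * g⁻¹) := by rw [hx]; group
    have hOmC : Om ≤ C := fun a ha => mem_centralizer_singleton_iff.2 (hOc a ha x hxOm)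
    have hOmp : IsPGroup p (Om.subgroupOf C) :=
      (P.isPGroup'.to_le hOmP).comap_of_injective C.subtype C.subtype_injective
    obtain ⟨R, hR⟩ := hOmp.exists_le_sylow
    obtain ⟨c, hc⟩ := MulAction.exists_smul_eq C ((g • P).subtype hgP') R
    rw [← hc] at hR
    refine ⟨(c : G) * g, ?_, ?_⟩
    · have h2 := mem_centralizer_singleton_iff.1 c.2
      calc (c : G) * g * z * ((c : G) * g)⁻¹ = (c : G) * (g * z * g⁻¹) * (c : G)⁻¹ := by group
        _ = x := by rw [← hx, h2, mul_inv_cancel_right]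
    · have hle : Om.map (MulAut.conj ((c : G) * g)⁻¹).toMonoidHom ≤ Om := by
        rintro _ ⟨e, he, rfl⟩
        have h1 := hR (show (⟨e, hOmC he⟩ : C) ∈ Om.subgroupOf C from he)
        obtain ⟨w, hw, hwe⟩ := h1
        obtain ⟨a, ha, haw⟩ : ∃ a ∈ P₀, g * a * g⁻¹ = (w : G) := by
          obtain ⟨a, ha, haw⟩ := hw
          exact ⟨a, ha, haw⟩
        have hwe' : (c : G) * (w : G) * (c : G)⁻¹ = e := congrArg Subtype.val hwe
        have e1 : ((c : G) * g)⁻¹ * e * ((c : G) * g) = a := by rw [← hwe', ← haw]; group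
        show ((c : G) * g)⁻¹ * e * (((c : G) * g)⁻¹)⁻¹ ∈ Om
        rw [inv_inv, e1]
        refine ⟨ha, ?_⟩
        rw [← e1]
        have := conj_pow (a := ((c : G) * g)⁻¹) (b := e) (i := p)
        simp only [inv_inv] at this
        rw [this, he.2]
        group
      have heq := eq_of_le_of_card_ge hle (card_map_of_injective (MulAut.conj ((c : G) * g)⁻¹).injective).ge
      intro e he
      have he' := he
      rw [← heq] at he'
      obtain ⟨w, hw, hwe⟩ := he'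
      have hwe' : ((c : G) * g)⁻¹ * w * (((c : G) * g)⁻¹)⁻¹ = e := hwe
      rw [← hwe']
      simpa [mul_assoc] using hw
  -- a noncentral element acting as a transvection
  obtain ⟨u, hu, huO⟩ := SetLike.exists_of_lt (lt_of_le_of_ne hOmP hOmne)
  set z₁ := ⁅u, x⁆ with hz₁
  have hz₁Z : z₁ ∈ Z := hcomm u hu x hgP
  have hz₁ne : z₁ ≠ 1 := fun e => huO (hCx u hu (commutatorElement_eq_one_iff_mul_comm.1 e))
  have hUx : u * x * u⁻¹ = z₁ * x := by rw [hz₁, commutatorElement_def]; group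
  have hUz : u * z₁ * u⁻¹ = z₁ := by rw [hZc z₁ hz₁Z u hu, mul_inv_cancel_right]
  set v := g' * u * g'⁻¹ with hv
  have hvx : v * x * v⁻¹ = x := by
    calc v * x * v⁻¹ = g' * (u * z * u⁻¹) * g'⁻¹ := by rw [hv, ← hg']; group
      _ = g' * z * g'⁻¹ := by rw [hZc z hz u hu, mul_inv_cancel_right]
      _ = x := hg'
  set e := g'⁻¹ * z₁ * g' with he
  have hOmN : g' ∈ normalizer (Om : Set G) := by
    have hle : Om.map (MulAut.conj g').toMonoidHom ≤ Om := by
      rintro _ ⟨a, ha, rfl⟩; exact hg'Om a ha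
    have heq := eq_of_le_of_card_ge hle (card_map_of_injective (MulAut.conj g').injective).ge
    refine mem_normalizer_iff.2 fun a => ⟨hg'Om a, fun ha => ?_⟩
    rw [← heq] at ha
    obtain ⟨w, hw, hwa⟩ := ha
    simp only [MulEquiv.coe_toMonoidHom, MulAut.conj_apply] at hwa
    rwa [← mul_left_cancel (mul_right_cancel hwa)]
  have heO : e ∈ Om := by
    have := (inv_mem hOmN z₁).1 (hZOm hz₁Z)
    simpa [he] using this
  have heZ : e ∉ Z := by
    intro h
    obtain ⟨i, hi⟩ := (hZgen z hz hz1).ge h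
    have hi' : z ^ i = g'⁻¹ * z₁ * g' := hi
    have h2 : z₁ = x ^ i := by rw [← hg', conj_zpow, hi']; group
    have hz₁x : z₁ ∈ zpowers x := ⟨i, h2.symm⟩
    have hx1 : orderOf x = p := orderOf_eq_prime hxOm.2 fun h => hxZ (h ▸ one_mem Z)
    have : zpowers z₁ = zpowers x := eq_of_le_of_card_ge (zpowers_le.2 hz₁x) (by
      rw [hZgen z₁ hz₁Z hz₁ne, hZcard', Nat.card_zpowers, hx1])
    rw [hZgen z₁ hz₁Z hz₁ne] at this
    exact hxZ (this.ge (mem_zpowers x))
  set y := z₁⁻¹ * (v * z₁ * v⁻¹) with hy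
  have hye : y = g' * (e⁻¹ * (u * e * u⁻¹)) * g'⁻¹ := by rw [hy, hv, he]; group
  have hcZ : e⁻¹ * (u * e * u⁻¹) ∈ Z := by
    have := hcomm e⁻¹ (inv_mem (hOmP heO)) u hu
    simpa [commutatorElement_def, mul_assoc] using this
  have hyx : y ∈ zpowers x := by
    obtain ⟨i, hi⟩ := (hZgen z hz hz1).ge hcZ
    refine ⟨i, ?_⟩
    have hi' : z ^ i = e⁻¹ * (u * e * u⁻¹) := hi
    show x ^ i = y
    rw [hye, ← hi', ← hg', conj_zpow]
  have hyne : y ≠ 1 := by
    intro h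
    rw [hye] at h
    have h1 : u * e * u⁻¹ = e := by
      have h2 := congrArg (fun w => e * (g'⁻¹ * w * g')) h
      simpa [mul_assoc] using h2
    refine huO (hCx u hu ?_)
    have hle : Om ≤ centralizer {u} := by
      rw [← hspan e heO heZ]
      refine sup_le (zpowers_le.2 (mem_centralizer_singleton_iff.2 ?_))
        (fun w hw => mem_centralizer_singleton_iff.2 (hZc w hw u hu).symm)
      calc e * u = (u * e * u⁻¹) * u := by rw [h1]
        _ = u * e := by group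
    exact (mem_centralizer_singleton_iff.1 (hle hxOm)).symm
  have hx1 : orderOf x = p := orderOf_eq_prime hxOm.2 fun h => hxZ (h ▸ one_mem Z)
  have hzy : zpowers y = zpowers x := by
    refine eq_of_le_of_card_ge (zpowers_le.2 hyx) ?_
    rw [Nat.card_zpowers, Nat.card_zpowers, hx1]
    have hd := (zpowers x).orderOf_dvd_natCard hyx
    rw [Nat.card_zpowers, hx1] at hd
    rcases (Nat.dvd_prime hpp).1 hd with h | h
    · exact absurd (orderOf_eq_one_iff.1 h) hyne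
    · exact h.ge
  obtain ⟨k, hk⟩ : ∃ k : ℕ, y ^ k = x⁻¹ := by
    have : x⁻¹ ∈ zpowers y := hzy.ge (inv_mem (mem_zpowers x))
    obtain ⟨k, hk⟩ := mem_powers_iff_mem_zpowers.2 this
    exact ⟨k, hk⟩
  have hvy : v * y * v⁻¹ = y := by
    obtain ⟨i, hi⟩ := hyx
    have hi' : x ^ i = y := hi
    rw [← hi', ← conj_zpow, hvx]
  have hvk : ∀ j : ℕ, v ^ j * z₁ * (v ^ j)⁻¹ = z₁ * y ^ j ∧ v ^ j * x * (v ^ j)⁻¹ = x := by
    intro j
    induction j with
    | zero => simp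
    | succ j ih =>
      have hvyj : v * y ^ j * v⁻¹ = y ^ j := by rw [← conj_pow, hvy]
      constructor
      · calc v ^ (j + 1) * z₁ * (v ^ (j + 1))⁻¹ = v * (v ^ j * z₁ * (v ^ j)⁻¹) * v⁻¹ := by
              rw [pow_succ']; group
          _ = v * (z₁ * y ^ j) * v⁻¹ := by rw [ih.1]
          _ = (v * z₁ * v⁻¹) * (v * y ^ j * v⁻¹) := by group
          _ = z₁ * y * y ^ j := by rw [hvyj, hy]; group
          _ = z₁ * y ^ (j + 1) := by rw [pow_succ', mul_assoc]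
      · calc v ^ (j + 1) * x * (v ^ (j + 1))⁻¹ = v * (v ^ j * x * (v ^ j)⁻¹) * v⁻¹ := by
              rw [pow_succ']; group
          _ = x := by rw [ih.2, hvx]
  obtain ⟨hLz, hLx⟩ := hvk k
  rw [hk] at hLz
  set L := v ^ k with hL
  -- `w = u L u`, `t = w²`
  have hzx : z₁ * x⁻¹ = x⁻¹ * z₁ := hOc _ (hZOm hz₁Z) _ (inv_mem hxOm)
  set w := u * L * u with hw
  have hwx : w * x * w⁻¹ = z₁ := by
    calc w * x * w⁻¹ = u * (L * (u * x * u⁻¹) * L⁻¹) * u⁻¹ := by rw [hw]; group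
      _ = u * ((L * z₁ * L⁻¹) * (L * x * L⁻¹)) * u⁻¹ := by rw [hUx]; group
      _ = u * (z₁ * x⁻¹ * x) * u⁻¹ := by rw [hLz, hLx]
      _ = u * z₁ * u⁻¹ := by group
      _ = z₁ := hUz
  have hwz : w * z₁ * w⁻¹ = x⁻¹ := by
    calc w * z₁ * w⁻¹ = u * (L * (u * z₁ * u⁻¹) * L⁻¹) * u⁻¹ := by rw [hw]; group
      _ = u * (z₁ * x⁻¹) * u⁻¹ := by rw [hUz, hLz]
      _ = (u * z₁ * u⁻¹) * (u * x * u⁻¹)⁻¹ := by group
      _ = z₁ * (z₁ * x)⁻¹ := by rw [hUz, hUx]
      _ = z₁ * x⁻¹ * z₁⁻¹ := by group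
      _ = x⁻¹ := by rw [hzx]; group
  set t := w * w with ht
  have htx : t * x * t⁻¹ = x⁻¹ := by
    calc t * x * t⁻¹ = w * (w * x * w⁻¹) * w⁻¹ := by rw [ht]; group
      _ = x⁻¹ := by rw [hwx, hwz]
  have htz : t * z₁ * t⁻¹ = z₁⁻¹ := by
    calc t * z₁ * t⁻¹ = w * (w * z₁ * w⁻¹) * w⁻¹ := by rw [ht]; group
      _ = (w * x * w⁻¹)⁻¹ := by rw [hwz]; group
      _ = z₁⁻¹ := by rw [hwx]
  have hinv : ∀ a ∈ Om, t * a * t⁻¹ = a⁻¹ := by
    intro a ha
    let I : Subgroup G :=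
      { carrier := {a | a ∈ Om ∧ t * a * t⁻¹ = a⁻¹}
        one_mem' := ⟨one_mem _, by simp⟩
        mul_mem' := by
          rintro a b ⟨ha, ha'⟩ ⟨hb, hb'⟩
          refine ⟨mul_mem ha hb, ?_⟩
          calc t * (a * b) * t⁻¹ = (t * a * t⁻¹) * (t * b * t⁻¹) := by group
            _ = a⁻¹ * b⁻¹ := by rw [ha', hb']
            _ = (a * b)⁻¹ := by rw [mul_inv_rev, hOc _ (inv_mem hb) _ (inv_mem ha)]
        inv_mem' := by
          rintro a ⟨ha, ha'⟩
          refine ⟨inv_mem ha, ?_⟩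
          calc t * a⁻¹ * t⁻¹ = (t * a * t⁻¹)⁻¹ := by group
            _ = a⁻¹⁻¹ := by rw [ha'] }
    have hle : Om ≤ I := by
      rw [← hspan x hxOm hxZ]
      refine sup_le (zpowers_le.2 ⟨hxOm, htx⟩) ?_
      rw [← hZgen z₁ hz₁Z hz₁ne]
      exact zpowers_le.2 ⟨hZOm hz₁Z, htz⟩
    exact (hle ha).2
  -- move into the normalizer of `P`
  set C := centralizer (Om : Set G) with hC
  have hPN : P₀ ≤ normalizer (Om : Set G) := by
    have hk : ∀ b ∈ P₀, ∀ a ∈ Om, b * a * b⁻¹ ∈ Om := fun b hb a ha =>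
      ⟨mul_mem (mul_mem hb ha.1) (inv_mem hb), by rw [conj_pow, ha.2, mul_one, mul_inv_cancel]⟩
    intro b hb
    refine mem_normalizer_iff.2 fun a => ⟨hk b hb a, fun ha => ?_⟩
    have := hk b⁻¹ (inv_mem hb) _ ha
    simpa [mul_assoc] using this
  have hPC : P₀ ≤ normalizer (C : Set G) := by
    intro b hb
    refine mem_normalizer_iff.2 fun c => ?_
    have hbN := hPN hb
    simp only [hC, mem_centralizer_iff]
    constructor
    · intro hc a ha
      have hwm : b⁻¹ * a * b ∈ Om := by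
        have := (inv_mem hbN a).1 ha
        simpa using this
      calc a * (b * c * b⁻¹) = b * ((b⁻¹ * a * b) * c) * b⁻¹ := by group
        _ = b * (c * (b⁻¹ * a * b)) * b⁻¹ := by rw [hc _ hwm]
        _ = b * c * b⁻¹ * a := by group
    · intro hc a ha
      have hwm : b * a * b⁻¹ ∈ Om := (hbN a).1 ha
      calc a * c = b⁻¹ * ((b * a * b⁻¹) * (b * c * b⁻¹)) * b := by group
        _ = b⁻¹ * ((b * c * b⁻¹) * (b * a * b⁻¹)) * b := by rw [hc _ hwm]
        _ = c * a := by group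
  have hconjP : ((t • P : Sylow p G) : Subgroup G) ≤ C ⊔ P₀ := by
    rintro _ ⟨b, hb, rfl⟩
    show t * b * t⁻¹ ∈ C ⊔ P₀
    have hbc : t * b * t⁻¹ * b⁻¹ ∈ C := by
      refine mem_centralizer_iff.2 fun a ha => ?_
      have h1 : b⁻¹ * a * b ∈ Om := by
        have := (inv_mem (hPN hb) a).1 ha
        simpa using this
      have h2 : t⁻¹ * (b⁻¹ * a * b) * t = (b⁻¹ * a * b)⁻¹ := by
        conv_lhs => rw [← inv_inv (b⁻¹ * a * b), ← hinv _ h1]
        group
      have h3 : t * b * t⁻¹ * b⁻¹ * a * (t * b * t⁻¹ * b⁻¹)⁻¹ = a := by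
        calc t * b * t⁻¹ * b⁻¹ * a * (t * b * t⁻¹ * b⁻¹)⁻¹
            = t * b * (t⁻¹ * (b⁻¹ * a * b) * t) * b⁻¹ * t⁻¹ := by group
          _ = t * b * (b⁻¹ * a * b)⁻¹ * b⁻¹ * t⁻¹ := by rw [h2]
          _ = (t * a * t⁻¹)⁻¹ := by group
          _ = a := by rw [hinv a ha, inv_inv]
      calc a * (t * b * t⁻¹ * b⁻¹) = (t * b * t⁻¹ * b⁻¹ * a * (t * b * t⁻¹ * b⁻¹)⁻¹) * (t * b * t⁻¹ * b⁻¹) := by rw [h3]
        _ = _ := by group
    simpa using mul_mem (mem_sup_left hbc : t * b * t⁻¹ * b⁻¹ ∈ C ⊔ P₀) (mem_sup_right hb)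
  obtain ⟨h, hh, hhs⟩ := H75.exists_smul_eq_of_le (S := P) (T := t • P) le_sup_right hconjP
  rw [← SetLike.mem_coe, coe_mul_of_right_le_normalizer_left C P₀ hPC] at hh
  obtain ⟨c, hc, s, hs, rfl⟩ := hh
  rw [mul_smul, Sylow.smul_eq_iff_mem_normalizer.2 (le_normalizer hs)] at hhs
  set t' := c⁻¹ * t with ht'
  have ht'N : t' ∈ normalizer (P₀ : Set G) :=
    Sylow.smul_eq_iff_mem_normalizer.1 (by rw [ht', mul_smul, ← hhs, inv_smul_smul])
  have ht'inv : ∀ a ∈ Om, t' * a * t'⁻¹ = a⁻¹ := by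
    intro a ha
    have hca : a⁻¹ * c = c * a⁻¹ := mem_centralizer_iff.1 hc a⁻¹ (inv_mem ha)
    calc t' * a * t'⁻¹ = c⁻¹ * (t * a * t⁻¹) * c := by rw [ht']; group
      _ = c⁻¹ * (a⁻¹ * c) := by rw [hinv a ha]; group
      _ = a⁻¹ := by rw [hca]; group
  set u' := t' * u * t'⁻¹ with hu'
  have hu'P : u' ∈ P₀ := (ht'N u).1 hu
  have hcu : ⁅u', x⁆ = z₁ := by
    have h1 : ⁅u', x⁻¹⁆ = z₁⁻¹ := by
      calc ⁅u', x⁻¹⁆ = ⁅t' * u * t'⁻¹, t' * x * t'⁻¹⁆ := by rw [ht'inv x hxOm]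
        _ = t' * ⁅u, x⁆ * t'⁻¹ := by rw [commutatorElement_def, commutatorElement_def]; group
        _ = z₁⁻¹ := by rw [← hz₁, ht'inv z₁ (hZOm hz₁Z)]
    have h2 : u' * x⁻¹ * u'⁻¹ = z₁⁻¹ * x⁻¹ := by rw [← h1, commutatorElement_def]; group
    calc ⁅u', x⁆ = (u' * x⁻¹ * u'⁻¹)⁻¹ * x⁻¹ := by rw [commutatorElement_def]; group
      _ = (x * z₁) * x⁻¹ := by rw [h2]; group
      _ = z₁ := by rw [hOc x hxOm z₁ (hZOm hz₁Z)]; group
  have hd : u⁻¹ * u' ∈ Om := by
    refine hCx _ (mul_mem (inv_mem hu) hu'P) ?_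
    have h1 : u' * x * u'⁻¹ = u * x * u⁻¹ := by rw [hUx, ← hcu, commutatorElement_def]; group
    calc u⁻¹ * u' * x = u⁻¹ * (u' * x * u'⁻¹) * u' := by group
      _ = x * (u⁻¹ * u') := by rw [h1]; group
  have hpow : u' ^ p = u ^ p := by
    have e1 : u' = u * (u⁻¹ * u') := by group
    rw [e1, hmulpow u hu _ (hOmP hd), hd.2, mul_one]
  have hupO : u ^ p ∈ Om := by
    refine hZOm (hZmem _ (pow_mem hu p) fun a ha => ?_)
    have hc : Commute ⁅u, a⁆ u := (hZc _ (hcomm u hu a ha) u hu).symm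
    have h1 : ⁅u ^ p, a⁆ = 1 := by rw [H23.commutator_pow_left hc, hZpow _ (hcomm u hu a ha)]
    exact (commutatorElement_eq_one_iff_mul_comm.1 h1).symm
  have h2 : u' ^ p = (u ^ p)⁻¹ := by rw [hu', conj_pow, ht'inv _ hupO]
  rw [hpow] at h2
  have h3 : (u ^ p) ^ 2 = 1 := by
    rw [pow_two]
    nth_rewrite 1 [h2]
    exact inv_mul_cancel _
  have h4 : u ^ p = 1 := by
    have hd2 := orderOf_dvd_of_pow_eq_one h3
    have hdp := orderOf_dvd_of_pow_eq_one hupO.2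
    exact orderOf_eq_one_iff.1 (Nat.eq_one_of_dvd_coprimes
      ((Nat.coprime_primes hpp Nat.prime_two).2 hp) hdp hd2)
  exact huO ⟨hu, h4⟩

end Cfsg.Agent.S3053
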