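import Cfsg.Statements.S3054
import Cfsg.Agent.H75.ExtraspecialFusion

set_option autoImplicit false
set_option linter.all false
open Cfsg

namespace Cfsg.Agent.S3054
open Cfsg.Agent.H75

/-- Let p be an odd prime and G a finite group with a Sylow p-subgroup P that is extraspecial of order p³ and exponent p. Suppose P contains three distinct subgroups A of order p² (each is elementary abelian of rank 2) such that every automorphism of A of order p is induced by conjugation by an element of G; equivalently the automorphism group induced on A by its normalizer contains the special linear group of A. Then p ≤ 13. -/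
theorem result {G : Type*} [Group G] [Finite G]
    {p : ℕ} [Fact p.Prime] (hp : p ≠ 2) (P : Sylow p G) (hE : Cfsg.IsExtraspecial p ↥P)
    (hcard : Nat.card P = p ^ 3) (hexp : Monoid.exponent ↥P = p)
    (A : Fin 3 → Subgroup G) (hA : Function.Injective A) (hAP : ∀ i, A i ≤ (P : Subgroup G))
    (hAcard : ∀ i, Nat.card ↥(A i) = p ^ 2)
    (hSL : ∀ i, ∀ φ : MulAut ↥(A i), orderOf φ = p → ∃ g : G, ∀ a : ↥(A i), (φ a : G) = g * (a : G) * g⁻¹) :
    p ≤ 13 := by
  classical
  replace hE : Cfsg.IsExtraspecial p (P : Subgroup G) := hE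
  replace hexp : Monoid.exponent (P : Subgroup G) = p := hexp
  by_contra hp13
  push Not at hp13
  have hpp : p.Prime := Fact.out
  have hp17 : 17 ≤ p := by
    by_contra h
    interval_cases p <;> norm_num at hpp
  obtain ⟨c, hc, hsurj, hker⟩ := esp_coord hE hcard hexp
  have hP2 : IsPGroup p (P : Subgroup G) := P.2
  have hexp' : ∀ x ∈ (P : Subgroup G), x ^ p = 1 := fun x hx => by
    have h := Monoid.pow_exponent_eq_one (⟨x, hx⟩ : (P : Subgroup G))
    rw [hexp] at h
    simpa using congrArg Subtype.val h
  obtain ⟨ρ, hρ, hcop⟩ := esp_rep hc hsurj hker (le_of_eq hE.1.2.2) P.not_dvd_index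
  obtain ⟨z, hz, hz1⟩ := Cfsg.Agent.H24.espec_exists_center hE
  set A' : Fin 3 → Subgroup P := fun i => (A i).subgroupOf P with hA'
  have hA'card : ∀ i, Nat.card (A' i) = p ^ 2 := fun i => by
    rw [Nat.card_congr (Subgroup.subgroupOfEquivOfLe (hAP i)).toEquiv]; exact hAcard i
  have hA'inj : ∀ i j, A' i = A' j → i = j := fun i j h => hA (by
    rw [← Subgroup.map_subgroupOf_eq_of_le (hAP i), ← Subgroup.map_subgroupOf_eq_of_le (hAP j)]
    exact congrArg _ h)
  have hstr := fun i => esp_sq_subgroup hE hcard (hA'card i)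
  have hex : ∀ i, ∃ a ∈ A' i, a ∉ Subgroup.center P := fun i => by
    refine SetLike.not_le_iff_exists.mp fun h => ?_
    have := Nat.le_of_dvd Nat.card_pos (Subgroup.card_dvd_of_le h)
    rw [hA'card, hE.2, pow_two] at this
    have := Nat.le_of_mul_le_mul_left (a := p) (this.trans (mul_one p).ge) hpp.pos
    omega
  choose a haA hac using hex
  have hdet : ∀ i j, i ≠ j → det2 (c (a i)) (c (a j)) ≠ 0 := by
    intro i j hij
    refine det2_ne_zero_of_notMem hc hker (hstr i).1 (haA i) (hac i) fun hj => hij (hA'inj i j ?_)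
    refine (Subgroup.eq_of_le_of_card_ge ?_ (by rw [hA'card, hA'card])).symm
    rw [← (hstr j).2 z hz hz1 (a j) (haA j) (hac j)]
    exact (Subgroup.closure_le _).mpr (by rintro x (rfl | rfl); exacts [(hstr i).1 hz, hj])
  refine not_three_torus hp hcop (Or.inl hp17) (fun i => c (a i)) hdet fun i => ?_
  refine esp_hasTorus hP2 P.not_dvd_index hE hcard hexp' (by omega) hc hker hρ hz hz1 (hac i) ?_
  -- the shear automorphism of `A i`
  set za : A i := ⟨(z : G), (hstr i).1 hz⟩ with hza
  set aa : A i := ⟨(a i : G), haA i⟩ with haa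
  have hzp : za ^ p = 1 := Subtype.ext (by simpa [hza] using hexp' _ z.2)
  have hap : aa ^ p = 1 := Subtype.ext (by simpa [haa] using hexp' _ (a i).2)
  have hcomm : IsMulCommutative (A i) := IsPGroup.isMulCommutative_of_card_eq_prime_sq (hAcard i)
  let ψ₀ : Multiplicative (ZMod p × ZMod p) →* A i :=
    { toFun := fun x => zpw za (Multiplicative.toAdd x).1 * zpw aa (Multiplicative.toAdd x).2
      map_one' := by simp [zpw_zero]
      map_mul' := fun x y => by
        simp only [toAdd_mul, Prod.fst_add, Prod.snd_add, zpw_add hzp, zpw_add hap]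
        rw [mul_assoc, mul_assoc]; congr 1
        rw [← mul_assoc, ← mul_assoc, hcomm.is_comm.comm (zpw za _) (zpw aa _)] }
  have hψ : Function.Bijective ψ₀ := by
    have hsurj' : Function.Surjective ψ₀ := by
      intro y
      have hy : (⟨(y : G), hAP i y.2⟩ : P) ∈ Subgroup.closure ({z, a i} : Set P) := by
        rw [(hstr i).2 z hz hz1 (a i) (haA i) (hac i)]; exact y.2
      have hle : Subgroup.closure ({z, a i} : Set P) ≤
          ((ψ₀.range).map (A i).subtype).comap (P : Subgroup G).subtype := by
        refine (Subgroup.closure_le _).mpr ?_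
        rintro x (rfl | rfl)
        · exact ⟨za, ⟨Multiplicative.ofAdd (1, 0), by simp [ψ₀, zpw_one, zpw_zero]⟩, rfl⟩
        · exact ⟨aa, ⟨Multiplicative.ofAdd (0, 1), by simp [ψ₀, zpw_one, zpw_zero]⟩, rfl⟩
      obtain ⟨w, ⟨x, hx⟩, hw⟩ := hle hy
      exact ⟨x, hx.trans (Subtype.ext hw)⟩
    exact hsurj'.bijective_of_nat_card_le (by
      rw [Nat.card_congr Multiplicative.toAdd, Nat.card_prod, Nat.card_zmod, hAcard, pow_two])
  set ψ := MulEquiv.ofBijective ψ₀ hψ with hψdef
  let sh : MulAut (Multiplicative (ZMod p × ZMod p)) :=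
    { toFun := fun x => Multiplicative.ofAdd ((Multiplicative.toAdd x).1, (Multiplicative.toAdd x).2 + (Multiplicative.toAdd x).1)
      invFun := fun x => Multiplicative.ofAdd ((Multiplicative.toAdd x).1, (Multiplicative.toAdd x).2 - (Multiplicative.toAdd x).1)
      left_inv := fun x => by simp
      right_inv := fun x => by simp
      map_mul' := fun x y => Multiplicative.toAdd.injective (by
        simp only [toAdd_mul, toAdd_ofAdd]; ext <;> simp <;> ring) }
  have hshn : ∀ (n : ℕ) (i' j' : ZMod p), (sh ^ n) (Multiplicative.ofAdd (i', j')) = Multiplicative.ofAdd (i', j' + n * i') := by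
    intro n
    induction n with
    | zero => simp
    | succ n ih =>
      intro i' j'
      rw [pow_succ', MulAut.mul_apply, ih]
      show Multiplicative.ofAdd (i', j' + n * i' + i') = _
      push_cast; ring_nf
  have hord : orderOf (MulAut.congr ψ sh) = p := by
    rw [MulEquiv.orderOf_eq]
    refine orderOf_eq_prime (MulEquiv.ext fun x => ?_) fun h => ?_
    · obtain ⟨⟨i', j'⟩, rfl⟩ := Multiplicative.ofAdd.surjective x
      rw [hshn]; simp
    · have := DFunLike.congr_fun h (Multiplicative.ofAdd ((1 : ZMod p), (0 : ZMod p)))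
      simp [sh] at this
  obtain ⟨g, hg⟩ := hSL i _ hord
  have h1 : MulAut.congr ψ sh za = za * aa := by
    have e : ψ (Multiplicative.ofAdd (1, 0)) = za := by simp [hψdef, ψ₀, zpw_one, zpw_zero]
    show ψ (sh (ψ.symm za)) = _
    rw [show ψ.symm za = Multiplicative.ofAdd (1, 0) by rw [← e, MulEquiv.symm_apply_apply]]
    simp [hψdef, sh, ψ₀, zpw_one]
  have h2 : MulAut.congr ψ sh aa = aa := by
    have e : ψ (Multiplicative.ofAdd (0, 1)) = aa := by simp [hψdef, ψ₀, zpw_one, zpw_zero]
    show ψ (sh (ψ.symm aa)) = _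
    rw [show ψ.symm aa = Multiplicative.ofAdd (0, 1) by rw [← e, MulEquiv.symm_apply_apply]]
    simp [hψdef, sh, ψ₀, zpw_one, zpw_zero]
  refine ⟨g, ?_, ?_⟩
  · have := hg aa
    rw [h2] at this
    exact this.symm
  · have := hg za
    rw [h1] at this
    exact this.symm

end Cfsg.Agent.S3054
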