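import Cfsg.Statements.S3055
import Cfsg.Agent.H75.ExtraspecialFusion

set_option autoImplicit false
set_option linter.all false
open Cfsg

namespace Cfsg.Agent.S3055
open Cfsg.Agent.H75

/-- Let p be an odd prime and G a finite group with a Sylow p-subgroup P that is extraspecial of order p³ and exponent p. If all nonidentity elements of P are conjugate in G, then p ≤ 7. -/
theorem result {G : Type*} [Group G] [Finite G]
    {p : ℕ} [Fact p.Prime] (hp : p ≠ 2) (P : Sylow p G) (hE : Cfsg.IsExtraspecial p ↥P)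
    (hcard : Nat.card P = p ^ 3) (hexp : Monoid.exponent ↥P = p)
    (hconj : ∀ x y : ↥P, x ≠ 1 → y ≠ 1 → ∃ g : G, g * (x : G) * g⁻¹ = (y : G)) :
    p ≤ 7 := by
  by_contra hp7
  push Not at hp7
  have hpp : p.Prime := Fact.out
  have hp11 : 17 ≤ p ∨ p = 11 ∨ p = 13 := by
    by_contra h
    push Not at h
    obtain ⟨h1, h2, h3⟩ := h
    interval_cases p <;> first | omega | norm_num at hpp
  obtain ⟨c, hc, hsurj, hker⟩ := esp_coord hE hcard hexp
  have hP2 : IsPGroup p (P : Subgroup G) := P.2
  have hexp' : ∀ x ∈ (P : Subgroup G), x ^ p = 1 := fun x hx => by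
    have h := Monoid.pow_exponent_eq_one (⟨x, hx⟩ : P)
    rw [hexp] at h
    simpa using congrArg Subtype.val h
  obtain ⟨ρ, hρ, hcop⟩ := esp_rep hc hsurj hker (le_of_eq hE.1.2.2) P.not_dvd_index
  obtain ⟨z, hz, hz1⟩ := Cfsg.Agent.H24.espec_exists_center hE
  have htor : ∀ v : Fin 2 → ZMod p, v ≠ 0 → HasTorus ρ.range v := by
    intro v hv
    obtain ⟨a, rfl⟩ := hsurj v
    have ha : a ∉ Subgroup.center _ := fun h => hv ((hker a).mpr h)
    exact esp_hasTorus hP2 P.not_dvd_index hE hcard hexp' (by omega) hc hker hρ hz hz1 ha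
      (esp_transvection_of_conj hE hz hz1 ha (hconj z a hz1 fun h => ha (h ▸ one_mem _)))
  rcases hp11 with h | h | h
  · refine not_three_torus (by omega) hcop (Or.inl h) ![![1, 0], ![0, 1], ![1, 1]] ?_ fun i => htor _ ?_
    · intro i j hij; fin_cases i <;> fin_cases j <;> simp_all [det2]
    · fin_cases i <;> simp
  · refine not_three_torus (by omega) hcop (Or.inr h) ![![1, 0], ![0, 1], ![1, 1]] ?_ fun i => htor _ ?_
    · intro i j hij; fin_cases i <;> fin_cases j <;> simp_all [det2]
    · fin_cases i <;> simp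
  · refine not_all_torus hcop h (fun i : Fin 13 => ![1, ((i : ℕ) : ZMod p)]) ?_ fun i => htor _ ?_
    · intro i j hij h0
      refine hij (Fin.ext ?_)
      have h1 : ((j : ℕ) : ZMod p) = ((i : ℕ) : ZMod p) := by
        simp [det2, sub_eq_zero] at h0; exact h0
      have h2 := congrArg ZMod.val h1
      rw [ZMod.val_natCast_of_lt (by omega), ZMod.val_natCast_of_lt (by omega)] at h2
      exact h2.symm
    · simp

end Cfsg.Agent.S3055
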