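import Cfsg.Statements.S3057
import Cfsg.Agent.H61.RankOneSpe

set_option autoImplicit false
open Cfsg Cfsg.Agent Cfsg.Agent.H61

namespace Cfsg.Agent.S3057

/-- Let p be a prime and G a finite p-solvable group of order divisible by p, with Sylow p-subgroup P. Then the Sylow p-subgroups of G fail to be chain-connected through nontrivial intersections (equivalently, G has a strongly p-embedded subgroup) if and only if O_p(G) = 1 and P is cyclic or, for p = 2, generalized quaternion. -/
theorem result {G : Type*} [Group G] [Finite G]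
    (p : ℕ) [Fact p.Prime] (hdiv : p ∣ Nat.card G) (hsol : Cfsg.IsPSolvable p G) (P : Sylow p G) :
    ¬ Cfsg.IsSylowChainConnected p G ↔
      Cfsg.pCore p G = ⊥ ∧ (IsCyclic ↥P ∨ (p = 2 ∧ ∃ n : ℕ, Nonempty (↥P ≃* QuaternionGroup (2 ^ n)))) := by
  constructor
  · intro h
    obtain ⟨h1, h2⟩ := rankOne_of_not_connected hdiv hsol P h
    exact ⟨h1, H21.cyclic_or_quaternion p P.2 h2⟩
  · rintro ⟨h1, h2⟩
    exact not_connected_of_rankOne hdiv P h1 (unique_of_cyclic_or_quaternion h2)

end Cfsg.Agent.S3057
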