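import Cfsg.Statements.S3059
import Cfsg.Agent.H75.SylowGraph
import Mathlib
import Cfsg.Agent.H22.PResidual

set_option autoImplicit false
set_option linter.all false
open Cfsg

namespace Cfsg.Agent.S3059
open Cfsg.Agent.H75


/-- Let p be a prime and H a strongly p-embedded subgroup of the finite group G in the classical sense: H is proper, p divides the order of H, and H ∩ gHg⁻¹ has order prime to p for every g outside H. Then for every normal subgroup N of G of order divisible by p, G = H · O^p(N), where O^p(N) is the subgroup generated by the elements of N of order prime to p. -/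
theorem result {G : Type*} [Group G] [Finite G]
    (p : ℕ) [Fact p.Prime] (H : Subgroup G) (hH : H ≠ ⊤) (hpH : p ∣ Nat.card H)
    (hse : ∀ g : G, g ∉ H → ¬ p ∣ Nat.card ↥(H ⊓ H.map (MulAut.conj g).toMonoidHom))
    (N : Subgroup G) [N.Normal] (hN : p ∣ Nat.card N) :
    H ⊔ Subgroup.closure {g : G | g ∈ N ∧ (orderOf g).Coprime p} = ⊤ := by
  have hH' : IsClassicalSPE p H := ⟨hH, hpH, hse⟩
  obtain ⟨S, hS1, hSH⟩ := hH'.exists_sylow_le
  obtain ⟨Q, hQ⟩ := exists_sylow_normal_le N S
  have hP₁ : (S : Subgroup G) ⊓ N ≠ ⊥ := inf_sylow_ne_bot N hN S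
  set R := Subgroup.closure {g : G | g ∈ N ∧ (orderOf g).Coprime p} with hR
  have hfr := Sylow.normalizer_sup_eq_top Q
  rw [hQ] at hfr
  have hn := hH'.normalizer_le (inf_le_left.trans hSH) (dvd_card_of_ne_bot (S.2.to_le inf_le_left) hP₁)
  have hRN : R ≤ N := (Subgroup.closure_le _).mpr fun g hg => hg.1
  have hNR : N ≤ H ⊔ R := by
    have hmap : (Cfsg.pResidual p N).map N.subtype = R := by
      rw [hR, Cfsg.pResidual, MonoidHom.map_closure]
      congr 1
      ext g
      constructor
      · rintro ⟨x, hx, rfl⟩; exact ⟨x.2, by rw [Subgroup.coe_subtype, Subgroup.orderOf_coe]; exact hx⟩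
      · rintro ⟨h1, h2⟩; exact ⟨⟨g, h1⟩, by rw [Set.mem_ofPred_eq, ← Subgroup.orderOf_coe]; exact h2, rfl⟩
    have htop := congrArg (Subgroup.map N.subtype) (Cfsg.Agent.H22.pResidual_sup_sylow Q)
    rw [Subgroup.map_sup, hmap, hQ, ← MonoidHom.range_eq_map, Subgroup.range_subtype] at htop
    rw [← htop]
    exact sup_le le_sup_right ((inf_le_left.trans hSH).trans le_sup_left)
  rw [eq_top_iff, ← hfr]
  exact sup_le (hn.trans le_sup_left) hNR

end Cfsg.Agent.S3059
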