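import Cfsg.Statements.S3060
import Cfsg.Agent.H75.DStar
import Cfsg.Agent.H35.ZJ
import Cfsg.Agent.H51.Basic

set_option autoImplicit false
set_option linter.all false
open Cfsg

namespace Cfsg.Agent.S3060

open Subgroup
open scoped commutatorElement Pointwise

/-- Membership of the `D*`-family, read inside the ambient group. -/
def FamIn {G : Type*} [Group G] (T A : Subgroup G) : Prop :=
  A ≤ T ∧ IsMulCommutative A ∧ ∀ x ∈ T,
    ⁅⁅A ⊔ zpowers x, A ⊔ zpowers x⁆, A ⊔ zpowers x⁆ = ⊥ → ∀ a ∈ A, a * x = x * a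

theorem famIn_dStarOf {G : Type*} [Group G] [Finite G] {p : ℕ} [Fact p.Prime] (S : Subgroup G)
    (hS : IsPGroup p S) : FamIn S (Cfsg.dStarOf S) := by
  have hmem := H75.dStar_mem hS
  refine ⟨map_subtype_le _, H35.isMulCommutative_of_forall ?_, ?_⟩
  · rintro _ ⟨a, ha, rfl⟩ _ ⟨b, hb, rfl⟩
    rw [← map_mul, H35.commute_of_mem_isMulCommutative hmem.1 ha hb, map_mul]
  rintro x hx hcl _ ⟨a, ha, rfl⟩
  have hT : Cfsg.dStarOf S ⊔ zpowers x =
      (Cfsg.dStar S ⊔ zpowers (⟨x, hx⟩ : S)).map S.subtype := by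
    rw [Subgroup.map_sup, MonoidHom.map_zpowers]; rfl
  rw [hT, ← map_commutator, ← map_commutator,
    Subgroup.map_eq_bot_iff_of_injective _ S.subtype_injective] at hcl
  exact congrArg Subtype.val (hmem.2 ⟨x, hx⟩ hcl a ha)

theorem famIn_le_dStarOf {G : Type*} [Group G] {T A : Subgroup G} (h : FamIn T A) :
    A ≤ Cfsg.dStarOf T := by
  intro a ha
  refine ⟨⟨a, h.1 ha⟩, (le_sSup ?_ : A.subgroupOf T ≤ Cfsg.dStar T) ha, rfl⟩
  refine ⟨H35.isMulCommutative_of_forall fun x hx y hy =>
    Subtype.ext (H35.commute_of_mem_isMulCommutative h.2.1 hx hy), fun x hcl b hb => Subtype.ext ?_⟩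
  refine h.2.2 x x.2 ?_ b hb
  have hT : A ⊔ zpowers (x : G) = (A.subgroupOf T ⊔ zpowers x).map T.subtype := by
    rw [Subgroup.map_sup, MonoidHom.map_zpowers, subgroupOf_map_subtype, inf_of_le_left h.1]; rfl
  rw [hT, ← map_commutator, ← map_commutator, hcl, Subgroup.map_bot]


/-- The D*-Theorem. For a finite p-group S let D*(S) be the subgroup generated by the abelian subgroups A of S such that every x ∈ S with ⟨A, x⟩ of nilpotency class at most two centralizes A. Let p be an odd prime and H a finite p-stable group with Sylow p-subgroup S. Here H is p-stable in the following sense: the largest normal p-subgroup O_p(H) contains its centralizer in H, and for every normal p-subgroup P of H, every element acting quadratically on P has image in O_p(H/C_H(P)). Then D*(S) is a normal subgroup of H. -/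
theorem result {G : Type*} [Group G] [Finite G] {p : ℕ} [Fact p.Prime] (hp : p ≠ 2)
    (hc : Subgroup.centralizer (Cfsg.pCore p G : Set G) ≤ Cfsg.pCore p G)
    (hst : ∀ (P : Subgroup G) [P.Normal], IsPGroup p P → Cfsg.IsPStableOn p P) (S : Sylow p G) :
    (Cfsg.dStarOf (S : Subgroup G)).Normal := by
  classical
  set D := Cfsg.dStarOf (S : Subgroup G) with hD
  obtain ⟨hDS, hDc, hDf⟩ := famIn_dStarOf (S : Subgroup G) S.isPGroup'
  set Q := Cfsg.pCore p G with hQ
  haveI hQn : Q.Normal := H51.pCore_normal p G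
  have hQp : IsPGroup p Q := H35.isPGroup_pCore p G
  have hQS : Q ≤ (S : Subgroup G) := H35.pCore_le_sylow S
  have hDN : (S : Subgroup G) ≤ normalizer (D : Set G) := by
    haveI := H75.dStar_characteristic (S := (S : Subgroup G))
    refine (normal_subgroupOf_iff_le_normalizer hDS).1 ?_
    rw [Cfsg.dStarOf, subgroupOf, comap_map_eq_self_of_injective (S : Subgroup G).subtype_injective]
    infer_instance
  -- elements acting quadratically on a normal `p`-subgroup
  have quad : ∀ V : Subgroup G, ∀ [V.Normal], IsPGroup p V → ∀ x : G,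
      ⁅⁅V, zpowers x⁆, zpowers x⁆ = ⊥ →
      x ∈ (Cfsg.pCore p (G ⧸ centralizer (V : Set G))).comap (QuotientGroup.mk' (centralizer (V : Set G))) :=
    fun V _ hV x hx => mem_comap.2 (hst V hV x hx)
  -- `D ≤ O_p(G)`
  have hDQ : D ≤ Q := by
    intro d hd
    have hq : ⁅⁅Q, zpowers d⁆, zpowers d⁆ = ⊥ := by
      have hzd : zpowers d ≤ D := zpowers_le.2 hd
      have h1 : ⁅Q, D⁆ ≤ D := commutator_le.2 fun x hx y hy => by
        have := mul_mem ((hDN (hQS hx) y).1 hy) (inv_mem hy)
        simpa [commutatorElement_def] using this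
      refine le_bot_iff.1 (le_trans (commutator_mono ((commutator_mono le_rfl hzd).trans h1) hzd) ?_)
      exact (commutator_eq_bot_iff_le_centralizer.2 fun x hx => mem_centralizer_iff.2 fun y hy =>
        H35.commute_of_mem_isMulCommutative hDc hy hx).le
    have hmem := quad Q hQp d hq
    set q := QuotientGroup.mk' (centralizer (Q : Set G)) with hqdef
    have hK : IsPGroup p ((Cfsg.pCore p (G ⧸ centralizer (Q : Set G))).comap q) := by
      refine IsPGroup.comap_of_ker_isPGroup (H35.isPGroup_pCore p _) q ?_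
      rw [hqdef, QuotientGroup.ker_mk']
      exact hQp.to_le hc
    have hn : ((Cfsg.pCore p (G ⧸ centralizer (Q : Set G))).comap q).Normal :=
      (H51.pCore_normal p _).comap q
    exact (H51.le_pCore hn hK) hmem
  -- the normal closure
  set B := normalClosure (D : Set G) with hB
  have hBQ : B ≤ Q := normalClosure_le_normal hDQ
  have hBp : IsPGroup p B := hQp.to_le hBQ
  set C := centralizer (B : Set G) with hC
  haveI : C.Normal := Subgroup.normal_centralizer (H := B)
  set K := (Cfsg.pCore p (G ⧸ C)).comap (QuotientGroup.mk' C) with hKdef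
  haveI hKn : K.Normal := (H51.pCore_normal p _).comap _
  set T := (S : Subgroup G) ⊓ K with hT
  have hQK : Q ≤ K := map_le_iff_le_comap.1
    (H51.le_pCore (hQn.map _ (QuotientGroup.mk'_surjective C)) (hQp.map _))
  have hQT : Q ≤ T := le_inf hQS hQK
  have hKCT : K ≤ C ⊔ T := by
    intro k hk
    have h1 : (QuotientGroup.mk' C) k ∈ (S.mapSurjective (QuotientGroup.mk'_surjective C) : Subgroup (G ⧸ C)) :=
      H35.pCore_le_sylow _ hk
    obtain ⟨s, hs, hsk⟩ := h1
    have hc' : k⁻¹ * s ∈ C := QuotientGroup.eq.1 hsk.symm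
    have hsK : s ∈ K := by
      have hCK : C ≤ K := fun c hc0 => by
        show QuotientGroup.mk' C c ∈ Cfsg.pCore p (G ⧸ C)
        rw [QuotientGroup.mk'_apply, (QuotientGroup.eq_one_iff c).2 hc0]
        exact one_mem _
      simpa using mul_mem hk (hCK hc')
    have := mul_mem (mem_sup_right (show s ∈ T from ⟨hs, hsK⟩) : s ∈ C ⊔ T)
      (inv_mem (mem_sup_left hc' : k⁻¹ * s ∈ C ⊔ T))
    simpa using this
  have hfr : C ⊔ normalizer (T : Set G) = ⊤ := by
    have h := H35.sup_normalizer_sylow_inf S K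
    rw [← hT] at h
    rw [eq_top_iff, ← h]
    exact sup_le (hKCT.trans (sup_le_sup_left le_normalizer _)) le_sup_right
  have hfam : ∀ n ∈ normalizer (T : Set G), FamIn T (D.map (MulAut.conj n).toMonoidHom) := by
    intro n hn
    refine ⟨?_, H35.isMulCommutative_of_forall ?_, ?_⟩
    · rintro _ ⟨d, hd, rfl⟩
      exact (hn d).1 (hQT (hDQ hd))
    · rintro _ ⟨a, ha, rfl⟩ _ ⟨b, hb, rfl⟩
      rw [← map_mul, H35.commute_of_mem_isMulCommutative hDc ha hb, map_mul]
    · rintro x hx hcl _ ⟨a, ha, rfl⟩
      set y := n⁻¹ * x * n with hy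
      have hyS : y ∈ (S : Subgroup G) := by
        have := (inv_mem hn x).1 hx
        simp only [inv_inv] at this
        exact this.1
      have hxy : x = MulAut.conj n y := by simp [hy, mul_assoc]
      have hT' : D.map (MulAut.conj n).toMonoidHom ⊔ zpowers x =
          (D ⊔ zpowers y).map (MulAut.conj n).toMonoidHom := by
        rw [Subgroup.map_sup, MonoidHom.map_zpowers, hxy]; rfl
      rw [hT', ← map_commutator, ← map_commutator,
        Subgroup.map_eq_bot_iff_of_injective _ (MulAut.conj n).injective] at hcl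
      rw [hxy]
      show (MulAut.conj n) a * (MulAut.conj n) y = (MulAut.conj n) y * (MulAut.conj n) a
      rw [← map_mul, hDf y hyS hcl a ha, map_mul]
  have hBgen : B ≤ ⨆ n : normalizer (T : Set G), D.map (MulAut.conj (n : G)).toMonoidHom := by
    refine (closure_le _).2 fun z hz => ?_
    obtain ⟨d, hd, hdz⟩ := Group.mem_conjugatesOfSet_iff.1 hz
    obtain ⟨g, rfl⟩ := isConj_iff.1 hdz
    obtain ⟨c, hc', n, hn, rfl⟩ := mem_sup_of_normal_left.1 (hfr.symm ▸ mem_top g : g ∈ C ⊔ normalizer (T : Set G))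
    refine mem_iSup_of_mem (⟨n, hn⟩ : normalizer (T : Set G)) ⟨d, hd, ?_⟩
    have hnd : n * d * n⁻¹ ∈ B := (normalClosure_normal (s := (D : Set G))).conj_mem d (subset_normalClosure hd) n
    have := mem_centralizer_iff.1 hc' _ hnd
    show n * d * n⁻¹ = c * n * d * (c * n)⁻¹
    calc n * d * n⁻¹ = (n * d * n⁻¹ * c) * c⁻¹ := by group
      _ = c * n * d * (c * n)⁻¹ := by rw [this]; group
  have hBD : B ≤ Cfsg.dStarOf T :=
    hBgen.trans (iSup_le fun n => famIn_le_dStarOf (hfam n n.2))
  have hBc : IsMulCommutative B := by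
    have h := (famIn_dStarOf T (S.isPGroup'.to_le inf_le_left)).2.1
    exact H35.isMulCommutative_of_forall fun x hx y hy =>
      H35.commute_of_mem_isMulCommutative h (hBD hx) (hBD hy)
  have hBfam : FamIn (S : Subgroup G) B := by
    refine ⟨hBQ.trans hQS, hBc, fun x hx hcl => ?_⟩
    have hq : ⁅⁅B, zpowers x⁆, zpowers x⁆ = ⊥ := le_bot_iff.1
      ((commutator_mono (commutator_mono le_sup_left le_sup_right) le_sup_right).trans hcl.le)
    have hxT : x ∈ T := ⟨hx, quad B hBp x hq⟩
    have hle : B ≤ centralizer {x} := by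
      refine hBgen.trans (iSup_le fun n => ?_)
      have hn : D.map (MulAut.conj (n : G)).toMonoidHom ≤ B := by
        rintro _ ⟨d, hd, rfl⟩
        exact (normalClosure_normal (s := (D : Set G))).conj_mem d (subset_normalClosure hd) n
      intro b hb
      refine mem_centralizer_singleton_iff.2 ((hfam n n.2).2.2 x hxT (le_bot_iff.1 ?_) b hb)
      exact (commutator_mono (commutator_mono (sup_le_sup_right hn _) (sup_le_sup_right hn _))
        (sup_le_sup_right hn _)).trans hcl.le
    exact fun b hb => mem_centralizer_singleton_iff.1 (hle hb)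
  have heq : D = B := le_antisymm subset_normalClosure (famIn_le_dStarOf hBfam)
  rw [heq]
  exact normalClosure_normal

end Cfsg.Agent.S3060
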