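import Cfsg.Statements.S3063
import Cfsg.Agent.H75.CLInvariant

set_option autoImplicit false
set_option linter.all false
open Cfsg

namespace Cfsg.Agent.S3063
open Subgroup
open scoped Pointwise commutatorElement

/-- A weak replacement Theorem for metabelian p-groups: let S be a finite p-group whose derived subgroup is abelian and A an abelian subgroup of S of largest possible order. Then the normal closure of A in S contains an abelian subgroup B of the same order as A that is normal in S. -/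
theorem result {S : Type*} [Group S] [Finite S] {p : ℕ} [Fact p.Prime]
    (hS : IsPGroup p S) (hmeta : IsMulCommutative ↥(commutator S))
    (A : Subgroup S) (hA : A ∈ Cfsg.maxAbelianSubgroups S) :
    ∃ B ∈ Cfsg.maxAbelianSubgroups S, B.Normal ∧ B ≤ Subgroup.normalClosure (A : Set S) := by
  classical
  set V := commutator S with hV
  set N := Subgroup.normalClosure (A : Set S) with hN
  obtain ⟨B, ⟨hB, hBN⟩, hmax⟩ := Set.exists_max_image
    {B : Subgroup S | B ∈ Cfsg.maxAbelianSubgroups S ∧ B ≤ N} (fun B => Nat.card ↥(B ⊓ V))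
    (Set.toFinite _) ⟨A, hA, subset_normalClosure⟩
  refine ⟨B, hB, ⟨fun a₀ ha₀ x => ?_⟩, hBN⟩
  by_contra hx
  have hBc : ∀ a ∈ B, ∀ b ∈ B, a * b = b * a := fun a ha b hb =>
    congrArg Subtype.val (hB.1.is_comm.comm (⟨a, ha⟩ : B) ⟨b, hb⟩)
  have hVc : ∀ a ∈ V, ∀ b ∈ V, a * b = b * a := fun a ha b hb =>
    congrArg Subtype.val (hmeta.is_comm.comm (⟨a, ha⟩ : V) ⟨b, hb⟩)
  set M := Subgroup.closure ((fun a => x * a * x⁻¹ * a⁻¹) '' (B : Set S)) with hMdef
  have hMV : M ≤ V := (closure_le _).mpr (by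
    rintro _ ⟨a, -, rfl⟩
    exact commutator_mem_commutator (mem_top x) (mem_top a))
  have hMN : M ≤ N := (closure_le _).mpr (by
    rintro _ ⟨a, ha, rfl⟩
    exact N.mul_mem (Subgroup.Normal.conj_mem inferInstance a (hBN ha) x) (N.inv_mem (hBN ha)))
  set C := B ⊓ centralizer (M : Set S) with hC
  have hMM : M ≤ centralizer (M : Set S) := fun a ha => mem_centralizer_iff.mpr fun b hb => hVc b (hMV hb) a (hMV ha)
  have hMC : M ⊓ C = M ⊓ B := le_antisymm (inf_le_inf_left _ inf_le_left)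
    (le_inf inf_le_left (le_inf inf_le_right (inf_le_left.trans hMM)))
  have hm : ∀ a ∈ B, x * a * x⁻¹ * a⁻¹ ∈ M := fun a ha => subset_closure ⟨a, ha, rfl⟩
  have key : ∀ a ∈ B, ∀ b ∈ B, (x * a * x⁻¹ * a⁻¹)⁻¹ * (x * b * x⁻¹ * b⁻¹) ∈ B →
      a⁻¹ * b ∈ centralizer (M : Set S) := by
    intro a ha b hb hk
    set k := (x * a * x⁻¹ * a⁻¹)⁻¹ * (x * b * x⁻¹ * b⁻¹) with hkdef
    set c := a⁻¹ * b with hc
    have hcB : c ∈ B := B.mul_mem (B.inv_mem ha) hb
    have hxc : x * c * x⁻¹ = k * c := by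
      calc x * c * x⁻¹ = a⁻¹ * k * b := by simp only [hc, hkdef]; group
        _ = k * (a⁻¹ * b) := by rw [hBc _ (B.inv_mem ha) _ hk]; group
    have hle : M ≤ centralizer ({c} : Set S) := (closure_le _).mpr (by
      rintro _ ⟨d, hd, rfl⟩
      set m := x * d * x⁻¹ * d⁻¹ with hmdef
      have h1 : (k * c) * (m * d) = (m * d) * (k * c) := by
        rw [← hxc, show m * d = x * d * x⁻¹ by simp only [hmdef]; group]
        calc x * c * x⁻¹ * (x * d * x⁻¹) = x * (c * d) * x⁻¹ := by group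
          _ = x * (d * c) * x⁻¹ := by rw [hBc c hcB d hd]
          _ = _ := by group
      have hkm : k * m = m * k := hVc _ (hMV (M.mul_mem (M.inv_mem (hm a ha)) (hm b hb))) _ (hMV (hm d hd))
      refine mem_centralizer_singleton_iff.mpr ?_
      have h2 : k * (c * m) * d = k * (m * c) * d := by
        calc k * (c * m) * d = (k * c) * (m * d) := by group
          _ = (m * d) * (k * c) := h1
          _ = m * (d * k) * c := by group
          _ = (m * k) * (d * c) := by rw [hBc d hd k hk]; group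
          _ = (k * m) * (c * d) := by rw [hkm, hBc c hcB d hd]
          _ = k * (m * c) * d := by group
      exact (mul_left_cancel (mul_right_cancel h2)).symm)
    exact mem_centralizer_iff.mpr fun y hy => mem_centralizer_singleton_iff.mp (hle hy)
  have hidx : C.relIndex B ≤ B.relIndex M := by
    let f : B → M ⧸ B.subgroupOf M := fun a => QuotientGroup.mk ⟨x * a * x⁻¹ * (a : S)⁻¹, hm a a.2⟩
    refine Nat.card_le_card_of_injective (α := B ⧸ C.subgroupOf B) (fun q => f q.out) fun q₁ q₂ h => ?_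
    rw [← QuotientGroup.out_eq' q₁, ← QuotientGroup.out_eq' q₂, QuotientGroup.eq, mem_subgroupOf]
    have h' := QuotientGroup.eq.mp h
    exact ⟨B.mul_mem (B.inv_mem q₁.out.2) q₂.out.2, key _ q₁.out.2 _ q₂.out.2 (mem_subgroupOf.mp h')⟩
  have hab : M ⊔ C ≤ centralizer ((M ⊔ C : Subgroup S) : Set S) := by
    rw [H75.clinv_centralizer_sup]
    exact le_inf (sup_le hMM inf_le_right) (sup_le (le_centralizer_iff.mp inf_le_right)
      (inf_le_left.trans (fun a ha => mem_centralizer_iff.mpr fun b hb => hBc b hb.1 a ha)))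
  have hcard : Nat.card B ≤ Nat.card ↥(M ⊔ C) := by
    have h1 := H75.card_mul_card_le M C
    rw [hMC] at h1
    have h2 := H75.card_inf_mul_relIndex B C
    rw [inf_eq_right.mpr (inf_le_left : C ≤ B)] at h2
    have h3 := H75.card_inf_mul_relIndex M B
    refine Nat.le_of_mul_le_mul_left ?_ (Nat.card_pos (α := ↥(M ⊓ B)))
    calc Nat.card ↥(M ⊓ B) * Nat.card B = Nat.card ↥(M ⊓ B) * C.relIndex B * Nat.card C := by
          rw [← h2]; ring
      _ ≤ Nat.card ↥(M ⊓ B) * B.relIndex M * Nat.card C := by gcongr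
      _ = Nat.card M * Nat.card C := by rw [h3]
      _ ≤ _ := h1
  have hnew : M ⊔ C ∈ Cfsg.maxAbelianSubgroups S :=
    ⟨le_centralizer_iff_isMulCommutative.mp hab, fun D hD => (hB.2 D hD).trans hcard⟩
  have hle : B ⊓ V ≤ (M ⊔ C) ⊓ V := le_inf (le_trans (le_inf inf_le_left
    (fun a ha => mem_centralizer_iff.mpr fun b hb => hVc b (hMV hb) a ha.2)) le_sup_right) inf_le_right
  have := Subgroup.eq_of_le_of_card_ge hle (hmax _ ⟨hnew, sup_le hMN (inf_le_left.trans hBN)⟩)
  have h4 : x * a₀ * x⁻¹ * a₀⁻¹ ∈ B ⊓ V := this ▸ ⟨mem_sup_left (hm a₀ ha₀), hMV (hm a₀ ha₀)⟩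
  exact hx (by simpa using B.mul_mem h4.1 ha₀)

end Cfsg.Agent.S3063
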