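import Cfsg.Statements.S3067
import Cfsg.Agent.H32.CoprimeInvolution

set_option autoImplicit false
open Cfsg

namespace Cfsg.Agent.S3067

/-- Let G be a finite non-abelian simple group, τ an involution of G, and α a nontrivial automorphism of G whose order is coprime to the order of G. Then α moves some element of the centralizer of τ: α does not fix C_G(τ) elementwise. -/
theorem result {G : Type*} [Group G] [Finite G] [IsSimpleGroup G]
    (hG : ¬ IsMulCommutative G) (τ : G) (hτ : orderOf τ = 2) (α : MulAut G) (hα : α ≠ 1)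
    (hcop : (orderOf α).Coprime (Nat.card G)) :
    ∃ c ∈ Subgroup.centralizer ({τ} : Set G), α c ≠ c := by
  by_contra hcon
  push Not at hcon
  have hCtop : H32.CoprimeInvolution.fixedPts α ≠ ⊤ := fun h => hα (MulEquiv.ext fun x => by
    have hx : x ∈ H32.CoprimeInvolution.fixedPts α := h ▸ Subgroup.mem_top x
    simpa using H32.CoprimeInvolution.mem_fixedPts.mp hx)
  have hcore : (H32.CoprimeInvolution.fixedPts α).normalCore = ⊥ :=
    ((Subgroup.normalCore_normal _).eq_bot_or_eq_top).resolve_right fun h =>
      hCtop (top_le_iff.mp (h ▸ Subgroup.normalCore_le _))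
  have hiso := H32.CoprimeInvolution.isolated_of_core hcop hcon hτ hcore
  have hO : Cfsg.pPrimeCore 2 G = ⊥ := by
    refine ((H19.pPrimeCore_normal 2 G).eq_bot_or_eq_top).resolve_right fun h => ?_
    have h1 := H19.pPrimeCore_coprime (G := G) 2
    rw [h, Subgroup.card_top] at h1
    have h2 : 2 ∣ Nat.card G := hτ ▸ orderOf_dvd_natCard τ
    exact absurd h1 (fun h3 => by
      have := Nat.dvd_gcd h2 (dvd_refl 2)
      rw [Nat.Coprime] at h3
      rw [h3] at this
      omega)
  have hcen : τ ∈ Subgroup.center G := Subgroup.mem_center_iff.mpr fun g => by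
    have h1 := H28.zStar hiso g
    rw [hO, Subgroup.mem_bot] at h1
    calc g * τ = (τ * g * τ⁻¹ * g⁻¹)⁻¹ * (τ * g) := by group
      _ = τ * g := by rw [h1, inv_one, one_mul]
  have htop : Subgroup.center G = ⊤ :=
    (Subgroup.Normal.eq_bot_or_eq_top inferInstance).resolve_left fun h => by
      rw [h, Subgroup.mem_bot] at hcen
      simp [hcen] at hτ
  exact hG (IsMulCommutative.of_comm fun a b =>
    (Subgroup.mem_center_iff.mp (htop ▸ Subgroup.mem_top a) b).symm)

end Cfsg.Agent.S3067
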