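import Cfsg.Statements.S3071
import Cfsg.Agent.H75.LocalZJ

set_option autoImplicit false
set_option linter.all false
open Cfsg

namespace Cfsg.Agent.S3071

/-- Let p be an odd prime and S a Sylow p-subgroup of the finite group G such that, for every subgroup P with Z(S) ≤ P ≤ S, the normalizer N_G(P) has no section isomorphic to SL₂(p). Let J(S) be the subgroup generated by the abelian subgroups of S of largest order. Then two elements of S are conjugate in G if and only if they are conjugate in N_G(Z(J(S))). -/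
theorem result {G : Type*} [Group G] [Finite G] {p : ℕ} [Fact p.Prime]
    (hp : p ≠ 2) (S : Sylow p G)
    (hfree : ∀ P : Subgroup G, (S : Subgroup G) ⊓ Subgroup.centralizer ((S : Subgroup G) : Set G) ≤ P → P ≤ S →
      ¬ ∃ (H K : Subgroup G) (hK : (K.subgroupOf H).Normal), H ≤ Subgroup.normalizer (P : Set G) ∧
        Nonempty ((H ⧸ K.subgroupOf H) ≃* Matrix.SpecialLinearGroup (Fin 2) (ZMod p))) :
    ∀ x ∈ S, ∀ y ∈ S, (∃ g : G, g * x * g⁻¹ = y) ↔
      ∃ n ∈ Subgroup.normalizer (Cfsg.centerThompsonAOf (S : Subgroup G) : Set G), n * x * n⁻¹ = y := by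
  intro x hx y hy
  refine ⟨fun hg => ?_, fun ⟨n, _, hn⟩ => ⟨n, hn⟩⟩
  obtain ⟨g, hg⟩ := hg
  obtain ⟨n, hn, hnx⟩ := Cfsg.Agent.H75.controls_of_goodLocal true hp S (fun P h1 h2 => hfree P h1 h2)
    (fun T hTS hZT => Cfsg.Agent.H75.le_centerThompsonAOf_of_central hZT
      (inf_le_right.trans (Subgroup.centralizer_le hTS)))
    (A := Subgroup.zpowers x) (g := g) (Subgroup.zpowers_le.2 hx)
    (by
      rw [Cfsg.Agent.H61.cj, MonoidHom.map_zpowers, Subgroup.zpowers_le]
      show g * x * g⁻¹ ∈ (S : Subgroup G)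
      rw [hg]; exact hy)
  exact ⟨n, hn, (hnx x (Subgroup.mem_zpowers x)).symm.trans hg⟩

end Cfsg.Agent.S3071
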