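import Cfsg.Statements.S3073
import Cfsg.Agent.S1988
import Cfsg.Agent.H61.KInfCritical
import Cfsg.Agent.H22.PResidual

set_option autoImplicit false
set_option linter.all false
universe u
open Cfsg

namespace Cfsg.Agent.S3073

/-- In a group with a normal `p`-complement, elements of order prime to `p` centralize the
`p`-subgroups they normalize. -/
theorem mem_centralizer_of_npc {G : Type*} [Group G] [Finite G] {p : ℕ} [hp : Fact p.Prime]
    (h : Cfsg.HasNormalPComplement p G) {K : Subgroup G} (hK : IsPGroup p K) {g : G}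
    (hg : g ∈ Subgroup.normalizer (K : Set G)) (hgc : (orderOf g).Coprime p) :
    g ∈ Subgroup.centralizer (K : Set G) := by
  refine Subgroup.mem_centralizer_iff.2 fun k hk => ?_
  have hn : (Cfsg.pResidual p G).Normal := Cfsg.Agent.H22.pResidual_normal
  have hgN := (Cfsg.Agent.H22.mem_pResidual_iff_coprime h g).2 hgc
  have h1 : g * (k * g⁻¹ * k⁻¹) ∈ Cfsg.pResidual p G := mul_mem hgN (hn.conj_mem _ (inv_mem hgN) k)
  have h2 : g * (k * g⁻¹ * k⁻¹) ∈ K := by
    have := mul_mem ((hg k).1 hk) (inv_mem hk)
    simpa [mul_assoc] using this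
  have h3 := (Cfsg.Agent.H22.mem_pResidual_iff_coprime h _).1 h1
  obtain ⟨n, hn'⟩ := hK ⟨_, h2⟩
  have h4 : orderOf (g * (k * g⁻¹ * k⁻¹)) ∣ p ^ n :=
    orderOf_dvd_of_pow_eq_one (by simpa using congrArg Subtype.val hn')
  have h5 := orderOf_eq_one_iff.1
    (Nat.eq_one_of_dvd_coprimes (h3.pow_right n) dvd_rfl h4)
  have h6 := congrArg (fun z => z * (k * g)) h5
  simp [mul_assoc] at h6
  exact h6.symm


/-- For an odd prime p, every finite p-group S has a characteristic subgroup K with C_S(K) ≤ K such that, whenever S is (isomorphic to) a Sylow p-subgroup of a finite group G, G has a normal p-complement if and only if N_G(K)/C_G(K) is a p-group, i.e. every element of N_G(K) of order prime to p centralizes K (K transported into G along the isomorphism). -/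
theorem result (p : ℕ) [Fact p.Prime] (hp : p ≠ 2)
    (S : Type u) [Group S] [Finite S] (hS : IsPGroup p S) :
    ∃ K : Subgroup S, K.Characteristic ∧ Subgroup.centralizer (K : Set S) ≤ K ∧
      ∀ (G : Type u) [Group G] [Finite G] (P : Sylow p G) (e : ↥(P : Subgroup G) ≃* S),
        Cfsg.HasNormalPComplement p G ↔
          ∀ g ∈ Subgroup.normalizer (((K.comap (e : ↥(P : Subgroup G) →* S)).map (P : Subgroup G).subtype : Subgroup G) : Set G),
            (orderOf g).Coprime p →
              g ∈ Subgroup.centralizer (((K.comap (e : ↥(P : Subgroup G) →* S)).map (P : Subgroup G).subtype : Subgroup G) : Set G) := by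
  have hW : Cfsg.IsCharPFunctor.{u} p Cfsg.kInfLower := H61.isCharPFunctor_kInfLower
  refine ⟨Cfsg.kInfLower S, Subgroup.characteristic_iff_map_eq.2 fun φ => hW.2 S S hS φ,
    (H61.kInf_centralizer hS).1, fun G _ _ P e => ?_⟩
  have heq : (Cfsg.kInfLower S).comap (e : ↥(P : Subgroup G) →* S) = Cfsg.kInfLower ↥(P : Subgroup G) := by
    rw [← hW.2 _ _ P.isPGroup' e]
    exact Subgroup.comap_map_eq_self_of_injective (f := e.toMonoidHom) e.injective _
  rw [heq]
  refine ⟨fun h g hg hgc => mem_centralizer_of_npc h (P.isPGroup'.to_le (Subgroup.map_subtype_le _)) hg hgc,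
    fun h => Cfsg.Agent.S1988.result hp P (Or.inr h)⟩

end Cfsg.Agent.S3073
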