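import Cfsg.Statements.S3074
import Cfsg.Agent.H95.QdGroup
import Cfsg.Agent.H24.Extraspecial
import Cfsg.Agent.H58.ExtraspecialCongr
import Mathlib

set_option autoImplicit false
set_option linter.all false
open Cfsg

namespace Cfsg.Agent.S3074
open Cfsg.Agent.H95
open scoped commutatorElement

variable {p : ℕ}

/-- The shear `[[1, c], [0, 1]]`. -/
def shear (c : ZMod p) : SL2 p := ⟨!![1, c; 0, 1], by simp [Matrix.det_fin_two]⟩

theorem shear_mul (c d : ZMod p) : shear c * shear d = shear (c + d) := by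
  apply Matrix.SpecialLinearGroup.ext
  intro i j
  rw [Matrix.SpecialLinearGroup.coe_mul]
  fin_cases i <;> fin_cases j <;> simp [shear, Matrix.mul_apply, Fin.sum_univ_two, add_comm]

theorem shear_zero : shear (0 : ZMod p) = 1 := by
  apply Matrix.SpecialLinearGroup.ext
  intro i j
  fin_cases i <;> fin_cases j <;> simp [shear]

/-- The element `(a, b, c)` of the upper unitriangular group. -/
def heis (a b c : ZMod p) : ↥(Cfsg.qd p) :=
  ⟨affMat (shear c) (Multiplicative.ofAdd ![a, b]), affMat_mem _ _⟩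

theorem heis_mul (a b c a' b' c' : ZMod p) :
    heis a b c * heis a' b' c' = heis (a + a' + c * b') (b + b') (c + c') := by
  apply Subtype.ext
  show affMat _ _ * affMat _ _ = affMat _ _
  rw [affMat_mul, shear_mul]
  congr 1
  apply Multiplicative.toAdd.injective
  funext i
  fin_cases i <;> simp [act, shear, Matrix.vecMul, Matrix.mulVec, dotProduct, Fin.sum_univ_two] <;> ring

theorem heis_zero : heis (0 : ZMod p) 0 0 = 1 := by
  apply Subtype.ext
  show affMat _ _ = 1
  rw [shear_zero, ← affMat_one]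
  congr 1
  apply Multiplicative.toAdd.injective
  funext i
  fin_cases i <;> simp

theorem heis_inj {a b c a' b' c' : ZMod p} (h : heis a b c = heis a' b' c') :
    a = a' ∧ b = b' ∧ c = c' := by
  obtain ⟨h1, h2⟩ := affMat_inj (congrArg Subtype.val h)
  have h3 := congrArg Multiplicative.toAdd h2
  refine ⟨?_, ?_, ?_⟩
  · simpa using congrFun h3 0
  · simpa using congrFun h3 1
  · simpa [shear] using congrArg (fun M : SL2 p => M.1 0 1) h1

theorem heis_pow (a b c : ZMod p) (n : ℕ) :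
    heis a b c ^ n = heis ((n : ZMod p) * a + (n.choose 2 : ZMod p) * (c * b)) ((n : ZMod p) * b) ((n : ZMod p) * c) := by
  induction n with
  | zero => simp [heis_zero]
  | succ n ih =>
    rw [pow_succ, ih, heis_mul, Nat.choose_succ_succ', Nat.choose_one_right]
    push_cast
    congr 1 <;> ring

/-- The upper unitriangular subgroup of `Qd(p)`. -/
def unitri (p : ℕ) : Subgroup ↥(Cfsg.qd p) where
  carrier := {x | ∃ a b c, heis a b c = x}
  one_mem' := ⟨0, 0, 0, heis_zero⟩
  mul_mem' := by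
    rintro _ _ ⟨a, b, c, rfl⟩ ⟨a', b', c', rfl⟩
    exact ⟨_, _, _, (heis_mul a b c a' b' c').symm⟩
  inv_mem' := by
    rintro _ ⟨a, b, c, rfl⟩
    refine ⟨-a + c * b, -b, -c, eq_inv_of_mul_eq_one_left ?_⟩
    rw [heis_mul]
    convert heis_zero using 2 <;> ring

theorem card_unitri [NeZero p] : Nat.card ↥(unitri p) = p ^ 3 := by
  rw [← Nat.card_congr (Equiv.ofBijective
    (fun t : ZMod p × ZMod p × ZMod p => (⟨heis t.1 t.2.1 t.2.2, ⟨_, _, _, rfl⟩⟩ : ↥(unitri p)))
    ⟨fun s t h => by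
      obtain ⟨h1, h2, h3⟩ := heis_inj (congrArg Subtype.val h)
      exact Prod.ext h1 (Prod.ext h2 h3),
     fun ⟨_, a, b, c, rfl⟩ => ⟨(a, b, c), rfl⟩⟩)]
  simp [Nat.card_prod, Nat.card_zmod]; ring

theorem pow_eq_one_unitri [Fact p.Prime] (hp : p ≠ 2) (x : ↥(unitri p)) : x ^ p = 1 := by
  obtain ⟨_, a, b, c, rfl⟩ := x
  apply Subtype.ext
  rw [Subgroup.coe_pow, heis_pow]
  have h2 : (((p.choose 2 : ℕ)) : ZMod p) = 0 := by
    rw [ZMod.natCast_eq_zero_iff]
    exact (Fact.out : p.Prime).dvd_choose_self two_ne_zero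
      (lt_of_le_of_ne (Fact.out : p.Prime).two_le (Ne.symm hp))
  simp [h2, heis_zero]

theorem extraspecial_unitri [Fact p.Prime] (hp : p ≠ 2) : Cfsg.IsExtraspecial p ↥(unitri p) := by
  have hp' : IsPGroup p ↥(unitri p) := IsPGroup.of_card card_unitri
  have hc : ∀ x : ↥(unitri p), x ∈ Subgroup.center ↥(unitri p) ↔ ∃ a, (x : ↥(Cfsg.qd p)) = heis a 0 0 := by
    intro x
    constructor
    · intro hx
      obtain ⟨_, a, b, c, rfl⟩ := x
      have h1 := congrArg Subtype.val (Subgroup.mem_center_iff.mp hx ⟨heis 0 0 1, ⟨_, _, _, rfl⟩⟩)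
      have h2 := congrArg Subtype.val (Subgroup.mem_center_iff.mp hx ⟨heis 0 1 0, ⟨_, _, _, rfl⟩⟩)
      simp only [Subgroup.coe_mul, heis_mul] at h1 h2
      have hb : b = 0 := by simpa using (heis_inj h1).1
      have hc : c = 0 := by simpa using (heis_inj h2).1.symm
      exact ⟨a, by rw [hb, hc]⟩
    · rintro ⟨a, ha⟩
      rw [Subgroup.mem_center_iff]
      rintro ⟨_, a', b', c', rfl⟩
      apply Subtype.ext
      simp only [Subgroup.coe_mul, ha, heis_mul]
      congr 1 <;> ring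
  refine Cfsg.Agent.H24.isExtraspecial_of hp' ?_ ?_ ?_ ?_
  · rw [← Nat.card_congr (Equiv.ofBijective
      (fun a : ZMod p => (⟨⟨heis a 0 0, ⟨_, _, _, rfl⟩⟩, (hc _).mpr ⟨a, rfl⟩⟩ : ↥(Subgroup.center ↥(unitri p))))
      ⟨fun s t h => (heis_inj (a := s) (b := 0) (c := 0) (a' := t) (b' := 0) (c' := 0) (congrArg Subtype.val (congrArg Subtype.val h))).1,
       fun z => by
        obtain ⟨a, ha⟩ := (hc z.1).mp z.2
        exact ⟨a, Subtype.ext (Subtype.ext ha.symm)⟩⟩)]
    simp
  · intro h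
    obtain ⟨a, ha⟩ := (hc ⟨heis 0 1 0, ⟨_, _, _, rfl⟩⟩).mp (h ▸ Subgroup.mem_top _)
    exact one_ne_zero (heis_inj ha).2.1
  · rintro ⟨_, a, b, c, rfl⟩ ⟨_, a', b', c', rfl⟩
    refine (hc _).mpr ⟨c * b' - c' * b, ?_⟩
    simp only [commutatorElement_def, Subgroup.coe_mul, Subgroup.coe_inv]
    rw [mul_inv_eq_iff_eq_mul, mul_inv_eq_iff_eq_mul, heis_mul, heis_mul, heis_mul]
    congr 1 <;> ring
  · intro x
    rw [pow_eq_one_unitri hp x]
    exact one_mem _


/-- Let p be an odd prime. A Sylow p-subgroup of Qd(p), the split extension of an elementary abelian group of order p² by SL₂(p) acting naturally, is extraspecial of order p³ and exponent p. -/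
theorem result (p : ℕ) [Fact p.Prime] (hp : p ≠ 2) (P : Sylow p ↥(Cfsg.qd p)) :
    Cfsg.IsExtraspecial p ↥P ∧ Nat.card P = p ^ 3 ∧ Monoid.exponent ↥P = p := by
  classical
  have hR : IsPGroup p ↥(unitri p) := IsPGroup.of_card card_unitri
  obtain ⟨Q, hQ⟩ := hR.exists_le_sylow
  obtain ⟨k, hk⟩ := IsPGroup.iff_card.mp Q.2
  have hk3 : k ≤ 3 := by
    have hd : p ^ k ∣ Nat.card (GL (Fin 3) (ZMod p)) := by
      rw [← hk]
      exact (Subgroup.card_subgroup_dvd_card _).trans (Subgroup.card_dvd_of_injective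
        ((Matrix.SpecialLinearGroup.toGL).comp (Cfsg.qd p).subtype)
        (Matrix.SpecialLinearGroup.toGL_injective.comp Subtype.val_injective))
    rw [Matrix.card_GL_field, ZMod.card, Fin.prod_univ_three] at hd
    simp only [Fin.val_zero, Fin.val_one, Fin.val_two, pow_zero, pow_one] at hd
    have hp1 := (Fact.out : p.Prime).two_le
    have e : (p ^ 3 - 1) * (p ^ 3 - p) * (p ^ 3 - p ^ 2) = p ^ 3 * ((p ^ 3 - 1) * ((p ^ 2 - 1) * (p - 1))) := by
      have e1 : p ^ 3 - p = p * (p ^ 2 - 1) := by rw [Nat.mul_sub_one]; ring_nf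
      have e2 : p ^ 3 - p ^ 2 = p ^ 2 * (p - 1) := by rw [Nat.mul_sub_one]; ring_nf
      rw [e1, e2]; ring
    rw [e] at hd
    have hcop : ∀ j : ℕ, 0 < j → Nat.Coprime (p ^ k) (p ^ j - 1) := fun j hj => by
      refine Nat.Coprime.pow_left k (((Fact.out : p.Prime).coprime_iff_not_dvd).mpr fun h => ?_)
      have h1 : p ∣ p ^ j := dvd_pow_self p hj.ne'
      have h2 := Nat.dvd_sub h1 h
      rw [Nat.sub_sub_self (Nat.one_le_pow _ _ (by omega))] at h2
      have := Nat.le_of_dvd one_pos h2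
      omega
    have := (Nat.Coprime.mul_right (hcop 3 (by norm_num)) (Nat.Coprime.mul_right (hcop 2 two_pos)
      (by simpa using hcop 1 one_pos))).dvd_of_dvd_mul_right hd
    exact (Nat.pow_dvd_pow_iff_le_right (by omega)).mp this
  have hle := Subgroup.card_le_of_le hQ
  rw [card_unitri, hk] at hle
  have hcardQ : Nat.card Q = p ^ 3 := by
    rw [hk, le_antisymm hk3 ((Nat.pow_le_pow_iff_right (Fact.out : p.Prime).one_lt).mp hle)]
  have hQeq : unitri p = (Q : Subgroup ↥(Cfsg.qd p)) :=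
    Subgroup.eq_of_le_of_card_ge hQ (by rw [card_unitri, hcardQ])
  let e : ↥(unitri p) ≃* ↥(P : Subgroup ↥(Cfsg.qd p)) := (MulEquiv.subgroupCongr hQeq).trans (Q.equiv P)
  refine ⟨Cfsg.Agent.H58.isExtraspecial_congr e (extraspecial_unitri hp), ?_, ?_⟩
  · rw [← card_unitri (p := p)]
    exact (Nat.card_congr e.toEquiv).symm
  · refine (Monoid.exponent_eq_of_mulEquiv e).symm.trans ?_
    refine ((Nat.dvd_prime (Fact.out : p.Prime)).mp (Monoid.exponent_dvd_of_forall_pow_eq_one
      (pow_eq_one_unitri hp))).resolve_left fun h => ?_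
    have h2 : (⟨heis 0 1 0, ⟨0, 1, 0, rfl⟩⟩ : ↥(unitri p)) ^ 1 = 1 := h ▸ Monoid.pow_exponent_eq_one _
    have h3 := congrArg Subtype.val h2
    rw [pow_one, Subgroup.coe_one, ← heis_zero] at h3
    exact one_ne_zero (heis_inj h3).2.1

end Cfsg.Agent.S3074
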