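import Cfsg.Statements.S3075
import Mathlib

set_option autoImplicit false
set_option linter.all false
open Cfsg

namespace Cfsg.Agent.S3075
open scoped commutatorElement

/-- Commutators centralise a normal subgroup of prime order. -/
theorem commutator_le_centralizer_of_prime {N : Type*} [Group N] [Finite N] {p : ℕ} [Fact p.Prime]
    (B : Subgroup N) [B.Normal] (hB : Nat.card B = p) : commutator N ≤ Subgroup.centralizer (B : Set N) := by
  haveI : IsCyclic B := isCyclic_of_prime_card hB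
  have hle : commutator N ≤ (MulAut.conjNormal (H := B)).ker := by
    haveI : IsMulCommutative (MulAut B) :=
      ⟨⟨fun f g => MulEquiv.ext fun x => by
        obtain ⟨c, hc⟩ := IsCyclic.exists_generator (α := B)
        obtain ⟨i, hi⟩ := Subgroup.mem_zpowers_iff.mp (hc (f c))
        obtain ⟨j, hj⟩ := Subgroup.mem_zpowers_iff.mp (hc (g c))
        obtain ⟨k, rfl⟩ := Subgroup.mem_zpowers_iff.mp (hc x)
        simp only [MulAut.mul_apply, map_zpow, ← hj, ← hi, ← zpow_mul, mul_comm]⟩⟩
    rw [_root_.commutator_def, Subgroup.commutator_le]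
    intro a _ b _
    rw [MonoidHom.mem_ker, map_commutatorElement, commutatorElement_eq_one_iff_commute]
    exact mul_comm' _ _
  intro x hx
  refine Subgroup.mem_centralizer_iff.mpr fun y hy => ?_
  have h := congrArg Subtype.val (MulEquiv.ext_iff.mp (MonoidHom.mem_ker.mp (hle hx)) ⟨y, hy⟩)
  simp only [MulAut.conjNormal_apply, MulAut.one_apply] at h
  exact (mul_inv_eq_iff_eq_mul.mp h).symm


/-- Let p be an odd prime and N a finite group with a normal elementary abelian subgroup A of order p² that is its own centralizer in N, such that N/A is isomorphic to SL₂(p) (over any field F with p elements). Then N splits over A: some subgroup U of N satisfies A ∩ U = 1 and AU = N. -/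
theorem result {N : Type*} [Group N] [Finite N] {p : ℕ} [Fact p.Prime] (hp : p ≠ 2)
    (A : Subgroup N) [A.Normal] (hAcomm : IsMulCommutative A) (hAcard : Nat.card A = p ^ 2) (hAexp : Monoid.exponent ↥A = p)
    (hAself : Subgroup.centralizer (A : Set N) = A)
    {F : Type*} [Field F] [Fintype F] (hF : Fintype.card F = p) (e : N ⧸ A ≃* Matrix.SpecialLinearGroup (Fin 2) F) :
    ∃ U : Subgroup N, A ⊓ U = ⊥ ∧ A ⊔ U = ⊤ := by
  have hodd : ∀ a ∈ A, a * a = 1 → a = 1 := by
    intro a ha h2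
    have h1 : a ^ p = 1 := by
      have := Monoid.pow_exponent_eq_one (⟨a, ha⟩ : A)
      rw [hAexp] at this
      exact congrArg Subtype.val this
    have hg : Nat.gcd p 2 = 1 := (Nat.coprime_primes (Fact.out : p.Prime) Nat.prime_two).mpr hp
    have := (pow_gcd_eq_one (n := 2) (m := p)).mpr ⟨h1, by rw [pow_two]; exact h2⟩
    rwa [hg, pow_one] at this
  have h2F : (-1 : F) ≠ 1 := by
    intro h
    have h2 : addOrderOf (1 : F) ∣ 2 := addOrderOf_dvd_of_nsmul_eq_zero (by
      rw [two_nsmul]; nth_rewrite 1 [← h]; exact neg_add_cancel 1)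
    have hd : addOrderOf (1 : F) ∣ p := hF ▸ addOrderOf_dvd_card
    rcases (Nat.dvd_prime (Fact.out : p.Prime)).mp hd with h3 | h3
    · exact one_ne_zero (AddMonoid.addOrderOf_eq_one_iff.mp h3)
    · exact hp ((Nat.prime_dvd_prime_iff_eq (Fact.out : p.Prime) Nat.prime_two).mp (h3 ▸ h2))
  obtain ⟨x, hx⟩ := QuotientGroup.mk'_surjective A (e.symm (-1))
  set t := x ^ p with ht
  have hzz : (-1 : Matrix.SpecialLinearGroup (Fin 2) F) * -1 = 1 := by simp
  have hmkt : (QuotientGroup.mk t : N ⧸ A) = e.symm (-1) := by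
    rw [ht, QuotientGroup.mk_pow, show (QuotientGroup.mk x : N ⧸ A) = e.symm (-1) from hx, ← map_pow]
    congr 1
    exact (Nat.Prime.odd_of_ne_two (Fact.out) hp).neg_one_pow
  have hx2 : x * x ∈ A := by
    rw [← QuotientGroup.eq_one_iff, QuotientGroup.mk_mul,
      show (QuotientGroup.mk x : N ⧸ A) = e.symm (-1) from hx, ← map_mul, hzz, map_one]
  have ht2 : t * t = 1 := by
    rw [ht, ← pow_add, ← two_mul, pow_mul, pow_two]
    have := Monoid.pow_exponent_eq_one (⟨x * x, hx2⟩ : A)
    rw [hAexp] at this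
    exact congrArg Subtype.val this
  have htinv : t⁻¹ = t := inv_eq_of_mul_eq_one_left ht2
  have hcomm : ∀ g : N, ∃ a ∈ A, g * t * g⁻¹ = a * t := by
    intro g
    refine ⟨g * t * g⁻¹ * t⁻¹, ?_, by group⟩
    rw [← QuotientGroup.eq_one_iff]
    simp only [QuotientGroup.mk_mul, QuotientGroup.mk_inv, hmkt]
    apply e.injective
    simp [map_mul, map_inv, mul_assoc]
  have hfix : A ⊓ Subgroup.centralizer ({t} : Set N) = ⊥ := by
    by_contra hne
    set P := A ⊓ Subgroup.centralizer ({t} : Set N) with hP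
    have hmemP : ∀ a, a ∈ P ↔ a ∈ A ∧ t * a * t⁻¹ = a := fun a => by
      rw [hP, Subgroup.mem_inf, Subgroup.mem_centralizer_singleton_iff, mul_inv_eq_iff_eq_mul]
      exact and_congr_right fun _ => eq_comm
    have hAc : ∀ a ∈ A, ∀ b ∈ A, a * b = b * a := fun a ha b hb =>
      congrArg Subtype.val (hAcomm.is_comm.comm (⟨a, ha⟩ : A) ⟨b, hb⟩)
    have hAn : ∀ g : N, ∀ a ∈ A, g * a * g⁻¹ ∈ A := fun g a ha => Subgroup.Normal.conj_mem inferInstance a ha g
    have htg : ∀ g : N, ∀ a ∈ A, t * (g * a * g⁻¹) * t⁻¹ = g * (t * a * t⁻¹) * g⁻¹ := by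
      intro g a ha
      obtain ⟨b, hb, hbt⟩ := hcomm g⁻¹
      simp only [inv_inv] at hbt
      calc t * (g * a * g⁻¹) * t⁻¹ = g * ((g⁻¹ * t * g) * a * (g⁻¹ * t * g)⁻¹) * g⁻¹ := by group
        _ = g * (b * (t * a * t⁻¹) * b⁻¹) * g⁻¹ := by rw [hbt]; group
        _ = g * (t * a * t⁻¹) * g⁻¹ := by rw [hAc b hb _ (hAn t a ha), mul_inv_cancel_right]
    let M : Subgroup N :=
      { carrier := {a | a ∈ A ∧ t * a * t⁻¹ = a⁻¹}
        one_mem' := ⟨one_mem A, by simp⟩
        mul_mem' := fun {a b} ha hb => ⟨mul_mem ha.1 hb.1, by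
          calc t * (a * b) * t⁻¹ = (t * a * t⁻¹) * (t * b * t⁻¹) := by group
            _ = a⁻¹ * b⁻¹ := by rw [ha.2, hb.2]
            _ = (a * b)⁻¹ := by rw [← mul_inv_rev, hAc b hb.1 a ha.1]⟩
        inv_mem' := fun {a} ha => ⟨inv_mem ha.1, by
          calc t * a⁻¹ * t⁻¹ = (t * a * t⁻¹)⁻¹ := by group
            _ = _ := by rw [ha.2]⟩ }
    haveI hPn : P.Normal := ⟨fun a ha g => (hmemP _).mpr ⟨hAn g a ((hmemP a).mp ha).1, by
      rw [htg g a ((hmemP a).mp ha).1, ((hmemP a).mp ha).2]⟩⟩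
    haveI hMn : M.Normal := ⟨fun a ha g => ⟨hAn g a ha.1, by rw [htg g a ha.1, ha.2]; group⟩⟩
    have hPA : P ≠ A := by
      intro h
      have : t ∈ Subgroup.centralizer (A : Set N) := Subgroup.mem_centralizer_iff.mpr fun a ha => by
        have h2 := ((hmemP a).mp (h.symm ▸ ha)).2
        rw [mul_inv_eq_iff_eq_mul] at h2
        exact h2.symm
      rw [hAself, ← QuotientGroup.eq_one_iff, hmkt, EmbeddingLike.map_eq_one_iff] at this
      have h00 := congrArg (fun m : Matrix.SpecialLinearGroup (Fin 2) F => (m : Matrix (Fin 2) (Fin 2) F) 0 0) this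
      simp at h00
      exact h2F h00
    have hdisj : P ⊓ M = ⊥ := by
      rw [eq_bot_iff]
      rintro a ⟨ha, ha'⟩
      refine Subgroup.mem_bot.mpr (hodd a ((hmemP a).mp ha).1 ?_)
      have h3 : a⁻¹ = a := ha'.2.symm.trans ((hmemP a).mp ha).2
      nth_rewrite 1 [← h3]
      exact inv_mul_cancel a
    have hM1 : M ≠ ⊥ := by
      intro h
      refine hPA (le_antisymm inf_le_left fun a ha => (hmemP a).mpr ⟨ha, ?_⟩)
      have : t * a * t⁻¹ * a⁻¹ ∈ M := by
        refine ⟨mul_mem (hAn t a ha) (inv_mem ha), ?_⟩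
        calc t * (t * a * t⁻¹ * a⁻¹) * t⁻¹ = (t * t) * a * (t * t)⁻¹ * (t * a * t⁻¹)⁻¹ := by group
          _ = a * (t * a * t⁻¹)⁻¹ := by rw [ht2]; group
          _ = _ := by group
      rw [h, Subgroup.mem_bot, mul_inv_eq_one] at this
      exact this
    have hMA : M ≤ A := fun a ha => ha.1
    have hPA' : P ≤ A := inf_le_left
    have hcardeq : ∀ B : Subgroup N, B ≤ A → B ≠ ⊥ → B ≠ A → Nat.card B = p := by
      intro B hB hB1 hB2
      obtain ⟨i, hi, hi'⟩ := (Nat.dvd_prime_pow (Fact.out : p.Prime)).mp (hAcard ▸ Subgroup.card_dvd_of_le hB)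
      interval_cases i
      · exact absurd (Subgroup.eq_bot_of_card_eq B (by simpa using hi')) hB1
      · simpa using hi'
      · exact absurd (Subgroup.eq_of_le_of_card_ge hB (by rw [hi', hAcard])) hB2
    have hcP := hcardeq P hPA' hne hPA
    have hcM := hcardeq M hMA hM1 (fun h => hne (le_bot_iff.mp (hdisj ▸ le_inf le_rfl (h.symm ▸ hPA'))))
    have hsup : P ⊔ M = A := by
      have hlt : P < P ⊔ M := lt_of_le_of_ne le_sup_left fun h =>
        hM1 (le_bot_iff.mp (hdisj ▸ le_inf (h.symm ▸ le_sup_right) le_rfl))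
      by_contra hne'
      have := hcardeq _ (sup_le hPA' hMA) (fun h => hne (le_bot_iff.mp (h ▸ le_sup_left))) hne'
      exact hlt.ne (Subgroup.eq_of_le_of_card_ge hlt.le (by rw [this, hcP]))
    have hall : commutator N ≤ A := by
      rw [← hAself]
      nth_rewrite 1 [← hsup]
      refine Subgroup.le_centralizer_iff.mp (sup_le ?_ ?_)
      · exact Subgroup.le_centralizer_iff.mp (commutator_le_centralizer_of_prime P hcP)
      · exact Subgroup.le_centralizer_iff.mp (commutator_le_centralizer_of_prime M hcM)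
    let u : Matrix.SpecialLinearGroup (Fin 2) F := ⟨!![1, 1; 0, 1], by simp [Matrix.det_fin_two]⟩
    let w : Matrix.SpecialLinearGroup (Fin 2) F := ⟨!![1, 0; 1, 1], by simp [Matrix.det_fin_two]⟩
    obtain ⟨a, ha⟩ := QuotientGroup.mk'_surjective A (e.symm u)
    obtain ⟨b, hb⟩ := QuotientGroup.mk'_surjective A (e.symm w)
    have h1 : (QuotientGroup.mk' A) ⁅a, b⁆ = 1 :=
      (QuotientGroup.eq_one_iff _).mpr (hall (Subgroup.commutator_mem_commutator (Subgroup.mem_top a) (Subgroup.mem_top b)))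
    rw [map_commutatorElement, ha, hb, ← map_commutatorElement, EmbeddingLike.map_eq_one_iff,
      commutatorElement_eq_one_iff_mul_comm] at h1
    have h00 := congrArg (fun m : Matrix.SpecialLinearGroup (Fin 2) F => (m : Matrix (Fin 2) (Fin 2) F) 0 0) h1
    rw [Matrix.SpecialLinearGroup.coe_mul, Matrix.SpecialLinearGroup.coe_mul] at h00
    simp [u, w, Matrix.mul_apply, Fin.sum_univ_two] at h00
  refine ⟨Subgroup.centralizer ({t} : Set N), hfix, eq_top_iff.mpr fun g _ => ?_⟩
  obtain ⟨a, ha, hat⟩ := hcomm g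
  have hinvert : ∀ b ∈ A, t * b * t⁻¹ = b⁻¹ := by
    intro b hb
    have hbt : t * b * t⁻¹ ∈ A := Subgroup.Normal.conj_mem inferInstance b hb t
    have hm : b * (t * b * t⁻¹) ∈ A ⊓ Subgroup.centralizer ({t} : Set N) := by
      refine ⟨mul_mem hb hbt, Subgroup.mem_centralizer_singleton_iff.mpr ?_⟩
      have h := congrArg Subtype.val (hAcomm.is_comm.comm (⟨b, hb⟩ : A) ⟨_, hbt⟩)
      simp only [Subgroup.coe_mul] at h
      have htt : t * b * t⁻¹ = t * b * t := by rw [htinv]
      rw [htt] at h ⊢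
      calc b * (t * b * t) * t = b * (t * b) * (t * t) := by group
        _ = (t * t) * (b * (t * b)) := by rw [ht2, one_mul, mul_one]
        _ = t * ((t * b * t) * b) := by group
        _ = t * (b * (t * b * t)) := by rw [h]
    rw [hfix, Subgroup.mem_bot, mul_eq_one_iff_eq_inv'] at hm
    exact hm
  -- a square root of `a`
  obtain ⟨b, hb, hba⟩ : ∃ b ∈ A, b * b = a := by
    obtain ⟨k, hk⟩ := Nat.Prime.odd_of_ne_two (Fact.out : p.Prime) hp
    refine ⟨a ^ (k + 1), pow_mem ha _, ?_⟩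
    have h := Monoid.pow_exponent_eq_one (⟨a, ha⟩ : A)
    rw [hAexp] at h
    have h1 : a ^ p = 1 := congrArg Subtype.val h
    rw [← pow_add, show k + 1 + (k + 1) = p + 1 by omega, pow_succ, h1, one_mul]
  have hbg : b⁻¹ * g ∈ Subgroup.centralizer ({t} : Set N) := by
    refine Subgroup.mem_centralizer_singleton_iff.mpr ?_
    have h1 : b * t = t * b⁻¹ := by
      have := hinvert b⁻¹ (inv_mem hb)
      rw [inv_inv, mul_inv_eq_iff_eq_mul] at this
      exact this.symm
    calc b⁻¹ * g * t = b⁻¹ * (g * t * g⁻¹) * g := by group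
      _ = b⁻¹ * (b * (b * t)) * g := by rw [hat, ← hba]; group
      _ = b⁻¹ * (b * (t * b⁻¹)) * g := by rw [h1]
      _ = t * (b⁻¹ * g) := by group
  have := mul_mem (Subgroup.mem_sup_left hb : b ∈ A ⊔ Subgroup.centralizer ({t} : Set N)) (Subgroup.mem_sup_right hbg)
  rwa [mul_inv_cancel_left] at this

end Cfsg.Agent.S3075
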