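import Cfsg.Statements.S3076
import Cfsg.Agent.H75.CentricRadical

set_option autoImplicit false
set_option linter.all false
open Cfsg

namespace Cfsg.Agent.S3076
open Cfsg.Agent.H75


/-- Let P be a Sylow p-subgroup of the finite group G and H ≤ P a subgroup with N_P(H) a Sylow p-subgroup of N_G(H). Let N be the preimage in N_G(H) of O_p(N_G(H)/C_G(H)). Then H is a Sylow p-subgroup of N if and only if C_P(H) ≤ H and O_{p',p}(N_G(H)) = H·C_G(H). -/
theorem result {G : Type*} [Group G] [Finite G] {p : ℕ} [Fact p.Prime]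
    (P : Sylow p G) (H : Subgroup G) (hHP : H ≤ (P : Subgroup G))
    (hSyl : ¬ p ∣ ((P : Subgroup G) ⊓ Subgroup.normalizer (H : Set G)).relIndex (Subgroup.normalizer (H : Set G)))
    [hC : ((Subgroup.centralizer (H : Set G)).subgroupOf (Subgroup.normalizer (H : Set G))).Normal] :
    (H ≤ ((Cfsg.pCore p (↥(Subgroup.normalizer (H : Set G)) ⧸
              (Subgroup.centralizer (H : Set G)).subgroupOf (Subgroup.normalizer (H : Set G)))).comap
            (QuotientGroup.mk' _)).map (Subgroup.normalizer (H : Set G)).subtype ∧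
      ¬ p ∣ H.relIndex (((Cfsg.pCore p (↥(Subgroup.normalizer (H : Set G)) ⧸
              (Subgroup.centralizer (H : Set G)).subgroupOf (Subgroup.normalizer (H : Set G)))).comap
            (QuotientGroup.mk' _)).map (Subgroup.normalizer (H : Set G)).subtype)) ↔
    ((P : Subgroup G) ⊓ Subgroup.centralizer (H : Set G) ≤ H ∧
      (Cfsg.pPrimePCore p ↥(Subgroup.normalizer (H : Set G))).map (Subgroup.normalizer (H : Set G)).subtype =
        H ⊔ Subgroup.centralizer (H : Set G)) := by
  set M := Subgroup.normalizer (H : Set G) with hM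
  have hHM : H ≤ M := Subgroup.le_normalizer
  have hCM : Subgroup.centralizer (H : Set G) ≤ M := Subgroup.centralizer_le_normalizer _
  haveI hn : (H.subgroupOf M).Normal := Subgroup.normal_in_normalizer
  have hH : IsPGroup p ↥(H.subgroupOf M) := (P.2.to_le hHP).comap_subtype
  have hcent : (Subgroup.centralizer (H : Set G)).subgroupOf M = Subgroup.centralizer ((H.subgroupOf M : Subgroup M) : Set M) := by
    ext x
    simp only [Subgroup.mem_subgroupOf, Subgroup.mem_centralizer_iff, SetLike.mem_coe]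
    exact ⟨fun h y hy => Subtype.ext (h y hy), fun h y hy => congrArg Subtype.val (h ⟨y, hHM hy⟩ hy)⟩
  set T₀ := ((P : Subgroup G) ⊓ M).subgroupOf M with hT₀
  have hTp : IsPGroup p T₀ := (P.2.to_le inf_le_left).comap_subtype
  let T : Sylow p M := hTp.toSylow hSyl
  set C := (Subgroup.centralizer (H : Set G)).subgroupOf M with hC'
  set N := (Cfsg.pCore p (M ⧸ C)).comap (QuotientGroup.mk' C) with hN
  have key := sylow_preimage_iff (H.subgroupOf M) hH T C hcent
  rw [← hN] at key
  have hHN : H ≤ N.map M.subtype := by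
    intro x hx
    refine ⟨⟨x, hHM hx⟩, ?_, rfl⟩
    exact Cfsg.Agent.H19.le_pCore (hn.map _ (QuotientGroup.mk'_surjective C)) (hH.map _) (Subgroup.mem_map_of_mem _ (Subgroup.mem_subgroupOf.mpr hx))
  have e1 : H.relIndex (N.map M.subtype) = (H.subgroupOf M).relIndex N := by
    conv_lhs => rw [← inf_eq_left.mpr hHM, ← Subgroup.subgroupOf_map_subtype]
    exact Subgroup.relIndex_map_map_of_injective _ _ M.subtype_injective
  have e2 : ((T : Subgroup M) ⊓ C ≤ H.subgroupOf M) ↔ (P : Subgroup G) ⊓ Subgroup.centralizer (H : Set G) ≤ H := by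
    constructor
    · rintro h x ⟨hx1, hx2⟩
      exact h (show (⟨x, hCM hx2⟩ : M) ∈ (T : Subgroup M) ⊓ C from ⟨⟨hx1, hCM hx2⟩, hx2⟩)
    · rintro h x ⟨hx1, hx2⟩
      exact h ⟨hx1.1, hx2⟩
  have e3 : (Cfsg.pPrimePCore p M = H.subgroupOf M ⊔ C) ↔
      (Cfsg.pPrimePCore p M).map M.subtype = H ⊔ Subgroup.centralizer (H : Set G) := by
    rw [← (Subgroup.map_injective M.subtype_injective).eq_iff, Subgroup.map_sup, hC',
      Subgroup.subgroupOf_map_subtype, Subgroup.subgroupOf_map_subtype, inf_eq_left.mpr hHM, inf_eq_left.mpr hCM]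
  rw [e1, key, e2, e3]
  exact ⟨fun h => h.2, fun h => ⟨hHN, h⟩⟩

end Cfsg.Agent.S3076
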