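import Cfsg.Statements.S3078
import Cfsg.Agent.H35.Replacement
import Cfsg.Agent.H23.ClassTwo

set_option autoImplicit false
set_option linter.all false
open Cfsg

namespace Cfsg.Agent.S3078

open Subgroup
open scoped commutatorElement

/-- The elements of exponent `p` of an abelian subgroup form `Ω₁`. -/
theorem mem_omegaOne_iff {G : Type*} [Group G] {p : ℕ} {A : Subgroup G} (hA : IsMulCommutative A) {x : G} :
    x ∈ Cfsg.omegaOne p A ↔ x ∈ A ∧ x ^ p = 1 := by
  refine ⟨fun h => ?_, fun h => subset_closure h⟩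
  induction h using closure_induction with
  | mem y hy => exact hy
  | one => exact ⟨one_mem _, one_pow _⟩
  | mul u v _ _ hu hv =>
    refine ⟨mul_mem hu.1 hv.1, ?_⟩
    rw [Commute.mul_pow (H35.commute_of_mem_isMulCommutative hA hu.1 hv.1 : Commute u v), hu.2, hv.2, mul_one]
  | inv u _ hu => exact ⟨inv_mem hu.1, by rw [inv_pow, hu.2, inv_one]⟩

/-- Replacement does not lower the rank. -/
theorem omegaOne_le {G : Type*} [Group G] [Finite G] {p : ℕ} [Fact p.Prime] (hp : p ≠ 2)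
    (A R : Subgroup G) (hA : IsMulCommutative A) (hR : IsMulCommutative R) (b : G)
    (h1 : ∀ a ∈ A, b⁻¹ * a * b ∈ normalizer (A : Set G))
    (h2 : ∀ a ∈ A, ∀ a' ∈ A, b * (a * (b⁻¹ * a' * b) * a⁻¹) * b⁻¹ ∈ A)
    (hD : ∀ d ∈ A, b * d * b⁻¹ ∈ A → d ∈ R)
    (hX : ∀ a ∈ A, a * (b⁻¹ * a⁻¹ * b) ∈ R) :
    Nat.card (Cfsg.omegaOne p A) ≤ Nat.card (Cfsg.omegaOne p R) := by
  classical
  have hpp : p.Prime := Fact.out
  set A' := A.map (MulAut.conj (b⁻¹)).toMonoidHom with hA'
  have hmem : ∀ z : G, z ∈ A' ↔ b * z * b⁻¹ ∈ A := by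
    intro z
    rw [hA']
    constructor
    · rintro ⟨a, ha, rfl⟩
      simpa [MulAut.conj_apply, mul_assoc] using ha
    · intro h
      exact ⟨_, h, by simp [MulAut.conj_apply, mul_assoc]⟩
  have hcA : ∀ x ∈ A, ∀ y ∈ A, x * y = y * x := fun x hx y hy =>
    H35.commute_of_mem_isMulCommutative hA hx hy
  have hA'c : ∀ u ∈ A', ∀ v ∈ A', u * v = v * u := by
    intro u hu v hv
    have h := hcA _ ((hmem u).1 hu) _ ((hmem v).1 hv)
    exact mul_left_cancel (a := b) (mul_right_cancel (b := b⁻¹) (by simpa [mul_assoc] using h))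
  have hconj : ∀ a ∈ A, b⁻¹ * a * b ∈ A' := fun a ha => (hmem _).2 (by simpa [mul_assoc] using ha)
  -- the map
  set E := Cfsg.omegaOne p A with hE
  have hgen : ∀ e ∈ E, e * (b⁻¹ * e⁻¹ * b) ∈ Cfsg.omegaOne p R := by
    intro e he
    obtain ⟨heA, hep⟩ := (mem_omegaOne_iff hA).1 he
    rw [mem_omegaOne_iff hR]
    refine ⟨hX e heA, ?_⟩
    set y := b⁻¹ * e⁻¹ * b with hy
    have hyA' : y ∈ A' := hconj _ (inv_mem heA)
    have hyp : y ^ p = 1 := by
      have : y ^ p = b⁻¹ * (e⁻¹) ^ p * b := by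
        rw [hy]
        have := conj_pow (a := b⁻¹) (b := e⁻¹) (i := p)
        simpa using this
      rw [this, inv_pow, hep]; group
    have hc1 : ⁅y, e⁆ ∈ A := by
      have := mul_mem ((h1 _ (inv_mem heA) e).1 heA) (inv_mem heA)
      simpa [commutatorElement_def, hy] using this
    have hc2 : ⁅y, e⁆ ∈ A' := by
      have h3 : e * y⁻¹ * e⁻¹ ∈ A' := by
        rw [hmem]
        have := h2 e heA e heA
        have e1 : y⁻¹ = b⁻¹ * e * b := by rw [hy]; group
        rw [e1]; exact this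
      have := mul_mem hyA' h3
      simpa [commutatorElement_def, mul_assoc] using this
    have hce : Commute ⁅y, e⁆ e := hcA _ hc1 _ heA
    have hcy : Commute ⁅y, e⁆ y := hA'c _ hc2 _ hyA'
    have hcp : ⁅y, e⁆ ^ p = 1 := by
      rw [← H23.commutator_pow_left hcy, hyp, commutatorElement_one_left]
    obtain ⟨m, hm⟩ : p ∣ p.choose 2 := hpp.dvd_choose_self (by norm_num)
      (lt_of_le_of_ne hpp.two_le (Ne.symm hp))
    rw [H23.mul_pow_class_two hce hcy, hep, hyp, hm, pow_mul, hcp, one_pow, one_mul, one_mul]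
  set K : Subgroup E := (A ⊓ A').subgroupOf E with hK
  let r : E → E := fun e => (QuotientGroup.mk (s := K) e).out
  have hr : ∀ e : E, (r e)⁻¹ * e ∈ K := fun e =>
    QuotientGroup.eq.1 (Quotient.out_eq (QuotientGroup.mk (s := K) e))
  have hk : ∀ e : E, (((r e)⁻¹ * e : E) : G) ∈ Cfsg.omegaOne p R := by
    intro e
    have hh := mem_subgroupOf.1 (hr e)
    rw [mem_omegaOne_iff hR]
    exact ⟨hD _ hh.1 ((hmem _).1 hh.2), ((mem_omegaOne_iff hA).1 ((r e)⁻¹ * e).2).2⟩
  let F : E → Cfsg.omegaOne p R := fun e =>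
    ⟨((r e : G) * (b⁻¹ * (r e : G)⁻¹ * b)) * (((r e)⁻¹ * e : E) : G),
      mul_mem (hgen _ (r e).2) (hk e)⟩
  refine Nat.card_le_card_of_injective F (fun e₁ e₂ h => ?_)
  have h' := congrArg Subtype.val h
  simp only [F] at h'
  set r₁ := r e₁ with hr1
  set r₂ := r e₂ with hr2
  have k1 : (((r e₁)⁻¹ * e₁ : E) : G) ∈ A' := (mem_subgroupOf.1 (hr e₁)).2
  have k2 : (((r e₂)⁻¹ * e₂ : E) : G) ∈ A' := (mem_subgroupOf.1 (hr e₂)).2
  rw [← hr1] at k1
  rw [← hr2] at k2
  have hA1 : (r₁ : G) ∈ A := ((mem_omegaOne_iff hA).1 r₁.2).1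
  have hA2 : (r₂ : G) ∈ A := ((mem_omegaOne_iff hA).1 r₂.2).1
  have hr12 : r₁⁻¹ * r₂ ∈ K := by
    refine mem_subgroupOf.2 ⟨by simpa using mul_mem (inv_mem hA1) hA2, ?_⟩
    have e : ((r₁⁻¹ * r₂ : E) : G) = (b⁻¹ * (r₁ : G)⁻¹ * b) * ((r₁⁻¹ * e₁ : E) : G) *
        ((r₂⁻¹ * e₂ : E) : G)⁻¹ * (b⁻¹ * (r₂ : G)⁻¹ * b)⁻¹ := by
      have h2' : (r₂ : G) = (r₁ : G) * (b⁻¹ * (r₁ : G)⁻¹ * b) * ((r₁⁻¹ * e₁ : E) : G) *
          ((r₂⁻¹ * e₂ : E) : G)⁻¹ * (b⁻¹ * (r₂ : G)⁻¹ * b)⁻¹ := by
        rw [h']; group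
      have h3 := congrArg (fun z => (r₁ : G)⁻¹ * z) h2'
      simpa [mul_assoc] using h3
    show _ ∈ A'
    rw [e]
    exact mul_mem (mul_mem (mul_mem (hconj _ (inv_mem hA1)) k1) (inv_mem k2))
      (inv_mem (hconj _ (inv_mem hA2)))
  have hcls : QuotientGroup.mk (s := K) e₁ = QuotientGroup.mk (s := K) e₂ := by
    rw [← Quotient.out_eq (QuotientGroup.mk (s := K) e₁), ← Quotient.out_eq (QuotientGroup.mk (s := K) e₂)]
    exact QuotientGroup.eq.2 hr12
  have hrr : r₁ = r₂ := by simp only [hr1, hr2, r, hcls]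
  rw [hrr] at h'
  exact mul_left_cancel (a := r₂⁻¹) (Subtype.ext (mul_left_cancel h'))


/-- A replacement Theorem for abelian subgroups of p-groups, p odd. Let G be a finite p-group with p odd, A an abelian subgroup of G, and B a subgroup of nilpotency class at most 2 with [B, B] ≤ A, such that A normalizes B but B does not normalize A. Then there is an abelian subgroup A* of G of the same order as A with A ∩ B strictly contained in A* ∩ B, A* contained in N_G(A) and in the normal closure of A, the exponent of A* dividing the exponent of A, and with the subgroup generated by the elements of order dividing p in A of order at most that of the corresponding subgroup of A* (the rank of A is at most the rank of A*). -/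
theorem result {G : Type*} [Group G] [Finite G] {p : ℕ} [Fact p.Prime] (hp : p ≠ 2) (hG : IsPGroup p G) (A B : Subgroup G) (hA : IsMulCommutative A) (hB2 : ⁅⁅B, B⁆, B⁆ = ⊥) (hBA : ⁅B, B⁆ ≤ A) (hAB : A ≤ Subgroup.normalizer (B : Set G)) (hBnA : ¬ B ≤ Subgroup.normalizer (A : Set G)) : ∃ Astar : Subgroup G, IsMulCommutative Astar ∧ Nat.card Astar = Nat.card A ∧ A ⊓ B < Astar ⊓ B ∧ Astar ≤ Subgroup.normalizer (A : Set G) ∧ Astar ≤ Subgroup.normalClosure (A : Set G) ∧ Monoid.exponent Astar ∣ Monoid.exponent A ∧ Nat.card (Cfsg.omegaOne p A) ≤ Nat.card (Cfsg.omegaOne p Astar) := by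
  classical
  set S := A ⊔ B with hS
  set As := A.subgroupOf S with hAs
  set Bs := B.subgroupOf S with hBs
  have hSN : S ≤ Subgroup.normalizer (B : Set G) := sup_le hAB Subgroup.le_normalizer
  have hBsn : Bs.Normal := Subgroup.normal_subgroupOf_of_le_normalizer hSN
  have hAsc : IsMulCommutative As :=
    H35.isMulCommutative_of_forall fun x hx y hy =>
      Subtype.ext (H35.commute_of_mem_isMulCommutative hA hx hy)
  have hBsA : ⁅Bs, Bs⁆ ≤ As := Subgroup.commutator_le.2 fun x hx y hy =>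
    hBA (Subgroup.commutator_mem_commutator hx hy)
  have hnot : ¬ Bs ≤ Subgroup.normalizer (As : Set S) := by
    intro h
    refine hBnA fun b hb => Subgroup.mem_normalizer_iff.2 fun z => ?_
    have hbS : b ∈ S := Subgroup.mem_sup_right hb
    have hn := h (show (⟨b, hbS⟩ : S) ∈ Bs from hb)
    constructor
    · intro hz
      exact (hn ⟨z, Subgroup.mem_sup_left hz⟩).1 hz
    · intro hz
      have hzS : b⁻¹ * (b * z * b⁻¹) * b ∈ S :=
        mul_mem (mul_mem (inv_mem hbS) (Subgroup.mem_sup_left hz)) hbS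
      have hzS' : z ∈ S := by simpa [mul_assoc] using hzS
      exact (hn ⟨z, hzS'⟩).2 hz
  obtain ⟨b, hb, hbN, hbA⟩ :=
    H35.exists_mem_normalizer_normalizer (hG.to_subgroup S) Bs As hnot
  obtain ⟨hcard, hRc, -, hlt, -, -, hRN, -, -, hexp, hmin⟩ :=
    H35.repl_spec (hG.to_subgroup S) Bs (fun h => absurd h hp) As hAsc hBsA b hb hbN hbA
  set R := H35.repl As b with hR
  have hcardA : Nat.card As = Nat.card A :=
    Nat.card_congr (Subgroup.subgroupOfEquivOfLe (le_sup_left : A ≤ S)).toEquiv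
  have hRmap : IsMulCommutative (R.map S.subtype) := by
    refine H35.isMulCommutative_of_forall ?_
    rintro _ ⟨x, hx, rfl⟩ _ ⟨y, hy, rfl⟩
    rw [← map_mul, H35.commute_of_mem_isMulCommutative hRc hx hy, map_mul]
  refine ⟨R.map S.subtype, hRmap, ?_, ?_, ?_, ?_, ?_, ?_⟩
  · rw [Subgroup.card_map_of_injective S.subtype_injective, hcard, hcardA]
  · refine lt_of_le_not_ge (fun x hx => ?_) fun h => hlt.not_ge ?_
    · have hxS : x ∈ S := Subgroup.mem_sup_left hx.1
      exact ⟨⟨⟨x, hxS⟩, (hlt.le (show (⟨x, hxS⟩ : S) ∈ As ⊓ Bs from hx)).1, rfl⟩, hx.2⟩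
    · exact fun x hx => h ⟨⟨x, hx.1, rfl⟩, hx.2⟩
  · rintro _ ⟨x, hx, rfl⟩
    refine Subgroup.mem_normalizer_iff.2 fun z => ?_
    have hn := hRN hx
    constructor
    · intro hz
      exact (hn ⟨z, Subgroup.mem_sup_left hz⟩).1 hz
    · intro hz
      have hzS : (x : G)⁻¹ * ((x : G) * z * (x : G)⁻¹) * (x : G) ∈ S :=
        mul_mem (mul_mem (inv_mem x.2) (Subgroup.mem_sup_left hz)) x.2
      have hzS' : z ∈ S := by simpa [mul_assoc] using hzS
      exact (hn ⟨z, hzS'⟩).2 hz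
  · rintro _ ⟨x, hx, rfl⟩
    exact hmin ((Subgroup.normalClosure (A : Set G)).subgroupOf S) inferInstance
      (fun a ha => Subgroup.subset_normalClosure ha) hx
  · have e1 : Monoid.exponent ↥(R.map S.subtype) = Monoid.exponent R :=
      (Monoid.exponent_eq_of_mulEquiv (R.equivMapOfInjective S.subtype S.subtype_injective)).symm
    have e2 : Monoid.exponent As = Monoid.exponent A :=
      Monoid.exponent_eq_of_mulEquiv (Subgroup.subgroupOfEquivOfLe (le_sup_left : A ≤ S))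
    rw [e1, ← e2]
    exact hexp hp
  · refine omegaOne_le hp A _ hA hRmap (b : G) ?_ ?_ ?_ ?_
    · intro a ha
      refine Subgroup.mem_normalizer_iff.2 fun z => ?_
      have hn : b⁻¹ * (⟨a, Subgroup.mem_sup_left ha⟩ : S) * b ∈ Subgroup.normalizer (As : Set S) := by
        have := ((inv_mem hbN) _).1 (Subgroup.le_normalizer (show (⟨a, Subgroup.mem_sup_left ha⟩ : S) ∈ As from ha))
        simpa using this
      constructor
      · intro hz
        exact (hn ⟨z, Subgroup.mem_sup_left hz⟩).1 hz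
      · intro hz
        set w : S := b⁻¹ * (⟨a, Subgroup.mem_sup_left ha⟩ : S) * b with hw
        have hzS : (w : G)⁻¹ * ((w : G) * z * (w : G)⁻¹) * (w : G) ∈ S :=
          mul_mem (mul_mem (inv_mem w.2) (Subgroup.mem_sup_left hz)) w.2
        have hzS' : z ∈ S := by simpa [mul_assoc] using hzS
        exact (hn ⟨z, hzS'⟩).2 hz
    · intro a ha a' ha'
      have hn : b * (⟨a, Subgroup.mem_sup_left ha⟩ : S) * b⁻¹ ∈ Subgroup.normalizer (As : Set S) :=
        (hbN _).1 (Subgroup.le_normalizer (show (⟨a, Subgroup.mem_sup_left ha⟩ : S) ∈ As from ha))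
      have := (hn ⟨a', Subgroup.mem_sup_left ha'⟩).1 ha'
      have e : (b : G) * (a * ((b : G)⁻¹ * a' * (b : G)) * a⁻¹) * (b : G)⁻¹
          = ((b : G) * a * (b : G)⁻¹) * a' * ((b : G) * a * (b : G)⁻¹)⁻¹ := by group
      rw [e]
      exact this
    · intro d hd hd'
      refine ⟨⟨d, Subgroup.mem_sup_left hd⟩, Subgroup.mem_sup_left ⟨hd, ?_⟩, rfl⟩
      exact ⟨b * ⟨d, Subgroup.mem_sup_left hd⟩ * b⁻¹, hd', by simp [MulAut.conj_apply, mul_assoc]⟩
    · intro a ha
      refine ⟨_, Subgroup.mem_sup_right (Subgroup.subset_closure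
        ⟨⟨a, Subgroup.mem_sup_left ha⟩, ha, rfl⟩), ?_⟩
      simp [mul_assoc]

end Cfsg.Agent.S3078
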