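import Cfsg.Statements.S3080
import Cfsg.Agent.H75.ClosedFusion

set_option autoImplicit false
set_option linter.all false
open Cfsg

namespace Cfsg.Agent.S3080

/-- Let p be an odd prime, G a finite group that is p-stable in the normalizer form, P a Sylow p-subgroup such that N_G(U) is p-constrained for every nontrivial subgroup U of P, and D a subgroup of P strongly closed in P with respect to G. Then N_G(Z(J(D))) controls strong G-fusion in P (for every subset A of P and every g ∈ G with gAg⁻¹ ⊆ P, some element of that normalizer acts on A exactly as g does; J(D) is generated by the abelian subgroups of D of largest order), and so does N_G(Ω₁(Z(J_e(D)))) (J_e(D) generated by the elementary abelian subgroups of largest order). -/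
theorem result {G : Type*} [Group G] [Finite G] {p : ℕ} [Fact p.Prime] (hp : p ≠ 2) (P : Sylow p G) (D : Subgroup G) (hD : Cfsg.IsStronglyClosed D (P : Subgroup G)) (hst : Cfsg.IsNormalizerPStable p G) (hc : ∀ U : Subgroup G, U ≤ (P : Subgroup G) → U ≠ ⊥ → Cfsg.IsPConstrained p ↥(Subgroup.normalizer (U : Set G))) : (∀ A : Set G, A ⊆ (P : Subgroup G) → Cfsg.ControlsStrongFusionOf (Subgroup.normalizer ((Cfsg.centerThompsonAOf D) : Set G)) (P : Subgroup G) A) ∧ (∀ A : Set G, A ⊆ (P : Subgroup G) → Cfsg.ControlsStrongFusionOf (Subgroup.normalizer ((Cfsg.omegaOne p (Cfsg.centerThompsonOf p D)) : Set G)) (P : Subgroup G) A) := by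
  exact ⟨fun A hA => Cfsg.Agent.H75.controlsStrongFusionOf_zjOf true hp P hD hst hc A hA,
    fun A hA => Cfsg.Agent.H75.controlsStrongFusionOf_zjOf false hp P hD hst hc A hA⟩

end Cfsg.Agent.S3080
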