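import Cfsg.Statements.S3087
import Cfsg.Agent.H75.Basic
import Mathlib

set_option autoImplicit false
set_option linter.all false
open Cfsg

namespace Cfsg.Agent.S3087

/-- Let p be a prime, G a finite group acting linearly on a finite vector space V over the field with p elements, W a G-invariant subspace, and A a subgroup of G with |A|·|C_V(A)| ≥ |B|·|C_V(B)| for every subgroup B of A. Then |A|·|C_W(A)| ≥ |B|·|C_W(B)| for every subgroup B of A that contains C_A(W); that is, the image of A in the group induced on W satisfies the same maximality condition. -/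
theorem result {G V : Type*} [Group G] [Finite G] [AddCommGroup V] [Finite V] (p : ℕ) [Fact p.Prime] [Module (ZMod p) V]
    (ρ : Representation (ZMod p) G V) (W : Submodule (ZMod p) V) (hW : ∀ g : G, ∀ w ∈ W, ρ g w ∈ W)
    (A : Subgroup G)
    (hP : ∀ B : Subgroup G, B ≤ A →
      Nat.card ↥B * Nat.card {v : V // ∀ b ∈ B, ρ b v = v} ≤ Nat.card ↥A * Nat.card {v : V // ∀ a ∈ A, ρ a v = v})
    (B : Subgroup G) (hBA : B ≤ A) (hCB : ∀ a ∈ A, (∀ w ∈ W, ρ a w = w) → a ∈ B) :
    Nat.card ↥B * Nat.card {w : W // ∀ b ∈ B, ρ b w = w} ≤ Nat.card ↥A * Nat.card {w : W // ∀ a ∈ A, ρ a w = w} := by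
  have hBA' := hP B hBA
  let CV : Subgroup G → Type _ := fun K => {v : V // ∀ b ∈ K, ρ b v = v}
  let CW : Subgroup G → Type _ := fun K => {w : W // ∀ b ∈ K, ρ b w = w}
  let s : CW B × CV A → CV B := fun x => ⟨(x.1.1 : V) + x.2.1, fun b hb => by
    rw [map_add, x.1.2 b hb, x.2.2 b (hBA hb)]⟩
  haveI : Nonempty (CW B × CV A) := ⟨(⟨0, fun b _ => map_zero (ρ b)⟩, ⟨0, fun b _ => map_zero (ρ b)⟩)⟩
  let t : CW B × CV A → CV B × CW A := fun x =>
    (s x, ⟨(x.1.1 : W) - (Function.invFun s (s x)).1.1, by
      intro a ha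
      set y := Function.invFun s (s x) with hy
      have hs : s y = s x := Function.invFun_eq ⟨x, rfl⟩
      have e : ((x.1.1 - y.1.1 : W) : V) = y.2.1 - x.2.1 := by
        have h := congrArg Subtype.val hs
        simp only [s] at h
        rw [Submodule.coe_sub, sub_eq_sub_iff_add_eq_add, ← h, add_comm]
      rw [e, map_sub, y.2.2 a ha, x.2.2 a ha]⟩)
  have hinj : Function.Injective t := by
    intro x y hxy
    simp only [t, Prod.mk.injEq, Subtype.mk.injEq] at hxy
    obtain ⟨h1, h2⟩ := hxy
    have h4 : Function.invFun s (s x) = Function.invFun s (s y) := congrArg _ h1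
    simp only [h4] at h2
    have h3 : x.1 = y.1 := Subtype.ext (sub_left_inj.mp (congrArg Subtype.val h2))
    refine Prod.ext h3 (Subtype.ext ?_)
    have h := congrArg Subtype.val h1
    simp only [s, h3] at h
    exact add_left_cancel h
  have hle := Nat.card_le_card_of_injective t hinj
  rw [Nat.card_prod, Nat.card_prod] at hle
  have hpos : 0 < Nat.card (CV A) := by
    haveI : Nonempty (CV A) := ⟨⟨0, fun b _ => map_zero (ρ b)⟩⟩
    exact Nat.card_pos
  refine Nat.le_of_mul_le_mul_right ?_ hpos
  calc Nat.card B * Nat.card (CW B) * Nat.card (CV A) = Nat.card B * (Nat.card (CW B) * Nat.card (CV A)) := by ring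
    _ ≤ Nat.card B * (Nat.card (CV B) * Nat.card (CW A)) := Nat.mul_le_mul_left _ hle
    _ = (Nat.card B * Nat.card (CV B)) * Nat.card (CW A) := by ring
    _ ≤ (Nat.card A * Nat.card (CV A)) * Nat.card (CW A) := Nat.mul_le_mul_right _ hBA'
    _ = _ := by ring

end Cfsg.Agent.S3087
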