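import Cfsg.Statements.S3103
import Mathlib
import Cfsg.Agent.H50.AutGLEmbed
import Cfsg.Agent.H58.FrattiniAction
import Cfsg.Agent.H63.GLFourTwo
import Cfsg.Agent.H77.Constrained
import Cfsg.Agent.H19.Frattini
import Cfsg.Agent.H40.PCore

set_option autoImplicit false
open Cfsg

namespace Cfsg.Agent.S3103

/-- Let X be a finite 2-constrained group with no nontrivial normal subgroup of odd order such that O₂(X) has sectional 2-rank at most 4. Then X/O₂(X) is isomorphic to a subgroup of the alternating group of degree 8. -/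
theorem result {X : Type*} [Group X] [Finite X] (hc : Cfsg.IsPConstrained 2 X) (hO : Cfsg.oddCore X = ⊥)
    (h4 : Cfsg.SectionalPRankLE 2 4 ↥(Cfsg.pCore 2 X)) :
    ∃ f : X ⧸ Cfsg.pCore 2 X →* ↥(alternatingGroup (Fin 8)), Function.Injective f := by
  set P := Cfsg.pCore 2 X with hP
  haveI hPn : P.Normal := Cfsg.Agent.H40.pCore_normal' 2 X
  have hPp : IsPGroup 2 P := Cfsg.Agent.H40.isPGroup_pCore 2 X
  have hCP := Cfsg.Agent.H77.centralizer_pCore_le_of_constrained hc hO
  obtain ⟨hcomm, hpow⟩ := Cfsg.Agent.H19.commutator_pow_mem_frattini hPp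
  haveI : IsMulCommutative (↥P ⧸ frattini P) :=
    (Subgroup.Normal.quotient_commutative_iff_commutator_le).mpr hcomm
  letI : CommGroup (↥P ⧸ frattini P) :=
    { (inferInstance : Group (↥P ⧸ frattini P)) with
      mul_comm := fun a b => IsMulCommutative.is_comm.comm a b }
  have hexp : ∀ v : ↥P ⧸ frattini P, v ^ 2 = 1 := by
    intro v
    induction v using QuotientGroup.induction_on with
    | _ v => exact (QuotientGroup.eq_one_iff _).mpr (hpow v)
  have hcard : Nat.card (↥P ⧸ frattini P) ≤ 2 ^ 4 := by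
    let N : Subgroup ↥(⊤ : Subgroup ↥P) := (frattini P).subgroupOf ⊤
    have hexpN : ∀ v : ↥(⊤ : Subgroup ↥P) ⧸ N, v ^ 2 = 1 := by
      intro v
      induction v using QuotientGroup.induction_on with
      | _ v => exact (QuotientGroup.eq_one_iff _).mpr (hpow (v : ↥P))
    have hcN : IsMulCommutative (⊤ : Subgroup (↥(⊤ : Subgroup ↥P) ⧸ N)) := by
      refine ⟨⟨fun a b => Subtype.ext ?_⟩⟩
      have h := fun x => pow_two (x : ↥(⊤ : Subgroup ↥P) ⧸ N) ▸ hexpN x
      show (a : ↥(⊤ : Subgroup ↥P) ⧸ N) * b = b * a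
      have hi : ∀ x : ↥(⊤ : Subgroup ↥P) ⧸ N, x⁻¹ = x := fun x => inv_eq_of_mul_eq_one_left (h x)
      calc (a : ↥(⊤ : Subgroup ↥P) ⧸ N) * b = ((a : ↥(⊤ : Subgroup ↥P) ⧸ N) * b)⁻¹ := (hi _).symm
        _ = b * a := by rw [mul_inv_rev, hi, hi]
    have h := h4 ⊤ N ⊤ hcN (fun a _ => hexpN a)
    rw [Subgroup.card_top] at h
    refine le_trans (le_of_eq ?_) h
    have e1 : N.index = (frattini P).index := by
      show (frattini P).relIndex ⊤ = _
      rw [Subgroup.relIndex_top_right]
    rwa [Subgroup.index_eq_card, Subgroup.index_eq_card, eq_comm] at e1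
  obtain ⟨f, hf⟩ := Cfsg.Agent.H50.exists_injective_hom_GL (p := 2) (n := 4) hexp hcard
  obtain ⟨e⟩ := Cfsg.Agent.H63.nonempty_mulEquiv_gl_four_two
  let φ₀ : X →* MulAut (↥P ⧸ frattini P) :=
    (Cfsg.Agent.H50.quotientAutHom (frattini P)).comp MulAut.conjNormal
  have hker : φ₀.ker = P := by
    refine le_antisymm ?_ ?_
    · refine Cfsg.Agent.H40.le_pCore φ₀.normal_ker ?_
      by_contra hnot
      obtain ⟨r, hr, hrdvd, hr2⟩ : ∃ r : ℕ, r.Prime ∧ r ∣ Nat.card φ₀.ker ∧ r ≠ 2 := by
        by_contra hall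
        push Not at hall
        exact hnot (IsPGroup.of_card (n := (Nat.card φ₀.ker).primeFactorsList.length)
          (Nat.eq_prime_pow_of_unique_prime_dvd Nat.card_pos.ne' fun {d} hd hdd => hall d hd hdd))
      haveI := Fact.mk hr
      obtain ⟨g, hg⟩ := exists_prime_orderOf_dvd_card' r hrdvd
      have hord : orderOf (g : X) = r := by rw [Subgroup.orderOf_coe, hg]
      have hfix := Cfsg.Agent.H58.aut_eq_one_of_trivial_mod_frattini hPp hr2
        (MulAut.conjNormal (g : X) : MulAut P)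
        (by rw [← map_pow, ← hord, pow_orderOf_eq_one, map_one])
        (Cfsg.Agent.H50.quotientAutHom_eq_one (frattini P) g.2)
      have hgC : (g : X) ∈ P := hCP (Subgroup.mem_centralizer_iff.mpr fun q hq => by
        have h := congrArg Subtype.val (hfix ⟨q, hq⟩)
        rw [MulAut.conjNormal_apply, mul_inv_eq_iff_eq_mul] at h
        exact h.symm)
      obtain ⟨k, hk⟩ := hPp (⟨g, hgC⟩ : P)
      have hk2 : orderOf (⟨g, hgC⟩ : P) ∣ 2 ^ k := orderOf_dvd_of_pow_eq_one hk
      rw [Subgroup.orderOf_mk, hord] at hk2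
      exact hr2 ((Nat.prime_dvd_prime_iff_eq hr Nat.prime_two).mp (hr.dvd_of_dvd_pow hk2))
    · intro g hg
      rw [MonoidHom.mem_ker]
      refine MulEquiv.ext fun v => ?_
      induction v using QuotientGroup.induction_on with
      | _ v =>
        show ((MulAut.conjNormal g v : P) : ↥P ⧸ frattini P) = (v : ↥P ⧸ frattini P)
        have h : MulAut.conjNormal g v = (⟨g, hg⟩ : P) * v * (⟨g, hg⟩ : P)⁻¹ :=
          Subtype.ext (by rw [MulAut.conjNormal_apply]; rfl)
        rw [h, QuotientGroup.mk_mul, QuotientGroup.mk_mul, QuotientGroup.mk_inv, mul_right_comm,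
          mul_inv_cancel, one_mul]
  let ψ : X →* ↥(alternatingGroup (Fin 8)) := (e.toMonoidHom.comp f).comp φ₀
  have hψ : ψ.ker = P := by
    rw [← hker]
    ext x
    simp only [MonoidHom.mem_ker, ψ, MonoidHom.comp_apply]
    exact (map_eq_one_iff _ e.injective).trans (map_eq_one_iff _ hf)
  exact ⟨(QuotientGroup.kerLift ψ).comp (QuotientGroup.quotientMulEquivOfEq hψ.symm).toMonoidHom,
    (QuotientGroup.kerLift_injective ψ).comp (MulEquiv.injective _)⟩

end Cfsg.Agent.S3103
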