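import Cfsg.Statements.S3153
import Mathlib
import Cfsg.Agent.H76.PGroupFixed
import Cfsg.Agent.H19.Cores
import Cfsg.Agent.H51.Quasisimple
import Cfsg.Agent.H51.Component

set_option autoImplicit false
open Cfsg

namespace Cfsg.Agent.S3153

open scoped commutatorElement

/-- An odd-order element with `w * w` trivial is trivial. -/
theorem eq_one_of_sq {G : Type*} [Group G] (x : G) (hx : Odd (orderOf x)) (h : x * x = 1) : x = 1 := by
  have h1 : orderOf x ∣ 2 := orderOf_dvd_of_pow_eq_one (by rw [pow_two, h])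
  rcases (Nat.dvd_prime Nat.prime_two).mp h1 with h2 | h2
  · exact orderOf_eq_one_iff.mp h2
  · rw [h2] at hx; exact absurd hx (by decide)

/-- Commuting involutions `t, u` with the same centraliser in an odd-order normal subgroup `W`:
their product centralises `W`. -/
theorem product_centralizes {G : Type*} [Group G] [Finite G] (W : Subgroup G) [W.Normal]
    (hW : Odd (Nat.card ↥W)) (t u : G) (ht : t * t = 1) (hu : u * u = 1) (htu : Commute t u)
    (h : ∀ w ∈ W, Commute t w ↔ Commute u w) : ∀ w ∈ W, Commute (t * u) w := by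
  have ti : t⁻¹ = t := inv_eq_of_mul_eq_one_right ht
  have ui : u⁻¹ = u := inv_eq_of_mul_eq_one_right hu
  set s := t * u with hs
  have ss : s * s = 1 := by
    rw [hs]
    calc t * u * (t * u) = t * (u * t) * u := by group
      _ = t * (t * u) * u := by rw [htu.eq]
      _ = (t * t) * (u * u) := by group
      _ = 1 := by rw [ht, hu, one_mul]
  have si : s⁻¹ = s := inv_eq_of_mul_eq_one_right ss
  have hord : ∀ w ∈ W, Odd (orderOf w) := fun w hw =>
    hW.of_dvd_nat (by rw [← Subgroup.orderOf_mk w hw]; exact orderOf_dvd_natCard _)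
  -- no nontrivial element of `W` is inverted by `s`
  have key : ∀ x ∈ W, s * x * s = x⁻¹ → x = 1 := by
    intro x hx hsx
    set v := x⁻¹ * (t * x * t) with hv
    have hvW : v ∈ W := mul_mem (inv_mem hx) (by simpa [ti] using (inferInstance : W.Normal).conj_mem x hx t)
    have htv : t * v * t = v⁻¹ := by
      calc t * v * t = t * x⁻¹ * t * x * (t * t) := by rw [hv]; group
        _ = t⁻¹ * x⁻¹ * t⁻¹ * x := by rw [ht, mul_one, ti]
        _ = v⁻¹ := by rw [hv]; group
    obtain ⟨m, hm⟩ := hord v hvW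
    set a := (v⁻¹) ^ (m + 1) with ha
    have haW : a ∈ W := pow_mem (inv_mem hvW) _
    have hta : t * a * t = a⁻¹ := by
      have h1 : (t * v⁻¹ * t⁻¹) ^ (m + 1) = a⁻¹ := by
        rw [ti, show t * v⁻¹ * t = (t * v * t)⁻¹ by simp [mul_inv_rev, ti, mul_assoc], htv, inv_inv, ha, inv_pow,
          inv_inv]
      rwa [conj_pow, ti, ← ha] at h1
    have haa : a * a = v⁻¹ := by
      rw [ha, ← pow_add, show m + 1 + (m + 1) = (2 * m + 1) + 1 by ring, ← hm, pow_succ,
        ← orderOf_inv v, pow_orderOf_eq_one, one_mul]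
    set c := x * a⁻¹ with hc
    have hcW : c ∈ W := mul_mem hx (inv_mem haW)
    have htc : t * c * t = c := by
      have hai : t * a⁻¹ * t = a := by
        rw [show t * a⁻¹ * t = (t * a * t)⁻¹ by simp [mul_inv_rev, ti, mul_assoc], hta, inv_inv]
      calc t * c * t = (t * x * t) * (t⁻¹ * a⁻¹ * t) := by rw [hc]; group
        _ = (x * v) * (t * a⁻¹ * t) := by rw [ti, hv, mul_inv_cancel_left]
        _ = x * (a * a)⁻¹ * a := by rw [hai, haa, inv_inv]
        _ = c := by rw [hc]; group
    have hct : Commute t c := by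
      have := congrArg (fun z => z * t) htc
      simp only [mul_assoc, ht, mul_one] at this
      exact this
    have hcs : Commute s c := hct.mul_left ((h c hcW).mp hct)
    have has : s * a * s = c⁻¹ * a⁻¹ * c⁻¹ := by
      have hx' : x = c * a := by rw [hc, inv_mul_cancel_right]
      rw [hx', mul_inv_rev] at hsx
      calc s * a * s = c⁻¹ * ((c * s) * a * s) := by group
        _ = c⁻¹ * (s * (c * a) * s) := by rw [← hcs.eq]; group
        _ = c⁻¹ * a⁻¹ * c⁻¹ := by rw [hsx, ← mul_assoc]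
    have hst : Commute s t := (Commute.refl t).mul_left htu.symm
    have h2 : (s * a * s)⁻¹ = c⁻¹ * a * c⁻¹ := by
      have e1 : t * (s * a * s) * t = (s * a * s)⁻¹ := by
        calc t * (s * a * s) * t = (t * s) * a * (s * t) := by group
          _ = (s * t) * a * (t * s) := by rw [hst.eq]
          _ = s * (t * a * t) * s := by group
          _ = (s * a * s)⁻¹ := by rw [hta]; simp [mul_inv_rev, si, mul_assoc]
      have e2 : t * c⁻¹ = c⁻¹ * t := hct.inv_right.eq
      rw [← e1, has]
      calc t * (c⁻¹ * a⁻¹ * c⁻¹) * t = (t * c⁻¹) * a⁻¹ * (c⁻¹ * t) := by group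
        _ = (c⁻¹ * t) * a⁻¹ * (t * c⁻¹) := by rw [e2]
        _ = c⁻¹ * (t * a⁻¹ * t) * c⁻¹ := by group
        _ = c⁻¹ * a * c⁻¹ := by
          rw [show t * a⁻¹ * t = (t * a * t)⁻¹ by simp [mul_inv_rev, ti, mul_assoc], hta, inv_inv]
    have h2' : c * a * c = c⁻¹ * a * c⁻¹ := by rw [← h2, has]; group
    -- `a` inverts `c * c`
    have h3 : a * (c * c) * a⁻¹ = (c * c)⁻¹ := by
      have h6 : c * c * a * (c * c) = a := by
        calc c * c * a * (c * c) = c * (c * a * c) * c := by group
          _ = a := by rw [h2']; group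
      calc a * (c * c) * a⁻¹ = (c * c)⁻¹ * (c * c * a * (c * c)) * a⁻¹ := by group
        _ = (c * c)⁻¹ := by rw [h6]; group
    have h4 : Commute (a * a) (c * c) := by
      rw [commute_iff_eq, ← mul_inv_eq_iff_eq_mul]
      calc a * a * (c * c) * (a * a)⁻¹ = a * (a * (c * c) * a⁻¹) * a⁻¹ := by group
        _ = a * (c * c)⁻¹ * a⁻¹ := by rw [h3]
        _ = (a * (c * c) * a⁻¹)⁻¹ := by group
        _ = c * c := by rw [h3, inv_inv]
    obtain ⟨r, hr⟩ := hord a haW
    have hpow : (a * a) ^ (r + 1) = a := by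
      rw [← sq, ← pow_mul, show 2 * (r + 1) = (2 * r + 1) + 1 by ring, ← hr, pow_succ, pow_orderOf_eq_one, one_mul]
    have h5 : Commute a (c * c) := hpow ▸ h4.pow_left (r + 1)
    rw [h5.eq, mul_inv_cancel_right] at h3
    have hc1 : c = 1 := eq_one_of_sq c (hord c hcW)
      (eq_one_of_sq _ (hord _ (mul_mem hcW hcW)) (by nth_rw 2 [h3]; rw [mul_inv_cancel]))
    have hxa : x = a := mul_inv_eq_one.mp hc1
    rw [← hxa] at hta
    -- `x` is inverted by `t` and `s`, so centralised by `u`
    have hux : Commute u x := by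
      have e : u = t * s := by rw [hs, ← mul_assoc, ht, one_mul]
      have e' : u⁻¹ = s * t := by
        conv_lhs => rw [e]
        rw [mul_inv_rev, si, ti]
      have : u * x * u⁻¹ = x := by
        rw [e', e, show t * s * x * (s * t) = t * (s * x * s) * t by group, hsx,
          show t * x⁻¹ * t = (t * x * t)⁻¹ by simp [mul_inv_rev, ti, mul_assoc], hta, inv_inv]
      exact mul_inv_eq_iff_eq_mul.mp this
    have htx : Commute t x := (h x hx).mpr hux
    rw [htx.eq, mul_assoc, ht, mul_one] at hta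
    exact eq_one_of_sq x (hord x hx) (by nth_rw 2 [hta]; exact mul_inv_cancel x)
  intro w hw
  have hz : w⁻¹ * (s * w * s) ∈ W :=
    mul_mem (inv_mem hw) (by simpa [si] using (inferInstance : W.Normal).conj_mem w hw s)
  have := key _ hz (by
    calc s * (w⁻¹ * (s * w * s)) * s = s * w⁻¹ * s * w * (s * s) := by group
      _ = s⁻¹ * w⁻¹ * s⁻¹ * w := by rw [ss, mul_one, si]
      _ = (w⁻¹ * (s * w * s))⁻¹ := by group)
  rw [inv_mul_eq_one] at this
  have h2 := congrArg (fun z => z * s) this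
  simp only [mul_assoc, ss, mul_one] at h2
  exact h2.symm
set_option maxHeartbeats 2000000

/-- Let X be a finite group and P a standard subgroup of X whose centralizer has 2-rank at most 1 and whose centre has odd order. Let S be a Sylow 2-subgroup of N_X(P) and t an involution of S centralizing P. Suppose some element g of X normalizes S, does not lie in S, has its square in S, and conjugates t into P·C_X(P). Then P commutes elementwise with the largest normal odd-order subgroup O(X) of X; consequently every t-invariant 2-component of X containing P is quasisimple. -/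
theorem result {X : Type*} [Group X] [Finite X] (P : Subgroup X) (hP : Cfsg.IsStandardSubgroup P)
    (hr : Cfsg.PRankLE 2 1 ↥(Subgroup.centralizer (P : Set X))) (hZ : Odd (Nat.card ↥(Subgroup.center ↥P)))
    (S : Sylow 2 ↥(Subgroup.normalizer (P : Set X))) (t : X) (ht : orderOf t = 2) (htS : t ∈ (S : Subgroup ↥(Subgroup.normalizer (P : Set X))).map (Subgroup.normalizer (P : Set X)).subtype)
    (htP : t ∈ Subgroup.centralizer (P : Set X))
    (g : X) (hgN : ∀ s ∈ (S : Subgroup ↥(Subgroup.normalizer (P : Set X))).map (Subgroup.normalizer (P : Set X)).subtype, g * s * g⁻¹ ∈ (S : Subgroup ↥(Subgroup.normalizer (P : Set X))).map (Subgroup.normalizer (P : Set X)).subtype)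
    (hgS : g ∉ (S : Subgroup ↥(Subgroup.normalizer (P : Set X))).map (Subgroup.normalizer (P : Set X)).subtype) (hg2 : g ^ 2 ∈ (S : Subgroup ↥(Subgroup.normalizer (P : Set X))).map (Subgroup.normalizer (P : Set X)).subtype)
    (hgt : g * t * g⁻¹ ∈ P ⊔ Subgroup.centralizer (P : Set X)) :
    ⁅P, Cfsg.oddCore X⁆ = ⊥ ∧
      ∀ L : Subgroup X, Cfsg.IsPComponent 2 L → P ≤ L → (∀ l ∈ L, t * l * t⁻¹ ∈ L) → Cfsg.IsQuasisimple ↥L := by
  set S0 := (S : Subgroup ↥(Subgroup.normalizer (P : Set X))).map (Subgroup.normalizer (P : Set X)).subtype with hS0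
  obtain ⟨hq, hTE, -, hNK⟩ := hP
  have hS0N : S0 ≤ (Subgroup.normalizer (P : Set X)) := Subgroup.map_subtype_le _
  have hS0p : IsPGroup 2 ↥S0 := S.2.map _
  have ht1 : t ≠ 1 := fun h => by rw [h, orderOf_one] at ht; norm_num at ht
  have ht2 : t * t = 1 := by
    have h := pow_orderOf_eq_one t
    rwa [ht, sq] at h
  have hNn : (Subgroup.normalizer (P : Set X)) = Subgroup.normalizer ((Subgroup.centralizer (P : Set X)) : Set X) := hNK
  have hKn : ∀ n ∈ (Subgroup.normalizer (P : Set X)), ∀ k ∈ (Subgroup.centralizer (P : Set X)), n * k * n⁻¹ ∈ (Subgroup.centralizer (P : Set X)) := by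
    intro n hn k hk
    rw [hNn] at hn
    exact (Subgroup.mem_normalizer_iff.mp hn k).mp hk
  -- elements centralising `t` normalise `P`
  have hCt : ∀ w : X, Commute w t → w ∈ (Subgroup.normalizer (P : Set X)) := by
    intro w hw
    by_contra hwN
    have hodd := hTE.2 w (fun h => hwN (hNn.symm ▸ h))
    have h2 : 2 ∣ Nat.card ↥((Subgroup.centralizer (P : Set X)) ⊓ (Subgroup.centralizer (P : Set X)).map (MulAut.conj w).toMonoidHom) := by
      rw [← ht, ← Subgroup.orderOf_mk t (show t ∈ (Subgroup.centralizer (P : Set X)) ⊓ (Subgroup.centralizer (P : Set X)).map (MulAut.conj w).toMonoidHom from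
        ⟨htP, ⟨t, htP, by simp [hw.eq]⟩⟩)]
      exact orderOf_dvd_natCard _
    rw [Nat.odd_iff] at hodd
    omega
  -- `g ∉ (Subgroup.normalizer (P : Set X))(P)`
  have hgN' : g ∉ (Subgroup.normalizer (P : Set X)) := by
    intro hg
    have hz2 : IsPGroup 2 ↥(Subgroup.zpowers g) := by
      obtain ⟨j, hj⟩ := hS0p ⟨g ^ 2, hg2⟩
      have hj' : g ^ 2 ^ (j + 1) = 1 := by rw [pow_succ', pow_mul]; exact congrArg Subtype.val hj
      rintro ⟨_, i, rfl⟩
      refine ⟨j + 1, Subtype.ext ?_⟩
      show (g ^ i) ^ 2 ^ (j + 1) = 1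
      rw [← zpow_natCast, ← zpow_mul, mul_comm, zpow_mul, zpow_natCast, hj', one_zpow]
    have hnorm : Subgroup.zpowers g ≤ Subgroup.normalizer (S0 : Set X) := by
      rw [Subgroup.zpowers_le, Subgroup.mem_normalizer_iff]
      intro s
      refine ⟨hgN s, fun hs => ?_⟩
      have h2 := hgN _ hs
      have h3 := mul_mem (mul_mem (inv_mem hg2) h2) hg2
      rwa [show (g ^ 2)⁻¹ * (g * (g * s * g⁻¹) * g⁻¹) * g ^ 2 = s by group] at h3
    have hsup : IsPGroup 2 ↥(Subgroup.zpowers g ⊔ S0) := IsPGroup.to_sup_of_normal_right' hz2 hS0p hnorm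
    have hle : Subgroup.zpowers g ⊔ S0 ≤ (Subgroup.normalizer (P : Set X)) := sup_le (Subgroup.zpowers_le.mpr hg) hS0N
    have h1 := S.3 (hsup.comap_of_injective (Subgroup.normalizer (P : Set X)).subtype (Subgroup.normalizer (P : Set X)).subtype_injective) (fun x hx =>
      Subgroup.mem_sup_right (Subgroup.mem_map_of_mem (Subgroup.normalizer (P : Set X)).subtype hx))
    have h2 : (⟨g, hg⟩ : ↥(Subgroup.normalizer (P : Set X))) ∈ (Subgroup.zpowers g ⊔ S0).comap (Subgroup.normalizer (P : Set X)).subtype :=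
      Subgroup.mem_sup_left (Subgroup.mem_zpowers g)
    rw [h1] at h2
    exact hgS ⟨_, h2, rfl⟩
  -- involutions of `(Subgroup.centralizer (P : Set X))` commuting with `t`
  have huniq : ∀ v ∈ (Subgroup.centralizer (P : Set X)), v * v = 1 → Commute v t → v = 1 ∨ v = t := by
    intro v hv hv2 hvt
    by_contra hne
    push Not at hne
    obtain ⟨hv1, hvt'⟩ := hne
    let A : Subgroup ↥(Subgroup.centralizer (P : Set X)) :=
      { carrier := {k | (k : X) = 1 ∨ (k : X) = t ∨ (k : X) = v ∨ (k : X) = t * v}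
        one_mem' := Or.inl rfl
        mul_mem' := by
          rintro a b ha hb
          have e1 : v * t = t * v := hvt.eq
          have e2 : t * (t * v) = v := by rw [← mul_assoc, ht2, one_mul]
          have e3 : v * (t * v) = t := by rw [← mul_assoc, e1, mul_assoc, hv2, mul_one]
          have e4 : t * v * t = v := by rw [mul_assoc, e1, e2]
          have e5 : t * v * v = t := by rw [mul_assoc, hv2, mul_one]
          have e6 : t * v * (t * v) = 1 := by rw [← mul_assoc, e4, hv2]
          show (a : X) * (b : X) = 1 ∨ (a : X) * (b : X) = t ∨ (a : X) * (b : X) = v ∨ (a : X) * (b : X) = t * v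
          rcases ha with h | h | h | h <;> rcases hb with h' | h' | h' | h' <;> rw [h, h'] <;>
            simp [ht2, hv2, e1, e2, e3, e4, e5, e6]
        inv_mem' := by
          rintro a ha
          have ti : t⁻¹ = t := inv_eq_of_mul_eq_one_right ht2
          have vi : v⁻¹ = v := inv_eq_of_mul_eq_one_right hv2
          show (a : X)⁻¹ = 1 ∨ (a : X)⁻¹ = t ∨ (a : X)⁻¹ = v ∨ (a : X)⁻¹ = t * v
          rcases ha with h | h | h | h <;> rw [h] <;> simp [ti, vi, hvt.eq] }
    have hAc : IsMulCommutative ↥A := by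
      refine ⟨⟨fun a b => Subtype.ext (Subtype.ext ?_)⟩⟩
      show ((a : ↥(Subgroup.centralizer (P : Set X))) : X) * ((b : ↥(Subgroup.centralizer (P : Set X))) : X) = ((b : ↥(Subgroup.centralizer (P : Set X))) : X) * ((a : ↥(Subgroup.centralizer (P : Set X))) : X)
      rcases a.2 with h | h | h | h <;> rcases b.2 with h' | h' | h' | h' <;> rw [h, h'] <;>
        first
        | rfl
        | simp only [one_mul, mul_one]; done
        | exact hvt.eq
        | exact hvt.symm.eq
        | exact ((Commute.refl t).mul_left hvt).eq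
        | exact ((Commute.refl t).mul_left hvt).symm.eq
        | exact (hvt.symm.mul_left (Commute.refl v)).eq
        | exact (hvt.symm.mul_left (Commute.refl v)).symm.eq
    have hAe : ∀ a ∈ A, a ^ 2 = 1 := by
      intro a ha
      refine Subtype.ext ?_
      show ((a : X)) ^ 2 = 1
      rcases ha with h | h | h | h <;> rw [h, sq]
      · simp
      · exact ht2
      · exact hv2
      · rw [mul_assoc, ← mul_assoc v, hvt.eq, mul_assoc, hv2, mul_one, ht2]
    have h4 : 3 ≤ Nat.card ↥A := by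
      have hsub : ({1, t, v} : Set X) ⊆ (A.map (Subgroup.centralizer (P : Set X)).subtype : Set X) := by
        rintro x (rfl | rfl | rfl)
        · exact one_mem _
        · exact ⟨⟨_, htP⟩, Or.inr (Or.inl rfl), rfl⟩
        · exact ⟨⟨_, hv⟩, Or.inr (Or.inr (Or.inl rfl)), rfl⟩
      have h3 : ({1, t, v} : Set X).ncard = 3 := by
        rw [Set.ncard_insert_of_notMem (by simp [Ne.symm ht1, Ne.symm hv1]),
          Set.ncard_pair (Ne.symm hvt')]
      have := Set.ncard_le_ncard hsub (Set.toFinite _)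
      rwa [h3, ← Nat.card_coe_set_eq, SetLike.coe_sort_coe,
        Subgroup.card_map_of_injective (Subgroup.subtype_injective _)] at this
    have := hr A hAc hAe
    omega
  have hcomm' : ∀ a b : X, Commute a b → a * b * a⁻¹ = b := fun a b h => by rw [h.eq, mul_inv_cancel_right]
  -- `t` is central in `S0`
  have htS0 : ∀ s ∈ S0, Commute s t := by
    have hSK : S0 ⊓ (Subgroup.centralizer (P : Set X)) ≠ ⊥ := fun h => ht1 (Subgroup.mem_bot.mp (h ▸ ⟨htS, htP⟩))
    obtain ⟨z, hz, hz1, hzc⟩ := Cfsg.Agent.H76.exists_central_mem_of_normalized (p := 2) (S0 ⊓ (Subgroup.centralizer (P : Set X))) (S0 ⊓ (Subgroup.centralizer (P : Set X)))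
      (hS0p.to_le inf_le_left) le_rfl hSK (fun a ha m hm => mul_mem (mul_mem ha hm) (inv_mem ha))
    -- a power of `z` of order two is `t`
    classical
    have hex : ∃ j : ℕ, z ^ 2 ^ j = 1 := (hS0p ⟨z, hz.1⟩).imp fun j hj => congrArg Subtype.val hj
    obtain ⟨j, hj⟩ : ∃ j, Nat.find hex = j + 1 := by
      refine ⟨Nat.find hex - 1, ?_⟩
      have : Nat.find hex ≠ 0 := fun h => hz1 (by simpa [h] using Nat.find_spec hex)
      omega
    have hz2 : z ^ 2 ^ j * z ^ 2 ^ j = 1 := by
      rw [← pow_add, ← two_mul, ← pow_succ', ← hj]; exact Nat.find_spec hex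
    have hzne : z ^ 2 ^ j ≠ 1 := Nat.find_min hex (by omega)
    have hzt := (huniq _ (pow_mem hz.2 _) hz2 ((show Commute t z from hzc t ⟨htS, htP⟩).symm.pow_left _)).resolve_left hzne
    intro s hs
    have h1 : s * t * s⁻¹ ∈ S0 ⊓ (Subgroup.centralizer (P : Set X)) := ⟨S0.mul_mem (S0.mul_mem hs htS) (S0.inv_mem hs), hKn s (hS0N hs) t htP⟩
    have h2 : Commute (s * t * s⁻¹) t := by
      have := (show Commute (s * t * s⁻¹) z from hzc _ h1).pow_right (2 ^ j)
      rwa [hzt] at this
    rcases huniq _ h1.2 (by rw [show s * t * s⁻¹ * (s * t * s⁻¹) = s * (t * t) * s⁻¹ by group, ht2]; group) h2 with h | h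
    · exact absurd (conj_eq_one_iff.mp h) ht1
    · exact mul_inv_eq_iff_eq_mul.mp h
  set t' := g * t * g⁻¹ with ht'
  have ht'S : t' ∈ S0 := hgN t htS
  have ht't : t' ≠ t := fun h => hgN' (hCt g (mul_inv_eq_iff_eq_mul.mp h))
  have ht'2 : t' * t' = 1 := by
    rw [ht', show g * t * g⁻¹ * (g * t * g⁻¹) = g * (t * t) * g⁻¹ by group, ht2]; group
  have hgg : g * t' * g⁻¹ = t := by
    rw [ht', show g * (g * t * g⁻¹) * g⁻¹ = g ^ 2 * t * (g ^ 2)⁻¹ by rw [sq]; group, (htS0 _ hg2).eq,
      mul_inv_cancel_right]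
  have hoddz : ∀ e : X, e ∈ P → e ∈ (Subgroup.centralizer (P : Set X)) → Odd (orderOf e) := by
    intro e heP heK
    have : (⟨e, heP⟩ : ↥P) ∈ Subgroup.center ↥P :=
      Subgroup.mem_center_iff.mpr fun p => Subtype.ext (Subgroup.mem_centralizer_iff.mp heK p p.2)
    refine hZ.of_dvd_nat ?_
    rw [← Subgroup.orderOf_mk e heP, ← Subgroup.orderOf_mk (⟨e, heP⟩ : ↥P) this]
    exact orderOf_dvd_natCard _
  -- split `t'`
  obtain ⟨p, hpP, hp2, hpt'⟩ : ∃ p ∈ P, p * p = 1 ∧ (p = t' ∨ p = t' * t) := by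
    have hKN : (Subgroup.centralizer (P : Set X)) ≤ Subgroup.normalizer (P : Set X) := by
      intro k hk
      rw [hNn]
      exact Subgroup.le_normalizer hk
    obtain ⟨p0, hp0, c0, hc0, hpc⟩ : ∃ p0 ∈ P, ∃ c0 ∈ (Subgroup.centralizer (P : Set X)), t' = p0 * c0 := by
      have h1 : t' ∈ ((P ⊔ (Subgroup.centralizer (P : Set X)) : Subgroup X) : Set X) := hgt
      rw [Subgroup.coe_mul_of_right_le_normalizer_left P (Subgroup.centralizer (P : Set X)) hKN] at h1
      obtain ⟨a, ha, b, hb, hab⟩ := h1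
      exact ⟨a, ha, b, hb, hab.symm⟩
    have hc : Commute p0 c0 := Subgroup.mem_centralizer_iff.mp hc0 p0 hp0
    set e := p0 * p0 with he
    have heK : e ∈ (Subgroup.centralizer (P : Set X)) := by
      have h1 : e * (c0 * c0) = 1 := by
        rw [he, show p0 * p0 * (c0 * c0) = p0 * (p0 * c0) * c0 by group, hc.eq,
          show p0 * (c0 * p0) * c0 = (p0 * c0) * (p0 * c0) by group, ← hpc, ht'2]
      rw [mul_eq_one_iff_eq_inv.mp h1]
      exact inv_mem (mul_mem hc0 hc0)
    have heP : e ∈ P := mul_mem hp0 hp0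
    obtain ⟨m, hm⟩ := hoddz e heP heK
    set r := (e⁻¹) ^ (m + 1) with hr'
    have hrr : r * r = e⁻¹ := by
      rw [hr', ← pow_add, show m + 1 + (m + 1) = (2 * m + 1) + 1 by ring, ← hm, pow_succ,
        ← orderOf_inv e, pow_orderOf_eq_one, one_mul]
    have hrP : r ∈ P := pow_mem (inv_mem heP) _
    have hrK : r ∈ (Subgroup.centralizer (P : Set X)) := pow_mem (inv_mem heK) _
    have hrp : Commute p0 r := Subgroup.mem_centralizer_iff.mp hrK p0 hp0
    have hrc : Commute r c0 := Subgroup.mem_centralizer_iff.mp hc0 r hrP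
    set p := p0 * r with hp
    set c := r⁻¹ * c0 with hc'
    have hpcc : t' = p * c := by rw [hp, hc', hpc]; group
    have hp2 : p * p = 1 := by
      rw [hp, show p0 * r * (p0 * r) = p0 * (r * p0) * r by group, ← hrp.eq,
        show p0 * (p0 * r) * r = p0 * p0 * (r * r) by group, hrr, ← he, mul_inv_cancel]
    have hpP : p ∈ P := mul_mem hp0 hrP
    have hcK : c ∈ (Subgroup.centralizer (P : Set X)) := mul_mem (inv_mem hrK) hc0
    have hpc' : Commute p c := Subgroup.mem_centralizer_iff.mp hcK p hpP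
    have hc2 : c * c = 1 := by
      have h1 : (p * c) * (p * c) = 1 := hpcc ▸ ht'2
      rwa [show p * c * (p * c) = p * (c * p) * c by group, ← hpc'.eq,
        show p * (p * c) * c = (p * p) * (c * c) by group, hp2, one_mul] at h1
    have hct : Commute c t := by
      have hpt : Commute p t := Subgroup.mem_centralizer_iff.mp htP p hpP
      have h1 : c = p * t' := by rw [hpcc, ← mul_assoc, hp2, one_mul]
      rw [h1]
      exact hpt.mul_left (htS0 _ ht'S)
    refine ⟨p, hpP, hp2, ?_⟩
    rcases huniq c hcK hc2 hct with hc1 | hc1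
    · left; rw [hpcc, hc1, mul_one]
    · right; rw [hpcc, hc1, mul_assoc, ht2, mul_one]
  have hp1 : p ≠ 1 := by
    intro hp
    rcases hpt' with h | h
    · exact ht1 (conj_eq_one_iff.mp (ht' ▸ (h.symm.trans hp)))
    · exact ht't (by rw [mul_eq_one_iff_eq_inv.mp (h.symm.trans hp), inv_eq_of_mul_eq_one_right ht2])
  have hpt : Commute p t := Subgroup.mem_centralizer_iff.mp htP p hpP
  have htt' : Commute t t' := (htS0 _ ht'S).symm
  -- the odd core
  set W := Cfsg.oddCore X with hW
  have hWn : W.Normal := Cfsg.Agent.H19.pPrimeCore_normal 2 X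
  have hWo : Odd (Nat.card ↥W) := Nat.coprime_two_right.mp (Cfsg.Agent.H19.pPrimeCore_coprime 2)
  have hoddW : ∀ w ∈ W, Odd (orderOf w) := fun w hw =>
    hWo.of_dvd_nat (by rw [← Subgroup.orderOf_mk w hw]; exact orderOf_dvd_natCard _)
  have hpo : orderOf p = 2 := orderOf_eq_prime (by rw [sq]; exact hp2) hp1
  have hperf : commutator ↥P = ⊤ := hq.1.commutator_eq_top
  -- central commutators with a fixed element vanish in the perfect group `P`
  have hhom : ∀ f : ↥P → ↥P, (∀ a b, f (a * b) = f a * f b) → (∀ a, f a ∈ Subgroup.center ↥P) → ∀ a, f a = 1 := by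
    intro f hf hfc a
    let φ : ↥P →* ↥(Subgroup.center ↥P) := MonoidHom.mk' (fun a => ⟨f a, hfc a⟩) (fun a b => Subtype.ext (hf a b))
    have : commutator ↥P ≤ φ.ker := by
      rw [commutator_def, Subgroup.commutator_le]
      intro x _ y _
      rw [MonoidHom.mem_ker, map_commutatorElement, commutatorElement_eq_one_iff_mul_comm]
      exact Subtype.ext ((Subgroup.mem_center_iff.mp (φ y).2 (φ x : ↥P)))
    rw [hperf] at this
    exact congrArg Subtype.val (MonoidHom.mem_ker.mp (this (Subgroup.mem_top a)))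
  have hWC : ∀ w ∈ W, Commute w t → ∀ q ∈ P, Commute w q := by
    intro w hw hwt
    have hwN := hCt w hwt
    have hmem : ∀ q : ↥P, w * q * w⁻¹ * (q : X)⁻¹ ∈ P := fun q =>
      mul_mem ((Subgroup.mem_normalizer_iff.mp hwN q).mp q.2) (inv_mem q.2)
    have hMn : (W.subgroupOf P).Normal := hWn.subgroupOf P
    have hMc : W.subgroupOf P ≤ Subgroup.center ↥P := by
      refine (Cfsg.Agent.H51.quasisimple_eq_top_or_le_center_of_normal hq (W.subgroupOf P)).resolve_left ?_
      intro htop
      have hpW : p ∈ W := by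
        have := htop ▸ Subgroup.mem_top (⟨p, hpP⟩ : ↥P)
        exact this
      exact hp1 (eq_one_of_sq p (hoddW p hpW) hp2)
    have hfW : ∀ q : ↥P, (⟨w * q * w⁻¹ * (q : X)⁻¹, hmem q⟩ : ↥P) ∈ Subgroup.center ↥P := fun q => by
      refine hMc ?_
      show w * q * w⁻¹ * (q : X)⁻¹ ∈ W
      rw [show w * q * w⁻¹ * (q : X)⁻¹ = w * ((q : X) * w⁻¹ * (q : X)⁻¹) by group]
      exact mul_mem hw (hWn.conj_mem _ (inv_mem hw) q)
    intro q hq'
    have := hhom (fun q => ⟨w * q * w⁻¹ * (q : X)⁻¹, hmem q⟩) ?_ hfW ⟨q, hq'⟩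
    · exact mul_inv_eq_iff_eq_mul.mp (mul_inv_eq_one.mp (congrArg Subtype.val this))
    · intro a b
      refine Subtype.ext ?_
      have hc := congrArg Subtype.val (Subgroup.mem_center_iff.mp (hfW b) a⁻¹)
      simp only [Subgroup.coe_mul, Subgroup.coe_inv] at hc ⊢
      calc w * ((a : X) * b) * w⁻¹ * ((a : X) * b)⁻¹
          = w * a * w⁻¹ * ((w * b * w⁻¹ * (b : X)⁻¹) * (a : X)⁻¹) := by group
        _ = w * a * w⁻¹ * ((a : X)⁻¹ * (w * b * w⁻¹ * (b : X)⁻¹)) := by rw [hc]
        _ = w * a * w⁻¹ * (a : X)⁻¹ * (w * b * w⁻¹ * (b : X)⁻¹) := by group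
  have hWt' : ∀ w ∈ W, Commute w t → Commute w t' := by
    intro w hw hwt
    have h1 := hWC w hw hwt p hpP
    rcases hpt' with h | h
    · exact h ▸ h1
    · rw [show t' = p * t by rw [h, mul_assoc, ht2, mul_one]]
      exact h1.mul_right hwt
  have hiff : ∀ w ∈ W, Commute t w ↔ Commute t' w := by
    intro w hw
    refine ⟨fun h => (hWt' w hw h.symm).symm, fun h => ?_⟩
    have h1 : Commute (g * w * g⁻¹) t := by
      have := (h.symm.map (MulAut.conj g))
      simp only [MulAut.conj_apply] at this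
      rwa [hgg] at this
    have h2 := hWt' _ (hWn.conj_mem w hw g) h1
    have h3 : Commute w t := by
      have := h2.map (MulAut.conj g⁻¹)
      simp only [MulAut.conj_apply] at this
      rw [ht'] at this
      simpa [mul_assoc] using this
    exact h3.symm
  have hsW := product_centralizes W hWo t t' ht2 ht'2 htt' hiff
  set CW := Subgroup.centralizer (W : Set X) with hCW
  have hCWn : CW.Normal := by
    refine ⟨fun c hc x => ?_⟩
    rw [hCW, Subgroup.mem_centralizer_iff] at hc ⊢
    intro w hw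
    have h1 : x⁻¹ * w * x ∈ W := by simpa using hWn.conj_mem w hw x⁻¹
    have h2 := hc _ h1
    calc w * (x * c * x⁻¹) = x * ((x⁻¹ * w * x) * c) * x⁻¹ := by group
      _ = x * (c * (x⁻¹ * w * x)) * x⁻¹ := by rw [h2]
      _ = x * c * x⁻¹ * w := by group
  have hs : t * t' ∈ CW := Subgroup.mem_centralizer_iff.mpr fun w hw => (hsW w hw).symm.eq
  have hmodp : ∀ q ∈ P, p * q * p⁻¹ * q⁻¹ ∈ CW := by
    intro q hq'
    have htq : Commute t q := (Subgroup.mem_centralizer_iff.mp htP q hq').symm
    rw [← QuotientGroup.eq_one_iff (N := CW)]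
    have hst : ((t : X) : X ⧸ CW) * ((t' : X) : X ⧸ CW) = 1 := by
      rw [← QuotientGroup.mk_mul, QuotientGroup.eq_one_iff]; exact hs
    have htt : ((t : X) : X ⧸ CW) * (t : X ⧸ CW) = 1 := by rw [← QuotientGroup.mk_mul, ht2]; rfl
    have ht'q : ((t' : X) : X ⧸ CW) = (t : X ⧸ CW) := mul_left_cancel (hst.trans htt.symm)
    have hpq : Commute ((p : X) : X ⧸ CW) (q : X ⧸ CW) := by
      have htq' : Commute ((t : X) : X ⧸ CW) (q : X ⧸ CW) := htq.map (QuotientGroup.mk' CW)
      rcases hpt' with h | h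
      · rw [h, ht'q]; exact htq'
      · rw [h, QuotientGroup.mk_mul, ht'q, htt]; exact Commute.one_left _
    simp only [QuotientGroup.mk_mul, QuotientGroup.mk_inv, hpq.eq, mul_inv_cancel_right, mul_inv_cancel]
  have hPW : P ≤ CW := by
    have hMn : (CW.subgroupOf P).Normal := hCWn.subgroupOf P
    rcases Cfsg.Agent.H51.quasisimple_eq_top_or_le_center_of_normal hq (CW.subgroupOf P) with h | h
    · exact Subgroup.subgroupOf_eq_top.mp h
    · exfalso
      have hf : ∀ q : ↥P, (⟨p, hpP⟩ : ↥P) * q * (⟨p, hpP⟩ : ↥P)⁻¹ * q⁻¹ ∈ Subgroup.center ↥P :=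
        fun q => h (hmodp q q.2)
      have h0 := hhom (fun q => (⟨p, hpP⟩ : ↥P) * q * (⟨p, hpP⟩ : ↥P)⁻¹ * q⁻¹) (fun a b => ?_) hf
      · have hzp : (⟨p, hpP⟩ : ↥P) ∈ Subgroup.center ↥P := Subgroup.mem_center_iff.mpr fun q =>
          (mul_inv_eq_iff_eq_mul.mp (mul_inv_eq_one.mp (h0 q))).symm
        have hpK : p ∈ (Subgroup.centralizer (P : Set X)) := Subgroup.mem_centralizer_iff.mpr fun q hq' =>
          congrArg Subtype.val (Subgroup.mem_center_iff.mp hzp ⟨q, hq'⟩)
        exact hp1 (eq_one_of_sq p (hoddz p hpP hpK) hp2)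
      · have hc := Subgroup.mem_center_iff.mp (hf b) a⁻¹
        set pp : ↥P := ⟨p, hpP⟩
        calc pp * (a * b) * pp⁻¹ * (a * b)⁻¹ = pp * a * pp⁻¹ * ((pp * b * pp⁻¹ * b⁻¹) * a⁻¹) := by group
          _ = pp * a * pp⁻¹ * (a⁻¹ * (pp * b * pp⁻¹ * b⁻¹)) := by rw [hc]
          _ = pp * a * pp⁻¹ * a⁻¹ * (pp * b * pp⁻¹ * b⁻¹) := by group
  refine ⟨Subgroup.commutator_eq_bot_iff_le_centralizer.mpr hPW, ?_⟩
  intro L hL hPL _
  obtain ⟨hLs, hLc, hLmin⟩ := hL
  set π := QuotientGroup.mk' (Cfsg.pPrimeCore 2 X)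
  -- subgroups of `L` normal in `L` with the same image are everything
  have hstep : ∀ M : Subgroup X, M ≤ L → (M.subgroupOf L).Normal → M.map π = L.map π → M = L :=
    fun M hle hn he => hLmin M (Subgroup.IsSubnormal.step M L hle hLs hn) hle he
  have hLC : L ≤ CW := by
    have hNn' : (CW.subgroupOf L).Normal := hCWn.subgroupOf L
    have hmn : ((CW ⊓ L).subgroupOf L).Normal := by rw [Subgroup.inf_subgroupOf_right]; exact hNn'
    have himg : ((CW ⊓ L).map π).subgroupOf (L.map π) = ⊤ := by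
      have hn' : (((CW ⊓ L).map π).subgroupOf (L.map π)).Normal := by
        refine ⟨fun y hy x => ?_⟩
        obtain ⟨y', hy', hyy⟩ := hy
        obtain ⟨x', hx', hxx⟩ := x.2
        refine ⟨x' * y' * x'⁻¹, ⟨hCWn.conj_mem y' hy'.1 x', L.mul_mem (L.mul_mem hx' hy'.2) (L.inv_mem hx')⟩, ?_⟩
        rw [map_mul, map_mul, map_inv, hxx, hyy]; rfl
      refine (Cfsg.Agent.H51.quasisimple_eq_top_or_le_center_of_normal hLc.2 _).resolve_right ?_
      intro hcen
      have hPc : ∀ a ∈ P, ∀ b ∈ P, π a * π b = π b * π a := fun a ha b hb =>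
        congrArg Subtype.val (Subgroup.mem_center_iff.mp
          (hcen (show (⟨π b, Subgroup.mem_map_of_mem π (hPL hb)⟩ : ↥(L.map π)) ∈ ((CW ⊓ L).map π).subgroupOf (L.map π) from
            Subgroup.mem_map_of_mem π ⟨hPW hb, hPL hb⟩)) ⟨π a, Subgroup.mem_map_of_mem π (hPL ha)⟩)
      have hker : commutator ↥P ≤ (π.comp P.subtype).ker := by
        rw [commutator_def, Subgroup.commutator_le]
        intro a _ b _
        rw [MonoidHom.mem_ker, map_commutatorElement, commutatorElement_eq_one_iff_mul_comm]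
        exact hPc a a.2 b b.2
      rw [hperf] at hker
      have hpW : p ∈ W := (QuotientGroup.eq_one_iff p).mp (hker (Subgroup.mem_top (⟨p, hpP⟩ : ↥P)))
      exact hp1 (eq_one_of_sq p (hoddW p hpW) hp2)
    have := hstep (CW ⊓ L) inf_le_right hmn
      (le_antisymm (Subgroup.map_mono inf_le_right) (Subgroup.subgroupOf_eq_top.mp himg))
    exact this ▸ inf_le_left
  have hperfL : ⁅L, L⁆ = L := by
    refine hstep _ (Subgroup.commutator_le_self L) ?_ ?_
    · rw [← Subgroup.map_subtype_commutator L, Subgroup.subgroupOf,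
        Subgroup.comap_map_eq_self_of_injective L.subtype_injective]
      infer_instance
    · rw [Subgroup.map_commutator]
      exact Cfsg.Agent.H51.component_commutator_self hLc
  have : Group.IsPerfect ↥L := Subgroup.isPerfect_iff.mpr hperfL
  have : Nontrivial ↥L := by
    refine (Subgroup.nontrivial_iff_ne_bot L).mpr fun h => ?_
    exact Cfsg.Agent.H51.component_ne_bot hLc (by rw [h, Subgroup.map_bot])
  refine Cfsg.Agent.H51.isQuasisimple_of_normal_le_center fun M hM => ?_
  have hMimg : (M.map L.subtype).map π ≤ L.map π := Subgroup.map_mono (Subgroup.map_subtype_le _)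
  have hn' : (((M.map L.subtype).map π).subgroupOf (L.map π)).Normal := by
    refine ⟨fun y hy x => ?_⟩
    obtain ⟨_, ⟨m, hm, rfl⟩, hyy⟩ := hy
    obtain ⟨x', hx', hxx⟩ := x.2
    exact ⟨_, Subgroup.mem_map_of_mem L.subtype (hM.conj_mem m hm ⟨x', hx'⟩), by simp [π, ← hxx] at hyy ⊢; rw [← hyy]⟩
  rcases Cfsg.Agent.H51.quasisimple_eq_top_or_le_center_of_normal hLc.2 (((M.map L.subtype).map π).subgroupOf (L.map π)) with h | h
  · left
    have := hstep (M.map L.subtype) (Subgroup.map_subtype_le _) (by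
      rw [Subgroup.subgroupOf, Subgroup.comap_map_eq_self_of_injective L.subtype_injective]; exact hM)
      (le_antisymm hMimg (Subgroup.subgroupOf_eq_top.mp h))
    rw [← Subgroup.comap_map_eq_self_of_injective L.subtype_injective M, this]
    exact Subgroup.subgroupOf_self L
  · -- commutators lie in `W ⊓ L`, which is central
    right
    intro m hm
    rw [Subgroup.mem_center_iff]
    have hz : ∀ z : ↥L, (z : X) ∈ W → ∀ x : ↥L, x * z = z * x := fun z hz x => Subtype.ext
      ((Subgroup.mem_centralizer_iff.mp (hLC x.2) z hz).symm)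
    -- the map `x ↦ [m, x]` is a homomorphism into the centre, hence trivial
    have hW' : ∀ x : ↥L, ((m * x * m⁻¹ * x⁻¹ : ↥L) : X) ∈ W := by
      intro x
      show (m : X) * x * (m : X)⁻¹ * (x : X)⁻¹ ∈ W
      rw [hW]
      refine (QuotientGroup.eq_one_iff _).mp ?_
      have hc : π x * π m = π m * π x := congrArg Subtype.val (Subgroup.mem_center_iff.mp
        (h (show (⟨π m, Subgroup.mem_map_of_mem π m.2⟩ : ↥(L.map π)) ∈ ((M.map L.subtype).map π).subgroupOf (L.map π) from
          Subgroup.mem_map_of_mem π (Subgroup.mem_map_of_mem L.subtype hm))) ⟨π x, Subgroup.mem_map_of_mem π x.2⟩)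
      show π ((m : X) * x * (m : X)⁻¹ * (x : X)⁻¹) = 1
      rw [map_mul, map_mul, map_mul, map_inv, map_inv, ← hc, mul_inv_cancel_right, mul_inv_cancel]
    let φ : ↥L →* ↥(Subgroup.center ↥L) := MonoidHom.mk'
      (fun x => ⟨m * x * m⁻¹ * x⁻¹, Subgroup.mem_center_iff.mpr fun y => hz _ (hW' x) y⟩)
      (fun a b => Subtype.ext (by
        show m * (a * b) * m⁻¹ * (a * b)⁻¹ = m * a * m⁻¹ * a⁻¹ * (m * b * m⁻¹ * b⁻¹)
        calc m * (a * b) * m⁻¹ * (a * b)⁻¹ = m * a * m⁻¹ * ((m * b * m⁻¹ * b⁻¹) * a⁻¹) := by group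
          _ = m * a * m⁻¹ * (a⁻¹ * (m * b * m⁻¹ * b⁻¹)) := by rw [hz _ (hW' b) a⁻¹]
          _ = m * a * m⁻¹ * a⁻¹ * (m * b * m⁻¹ * b⁻¹) := by group))
    have hker : commutator ↥L ≤ φ.ker := by
      rw [commutator_def, Subgroup.commutator_le]
      intro x _ y _
      rw [MonoidHom.mem_ker, map_commutatorElement, commutatorElement_eq_one_iff_mul_comm]
      exact Subtype.ext ((Subgroup.mem_center_iff.mp (φ y).2 (φ x : ↥L)))
    rw [Group.IsPerfect.commutator_eq_top] at hker
    intro x
    have h1 : m * x * m⁻¹ * x⁻¹ = 1 := congrArg Subtype.val (MonoidHom.mem_ker.mp (hker (Subgroup.mem_top x)))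
    exact (mul_inv_eq_iff_eq_mul.mp (mul_inv_eq_one.mp h1)).symm

end Cfsg.Agent.S3153
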