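import Cfsg.Statements.S3154
import Cfsg.Agent.H61.L34CoverSplit

set_option autoImplicit false
open Cfsg Cfsg.Agent Cfsg.Agent.H61

namespace Cfsg.Agent.S3154

private theorem pow2 {X : Type*} [Group X] [Finite X] (T : Sylow 2 X) {H : Subgroup X} (h : H ≤ T) :
    ∃ k, Nat.card H = 2 ^ k := IsPGroup.iff_card.1 (T.2.to_le h)

theorem aux {X : Type*} [Group X] [Finite X] {F : Type*} [Field F] [Fintype F] (hF : Fintype.card F = 4)
    (hZ : Cfsg.IsElementaryAbelian 2 (Subgroup.center X))
    (e : (X ⧸ Subgroup.center X) ≃* Matrix.ProjectiveSpecialLinearGroup (Fin 3) F)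
    (T : Sylow 2 X) (H K : Subgroup X) (hHK : H ≠ K) (hHT : H ≤ T) (hKT : K ≤ T)
    (hZH : Subgroup.center X ≤ H) (hZK : Subgroup.center X ≤ K)
    (hH : Cfsg.IsElementaryAbelian 2 (H.map (QuotientGroup.mk' (Subgroup.center X))) ∧
      Nat.card ↥(H.map (QuotientGroup.mk' (Subgroup.center X))) = 16)
    (hK : Cfsg.IsElementaryAbelian 2 (K.map (QuotientGroup.mk' (Subgroup.center X))) ∧
      Nat.card ↥(K.map (QuotientGroup.mk' (Subgroup.center X))) = 16) :
    Cfsg.IsElementaryAbelian 2 H ∧ H ⊓ K = (Subgroup.center ↥(H ⊔ K)).map (H ⊔ K).subtype ∧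
      ∃ C : Subgroup X, C ≤ Subgroup.normalizer (H : Set X) ∧ C ⊓ H = ⊥ ∧
        H ⊔ C = Subgroup.normalizer (H : Set X) ∧
        Nonempty (↥C ≃* Matrix.ProjectiveSpecialLinearGroup (Fin 2) F) := by
  classical
  haveI := Fact.mk Nat.prime_two
  let φ : X →* Matrix.ProjectiveSpecialLinearGroup (Fin 3) F :=
    e.toMonoidHom.comp (QuotientGroup.mk' (Subgroup.center X))
  have hsurj : Function.Surjective φ := e.surjective.comp (QuotientGroup.mk'_surjective _)
  have hker : φ.ker = Subgroup.center X := by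
    ext x
    simp [φ, MonoidHom.mem_ker]
  have hZ' : ∀ z ∈ Subgroup.center X, z * z = 1 := fun z hz => by rw [← sq]; exact hZ.2 z hz
  have hpre : ∀ S : Subgroup X, Subgroup.center X ≤ S →
      Cfsg.IsElementaryAbelian 2 (S.map (QuotientGroup.mk' (Subgroup.center X))) ∧
        Nat.card ↥(S.map (QuotientGroup.mk' (Subgroup.center X))) = 16 → L34.Pre φ S := by
    intro S hS hS'
    refine ⟨hker.le.trans hS, fun h hh => ?_, ?_⟩
    · show e _ * e _ = 1
      rw [← map_mul, ← sq, hS'.1.2 _ ⟨h, hh, rfl⟩, map_one]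
    · rw [← hS'.2, show S.map φ = (S.map (QuotientGroup.mk' (Subgroup.center X))).map e.toMonoidHom from
        (Subgroup.map_map _ _ _).symm]
      exact (Nat.card_congr (Subgroup.equivMapOfInjective _ e.toMonoidHom e.injective).toEquiv).symm
  obtain ⟨h64, hL⟩ := L34.ut_facts hF
  let P : Sylow 2 (Matrix.ProjectiveSpecialLinearGroup (Fin 3) F) :=
    (IsPGroup.of_card (n := 6) h64 : IsPGroup 2 ↥((L34.UT F).map (L34.pr F))).toSylow (by
      have := ((L34.UT F).map (L34.pr F)).card_mul_index
      rw [h64, hL] at this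
      omega)
  obtain ⟨g, hg⟩ := MulAction.exists_smul_eq (Matrix.ProjectiveSpecialLinearGroup (Fin 3) F) P (T.mapSurjective hsurj)
  have hTg : T.map φ = L34.sylConj g := by
    have := congrArg (fun Q : Sylow 2 _ => (Q : Subgroup (Matrix.ProjectiveSpecialLinearGroup (Fin 3) F))) hg
    simp only [Sylow.coe_mapSurjective] at this
    rw [← this]
    rfl
  have hne : H.map φ ≠ K.map φ := fun h => hHK (by
    rw [← Subgroup.comap_map_eq_self (hker.le.trans hZH), h, Subgroup.comap_map_eq_self (hker.le.trans hZK)])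
  exact L34.split hF φ hsurj hker hZ' (hpre H hZH hH) (hpre K hZK hK) g
    (hTg ▸ Subgroup.map_mono hHT) (hTg ▸ Subgroup.map_mono hKT) hne (pow2 T hHT)

/-- Let X be a finite quasisimple group whose centre is an elementary abelian 2-group and whose central quotient is isomorphic to the projective special linear group of dimension 3 over the field with 4 elements. Let T be a Sylow 2-subgroup of X and H ≠ K subgroups of T containing the centre Z(X) whose images in X/Z(X) are elementary abelian of order 16 (the two such subgroups of a Sylow 2-subgroup of the quotient). Then H and K are elementary abelian, H ∩ K is the centre of the subgroup they generate, and each of N_X(H), N_X(K) is a split extension of H, respectively K, by the projective special linear group of dimension 2 over the field with 4 elements (there is a complement isomorphic to that group). -/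
theorem result {X : Type*} [Group X] [Finite X] (hq : Cfsg.IsQuasisimple X) (hZ : Cfsg.IsElementaryAbelian 2 (Subgroup.center X))
    {F : Type*} [Field F] [Fintype F] (hF : Fintype.card F = 4) (hXL : Nonempty ((X ⧸ Subgroup.center X) ≃* Matrix.ProjectiveSpecialLinearGroup (Fin 3) F))
    (T : Sylow 2 X) (H K : Subgroup X) (hHK : H ≠ K) (hHT : H ≤ T) (hKT : K ≤ T) (hZH : Subgroup.center X ≤ H) (hZK : Subgroup.center X ≤ K)
    (hH : Cfsg.IsElementaryAbelian 2 (H.map (QuotientGroup.mk' (Subgroup.center X))) ∧ Nat.card ↥(H.map (QuotientGroup.mk' (Subgroup.center X))) = 16)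
    (hK : Cfsg.IsElementaryAbelian 2 (K.map (QuotientGroup.mk' (Subgroup.center X))) ∧ Nat.card ↥(K.map (QuotientGroup.mk' (Subgroup.center X))) = 16) :
    Cfsg.IsElementaryAbelian 2 H ∧ Cfsg.IsElementaryAbelian 2 K ∧
      H ⊓ K = (Subgroup.center ↥(H ⊔ K)).map (H ⊔ K).subtype ∧
      (∃ C : Subgroup X, C ≤ Subgroup.normalizer (H : Set X) ∧ C ⊓ H = ⊥ ∧ H ⊔ C = Subgroup.normalizer (H : Set X) ∧
        Nonempty (↥C ≃* Matrix.ProjectiveSpecialLinearGroup (Fin 2) F)) ∧
      (∃ C : Subgroup X, C ≤ Subgroup.normalizer (K : Set X) ∧ C ⊓ K = ⊥ ∧ K ⊔ C = Subgroup.normalizer (K : Set X) ∧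
        Nonempty (↥C ≃* Matrix.ProjectiveSpecialLinearGroup (Fin 2) F)) := by
  obtain ⟨e⟩ := hXL
  obtain ⟨h1, h2, h3⟩ := aux hF hZ e T H K hHK hHT hKT hZH hZK hH hK
  obtain ⟨k1, -, k3⟩ := aux hF hZ e T K H hHK.symm hKT hHT hZK hZH hK hH
  exact ⟨h1, k1, h2, h3, k3⟩

end Cfsg.Agent.S3154
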