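import Cfsg.Statements.S3155
import Mathlib

set_option autoImplicit false
open Cfsg

namespace Cfsg.Agent.S3155

/-- Let B be the direct product of three cyclic groups of order 4. Then the automorphism of B inverting every element is not the square of any automorphism of B. -/
theorem result {B : Type*} [CommGroup B] [Finite B] (hB : Nonempty (B ≃* Multiplicative (ZMod 4 × ZMod 4 × ZMod 4)))
    (τ : B ≃* B) : τ.trans τ ≠ MulEquiv.inv B := by
  obtain ⟨e⟩ := hB
  intro h
  let σ : (ZMod 4 × ZMod 4 × ZMod 4) →+ (ZMod 4 × ZMod 4 × ZMod 4) :=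
    { toFun := fun v => (e (τ (e.symm (Multiplicative.ofAdd v)))).toAdd
      map_zero' := by simp
      map_add' := fun v w => by simp [ofAdd_add, toAdd_mul] }
  have hσ : ∀ v, σ (σ v) = -v := by
    intro v
    have h2 : τ (τ (e.symm (Multiplicative.ofAdd v))) = (e.symm (Multiplicative.ofAdd v))⁻¹ :=
      DFunLike.congr_fun h (e.symm (Multiplicative.ofAdd v))
    show (e (τ (e.symm (Multiplicative.ofAdd (e (τ (e.symm (Multiplicative.ofAdd v)))).toAdd)))).toAdd = -v
    rw [ofAdd_toAdd, MulEquiv.symm_apply_apply, h2, map_inv, MulEquiv.apply_symm_apply]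
    rfl
  let L : (ZMod 4 × ZMod 4 × ZMod 4) →ₗ[ZMod 4] (ZMod 4 × ZMod 4 × ZMod 4) := σ.toZModLinearMap 4
  have hL : L.comp L = (-1 : ZMod 4) • LinearMap.id := by
    refine LinearMap.ext fun v => ?_
    rw [LinearMap.comp_apply, LinearMap.smul_apply, LinearMap.id_apply, neg_one_smul]
    exact hσ v
  have hd := congrArg LinearMap.det hL
  rw [LinearMap.det_comp, LinearMap.det_smul, LinearMap.det_id, mul_one] at hd
  have : Fact (1 < 4) := ⟨by norm_num⟩
  have h3 : Module.finrank (ZMod 4) (ZMod 4 × ZMod 4 × ZMod 4) = 3 := by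
    simp [Module.finrank_prod, Module.finrank_self]
  rw [h3] at hd
  exact (by decide : ∀ d : ZMod 4, d * d ≠ (-1) ^ 3) _ hd

end Cfsg.Agent.S3155
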