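import Cfsg.Statements.S3156
import Cfsg.Agent.H61.U34NoS3

set_option autoImplicit false
open Cfsg Cfsg.Agent Cfsg.Agent.H61

namespace Cfsg.Agent.S3156

/-- If a finite group T is isomorphic to a Sylow 2-subgroup of the projective special unitary group of dimension 3 with parameter 4 (realised over the field with 16 elements), then no subgroup of the automorphism group of T is isomorphic to the symmetric group of degree 3. -/
theorem result {T : Type*} [Group T] [Finite T] (hT : (∃ (F : Type) (_ : Field F) (_ : Fintype F), Fintype.card F = 16 ∧ ∃ S : Sylow 2 (Cfsg.PSU 3 F 4), Nonempty (T ≃* ↥(S : Subgroup (Cfsg.PSU 3 F 4))))) (H : Subgroup (MulAut T)) : ¬ Nonempty (↥H ≃* Equiv.Perm (Fin 3)) := by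
  rintro ⟨e⟩
  obtain ⟨F, _, _, hF, S, ⟨eT⟩⟩ := hT
  haveI : Finite ↥(S : Subgroup (Cfsg.PSU 3 F 4)) := inferInstance
  have hS := U34NoS3.shape_of_equiv eT.symm (U34NoS3.shape_of_sylow hF S)
  have h3 : orderOf (finRotate 3) = 3 := orderOf_eq_prime (hp := ⟨Nat.prime_three⟩) (by decide) (by decide)
  have h2 : orderOf (Equiv.swap (0 : Fin 3) 1) = 2 := orderOf_eq_prime (hp := ⟨Nat.prime_two⟩) (by decide) (by decide)
  have hrel : Equiv.swap (0 : Fin 3) 1 * finRotate 3 * (Equiv.swap (0 : Fin 3) 1)⁻¹ = (finRotate 3)⁻¹ := by decide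
  refine U34NoS3.no_s3 hS (e.symm (finRotate 3)).1 (e.symm (Equiv.swap (0 : Fin 3) 1)).1 ?_ ?_ ?_
  · rw [Subgroup.orderOf_coe, MulEquiv.orderOf_eq, h3]
  · rw [Subgroup.orderOf_coe, MulEquiv.orderOf_eq, h2]
  · have h := congrArg (fun g => ((e.symm g : H) : MulAut T)) hrel
    simp only [map_mul, map_inv, Subgroup.coe_mul, Subgroup.coe_inv] at h
    exact h

end Cfsg.Agent.S3156
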