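import Cfsg.Statements.S3157
import Cfsg.Agent.H61.S3Involution
import Cfsg.Agent.H61.L34Model

set_option autoImplicit false
open Cfsg Cfsg.Agent Cfsg.Agent.H61

namespace Cfsg.Agent.S3157

/-- Let T be a non-abelian group of order 64 admitting automorphisms ρ of order 3 and x of order 2 with x ρ x⁻¹ = ρ⁻¹ (so they generate a symmetric group of degree 3), where ρ fixes only the identity. Then T is isomorphic to a Sylow 2-subgroup of the projective special linear group of dimension 3 over the field with 4 elements, and the subgroup of fixed points of x is dihedral of order 8 or quaternion of order 8. -/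
theorem result {T : Type*} [Group T] [Finite T] (hT : Nat.card T = 64) (hna : ¬ IsMulCommutative T) (ρ x : MulAut T) (hρ : orderOf ρ = 3) (hx : orderOf x = 2)
    (hxr : x * ρ * x⁻¹ = ρ⁻¹) (hfp : ∀ y : T, ρ y = y → y = 1) (C : Subgroup T) (hC : ∀ y : T, y ∈ C ↔ x y = y) :
    (∃ (F : Type) (_ : Field F) (_ : Fintype F), Fintype.card F = 4 ∧
        ∃ S : Sylow 2 (Matrix.ProjectiveSpecialLinearGroup (Fin 3) F), Nonempty (T ≃* ↥(S : Subgroup (Matrix.ProjectiveSpecialLinearGroup (Fin 3) F)))) ∧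
      (Nonempty (↥C ≃* DihedralGroup 4) ∨ Nonempty (↥C ≃* QuaternionGroup 2)) := by
  have hρ3 : ρ ^ 3 = 1 := hρ ▸ pow_orderOf_eq_one ρ
  have H : SThree.Hyp T ρ := ⟨hT, hna, hρ3, hfp⟩
  have hρinv : ρ⁻¹ = ρ * ρ := by
    refine inv_eq_of_mul_eq_one_right ?_
    rw [← mul_assoc, ← sq, ← pow_succ, hρ3]
  have X : SThree.Inv ρ x := by
    refine ⟨?_, ?_⟩
    · rw [← sq, ← hx, pow_orderOf_eq_one]
    · rw [← hρinv, ← hxr, inv_mul_cancel_right]
  obtain ⟨⟨P⟩, hC', -⟩ := X.main H C hC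
  refine ⟨?_, hC'⟩
  haveI : Fact (Nat.Prime 2) := ⟨Nat.prime_two⟩
  letI : Fintype (GaloisField 2 2) := Fintype.ofFinite _
  have hF : Fintype.card (GaloisField 2 2) = 4 := by
    rw [← Nat.card_eq_fintype_card, GaloisField.card 2 2 (by norm_num)]
    norm_num
  obtain ⟨R⟩ := L34.nonempty_pres hF
  obtain ⟨e, -, -⟩ := P.exists_equiv R
  obtain ⟨S⟩ : Nonempty (Sylow 2 (Matrix.ProjectiveSpecialLinearGroup (Fin 3) (GaloisField 2 2))) :=
    inferInstance
  obtain ⟨e'⟩ := L34.nonempty_equiv hF S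
  exact ⟨GaloisField 2 2, inferInstance, inferInstance, hF, S, ⟨e.trans e'⟩⟩

end Cfsg.Agent.S3157
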