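import Cfsg.Statements.S3162
import Cfsg.Agent.H76.UnitarySylowAut
import Cfsg.Agent.H77.UnitarySylowCenter

set_option autoImplicit false
open Cfsg

namespace Cfsg.Agent.S3162

/-- Let S be a Sylow 2-subgroup of the special unitary group of dimension 3 with parameter q = 2^n (n ≥ 2; realised over the field with q² elements). Then the largest normal 2-subgroup of the automorphism group of S is elementary abelian of order 2^(2n²), and the automorphism group has order 2^(2n²) · 2n(q² − 1). -/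
theorem result {S : Type*} [Group S] [Finite S] (n : ℕ) (hn : 2 ≤ n) {F : Type*} [Field F] [Fintype F] (hF : Fintype.card F = 4 ^ n)
    (P : Sylow 2 ↥(Cfsg.SU 3 F (2 ^ n))) (hS : Nonempty (S ≃* ↥(P : Subgroup ↥(Cfsg.SU 3 F (2 ^ n))))) :
    Cfsg.IsElementaryAbelian 2 (Cfsg.pCore 2 (MulAut S)) ∧ Nat.card ↥(Cfsg.pCore 2 (MulAut S)) = 2 ^ (2 * n ^ 2) ∧
      Nat.card (MulAut S) = 2 ^ (2 * n ^ 2) * (2 * n * ((2 ^ n) ^ 2 - 1)) := by
  have hF' : Fintype.card F = (2 ^ n) ^ 2 := by rw [hF, ← pow_mul, mul_comm, pow_mul]; norm_num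
  haveI : Fact (Nat.Prime 2) := ⟨Nat.prime_two⟩
  haveI : CharP F 2 := charP_of_card_eq_prime_pow (f := n * 2) (by
    rw [hF', ← pow_mul])
  have H : Cfsg.Agent.H50.PSUThree.Hyp F (2 ^ n) :=
    ⟨hF', CharTwo.two_eq_zero, Nat.even_pow.2 ⟨even_two, by omega⟩⟩
  obtain ⟨e⟩ := hS
  obtain ⟨e'⟩ := Cfsg.Agent.H77.UnitaryCenter.nonempty_equiv_sylow_SU H rfl P
  let E : MulAut H.U ≃* MulAut S := MulAut.congr (e'.trans e.symm)
  obtain ⟨⟨hcomm, h2⟩, hc, hA⟩ := Cfsg.Agent.H76.UnitaryAut.main H (n := n) (by omega) rfl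
  rw [← Cfsg.Agent.H72.pCore_map_equiv E 2]
  refine ⟨⟨⟨⟨fun a b => Subtype.ext ?_⟩⟩, ?_⟩, ?_, ?_⟩
  · obtain ⟨a', ha', ha⟩ := a.2
    obtain ⟨b', hb', hb⟩ := b.2
    rw [Subgroup.coe_mul, Subgroup.coe_mul, ← ha, ← hb, ← map_mul, ← map_mul]
    exact congrArg E.toMonoidHom (congrArg Subtype.val (hcomm.is_comm.comm ⟨a', ha'⟩ ⟨b', hb'⟩))
  · rintro _ ⟨a, ha, rfl⟩
    rw [← map_pow, h2 a ha, map_one]
  · rw [← hc]
    exact Nat.card_congr ((Cfsg.pCore 2 (MulAut H.U)).equivMapOfInjective _ E.injective).toEquiv.symm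
  · rw [← hA]
    exact Nat.card_congr E.toEquiv.symm

end Cfsg.Agent.S3162
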