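import Cfsg.Statements.S3174
import Cfsg.Agent.H76.RudvalisForm

set_option autoImplicit false
open Cfsg

namespace Cfsg.Agent.S3174

/-- Let T be a finite 2-group of order at least 2^14 in which the fourth term of the upper central series has order 16. Let W be the centralizer in T of the third term Z₃(T), and suppose the Frattini subgroup of W has order at most 8 and lies in every subgroup of W of index at most 16. Then T has order exactly 2^14; the derived subgroup of W and the Frattini subgroup of W both equal Z₃(T), which is elementary abelian of order 8; the centre of W has order 8; W is normal in T with quotient dihedral of order 8; and W modulo its derived subgroup is elementary abelian of order 2^8. -/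
theorem result {T : Type*} [Group T] [Finite T]
    (hT : IsPGroup 2 T) (ha : 2 ^ 14 ≤ Nat.card T) (hb : Nat.card ↥(Subgroup.upperCentralSeries T 4) = 16)
    (W : Subgroup T) (hW : W = Subgroup.centralizer ((Subgroup.upperCentralSeries T 3 : Subgroup T) : Set T))
    (hc : Nat.card ↥(frattini ↥W) ≤ 8) (hd : ∀ U : Subgroup ↥W, U.index ≤ 16 → frattini ↥W ≤ U) :
    Nat.card T = 2 ^ 14 ∧
      (commutator ↥W).map W.subtype = Subgroup.upperCentralSeries T 3 ∧
      (frattini ↥W).map W.subtype = Subgroup.upperCentralSeries T 3 ∧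
      Nat.card ↥(Subgroup.center ↥W) = 8 ∧
      Nat.card ↥(Subgroup.upperCentralSeries T 3) = 8 ∧ (∀ z ∈ Subgroup.upperCentralSeries T 3, z ^ 2 = 1) ∧
      (∃ (_ : W.Normal), Nonempty (T ⧸ W ≃* DihedralGroup 4)) ∧
      Nat.card (↥W ⧸ commutator ↥W) = 2 ^ 8 ∧ (∀ x : ↥W ⧸ commutator ↥W, x ^ 2 = 1) := by
  subst hW
  obtain ⟨D⟩ := (⟨hT, ha, hb, hc, hd⟩ : Cfsg.Agent.H76.Rud.Hyp T).exists_data
  have hphi : (frattini ↥(Cfsg.Agent.H76.Rud.cW T)).map (Cfsg.Agent.H76.Rud.cW T).subtype =
      Subgroup.upperCentralSeries T 3 := D.hphi.trans D.phi_eq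
  refine ⟨D.counts.2.2.2, D.derived, hphi, ?_, D.hyp.card_Z (by omega), fun z hz => ?_,
    ⟨inferInstance, D.quotient_dihedral⟩, ?_, fun x => ?_⟩
  · rw [← Subgroup.card_map_of_injective (Cfsg.Agent.H76.Rud.cW T).subtype_injective, D.center_eq]
    exact D.hyp.card_Z (by omega)
  · rw [pow_two]; exact D.elem hz
  · have h := Subgroup.card_mul_index (commutator ↥(Cfsg.Agent.H76.Rud.cW T))
    rw [← Subgroup.card_map_of_injective (Cfsg.Agent.H76.Rud.cW T).subtype_injective, D.derived,
      D.hyp.card_Z (by omega), D.counts.2.2.1, Subgroup.index_eq_card] at h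
    exact Nat.eq_of_mul_eq_mul_left (show 0 < 2 ^ 3 by omega) (h.trans (by norm_num))
  · induction x using QuotientGroup.induction_on with
    | _ w =>
    rw [← QuotientGroup.mk_pow, QuotientGroup.eq_one_iff]
    have h := D.sq_mem w.2
    replace h : (w : T) * (w : T) ∈ (commutator ↥(Cfsg.Agent.H76.Rud.cW T)).map
        (Cfsg.Agent.H76.Rud.cW T).subtype := by rw [D.derived]; exact h
    obtain ⟨y, hy, hyw⟩ := h
    rwa [show w ^ 2 = y from Subtype.ext (by rw [pow_two]; exact hyw.symm)]

end Cfsg.Agent.S3174
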