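import Cfsg.Statements.S3178
import Mathlib
import Cfsg.Agent.H22.Frobenius
import Cfsg.Agent.H44.TISylow
import Cfsg.Agent.H76.PGroupFixed

set_option autoImplicit false
open Cfsg

namespace Cfsg.Agent.S3178

variable {G : Type*} [Group G]

/-- An element of odd order moving `c` by a fixed element of 2-power order fixes `c`. -/
theorem fix_of_shift (g c k : G) (hg : Odd (orderOf g)) (hk : g * k * g⁻¹ = k) (j : ℕ) (hk2 : k ^ 2 ^ j = 1)
    (h : g * c * g⁻¹ = c * k) : g * c * g⁻¹ = c := by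
  have hit : ∀ m : ℕ, g ^ m * c * (g ^ m)⁻¹ = c * k ^ m := by
    intro m
    induction m with
    | zero => simp
    | succ m ih =>
      have hkm : g * k ^ m * g⁻¹ = k ^ m := by rw [← conj_pow, hk]
      calc g ^ (m + 1) * c * (g ^ (m + 1))⁻¹ = g * (g ^ m * c * (g ^ m)⁻¹) * g⁻¹ := by
            rw [pow_succ', mul_inv_rev]; group
        _ = (g * c * g⁻¹) * (g * k ^ m * g⁻¹) := by rw [ih]; group
        _ = c * k ^ (m + 1) := by rw [h, hkm, pow_succ', mul_assoc]
  have h1 := hit (orderOf g)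
  rw [pow_orderOf_eq_one, one_mul, inv_one, mul_one] at h1
  have h2 : k ^ orderOf g = 1 := mul_left_cancel (h1.symm.trans (mul_one c).symm)
  have h3 : orderOf k = 1 := Nat.eq_one_of_dvd_coprimes
    ((Nat.coprime_two_left.mpr hg).pow_left j) (orderOf_dvd_of_pow_eq_one hk2) (orderOf_dvd_of_pow_eq_one h2)
  rw [h, orderOf_eq_one_iff.mp h3, mul_one]

/-- An element of odd order interchanging two elements fixes them. -/
theorem fix_of_swap (g x y : G) (hg : Odd (orderOf g)) (h1 : g * x * g⁻¹ = y) (h2 : g * y * g⁻¹ = x) :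
    x = y := by
  obtain ⟨r, hr⟩ := hg
  have h : ∀ m : ℕ, g ^ (2 * m) * x * (g ^ (2 * m))⁻¹ = x := by
    intro m
    induction m with
    | zero => simp
    | succ m ih =>
      calc g ^ (2 * (m + 1)) * x * (g ^ (2 * (m + 1)))⁻¹
          = g * (g * (g ^ (2 * m) * x * (g ^ (2 * m))⁻¹) * g⁻¹) * g⁻¹ := by
            rw [show 2 * (m + 1) = 2 * m + 1 + 1 by ring, pow_succ', pow_succ']; group
        _ = x := by rw [ih, h1, h2]
  have h3 : g ^ (2 * (r + 1)) = g := by
    rw [show 2 * (r + 1) = (2 * r + 1) + 1 by ring, ← hr, pow_succ, pow_orderOf_eq_one, one_mul]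
  have := h (r + 1)
  rw [h3, h1] at this
  exact this.symm

/-- An element of odd order normalising a cyclic 2-group centralises it. -/
theorem fix_cyclic (g w : G) (hg : Odd (orderOf g)) (j : ℕ) (hw : w ^ 2 ^ j = 1)
    (h : g * w * g⁻¹ ∈ Subgroup.zpowers w) : g * w * g⁻¹ = w := by
  induction j generalizing w with
  | zero => simp only [pow_zero, pow_one] at hw; subst hw; simp
  | succ j ih =>
    obtain ⟨l, hl⟩ := h
    change w ^ l = g * w * g⁻¹ at hl
    have h2 : g * w ^ 2 * g⁻¹ = w ^ 2 := ih _ (by rw [← pow_mul, ← pow_succ']; exact hw)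
      ⟨l, by show (w ^ 2) ^ l = g * w ^ 2 * g⁻¹; rw [← conj_pow, ← hl, ← zpow_natCast, ← zpow_natCast, ← zpow_mul, ← zpow_mul, mul_comm]⟩
    have hk : g * w ^ (l - 1) * g⁻¹ = w ^ (l - 1) := by
      rcases Int.even_or_odd (l - 1) with ⟨t, ht⟩ | ⟨t, ht⟩
      · rw [ht, ← two_mul, zpow_mul, ← conj_zpow, show w ^ (2 : ℤ) = w ^ 2 by rw [← zpow_natCast]; rfl, h2]
      · -- then `w` is fixed mod squares: `l` is even, so `w` is a square of itself
        have h4 : w ^ 2 = (w ^ l) ^ 2 := by rw [hl, conj_pow, h2]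
        have h6 : (w ^ 2) ^ (l - 1) = 1 := by
          have : (w ^ l) ^ 2 = (w ^ 2) ^ (l - 1) * w ^ 2 := by
            rw [← zpow_natCast, ← zpow_natCast w 2, ← zpow_mul, ← zpow_mul, ← zpow_add]; congr 1; push_cast; ring
          rw [← h4] at this
          exact mul_eq_right.mp this.symm
        have hco : IsCoprime ((2 : ℤ) ^ (j + 1)) (l - 1) := IsCoprime.pow_left ⟨-t, 1, by rw [ht]; ring⟩
        obtain ⟨A, B, hAB⟩ := hco
        have hw' : w ^ ((2 : ℤ) ^ (j + 1)) = 1 := by
          rw [show ((2 : ℤ) ^ (j + 1)) = ((2 ^ (j + 1) : ℕ) : ℤ) by push_cast; rfl, zpow_natCast]; exact hw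
        have hw2 : w ^ 2 = 1 := by
          calc w ^ 2 = (w ^ 2) ^ (A * (2 : ℤ) ^ (j + 1) + B * (l - 1)) := by rw [hAB, zpow_one]
            _ = 1 := by
              rw [zpow_add, mul_comm A, mul_comm B, zpow_mul, zpow_mul, h6, one_zpow, mul_one,
                show (w ^ 2) ^ ((2 : ℤ) ^ (j + 1)) = 1 by
                  rw [← zpow_natCast, ← zpow_mul, mul_comm, zpow_mul, hw', one_zpow], one_zpow]
        have hwl : g * w * g⁻¹ = 1 := by
          rw [← hl, show l = 2 * (t + 1) by omega, zpow_mul,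
            show w ^ (2 : ℤ) = w ^ 2 by rw [← zpow_natCast]; rfl, hw2, one_zpow]
        rw [conj_eq_one_iff.mp hwl]; simp
    refine fix_of_shift g w (w ^ (l - 1)) hg hk (j + 1) ?_ ?_
    · rw [← zpow_natCast, ← zpow_mul, mul_comm, zpow_mul, zpow_natCast, hw, one_zpow]
    · rw [← hl, zpow_sub_one]
      group

/-- Groups with a modular Sylow 2-subgroup have a normal 2-complement. Let S, of order 2^(n+1) with n ≥ 3, be a Sylow 2-subgroup of a finite group G, and suppose S contains an element a of order 2^n and an involution b with b a b⁻¹ = a^(2^(n-1) + 1); so S is the non-abelian 2-group with a cyclic subgroup of index 2 that is neither dihedral, semidihedral nor generalized quaternion. Then G has a normal 2-complement. -/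
theorem result {G : Type*} [Group G] [Finite G]
    (S : Sylow 2 G) (n : ℕ) (hn : 3 ≤ n) (hS : Nat.card ↥(S : Subgroup G) = 2 ^ (n + 1))
    (a b : G) (ha : a ∈ (S : Subgroup G)) (hb : b ∈ (S : Subgroup G))
    (hao : orderOf a = 2 ^ n) (hbo : orderOf b = 2) (hrel : b * a * b⁻¹ = a ^ (2 ^ (n - 1) + 1)) :
    Cfsg.HasNormalPComplement 2 G := by
  have hu : ∀ i : ℤ, b * a ^ i * b⁻¹ = a ^ (((2 : ℤ) ^ (n - 1) + 1) * i) := by
    intro i
    rw [← conj_zpow, hrel, zpow_mul, ← zpow_natCast a (2 ^ (n - 1) + 1)]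
    push_cast
    rfl
  have hdvd : ∀ k : ℤ, a ^ k = 1 ↔ (2 : ℤ) ^ n ∣ k := fun k => by
    rw [← orderOf_dvd_iff_zpow_eq_one, hao]; push_cast; rfl
  obtain ⟨r, rfl⟩ : ∃ r, n = r + 3 := ⟨n - 3, by omega⟩
  simp only [show r + 3 - 1 = r + 2 from rfl] at hu hrel
  have hb2 : b * b = 1 := by rw [← sq, ← hbo, pow_orderOf_eq_one]
  have hbA : b ∉ Subgroup.zpowers a := by
    rintro ⟨i, hi⟩
    have h1 := hu 1
    rw [mul_one, zpow_one] at h1
    rw [← show a ^ i = b from hi, ((Commute.refl a).zpow_left i).eq, mul_inv_cancel_right] at h1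
    have h2 : a ^ ((2 : ℤ) ^ (r + 2)) = 1 := by
      rw [zpow_add, zpow_one] at h1
      exact mul_eq_right.mp h1.symm
    rw [hdvd] at h2
    exact absurd (Int.le_of_dvd (by positivity) h2) (not_le.mpr (pow_lt_pow_right₀ (by norm_num) (by omega)))
  have hswap : ∀ i : ℤ, b * a ^ i = a ^ (((2 : ℤ) ^ (r + 2) + 1) * i) * b := fun i =>
    mul_inv_eq_iff_eq_mul.mp (hu i)
  -- the elements of `S`
  have hmem : ∀ s ∈ (S : Subgroup G), ∃ i : ℤ, s = a ^ i ∨ s = a ^ i * b := by
    let f : ↥(Subgroup.zpowers a) ⊕ ↥(Subgroup.zpowers a) → ↥(S : Subgroup G) := Sum.elim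
      (fun x => ⟨x, (Subgroup.zpowers_le.mpr ha) x.2⟩)
      (fun x => ⟨(x : G) * b, mul_mem ((Subgroup.zpowers_le.mpr ha) x.2) hb⟩)
    have hf : Function.Bijective f := by
      refine (Nat.bijective_iff_injective_and_card f).mpr ⟨?_, ?_⟩
      · intro x y hxy
        rcases x with x | x <;> rcases y with y | y <;>
          have h := congrArg (fun z : ↥(S : Subgroup G) => (z : G)) hxy
        · exact congrArg Sum.inl (Subtype.ext h)
        · exact absurd (show b ∈ Subgroup.zpowers a by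
            rw [show b = ((y : G))⁻¹ * (x : G) by rw [show (x : G) = (y : G) * b from h]; group]
            exact mul_mem (inv_mem y.2) x.2) hbA
        · exact absurd (show b ∈ Subgroup.zpowers a by
            rw [show b = ((x : G))⁻¹ * (y : G) by rw [← show (x : G) * b = (y : G) from h]; group]
            exact mul_mem (inv_mem x.2) y.2) hbA
        · exact congrArg Sum.inr (Subtype.ext (mul_right_cancel h))
      · rw [Nat.card_sum, Nat.card_zpowers, hao, hS]; ring
    intro s hs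
    obtain ⟨x, hx⟩ := hf.surjective ⟨s, hs⟩
    rcases x with ⟨_, i, rfl⟩ | ⟨_, i, rfl⟩
    · exact ⟨i, Or.inl (congrArg Subtype.val hx).symm⟩
    · exact ⟨i, Or.inr (congrArg Subtype.val hx).symm⟩
  have hsq : ∀ i : ℤ, (a ^ i * b) * (a ^ i * b) = a ^ (2 * ((2 : ℤ) ^ (r + 1) + 1) * i) := fun i => by
    rw [show a ^ i * b * (a ^ i * b) = a ^ i * (b * a ^ i) * b by group, hswap, mul_assoc, mul_assoc, hb2,
      mul_one, ← zpow_add]
    congr 1; ring
  set z := a ^ ((2 : ℤ) ^ (r + 2)) with hz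
  have hz2 : z * z = 1 := by rw [hz, ← zpow_add, hdvd]; exact ⟨1, by ring⟩
  have hz1 : z ≠ 1 := by
    rw [hz, Ne, hdvd]
    exact fun h => absurd (Int.le_of_dvd (by positivity) h) (not_le.mpr (pow_lt_pow_right₀ (by norm_num) (by omega)))
  have hbz : Commute b z := by
    show b * z = z * b
    rw [hz, hswap]
    congr 1
    rw [← mul_inv_eq_one, ← zpow_neg, ← zpow_add, hdvd]
    exact ⟨2 ^ (r + 1), by ring⟩
  -- involutions and square involutions of `S`
  have hinv : ∀ s ∈ (S : Subgroup G), s * s = 1 → s = 1 ∨ s = z ∨ s = b ∨ s = z * b := by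
    intro s hs h
    have hzp : ∀ i : ℤ, (2 : ℤ) ^ (r + 2) ∣ i → a ^ i = 1 ∨ a ^ i = z := by
      rintro i ⟨c, rfl⟩
      rcases Int.even_or_odd c with ⟨d, rfl⟩ | ⟨d, rfl⟩
      · exact Or.inl ((hdvd _).mpr ⟨d, by ring⟩)
      · refine Or.inr ?_
        rw [mul_add, mul_one, zpow_add, (hdvd _).mpr ⟨d, by ring⟩, one_mul]
    have h23 : ∀ k : ℤ, (2 : ℤ) ^ (r + 3) ∣ 2 * k → (2 : ℤ) ^ (r + 2) ∣ k := fun k ⟨c, hc⟩ =>
      ⟨c, by rw [pow_succ] at hc; linarith⟩
    obtain ⟨i, rfl | rfl⟩ := hmem s hs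
    · rw [← zpow_add, hdvd, ← two_mul] at h
      rcases hzp i (h23 i h) with e | e
      exacts [Or.inl e, Or.inr (Or.inl e)]
    · rw [hsq, hdvd, mul_assoc] at h
      have hc : IsCoprime ((2 : ℤ) ^ (r + 2)) ((2 : ℤ) ^ (r + 1) + 1) :=
        IsCoprime.pow_left ⟨-(2 ^ r), 1, by ring⟩
      rcases hzp i (hc.dvd_of_dvd_mul_left (h23 _ h)) with e | e
      · rw [e]; exact Or.inr (Or.inr (Or.inl (one_mul b)))
      · rw [e]; exact Or.inr (Or.inr (Or.inr rfl))
  have hsqz : ∀ s ∈ (S : Subgroup G), (s * s) * (s * s) = 1 → s * s ≠ 1 → s * s = z := by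
    intro s hs h4 h1
    have hA : s * s ∈ Subgroup.zpowers a := by
      obtain ⟨i, rfl | rfl⟩ := hmem s hs
      · rw [← zpow_add]; exact Subgroup.zpow_mem_zpowers a _
      · rw [hsq]; exact Subgroup.zpow_mem_zpowers a _
    rcases hinv _ (mul_mem hs hs) h4 with e | e | e | e
    · exact absurd e h1
    · exact e
    · exact absurd (e ▸ hA) hbA
    · rw [e] at hA
      refine absurd ?_ hbA
      rw [show b = z⁻¹ * (z * b) by group]; exact mul_mem (inv_mem (Subgroup.zpow_mem_zpowers a _)) hA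
  -- no odd automorphism of the four-group `⟨z, b⟩` moves it
  have hfour : ∀ g : G, Odd (orderOf g) → g * z * g⁻¹ ∈ ({z, b, z * b} : Set G) →
      g * b * g⁻¹ ∈ ({z, b, z * b} : Set G) → g * z * g⁻¹ = z ∧ g * b * g⁻¹ = b := by
    intro g hg hgz hgb
    have hVn : ∀ v ∈ ({z, b, z * b} : Set G), g * v * g⁻¹ ∈ ({z, b, z * b} : Set G) := by
      rintro v (rfl | rfl | rfl)
      · exact hgz
      · exact hgb
      · have hne : g * z * g⁻¹ ≠ g * b * g⁻¹ := fun h =>
          hbA ((mul_left_cancel (mul_right_cancel h)) ▸ Subgroup.zpow_mem_zpowers a _)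
        rw [show g * (z * b) * g⁻¹ = (g * z * g⁻¹) * (g * b * g⁻¹) by group]
        have e1 : z * (z * b) = b := by rw [← mul_assoc, hz2, one_mul]
        have e2 : b * z = z * b := hbz.eq
        have e3 : b * (z * b) = z := by rw [← mul_assoc, e2, mul_assoc, hb2, mul_one]
        have e4 : z * b * z = b := by rw [mul_assoc, e2, e1]
        have e5 : z * b * b = z := by rw [mul_assoc, hb2, mul_one]
        rcases hgz with e | e | e <;> rcases hgb with e' | e' | e' <;>
          first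
          | exact absurd (e.trans e'.symm) hne
          | (rw [e, e']; simp [e1, e2, e3, e4, e5]; done)
    obtain ⟨U, hU⟩ : ∃ U, U = Subgroup.closure ({z, b} : Set G) := ⟨_, rfl⟩
    have hgU : g ∈ Subgroup.normalizer (U : Set G) := by
      have hle : U.map (MulAut.conj g).toMonoidHom ≤ U := by
        rw [hU, MonoidHom.map_closure, Subgroup.closure_le]
        rintro _ ⟨v, hv, rfl⟩
        have hv' : v ∈ ({z, b, z * b} : Set G) := by rcases hv with rfl | rfl <;> simp
        have hzU : z ∈ Subgroup.closure ({z, b} : Set G) := Subgroup.subset_closure (by simp)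
        have hbU : b ∈ Subgroup.closure ({z, b} : Set G) := Subgroup.subset_closure (by simp)
        rcases hVn v hv' with e | e | e <;> (show g * v * g⁻¹ ∈ Subgroup.closure _) <;> rw [e]
        exacts [hzU, hbU, mul_mem hzU hbU]
      have heq : U.map (MulAut.conj g).toMonoidHom = U := by
        refine Subgroup.eq_of_le_of_card_ge hle ?_
        rw [Subgroup.card_map_of_injective (MulAut.conj g).injective]
      rw [Subgroup.mem_normalizer_iff]
      intro x
      conv_rhs => rw [← heq]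
      exact (Subgroup.mem_map_iff_mem (MulAut.conj g).injective).symm
    set C := Subgroup.centralizer (U : Set G) with hC
    have hSN : (S : Subgroup G) ≤ Subgroup.normalizer (U : Set G) := by
      refine Cfsg.Agent.H76.le_normalizer_of_conj_mem _ _ ?_
      intro s hs u hu
      have hle : U.map (MulAut.conj s).toMonoidHom ≤ U := by
        rw [hU, MonoidHom.map_closure, Subgroup.closure_le]
        have hsz : ∀ v ∈ ({z, b} : Set G), s * v * s⁻¹ ∈ Subgroup.closure ({z, b} : Set G) := by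
          intro v hv
          have hvS : v ∈ (S : Subgroup G) := by
            rcases hv with rfl | rfl
            · exact zpow_mem ha _
            · exact hb
          have hv2 : v * v = 1 := by rcases hv with rfl | rfl <;> assumption
          have hzU : z ∈ Subgroup.closure ({z, b} : Set G) := Subgroup.subset_closure (by simp)
          have hbU : b ∈ Subgroup.closure ({z, b} : Set G) := Subgroup.subset_closure (by simp)
          rcases hinv _ (mul_mem (mul_mem hs hvS) (inv_mem hs))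
              (by rw [show s * v * s⁻¹ * (s * v * s⁻¹) = s * (v * v) * s⁻¹ by group, hv2]; group)
            with e | e | e | e <;> rw [e]
          exacts [one_mem _, hzU, hbU, mul_mem hzU hbU]
        rintro _ ⟨v, hv, rfl⟩
        exact hsz v hv
      exact hle ⟨u, hu, rfl⟩
    set N := Subgroup.normalizer (U : Set G) with hN
    have hCN : C ≤ N := fun c hc => by
      rw [hN, Subgroup.mem_normalizer_iff]
      intro x
      constructor
      · intro hx
        rwa [← Subgroup.mem_centralizer_iff.mp hc x hx, mul_inv_cancel_right]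
      · intro hx
        have h1 := Subgroup.mem_centralizer_iff.mp hc _ hx
        rw [mul_assoc (c * x), inv_mul_cancel, mul_one] at h1
        rw [mul_left_cancel h1]; exact hx
    have hCn : (C.subgroupOf N).Normal := by
      refine ⟨fun c hc x => ?_⟩
      rw [Subgroup.mem_subgroupOf, hC, Subgroup.mem_centralizer_iff] at hc ⊢
      intro u hu
      have h1 : (x : G)⁻¹ * u * x ∈ U := by
        simpa using (Subgroup.mem_normalizer_iff.mp (inv_mem x.2) u).mp hu
      have h2 := hc _ h1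
      show u * ((x : G) * c * (x : G)⁻¹) = (x : G) * c * (x : G)⁻¹ * u
      calc u * ((x : G) * c * (x : G)⁻¹) = (x : G) * (((x : G)⁻¹ * u * x) * c) * (x : G)⁻¹ := by group
        _ = (x : G) * ((c : G) * ((x : G)⁻¹ * u * x)) * (x : G)⁻¹ := by rw [h2]
        _ = (x : G) * c * (x : G)⁻¹ * u := by group
    -- conjugate back to a Sylow subgroup by an element of the centraliser
    let S' : Sylow 2 ↥N := S.subtype hSN
    obtain ⟨Q, hQ⟩ : ∃ Q : Sylow 2 ↥(C.subgroupOf N), (Q : Subgroup ↥(C.subgroupOf N)) =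
        (S' : Subgroup ↥N).subgroupOf (C.subgroupOf N) :=
      Cfsg.Agent.H44.exists_sylow_eq_subgroupOf S' (C.subgroupOf N)
    have hw : a ^ ((2 : ℤ) ^ (r + 1)) ∈ C := by
      rw [hC, hU, Subgroup.centralizer_closure, Subgroup.mem_centralizer_iff]
      rintro v (rfl | rfl)
      · exact ((Commute.refl a).zpow_zpow _ _).eq
      · rw [hswap]; congr 1
        rw [← mul_inv_eq_one, ← zpow_neg, ← zpow_add, hdvd]
        exact ⟨2 ^ r, by ring⟩
    have hyC : g * a ^ ((2 : ℤ) ^ (r + 1)) * g⁻¹ ∈ C := by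
      rw [hC, Subgroup.mem_centralizer_iff]
      intro u hu
      have h1 : g⁻¹ * u * g ∈ U := by
        simpa using (Subgroup.mem_normalizer_iff.mp (inv_mem hgU) u).mp hu
      have h2 := Subgroup.mem_centralizer_iff.mp hw _ h1
      calc u * (g * a ^ ((2 : ℤ) ^ (r + 1)) * g⁻¹) = g * ((g⁻¹ * u * g) * a ^ ((2 : ℤ) ^ (r + 1))) * g⁻¹ := by group
        _ = g * (a ^ ((2 : ℤ) ^ (r + 1)) * (g⁻¹ * u * g)) * g⁻¹ := by rw [h2]
        _ = g * a ^ ((2 : ℤ) ^ (r + 1)) * g⁻¹ * u := by group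
    set y : ↥(C.subgroupOf N) := ⟨⟨g * a ^ ((2 : ℤ) ^ (r + 1)) * g⁻¹, hCN hyC⟩, hyC⟩ with hy
    have hyp : IsPGroup 2 ↥(Subgroup.zpowers y) := by
      obtain ⟨j, hj⟩ := S.2 ⟨a ^ ((2 : ℤ) ^ (r + 1)), zpow_mem ha _⟩
      have hj' : (a ^ ((2 : ℤ) ^ (r + 1))) ^ 2 ^ j = 1 := congrArg Subtype.val hj
      have hy2 : y ^ 2 ^ j = 1 := by
        apply Subtype.ext; apply Subtype.ext
        show (g * a ^ ((2 : ℤ) ^ (r + 1)) * g⁻¹) ^ 2 ^ j = 1
        rw [conj_pow, hj']; group
      rintro ⟨_, m, rfl⟩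
      refine ⟨j, Subtype.ext ?_⟩
      show (y ^ m) ^ 2 ^ j = 1
      rw [← zpow_natCast, ← zpow_mul, mul_comm, zpow_mul, zpow_natCast, hy2, one_zpow]
    obtain ⟨R, hR⟩ := hyp.exists_le_sylow
    obtain ⟨c, hc⟩ := MulAction.exists_smul_eq ↥(C.subgroupOf N) R Q
    have hw' : ((c : ↥N) : G) * (g * a ^ ((2 : ℤ) ^ (r + 1)) * g⁻¹) * ((c : ↥N) : G)⁻¹ ∈ (S : Subgroup G) := by
      have h1 : MulAut.conj c • y ∈ ((c • R : Sylow 2 ↥(C.subgroupOf N)) : Subgroup ↥(C.subgroupOf N)) :=
        Subgroup.smul_mem_pointwise_smul _ _ _ (hR (Subgroup.mem_zpowers y))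
      rw [hc, hQ] at h1
      exact h1
    have hzz : a ^ ((2 : ℤ) ^ (r + 1)) * a ^ ((2 : ℤ) ^ (r + 1)) = z := by
      rw [hz, ← zpow_add]; congr 1; ring
    set e := ((c : ↥N) : G) * g with he
    have hcC : ∀ u ∈ U, ((c : ↥N) : G) * u * ((c : ↥N) : G)⁻¹ = u := fun u hu => by
      have h := Subgroup.mem_centralizer_iff.mp c.2 u hu
      simp only [Subgroup.coe_subtype] at h
      rw [← h, mul_inv_cancel_right]
    have hez : e * z * e⁻¹ = z := by
      have hs := hsqz _ hw' ?_ ?_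
      · refine Eq.trans ?_ hs
        rw [he, ← hzz]; group
      · rw [show ∀ s : G, ((c : ↥N) : G) * (g * s * g⁻¹) * ((c : ↥N) : G)⁻¹ * (((c : ↥N) : G) * (g * s * g⁻¹) * ((c : ↥N) : G)⁻¹) = e * (s * s) * e⁻¹ from fun s => by rw [he]; group, hzz]
        rw [show e * z * e⁻¹ * (e * z * e⁻¹) = e * (z * z) * e⁻¹ by group, hz2]; group
      · rw [show ∀ s : G, ((c : ↥N) : G) * (g * s * g⁻¹) * ((c : ↥N) : G)⁻¹ * (((c : ↥N) : G) * (g * s * g⁻¹) * ((c : ↥N) : G)⁻¹) = e * (s * s) * e⁻¹ from fun s => by rw [he]; group, hzz]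
        exact fun h => hz1 (conj_eq_one_iff.mp h)
    have hgz' : g * z * g⁻¹ = z := by
      have hzU : z ∈ U := hU ▸ Subgroup.subset_closure (by simp)
      have h1 : g * z * g⁻¹ ∈ U := (Subgroup.mem_normalizer_iff.mp hgU z).mp hzU
      rw [← hcC _ h1, ← mul_assoc, ← mul_assoc]
      rw [he] at hez
      rw [show ((c : ↥N) : G) * g * z * g⁻¹ * ((c : ↥N) : G)⁻¹ = ((c : ↥N) : G) * g * z * (((c : ↥N) : G) * g)⁻¹ by group]
      exact hez
    refine ⟨hgz', ?_⟩
    rcases hgb with e' | e' | e'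
    · exact absurd (mul_left_cancel (mul_right_cancel (e'.trans hgz'.symm)) ▸ Subgroup.zpow_mem_zpowers a _) hbA
    · exact e'
    · have h2 : g * (z * b) * g⁻¹ = b := by
        calc g * (z * b) * g⁻¹ = (g * z * g⁻¹) * (g * b * g⁻¹) := by group
          _ = b := by rw [hgz', e', ← mul_assoc, hz2, one_mul]
      have := fix_of_swap g b (z * b) hg e' h2
      exact absurd (mul_eq_right.mp this.symm) hz1
  -- Frobenius' condition
  refine Cfsg.Agent.H22.hasNormalPComplement_of_frobenius fun D hD g hgD hg2 => ?_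
  rw [Nat.coprime_two_right] at hg2
  obtain ⟨T, hT⟩ := hD.exists_le_sylow
  obtain ⟨h, hh⟩ := MulAction.exists_smul_eq G T S
  have hDS : ∀ d ∈ D, h * d * h⁻¹ ∈ (S : Subgroup G) := by
    intro d hd
    have : MulAut.conj h • d ∈ ((h • T : Sylow 2 G) : Subgroup G) :=
      Subgroup.smul_mem_pointwise_smul _ _ _ (hT hd)
    rw [hh] at this
    exact this
  rw [Subgroup.mem_centralizer_iff]
  intro d hd
  set D' := D.map (MulAut.conj h).toMonoidHom with hD'
  set g' := h * g * h⁻¹ with hg'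
  have hg'o : Odd (orderOf g') := by
    rw [hg', show h * g * h⁻¹ = (MulAut.conj h).toMonoidHom g from rfl, orderOf_injective _ (MulAut.conj h).injective]
    exact hg2
  have hD'S : D' ≤ (S : Subgroup G) := by rintro _ ⟨x, hx, rfl⟩; exact hDS x hx
  have hg'n : ∀ x ∈ D', g' * x * g'⁻¹ ∈ D' := by
    rintro _ ⟨x, hx, rfl⟩
    exact ⟨g * x * g⁻¹, (Subgroup.mem_normalizer_iff.mp hgD x).mp hx, by simp [hg', mul_assoc]⟩
  suffices key : ∀ x ∈ D', g' * x * g'⁻¹ = x by
    have := key _ ⟨d, hd, rfl⟩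
    simp only [hg', MulEquiv.coe_toMonoidHom, MulAut.conj_apply] at this
    have h2 : g * d * g⁻¹ = d := by
      have := congrArg (fun x => h⁻¹ * x * h) this
      simpa [mul_assoc] using this
    exact (mul_inv_eq_iff_eq_mul.mp h2).symm
  have h2j : ∀ x ∈ (S : Subgroup G), ∃ j, x ^ 2 ^ j = 1 := fun x hx =>
    (S.2 ⟨x, hx⟩).imp fun j hj => congrArg Subtype.val hj
  obtain ⟨c, hc⟩ : ∃ c, D' ⊓ Subgroup.zpowers a = Subgroup.zpowers c := by
    obtain ⟨c, hc⟩ := (Subgroup.isCyclic_iff_exists_zpowers_eq_top _).mp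
      (Subgroup.isCyclic_of_le (inf_le_right : D' ⊓ Subgroup.zpowers a ≤ Subgroup.zpowers a))
    exact ⟨c, hc.symm⟩
  have hcD : c ∈ D' ⊓ Subgroup.zpowers a := hc ▸ Subgroup.mem_zpowers c
  have hcyc : ∀ w ∈ D', (∀ x ∈ D', x ∈ Subgroup.zpowers w) → ∀ x ∈ D', g' * x * g'⁻¹ = x := by
    intro w hw hall x hx
    obtain ⟨j, hj⟩ := h2j w (hD'S hw)
    obtain ⟨l, rfl⟩ := hall x hx
    rw [← conj_zpow, fix_cyclic g' w hg'o j hj (hall _ (hg'n w hw))]
  by_cases hb' : b ∈ D'
  · have hzD : z ∈ D' ∨ c = 1 := by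
      obtain ⟨i, hi⟩ := hcD.2
      by_cases hc1 : c = 1
      · exact Or.inr hc1
      refine Or.inl ?_
      obtain ⟨j, hj⟩ := h2j c (hD'S hcD.1)
      classical
      have hex : ∃ j : ℕ, c ^ 2 ^ j = 1 := ⟨j, hj⟩
      have hsp := Nat.find_spec hex
      obtain ⟨k, hk⟩ : ∃ k, Nat.find hex = k + 1 := by
        refine ⟨Nat.find hex - 1, ?_⟩
        have : Nat.find hex ≠ 0 := fun h => hc1 (by simpa [h] using hsp)
        omega
      rw [hk] at hsp
      have hm := Nat.find_min hex (show k < Nat.find hex by omega)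
      have hd2 : c ^ 2 ^ k * c ^ 2 ^ k = 1 := by rw [← pow_add, ← two_mul, ← pow_succ']; exact hsp
      have hdA : c ^ 2 ^ k ∈ Subgroup.zpowers a := Subgroup.pow_mem _ hcD.2 _
      rcases hinv _ (hD'S (pow_mem hcD.1 _)) hd2 with e | e | e | e
      · exact absurd e hm
      · rw [← e]; exact pow_mem hcD.1 _
      · exact absurd (e ▸ hdA) hbA
      · rw [e] at hdA
        refine absurd ?_ hbA
        rw [show b = z⁻¹ * (z * b) by group]; exact mul_mem (inv_mem (Subgroup.zpow_mem_zpowers a _)) hdA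
    have hgen : ∀ x ∈ D', ∃ l : ℤ, x = c ^ l ∨ x = c ^ l * b := by
      intro x hx
      obtain ⟨i, rfl | rfl⟩ := hmem x (hD'S hx)
      · have : a ^ i ∈ D' ⊓ Subgroup.zpowers a := ⟨hx, Subgroup.zpow_mem_zpowers a i⟩
        rw [hc] at this
        obtain ⟨l, hl⟩ := this
        exact ⟨l, Or.inl hl.symm⟩
      · have : a ^ i ∈ D' ⊓ Subgroup.zpowers a :=
          ⟨by simpa using mul_mem hx (inv_mem hb'), Subgroup.zpow_mem_zpowers a i⟩
        rw [hc] at this
        obtain ⟨l, hl⟩ := this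
        exact ⟨l, Or.inr (by rw [show c ^ l = a ^ i from hl])⟩
    rcases hzD with hzD | hc1
    · have hVmem : ∀ v ∈ D', v * v = 1 → v ≠ 1 → v ∈ ({z, b, z * b} : Set G) := by
        intro v hv h2 h1
        rcases hinv v (hD'S hv) h2 with e | e | e | e
        · exact absurd e h1
        all_goals simp [e]
      obtain ⟨hgz, hgb⟩ := hfour g' hg'o
        (hVmem _ (hg'n z hzD) (by rw [show g' * z * g'⁻¹ * (g' * z * g'⁻¹) = g' * (z * z) * g'⁻¹ by group, hz2]; group)
          (fun h => hz1 (conj_eq_one_iff.mp h)))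
        (hVmem _ (hg'n b hb') (by rw [show g' * b * g'⁻¹ * (g' * b * g'⁻¹) = g' * (b * b) * g'⁻¹ by group, hb2]; group)
          (fun h => hbA (conj_eq_one_iff.mp h ▸ one_mem _)))
      obtain ⟨i, hi⟩ := hcD.2
      change a ^ i = c at hi
      have hKsq : ∀ x ∈ D', x * x ∈ Subgroup.zpowers (c * c) := by
        intro x hx
        obtain ⟨l, rfl | rfl⟩ := hgen x hx
        · exact ⟨l, ((Commute.refl c).mul_zpow l)⟩
        · refine ⟨((2 : ℤ) ^ (r + 1) + 1) * l, ?_⟩
          show (c * c) ^ (((2 : ℤ) ^ (r + 1) + 1) * l) = c ^ l * b * (c ^ l * b)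
          rw [← hi, ← zpow_add, ← zpow_mul, ← zpow_mul, hsq]
          congr 1; ring
      obtain ⟨j, hj⟩ := h2j (c * c) (mul_mem (hD'S hcD.1) (hD'S hcD.1))
      have hc2 : g' * (c * c) * g'⁻¹ = c * c := fix_cyclic g' _ hg'o j hj (by
        rw [show g' * (c * c) * g'⁻¹ = (g' * c * g'⁻¹) * (g' * c * g'⁻¹) by group]
        exact hKsq _ (hg'n c hcD.1))
      have hfixK : ∀ k ∈ Subgroup.zpowers (c * c), g' * k * g'⁻¹ = k := by
        rintro _ ⟨m, rfl⟩; rw [← conj_zpow, hc2]
      have hp : ∀ k ∈ Subgroup.zpowers (c * c), ∃ j, k ^ 2 ^ j = 1 := by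
        rintro _ ⟨m, rfl⟩
        exact h2j _ (zpow_mem (mul_mem (hD'S hcD.1) (hD'S hcD.1)) m)
      have hcfix : g' * c * g'⁻¹ = c := by
        -- the image of `c` lies in `c K`, or in `c K b`, or `c` lies in `K`
        have key : ∀ x : G, g' * c * g'⁻¹ = x → ∀ k ∈ Subgroup.zpowers (c * c), x = c * k → g' * c * g'⁻¹ = c := by
          intro x hx k hk hxk
          obtain ⟨j, hj⟩ := hp k hk
          exact fix_of_shift g' c k hg'o (hfixK k hk) j hj (hx.trans hxk)
        obtain ⟨l, hl⟩ := hgen _ (hg'n c hcD.1)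
        have hsplit : ∀ l : ℤ, c ^ l ∈ Subgroup.zpowers (c * c) ∨ ∃ k ∈ Subgroup.zpowers (c * c), c ^ l = c * k := by
          intro l
          rcases Int.even_or_odd l with ⟨m, rfl⟩ | ⟨m, rfl⟩
          · exact Or.inl ⟨m, by show (c * c) ^ m = _; rw [(Commute.refl c).mul_zpow, zpow_add]⟩
          · refine Or.inr ⟨(c * c) ^ m, Subgroup.zpow_mem_zpowers _ m, ?_⟩
            rw [(Commute.refl c).mul_zpow, add_comm, zpow_add, zpow_one, two_mul, zpow_add]
        have hbb : ∀ k, g' * k * g'⁻¹ = k → g' * (k * b) * g'⁻¹ = k * b := fun k hk => by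
          rw [show g' * (k * b) * g'⁻¹ = (g' * k * g'⁻¹) * (g' * b * g'⁻¹) by group, hk, hgb]
        have hinj : ∀ y, g' * y * g'⁻¹ = g' * c * g'⁻¹ → y = c := fun y h => mul_left_cancel (mul_right_cancel h)
        rcases hl with hl | hl
        · rcases hsplit l with hk | ⟨k, hk, hk'⟩
          · exact (congrArg (fun y => g' * y * g'⁻¹) (hinj _ ((hfixK _ hk).trans hl.symm)).symm).trans
              ((hfixK _ hk).trans (hinj _ ((hfixK _ hk).trans hl.symm)))
          · exact key _ hl k hk hk'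
        · rcases hsplit l with hk | ⟨k, hk, hk'⟩
          · have := hinj _ ((hbb _ (hfixK _ hk)).trans hl.symm)
            rw [← this]; exact hbb _ (hfixK _ hk)
          · -- the square of the shift lies in `K`
            have h2 : (g' * g') * c * (g' * g')⁻¹ = c * (k * b * k * b) := by
              calc (g' * g') * c * (g' * g')⁻¹ = g' * (g' * c * g'⁻¹) * g'⁻¹ := by group
                _ = g' * (c * (k * b)) * g'⁻¹ := by rw [hl, hk']; group
                _ = (g' * c * g'⁻¹) * (g' * (k * b) * g'⁻¹) := by group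
                _ = c * (k * b * k * b) := by rw [hl, hk', hbb _ (hfixK _ hk)]; group
            have hkD : k * b ∈ D' := by
              obtain ⟨m, rfl⟩ := hk
              have hcc : c * c ∈ D' := mul_mem hcD.1 hcD.1
              exact mul_mem (zpow_mem hcc m) hb'
            have hkK : k * b * k * b ∈ Subgroup.zpowers (c * c) := by
              rw [mul_assoc (k * b)]; exact hKsq _ hkD
            obtain ⟨j, hj⟩ := hp _ hkK
            have hg2o : Odd (orderOf (g' * g')) := by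
              rw [← sq, orderOf_pow, Nat.Coprime.gcd_eq_one hg'o.coprime_two_right, Nat.div_one]; exact hg'o
            have h3 : (g' * g') * (k * b * k * b) * (g' * g')⁻¹ = k * b * k * b := by
              calc (g' * g') * (k * b * k * b) * (g' * g')⁻¹
                  = g' * (g' * (k * b * k * b) * g'⁻¹) * g'⁻¹ := by group
                _ = _ := by rw [hfixK _ hkK, hfixK _ hkK]
            have h4 := fix_of_shift (g' * g') c _ hg2o h3 j hj h2
            have h5 : g' * (g' * c * g'⁻¹) * g'⁻¹ = c := by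
              calc g' * (g' * c * g'⁻¹) * g'⁻¹ = (g' * g') * c * (g' * g')⁻¹ := by group
                _ = c := h4
            exact (fix_of_swap g' c _ hg'o rfl h5).symm
      intro x hx
      obtain ⟨l, rfl | rfl⟩ := hgen x hx
      · rw [← conj_zpow, hcfix]
      · rw [show g' * (c ^ l * b) * g'⁻¹ = (g' * c ^ l * g'⁻¹) * (g' * b * g'⁻¹) by group, ← conj_zpow, hcfix, hgb]
    · refine hcyc b hb' fun x hx => ?_
      obtain ⟨l, rfl | rfl⟩ := hgen x hx
      · rw [hc1, one_zpow]; exact one_mem _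
      · rw [hc1, one_zpow, one_mul]; exact Subgroup.mem_zpowers b
  · by_cases hout : ∃ w ∈ D', w ∉ Subgroup.zpowers a
    · obtain ⟨w, hw, hwA⟩ := hout
      obtain ⟨i, rfl | rfl⟩ := hmem w (hD'S hw)
      · exact absurd (Subgroup.zpow_mem_zpowers a i) hwA
      have hci : a ^ i ∉ D' := fun h => hb' (by simpa using mul_mem (inv_mem h) hw)
      obtain ⟨m, hm⟩ := hcD.2
      change a ^ m = c at hm
      have hwsq : a ^ (2 * ((2 : ℤ) ^ (r + 1) + 1) * i) ∈ D' := hsq i ▸ mul_mem hw hw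
      obtain ⟨A', B', hAB⟩ : IsCoprime ((2 : ℤ) ^ (r + 3)) ((2 : ℤ) ^ (r + 1) + 1) :=
        IsCoprime.pow_left ⟨-(2 ^ r), 1, by ring⟩
      have hsqw : a ^ (2 * i) = (a ^ i * b * (a ^ i * b)) ^ B' := by
        rw [hsq, ← zpow_mul, ← mul_inv_eq_one, ← zpow_neg, ← zpow_add, hdvd]
        exact ⟨2 * i * A', by linear_combination (-(2 : ℤ) * i) * hAB⟩
      refine hcyc _ hw fun x hx => ?_
      -- elements of `D'` inside `⟨a⟩` are even powers of `a ^ i`
      have hA2 : ∀ y ∈ D', y ∈ Subgroup.zpowers a → y ∈ Subgroup.zpowers (a ^ i * b) := by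
        intro y hy hyA
        obtain ⟨k, rfl⟩ := hyA
        suffices hk : ∃ t : ℤ, a ^ k = a ^ (2 * i * t) by
          obtain ⟨t, ht⟩ := hk
          show a ^ k ∈ _
          rw [ht, zpow_mul, hsqw]
          exact zpow_mem (zpow_mem (mul_mem (Subgroup.mem_zpowers _) (Subgroup.mem_zpowers _)) _) _
        by_contra hno
        push Not at hno
        -- then `a ^ i` is a power of `a ^ k` and of `a ^ (2 * i)`
        obtain ⟨d, hd⟩ : ∃ d : ℤ, d = Int.gcd ((2 : ℤ) ^ (r + 3)) k := ⟨_, rfl⟩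
        obtain ⟨e, he, hde⟩ : ∃ e ≤ r + 3, d = (2 : ℤ) ^ e := by
          have hdv : Int.gcd ((2 : ℤ) ^ (r + 3)) k ∣ 2 ^ (r + 3) := by
            have := Int.gcd_dvd_left ((2 : ℤ) ^ (r + 3)) k
            exact_mod_cast this
          obtain ⟨e, he, heq⟩ := (Nat.dvd_prime_pow Nat.prime_two).mp hdv
          exact ⟨e, he, by rw [hd, heq]; push_cast; rfl⟩
        have hdD : a ^ d ∈ D' := by
          rw [hd, Int.gcd_eq_gcd_ab, zpow_add, (hdvd _).mpr (dvd_mul_right _ _), one_mul, zpow_mul]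
          exact zpow_mem hy _
        have h2d : (2 : ℤ) ^ e ∣ k := hde ▸ hd ▸ Int.gcd_dvd_right _ _
        by_cases hei : (2 : ℤ) ^ e ∣ i
        · obtain ⟨t, ht⟩ := hei
          exact hci (by rw [ht, ← hde, zpow_mul]; exact zpow_mem hdD _)
        -- write `i = 2 ^ f * odd` with `f < e`
        have hne : (2 : ℤ) * i ≠ 0 := fun h => hei (by simp [show i = 0 by omega])
        obtain ⟨P, Q, hPQ⟩ : ∃ P Q : ℤ, k = 2 * i * P + (2 : ℤ) ^ (r + 3) * Q := by
          have hg : ((Int.gcd (2 * i) ((2 : ℤ) ^ (r + 3)) : ℕ) : ℤ) ∣ k := by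
            have hdv : Int.gcd (2 * i) ((2 : ℤ) ^ (r + 3)) ∣ 2 ^ (r + 3) := by
              have := Int.gcd_dvd_right (2 * i) ((2 : ℤ) ^ (r + 3))
              exact_mod_cast this
            obtain ⟨f, hf, hfeq⟩ := (Nat.dvd_prime_pow Nat.prime_two).mp hdv
            rw [hfeq]
            push_cast
            refine dvd_trans (pow_dvd_pow 2 ?_) h2d
            by_contra hlt
            push Not at hlt
            have h1 : (2 : ℤ) ^ f ∣ 2 * i := by
              have := Int.gcd_dvd_left (2 * i) ((2 : ℤ) ^ (r + 3))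
              rw [hfeq] at this
              exact_mod_cast this
            obtain ⟨f', rfl⟩ : ∃ f', f = f' + 1 := ⟨f - 1, by omega⟩
            rw [pow_succ'] at h1
            exact hei ((pow_dvd_pow 2 (by omega)).trans ((mul_dvd_mul_iff_left (by norm_num)).mp h1))
          obtain ⟨q, hq⟩ := hg
          exact ⟨Int.gcdA (2 * i) ((2 : ℤ) ^ (r + 3)) * q, Int.gcdB (2 * i) ((2 : ℤ) ^ (r + 3)) * q,
            by rw [hq, Int.gcd_eq_gcd_ab]; ring⟩
        exact hno P (by rw [hPQ, zpow_add, (hdvd _).mpr (dvd_mul_right _ _), mul_one])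
      obtain ⟨k, rfl | rfl⟩ := hmem x (hD'S hx)
      · exact hA2 _ hx (Subgroup.zpow_mem_zpowers a k)
      · have h1 := hA2 _ (mul_mem hx (inv_mem hw))
          (by rw [show a ^ k * b * (a ^ i * b)⁻¹ = a ^ k * (a ^ i)⁻¹ by group]
              exact mul_mem (Subgroup.zpow_mem_zpowers a k) (inv_mem (Subgroup.zpow_mem_zpowers a i)))
        simpa using mul_mem h1 (Subgroup.mem_zpowers (a ^ i * b))
    · push Not at hout
      refine hcyc c hcD.1 fun x hx => ?_
      rw [← hc]; exact ⟨hx, hout x hx⟩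

end Cfsg.Agent.S3178
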