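import Cfsg.Statements.S3180
import Mathlib

set_option autoImplicit false
open Cfsg

namespace Cfsg.Agent.S3180

/-- Let P be a Sylow p-subgroup of a finite group J and P₁ a subgroup of P that is weakly closed in P with respect to J. If J acts on a set and two points, each fixed by every element of P₁, lie in one J-orbit, then they lie in one orbit of the normalizer of P₁ in J. -/
theorem result {J : Type*} [Group J] [Finite J]
    {p : ℕ} [Fact p.Prime] (P : Sylow p J) (P₁ : Subgroup J) (hW : Cfsg.IsWeaklyClosed P₁ (P : Subgroup J))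
    {Ω : Type*} [MulAction J Ω] (x y : Ω) (hx : ∀ g ∈ P₁, g • x = x) (hy : ∀ g ∈ P₁, g • y = y)
    (hc : ∃ g : J, g • x = y) :
    ∃ g ∈ Subgroup.normalizer (P₁ : Set J), g • x = y := by
  obtain ⟨hW1, hW2⟩ := hW
  obtain ⟨g, hg⟩ := hc
  set H : Subgroup J := MulAction.stabilizer J x with hH
  have hP1 : IsPGroup p ↥P₁ := P.2.to_le hW1
  have hmem1 : P₁ ≤ H := fun a ha => hx a ha
  have hmem2 : ∀ a ∈ P₁, g⁻¹ * a * g ∈ H := by
    intro a ha
    show (g⁻¹ * a * g) • x = x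
    rw [mul_smul, mul_smul, hg, hy a ha, ← hg, inv_smul_smul]
  obtain ⟨R, hR⟩ := (hP1.comap_of_injective H.subtype H.subtype_injective).exists_le_sylow
  have hQ : IsPGroup p ↥((P₁.map (MulAut.conj g⁻¹).toMonoidHom).subgroupOf H) :=
    (hP1.map _).comap_of_injective H.subtype H.subtype_injective
  obtain ⟨R', hR'⟩ := hQ.exists_le_sylow
  obtain ⟨h, hh⟩ := MulAction.exists_smul_eq ↥H R' R
  obtain ⟨T, hT⟩ := (R.2.map H.subtype).exists_le_sylow
  obtain ⟨a, ha⟩ := MulAction.exists_smul_eq J T P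
  have hin : ∀ u ∈ T, a * u * a⁻¹ ∈ (P : Subgroup J) := by
    intro u hu
    have : MulAut.conj a • u ∈ ((a • T : Sylow p J) : Subgroup J) :=
      Subgroup.smul_mem_pointwise_smul u (MulAut.conj a) _ hu
    rw [ha] at this
    exact this
  have e1 : P₁.map (MulAut.conj a).toMonoidHom = P₁ := by
    refine hW2 a ?_
    rintro _ ⟨u, hu, rfl⟩
    exact hin u (hT ⟨⟨u, hmem1 hu⟩, hR hu, rfl⟩)
  have e2 : P₁.map (MulAut.conj (a * h * g⁻¹)).toMonoidHom = P₁ := by
    refine hW2 _ ?_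
    rintro _ ⟨u, hu, rfl⟩
    have hv : (⟨g⁻¹ * u * g, hmem2 u hu⟩ : ↥H) ∈ R' := hR' ⟨u, hu, by simp⟩
    have hv' : MulAut.conj h • (⟨g⁻¹ * u * g, hmem2 u hu⟩ : ↥H) ∈ ((h • R' : Sylow p ↥H) : Subgroup ↥H) :=
      Subgroup.smul_mem_pointwise_smul _ (MulAut.conj h) _ hv
    rw [hh] at hv'
    have := hin _ (hT ⟨_, hv', rfl⟩)
    simp only [MulEquiv.coe_toMonoidHom, MulAut.conj_apply, MulAut.smul_def, Subgroup.coe_subtype,
      Subgroup.coe_mul, Subgroup.coe_inv] at this ⊢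
    simpa [mul_assoc] using this
  have hn : ∀ b : J, P₁.map (MulAut.conj b).toMonoidHom = P₁ → b ∈ Subgroup.normalizer (P₁ : Set J) := by
    intro b hb
    rw [Subgroup.mem_normalizer_iff]
    intro u
    have key : u ∈ P₁ ↔ (MulAut.conj b).toMonoidHom u ∈ P₁.map (MulAut.conj b).toMonoidHom :=
      (Subgroup.mem_map_iff_mem (MulAut.conj b).injective).symm
    rw [hb] at key
    exact key
  refine ⟨(a * h * g⁻¹)⁻¹ * a, mul_mem (inv_mem (hn _ e2)) (hn _ e1), ?_⟩
  have hhx : (h : J) • x = x := h.2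
  rw [show (a * h * g⁻¹)⁻¹ * a = g * (h : J)⁻¹ by group, mul_smul,
    inv_smul_eq_iff.mpr hhx.symm, hg]

end Cfsg.Agent.S3180
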