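import Cfsg.Statements.S3183
import Mathlib
import Cfsg.Agent.H76.CIGroup

set_option autoImplicit false
open Cfsg

namespace Cfsg.Agent.S3183

/-- Let G be a finite group in which the intersection of any two distinct Sylow 2-subgroups is contained in the centre of some Sylow 2-subgroup, and let S be a Sylow 2-subgroup. Then for every x in S the centralizer of x in S is a Sylow 2-subgroup of the centralizer of x in G (no 2-subgroup centralizing x is larger), and for every other Sylow 2-subgroup T the intersection S ∩ T lies in both the centre of S and the centre of T. -/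
theorem result {G : Type*} [Group G] [Finite G]
    (hCI : ∀ S T : Sylow 2 G, S ≠ T → ∃ U : Sylow 2 G,
      (S : Subgroup G) ⊓ (T : Subgroup G) ≤ (Subgroup.center ↥(U : Subgroup G)).map (U : Subgroup G).subtype)
    (S : Sylow 2 G) :
    (∀ x ∈ (S : Subgroup G), ∀ P : Subgroup G, IsPGroup 2 ↥P → P ≤ Subgroup.centralizer ({x} : Set G) →
        Nat.card ↥P ≤ Nat.card ↥((S : Subgroup G) ⊓ Subgroup.centralizer ({x} : Set G))) ∧
    (∀ T : Sylow 2 G, T ≠ S →
        (S : Subgroup G) ⊓ (T : Subgroup G) ≤
          (Subgroup.center ↥(S : Subgroup G)).map (S : Subgroup G).subtype ⊓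
            (Subgroup.center ↥(T : Subgroup G)).map (T : Subgroup G).subtype) := by
  have key := Cfsg.Agent.H76.inf_le_center_of_ci (p := 2) hCI
  refine ⟨fun x hx P hP hPC => ?_, fun T hT => le_inf (key S T hT.symm) (by rw [inf_comm]; exact key T S hT)⟩
  set C := Subgroup.centralizer ({x} : Set G)
  obtain ⟨R, hR⟩ := ((S.2.to_le inf_le_left : IsPGroup 2 ↥((S : Subgroup G) ⊓ C)).comap_of_injective
    C.subtype C.subtype_injective).exists_le_sylow
  obtain ⟨T, hT⟩ := (R.2.map C.subtype).exists_le_sylow
  by_cases hTS : T = S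
  · subst hTS
    have h1 : Nat.card ↥(P.subgroupOf C) ≤ Nat.card ↥(R : Subgroup ↥C) :=
      Cfsg.Agent.H76.card_le_sylow _ (hP.comap_of_injective C.subtype C.subtype_injective) R
    rw [Nat.card_congr (Subgroup.subgroupOfEquivOfLe hPC).toEquiv] at h1
    refine h1.trans ?_
    rw [← Subgroup.card_map_of_injective C.subtype_injective (K := (R : Subgroup ↥C))]
    exact Subgroup.card_le_of_le (le_inf hT (Subgroup.map_subtype_le _))
  · have hxC : x ∈ C := Subgroup.mem_centralizer_singleton_iff.mpr rfl
    have hxT : x ∈ (T : Subgroup G) := hT ⟨⟨x, hxC⟩, hR ⟨hx, hxC⟩, rfl⟩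
    obtain ⟨z, hz, rfl⟩ := key S T (fun h => hTS h.symm) ⟨hx, hxT⟩
    have hSC : (S : Subgroup G) ≤ C := fun s hs => Subgroup.mem_centralizer_singleton_iff.mpr
      (congrArg Subtype.val (Subgroup.mem_center_iff.mp hz ⟨s, hs⟩))
    rw [inf_eq_left.mpr hSC]
    exact Cfsg.Agent.H76.card_le_sylow P hP S

end Cfsg.Agent.S3183
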