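import Cfsg.Statements.S3189
import Cfsg.Agent.H48.SylowEight.Main
import Cfsg.Agent.H48.SylowEight.Quotient
-- import your own Cfsg.Agent.* helpers here

set_option autoImplicit false
open Cfsg

namespace Cfsg.Agent.S3189

/-- Let G be a non-abelian finite simple group whose Sylow 2-subgroup S is elementary abelian of order 8, and suppose the centralizer of every involution of G is solvable. Then the normalizer of S modulo the centralizer of S has order 7. -/
theorem result {G : Type*} [Group G] [Finite G]
    [IsSimpleGroup G] (hG : ¬ IsMulCommutative G) (S : Sylow 2 G)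
    (hS : Cfsg.IsElementaryAbelian 2 (S : Subgroup G)) (hS8 : Nat.card ↥(S : Subgroup G) = 8)
    (hC : ∀ t : G, orderOf t = 2 → Group.IsSolvable ↥(Subgroup.centralizer ({t} : Set G))) :
    (Subgroup.centralizer ((S : Subgroup G) : Set G)).relIndex (Subgroup.normalizer ((S : Subgroup G) : Set G)) = 7 := by
  have hsq : ∀ x ∈ (S : Subgroup G), x * x = 1 := fun x hx => by
    rw [← pow_two]; exact hS.2 x hx
  have hidx : ∀ H : Subgroup G, H.index ≠ 2 := by
    intro H hH
    rcases (Subgroup.normal_of_index_eq_two hH).eq_bot_or_eq_top with rfl | rfl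
    · rw [Subgroup.index_bot] at hH
      haveI := Fact.mk Nat.prime_two
      have := isCyclic_of_prime_card (p := 2) hH
      exact hG IsCyclic.commutative
    · rw [Subgroup.index_top] at hH; omega
  obtain ⟨t, ht, ht1⟩ : ∃ t ∈ (S : Subgroup G), t ≠ 1 := by
    by_contra h
    push_neg at h
    rw [(Subgroup.eq_bot_iff_forall _).mpr h, Subgroup.card_bot] at hS8
    omega
  refine (H48.SylowEight.relIndex_cases hidx hS8 hsq ht ht1).resolve_right ?_
  rintro ⟨⟨r, hrN, hrt, hrS⟩, c, hcN, hcC, hc7⟩
  obtain ⟨φ, hφ, hker, hmap⟩ := H48.SylowEight.exists_hom S hS hS8 ht ht1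
    (hC t (orderOf_eq_prime (by rw [pow_two]; exact hsq t ht) ht1)) hrN hrt hrS
  exact H48.SylowEight.no_big_automiser hG hS8 hsq hC ht ht1 φ hφ hker hmap hcN hcC hc7

end Cfsg.Agent.S3189
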