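import Cfsg.Statements.S3190
import Mathlib
import Cfsg.Agent.H76.PGroupFixed

set_option autoImplicit false
open Cfsg

namespace Cfsg.Agent.S3190

/-- Let p be an odd prime and, inside a finite group, let P be a p-subgroup normalized by a Klein four-group T. Let R be a subgroup of P, normal in P and normalized by T, such that P is the product of R with the centralizer of T in P. If T centralizes the centre of P, then T centralizes the centre of R. -/
theorem result {X : Type*} [Group X] [Finite X]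
    {p : ℕ} (hp : p.Prime) (hodd : Odd p) (P T R : Subgroup X) (hP : IsPGroup p ↥P) (hT : IsKleinFour ↥T)
    (hTP : T ≤ Subgroup.normalizer (P : Set X)) (hRP : R ≤ P) (hRn : (R.subgroupOf P).Normal)
    (hTR : T ≤ Subgroup.normalizer (R : Set X)) (hfac : R ⊔ (P ⊓ Subgroup.centralizer (T : Set X)) = P)
    (hZ : T ≤ Subgroup.centralizer (((Subgroup.center ↥P).map P.subtype : Subgroup X) : Set X)) :
    T ≤ Subgroup.centralizer (((Subgroup.center ↥R).map R.subtype : Subgroup X) : Set X) := by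
  have : Fact p.Prime := ⟨hp⟩
  intro t ht
  rw [Subgroup.mem_centralizer_iff]
  intro z₀ hz₀
  -- abelian normal part of `R`
  set Z : Subgroup X := (Subgroup.center ↥R).map R.subtype with hZdef
  have hZR : Z ≤ R := Subgroup.map_subtype_le _
  have hZc : ∀ z ∈ Z, ∀ r ∈ R, r * z = z * r := by
    rintro _ ⟨z, hz, rfl⟩ r hr
    exact congrArg Subtype.val (Subgroup.mem_center_iff.mp hz ⟨r, hr⟩)
  have hZmem : ∀ z ∈ R, (∀ r ∈ R, r * z = z * r) → z ∈ Z := fun z hz h =>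
    ⟨⟨z, hz⟩, Subgroup.mem_center_iff.mpr fun r => Subtype.ext (h r r.2), rfl⟩
  have hZn : ∀ g ∈ Subgroup.normalizer (R : Set X), ∀ z ∈ Z, g * z * g⁻¹ ∈ Z := by
    intro g hg z hz
    refine hZmem _ ((Subgroup.mem_normalizer_iff.mp hg z).mp (hZR hz)) fun r hr => ?_
    have h1 : g⁻¹ * r * g ∈ R := by
      simpa using (Subgroup.mem_normalizer_iff.mp (inv_mem hg) r).mp hr
    have h2 := hZc z hz _ h1
    calc r * (g * z * g⁻¹) = g * ((g⁻¹ * r * g) * z) * g⁻¹ := by group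
      _ = g * (z * (g⁻¹ * r * g)) * g⁻¹ := by rw [h2]
      _ = g * z * g⁻¹ * r := by group
  have hmul : ∀ z ∈ Z, ∀ w ∈ Z, z * w = w * z := fun z hz w hw => hZc w hw z (hZR hz)
  let M : Subgroup X :=
    { carrier := {z | z ∈ Z ∧ t * z * t⁻¹ = z⁻¹}
      one_mem' := ⟨one_mem _, by simp⟩
      mul_mem' := fun {a b} ha hb => ⟨mul_mem ha.1 hb.1, by
        rw [show t * (a * b) * t⁻¹ = (t * a * t⁻¹) * (t * b * t⁻¹) by group, ha.2, hb.2, mul_inv_rev]
        exact hmul _ (inv_mem ha.1) _ (inv_mem hb.1)⟩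
      inv_mem' := fun {a} ha => ⟨inv_mem ha.1, by
        rw [show t * a⁻¹ * t⁻¹ = (t * a * t⁻¹)⁻¹ by group, ha.2]⟩ }
  have hRP : ∀ g ∈ P, g ∈ Subgroup.normalizer (R : Set X) := fun g hg =>
    (Subgroup.normal_subgroupOf_iff_le_normalizer hRP).mp hRn hg
  have hPn : P ≤ Subgroup.normalizer (M : Set X) := by
    rw [← hfac]
    refine sup_le (Cfsg.Agent.H76.le_normalizer_of_conj_mem _ _ ?_)
      (Cfsg.Agent.H76.le_normalizer_of_conj_mem _ _ ?_)
    · rintro g hg z hz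
      have h1 : g * z = z * g := hZc z hz.1 g hg
      rwa [h1, mul_inv_cancel_right]
    · rintro g hg z hz
      refine ⟨hZn g (hRP g hg.1) z hz.1, ?_⟩
      have hc : g * t = t * g := (Subgroup.mem_centralizer_iff.mp hg.2 t ht).symm
      have hc' : t * g⁻¹ = g⁻¹ * t := by
        rw [eq_inv_mul_iff_mul_eq, ← mul_assoc, hc, mul_inv_cancel_right]
      calc t * (g * z * g⁻¹) * t⁻¹ = (t * g) * z * (g⁻¹ * t⁻¹) := by group
        _ = g * t * z * (t⁻¹ * g⁻¹) := by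
          rw [← hc, show g⁻¹ * t⁻¹ = t⁻¹ * g⁻¹ from by rw [← mul_inv_rev, ← mul_inv_rev, hc]]
        _ = g * (t * z * t⁻¹) * g⁻¹ := by group
        _ = (g * z * g⁻¹)⁻¹ := by rw [hz.2]; group
  have hpo : ∀ a ∈ P, a * a = 1 → a = 1 := by
    intro a ha h2
    obtain ⟨k, hk⟩ := hP ⟨a, ha⟩
    have hk' : a ^ (p ^ k) = 1 := congrArg Subtype.val hk
    obtain ⟨r, hr⟩ := hodd.pow (n := k)
    rw [hr, pow_succ, pow_mul, sq, h2, one_pow, one_mul] at hk'
    exact hk'
  have hM : M = ⊥ := by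
    by_contra hM
    have hMP : M ≤ P := fun z hz => (show R ≤ P by assumption) (hZR hz.1)
    obtain ⟨z, hzM, hz1, hzc⟩ := Cfsg.Agent.H76.exists_central_mem_of_normalized P M hP hMP hM
      (fun g hg z hz => (Subgroup.mem_normalizer_iff.mp (hPn hg) z).mp hz)
    have hzt : z * t = t * z :=
      Subgroup.mem_centralizer_iff.mp (hZ ht) z
        ⟨⟨z, hMP hzM⟩, Subgroup.mem_center_iff.mpr fun g => Subtype.ext (hzc g g.2), rfl⟩
    have h2 := hzM.2
    rw [← hzt, mul_inv_cancel_right] at h2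
    exact hz1 (hpo z (hMP hzM) (by nth_rw 2 [h2]; rw [mul_inv_cancel]))
  have ht2 : t * t = 1 := by
    rw [← sq]
    have hT2 : (⟨t, ht⟩ : ↥T) ^ Monoid.exponent ↥T = 1 := Monoid.pow_exponent_eq_one _
    rw [hT.exponent_two] at hT2
    exact congrArg Subtype.val hT2
  have hw : z₀ * (t * z₀ * t⁻¹)⁻¹ ∈ M := by
    have hc : t * z₀ * t⁻¹ ∈ Z := hZn t (hTR ht) z₀ hz₀
    refine ⟨mul_mem hz₀ (inv_mem hc), ?_⟩
    have ti : t⁻¹ = t := inv_eq_of_mul_eq_one_right ht2
    calc t * (z₀ * (t * z₀ * t⁻¹)⁻¹) * t⁻¹ = (t * z₀ * t⁻¹) * ((t * t) * z₀⁻¹ * (t * t)⁻¹) := by group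
      _ = (z₀ * (t * z₀ * t⁻¹)⁻¹)⁻¹ := by rw [ht2]; group
  rw [hM, Subgroup.mem_bot, mul_inv_eq_one] at hw
  exact mul_inv_eq_iff_eq_mul.mp hw.symm |>.symm

end Cfsg.Agent.S3190
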