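import Cfsg.Statements.S3196
import Mathlib
import Cfsg.Agent.H76.PGroupFixed

set_option autoImplicit false
open Cfsg

namespace Cfsg.Agent.S3196

variable {G : Type*} [Group G] [Finite G]

/-- Normal form for the element of the line `⟨x,y⟩` commuting with `w`. -/
theorem commute_or_shift {p : ℕ} (hp : p.Prime) (x y w : G) (hx : x ^ p = 1) (hy : y ^ p = 1)
    (hxy : Commute x y) (h : ∃ i j : ℤ, x ^ i * y ^ j ≠ 1 ∧ Commute w (x ^ i * y ^ j)) :
    Commute w x ∨ ∃ t : ℤ, Commute w (y * x ^ t) := by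
  obtain ⟨i, j, hne, hc⟩ := h
  have hper : ∀ {a : G}, a ^ p = 1 → ∀ k : ℤ, (p : ℤ) ∣ k → a ^ k = 1 := by
    rintro a ha k ⟨m, rfl⟩
    rw [zpow_mul, zpow_natCast, ha, one_zpow]
  have hinv : ∀ {k : ℤ}, ¬ (p : ℤ) ∣ k → ∃ l : ℤ, (p : ℤ) ∣ k * l - 1 := by
    intro k hk
    obtain ⟨a, b, hab⟩ := ((Nat.prime_iff_prime_int.mp hp).coprime_iff_not_dvd.mpr hk)
    exact ⟨b, ⟨-a, by linarith⟩⟩
  have hone : ∀ {a : G}, a ^ p = 1 → ∀ k l : ℤ, (p : ℤ) ∣ k * l - 1 → (a ^ k) ^ l = a := by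
    intro a ha k l h
    rw [← zpow_mul, show k * l = (k * l - 1) + 1 by ring, zpow_add, hper ha _ h, one_mul, zpow_one]
  by_cases hj : (p : ℤ) ∣ j
  · rw [hper hy j hj, mul_one] at hne hc
    obtain ⟨l, hl⟩ := hinv (fun hi => hne (hper hx i hi))
    exact Or.inl (hone hx i l hl ▸ hc.zpow_right l)
  · obtain ⟨l, hl⟩ := hinv hj
    refine Or.inr ⟨i * l, ?_⟩
    have := hc.zpow_right l
    rw [((hxy.zpow_zpow i j)).mul_zpow, hone hy j l hl, ← zpow_mul, ((hxy.zpow_left (i * l))).eq] at this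
    exact this

/-- Two commuting elements generate the products of their powers. -/
theorem mem_sup_zpowers (x y : G) (hxy : Commute x y) {z : G}
    (hz : z ∈ Subgroup.zpowers x ⊔ Subgroup.zpowers y) : ∃ i j : ℤ, z = x ^ i * y ^ j := by
  let P : Subgroup G :=
    { carrier := {z | ∃ i j : ℤ, z = x ^ i * y ^ j}
      one_mem' := ⟨0, 0, by simp⟩
      mul_mem' := by
        rintro _ _ ⟨i, j, rfl⟩ ⟨i', j', rfl⟩
        refine ⟨i + i', j + j', ?_⟩
        rw [zpow_add, zpow_add]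
        calc x ^ i * y ^ j * (x ^ i' * y ^ j') = x ^ i * (y ^ j * x ^ i') * y ^ j' := by group
          _ = x ^ i * (x ^ i' * y ^ j) * y ^ j' := by rw [(hxy.zpow_zpow i' j).eq]
          _ = x ^ i * x ^ i' * (y ^ j * y ^ j') := by group
      inv_mem' := by
        rintro _ ⟨i, j, rfl⟩
        exact ⟨-i, -j, by rw [mul_inv_rev, zpow_neg, zpow_neg, ((hxy.zpow_zpow i j).inv_inv).eq]⟩ }
  exact (sup_le (Subgroup.zpowers_le.mpr (show x ∈ P from ⟨1, 0, by simp⟩))
    (Subgroup.zpowers_le.mpr (show y ∈ P from ⟨0, 1, by simp⟩)) : _ ≤ P) hz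

section
variable {p : ℕ} [Fact p.Prime] (E : Set G)
  (hpow : ∀ x ∈ E, x ^ p = 1) (hne : ∀ x ∈ E, x ≠ 1)
  (hgen : ∀ x ∈ E, ∀ k : ℤ, x ^ k ≠ 1 → x ^ k ∈ E)
  (hconj : ∀ x ∈ E, ∀ g : G, g * x * g⁻¹ ∈ E)
  (hmul : ∀ x ∈ E, ∀ y ∈ E, Commute x y → x * y ≠ 1 → x * y ∈ E)
  (hline : ∀ x ∈ E, ∀ y ∈ E, Commute x y → y ∉ Subgroup.zpowers x → ∀ w ∈ E,
    Commute w x ∨ ∃ t : ℤ, Commute w (y * x ^ t))

include hpow hgen hmul in
theorem shift_mem {x y : G} (hx : x ∈ E) (hy : y ∈ E) (hxy : Commute x y)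
    (hxy' : y ∉ Subgroup.zpowers x) (t : ℤ) : y * x ^ t ∈ E := by
  by_cases h : x ^ t = 1
  · rwa [h, mul_one]
  · refine hmul y hy _ (hgen x hx t h) (hxy.symm.zpow_right t) fun h1 => hxy' ?_
    rw [mul_eq_one_iff_eq_inv.mp h1]
    exact inv_mem (Subgroup.zpow_mem_zpowers x t)

include hline in
/-- A commutator in `E` commuting with both of its entries is central in `E`. -/
theorem comm_central {x w e : G} (hx : x ∈ E) (hw : w ∈ E) (he : e ∈ E)
    (hwx : ¬ Commute w x) (hew : Commute e w) (hex : Commute e x) (hdef : x * w = e * (w * x))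
    (v : G) (hv : v ∈ E) : Commute v e := by
  have hn : ∀ a b : G, Commute e b → ¬ Commute a b → a ∉ Subgroup.zpowers e := by
    rintro a b hb hab ⟨k, rfl⟩
    exact hab (hb.zpow_left k)
  rcases hline e he w hw hew (hn w x hex hwx) v hv with h | ⟨s, hs⟩
  · exact h
  rcases hline e he x hx hex (hn x w hew (fun h => hwx h.symm)) v hv with h | ⟨t, ht⟩
  · exact h
  have h1 : (x * e ^ t) * (w * e ^ s) * ((w * e ^ s) * (x * e ^ t))⁻¹ = e := by
    have a1 : Commute (e ^ t) w := hew.zpow_left t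
    have a2 : Commute (e ^ s) x := hex.zpow_left s
    calc (x * e ^ t) * (w * e ^ s) * ((w * e ^ s) * (x * e ^ t))⁻¹
        = (x * (e ^ t * w) * e ^ s) * (w * (e ^ s * x) * e ^ t)⁻¹ := by group
      _ = (x * w) * (w * x)⁻¹ := by rw [a1.eq, a2.eq]; group
      _ = e := by rw [hdef, mul_inv_cancel_right]
  exact h1 ▸ ((ht.mul_right hs).mul_right ((hs.mul_right ht).inv_right))

include hpow hgen hmul hline in
/-- If `x` does not move `w` to a commuting conjugate, the neighbourhood of `x` is a clique. -/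
theorem clique_of_moved {x w : G} (hx : x ∈ E) (hw : w ∈ E) (hwx : ¬ Commute w x)
    (hmv : ¬ Commute w (x * w * x⁻¹)) {u z : G} (hu : u ∈ E) (hz : z ∈ E)
    (hxu : Commute x u) (hxz : Commute x z) : Commute u z := by
  have key : ∀ u ∈ E, ∀ z ∈ E, Commute x u → Commute x z → Commute w u → Commute w z → Commute u z := by
    intro u hu z hz hxu hxz hwu hwz
    have hy : x * z ∈ E := hmul x hx z hz hxz fun h => hwx (by
      rw [mul_eq_one_iff_eq_inv.mp h]; exact hwz.inv_right)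
    have hw' : w ∉ Subgroup.zpowers u := by
      rintro ⟨k, rfl⟩
      exact hwx (hxu.symm.zpow_left k)
    rcases hline u hu w hw hwu.symm hw' (x * z) hy with h | ⟨t, ht⟩
    · simpa using hxu.symm.inv_right.mul_right h.symm
    · exfalso
      have h1 : (x * z) * w * (x * z)⁻¹ = x * w * x⁻¹ := by
        rw [mul_inv_rev]
        calc x * z * w * (z⁻¹ * x⁻¹) = x * (z * w) * z⁻¹ * x⁻¹ := by group
          _ = x * w * x⁻¹ := by rw [← hwz.eq]; group
      have h2 : Commute (w * u ^ t) (x * w * x⁻¹) := by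
        rw [← h1]
        have h2' : Commute ((x * z) * (w * u ^ t) * (x * z)⁻¹) ((x * z) * w * (x * z)⁻¹) :=
          ((Commute.refl w).mul_left (hwu.symm.zpow_left t)).map (MulAut.conj (x * z))
        rwa [ht.eq, mul_inv_cancel_right] at h2'
      have h3 : Commute (u ^ t) (x * w * x⁻¹) :=
        ((hxu.symm.zpow_left t).mul_right (hwu.symm.zpow_left t)).mul_right (hxu.symm.zpow_left t).inv_right
      exact hmv (by simpa using h2.mul_left h3.inv_left)
  have hsplit : ∀ u ∈ E, Commute x u →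
      u ∈ Subgroup.zpowers x ∨ ∃ t : ℤ, u * x ^ t ∈ E ∧ Commute w (u * x ^ t) := by
    intro u hu hxu
    by_cases hux : u ∈ Subgroup.zpowers x
    · exact Or.inl hux
    · rcases hline x hx u hu hxu hux w hw with h | ⟨t, ht⟩
      · exact absurd h hwx
      · exact Or.inr ⟨t, shift_mem E hpow hgen hmul hx hu hxu hux t, ht⟩
  rcases hsplit u hu hxu with ⟨k, rfl⟩ | ⟨s, hs, hsw⟩
  · exact hxz.zpow_left k
  rcases hsplit z hz hxz with ⟨k, rfl⟩ | ⟨t, ht, htw⟩
  · exact hxu.symm.zpow_right k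
  have h := key _ hs _ ht (hxu.mul_right (Commute.self_zpow x s)) (hxz.mul_right (Commute.self_zpow x t)) hsw htw
  have h' : Commute u (z * x ^ t) := by
    simpa using h.mul_left (((hxz.mul_right (Commute.self_zpow x t)).zpow_left s).inv_left)
  simpa using h'.mul_right (hxu.symm.zpow_right t).inv_right

include hpow hgen hconj hmul hline in
/-- If all `x`-conjugates of `w` commute with `w`, some member of `E` is central in `E`. -/
theorem central_of_unmoved {x w : G} (hx : x ∈ E) (hw : w ∈ E) (hwx : ¬ Commute w x)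
    (hall : ∀ k : ℤ, Commute w (x ^ k * w * (x ^ k)⁻¹)) : ∃ e ∈ E, ∀ v ∈ E, Commute v e := by
  set S : Set G := Set.range (fun k : ℤ => x ^ k * w * (x ^ k)⁻¹) with hS
  set A := Subgroup.closure S with hA
  have hcomm : ∀ a ∈ A, ∀ b ∈ A, Commute a b := by
    have h0 : ∀ a ∈ S, ∀ b ∈ S, Commute a b := by
      rintro _ ⟨i, rfl⟩ _ ⟨j, rfl⟩
      have := (hall (j - i)).map (MulAut.conj (x ^ i))
      simp only [MulAut.conj_apply] at this
      show Commute (x ^ i * w * (x ^ i)⁻¹) (x ^ j * w * (x ^ j)⁻¹)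
      rwa [show x ^ i * (x ^ (j - i) * w * (x ^ (j - i))⁻¹) * (x ^ i)⁻¹
        = (x ^ i * x ^ (j - i)) * w * (x ^ i * x ^ (j - i))⁻¹ by group, ← zpow_add, add_sub_cancel] at this
    intro a ha b hb
    have h1 : A ≤ Subgroup.centralizer S := (Subgroup.closure_le _).mpr fun s hs =>
      Subgroup.mem_centralizer_iff.mpr fun t ht => (h0 t ht s hs).eq
    have h2 : A ≤ Subgroup.centralizer (A : Set G) := by
      refine (Subgroup.closure_le _).mpr fun s hs => Subgroup.mem_centralizer_iff.mpr fun t ht => ?_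
      exact (Subgroup.mem_centralizer_iff.mp (h1 ht) s hs).symm
    exact Subgroup.mem_centralizer_iff.mp (h2 hb) a ha
  have hAE : ∀ a ∈ A, a = 1 ∨ a ∈ E := by
    intro a ha
    induction ha using Subgroup.closure_induction with
    | mem s hs => obtain ⟨k, rfl⟩ := hs; exact Or.inr (hconj w hw _)
    | one => exact Or.inl rfl
    | mul a b ha hb iha ihb =>
      by_cases hab : a * b = 1
      · exact Or.inl hab
      rcases iha with rfl | iha
      · simpa using ihb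
      rcases ihb with rfl | ihb
      · simpa using Or.inr iha
      exact Or.inr (hmul a iha b ihb (hcomm a ha b hb) hab)
    | inv a ha iha =>
      rcases iha with rfl | iha
      · simp
      by_cases h1 : a⁻¹ = 1
      · exact Or.inl h1
      · exact Or.inr (by simpa using hgen a iha (-1) (by simpa using h1))
  have hxA : ∀ a ∈ A, ∀ k : ℤ, x ^ k * a * (x ^ k)⁻¹ ∈ A := by
    intro a ha k
    have h1 : A.map (MulAut.conj (x ^ k)).toMonoidHom ≤ A := by
      rw [hA, MonoidHom.map_closure]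
      refine Subgroup.closure_mono ?_
      rintro _ ⟨_, ⟨i, rfl⟩, rfl⟩
      refine ⟨k + i, ?_⟩
      show x ^ (k + i) * w * (x ^ (k + i))⁻¹ = MulAut.conj (x ^ k) (x ^ i * w * (x ^ i)⁻¹)
      rw [MulAut.conj_apply, zpow_add]; group
    exact h1 ⟨a, ha, rfl⟩
  let D : ↥A →* G :=
    { toFun := fun a => x * a * x⁻¹ * (a : G)⁻¹
      map_one' := by simp
      map_mul' := fun a b => by
        have hc : Commute ((a : G)⁻¹) (x * b * x⁻¹ * (b : G)⁻¹) :=
          hcomm _ (inv_mem a.2) _ (mul_mem (by simpa using hxA b b.2 1) (inv_mem b.2))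
        calc x * ((a * b : ↥A) : G) * x⁻¹ * ((a * b : ↥A) : G)⁻¹
            = x * a * x⁻¹ * ((x * b * x⁻¹ * (b : G)⁻¹) * (a : G)⁻¹) := by simp; group
          _ = x * a * x⁻¹ * ((a : G)⁻¹ * (x * b * x⁻¹ * (b : G)⁻¹)) := by rw [← hc.eq]
          _ = x * a * x⁻¹ * (a : G)⁻¹ * (x * b * x⁻¹ * (b : G)⁻¹) := by group }
  have hwA : w ∈ A := Subgroup.subset_closure ⟨0, by simp⟩
  have hRA : D.range ≤ A := by
    rintro _ ⟨a, rfl⟩
    exact mul_mem (by simpa using hxA a a.2 1) (inv_mem a.2)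
  have hRne : D.range ≠ ⊥ := fun h => hwx (by
    have h1 : D ⟨w, hwA⟩ = 1 := Subgroup.mem_bot.mp (h ▸ ⟨⟨w, hwA⟩, rfl⟩)
    exact (mul_inv_eq_iff_eq_mul.mp (mul_inv_eq_one.mp h1)).symm)
  have hnorm : Subgroup.zpowers x ≤ Subgroup.normalizer (D.range : Set G) := by
    refine Cfsg.Agent.H76.le_normalizer_of_conj_mem _ _ ?_
    rintro _ ⟨k, rfl⟩ _ ⟨a, rfl⟩
    refine ⟨⟨x ^ k * a * (x ^ k)⁻¹, hxA a a.2 k⟩, ?_⟩
    show x * (x ^ k * a * (x ^ k)⁻¹) * x⁻¹ * (x ^ k * a * (x ^ k)⁻¹)⁻¹ =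
      x ^ k * (x * a * x⁻¹ * (a : G)⁻¹) * (x ^ k)⁻¹
    group
  have hpA : ∀ a ∈ A, a ^ p = 1 := fun a ha => (hAE a ha).elim (fun h => by simp [h]) (hpow a)
  have hP : IsPGroup p ↥(Subgroup.zpowers x ⊔ D.range) := by
    refine IsPGroup.to_sup_of_normal_right' (fun g => ⟨1, ?_⟩) (fun g => ⟨1, ?_⟩) hnorm
    · obtain ⟨k, hk⟩ := g.2
      apply Subtype.ext
      simp only [pow_one, SubmonoidClass.coe_pow, ← hk, OneMemClass.coe_one]
      rw [← zpow_natCast, ← zpow_mul, mul_comm, zpow_mul, zpow_natCast, hpow x hx, one_zpow]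
    · apply Subtype.ext
      simpa using hpA g (hRA g.2)
  have hRn : ∀ g ∈ Subgroup.zpowers x ⊔ D.range, ∀ m ∈ D.range, g * m * g⁻¹ ∈ D.range := by
    intro g hg m hm
    exact (Subgroup.mem_normalizer_iff.mp ((sup_le hnorm Subgroup.le_normalizer) hg) m).mp hm
  obtain ⟨e, heR, he1, hec⟩ :=
    Cfsg.Agent.H76.exists_central_mem_of_normalized _ _ hP le_sup_right hRne hRn
  have hxe : Commute e x := (hec x (Subgroup.mem_sup_left (Subgroup.mem_zpowers x))).symm
  have heE := (hAE e (hRA heR)).resolve_left he1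
  obtain ⟨a, ha⟩ := heR
  have ha' : x * a * x⁻¹ * (a : G)⁻¹ = e := ha
  have hxa : ¬ Commute (a : G) x := fun h => he1 (by rw [← ha', ← h.eq]; group)
  refine ⟨e, heE, comm_central E hline hx ((hAE a a.2).resolve_left ?_) heE hxa
    (hcomm e (by rw [← ha']; exact mul_mem (by simpa using hxA a a.2 1) (inv_mem a.2)) a a.2) hxe ?_⟩
  · intro h; exact hxa (h ▸ Commute.one_left x)
  · rw [← ha']; group

include hpow hne hgen hconj hmul hline in
theorem exists_central {x y : G} (hx : x ∈ E) (hy : y ∈ E) (hxy : Commute x y)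
    (hxy' : y ∉ Subgroup.zpowers x) : ∃ e ∈ E, ∀ v ∈ E, Commute v e := by
  by_contra hno
  push Not at hno
  have hcl : ∀ x ∈ E, ∀ u ∈ E, ∀ z ∈ E, Commute x u → Commute x z → Commute u z := by
    intro x hx u hu z hz hxu hxz
    obtain ⟨w, hw, hwx⟩ := hno x hx
    by_cases hall : ∀ k : ℤ, Commute w (x ^ k * w * (x ^ k)⁻¹)
    · obtain ⟨e, he, hec⟩ := central_of_unmoved E hpow hgen hconj hmul hline hx hw hwx hall
      obtain ⟨v, hv, hvc⟩ := hno e he
      exact absurd (hec v hv) hvc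
    · push Not at hall
      obtain ⟨k, hk⟩ := hall
      have hk1 : x ^ k ≠ 1 := fun h => hk (by simp [h])
      refine clique_of_moved E hpow hgen hmul hline (hgen x hx k hk1) hw ?_ hk hu hz
        (hxu.zpow_left k) (hxz.zpow_left k)
      intro h
      rw [h.eq.symm, mul_inv_cancel_right] at hk
      exact hk (Commute.refl w)
  obtain ⟨w, hw, hwx⟩ := hno x hx
  rcases hline x hx y hy hxy hxy' w hw with h | ⟨t, ht⟩
  · exact hwx h
  · exact hwx (hcl _ (shift_mem E hpow hgen hmul hx hy hxy hxy' t) w hw x hx ht.symm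
      ((hxy.symm.mul_left ((Commute.refl x).zpow_left t))))

end

/-- Let p be a prime and K a set of subgroups of order p of a finite group G, closed under conjugation, such that at least two distinct members of K commute elementwise, and whenever two distinct members X, Y of K commute: every subgroup of order p of the group XY they generate belongs to K, and every member W of K has centralizer meeting XY nontrivially. Then some member V of K commutes elementwise with every member of K and lies in O_p(G); in particular G is not simple. -/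
theorem result {G : Type*} [Group G] [Finite G]
    {p : ℕ} (hp : p.Prime) (K : Set (Subgroup G)) (hK : ∀ X ∈ K, Nat.card ↥X = p)
    (hKc : ∀ X ∈ K, ∀ g : G, X.map (MulAut.conj g).toMonoidHom ∈ K)
    (hex : ∃ X ∈ K, ∃ Y ∈ K, X ≠ Y ∧ ∀ x ∈ X, ∀ y ∈ Y, x * y = y * x)
    (ha : ∀ X ∈ K, ∀ Y ∈ K, X ≠ Y → (∀ x ∈ X, ∀ y ∈ Y, x * y = y * x) →
      ∀ Z : Subgroup G, Z ≤ X ⊔ Y → Nat.card ↥Z = p → Z ∈ K)
    (hb : ∀ X ∈ K, ∀ Y ∈ K, X ≠ Y → (∀ x ∈ X, ∀ y ∈ Y, x * y = y * x) →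
      ∀ W ∈ K, (X ⊔ Y) ⊓ Subgroup.centralizer (W : Set G) ≠ ⊥) :
    (∃ V ∈ K, (∀ W ∈ K, ∀ v ∈ V, ∀ w ∈ W, v * w = w * v) ∧ V ≤ Cfsg.pCore p G) ∧ ¬ IsSimpleGroup G := by
  have : Fact p.Prime := ⟨hp⟩
  set E : Set G := {x | x ≠ 1 ∧ Subgroup.zpowers x ∈ K} with hE
  have hcard : ∀ X ∈ K, ∀ x ∈ X, x ≠ 1 → Subgroup.zpowers x = X := by
    intro X hX x hx hx1
    have : Fact (Nat.card ↥X).Prime := ⟨by rw [hK X hX]; exact hp⟩
    refine le_antisymm (Subgroup.zpowers_le.mpr hx) fun z hz => ?_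
    obtain ⟨k, hk⟩ := mem_zpowers_of_prime_card rfl
      (show (⟨x, hx⟩ : ↥X) ≠ 1 from fun h => hx1 (congrArg Subtype.val h)) (g' := ⟨z, hz⟩)
    exact ⟨k, congrArg Subtype.val hk⟩
  have hEmem : ∀ X ∈ K, ∀ x ∈ X, x ≠ 1 → x ∈ E := fun X hX x hx h1 => ⟨h1, by rw [hcard X hX x hx h1]; exact hX⟩
  have hord : ∀ x ∈ E, orderOf x = p := fun x hx => by rw [← Nat.card_zpowers]; exact hK _ hx.2
  have hpow : ∀ x ∈ E, x ^ p = 1 := fun x hx => by rw [← hord x hx, pow_orderOf_eq_one]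
  have hgen : ∀ x ∈ E, ∀ k : ℤ, x ^ k ≠ 1 → x ^ k ∈ E := fun x hx k hk =>
    hEmem _ hx.2 _ (Subgroup.zpow_mem_zpowers x k) hk
  have hconj : ∀ x ∈ E, ∀ g : G, g * x * g⁻¹ ∈ E := fun x hx g =>
    hEmem _ (hKc _ hx.2 g) _ ⟨x, Subgroup.mem_zpowers x, rfl⟩ (fun h => hx.1 (conj_eq_one_iff.mp h))
  have hzc : ∀ x y : G, Commute x y → ∀ a ∈ Subgroup.zpowers x, ∀ b ∈ Subgroup.zpowers y, a * b = b * a := by
    rintro x y h _ ⟨i, rfl⟩ _ ⟨j, rfl⟩
    exact (h.zpow_zpow i j).eq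
  have hmul : ∀ x ∈ E, ∀ y ∈ E, Commute x y → x * y ≠ 1 → x * y ∈ E := by
    intro x hx y hy hxy h1
    by_cases he : Subgroup.zpowers x = Subgroup.zpowers y
    · exact hEmem _ hx.2 _ (mul_mem (Subgroup.mem_zpowers x) (he ▸ Subgroup.mem_zpowers y)) h1
    · refine ⟨h1, ha _ hx.2 _ hy.2 he (hzc x y hxy) _ (Subgroup.zpowers_le.mpr
        (Subgroup.mul_mem_sup (Subgroup.mem_zpowers x) (Subgroup.mem_zpowers y))) ?_⟩
      rw [Nat.card_zpowers]
      exact orderOf_eq_prime (by rw [hxy.mul_pow, hpow x hx, hpow y hy, one_mul]) h1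
  have hline : ∀ x ∈ E, ∀ y ∈ E, Commute x y → y ∉ Subgroup.zpowers x → ∀ w ∈ E,
      Commute w x ∨ ∃ t : ℤ, Commute w (y * x ^ t) := by
    intro x hx y hy hxy hne w hw
    refine commute_or_shift hp x y w (hpow x hx) (hpow y hy) hxy ?_
    obtain ⟨z, hz⟩ := (Subgroup.ne_bot_iff_exists_ne_one).mp
      (hb _ hx.2 _ hy.2 (fun h => hne (h ▸ Subgroup.mem_zpowers y)) (hzc x y hxy) _ hw.2)
    obtain ⟨i, j, hij⟩ := mem_sup_zpowers x y hxy z.2.1
    refine ⟨i, j, hij ▸ fun h => hz (Subtype.ext h), hij ▸ ?_⟩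
    exact Subgroup.mem_centralizer_iff.mp z.2.2 w (Subgroup.mem_zpowers w)
  obtain ⟨X, hX, Y, hY, hXY, hc⟩ := hex
  have hnt : ∀ X ∈ K, ∃ x ∈ X, x ≠ 1 := by
    intro X hX
    have : Nontrivial ↥X := by rw [← Finite.one_lt_card_iff_nontrivial, hK X hX]; exact hp.one_lt
    obtain ⟨x, hx⟩ := exists_ne (1 : ↥X)
    exact ⟨x, x.2, fun h => hx (Subtype.ext h)⟩
  obtain ⟨x, hx, hx1⟩ := hnt X hX
  obtain ⟨y, hy, hy1⟩ := hnt Y hY
  have hyx : y ∉ Subgroup.zpowers x := by
    rw [hcard X hX x hx hx1]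
    exact fun h => hXY (by rw [← hcard X hX y h hy1, hcard Y hY y hy hy1])
  obtain ⟨e, he, hec⟩ := exists_central E hpow (fun x hx => hx.1) hgen hconj hmul hline
    (hEmem X hX x hx hx1) (hEmem Y hY y hy hy1) (hc x hx y hy) hyx
  have hV : ∀ W ∈ K, ∀ v ∈ Subgroup.zpowers e, ∀ w ∈ W, v * w = w * v := by
    rintro W hW _ ⟨k, rfl⟩ w hw
    rcases eq_or_ne w 1 with rfl | hw1
    · simp
    · exact ((hec w (hEmem W hW w hw hw1)).symm.zpow_left k).eq
  set N := Subgroup.closure {y : G | ∃ g : G, y = g * e * g⁻¹} with hN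
  have hNn : N.Normal := ⟨fun n hn g => by
    have h1 : N.map (MulAut.conj g).toMonoidHom ≤ N := by
      rw [hN, MonoidHom.map_closure]
      refine Subgroup.closure_mono ?_
      rintro _ ⟨_, ⟨h, rfl⟩, rfl⟩
      exact ⟨g * h, by simp [mul_assoc]⟩
    exact h1 ⟨n, hn, rfl⟩⟩
  have hpair : ∀ g h : G, Commute (g * e * g⁻¹) (h * e * h⁻¹) := by
    intro g h
    have h1 := (hec _ (hconj e he (g⁻¹ * h))).symm.map (MulAut.conj g)
    simp only [MulAut.conj_apply] at h1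
    rwa [show g * ((g⁻¹ * h) * e * (g⁻¹ * h)⁻¹) * g⁻¹ = h * e * h⁻¹ by group] at h1
  have hNp : IsPGroup p ↥N := by
    have hc' : ∀ a ∈ N, ∀ b ∈ N, Commute a b := by
      intro a ha' b hb'
      have h1 : N ≤ Subgroup.centralizer {y : G | ∃ g : G, y = g * e * g⁻¹} := by
        refine (Subgroup.closure_le _).mpr ?_
        rintro _ ⟨g, rfl⟩
        refine Subgroup.mem_centralizer_iff.mpr ?_
        rintro _ ⟨h, rfl⟩
        exact hpair h g
      induction hb' using Subgroup.closure_induction with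
      | mem s hs => exact (Subgroup.mem_centralizer_iff.mp (h1 ha') s hs).symm
      | one => exact Commute.one_right a
      | mul _ _ _ _ i1 i2 => exact i1.mul_right i2
      | inv _ _ i1 => exact i1.inv_right
    have hall : ∀ a ∈ N, a ^ p = 1 := by
      intro a ha'
      induction ha' using Subgroup.closure_induction with
      | mem s hs => obtain ⟨g, rfl⟩ := hs; rw [conj_pow, hpow e he]; group
      | one => simp
      | mul a b ha' hb' i1 i2 => rw [(hc' a ha' b hb').mul_pow, i1, i2, one_mul]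
      | inv a _ i1 => rw [inv_pow, i1, inv_one]
    exact fun a => ⟨1, Subtype.ext (by simpa using hall a a.2)⟩
  have heN : e ∈ N := Subgroup.subset_closure ⟨1, by simp⟩
  refine ⟨⟨_, he.2, fun W hW v hv w hw => hV W hW v hv w hw,
    Subgroup.zpowers_le.mpr ((le_sSup ⟨hNn, hNp⟩ : N ≤ Cfsg.pCore p G) heN)⟩, fun hs => ?_⟩
  have hNtop : N = ⊤ := (hs.eq_bot_or_eq_top_of_normal N hNn).resolve_left
    fun h => he.1 (Subgroup.mem_bot.mp (h ▸ heN))
  have hcomm : ∀ a b : G, a * b = b * a := fun a b => by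
    have hpg : IsPGroup p G := fun g => by
      obtain ⟨k, hk⟩ := hNp ⟨g, hNtop ▸ Subgroup.mem_top g⟩
      exact ⟨k, congrArg Subtype.val hk⟩
    have : Nontrivial G := ⟨⟨e, 1, he.1⟩⟩
    have hz := (hs.eq_bot_or_eq_top_of_normal (Subgroup.center G) inferInstance).resolve_left hpg.bot_lt_center.ne'
    exact (Subgroup.mem_center_iff.mp (hz ▸ Subgroup.mem_top b : b ∈ Subgroup.center G) a)
  have htop : ∀ Z ∈ K, Z = ⊤ := by
    intro Z hZ
    refine (hs.eq_bot_or_eq_top_of_normal Z ⟨fun n hn g => by rwa [hcomm g n, mul_inv_cancel_right]⟩).resolve_left ?_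
    intro h
    have := hK Z hZ
    rw [h, Subgroup.card_bot] at this
    exact hp.one_lt.ne this
  exact hXY ((htop X hX).trans (htop Y hY).symm)

end Cfsg.Agent.S3196
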