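import Cfsg.Statements.S3200
import Mathlib
import Cfsg.Agent.H25.Burnside
import Cfsg.Agent.H19.Hall

set_option autoImplicit false
open Cfsg

namespace Cfsg.Agent.S3200

open scoped Pointwise

/-- A finite group with an abelian subgroup of odd order and 2-power index is solvable. -/
theorem solvable_of_abelian_odd_two_power_index.{v} : ∀ (n : ℕ) (H : Type v) [Group H] [Finite H],
    Nat.card H = n → ∀ C : Subgroup H, IsMulCommutative ↥C → Odd (Nat.card ↥C) →
      (∃ a, C.index = 2 ^ a) → Group.IsSolvable H := by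
  intro n
  induction n using Nat.strong_induction_on with
  | _ n ih =>
    intro H _ _ hn C hC hCo ⟨a, ha⟩
    by_cases hC1 : C = ⊥
    · rw [hC1, Subgroup.index_bot] at ha
      have : Fact (Nat.Prime 2) := ⟨Nat.prime_two⟩
      have : Group.IsNilpotent H := (IsPGroup.of_card ha).isNilpotent
      infer_instance
    obtain ⟨c, hc, hc1⟩ : ∃ c ∈ C, c ≠ 1 := by
      obtain ⟨c, hc⟩ := (Subgroup.ne_bot_iff_exists_ne_one).mp hC1
      exact ⟨c, c.2, fun h => hc (Subtype.ext h)⟩
    by_cases hs : IsSimpleGroup H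
    · have hle : C ≤ Subgroup.centralizer ({c} : Set H) := fun x hx =>
        Subgroup.mem_centralizer_singleton_iff.mpr
          (congrArg Subtype.val (hC.is_comm.comm (⟨x, hx⟩ : ↥C) ⟨c, hc⟩))
      obtain ⟨k, -, hk⟩ := (Nat.dvd_prime_pow Nat.prime_two).mp (ha ▸ Subgroup.index_dvd_of_le hle)
      have hp := Cfsg.Agent.H25.prime_card_of_simple_of_primePow_class Nat.prime_two hc1 hk
      have : Fact (Nat.card H).Prime := ⟨hp⟩
      have : IsCyclic H := isCyclic_of_prime_card rfl
      letI : CommGroup H := IsCyclic.commGroup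
      infer_instance
    · have : Nontrivial H := ⟨⟨c, 1, hc1⟩⟩
      obtain ⟨N, hN, hN0, hN1⟩ : ∃ N : Subgroup H, N.Normal ∧ N ≠ ⊥ ∧ N ≠ ⊤ := by
        by_contra hno
        push Not at hno
        exact hs ⟨fun N hN => (em (N = ⊥)).imp_right (hno N hN)⟩
      have h1 : Nat.card ↥(C.subgroupOf N) ∣ Nat.card ↥C := by
        rw [← Subgroup.inf_subgroupOf_right, Nat.card_congr (Subgroup.subgroupOfEquivOfLe inf_le_right).toEquiv]
        exact Subgroup.card_dvd_of_le inf_le_left
      have hNs : Group.IsSolvable ↥N := by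
        refine ih _ ?_ _ rfl (C.subgroupOf N) ?_ (hCo.of_dvd_nat h1) ?_
        · rw [← hn, ← N.card_mul_index]
          exact lt_mul_of_one_lt_right Nat.card_pos
            (Subgroup.one_lt_index_of_ne_top hN1)
        · have hcc : ∀ u ∈ C, ∀ v ∈ C, u * v = v * u := fun u hu v hv =>
            congrArg Subtype.val (hC.is_comm.comm (⟨u, hu⟩ : ↥C) ⟨v, hv⟩)
          refine ⟨⟨fun x y => Subtype.ext (Subtype.ext ?_)⟩⟩
          show ((x : ↥N) : H) * ((y : ↥N) : H) = ((y : ↥N) : H) * ((x : ↥N) : H)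
          exact hcc _ x.2 _ y.2
        · have hd : C.relIndex N ∣ C.index := by
            have e1 := Subgroup.relIndex_mul_relIndex (C ⊓ N) C (C ⊔ N) inf_le_left le_sup_left
            have e2 := Subgroup.relIndex_mul_relIndex (C ⊓ N) N (C ⊔ N) inf_le_right le_sup_right
            rw [Subgroup.inf_relIndex_left] at e1
            rw [Subgroup.inf_relIndex_right, Subgroup.relIndex_sup_right, ← e1, mul_comm] at e2
            have h0 : N.relIndex C ≠ 0 := (Subgroup.index_ne_zero_of_finite (H := N.subgroupOf C))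
            rw [mul_left_cancel₀ h0 e2, ← Subgroup.relIndex_mul_index (le_sup_left : C ≤ C ⊔ N)]
            exact Dvd.intro _ rfl
          obtain ⟨k, -, hk⟩ := (Nat.dvd_prime_pow Nat.prime_two).mp (ha ▸ hd)
          exact ⟨k, hk⟩
      have hQs : Group.IsSolvable (H ⧸ N) := by
        refine ih _ ?_ _ rfl (C.map (QuotientGroup.mk' N)) ?_ (hCo.of_dvd_nat (Subgroup.card_map_dvd C _)) ?_
        · rw [← hn, Subgroup.card_eq_card_quotient_mul_card_subgroup N]
          exact lt_mul_of_one_lt_right Nat.card_pos ((Subgroup.one_lt_card_iff_ne_bot N).mpr hN0)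
        · exact ⟨⟨fun x y => by
            obtain ⟨_, a, ha, rfl⟩ := x
            obtain ⟨_, b, hb, rfl⟩ := y
            refine Subtype.ext ?_
            show QuotientGroup.mk' N a * QuotientGroup.mk' N b = QuotientGroup.mk' N b * QuotientGroup.mk' N a
            rw [← map_mul, ← map_mul, show a * b = b * a from
              congrArg Subtype.val (hC.is_comm.comm (⟨a, ha⟩ : ↥C) ⟨b, hb⟩)]⟩⟩
        · obtain ⟨k, -, hk⟩ := (Nat.dvd_prime_pow Nat.prime_two).mp
            (ha ▸ C.index_map_dvd (QuotientGroup.mk'_surjective N))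
          exact ⟨k, hk⟩
      exact Group.isSolvable_of_ker_le_range N.subtype (QuotientGroup.mk' N) (by simp)

/-- Let H be a finite group in which a Sylow 2-subgroup has an abelian complement (an abelian subgroup meeting it trivially whose product with it is all of H). Then H is solvable, and every subgroup and every quotient group of H again has a Sylow 2-subgroup with an abelian complement. -/
theorem result {H : Type*} [Group H] [Finite H]
    (S : Sylow 2 H) (C : Subgroup H) (hC : IsMulCommutative ↥C) (hSC : Subgroup.IsComplement' (S : Subgroup H) C) :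
    Group.IsSolvable H ∧
    (∀ L : Subgroup H, ∃ (P : Sylow 2 ↥L) (D : Subgroup ↥L), IsMulCommutative ↥D ∧ Subgroup.IsComplement' (P : Subgroup ↥L) D) ∧
    (∀ (N : Subgroup H) [N.Normal], ∃ (P : Sylow 2 (H ⧸ N)) (D : Subgroup (H ⧸ N)),
      IsMulCommutative ↥D ∧ Subgroup.IsComplement' (P : Subgroup (H ⧸ N)) D) := by
  have hcard : Nat.card ↥(S : Subgroup H) * Nat.card ↥C = Nat.card H := hSC.card_mul
  obtain ⟨a, ha⟩ : ∃ a, Nat.card ↥(S : Subgroup H) = 2 ^ a := IsPGroup.iff_card.mp S.2
  have hCi : C.index = 2 ^ a := by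
    rw [← ha]; exact hSC.index_eq_card
  have hCo : Odd (Nat.card ↥C) := by
    rw [← hSC.symm.index_eq_card]
    exact Nat.odd_iff.mpr (Nat.two_dvd_ne_zero.mp S.not_dvd_index)
  -- a 2-complement of a group that embeds into `C` up to conjugacy
  have mk : ∀ (K : Type _) [Group K] [Finite K] (D : Subgroup K), IsMulCommutative ↥D → Odd (Nat.card ↥D) →
      (∃ k, D.index = 2 ^ k) → ∃ (P : Sylow 2 K) (D' : Subgroup K),
        IsMulCommutative ↥D' ∧ Subgroup.IsComplement' (P : Subgroup K) D' := by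
    intro K _ _ D hD hDo ⟨k, hk⟩
    obtain ⟨P⟩ : Nonempty (Sylow 2 K) := inferInstance
    refine ⟨P, D, hD, ?_⟩
    obtain ⟨b, hb⟩ : ∃ b, Nat.card ↥(P : Subgroup K) = 2 ^ b := IsPGroup.iff_card.mp P.2
    have hco : (Nat.card ↥(P : Subgroup K)).Coprime (Nat.card ↥D) := by
      rw [hb]; exact (Nat.coprime_two_left.mpr hDo).pow_left b
    refine Subgroup.isComplement'_of_coprime ?_ hco
    have h1 : 2 ^ k ∣ 2 ^ b := by
      have hd : 2 ^ k ∣ Nat.card ↥(P : Subgroup K) * (P : Subgroup K).index := by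
        rw [Subgroup.card_mul_index, ← D.card_mul_index, hk]; exact Dvd.intro_left _ rfl
      rw [← hb]
      refine (Nat.Coprime.pow_left k ?_).dvd_of_dvd_mul_right hd
      exact Nat.coprime_two_left.mpr (Nat.odd_iff.mpr (Nat.two_dvd_ne_zero.mp P.not_dvd_index))
    have h2 : 2 ^ b ∣ 2 ^ k := by
      have hd : Nat.card ↥(P : Subgroup K) ∣ Nat.card ↥D * D.index := by
        rw [Subgroup.card_mul_index]; exact Subgroup.card_subgroup_dvd_card _
      rw [← hb, ← hk]
      exact hco.dvd_of_dvd_mul_left hd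
    rw [hb, Nat.dvd_antisymm h2 h1, ← hk, mul_comm, D.card_mul_index]
  have hsolv : Group.IsSolvable H := solvable_of_abelian_odd_two_power_index _ H rfl C hC hCo ⟨a, hCi⟩
  refine ⟨hsolv, fun L => ?_, fun N _ => ?_⟩
  · have : Group.IsSolvable H := hsolv
    have : Group.IsSolvable ↥L := inferInstance
    obtain ⟨D, hD⟩ := Cfsg.Agent.H19.exists_pComplement (G := ↥L) Nat.prime_two
    have hDo : Odd (Nat.card ↥D) := by
      rcases Nat.even_or_odd (Nat.card ↥D) with he | ho
      · exfalso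
        have hm := D.card_mul_index
        rw [hD] at hm
        obtain ⟨r, hr⟩ := he
        refine Nat.not_dvd_ordCompl Nat.prime_two (Nat.card_pos (α := ↥L)).ne' ?_
        have : Nat.card ↥D = Nat.card ↥L / 2 ^ (Nat.card ↥L).factorization 2 :=
          (Nat.div_eq_of_eq_mul_left (by positivity) hm.symm).symm
        rw [← this, hr]; exact ⟨r, by ring⟩
      · exact ho
    refine mk ↥L D ?_ hDo ⟨_, hD⟩
    -- conjugate `D` into `C`
    obtain ⟨M, hM, hdom⟩ := Cfsg.Agent.H19.hall_exists_dominant (G := H) (Nat.card ↥C) (2 ^ a)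
      (by rw [← hcard, ha, mul_comm]) ((Nat.coprime_two_left.mpr hCo).pow_left a).symm
    obtain ⟨g, hg⟩ := hdom (D.map L.subtype) (by
      rw [Subgroup.card_map_of_injective L.subtype_injective]
      exact ((Nat.coprime_two_left.mpr hDo).pow_left a).symm)
    obtain ⟨x, hx⟩ := hdom C ((Nat.coprime_two_left.mpr hCo).pow_left a).symm
    have hxM : MulAut.conj x • C = M := Subgroup.eq_of_le_of_card_ge hx (by
      rw [hM, Nat.card_congr (Subgroup.equivSMul (MulAut.conj x) C).toEquiv])
    have hinC : ∀ d : ↥D, x⁻¹ * (g * ((d : ↥L) : H) * g⁻¹) * x ∈ C := by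
      intro d
      have h1 : g * ((d : ↥L) : H) * g⁻¹ ∈ M :=
        hg (Subgroup.smul_mem_pointwise_smul _ (MulAut.conj g) _ (Subgroup.mem_map_of_mem L.subtype d.2))
      rw [← hxM, Subgroup.mem_pointwise_smul_iff_inv_smul_mem] at h1
      simpa [MulAut.smul_def, mul_assoc] using h1
    refine ⟨⟨fun d e => Subtype.ext (Subtype.ext ?_)⟩⟩
    have h3 : x⁻¹ * (g * ((d : ↥L) : H) * g⁻¹) * x * (x⁻¹ * (g * ((e : ↥L) : H) * g⁻¹) * x) =
        x⁻¹ * (g * ((e : ↥L) : H) * g⁻¹) * x * (x⁻¹ * (g * ((d : ↥L) : H) * g⁻¹) * x) :=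
      congrArg Subtype.val (hC.is_comm.comm (⟨_, hinC d⟩ : ↥C) ⟨_, hinC e⟩)
    show ((d : ↥L) : H) * ((e : ↥L) : H) = ((e : ↥L) : H) * ((d : ↥L) : H)
    have := congrArg (fun z => g⁻¹ * (x * z * x⁻¹) * g) h3
    simpa [mul_assoc] using this
  · refine mk (H ⧸ N) (C.map (QuotientGroup.mk' N)) ?_ (hCo.of_dvd_nat (Subgroup.card_map_dvd C _)) ?_
    · exact ⟨⟨fun x y => by
        obtain ⟨_, a, ha, rfl⟩ := x
        obtain ⟨_, b, hb, rfl⟩ := y
        refine Subtype.ext ?_
        show QuotientGroup.mk' N a * QuotientGroup.mk' N b = QuotientGroup.mk' N b * QuotientGroup.mk' N a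
        rw [← map_mul, ← map_mul, show a * b = b * a from
          congrArg Subtype.val (hC.is_comm.comm (⟨a, ha⟩ : ↥C) ⟨b, hb⟩)]⟩⟩
    · obtain ⟨k, -, hk⟩ := (Nat.dvd_prime_pow Nat.prime_two).mp
        (hCi ▸ C.index_map_dvd (QuotientGroup.mk'_surjective N))
      exact ⟨k, hk⟩

end Cfsg.Agent.S3200
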