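import Cfsg.Statements.S3201
import Mathlib
import Cfsg.Agent.H76.UniqueInvolution

set_option autoImplicit false
open Cfsg

namespace Cfsg.Agent.S3201

/-- A cyclic group has at most one element of order two. -/
theorem eq_of_sq_one_zpowers {G : Type*} [Group G] (x a b : G) (ha : a ∈ Subgroup.zpowers x)
    (hb : b ∈ Subgroup.zpowers x) (ha2 : a * a = 1) (hb2 : b * b = 1) (ha1 : a ≠ 1) (hb1 : b ≠ 1) : a = b := by
  obtain ⟨i, rfl⟩ := ha
  obtain ⟨k, rfl⟩ := hb
  have h1 : ∀ j : ℤ, x ^ j * x ^ j = 1 → x ^ j ≠ 1 → ∃ c : ℤ, 2 * j = (orderOf x : ℤ) * (2 * c + 1) := by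
    intro j hj hj1
    obtain ⟨c, hc⟩ := orderOf_dvd_iff_zpow_eq_one.mpr (show x ^ (2 * j) = 1 by rw [two_mul, zpow_add, hj])
    rcases Int.even_or_odd c with ⟨d, rfl⟩ | ⟨d, rfl⟩
    · exact absurd (orderOf_dvd_iff_zpow_eq_one.mp ⟨d, by linarith⟩) hj1
    · exact ⟨d, hc⟩
  obtain ⟨c, hc⟩ := h1 i ha2 ha1
  obtain ⟨d, hd⟩ := h1 k hb2 hb1
  show x ^ i = x ^ k
  rw [show i = (i - k) + k by ring, zpow_add,
    orderOf_dvd_iff_zpow_eq_one.mp (show (orderOf x : ℤ) ∣ i - k from ⟨c - d, by linarith⟩), one_mul]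

/-- Let S be a finite 2-group whose centre Z(S) has n ≥ 2 distinct maximal subgroups C₁, …, Cₙ with trivial intersection such that each quotient S/Cᵢ is a non-abelian group with exactly one involution (a generalized quaternion group). Then S is the internal direct product of an elementary abelian subgroup and a non-abelian subgroup with exactly one involution. -/
theorem result {S : Type*} [Group S] [Finite S]
    (hS : IsPGroup 2 S) (n : ℕ) (hn : 2 ≤ n) (C : Fin n → Subgroup ↥(Subgroup.center S))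
    (hCmax : ∀ i, IsCoatom (C i)) (hCinj : Function.Injective C) (hCint : ⨅ i, C i = ⊥)
    (hCq : ∀ i, ∃ (_ : ((C i).map (Subgroup.center S).subtype).Normal),
      ¬ IsMulCommutative (S ⧸ (C i).map (Subgroup.center S).subtype) ∧
      ∃! x : S ⧸ (C i).map (Subgroup.center S).subtype, orderOf x = 2) :
    ∃ E Q : Subgroup S, Cfsg.IsInternalDirectProduct E Q ⊤ ∧ Cfsg.IsElementaryAbelian 2 E ∧
      ¬ IsMulCommutative ↥Q ∧ ∃! x : ↥Q, orderOf x = 2 := by
  have hZp : IsPGroup 2 ↥(Subgroup.center S) := hS.to_subgroup (Subgroup.center S)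
  have hidx : ∀ i, (C i).index = 2 := fun i => (Cfsg.Agent.H24.coatom_spec hZp (hCmax i)).2.1
  have hCn : ∀ i, (C i).Normal := fun i => (Cfsg.Agent.H24.coatom_spec hZp (hCmax i)).1
  -- elements of the centre in every coatom are trivial
  have hall : ∀ z : ↥(Subgroup.center S), (∀ i, z ∈ C i) → z = 1 := fun z h => by
    rw [← Subgroup.mem_bot, ← hCint, Subgroup.mem_iInf]; exact h
  have hZ2 : ∀ z : ↥(Subgroup.center S), z * z = 1 := fun z => hall _ fun i => Subgroup.mul_self_mem_of_index_two (hidx i) z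
  obtain ⟨i0⟩ : Nonempty (Fin n) := ⟨⟨0, by omega⟩⟩
  -- an element outside the centre with central square squares outside every coatom
  have hout : ∀ i, ∀ s : S, s ∉ (Subgroup.center S) → ∀ h : s ^ 2 ∈ (Subgroup.center S), (⟨s ^ 2, h⟩ : ↥(Subgroup.center S)) ∉ C i := by
    intro i s hs h hmem
    set N := (C i).map (Subgroup.center S).subtype
    obtain ⟨hn', -, ⟨w, hw, hwu⟩⟩ := hCq i
    obtain ⟨z0, hz0⟩ : ∃ z0 : ↥(Subgroup.center S), z0 ∉ C i := by
      by_contra hc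
      push Not at hc
      exact (hCmax i).1 (eq_top_iff.mpr fun z _ => hc z)
    have hmk : ∀ t : S, t ^ 2 ∈ N → t ∉ N → (t : S ⧸ N) = w := fun t h2 h1 =>
      hwu _ (orderOf_eq_prime (by rw [← QuotientGroup.mk_pow, QuotientGroup.eq_one_iff]; exact h2)
        (fun h' => h1 ((QuotientGroup.eq_one_iff t).mp h')))
    have hsN : s ∉ N := fun h' => hs (Subgroup.map_subtype_le _ h')
    have hz0N : (z0 : S) ∉ N := fun ⟨z, hz, hz'⟩ => hz0 (Subtype.ext hz' ▸ hz)
    have h1 := hmk s ⟨_, hmem, rfl⟩ hsN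
    have h2 := hmk z0 ⟨z0 * z0, Subgroup.mul_self_mem_of_index_two (hidx i) z0, by simp [sq]⟩ hz0N
    have h3 : s⁻¹ * (z0 : S) ∈ N := QuotientGroup.eq.mp (h1.trans h2.symm)
    refine hs ?_
    have := mul_mem z0.2 (inv_mem (Subgroup.map_subtype_le _ h3))
    simpa [mul_assoc] using this
  have hν : ∀ s t : S, s ∉ (Subgroup.center S) → t ∉ (Subgroup.center S) → s ^ 2 ∈ (Subgroup.center S) → t ^ 2 ∈ (Subgroup.center S) → s ^ 2 = t ^ 2 := by
    intro s t hs ht hs2 ht2
    have h := hall ((⟨s ^ 2, hs2⟩ : ↥(Subgroup.center S)) * ⟨t ^ 2, ht2⟩⁻¹) fun i => by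
      rw [Subgroup.mul_mem_iff_of_index_two (hidx i)]
      simp only [inv_mem_iff]
      exact iff_of_false (hout i s hs hs2) (hout i t ht ht2)
    exact congrArg Subtype.val (mul_inv_eq_one.mp h)
  obtain ⟨hn', hna, huniq⟩ := hCq i0
  set N := (C i0).map (Subgroup.center S).subtype with hN
  have hNZ : N ≤ (Subgroup.center S) := Subgroup.map_subtype_le _
  have hcz : ∀ z ∈ (Subgroup.center S), ∀ g : S, g * z = z * g := fun z hz g => Subgroup.mem_center_iff.mp hz g
  obtain ⟨xb, hx2, hxinv⟩ :=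
    Cfsg.Agent.H76.exists_cyclic_index_two_of_unique_involution (hS.to_quotient N) hna huniq
  obtain ⟨yb, hyb⟩ : ∃ yb : S ⧸ N, yb ∉ Subgroup.zpowers xb := by
    by_contra hc
    push Not at hc
    refine hna ⟨⟨fun a b => ?_⟩⟩
    obtain ⟨i, rfl⟩ := hc a
    obtain ⟨j, rfl⟩ := hc b
    exact (Commute.zpow_zpow_self xb i j).eq
  obtain ⟨x, rfl⟩ := QuotientGroup.mk_surjective xb
  obtain ⟨y, rfl⟩ := QuotientGroup.mk_surjective yb
  -- the involution of the quotient is a power of the image of `x`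
  have hxb : ∀ g : S, (g : S ⧸ N) ∉ Subgroup.zpowers (x : S ⧸ N) → g ∉ (Subgroup.center S) ∧ g ^ 2 ∈ (Subgroup.center S) := by
    intro g hg
    obtain ⟨hginv, hgsq⟩ := hxinv _ hg
    obtain ⟨z0, hz0⟩ : ∃ z0 : ↥(Subgroup.center S), z0 ∉ C i0 := by
      by_contra hc
      push Not at hc
      exact (hCmax i0).1 (eq_top_iff.mpr fun z _ => hc z)
    have hz0o : orderOf ((z0 : S) : S ⧸ N) = 2 := by
      refine orderOf_eq_prime ?_ fun h => ?_
      · rw [← QuotientGroup.mk_pow, QuotientGroup.eq_one_iff]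
        exact ⟨z0 * z0, Subgroup.mul_self_mem_of_index_two (hidx i0) z0, by simp [sq]⟩
      · obtain ⟨z, hz, hz'⟩ := (QuotientGroup.eq_one_iff _).mp h
        exact hz0 (Subtype.ext hz' ▸ hz)
    refine ⟨fun hgZ => ?_, ?_⟩
    · have h1 : (g : S ⧸ N) ^ 2 = 1 := by
        rw [← QuotientGroup.mk_pow, QuotientGroup.eq_one_iff]
        exact ⟨⟨g, hgZ⟩ * ⟨g, hgZ⟩, Subgroup.mul_self_mem_of_index_two (hidx i0) _, by simp [sq]⟩
      rw [h1, orderOf_one] at hgsq
      norm_num at hgsq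
    · obtain ⟨w, hw, hwu⟩ := huniq
      have h1 : ((g ^ 2 : S) : S ⧸ N) = ((z0 : S) : S ⧸ N) := by
        rw [QuotientGroup.mk_pow]; exact (hwu _ hgsq).trans (hwu _ hz0o).symm
      have h2 := QuotientGroup.eq.mp h1
      have h3 := mul_mem z0.2 (inv_mem (hNZ h2))
      simpa [mul_assoc] using h3
  obtain ⟨hyZ, hy2⟩ := hxb y hyb
  set ν := y ^ 2 with hνdef
  have hyx : ((y * x : S) : S ⧸ N) ∉ Subgroup.zpowers (x : S ⧸ N) := fun h => hyb (by
    have := mul_mem h (inv_mem (Subgroup.mem_zpowers (x : S ⧸ N)))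
    rwa [QuotientGroup.mk_mul, mul_inv_cancel_right] at this)
  have hinv : y * x * y⁻¹ = x⁻¹ := by
    obtain ⟨h1, h2⟩ := hxb _ hyx
    have h3 : (y * x) ^ 2 = y ^ 2 := hν _ y h1 hyZ h2 hy2
    rw [sq, sq] at h3
    have h4 : x * y * x = y := by
      have := congrArg (fun g => y⁻¹ * g) h3
      simpa [mul_assoc] using this
    calc y * x * y⁻¹ = x⁻¹ * (x * y * x) * y⁻¹ := by group
      _ = x⁻¹ := by rw [h4, mul_inv_cancel_right]
  -- decomposition of elements
  have hgen : ∀ g : S, ∃ i : ℤ, ∃ c ∈ N, g = x ^ i * c ∨ g = x ^ i * c * y⁻¹ := by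
    intro g
    by_cases hg : (g : S ⧸ N) ∈ Subgroup.zpowers (x : S ⧸ N)
    · obtain ⟨i, hi⟩ := hg
      exact ⟨i, (x ^ i)⁻¹ * g, QuotientGroup.eq.mp (by rw [QuotientGroup.mk_zpow]; exact hi), Or.inl (by group)⟩
    · obtain ⟨i, hi⟩ := hx2 _ _ hg hyb
      exact ⟨i, (x ^ i)⁻¹ * (g * y), QuotientGroup.eq.mp (by rw [QuotientGroup.mk_zpow, QuotientGroup.mk_mul]; exact hi),
        Or.inr (by group)⟩
  have hxy : ¬ Commute x y := by
    intro h
    refine hna ⟨⟨fun a b => ?_⟩⟩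
    obtain ⟨a, rfl⟩ := QuotientGroup.mk_surjective a
    obtain ⟨b, rfl⟩ := QuotientGroup.mk_surjective b
    suffices Commute a b by rw [← QuotientGroup.mk_mul, this.eq, QuotientGroup.mk_mul]
    have hxa : ∀ g : S, Commute x g ∧ Commute y g := by
      intro g
      obtain ⟨i, c, hc, rfl | rfl⟩ := hgen g
      · exact ⟨((Commute.refl x).zpow_right i).mul_right (hcz c (hNZ hc) x),
          (h.symm.zpow_right i).mul_right (hcz c (hNZ hc) y)⟩
      · exact ⟨(((Commute.refl x).zpow_right i).mul_right (hcz c (hNZ hc) x)).mul_right h.inv_right,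
          ((h.symm.zpow_right i).mul_right (hcz c (hNZ hc) y)).mul_right (Commute.refl y).inv_right⟩
    obtain ⟨i, c, hc, rfl | rfl⟩ := hgen a
    · exact ((hxa b).1.zpow_left i).mul_left (hcz c (hNZ hc) b).symm
    · exact (((hxa b).1.zpow_left i).mul_left (hcz c (hNZ hc) b).symm).mul_left (hxa b).2.inv_left
  have hxZ : x ∉ (Subgroup.center S) := fun h => hxy (hcz x h y).symm
  -- `ν` is a power of `x`
  have hνx : ν ∈ Subgroup.zpowers x := by
    classical
    have hex : ∃ k : ℕ, x ^ 2 ^ k ∈ (Subgroup.center S) := by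
      obtain ⟨k, hk⟩ := hS x
      exact ⟨k, by rw [hk]; exact one_mem _⟩
    obtain ⟨j, hj⟩ : ∃ j, Nat.find hex = j + 1 := by
      refine ⟨Nat.find hex - 1, ?_⟩
      have : Nat.find hex ≠ 0 := fun h => hxZ (by simpa [h] using Nat.find_spec hex)
      omega
    have h1 := Nat.find_min hex (show j < Nat.find hex by omega)
    have h2 : (x ^ 2 ^ j) ^ 2 ∈ (Subgroup.center S) := by
      rw [← pow_mul, ← pow_succ, ← hj]; exact Nat.find_spec hex
    rw [hνdef, ← hν _ y h1 hyZ h2 hy2]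
    exact Subgroup.pow_mem _ (Subgroup.pow_mem _ (Subgroup.mem_zpowers x) _) _
  have hν1 : ν ≠ 1 := fun h => hout i0 y hyZ hy2 (by
    rw [show (⟨y ^ 2, hy2⟩ : ↥(Subgroup.center S)) = 1 from Subtype.ext h]; exact one_mem _)
  have hνo : orderOf ν = 2 := orderOf_eq_prime (by rw [sq]; exact congrArg Subtype.val (hZ2 ⟨ν, hy2⟩)) hν1
  have hyconj : ∀ i : ℤ, y * x ^ i = x ^ (-i) * y := by
    intro i
    have : y * x ^ i * y⁻¹ = x ^ (-i) := by rw [← conj_zpow, hinv, inv_zpow']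
    exact mul_inv_eq_iff_eq_mul.mp this
  let Q : Subgroup S :=
    { carrier := {g | g ∈ Subgroup.zpowers x ∨ g * y⁻¹ ∈ Subgroup.zpowers x}
      one_mem' := Or.inl (one_mem _)
      mul_mem' := by
        intro a b ha hb
        rcases ha with ⟨i, rfl⟩ | ⟨i, hi⟩ <;> rcases hb with ⟨j, rfl⟩ | ⟨j, hj⟩
        · exact Or.inl (mul_mem (Subgroup.zpow_mem_zpowers x i) (Subgroup.zpow_mem_zpowers x j))
        · refine Or.inr ⟨i + j, ?_⟩
          show x ^ (i + j) = x ^ i * b * y⁻¹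
          rw [zpow_add, show x ^ j = b * y⁻¹ from hj, mul_assoc]
        · refine Or.inr ⟨i - j, ?_⟩
          show x ^ (i - j) = a * x ^ j * y⁻¹
          have ha' : a = x ^ i * y := (eq_mul_inv_iff_mul_eq.mp hi).symm
          rw [ha', mul_assoc (x ^ i) y, hyconj, sub_eq_add_neg, zpow_add]; group
        · refine Or.inl ?_
          have ha' : a = x ^ i * y := (eq_mul_inv_iff_mul_eq.mp hi).symm
          have hb' : b = x ^ j * y := (eq_mul_inv_iff_mul_eq.mp hj).symm
          rw [ha', hb', show x ^ i * y * (x ^ j * y) = x ^ i * (y * x ^ j) * y by group, hyconj,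
            show x ^ i * (x ^ (-j) * y) * y = x ^ i * x ^ (-j) * (y * y) by group, ← sq, ← hνdef]
          exact mul_mem (mul_mem (Subgroup.zpow_mem_zpowers x i) (Subgroup.zpow_mem_zpowers x _)) hνx
      inv_mem' := by
        intro a ha
        rcases ha with h | ⟨i, hi⟩
        · exact Or.inl (inv_mem h)
        · obtain ⟨k, hk⟩ := hνx
          refine Or.inr ⟨i - k, ?_⟩
          have ha' : a = x ^ i * y := (eq_mul_inv_iff_mul_eq.mp hi).symm
          change x ^ k = ν at hk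
          have hyi : y⁻¹ = y * ν⁻¹ := by rw [hνdef, sq, mul_inv_rev, mul_inv_cancel_left]
          show x ^ (i - k) = a⁻¹ * y⁻¹
          rw [ha', mul_inv_rev, show y⁻¹ * (x ^ i)⁻¹ * y⁻¹ = (y⁻¹ * x ^ (-i) * y) * (y * y)⁻¹ by group,
            ← sq, ← hνdef, ← hk, sub_eq_add_neg, zpow_add, zpow_neg x k]
          congr 1
          have := hyconj i
          calc x ^ i = y⁻¹ * (y * x ^ i) := by group
            _ = y⁻¹ * x ^ (-i) * y := by rw [this]; group }
  refine ⟨N, Q, ⟨le_top, le_top, fun a ha b _ => (hcz a (hNZ ha) b).symm, ?_, ?_⟩, ⟨⟨⟨?_⟩⟩, ?_⟩, ?_, ?_⟩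
  · -- `N ⊓ Q = ⊥`
    refine (Subgroup.eq_bot_iff_forall _).mpr fun g ⟨hgN, hgQ⟩ => ?_
    obtain ⟨z, hz, rfl⟩ := hgN
    rcases hgQ with hgx | hgy
    · by_contra hne
      have heq : (z : S) = ν := eq_of_sq_one_zpowers x _ _ hgx hνx
        (congrArg Subtype.val (hZ2 z)) (congrArg Subtype.val (hZ2 ⟨ν, hy2⟩)) hne hν1
      exact hout i0 y hyZ hy2 (by rw [show (⟨y ^ 2, hy2⟩ : ↥(Subgroup.center S)) = z from Subtype.ext heq.symm]; exact hz)
    · exfalso
      refine hyb ?_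
      obtain ⟨k, hk⟩ := hgy
      have hy' : y = (x ^ k)⁻¹ * (z : S) := by
        have : x ^ k = (z : S) * y⁻¹ := hk
        rw [this]; group
      have hzN : ((z : S) : S ⧸ N) = 1 := (QuotientGroup.eq_one_iff _).mpr ⟨z, hz, rfl⟩
      rw [hy', QuotientGroup.mk_mul, hzN, mul_one, QuotientGroup.mk_inv, QuotientGroup.mk_zpow]
      exact inv_mem (Subgroup.zpow_mem_zpowers _ _)
  · -- generation
    refine eq_top_iff.mpr fun g _ => ?_
    have hxQ : x ∈ Q := Or.inl (Subgroup.mem_zpowers x)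
    have hyQ : y ∈ Q := Or.inr (by simp)
    obtain ⟨i, c, hc, rfl | rfl⟩ := hgen g
    · exact mul_mem (Subgroup.mem_sup_right (zpow_mem hxQ i)) (Subgroup.mem_sup_left hc)
    · exact mul_mem (mul_mem (Subgroup.mem_sup_right (zpow_mem hxQ i)) (Subgroup.mem_sup_left hc))
        (inv_mem (Subgroup.mem_sup_right hyQ))
  · exact fun a b => Subtype.ext (hcz (b : S) (hNZ b.2) a)
  · rintro a ha
    rw [sq]; exact congrArg Subtype.val (hZ2 ⟨a, hNZ ha⟩)
  · intro h
    exact hxy (congrArg Subtype.val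
      (h.is_comm.comm (⟨x, Or.inl (Subgroup.mem_zpowers x)⟩ : ↥Q) ⟨y, Or.inr (by simp)⟩))
  · refine ⟨⟨ν, Or.inl hνx⟩, ?_, fun q hq => ?_⟩
    · show orderOf (⟨ν, _⟩ : ↥Q) = 2
      rw [← Subgroup.orderOf_coe]; exact hνo
    · change orderOf q = 2 at hq
      rw [← Subgroup.orderOf_coe] at hq
      have hq2 : (q : S) * (q : S) = 1 := by rw [← sq, ← hq, pow_orderOf_eq_one]
      have hq1 : (q : S) ≠ 1 := fun h => by rw [h, orderOf_one] at hq; norm_num at hq
      refine Subtype.ext ?_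
      rcases q.2 with h | ⟨i, hi⟩
      · exact eq_of_sq_one_zpowers x _ _ h hνx hq2 (congrArg Subtype.val (hZ2 ⟨ν, hy2⟩)) hq1 hν1
      · exfalso
        have ha : (q : S) = x ^ i * y := (eq_mul_inv_iff_mul_eq.mp hi).symm
        refine hν1 ?_
        rw [ha, show x ^ i * y * (x ^ i * y) = x ^ i * (y * x ^ i) * y by group, hyconj,
          show x ^ i * (x ^ (-i) * y) * y = y * y by group, ← sq] at hq2
        exact hq2

end Cfsg.Agent.S3201
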