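import Cfsg.Statements.S3202
import Mathlib
import Cfsg.Agent.H76.UniqueInvolution

set_option autoImplicit false
open Cfsg

namespace Cfsg.Agent.S3202

open scoped commutatorElement

/-- Let S be a finite 2-group of 2-rank exactly 2 and D a maximal subgroup of the centre of S such that S/D is a non-abelian group with exactly one involution (a generalized quaternion group). Then S has a nontrivial cyclic characteristic subgroup. -/
theorem result {S : Type*} [Group S]
    [Finite S] (hS : IsPGroup 2 S) (hr2 : Cfsg.PRankLE 2 2 S) (hr1 : ¬ Cfsg.PRankLE 2 1 S)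
    (D : Subgroup ↥(Subgroup.center S)) (hD : IsCoatom D)
    (hq : ∃ (_ : (D.map (Subgroup.center S).subtype).Normal),
      ¬ IsMulCommutative (S ⧸ D.map (Subgroup.center S).subtype) ∧
      ∃! x : S ⧸ D.map (Subgroup.center S).subtype, orderOf x = 2) :
    ∃ C : Subgroup S, C ≠ ⊥ ∧ IsCyclic ↥C ∧ C.Characteristic := by
  obtain ⟨hn, hna, huniq⟩ := hq
  set N := D.map (Subgroup.center S).subtype with hN
  have hNc : ∀ d ∈ N, ∀ g : S, g * d = d * g := by
    rintro _ ⟨d, _, rfl⟩ g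
    exact Subgroup.mem_center_iff.mp d.2 g
  obtain ⟨xb, hx2, hxinv⟩ :=
    Cfsg.Agent.H76.exists_cyclic_index_two_of_unique_involution (hS.to_quotient N) hna huniq
  obtain ⟨yb, hyb⟩ : ∃ yb : S ⧸ N, yb ∉ Subgroup.zpowers xb := by
    by_contra hc
    push Not at hc
    refine hna ⟨⟨fun a b => ?_⟩⟩
    obtain ⟨i, rfl⟩ := hc a
    obtain ⟨j, rfl⟩ := hc b
    exact (Commute.zpow_zpow_self xb i j).eq
  obtain ⟨x, rfl⟩ := QuotientGroup.mk_surjective xb
  obtain ⟨y, rfl⟩ := QuotientGroup.mk_surjective yb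
  have hd : (y * x * y⁻¹) * x ∈ N := by
    rw [← QuotientGroup.eq_one_iff]
    simp only [QuotientGroup.mk_mul, QuotientGroup.mk_inv, (hxinv _ hyb).1, inv_mul_cancel]
  set c := y * x * y⁻¹ * x⁻¹ with hc
  set d := (y * x * y⁻¹) * x with hd'
  have e3 : c = d * x⁻¹ * x⁻¹ := by rw [hc, hd']; group
  have hxc : Commute x c := by
    rw [e3]
    exact (Commute.mul_right (hNc d hd x) (Commute.refl x).inv_right).mul_right (Commute.refl x).inv_right
  have hyc : y * c * y⁻¹ = c⁻¹ := by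
    have e1 : y * x * y⁻¹ = d * x⁻¹ := by rw [hd']; group
    have e2 : y * d * y⁻¹ = d := by rw [hNc d hd, mul_inv_cancel_right]
    have e4 : x * d⁻¹ = d⁻¹ * x := hNc _ (inv_mem hd) x
    rw [e3]
    calc y * (d * x⁻¹ * x⁻¹) * y⁻¹ = (y * d * y⁻¹) * (y * x * y⁻¹)⁻¹ * (y * x * y⁻¹)⁻¹ := by group
      _ = d * (x * d⁻¹) * (x * d⁻¹) := by rw [e1, e2]; group
      _ = x * (x * d⁻¹) := by nth_rw 1 [e4]; simp
      _ = (d * x⁻¹ * x⁻¹)⁻¹ := by simp [mul_inv_rev, mul_assoc]
  have hgen : ∀ g : S, ∃ i : ℤ, ∃ n ∈ N, g = x ^ i * n ∨ g = x ^ i * n * y⁻¹ := by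
    intro g
    by_cases hg : (g : S ⧸ N) ∈ Subgroup.zpowers (x : S ⧸ N)
    · obtain ⟨i, hi⟩ := hg
      exact ⟨i, (x ^ i)⁻¹ * g, QuotientGroup.eq.mp (by rw [QuotientGroup.mk_zpow]; exact hi), Or.inl (by group)⟩
    · obtain ⟨i, hi⟩ := hx2 _ _ hg hyb
      exact ⟨i, (x ^ i)⁻¹ * (g * y), QuotientGroup.eq.mp (by rw [QuotientGroup.mk_zpow, QuotientGroup.mk_mul]; exact hi),
        Or.inr (by group)⟩
  set H := Subgroup.zpowers c with hH
  have hHn : H.Normal := ⟨by
    rintro _ ⟨k, rfl⟩ g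
    have hx' : ∀ i : ℤ, ∀ n ∈ N, Commute (x ^ i * n) (c ^ k) := fun i n hn =>
      (((hxc.zpow_left i).mul_left (hNc n hn c).symm).zpow_right k)
    obtain ⟨i, n, hn, rfl | rfl⟩ := hgen g
    · rw [(hx' i n hn).eq, mul_inv_cancel_right]; exact Subgroup.zpow_mem_zpowers c k
    · rw [show x ^ i * n * y⁻¹ * c ^ k * (x ^ i * n * y⁻¹)⁻¹
          = (x ^ i * n) * (y⁻¹ * c ^ k * y) * (x ^ i * n)⁻¹ by group]
      have e : y⁻¹ * c ^ k * y = c ^ (-k) := by
        have h1 : y * c ^ (-k) * y⁻¹ = c ^ k := by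
          rw [← conj_zpow, hyc, inv_zpow', neg_neg]
        rw [← h1]; group
      rw [e]
      have := hxc
      rw [((((hxc.zpow_left i).mul_left (hNc n hn c).symm).zpow_right (-k))).eq, mul_inv_cancel_right]
      exact Subgroup.zpow_mem_zpowers c _⟩
  have hab : ∀ g h : S, ((g * h : S) : S ⧸ H) = ((h * g : S) : S ⧸ H) := by
    set π := QuotientGroup.mk' H
    have hxy : Commute (π x) (π y) := by
      show π x * π y = π y * π x
      rw [← map_mul, ← map_mul, QuotientGroup.mk'_apply, QuotientGroup.mk'_apply, QuotientGroup.eq]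
      have : (x * y)⁻¹ * (y * x) = y⁻¹ * (x⁻¹ * c * x) * y := by rw [hc]; group
      rw [this]
      rw [← hxc.inv_left.symm.eq.symm.symm, inv_mul_cancel_right]
      simpa using hHn.conj_mem c (Subgroup.mem_zpowers c) y⁻¹
    have hcen : ∀ u : S ⧸ H, (∀ n ∈ N, Commute u (π n)) → Commute u (π x) → Commute u (π y) →
        ∀ g : S, Commute u (π g) := by
      intro u hn hx hy g
      obtain ⟨i, n, hn', rfl | rfl⟩ := hgen g
      · rw [map_mul, map_zpow]; exact (hx.zpow_right i).mul_right (hn n hn')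
      · rw [map_mul, map_mul, map_zpow, map_inv]
        exact ((hx.zpow_right i).mul_right (hn n hn')).mul_right hy.inv_right
    have hN' : ∀ n ∈ N, ∀ g : S, Commute (π g) (π n) := fun n hn g => Commute.map (hNc n hn g) π
    intro g h
    refine (hcen (π g) (fun n hn => hN' n hn g) ?_ ?_ h).eq
    · exact (hcen (π x) (fun n hn => hN' n hn x) (Commute.refl _) hxy g).symm
    · exact (hcen (π y) (fun n hn => hN' n hn y) hxy.symm (Commute.refl _) g).symm
  have hle : commutator S ≤ H := by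
    rw [commutator_def, Subgroup.commutator_le]
    intro g _ h _
    rw [← QuotientGroup.eq_one_iff, commutatorElement_def]
    rw [show g * h * g⁻¹ * h⁻¹ = (g * h) * (h * g)⁻¹ by group, QuotientGroup.mk_mul, QuotientGroup.mk_inv,
      hab, mul_inv_cancel]
  refine ⟨commutator S, fun hb => ?_, ?_, inferInstance⟩
  · refine hna ⟨⟨fun a b => ?_⟩⟩
    obtain ⟨a, rfl⟩ := QuotientGroup.mk_surjective a
    obtain ⟨b, rfl⟩ := QuotientGroup.mk_surjective b
    have h1 : ⁅a, b⁆ ∈ commutator S := Subgroup.commutator_mem_commutator (Subgroup.mem_top a) (Subgroup.mem_top b)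
    rw [hb, Subgroup.mem_bot, commutatorElement_eq_one_iff_mul_comm] at h1
    rw [← QuotientGroup.mk_mul, h1, QuotientGroup.mk_mul]
  · exact Subgroup.isCyclic_of_le hle

end Cfsg.Agent.S3202
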