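import Cfsg.Statements.S3204
import Cfsg.Agent.H53.RudvalisNormalizer

set_option autoImplicit false
open Cfsg

namespace Cfsg.Agent.S3204

/-- Let G be a finite group whose Sylow 2-subgroup T has order at least 2^14 with the fourth term of its upper central series of order 16; let W be the centralizer in T of the third term, and suppose the Frattini subgroup of W has order at most 8 and lies in every subgroup of W of index at most 16. Suppose G has no subgroup of index 2, and write W′ for the derived subgroup of W. Then the normalizer of W′ is the product of the normalizer of W with the largest normal odd-order subgroup of the normalizer of W′, and the normalizer N of W has N/(O(N)W) isomorphic to GL(3, 2). -/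
theorem result {G : Type*} [Group G] [Finite G]
    (T : Sylow 2 G) (ha : 2 ^ 14 ≤ Nat.card ↥(T : Subgroup G))
    (hb : Nat.card ↥(Subgroup.upperCentralSeries ↥(T : Subgroup G) 4) = 16)
    (W : Subgroup ↥(T : Subgroup G))
    (hW : W = Subgroup.centralizer ((Subgroup.upperCentralSeries ↥(T : Subgroup G) 3 : Subgroup ↥(T : Subgroup G)) : Set ↥(T : Subgroup G)))
    (hc : Nat.card ↥(frattini ↥W) ≤ 8)
    (hd : ∀ U : Subgroup ↥W, U.index ≤ 16 → frattini ↥W ≤ U)
    (h2 : ∀ H : Subgroup G, H.index ≠ 2)
    (WG D N M : Subgroup G) (hWG : WG = W.map (T : Subgroup G).subtype)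
    (hDW : D = ((commutator ↥W).map W.subtype).map (T : Subgroup G).subtype)
    (hN : N = Subgroup.normalizer (WG : Set G)) (hM : M = Subgroup.normalizer (D : Set G)) :
    (N.subgroupOf M ⊔ Cfsg.oddCore ↥M = ⊤) ∧
      ∃ (_ : (WG.subgroupOf N ⊔ Cfsg.oddCore ↥N).Normal),
        Nonempty (↥N ⧸ (WG.subgroupOf N ⊔ Cfsg.oddCore ↥N) ≃* GL (Fin 3) (ZMod 2)) := by
  classical
  haveI : Fact (Nat.Prime 2) := ⟨Nat.prime_two⟩
  let j : ↥W →* G := (T : Subgroup G).subtype.comp W.subtype
  have hj : Function.Injective j := fun a b e => Subtype.ext (Subtype.ext e)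
  have hjW : ∀ g, g ∈ WG ↔ ∃ w : ↥W, j w = g := fun g => by
    rw [hWG]
    constructor
    · rintro ⟨t, ht, rfl⟩; exact ⟨⟨t, ht⟩, rfl⟩
    · rintro ⟨w, rfl⟩; exact ⟨w, w.2, rfl⟩
  have hWp : IsPGroup 2 ↥W := T.2.to_subgroup W
  have hsq : ∀ w : ↥W, w * w ∈ frattini ↥W := by
    intro w
    rw [frattini, Order.radical, Subgroup.mem_iInf]
    intro K
    rw [Subgroup.mem_iInf]
    intro hK
    obtain ⟨M', -, hMi, hKM⟩ := Cfsg.Agent.H80.Yoshida.exists_index_prime hWp hK.1
    rcases eq_or_lt_of_le hKM with e | hlt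
    · rw [e]
      exact (Subgroup.mul_mem_iff_of_index_two hMi).mpr Iff.rfl
    · rw [hK.2 M' hlt, Subgroup.index_top] at hMi
      omega
  have hfr : Cfsg.Agent.H53.Rudvalis.fr WG ≤ (frattini ↥W).map j :=
    Cfsg.Agent.H53.Rudvalis.fr_le_iff.mpr fun x hx => by
      obtain ⟨w, rfl⟩ := (hjW x).mp hx
      exact ⟨w * w, hsq w, map_mul j w w⟩
  have hH : Cfsg.Agent.H53.Rudvalis.Hyp (T : Subgroup G) WG
      (fun i => (Subgroup.upperCentralSeries ↥(T : Subgroup G) i).map (T : Subgroup G).subtype) :=
    { isP := T.2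
      Z0 := by rw [upperCentralSeries_zero, Subgroup.map_bot]
      Zle := fun i => Subgroup.map_subtype_le _
      step := fun i x => by
        constructor
        · rintro ⟨y, hy, rfl⟩
          exact ⟨y.2, fun t ht => ⟨_, (mem_upperCentralSeries_succ_iff.mp hy) ⟨t, ht⟩, rfl⟩⟩
        · rintro ⟨hx, hx'⟩
          refine ⟨⟨x, hx⟩, mem_upperCentralSeries_succ_iff.mpr fun t => ?_, rfl⟩
          obtain ⟨z, hz, e⟩ := hx' t t.2
          have he : (⟨x, hx⟩ : ↥(T : Subgroup G)) * t * ⟨x, hx⟩⁻¹ * t⁻¹ = z := Subtype.ext e.symm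
          rw [commutatorElement_def, he]
          exact hz
      top := by
        haveI := T.2.isNilpotent
        obtain ⟨n, hn⟩ := Group.IsNilpotent.nilpotent (G := ↥(T : Subgroup G))
        exact ⟨n, by rw [hn, ← MonoidHom.range_eq_map, Subgroup.range_subtype]⟩
      card4 := by rw [Subgroup.card_map_of_injective (T : Subgroup G).subtype_injective]; exact hb
      cardT := ha
      memW := fun g => by
        rw [hWG, hW]
        constructor
        · rintro ⟨w, hw, rfl⟩
          refine ⟨w.2, ?_⟩
          rintro _ ⟨z, hz, rfl⟩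
          exact (congrArg Subtype.val (Subgroup.mem_centralizer_iff.mp hw z hz)).symm
        · rintro ⟨hg, hg'⟩
          exact ⟨⟨g, hg⟩, Subgroup.mem_centralizer_iff.mpr fun z hz =>
            Subtype.ext (hg' z ⟨z, hz, rfl⟩).symm, rfl⟩
      cardFr := by
        refine le_trans (Subgroup.card_le_of_le hfr) ?_
        rw [Subgroup.card_map_of_injective hj]
        exact hc
      small := fun U hU h16 => by
        have hle : frattini ↥W ≤ U.comap j := hd _ (by
          rw [Subgroup.index_comap, show j.range = WG from ?_]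
          · exact h16
          · ext g
            rw [hjW g]
            rfl)
        exact hfr.trans (Subgroup.map_le_iff_le_comap.mpr hle) }
  have hS : ¬ 2 ∣ (T : Subgroup G).index := T.not_dvd_index
  have hD : D = Cfsg.Agent.H53.Rudvalis.fr WG := by
    rw [← hH.commutator_eq, hDW, hWG, commutator_def, Subgroup.map_commutator,
      Subgroup.map_commutator, ← MonoidHom.range_eq_map, Subgroup.range_subtype]
  subst hN hM hD
  exact hH.main hS h2

end Cfsg.Agent.S3204
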