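import Cfsg.Statements.S3208
import Cfsg.Agent.H77.SylowBasics

set_option autoImplicit false
open Cfsg

namespace Cfsg.Agent.S3208

/-- Let j be an involution of a finite group G, H a subgroup of G, and T a Sylow 2-subgroup of H ∩ C_G(j) containing j such that ⟨j⟩ is a characteristic subgroup of T. Then T is a Sylow 2-subgroup of H. -/
theorem result {G : Type*} [Group G] [Finite G]
    (j : G) (hj : orderOf j = 2) (H T : Subgroup G) (hT : T ≤ H ⊓ Subgroup.centralizer ({j} : Set G)) (h2 : IsPGroup 2 ↥T)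
    (hSyl : ¬ 2 ∣ T.relIndex (H ⊓ Subgroup.centralizer ({j} : Set G))) (hjT : j ∈ T)
    (hchar : ((Subgroup.zpowers j).subgroupOf T).Characteristic) :
    ¬ 2 ∣ T.relIndex H := by
  have hTH : T ≤ H := hT.trans inf_le_left
  refine H77.not_dvd_relIndex_of_normalizer hTH h2 fun hd => hSyl ?_
  have hle : H ⊓ Subgroup.normalizer (T : Set G) ≤ H ⊓ Subgroup.centralizer ({j} : Set G) := by
    rintro g ⟨hgH, hgN⟩
    refine ⟨hgH, ?_⟩
    have hmem : ∀ x : G, x ∈ T → g * x * g⁻¹ ∈ T := fun x hx => (Subgroup.mem_normalizer_iff.1 hgN x).1 hx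
    let φ : ↥T ≃* ↥T := T.normalizerMonoidHom ⟨g, hgN⟩
    have hfix := hchar.fixed φ
    have h1 : (⟨j, hjT⟩ : ↥T) ∈ (Subgroup.zpowers j).subgroupOf T :=
      Subgroup.mem_subgroupOf.2 (Subgroup.mem_zpowers j)
    rw [← hfix, Subgroup.mem_comap] at h1
    have h3 : g * j * g⁻¹ ∈ Subgroup.zpowers j := h1
    obtain ⟨k, hk⟩ := Subgroup.mem_zpowers_iff.1 h3
    rw [← zpow_mod_orderOf, hj] at hk
    refine Subgroup.mem_centralizer_singleton_iff.2 ?_
    rcases Int.emod_two_eq_zero_or_one k with h0 | h0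
    · rw [Nat.cast_ofNat, h0, zpow_zero] at hk
      exfalso
      have : j = 1 := conj_eq_one_iff.1 hk.symm
      simp [this] at hj
    · rw [Nat.cast_ofNat, h0, zpow_one] at hk
      have := congrArg (fun x => x * g) hk
      simpa using this.symm
  exact hd.trans ⟨_, (Subgroup.relIndex_mul_relIndex _ _ _ (le_inf hTH (Subgroup.le_normalizer)) hle).symm⟩

end Cfsg.Agent.S3208
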