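import Cfsg.Statements.S3209
import Cfsg.Agent.H77.SLPair

set_option autoImplicit false
open Cfsg

namespace Cfsg.Agent.S3209

/-- Let L₁ ≅ SL₂(q₁) and L₂ ≅ SL₂(q₂), q₁ and q₂ odd, be elementwise-commuting subgroups of a finite group meeting in ⟨j⟩ for an involution j. Then L₁L₂ has exactly two conjugacy classes of involutions: the central involution j, and one further class (there is an involution x ≠ j in L₁L₂, and every involution of L₁L₂ other than j is conjugate to x by an element of L₁L₂). -/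
theorem result {G : Type*} [Group G] [Finite G]
    {F₁ : Type*} [Field F₁] [Fintype F₁] {F₂ : Type*} [Field F₂] [Fintype F₂]
    (hF₁ : Odd (Fintype.card F₁)) (hF₂ : Odd (Fintype.card F₂)) (L₁ L₂ : Subgroup G)
    (e₁ : ↥L₁ ≃* Matrix.SpecialLinearGroup (Fin 2) F₁) (e₂ : ↥L₂ ≃* Matrix.SpecialLinearGroup (Fin 2) F₂)
    (hc : ∀ x ∈ L₁, ∀ y ∈ L₂, x * y = y * x) (j : G) (hj : orderOf j = 2) (hm : L₁ ⊓ L₂ = Subgroup.zpowers j) :
    ∃ x ∈ L₁ ⊔ L₂, orderOf x = 2 ∧ x ≠ j ∧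
      ∀ y ∈ L₁ ⊔ L₂, orderOf y = 2 → y = j ∨ ∃ g ∈ L₁ ⊔ L₂, g * x * g⁻¹ = y := by
  have hjj : j ∈ L₁ ⊓ L₂ := hm ▸ Subgroup.mem_zpowers j
  have hj1 : j ≠ 1 := fun h => by rw [h, orderOf_one] at hj; exact absurd hj (by norm_num)
  have hjsq : j * j = 1 := by rw [← pow_two, ← hj, pow_orderOf_eq_one]
  have hinter : ∀ z ∈ L₁ ⊓ L₂, z = 1 ∨ z = j := by
    intro z hz
    rw [hm] at hz
    obtain ⟨k, rfl⟩ := Subgroup.mem_zpowers_iff.1 hz
    rw [← zpow_mod_orderOf, hj]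
    rcases Int.emod_two_eq_zero_or_one k with h | h <;> simp [h]
  obtain ⟨a₀, ha₀, ha₀2⟩ := H77.SLPair.exists_sq_eq hF₁ e₁ hjj.1 hj
  obtain ⟨b₀, hb₀, hb₀2⟩ := H77.SLPair.exists_sq_eq hF₂ e₂ hjj.2 hj
  have hsq : ∀ a ∈ L₁, ∀ b ∈ L₂, (a * b) * (a * b) = (a * a) * (b * b) := fun a ha b hb =>
    (show Commute a b from hc a ha b hb).symm.mul_mul_mul_comm a b
  have hx2 : (a₀ * b₀) * (a₀ * b₀) = 1 := by rw [hsq a₀ ha₀ b₀ hb₀, ha₀2, hb₀2, hjsq]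
  have hxnj : a₀ * b₀ ≠ j := by
    intro h
    have hb : b₀ ∈ L₁ ⊓ L₂ :=
      Subgroup.mem_inf.2 ⟨by rw [show b₀ = a₀⁻¹ * j by rw [← h, inv_mul_cancel_left]]; exact mul_mem (inv_mem ha₀) hjj.1, hb₀⟩
    rcases hinter b₀ hb with h' | h' <;> rw [h'] at hb₀2
    · exact hj1 (by rw [← hb₀2, mul_one])
    · exact hj1 (by rw [← hb₀2, hjsq])
  have hx1 : a₀ * b₀ ≠ 1 := by
    intro h
    have hb : b₀ ∈ L₁ ⊓ L₂ :=
      Subgroup.mem_inf.2 ⟨by rw [show b₀ = a₀⁻¹ by rw [← mul_eq_one_iff_eq_inv'.1 h]]; exact inv_mem ha₀, hb₀⟩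
    rcases hinter b₀ hb with h' | h' <;> rw [h'] at hb₀2
    · exact hj1 (by rw [← hb₀2, mul_one])
    · exact hj1 (by rw [← hb₀2, hjsq])
  refine ⟨a₀ * b₀, mul_mem (Subgroup.mem_sup_left ha₀) (Subgroup.mem_sup_right hb₀),
    orderOf_eq_prime (by rw [pow_two, hx2]) hx1, hxnj, fun y hy hy2 => ?_⟩
  obtain ⟨a, ha, b, hb, rfl⟩ := H77.SLPair.exists_mul_of_mem_sup hc hy
  have hy2' : (a * b) * (a * b) = 1 := by rw [← pow_two, ← hy2, pow_orderOf_eq_one]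
  rw [hsq a ha b hb] at hy2'
  have haa : a * a ∈ L₁ ⊓ L₂ :=
    Subgroup.mem_inf.2 ⟨mul_mem ha ha, by rw [mul_eq_one_iff_eq_inv.1 hy2']; exact inv_mem (mul_mem hb hb)⟩
  rcases hinter _ haa with h | h
  · left
    rw [h, one_mul] at hy2'
    have hne : a * b ≠ 1 := fun h' => by rw [h', orderOf_one] at hy2; exact absurd hy2 (by norm_num)
    rcases H77.SLPair.mem_pair_of_sq_eq_one hF₁ e₁ hjj.1 hj ha h with rfl | rfl <;>
      rcases H77.SLPair.mem_pair_of_sq_eq_one hF₂ e₂ hjj.2 hj hb hy2' with rfl | rfl <;>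
      first
      | exact absurd (mul_one (1 : G)) hne
      | exact one_mul _
      | exact mul_one _
      | exact absurd hjsq hne
  · right
    rw [h] at hy2'
    have hbb : b * b = j := by
      rw [← mul_left_cancel_iff (a := j), hy2', hjsq]
    obtain ⟨g, hg, hga⟩ := H77.SLPair.exists_conj_of_sq_eq hF₁ e₁ hjj.1 hj ha₀ ha ha₀2 h
    obtain ⟨k, hk, hkb⟩ := H77.SLPair.exists_conj_of_sq_eq hF₂ e₂ hjj.2 hj hb₀ hb hb₀2 hbb
    refine ⟨g * k, mul_mem (Subgroup.mem_sup_left hg) (Subgroup.mem_sup_right hk), ?_⟩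
    calc g * k * (a₀ * b₀) * (g * k)⁻¹ = g * (k * a₀) * (b₀ * k⁻¹) * g⁻¹ := by group
      _ = g * (a₀ * k) * (b₀ * k⁻¹) * g⁻¹ := by rw [← hc a₀ ha₀ k hk]
      _ = g * a₀ * (k * b₀ * k⁻¹) * g⁻¹ := by group
      _ = g * a₀ * (b * g⁻¹) := by rw [hkb, mul_assoc]
      _ = g * a₀ * (g⁻¹ * b) := by rw [hc g⁻¹ (inv_mem hg) b hb]
      _ = a * b := by rw [← mul_assoc, hga]

end Cfsg.Agent.S3209
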