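import Cfsg.Statements.S3210
import Cfsg.Agent.H77.SLPair
import Cfsg.Agent.H6.Basic

set_option autoImplicit false
open Cfsg

namespace Cfsg.Agent.S3210

/-- `SL₂` has more than two elements. -/
theorem two_lt_card {F : Type*} [Field F] [Fintype F] (hF : Odd (Fintype.card F)) :
    2 < Nat.card (Matrix.SpecialLinearGroup (Fin 2) F) := by
  rw [Cfsg.Agent.H6.card_sl2 rfl]
  obtain ⟨k, hk⟩ := hF
  have h3 : 3 ≤ Fintype.card F := by
    have := Fintype.one_lt_card (α := F)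
    omega
  have h9 : 9 ≤ Fintype.card F ^ 2 := by nlinarith
  calc 2 < 3 * 8 := by norm_num
    _ ≤ Fintype.card F * (Fintype.card F ^ 2 - 1) := Nat.mul_le_mul h3 (by omega)

/-- Let G be a finite group with subgroups L₁ ≅ SL₂(q₁) and L₂ ≅ SL₂(q₂), q₁ and q₂ odd prime powers, which commute elementwise and meet in ⟨j⟩ for an involution j, and suppose L₁L₂ has index 2 in C_G(j). Then every element n of C_G(j) outside L₁L₂ either normalizes both L₁ and L₂, or conjugates L₁ onto L₂; in the second case q₁ = q₂ and there is an element n′ of C_G(j) outside L₁L₂ conjugating L₁ onto L₂ with n′² ∈ ⟨j⟩. -/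
theorem result {G : Type*} [Group G] [Finite G]
    {F₁ : Type*} [Field F₁] [Fintype F₁] {F₂ : Type*} [Field F₂] [Fintype F₂]
    (hF₁ : Odd (Fintype.card F₁)) (hF₂ : Odd (Fintype.card F₂)) (L₁ L₂ : Subgroup G)
    (e₁ : ↥L₁ ≃* Matrix.SpecialLinearGroup (Fin 2) F₁) (e₂ : ↥L₂ ≃* Matrix.SpecialLinearGroup (Fin 2) F₂)
    (hc : ∀ x ∈ L₁, ∀ y ∈ L₂, x * y = y * x) (j : G) (hj : orderOf j = 2) (hm : L₁ ⊓ L₂ = Subgroup.zpowers j)
    (hle : L₁ ⊔ L₂ ≤ Subgroup.centralizer ({j} : Set G)) (hi : (L₁ ⊔ L₂).relIndex (Subgroup.centralizer ({j} : Set G)) = 2) (n : G) (hn : n ∈ Subgroup.centralizer ({j} : Set G)) (hn' : n ∉ L₁ ⊔ L₂) :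
    (L₁.map (MulAut.conj n).toMonoidHom = L₁ ∧ L₂.map (MulAut.conj n).toMonoidHom = L₂) ∨
      (L₁.map (MulAut.conj n).toMonoidHom = L₂ ∧ Fintype.card F₁ = Fintype.card F₂ ∧
        ∃ n' ∈ Subgroup.centralizer ({j} : Set G), n' ∉ L₁ ⊔ L₂ ∧ L₁.map (MulAut.conj n').toMonoidHom = L₂ ∧ n' ^ 2 ∈ Subgroup.zpowers j) := by
  set C := Subgroup.centralizer ({j} : Set G) with hC
  set Y := L₁ ⊔ L₂ with hY
  have hidx : (Y.subgroupOf C).index = 2 := hi
  have hYn : ∀ g ∈ C, ∀ y ∈ Y, g * y * g⁻¹ ∈ Y := by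
    intro g hg y hy
    have h : (⟨g, hg⟩ : ↥C) * ⟨y, hle hy⟩ * ⟨g, hg⟩⁻¹ ∈ Y.subgroupOf C := by
      have hy' : (⟨y, hle hy⟩ : ↥C) ∈ Y.subgroupOf C := Subgroup.mem_subgroupOf.2 hy
      rw [Subgroup.mul_mem_iff_of_index_two hidx, Subgroup.mul_mem_iff_of_index_two hidx, inv_mem_iff]
      simp [hy']
    exact Subgroup.mem_subgroupOf.1 h
  have hsq : ∀ g ∈ C, g * g ∈ Y := by
    intro g hg
    exact Subgroup.mem_subgroupOf.1
      ((Subgroup.mul_mem_iff_of_index_two hidx).2 Iff.rfl : (⟨g, hg⟩ : ↥C) * ⟨g, hg⟩ ∈ Y.subgroupOf C)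
  set φ := (MulAut.conj n).toMonoidHom with hφ
  have hφi : Function.Injective φ := (MulAut.conj n).injective
  set N₁ := L₁.map φ with hN₁
  set N₂ := L₂.map φ with hN₂
  have hN : ∀ x ∈ N₁, ∀ y ∈ N₂, x * y = y * x := by
    rintro _ ⟨x, hx, rfl⟩ _ ⟨y, hy, rfl⟩
    rw [← map_mul, ← map_mul, hc x hx y hy]
  have hsup : N₁ ⊔ N₂ = L₁ ⊔ L₂ := by
    rw [hN₁, hN₂, ← Subgroup.map_sup, ← hY]
    refine le_antisymm ?_ fun y hy => ⟨n⁻¹ * y * n, ?_, by simp [φ, mul_assoc]⟩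
    · rintro _ ⟨y, hy, rfl⟩
      exact hYn n hn y hy
    · simpa using hYn n⁻¹ (inv_mem hn) y hy
  let f₁ : ↥N₁ ≃* Matrix.SpecialLinearGroup (Fin 2) F₁ := (L₁.equivMapOfInjective φ hφi).symm.trans e₁
  have hm' : L₂ ⊓ L₁ = Subgroup.zpowers j := by rw [inf_comm]; exact hm
  have hc' : ∀ x ∈ L₂, ∀ y ∈ L₁, x * y = y * x := fun x hx y hy => (hc y hy x hx).symm
  have h1 := H77.SLPair.le_or_le hF₁ e₁ hc hj hm f₁ hN hsup
  have h2 := H77.SLPair.le_or_le hF₁ e₂ hc' hj hm' f₁ hN (hsup.trans (sup_comm _ _))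
  have hjN : Subgroup.zpowers j = N₁ ⊓ N₂ := by
    rw [hN₁, hN₂, ← Subgroup.map_inf _ _ _ hφi, hm, MonoidHom.map_zpowers]
    congr 1
    show j = n * j * n⁻¹
    rw [Subgroup.mem_centralizer_singleton_iff.1 hn, mul_inv_cancel_right]
  have hcardj : Nat.card ↥(Subgroup.zpowers j) = 2 := by rw [Nat.card_zpowers, hj]
  have hL₁ : 2 < Nat.card ↥L₁ := by rw [Nat.card_congr e₁.toEquiv]; exact two_lt_card hF₁
  have hL₂ : 2 < Nat.card ↥L₂ := by rw [Nat.card_congr e₂.toEquiv]; exact two_lt_card hF₂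
  have hcN₁ : Nat.card ↥N₁ = Nat.card ↥L₁ := Subgroup.card_map_of_injective hφi
  have hcN₂ : Nat.card ↥N₂ = Nat.card ↥L₂ := Subgroup.card_map_of_injective hφi
  have hnot : ∀ N : Subgroup G, 2 < Nat.card ↥N → N ≤ L₁ → N ≤ L₂ → False := by
    intro N hN2 ha hb
    have := Subgroup.card_le_of_le (le_inf ha hb)
    rw [hm, hcardj] at this
    omega
  -- the product decompositions determine the factors
  have hdet : ∀ A B : Subgroup G, A ≤ L₁ → B ≤ L₂ → j ∈ A → j ∈ B → (∀ x ∈ A, ∀ y ∈ B, x * y = y * x) →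
      A ⊔ B = L₁ ⊔ L₂ → A = L₁ ∧ B = L₂ := by
    intro A B hA hB hjA hjB hAB hsupAB
    constructor
    · refine le_antisymm hA fun x hx => ?_
      obtain ⟨a, ha, b, hb, hab⟩ := H77.SLPair.exists_mul_of_mem_sup hAB (hsupAB.ge (Subgroup.mem_sup_left hx))
      have hbm : b ∈ Subgroup.zpowers j := hm ▸ Subgroup.mem_inf.2
        ⟨by rw [show b = a⁻¹ * x by rw [← hab, inv_mul_cancel_left]]; exact mul_mem (inv_mem (hA ha)) hx, hB hb⟩
      rw [← hab]
      exact mul_mem ha (Subgroup.zpowers_le.2 hjA hbm)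
    · refine le_antisymm hB fun x hx => ?_
      obtain ⟨a, ha, b, hb, hab⟩ := H77.SLPair.exists_mul_of_mem_sup hAB (hsupAB.ge (Subgroup.mem_sup_right hx))
      have ham : a ∈ Subgroup.zpowers j := hm ▸ Subgroup.mem_inf.2
        ⟨hA ha, by rw [show a = x * b⁻¹ by rw [← hab, mul_inv_cancel_right]]; exact mul_mem hx (inv_mem (hB hb))⟩
      rw [← hab]
      exact mul_mem (Subgroup.zpowers_le.2 hjB ham) hb
  have hjN₁ : j ∈ N₁ := (Subgroup.mem_inf.1 (hjN ▸ Subgroup.mem_zpowers j)).1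
  have hjN₂ : j ∈ N₂ := (Subgroup.mem_inf.1 (hjN ▸ Subgroup.mem_zpowers j)).2
  rcases h1 with ha | ha
  · rcases h2 with hb | hb
    · exact (hnot N₁ (hcN₁ ▸ hL₁) hb ha).elim
    · -- the factors are interchanged
      obtain ⟨hN2eq, hN1eq⟩ := hdet N₂ N₁ hb ha hjN₂ hjN₁ (fun x hx y hy => (hN y hy x hx).symm)
        ((sup_comm _ _).trans hsup)
      refine Or.inr ⟨hN1eq, ?_, ?_⟩
      · have hcard : Nat.card (Matrix.SpecialLinearGroup (Fin 2) F₁) = Nat.card (Matrix.SpecialLinearGroup (Fin 2) F₂) := by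
          rw [← Nat.card_congr e₁.toEquiv, ← Nat.card_congr e₂.toEquiv, ← hcN₁, hN1eq]
        rw [Cfsg.Agent.H6.card_sl2 rfl, Cfsg.Agent.H6.card_sl2 rfl] at hcard
        by_contra hne
        have hmono : ∀ a b : ℕ, 1 ≤ a → a < b → a * (a ^ 2 - 1) < b * (b ^ 2 - 1) := by
          intro a b ha1 hab
          have h2' : a ^ 2 < b ^ 2 := Nat.pow_lt_pow_left hab two_ne_zero
          exact Nat.mul_lt_mul_of_le_of_lt hab.le (by have := Nat.one_le_pow 2 a ha1; omega) (by omega)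
        rcases lt_or_gt_of_ne hne with h | h
        · exact absurd hcard (hmono _ _ Fintype.card_pos h).ne
        · exact absurd hcard (hmono _ _ Fintype.card_pos h).ne'
      · obtain ⟨a, hal, b, hbl, hab⟩ := H77.SLPair.exists_mul_of_mem_sup hc (hsq n hn)
        have hbinv : n⁻¹ * b⁻¹ * n ∈ L₁ := by
          obtain ⟨x, hx, hxb⟩ := (hN1eq.ge (inv_mem hbl) : b⁻¹ ∈ L₁.map φ)
          have hxb' : n * x * n⁻¹ = b⁻¹ := hxb
          rw [← hxb']
          simpa [mul_assoc] using hx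
        have hcom : Commute n (a * b) := by
          rw [hab]
          exact (Commute.refl n).mul_right (Commute.refl n)
        have himg : n * a * n⁻¹ ∈ L₂ := hN1eq.le ⟨a, hal, rfl⟩
        have himgb : n * b * n⁻¹ ∈ L₁ := hN2eq.le ⟨b, hbl, rfl⟩
        have hkey : (n * a * n⁻¹) * b⁻¹ ∈ L₁ ⊓ L₂ := by
          refine Subgroup.mem_inf.2 ⟨?_, mul_mem himg (inv_mem hbl)⟩
          have e : (n * a * n⁻¹) * (n * b * n⁻¹) = a * b := by
            calc (n * a * n⁻¹) * (n * b * n⁻¹) = n * (a * b) * n⁻¹ := by group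
              _ = a * b := by rw [hcom.eq, mul_inv_cancel_right]
          have e2 : (n * a * n⁻¹) * b⁻¹ = a * (n * b * n⁻¹)⁻¹ := by
            have h3 : (n * a * n⁻¹) = a * b * (n * b * n⁻¹)⁻¹ := by rw [← e, mul_inv_cancel_right]
            rw [h3, mul_assoc a b, ← hc _ (inv_mem himgb) b hbl, ← mul_assoc, mul_inv_cancel_right]
          rw [e2]
          exact mul_mem hal (inv_mem himgb)
        refine ⟨n * b⁻¹, mul_mem hn (hle (Subgroup.mem_sup_right (inv_mem hbl))), fun h => hn' ?_, ?_, ?_⟩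
        · simpa using mul_mem h (Subgroup.mem_sup_right hbl)
        · ext x
          constructor
          · rintro ⟨y, hy, rfl⟩
            have : b⁻¹ * y * b⁻¹⁻¹ = y := by rw [← hc y hy b⁻¹ (inv_mem hbl)]; group
            show n * b⁻¹ * y * (n * b⁻¹)⁻¹ ∈ L₂
            rw [show n * b⁻¹ * y * (n * b⁻¹)⁻¹ = n * (b⁻¹ * y * b⁻¹⁻¹) * n⁻¹ by group, this]
            exact hN1eq.le ⟨y, hy, rfl⟩
          · intro hx
            obtain ⟨y, hy, hyx⟩ := (hN1eq.ge hx : x ∈ L₁.map φ)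
            refine ⟨y, hy, ?_⟩
            have : b⁻¹ * y * b⁻¹⁻¹ = y := by rw [← hc y hy b⁻¹ (inv_mem hbl)]; group
            show n * b⁻¹ * y * (n * b⁻¹)⁻¹ = x
            rw [show n * b⁻¹ * y * (n * b⁻¹)⁻¹ = n * (b⁻¹ * y * b⁻¹⁻¹) * n⁻¹ by group, this]
            exact hyx
        · rw [← hm]
          have e : (n * b⁻¹) ^ 2 = a * (n⁻¹ * b⁻¹ * n) := by
            calc (n * b⁻¹) ^ 2 = (n * n) * ((n⁻¹ * b⁻¹ * n) * b⁻¹) := by rw [pow_two]; group
              _ = (a * b) * (b⁻¹ * (n⁻¹ * b⁻¹ * n)) := by rw [← hab, hc _ hbinv b⁻¹ (inv_mem hbl)]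
              _ = a * (n⁻¹ * b⁻¹ * n) := by group
          rw [e]
          have e3 : a * (n⁻¹ * b⁻¹ * n) = n⁻¹ * ((n * a * n⁻¹) * b⁻¹) * n := by group
          have hk : (n * a * n⁻¹) * b⁻¹ ∈ Subgroup.zpowers j := hm ▸ hkey
          obtain ⟨k, hk'⟩ := Subgroup.mem_zpowers_iff.1 hk
          have hnj : Commute n j := Subgroup.mem_centralizer_singleton_iff.1 hn
          rw [e3, ← hk', show n⁻¹ * j ^ k * n = j ^ k by rw [mul_assoc, ← (hnj.zpow_right k).eq, inv_mul_cancel_left], hm]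
          exact Subgroup.zpow_mem_zpowers j k
  · rcases h2 with hb | hb
    · obtain ⟨hN1eq, hN2eq⟩ := hdet N₁ N₂ hb ha hjN₁ hjN₂ hN hsup
      exact Or.inl ⟨hN1eq, hN2eq⟩
    · exact (hnot N₂ (hcN₂ ▸ hL₂) hb ha).elim

end Cfsg.Agent.S3210
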