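import Cfsg.Statements.S3211
import Mathlib
import Cfsg.Agent.H28.ZStar
import Cfsg.Agent.H69.SL2Classes

set_option autoImplicit false
open Cfsg

namespace Cfsg.Agent.S3211

open scoped Pointwise

theorem sl2_facts {F : Type*} [Field F] [Fintype F] (hF : Odd (Fintype.card F)) :
    (∀ g : Matrix.SpecialLinearGroup (Fin 2) F, g * g = 1 → g = 1 ∨ g = -1) ∧
    (∀ i x : Matrix.SpecialLinearGroup (Fin 2) F, i * i = -1 → x * i = -(i * x) → x * x = -1) ∧
    (∀ i : Matrix.SpecialLinearGroup (Fin 2) F, i * i = -1 → ∃ x : Matrix.SpecialLinearGroup (Fin 2) F,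
      x * i = -(i * x)) := by
  have h2 : (2 : F) ≠ 0 := by
    intro h
    have hring : ringChar F = 2 := CharP.ringChar_of_prime_eq_zero Nat.prime_two (by exact_mod_cast h)
    have := FiniteField.even_card_of_char_two hring
    obtain ⟨k, hk⟩ := hF
    omega
  have hch : ∀ g : Matrix.SpecialLinearGroup (Fin 2) F,
      (g : Matrix (Fin 2) (Fin 2) F) * g = (g : Matrix (Fin 2) (Fin 2) F).trace • (g : Matrix (Fin 2) (Fin 2) F) - 1 := by
    intro g
    rw [H69.mul_self_fin_two, g.2, one_smul]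
  have htr0 : ∀ g : Matrix.SpecialLinearGroup (Fin 2) F, g * g = -1 →
      (g : Matrix (Fin 2) (Fin 2) F).trace = 0 := by
    intro g hg
    have h1 : (g : Matrix (Fin 2) (Fin 2) F) * g = -1 := by
      have := congrArg Subtype.val hg
      simpa using this
    rw [hch g, sub_eq_iff_eq_add, neg_add_cancel] at h1
    by_contra hne
    have : (g : Matrix (Fin 2) (Fin 2) F) = 0 := (smul_eq_zero.mp h1).resolve_left hne
    have h3 := g.2
    rw [this, Matrix.det_zero] at h3
    exact zero_ne_one h3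
  refine ⟨?_, ?_, ?_⟩
  · intro g hg
    have h1 : (g : Matrix (Fin 2) (Fin 2) F) * g = 1 := by
      have := congrArg Subtype.val hg
      simpa using this
    rw [hch g, sub_eq_iff_eq_add] at h1
    set τ := (g : Matrix (Fin 2) (Fin 2) F).trace
    have e00 := congrFun (congrFun h1 0) 0
    have e01 := congrFun (congrFun h1 0) 1
    have e10 := congrFun (congrFun h1 1) 0
    have e11 := congrFun (congrFun h1 1) 1
    simp at e00 e01 e10 e11
    have hτ : τ ≠ 0 := by
      intro h0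
      rw [h0, zero_mul] at e00
      exact h2 (by linear_combination -e00)
    have g01 := e01.resolve_left hτ
    have g10 := e10.resolve_left hτ
    have g11 : g.1 1 1 = g.1 0 0 := mul_left_cancel₀ hτ (by rw [e00, e11])
    have hdet := g.2
    rw [Matrix.det_fin_two, g01, g10, g11, zero_mul, sub_zero] at hdet
    rcases mul_self_eq_one_iff.mp hdet with h | h
    · left; ext i j; fin_cases i <;> fin_cases j <;> simp [g01, g10, g11, h]
    · right; ext i j; fin_cases i <;> fin_cases j <;> simp [g01, g10, g11, h]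
  · intro i x hi hx
    have hx' : (x : Matrix (Fin 2) (Fin 2) F) * i = -((i : Matrix (Fin 2) (Fin 2) F) * x) := by
      have := congrArg Subtype.val hx
      simpa using this
    have hinv : (i : Matrix (Fin 2) (Fin 2) F) * (-i) = 1 := by
      have := congrArg Subtype.val hi
      simp at this
      rw [mul_neg, this, neg_neg]
    have ht : (x : Matrix (Fin 2) (Fin 2) F).trace = -(x : Matrix (Fin 2) (Fin 2) F).trace := by
      have hinv' : (-i : Matrix (Fin 2) (Fin 2) F) * i = 1 := mul_eq_one_comm.mp hinv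
      calc (x : Matrix (Fin 2) (Fin 2) F).trace
          = ((x : Matrix (Fin 2) (Fin 2) F) * ((i : Matrix (Fin 2) (Fin 2) F) * (-i))).trace := by
            rw [hinv, mul_one]
        _ = (-((i : Matrix (Fin 2) (Fin 2) F) * x) * (-i)).trace := by rw [← mul_assoc, hx']
        _ = ((-i : Matrix (Fin 2) (Fin 2) F) * -((i : Matrix (Fin 2) (Fin 2) F) * x)).trace := Matrix.trace_mul_comm _ _
        _ = -(x : Matrix (Fin 2) (Fin 2) F).trace := by
            rw [mul_neg, ← mul_assoc, hinv', one_mul, Matrix.trace_neg]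
    have ht0 : (x : Matrix (Fin 2) (Fin 2) F).trace = 0 := by
      have : (2 : F) * (x : Matrix (Fin 2) (Fin 2) F).trace = 0 := by linear_combination ht
      exact (mul_eq_zero.mp this).resolve_left h2
    apply Subtype.ext
    have := hch x
    rw [ht0, zero_smul, zero_sub] at this
    simpa using this
  · intro i hi
    have hii : (-i) * (-i) = (-1 : Matrix.SpecialLinearGroup (Fin 2) F) := by rw [neg_mul_neg, hi]
    have hns : ∀ k : Matrix.SpecialLinearGroup (Fin 2) F, k * k = -1 →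
        ¬ H69.IsScalar2 (k : Matrix (Fin 2) (Fin 2) F) := by
      intro k hk hs
      have h0 := htr0 k hk
      rw [Matrix.trace_fin_two] at h0
      obtain ⟨a, b, c⟩ := hs
      rw [← c] at h0
      have : k.1 0 0 = 0 := (mul_eq_zero.mp (show (2:F) * k.1 0 0 = 0 by linear_combination h0)).resolve_left h2
      have hd := k.2
      rw [Matrix.det_fin_two, a, this, zero_mul, zero_mul, sub_zero] at hd
      exact zero_ne_one hd
    obtain ⟨x, hx⟩ := isConj_iff.mp (H69.sl2_isConj_of_trace (hns i hi) (hns _ hii)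
      ((htr0 i hi).trans (htr0 (-i) hii).symm) (Or.inl (by
        rw [htr0 i hi]
        intro h4
        apply h2
        exact mul_self_eq_zero.mp (show (2 : F) * 2 = 0 by linear_combination -h4))))
    refine ⟨x, ?_⟩
    rw [mul_inv_eq_iff_eq_mul] at hx
    rw [hx, neg_mul]

theorem sl2_transport {G : Type*} [Group G] [Finite G] {F : Type*} [Field F] [Fintype F]
    (hF : Odd (Fintype.card F)) (L : Subgroup G) (e : ↥L ≃* Matrix.SpecialLinearGroup (Fin 2) F)
    (j : G) (hjL : j ∈ L) (hj1 : j ≠ 1) (hj2 : j * j = 1) :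
    (∀ g ∈ L, g * g = 1 → g = 1 ∨ g = j) ∧
    (∀ i ∈ L, ∀ x ∈ L, i * i = j → x * i = j * (i * x) → x * x = j) ∧
    (∀ i ∈ L, i * i = j → ∃ x ∈ L, x * i = j * (i * x)) := by
  obtain ⟨h1, h2, h3⟩ := sl2_facts hF
  have hej : e ⟨j, hjL⟩ = -1 := by
    rcases h1 (e ⟨j, hjL⟩) (by
        rw [← map_mul, show (⟨j, hjL⟩ : L) * ⟨j, hjL⟩ = 1 from Subtype.ext hj2, map_one]) with h | h
    · exact absurd (congrArg Subtype.val ((MulEquiv.map_eq_one_iff e).mp h)) hj1
    · exact h
  have hval : ∀ a b : L, (e a = e b) → (a : G) = b := fun a b h => congrArg Subtype.val (e.injective h)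
  refine ⟨?_, ?_, ?_⟩
  · intro g hg hgg
    rcases h1 (e ⟨g, hg⟩) (by rw [← map_mul, show (⟨g, hg⟩ : L) * ⟨g, hg⟩ = 1 from Subtype.ext hgg, map_one]) with h | h
    · exact Or.inl (hval _ 1 (h.trans (map_one e).symm))
    · exact Or.inr (hval ⟨g, hg⟩ ⟨j, hjL⟩ (h.trans hej.symm))
  · intro i hi x hx hii hxi
    refine hval (⟨x, hx⟩ * ⟨x, hx⟩) ⟨j, hjL⟩ ?_
    rw [hej, map_mul]
    refine h2 (e ⟨i, hi⟩) _ ?_ ?_
    · rw [← map_mul, ← hej]; exact congrArg e (Subtype.ext hii)
    · rw [← map_mul, ← map_mul, ← neg_one_mul, ← hej, ← map_mul]; exact congrArg e (Subtype.ext hxi)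
  · intro i hi hii
    obtain ⟨x, hx⟩ := h3 (e ⟨i, hi⟩) (by rw [← map_mul, ← hej]; exact congrArg e (Subtype.ext hii))
    refine ⟨(e.symm x : L), (e.symm x).2, ?_⟩
    refine hval (e.symm x * ⟨i, hi⟩) (⟨j, hjL⟩ * (⟨i, hi⟩ * e.symm x)) ?_
    rw [map_mul, map_mul, map_mul, MulEquiv.apply_symm_apply, hej, neg_one_mul, hx]

/-- Let G be a finite group with subgroups L₁ ≅ SL₂(q₁) and L₂ ≅ SL₂(q₂), q₁ and q₂ odd prime powers, which commute elementwise and meet in ⟨j⟩ for an involution j, and suppose L₁L₂ has index 2 in C_G(j). If some n ∈ C_G(j) with n² = j interchanges L₁ and L₂ under conjugation (so that C_G(j) = L₁L₂⟨n⟩), then G = C_G(j)O(G). -/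
theorem result {G : Type*} [Group G] [Finite G]
    {F₁ : Type*} [Field F₁] [Fintype F₁] {F₂ : Type*} [Field F₂] [Fintype F₂]
    (hF₁ : Odd (Fintype.card F₁)) (hF₂ : Odd (Fintype.card F₂)) (L₁ L₂ : Subgroup G)
    (e₁ : ↥L₁ ≃* Matrix.SpecialLinearGroup (Fin 2) F₁) (e₂ : ↥L₂ ≃* Matrix.SpecialLinearGroup (Fin 2) F₂)
    (hc : ∀ x ∈ L₁, ∀ y ∈ L₂, x * y = y * x) (j : G) (hj : orderOf j = 2) (hm : L₁ ⊓ L₂ = Subgroup.zpowers j)
    (hle : L₁ ⊔ L₂ ≤ Subgroup.centralizer ({j} : Set G)) (hi : (L₁ ⊔ L₂).relIndex (Subgroup.centralizer ({j} : Set G)) = 2) (n : G) (hn : n ∈ Subgroup.centralizer ({j} : Set G))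
    (hn2 : n ^ 2 = j) (hswap : L₁.map (MulAut.conj n).toMonoidHom = L₂) :
    Subgroup.centralizer ({j} : Set G) ⊔ Cfsg.oddCore G = ⊤ := by
  classical
  have : Fact (Nat.Prime 2) := ⟨Nat.prime_two⟩
  set C := Subgroup.centralizer ({j} : Set G) with hCdef
  set M := L₁ ⊔ L₂ with hMdef
  have hj1 : j ≠ 1 := fun h => by rw [h, orderOf_one] at hj; omega
  have hj2 : j * j = 1 := by rw [← pow_two, ← hj]; exact pow_orderOf_eq_one j
  have hjinv : j⁻¹ = j := inv_eq_of_mul_eq_one_right hj2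
  have hjm : j ∈ L₁ ⊓ L₂ := hm ▸ Subgroup.mem_zpowers j
  obtain ⟨u1, a1, x1ex⟩ := sl2_transport hF₁ L₁ e₁ j hjm.1 hj1 hj2
  obtain ⟨u2, a2, x2ex⟩ := sl2_transport hF₂ L₂ e₂ j hjm.2 hj1 hj2
  have hmeet : ∀ g, g ∈ L₁ → g ∈ L₂ → g = 1 ∨ g = j := fun g h h' => by
    have hg : g ∈ Subgroup.zpowers j := hm ▸ ⟨h, h'⟩
    rw [mem_zpowers_iff_mem_range_orderOf, hj] at hg
    simp only [Finset.mem_image, Finset.mem_range] at hg
    obtain ⟨i, hi, rfl⟩ := hg
    interval_cases i
    · exact Or.inl (pow_zero j)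
    · exact Or.inr (pow_one j)
  have hmemC : ∀ g, g ∈ C ↔ g * j = j * g := fun g => by
    rw [hCdef, Subgroup.mem_centralizer_singleton_iff]
    all_goals first | rfl | exact eq_comm
  have hjC : ∀ g ∈ C, g * j = j * g := fun g hg => (hmemC g).1 hg
  have hL1C : ∀ g ∈ L₁, g ∈ C := fun g hg => hle (Subgroup.mem_sup_left hg)
  have hL2C : ∀ g ∈ L₂, g ∈ C := fun g hg => hle (Subgroup.mem_sup_right hg)
  -- the elements of `M`
  have hM : ∀ g ∈ M, ∃ a ∈ L₁, ∃ b ∈ L₂, g = a * b := by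
    have hnorm : L₂ ≤ Subgroup.normalizer (L₁ : Set G) := fun b hb => by
      rw [Subgroup.mem_normalizer_iff]
      refine fun a => ⟨fun ha => ?_, fun ha => ?_⟩
      · rwa [← hc a ha b hb, mul_inv_cancel_right]
      · have h := hc _ ha b hb
        have h' : b * a * b⁻¹ = a := by
          have h2 := congrArg (fun y => b⁻¹ * y) h
          simp [mul_assoc] at h2
          calc b * a * b⁻¹ = b⁻¹ * (b * (b * a * b⁻¹)) := by group
            _ = b⁻¹ * (b * a * b⁻¹ * b) := by rw [h]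
            _ = a := by group
        rwa [h'] at ha
    intro g hg
    have : g ∈ ((L₁ : Set G) * (L₂ : Set G)) := by
      rw [← Subgroup.coe_mul_of_right_le_normalizer_left L₁ L₂ hnorm]
      exact hg
    obtain ⟨a, ha, b, hb, rfl⟩ := Set.mem_mul.mp this
    exact ⟨a, ha, b, hb, rfl⟩
  -- the swap
  have hnj : n * n = j := by rw [← pow_two, hn2]
  have hσ1 : ∀ a ∈ L₁, n * a * n⁻¹ ∈ L₂ := fun a ha => hswap ▸ ⟨a, ha, rfl⟩
  have hσσ : ∀ g ∈ C, n * (n * g * n⁻¹) * n⁻¹ = g := fun g hg => by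
    calc n * (n * g * n⁻¹) * n⁻¹ = (n * n) * g * (n * n)⁻¹ := by group
      _ = g := by rw [hnj, ← hjC g hg, mul_inv_cancel_right]
  have hσ2 : ∀ b ∈ L₂, n * b * n⁻¹ ∈ L₁ := fun b hb => by
    obtain ⟨a, ha, rfl⟩ := hswap.symm ▸ hb
    show n * (n * a * n⁻¹) * n⁻¹ ∈ L₁
    rwa [hσσ a (hL1C a ha)]
  have hne : L₁ ≠ L₂ := by
    intro h
    have hz : (⊤ : Subgroup L₁) = ⊤ := rfl
    have hcard : Nat.card L₁ = 2 := by
      have : L₁ = Subgroup.zpowers j := by rw [← hm, ← h, inf_idem]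
      rw [this, Nat.card_zpowers, hj]
    rw [Nat.card_congr e₁.toEquiv] at hcard
    have h3 : (Nat.card (Matrix.SpecialLinearGroup (Fin 2) F₁)) > 2 := by
      have hq : Odd (Fintype.card F₁) := hF₁
      have : Fintype.card F₁ ≥ 3 := by
        have := Fintype.one_lt_card (α := F₁)
        obtain ⟨k, hk⟩ := hq; omega
      let f : F₁ → Matrix.SpecialLinearGroup (Fin 2) F₁ := fun t => ⟨!![1, t; 0, 1], by simp [Matrix.det_fin_two]⟩
      have hinj : Function.Injective f := fun s t hst => by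
        have := congrArg (fun u : Matrix.SpecialLinearGroup (Fin 2) F₁ => u.1 0 1) hst
        simpa [f] using this
      have := Nat.card_le_card_of_injective f hinj
      rw [Nat.card_eq_fintype_card] at this
      omega
    omega
  have hnM : n ∉ M := by
    intro hnM
    obtain ⟨a, ha, b, hb, e⟩ := hM n hnM
    apply hne
    ext g
    constructor
    · intro hg
      have h1 : n * (a⁻¹ * g * a) * n⁻¹ ∈ L₂ := hσ1 _ (mul_mem (mul_mem (inv_mem ha) hg) ha)
      have h2 : n * (a⁻¹ * g * a) * n⁻¹ = g := by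
        rw [e]
        calc a * b * (a⁻¹ * g * a) * (a * b)⁻¹
            = a * (b * (a⁻¹ * g * a)) * (a * b)⁻¹ := by group
          _ = a * ((a⁻¹ * g * a) * b) * (a * b)⁻¹ := by rw [hc _ (mul_mem (mul_mem (inv_mem ha) hg) ha) b hb]
          _ = g := by group
      rwa [h2] at h1
    · intro hg
      have h1 : n * (b⁻¹ * g * b) * n⁻¹ ∈ L₁ := hσ2 _ (mul_mem (mul_mem (inv_mem hb) hg) hb)
      have hbgb : b * (b⁻¹ * g * b) * b⁻¹ = g := by group
      have h2 : n * (b⁻¹ * g * b) * n⁻¹ = g := by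
        rw [e]
        calc a * b * (b⁻¹ * g * b) * (a * b)⁻¹ = (a * g) * a⁻¹ := by group
          _ = (g * a) * a⁻¹ := by rw [hc a ha g hg]
          _ = g := by group
      rwa [h2] at h1
  -- no involution outside `M`
  have hinvM : ∀ g ∈ C, g * g = 1 → g ∈ M := by
    intro g hgC hgg
    by_contra hgM
    have hgn : g * n⁻¹ ∈ M := by
      have hidx : (M.subgroupOf C).index = 2 := hi
      have := Subgroup.mul_mem_iff_of_index_two hidx (a := (⟨g, hgC⟩ : C)) (b := ⟨n⁻¹, inv_mem hn⟩)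
      exact this.2 (iff_of_false hgM (fun h => hnM (by simpa using inv_mem (show n⁻¹ ∈ M from h))))
    obtain ⟨a, ha, b, hb, e⟩ := hM _ hgn
    have eg : g = a * b * n := by rw [← e, inv_mul_cancel_right]
    set a' := n * a * n⁻¹ with ha'
    set b' := n * b * n⁻¹ with hb'
    have ha'2 : a' ∈ L₂ := hσ1 a ha
    have hb'1 : b' ∈ L₁ := hσ2 b hb
    have key : (a * b') * (b * a') * j = 1 := by
      calc (a * b') * (b * a') * j = a * (b' * b) * a' * j := by group
        _ = a * (b * b') * a' * j := by rw [hc b' hb'1 b hb]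
        _ = a * b * (b' * a') * j := by group
        _ = a * b * (a' * b') * (n * n) := by rw [hc b' hb'1 a' ha'2, hnj]
        _ = g * g := by rw [eg, ha', hb']; group
        _ = 1 := hgg
    set A := a * b' with hA
    set B := b * a' with hB
    have hA1 : A ∈ L₁ := mul_mem ha hb'1
    have hB2 : B ∈ L₂ := mul_mem hb ha'2
    have hAB : A = (B * j)⁻¹ := eq_inv_of_mul_eq_one_left (by rw [← mul_assoc]; exact key)
    have hA12 : A = 1 ∨ A = j := hmeet A hA1 (hAB ▸ inv_mem (mul_mem hB2 hjm.2))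
    have hfix : n * A * n⁻¹ = A := by
      rcases hA12 with h | h <;> rw [h]
      · group
      · rw [hjC n hn, mul_inv_cancel_right]
    have hσA : n * A * n⁻¹ = a' * b := by
      rw [hA, ha', hb']
      calc n * (a * (n * b * n⁻¹)) * n⁻¹ = (n * a * n⁻¹) * (n * (n * b * n⁻¹) * n⁻¹) := by group
        _ = _ := by rw [hσσ b (hL2C b hb)]
    have hBA : B = A := by
      have h1 : a' * b = A := hσA.symm.trans hfix
      calc B = b * (a' * b) * b⁻¹ := by rw [hB]; group
        _ = b * A * b⁻¹ := by rw [h1]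
        _ = A := by rw [← hc A hA1 b hb, mul_inv_cancel_right]
    rw [hBA] at key
    rcases hA12 with h | h <;> rw [h] at key
    · exact hj1 (by simpa using key)
    · rw [hj2, one_mul] at key; exact hj1 key
  -- isolation
  have hiso : Cfsg.Agent.H28.IsIsolatedInvolution j := by
    refine ⟨hj, fun g hg => ?_⟩
    set t := g * j * g⁻¹ with ht
    by_contra htj
    have htC : t ∈ C := (hmemC t).2 hg.eq.symm
    have ht2 : t * t = 1 := by
      rw [ht]; calc g * j * g⁻¹ * (g * j * g⁻¹) = g * (j * j) * g⁻¹ := by group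
        _ = 1 := by rw [hj2]; group
    have ht1 : t ≠ 1 := fun h => hj1 (conj_eq_one_iff.mp h)
    obtain ⟨i₁, hi₁, i₂, hi₂, hte⟩ := hM t (hinvM t htC ht2)
    have hsq : i₁ * i₁ * (i₂ * i₂) = 1 := by
      rw [← ht2, hte]
      calc i₁ * i₁ * (i₂ * i₂) = i₁ * (i₁ * i₂) * i₂ := by group
        _ = i₁ * (i₂ * i₁) * i₂ := by rw [hc i₁ hi₁ i₂ hi₂]
        _ = _ := by group
    have h11 := hmeet _ (mul_mem hi₁ hi₁) (by
      rw [eq_inv_of_mul_eq_one_left hsq]; exact inv_mem (mul_mem hi₂ hi₂))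
    have hi₁2 : i₁ * i₁ = j := by
      rcases h11 with h | h
      · exfalso
        rw [h, one_mul] at hsq
        rcases u1 i₁ hi₁ h with ha | ha <;> rcases u2 i₂ hi₂ hsq with hb | hb <;>
          rw [ha, hb] at hte <;> simp only [one_mul, mul_one, hj2] at hte <;>
          first | exact ht1 hte | exact htj hte
      · exact h
    have hi₂2 : i₂ * i₂ = j := by
      rw [hi₁2] at hsq
      rw [eq_inv_of_mul_eq_one_right hsq, hjinv]
    obtain ⟨x₁, hx₁, hxi₁⟩ := x1ex i₁ hi₁ hi₁2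
    obtain ⟨x₂, hx₂, hxi₂⟩ := x2ex i₂ hi₂ hi₂2
    have hx₁2 := a1 i₁ hi₁ x₁ hx₁ hi₁2 hxi₁
    have hx₂2 := a2 i₂ hi₂ x₂ hx₂ hi₂2 hxi₂
    -- commuting with `t`
    have hsplit : ∀ a ∈ L₁, ∀ b ∈ L₂, (a * b) * t = t * (a * b) →
        (a * i₁ = i₁ * a ∨ a * i₁ = j * (i₁ * a)) ∧ (b * i₂ = i₂ * b ∨ b * i₂ = j * (i₂ * b)) := by
      intro a ha b hb hab
      rw [hte] at hab
      have hab' : (a * i₁) * (b * i₂) = (i₁ * a) * (i₂ * b) := by
        calc (a * i₁) * (b * i₂) = a * (i₁ * b) * i₂ := by group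
          _ = a * (b * i₁) * i₂ := by rw [hc i₁ hi₁ b hb]
          _ = a * b * (i₁ * i₂) := by group
          _ = i₁ * i₂ * (a * b) := hab
          _ = i₁ * (i₂ * a) * b := by group
          _ = i₁ * (a * i₂) * b := by rw [hc a ha i₂ hi₂]
          _ = (i₁ * a) * (i₂ * b) := by group
      have hz : (i₁ * a)⁻¹ * (a * i₁) = (i₂ * b) * (b * i₂)⁻¹ := by
        rw [inv_mul_eq_iff_eq_mul, ← mul_assoc, eq_mul_inv_iff_mul_eq]
        exact hab'
      have hzm := hmeet _ (mul_mem (inv_mem (mul_mem hi₁ ha)) (mul_mem ha hi₁))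
        (hz ▸ mul_mem (mul_mem hi₂ hb) (inv_mem (mul_mem hb hi₂)))
      constructor
      · rcases hzm with h | h
        · exact Or.inl (inv_mul_eq_one.mp h).symm
        · right
          rw [inv_mul_eq_iff_eq_mul] at h
          rw [h, hjC _ (hL1C _ (mul_mem hi₁ ha))]
      · rcases hzm with h | h <;> rw [hz] at h
        · exact Or.inl (mul_inv_eq_one.mp h).symm
        · right
          rw [mul_inv_eq_iff_eq_mul] at h
          rw [h, ← mul_assoc, hj2, one_mul]
    -- the witness and the 2-parts of the tori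
    let S : Set G := {p | ((p ∈ L₁ ∧ p * i₁ = i₁ * p) ∨ (p ∈ L₂ ∧ p * i₂ = i₂ * p)) ∧ ∃ r, orderOf p = 2 ^ r}
    have hi₁4 : orderOf i₁ = 2 ^ 2 := orderOf_eq_prime_pow (n := 1)
      (by rw [pow_one, pow_two, hi₁2]; exact hj1)
      (by rw [show (2:ℕ) ^ (1+1) = 2 * 2 from rfl, pow_mul, pow_two, pow_two, hi₁2, hj2])
    obtain ⟨p, hpS, hpmax⟩ := (Set.toFinite S).exists_maximalFor orderOf S ⟨i₁, Or.inl ⟨hi₁, rfl⟩, 2, hi₁4⟩
    obtain ⟨hpL, r, hr⟩ := hpS
    have hmax : ∀ q ∈ S, orderOf q ≤ orderOf p := fun q hq => by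
      by_contra hlt; exact hlt (hpmax hq (le_of_lt (not_le.mp hlt)))
    have hr2 : 2 ≤ r := by
      have h := hmax i₁ ⟨Or.inl ⟨hi₁, rfl⟩, 2, hi₁4⟩
      rw [hi₁4, hr] at h
      exact (Nat.pow_le_pow_iff_right (by norm_num)).mp h
    set k := 2 ^ (r - 1) with hk
    have hpk : p ^ k = j := by
      have hord : orderOf (p ^ k) = 2 := by
        rw [orderOf_pow' _ (by positivity), hr, hk, Nat.gcd_eq_right (pow_dvd_pow 2 (by omega)),
          Nat.pow_div (by omega) (by norm_num), show r - (r - 1) = 1 by omega, pow_one]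
      have hsq : p ^ k * p ^ k = 1 := by rw [← pow_two, ← hord]; exact pow_orderOf_eq_one _
      have hne1 : p ^ k ≠ 1 := fun h => by rw [h, orderOf_one] at hord; omega
      rcases hpL with ⟨h, -⟩ | ⟨h, -⟩
      · exact (u1 _ (pow_mem h k) hsq).resolve_left hne1
      · exact (u2 _ (pow_mem h k) hsq).resolve_left hne1
    -- a 2-element of the torus
    have htor : ∀ (L : Subgroup G) (i : G), (∀ g ∈ L, g * g = 1 → g = 1 ∨ g = j) →
        (∀ q, q ∈ L → q * i = i * q → (∃ r', orderOf q = 2 ^ r') → q ∈ S) →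
        ∀ q ∈ L, q * i = i * q → ∀ r', (q ^ 2 ^ r' = 1 ∨ q ^ 2 ^ r' = j) → q ^ k = 1 ∨ q ^ k = j := by
      intro L i hu hS q hq hqi r' hr'
      have hdvd : orderOf q ∣ 2 ^ (r' + 1) := by
        refine orderOf_dvd_of_pow_eq_one ?_
        rw [pow_succ, pow_mul]
        rcases hr' with h | h <;> rw [h, pow_two]
        · exact one_mul 1
        · exact hj2
      obtain ⟨r'', -, hr''⟩ := (Nat.dvd_prime_pow Nat.prime_two).mp hdvd
      have hle' := hmax q (hS q hq hqi ⟨r'', hr''⟩)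
      rw [hr'', hr] at hle'
      have hle2 := (Nat.pow_le_pow_iff_right (by norm_num)).mp hle'
      refine hu _ (pow_mem hq k) ?_
      rw [← pow_two, ← pow_mul, hk, ← pow_succ, show r - 1 + 1 = r by omega]
      exact orderOf_dvd_iff_pow_eq_one.mp (hr'' ▸ pow_dvd_pow 2 hle2)
    -- pick a Sylow subgroup of `C ⊓ C(t)` containing `x₁x₂` and `x₁x₂p`
    set w := x₁ * x₂ with hw
    set D := C ⊓ Subgroup.centralizer ({t} : Set G) with hD
    have hmemD : ∀ g, g ∈ C → g * t = t * g → g ∈ D := fun g h h' => by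
      refine ⟨h, ?_⟩
      show g ∈ Subgroup.centralizer ({t} : Set G)
      rw [Subgroup.mem_centralizer_singleton_iff]
      first | exact h' | exact h'.symm
    have hmul : ∀ a ∈ L₁, ∀ b ∈ L₂, ∀ c ∈ L₁, ∀ d ∈ L₂, (a * b) * (c * d) = (a * c) * (b * d) := by
      intro a ha b hb c hc' d hd
      calc (a * b) * (c * d) = a * (b * c) * d := by group
        _ = a * (c * b) * d := by rw [hc c hc' b hb]
        _ = _ := by group
    have hwt : w * t = t * w := by
      rw [hw, hte, hmul x₁ hx₁ x₂ hx₂ i₁ hi₁ i₂ hi₂, hxi₁, hxi₂, hmul i₁ hi₁ i₂ hi₂ x₁ hx₁ x₂ hx₂]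
      calc j * (i₁ * x₁) * (j * (i₂ * x₂)) = j * ((i₁ * x₁) * j) * (i₂ * x₂) := by group
        _ = j * (j * (i₁ * x₁)) * (i₂ * x₂) := by rw [hjC _ (hL1C _ (mul_mem hi₁ hx₁))]
        _ = _ := by rw [← mul_assoc j j, hj2, one_mul]
    have hwC : w ∈ C := mul_mem (hL1C _ hx₁) (hL2C _ hx₂)
    have hww : w * w = 1 := by rw [hw, hmul x₁ hx₁ x₂ hx₂ x₁ hx₁ x₂ hx₂, hx₁2, hx₂2, hj2]
    have hpC : p ∈ C := hpL.elim (fun h => hL1C p h.1) (fun h => hL2C p h.1)
    have hpt : p * t = t * p := by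
      rw [hte]
      rcases hpL with ⟨h, hi'⟩ | ⟨h, hi'⟩
      · rw [← mul_assoc, hi', mul_assoc, hc p h i₂ hi₂, ← mul_assoc]
      · rw [← mul_assoc, ← hc i₁ hi₁ p h, mul_assoc, hi', ← mul_assoc]
    have hwp : (w * p) * (w * p) = 1 := by
      have hanti : ∀ (L : Subgroup G) (i x q : G), (∀ i ∈ L, ∀ x ∈ L, i * i = j → x * i = j * (i * x) → x * x = j) →
          i ∈ L → x ∈ L → q ∈ L → i * i = j → x * i = j * (i * x) → q * i = i * q →
          (x * q) * (x * q) = j := by
        intro L i x q hL hiL hxL hqL hii hxi hqi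
        refine hL i hiL (x * q) (mul_mem hxL hqL) hii ?_
        rw [mul_assoc, hqi, ← mul_assoc, hxi]
        group
      rcases hpL with ⟨h, hi'⟩ | ⟨h, hi'⟩
      · have e : w * p = (x₁ * p) * x₂ := by rw [hw, mul_assoc, ← hc p h x₂ hx₂, ← mul_assoc]
        rw [e, hmul _ (mul_mem hx₁ h) x₂ hx₂ _ (mul_mem hx₁ h) x₂ hx₂,
          hanti L₁ i₁ x₁ p a1 hi₁ hx₁ h hi₁2 hxi₁ hi', hx₂2, hj2]
      · have e : w * p = x₁ * (x₂ * p) := by rw [hw, mul_assoc]
        rw [e, hmul x₁ hx₁ _ (mul_mem hx₂ h) x₁ hx₁ _ (mul_mem hx₂ h),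
          hanti L₂ i₂ x₂ p a2 hi₂ hx₂ h hi₂2 hxi₂ hi', hx₁2, hj2]
    -- `⟨w, p⟩` is a 2-group
    have hwinv : w⁻¹ = w := inv_eq_of_mul_eq_one_right hww
    have hwnorm : w ∈ Subgroup.normalizer ((Subgroup.zpowers p : Subgroup G) : Set G) := by
      refine Subgroup.mem_normalizer_fintype (S := ((Subgroup.zpowers p : Subgroup G) : Set G)) ?_
      intro v hv
      obtain ⟨z, rfl⟩ := Subgroup.mem_zpowers_iff.mp hv
      rw [← conj_zpow, show w * p * w⁻¹ = p⁻¹ by
        rw [hwinv]; exact eq_inv_of_mul_eq_one_left (by rw [mul_assoc]; exact hwp), inv_zpow, SetLike.mem_coe]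
      exact inv_mem (Subgroup.zpow_mem_zpowers p z)
    have hR2 : IsPGroup 2 ↥(Subgroup.zpowers w ⊔ Subgroup.zpowers p : Subgroup G) := by
      refine IsPGroup.to_sup_of_normal_right' ?_ ?_ ((Subgroup.zpowers_le).mpr hwnorm)
      · exact IsPGroup.of_card (n := 1) (by
          rw [Nat.card_zpowers, pow_one]
          exact orderOf_eq_prime (by rw [pow_two, hww]) (fun h => by
            have h' : x₁ ∈ L₂ := by
              rw [hw] at h; rw [eq_inv_of_mul_eq_one_left h]; exact inv_mem hx₂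
            rcases hmeet x₁ hx₁ h' with e | e <;> rw [e] at hx₁2
            · exact hj1 (by simpa using hx₁2.symm)
            · exact hj1 (hx₁2.symm.trans hj2)))
      · exact IsPGroup.of_card (n := r) (by rw [Nat.card_zpowers, hr])
    have hRD : Subgroup.zpowers w ⊔ Subgroup.zpowers p ≤ D :=
      sup_le (Subgroup.zpowers_le.mpr (hmemD w hwC hwt)) (Subgroup.zpowers_le.mpr (hmemD p hpC hpt))
    obtain ⟨P, hP⟩ := (hR2.comap_of_injective D.subtype Subtype.val_injective).exists_le_sylow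
    set T := (P : Subgroup D).map D.subtype with hT
    have hTD : T ≤ D := Subgroup.map_subtype_le _
    have hT2 : IsPGroup 2 T := P.2.map _
    have hRT : Subgroup.zpowers w ⊔ Subgroup.zpowers p ≤ T := by
      intro y hy
      exact ⟨⟨y, hRD hy⟩, hP hy, rfl⟩
    -- `T` is not a Sylow subgroup of `C`
    have hi₁x₁ : IsPGroup 2 ↥(Subgroup.zpowers x₁ ⊔ Subgroup.zpowers i₁ : Subgroup G) := by
      refine IsPGroup.to_sup_of_normal_right' ?_ (IsPGroup.of_card (n := 2) (by rw [Nat.card_zpowers, hi₁4]))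
        ((Subgroup.zpowers_le).mpr ?_)
      · have : orderOf x₁ ∣ 2 ^ 2 := orderOf_dvd_of_pow_eq_one (by
          rw [show (2:ℕ) ^ 2 = 2 * 2 from rfl, pow_mul, pow_two, pow_two, hx₁2, hj2])
        obtain ⟨r', -, hr'⟩ := (Nat.dvd_prime_pow Nat.prime_two).mp this
        exact IsPGroup.of_card (n := r') (by rw [Nat.card_zpowers, hr'])
      · refine Subgroup.mem_normalizer_fintype (S := ((Subgroup.zpowers i₁ : Subgroup G) : Set G)) ?_
        intro v hv
        obtain ⟨z, rfl⟩ := Subgroup.mem_zpowers_iff.mp hv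
        rw [← conj_zpow, hxi₁, SetLike.mem_coe]
        refine zpow_mem ?_ _
        rw [show j * (i₁ * x₁) * x₁⁻¹ = j * i₁ by group, ← hi₁2]
        exact mul_mem (mul_mem (Subgroup.mem_zpowers _) (Subgroup.mem_zpowers _)) (Subgroup.mem_zpowers _)
    -- a Sylow subgroup of `C` does not centralise `t`
    have hTsyl : ∀ Q : Sylow 2 C, Nat.card (Q : Subgroup C) ≠ Nat.card T := by
      intro Q hQ
      have hTC : T ≤ C := hTD.trans inf_le_left
      have hcard : Nat.card (T.subgroupOf C) = Nat.card T :=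
        Nat.card_congr (Subgroup.subgroupOfEquivOfLe hTC).toEquiv
      let Q' : Sylow 2 C := Sylow.ofCard (T.subgroupOf C) (by rw [hcard, ← hQ]; exact Q.card_eq_multiplicity)
      obtain ⟨Q'', hQ''⟩ := (hi₁x₁.comap_of_injective C.subtype Subtype.val_injective).exists_le_sylow
      obtain ⟨c, hc'⟩ := MulAction.exists_smul_eq C Q' Q''
      have hcent : ∀ y ∈ (Subgroup.zpowers x₁ ⊔ Subgroup.zpowers i₁ : Subgroup G),
          y * ((c : G) * t * (c : G)⁻¹) = ((c : G) * t * (c : G)⁻¹) * y := by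
        intro y hy
        have hyC : y ∈ C := (sup_le (Subgroup.zpowers_le.mpr (hL1C _ hx₁))
          (Subgroup.zpowers_le.mpr (hL1C _ hi₁))) hy
        have hmem : (⟨y, hyC⟩ : C) ∈ (Q'' : Subgroup C) := hQ'' hy
        rw [← hc', Sylow.coe_subgroup_smul, Subgroup.mem_pointwise_smul_iff_inv_smul_mem,
          MulAut.smul_def, MulAut.conj_inv_apply] at hmem
        have h' : (c : G)⁻¹ * y * (c : G) ∈ T := hmem
        have h'' := Subgroup.mem_centralizer_singleton_iff.mp (hTD h').2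
        have h3 : (c : G)⁻¹ * y * (c : G) * t = t * ((c : G)⁻¹ * y * (c : G)) := by
          first | exact h'' | exact h''.symm
        calc y * ((c : G) * t * (c : G)⁻¹) = (c : G) * ((c : G)⁻¹ * y * (c : G) * t) * (c : G)⁻¹ := by group
          _ = (c : G) * (t * ((c : G)⁻¹ * y * (c : G))) * (c : G)⁻¹ := by rw [h3]
          _ = _ := by group
      set t' := (c : G) * t * (c : G)⁻¹ with ht'
      have ht'2 : t' * t' = 1 := by
        rw [ht']
        calc (c : G) * t * (c : G)⁻¹ * ((c : G) * t * (c : G)⁻¹) = (c : G) * (t * t) * (c : G)⁻¹ := by group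
          _ = 1 := by rw [ht2]; group
      obtain ⟨a, ha, b, hb, e⟩ := hM t' (hinvM t' (mul_mem (mul_mem c.2 htC) (inv_mem c.2)) ht'2)
      have hcomm : ∀ y ∈ L₁, y * t' = t' * y → y * a = a * y := by
        intro y hy h
        rw [e, ← mul_assoc] at h
        have h' : y * a * b = a * y * b := by rw [h, mul_assoc, ← hc y hy b hb, ← mul_assoc]
        exact mul_right_cancel h'
      have hai := hcomm i₁ hi₁ (hcent i₁ (Subgroup.mem_sup_right (Subgroup.mem_zpowers _)))
      have hax := hcomm x₁ hx₁ (hcent x₁ (Subgroup.mem_sup_left (Subgroup.mem_zpowers _)))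
      have ha2 : a * a = j := by
        have hsq' : (a * a) * (b * b) = 1 := by rw [← hmul a ha b hb a ha b hb, ← e, ht'2]
        rcases hmeet _ (mul_mem ha ha) (by
            rw [eq_inv_of_mul_eq_one_left hsq']; exact inv_mem (mul_mem hb hb)) with h | h
        · exfalso
          rw [h, one_mul] at hsq'
          apply htj
          have hct : t' = j ∨ t' = 1 := by
            rcases u1 a ha h with ha' | ha' <;> rcases u2 b hb hsq' with hb' | hb' <;>
              rw [e, ha', hb'] <;> simp [hj2]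
          have hteq : t = (c : G)⁻¹ * t' * (c : G) := by rw [ht']; group
          rcases hct with h' | h'
          · rw [hteq, h', mul_assoc, ← hjC _ c.2, inv_mul_cancel_left]
          · exact absurd (by rw [hteq, h']; group) ht1
        · exact h
      have hanti' : (x₁ * a) * i₁ = j * (i₁ * (x₁ * a)) := by
        rw [mul_assoc, ← hai, ← mul_assoc, hxi₁]; group
      have := a1 i₁ hi₁ (x₁ * a) (mul_mem hx₁ ha) hi₁2 hanti'
      apply hj1
      calc j = (x₁ * a) * (x₁ * a) := this.symm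
        _ = x₁ * (a * x₁) * a := by group
        _ = (x₁ * x₁) * (a * a) := by rw [← hax]; group
        _ = 1 := by rw [hx₁2, ha2, hj2]
    -- a Sylow subgroup of `C(t)` containing `T`
    set Ct := Subgroup.centralizer ({t} : Set G) with hCt
    have hconjC : C.map (MulAut.conj g).toMonoidHom = Ct := by
      ext y
      rw [Subgroup.mem_map_equiv, hmemC, MulAut.conj_symm_apply, hCt, Subgroup.mem_centralizer_singleton_iff, ht]
      constructor
      · intro h
        first
        | calc y * (g * j * g⁻¹) = g * (g⁻¹ * y * g * j) * g⁻¹ := by group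
            _ = g * (j * (g⁻¹ * y * g)) * g⁻¹ := by rw [h]
            _ = _ := by group
        | calc (g * j * g⁻¹) * y = g * (j * (g⁻¹ * y * g)) * g⁻¹ := by group
            _ = g * (g⁻¹ * y * g * j) * g⁻¹ := by rw [h]
            _ = _ := by group
      · intro h
        first
        | calc g⁻¹ * y * g * j = g⁻¹ * (y * (g * j * g⁻¹)) * g := by group
            _ = g⁻¹ * ((g * j * g⁻¹) * y) * g := by rw [h]
            _ = _ := by group
        | calc g⁻¹ * y * g * j = g⁻¹ * (y * (g * j * g⁻¹)) * g := by group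
            _ = g⁻¹ * ((g * j * g⁻¹) * y) * g := by rw [← h]
            _ = _ := by group
    have hTCt : T ≤ Ct := hTD.trans inf_le_right
    obtain ⟨U, hU⟩ := (hT2.comap_of_injective Ct.subtype Subtype.val_injective).exists_le_sylow
    set T' := (U : Subgroup Ct).map Ct.subtype with hT'
    have hTT' : T ≤ T' := fun y hy => ⟨⟨y, hTCt hy⟩, hU hy, rfl⟩
    have hTne : T ≠ T' := by
      intro h
      obtain ⟨Q⟩ : Nonempty (Sylow 2 C) := inferInstance
      refine hTsyl Q ?_
      rw [h, Subgroup.card_map_of_injective Subtype.val_injective, Q.card_eq_multiplicity, U.card_eq_multiplicity,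
        ← hconjC, Subgroup.card_map_of_injective (MulEquiv.injective _)]
    have hT'2 : IsPGroup 2 T' := U.2.map _
    have : Fact (Nat.Prime 2) := ⟨Nat.prime_two⟩
    have hnil : Group.IsNilpotent T' := hT'2.isNilpotent
    have hlt : T.subgroupOf T' < ⊤ := lt_top_iff_ne_top.mpr fun h =>
      hTne (le_antisymm hTT' (Subgroup.subgroupOf_eq_top.mp h))
    have hgrow := Group.normalizerCondition_of_isNilpotent _ hlt
    obtain ⟨x, hxN, hxT⟩ := SetLike.exists_of_lt hgrow
    have hxC : (x : G) ∉ C := by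
      intro hxC
      apply hxT
      have hmem : (x : G) ∈ T := by
        have hxD : (x : G) ∈ D := ⟨hxC, Subgroup.map_subtype_le _ x.2⟩
        have hle' : T ≤ T' ⊓ D := le_inf hTT' hTD
        have heq : (P : Subgroup D) = (T' ⊓ D).subgroupOf D := P.3
          ((hT'2.to_le inf_le_left).comap_of_injective D.subtype Subtype.val_injective)
          (fun y hy => hle' ⟨y, hy, rfl⟩) |>.symm
        refine ⟨⟨x, hxD⟩, ?_, rfl⟩
        rw [heq]; exact ⟨x.2, hxD⟩
      exact hmem
    -- the invariant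
    have hprod : ∀ u ∈ T, u * u = 1 → ∀ v ∈ T, v * v = 1 →
        (u * v) ^ k = 1 ∨ (u * v) ^ k = j := by
      intro u hu hu2 v hv hv2
      have huM := hinvM u (hTD hu).1 hu2
      have hvM := hinvM v (hTD hv).1 hv2
      obtain ⟨a, ha, b, hb, e⟩ := hM _ (mul_mem huM hvM)
      have huvT : u * v ∈ T := mul_mem hu hv
      have hcom : (a * b) * t = t * (a * b) := by
        rw [← e]
        have := Subgroup.mem_centralizer_singleton_iff.mp (hTD huvT).2
        first | exact this | exact this.symm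
      obtain ⟨hca, hcb⟩ := hsplit a ha b hb hcom
      have hab : Commute a b := hc a ha b hb
      rw [e, hab.mul_pow]
      obtain ⟨r', hr'⟩ := hT2 ⟨u * v, huvT⟩
      have hr'' : a ^ 2 ^ r' * b ^ 2 ^ r' = 1 := by
        rw [← hab.mul_pow, ← e]; exact congrArg Subtype.val hr'
      have ha' := hmeet _ (pow_mem ha (2 ^ r')) (by
        rw [eq_inv_of_mul_eq_one_left hr'']; exact inv_mem (pow_mem hb _))
      have hb' := hmeet _ (by
        rw [eq_inv_of_mul_eq_one_right hr'']; exact inv_mem (pow_mem ha _)) (pow_mem hb (2 ^ r'))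
      have hk2 : ∀ q : G, q * q = j → q ^ k = 1 ∨ q ^ k = j := fun q hq => by
        rw [hk, show r - 1 = (r - 2) + 1 by omega, pow_succ', pow_mul, pow_two, hq]
        rcases Nat.eq_zero_or_pos (r - 2) with h0 | h0
        · rw [h0, pow_zero, pow_one]; exact Or.inr rfl
        · left
          rw [show r - 2 = (r - 3) + 1 by omega, pow_succ', pow_mul, pow_two, hj2, one_pow]
      have h1 : a ^ k = 1 ∨ a ^ k = j := by
        rcases hca with h | h
        · exact htor L₁ i₁ u1 (fun q hq hqi hr0 => ⟨Or.inl ⟨hq, hqi⟩, hr0⟩) a ha h r' ha'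
        · exact hk2 a (a1 i₁ hi₁ a ha hi₁2 h)
      have h2 : b ^ k = 1 ∨ b ^ k = j := by
        rcases hcb with h | h
        · exact htor L₂ i₂ u2 (fun q hq hqi hr0 => ⟨Or.inr ⟨hq, hqi⟩, hr0⟩) b hb h r' hb'
        · exact hk2 b (a2 i₂ hi₂ b hb hi₂2 h)
      rcases h1 with h1 | h1 <;> rcases h2 with h2 | h2 <;> rw [h1, h2] <;> simp [hj2]
    have hwT : w ∈ T := hRT (Subgroup.mem_sup_left (Subgroup.mem_zpowers w))
    have hpT : p ∈ T := hRT (Subgroup.mem_sup_right (Subgroup.mem_zpowers p))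
    have hnorm : ∀ y ∈ T, (x : G) * y * (x : G)⁻¹ ∈ T := fun y hy => by
      have := (Subgroup.mem_normalizer_iff.mp hxN ⟨y, hTT' hy⟩).1 (show (⟨y, hTT' hy⟩ : T') ∈ T.subgroupOf T' from hy)
      exact this
    have hc2 : ∀ y : G, y * y = 1 → ((x : G) * y * (x : G)⁻¹) * ((x : G) * y * (x : G)⁻¹) = 1 := by
      intro y hy
      calc ((x : G) * y * (x : G)⁻¹) * ((x : G) * y * (x : G)⁻¹) = (x : G) * (y * y) * (x : G)⁻¹ := by group
        _ = 1 := by rw [hy]; group
    have himg := hprod _ (hnorm w hwT) (hc2 w hww) _ (hnorm _ (mul_mem hwT hpT)) (hc2 _ hwp)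
    rw [show (x : G) * w * (x : G)⁻¹ * ((x : G) * (w * p) * (x : G)⁻¹) = (x : G) * ((w * w) * p) * (x : G)⁻¹ by group,
      hww, one_mul, conj_pow, hpk] at himg
    rcases himg with h | h
    · exact hj1 (conj_eq_one_iff.mp h)
    · exact hxC ((hmemC _).2 (mul_inv_eq_iff_eq_mul.mp h))
  -- Z*
  refine (Subgroup.eq_top_iff' _).mpr fun g => ?_
  have hz := Cfsg.Agent.H28.zStar hiso g⁻¹
  set O := Cfsg.pPrimeCore 2 G with hO
  have hOodd : Odd (Nat.card O) := Nat.coprime_two_right.mp (Cfsg.Agent.H19.pPrimeCore_coprime 2)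
  have hOn : O.Normal := Cfsg.Agent.H19.pPrimeCore_normal 2 G
  have hOle : O ≤ Cfsg.oddCore G := le_sSup ⟨hOn, Nat.coprime_two_right.mpr hOodd⟩
  set z := g⁻¹ * j * g with hzdef
  have hzz : z * z = 1 := by
    rw [hzdef]; calc g⁻¹ * j * g * (g⁻¹ * j * g) = g⁻¹ * (j * j) * g := by group
      _ = 1 := by rw [hj2]; group
  have hv : j * z ∈ O := by
    have : j * z = j * g⁻¹ * j⁻¹ * g⁻¹⁻¹ := by rw [hzdef, hjinv, inv_inv]; group
    rw [this]; exact hz
  set v := j * z with hvdef
  obtain ⟨k, hk⟩ := hOodd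
  have hvk : v ^ (2 * k + 1) = 1 := by
    have := pow_card_eq_one' (G := O) (x := ⟨v, hv⟩)
    rw [hk] at this
    exact congrArg Subtype.val this
  have hjv : j * v ^ k * j = (v ^ k)⁻¹ := by
    have h1 : j * v * j⁻¹ = v⁻¹ := by
      rw [hvdef, hjinv, mul_inv_rev, inv_eq_of_mul_eq_one_right hzz, hjinv, ← mul_assoc j j z, hj2, one_mul]
    calc j * v ^ k * j = (j * v * j⁻¹) ^ k := by rw [conj_pow, hjinv]
      _ = (v ^ k)⁻¹ := by rw [h1, inv_pow]
  have hfix : (v ^ k) * j * (v ^ k)⁻¹ = z := by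
    have h2 : z = j * v := by rw [hvdef, ← mul_assoc, hj2, one_mul]
    rw [h2]
    calc v ^ k * j * (v ^ k)⁻¹ = v ^ k * j * (j * v ^ k * j) := by rw [hjv]
      _ = v ^ k * (j * j) * v ^ k * j := by group
      _ = v ^ (2 * k + 1) * v⁻¹ * j := by rw [hj2, mul_one, ← pow_add, pow_succ, mul_inv_cancel_right, two_mul]
      _ = v⁻¹ * j := by rw [hvk, one_mul]
      _ = j * v := by rw [hvdef, mul_inv_rev, hjinv, inv_eq_of_mul_eq_one_right hzz, ← mul_assoc j j, hj2, one_mul, mul_assoc, hj2, mul_one]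
  have hgC : g * v ^ k ∈ C := by
    rw [hmemC]
    calc g * v ^ k * j = g * (v ^ k * j * (v ^ k)⁻¹) * v ^ k := by group
      _ = g * z * v ^ k := by rw [hfix]
      _ = j * (g * v ^ k) := by rw [hzdef]; group
  rw [show g = g * v ^ k * (v ^ k)⁻¹ by group]
  exact mul_mem (Subgroup.mem_sup_left hgC) (Subgroup.mem_sup_right (hOle (inv_mem (pow_mem hv k))))

end Cfsg.Agent.S3211
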