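import Cfsg.Statements.S3213
import Mathlib

set_option autoImplicit false
open Cfsg

namespace Cfsg.Agent.S3213

/-- An element of order dividing `5` of a four dimensional space over `F₃` fixing a nonzero vector is trivial. -/
theorem pow_five_fixed {F : Type*} [Field F] [Fintype F] (hF : Fintype.card F = 3) {V : Type*}
    [AddCommGroup V] [Module F V] [FiniteDimensional F V] (hV : Module.finrank F V = 4)
    (g : Module.End F V) (hg : g ^ 5 = 1) (hfix : LinearMap.ker (g - 1) ≠ ⊥) : g = 1 := by
  classical
  haveI : Finite V := Module.finite_of_finite F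
  haveI : Fact (Nat.Prime 5) := ⟨by norm_num⟩
  have h3 : ((3 : ℕ) : F) = 0 := hF ▸ Nat.cast_card_eq_zero F
  have h5 : (5 : F) ≠ 0 := by
    have : (5 : F) = -1 := by linear_combination (2 : F) * h3
    rw [this]; simp
  set W := LinearMap.range (g - 1) with hW
  have hinv : ∀ w ∈ W, g w ∈ W := by
    rintro _ ⟨u, rfl⟩
    exact ⟨g u, by simp [map_sub]⟩
  have hno : ∀ w ∈ W, g w = w → w = 0 := by
    rintro _ ⟨u, rfl⟩ hw
    set w := (g - 1) u with hwdef
    have hu : ∀ k : ℕ, (g ^ k) u = u + (k : F) • w := by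
      intro k
      induction k with
      | zero => simp
      | succ k ih =>
        rw [pow_succ', Module.End.mul_apply, ih, map_add, map_smul, hw, Nat.cast_succ, add_smul, one_smul]
        have : g u = u + w := by simp [hwdef]
        rw [this]; abel
    have := hu 5
    rw [hg, Module.End.one_apply] at this
    have h0 : ((5 : ℕ) : F) • w = 0 := by simpa using this
    exact (smul_eq_zero.1 h0).resolve_left (by exact_mod_cast h5)
  let σ : Equiv.Perm ↥W :=
    { toFun := fun w => ⟨g w, hinv w w.2⟩
      invFun := fun w => ⟨(g ^ 4) w, by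
        have h := hinv _ (hinv _ (hinv _ (hinv _ w.2)))
        simpa [pow_succ, Module.End.mul_apply] using h⟩
      left_inv := fun w => Subtype.ext (by
        show (g ^ 4) (g w) = w
        rw [← Module.End.mul_apply, ← pow_succ, hg, Module.End.one_apply])
      right_inv := fun w => Subtype.ext (by
        show g ((g ^ 4) w) = w
        rw [← Module.End.mul_apply, ← pow_succ', hg, Module.End.one_apply]) }
  have hσ : σ ^ 5 ^ 1 = 1 := by
    refine Equiv.ext fun w => Subtype.ext ?_
    show (σ (σ (σ (σ (σ w))))).1 = w.1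
    show g (g (g (g (g w.1)))) = w.1
    have := congrArg (fun e : Module.End F V => e w.1) hg
    simpa [pow_succ, Module.End.mul_apply] using this
  haveI : Fintype ↥W := Fintype.ofFinite _
  have hmod := Equiv.Perm.card_compl_support_modEq hσ
  have hsupp : σ.supportᶜ = {0} := by
    ext w
    simp only [Finset.mem_compl, Equiv.Perm.mem_support, not_not, Finset.mem_singleton]
    constructor
    · intro h
      exact Subtype.ext (hno w w.2 (congrArg Subtype.val h))
    · rintro rfl
      exact Subtype.ext (map_zero g)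
  rw [hsupp, Finset.card_singleton, Module.card_eq_pow_finrank (K := F) (V := ↥W), hF] at hmod
  have hle : Module.finrank F W ≤ 3 := by
    have := LinearMap.finrank_range_add_finrank_ker (g - 1)
    rw [hV, ← hW] at this
    have hk : 1 ≤ Module.finrank F (LinearMap.ker (g - 1)) := Submodule.one_le_finrank_iff.2 hfix
    omega
  have h0 : Module.finrank F W = 0 := by
    interval_cases hd : Module.finrank F W <;> simp_all [Nat.ModEq]
  have : W = ⊥ := Submodule.finrank_eq_zero.1 h0
  rw [hW, LinearMap.range_eq_bot, sub_eq_zero] at this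
  exact this

/-- The matrix computation in `SL₂(5)`. -/
theorem table : ∀ a b c d : ZMod 5, a * d - b * c = 1 →
    ((!![a, b; c, d] : Matrix (Fin 2) (Fin 2) (ZMod 5)) ≠ 1 ∧ !![a, b; c, d] * (!![a, b; c, d] * !![a, b; c, d]) = 1) →
    ∃ k : Fin 2,
      (fun z : Matrix (Fin 2) (Fin 2) (ZMod 5) => z * z ≠ 1 ∧ (z * z) * ((z * z) * ((z * z) * ((z * z) * (z * z)))) = 1)
        (!![a, b; c, d] * (!![1, (k.val : ZMod 5) + 1; 0, 1] * !![a, b; c, d] * !![1, -((k.val : ZMod 5) + 1); 0, 1])) := by
  decide +kernel

/-- A third-order element of `SL₂(5)` and one of its conjugates multiply to a square root of an element of order 5. -/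
theorem exists_conj_five (x : Matrix.SpecialLinearGroup (Fin 2) (ZMod 5)) (hx : orderOf x = 3) :
    ∃ u : Matrix.SpecialLinearGroup (Fin 2) (ZMod 5),
      (x * (u * x * u⁻¹)) ^ 2 ≠ 1 ∧ ((x * (u * x * u⁻¹)) ^ 2) ^ 5 = 1 := by
  have hX : (x : Matrix (Fin 2) (Fin 2) (ZMod 5)) =
      !![x.1 0 0, x.1 0 1; x.1 1 0, x.1 1 1] := Matrix.eta_fin_two _
  have hne : x ≠ 1 := by rintro rfl; simp at hx
  have h3 : x * (x * x) = 1 := by
    have := pow_orderOf_eq_one x
    rwa [hx, pow_succ', pow_two] at this
  obtain ⟨k, hk1, hk2⟩ := table (x.1 0 0) (x.1 0 1) (x.1 1 0) (x.1 1 1)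
    (by rw [← Matrix.det_fin_two]; exact x.2)
    ⟨by rw [← hX]; exact fun h => hne (Subtype.ext h), by rw [← hX]; exact congrArg Subtype.val h3⟩
  rw [← hX] at hk1 hk2
  let u : Matrix.SpecialLinearGroup (Fin 2) (ZMod 5) :=
    ⟨!![1, (k.val : ZMod 5) + 1; 0, 1], by simp [Matrix.det_fin_two]⟩
  have hui : ((u⁻¹ : Matrix.SpecialLinearGroup (Fin 2) (ZMod 5)) : Matrix (Fin 2) (Fin 2) (ZMod 5)) =
      !![1, -((k.val : ZMod 5) + 1); 0, 1] := by
    rw [Matrix.SpecialLinearGroup.coe_inv, Matrix.adjugate_fin_two]
    simp [u]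
  refine ⟨u, fun h => hk1 ?_, Subtype.ext ?_⟩
  · have := congrArg Subtype.val h
    simp only [pow_two, Matrix.SpecialLinearGroup.coe_mul, hui, Matrix.SpecialLinearGroup.coe_one] at this
    exact this
  · simp only [pow_succ', pow_zero, mul_one, Matrix.SpecialLinearGroup.coe_mul, hui, Matrix.SpecialLinearGroup.coe_one]
    exact hk2

/-- Let F be the field with 3 elements and K the field with 5 elements. For every injective homomorphism φ from SL₂(K) into the symplectic group Sp₄(F) (4 × 4 matrices g with g J gᵀ = J for the standard alternating matrix J) and every element x of order 3 of SL₂(K), the vectors of F⁴ fixed by φ(x) form a 2-dimensional subspace that is totally isotropic for the alternating form defined by J. -/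
theorem result {F : Type*} [Field F] [Fintype F] (hF : Fintype.card F = 3)
    {K : Type*} [Field K] [Fintype K] (hK : Fintype.card K = 5)
    (φ : Matrix.SpecialLinearGroup (Fin 2) K →* ↥(Matrix.symplecticGroup (Fin 2) F)) (hφ : Function.Injective φ)
    (x : Matrix.SpecialLinearGroup (Fin 2) K) (hx : orderOf x = 3) :
    Module.finrank F ↥(LinearMap.ker (Matrix.toLin' ((φ x : Matrix (Fin 2 ⊕ Fin 2) (Fin 2 ⊕ Fin 2) F)) - LinearMap.id)) = 2 ∧
      ∀ v w : Fin 2 ⊕ Fin 2 → F, (φ x : Matrix (Fin 2 ⊕ Fin 2) (Fin 2 ⊕ Fin 2) F).mulVec v = v →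
        (φ x : Matrix (Fin 2 ⊕ Fin 2) (Fin 2 ⊕ Fin 2) F).mulVec w = w →
          dotProduct v ((Matrix.J (Fin 2) F).mulVec w) = 0 := by
  classical
  haveI : Fact (Nat.Prime 5) := ⟨by norm_num⟩
  let T : Matrix.SpecialLinearGroup (Fin 2) K →* Module.End F (Fin 2 ⊕ Fin 2 → F) :=
    (Matrix.toLinAlgEquiv' (R := F) (n := Fin 2 ⊕ Fin 2)).toRingEquiv.toRingHom.toMonoidHom.comp
      ((Matrix.symplecticGroup (Fin 2) F).subtype.comp φ)
  have hT : Function.Injective T := fun a b h =>
    hφ (Subtype.ext ((Matrix.toLinAlgEquiv' (R := F) (n := Fin 2 ⊕ Fin 2)).injective h))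
  have hV : Module.finrank F (Fin 2 ⊕ Fin 2 → F) = 4 := by simp
  have h3 : ((3 : ℕ) : F) = 0 := hF ▸ Nat.cast_card_eq_zero F
  push_cast at h3
  let e : ZMod 5 ≃+* K := ZMod.ringEquivOfPrime K (by norm_num) hK
  let ψ := Matrix.SpecialLinearGroup.map (n := Fin 2) (e : ZMod 5 →+* K)
  let ψ' := Matrix.SpecialLinearGroup.map (n := Fin 2) (e.symm : K →+* ZMod 5)
  have hψ : ∀ a, ψ (ψ' a) = a := fun a => by
    refine Matrix.SpecialLinearGroup.ext _ _ fun i j => ?_
    simp [ψ, ψ']
  have hψ' : ∀ a, ψ' (ψ a) = a := fun a => by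
    refine Matrix.SpecialLinearGroup.ext _ _ fun i j => ?_
    simp [ψ, ψ']
  have hx' : orderOf (ψ' x) = 3 := by
    rw [orderOf_injective ψ' (Function.LeftInverse.injective hψ), hx]
  obtain ⟨u, hu1, hu2⟩ := exists_conj_five _ hx'
  have hu1' : (x * (ψ u * x * (ψ u)⁻¹)) ^ 2 ≠ 1 := fun h => hu1 (by
    have := congrArg ψ' h
    simpa [hψ'] using this)
  have hu2' : ((x * (ψ u * x * (ψ u)⁻¹)) ^ 2) ^ 5 = 1 := by
    have := congrArg ψ hu2
    simpa [hψ] using this
  set N := T x - 1 with hN
  have hker2 : Module.finrank F (LinearMap.ker N) ≤ 2 := by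
    by_contra hgt
    have hmap : LinearMap.ker (T (ψ u * x * (ψ u)⁻¹) - 1) = (LinearMap.ker N).map (T (ψ u)) := by
      ext v
      simp only [LinearMap.mem_ker, LinearMap.sub_apply, Module.End.one_apply, sub_eq_zero, hN, Submodule.mem_map]
      constructor
      · intro hv
        refine ⟨T (ψ u)⁻¹ v, ?_, ?_⟩
        · have := congrArg (T (ψ u)⁻¹) hv
          rw [← Module.End.mul_apply, ← map_mul, ← mul_assoc, inv_mul_cancel_left, map_mul, Module.End.mul_apply] at this
          exact this
        · rw [← Module.End.mul_apply, ← map_mul, mul_inv_cancel, map_one, Module.End.one_apply]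
      · rintro ⟨w, hw, rfl⟩
        rw [← Module.End.mul_apply, ← map_mul, inv_mul_cancel_right, map_mul, Module.End.mul_apply, hw]
    have hinj : Function.Injective (T (ψ u)) := fun a b h => by
      have := congrArg (T (ψ u)⁻¹) h
      rwa [← Module.End.mul_apply, ← Module.End.mul_apply, ← map_mul, inv_mul_cancel, map_one] at this
    have hd : Module.finrank F (LinearMap.ker (T (ψ u * x * (ψ u)⁻¹) - 1)) = Module.finrank F (LinearMap.ker N) := by
      rw [hmap]
      exact (Submodule.equivMapOfInjective _ hinj _).finrank_eq.symm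
    have hsum := Submodule.finrank_sup_add_finrank_inf_eq (LinearMap.ker N) (LinearMap.ker (T (ψ u * x * (ψ u)⁻¹) - 1))
    have hle := Submodule.finrank_le (LinearMap.ker N ⊔ LinearMap.ker (T (ψ u * x * (ψ u)⁻¹) - 1))
    rw [hd] at hsum
    rw [hV] at hle
    obtain ⟨v, hv, hv0⟩ := Submodule.exists_mem_ne_zero_of_ne_bot
      (p := LinearMap.ker N ⊓ LinearMap.ker (T (ψ u * x * (ψ u)⁻¹) - 1))
      (by intro h; rw [h, finrank_bot] at hsum; omega)
    simp only [Submodule.mem_inf, LinearMap.mem_ker, LinearMap.sub_apply, Module.End.one_apply, sub_eq_zero, hN] at hv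
    apply hu1'
    apply hT
    rw [map_one]
    refine pow_five_fixed hF hV _ (by rw [← map_pow, hu2', map_one]) fun hbot => hv0 ?_
    have : v ∈ LinearMap.ker (T ((x * (ψ u * x * (ψ u)⁻¹)) ^ 2) - 1) := by
      simp only [LinearMap.mem_ker, LinearMap.sub_apply, Module.End.one_apply, sub_eq_zero, pow_two, map_mul T x, map_mul T (x * _),
        Module.End.mul_apply, hv.1, hv.2]
    rw [hbot] at this
    exact this
  let B : (Fin 2 ⊕ Fin 2 → F) → (Fin 2 ⊕ Fin 2 → F) → F := fun v w => dotProduct v ((Matrix.J (Fin 2) F).mulVec w)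
  have hBneg : ∀ v w, B w v = -B v w := fun v w => by
    show w ⬝ᵥ (Matrix.J (Fin 2) F).mulVec v = -(v ⬝ᵥ (Matrix.J (Fin 2) F).mulVec w)
    rw [Matrix.dotProduct_mulVec, ← Matrix.mulVec_transpose, Matrix.J_transpose, Matrix.neg_mulVec, neg_dotProduct, dotProduct_comm]
  have hB0 : ∀ v, B v v = 0 := fun v => by
    have := hBneg v v
    linear_combination -(this) + (B v v) * h3
  have hTx : ∀ v, T x v = (φ x : Matrix (Fin 2 ⊕ Fin 2) (Fin 2 ⊕ Fin 2) F).mulVec v := fun v => rfl
  have hBinv : ∀ v w, B (T x v) (T x w) = B v w := fun v w => by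
    simp only [B, hTx]
    rw [Matrix.mulVec_mulVec, ← Matrix.vecMul_transpose, ← Matrix.dotProduct_mulVec,
      Matrix.mulVec_mulVec, ← Matrix.mul_assoc, SymplecticGroup.mem_iff'.1 (φ x).2]
  have hN3 : N * (N * N) = 0 := by
    have hx3 : T x * (T x * T x) = 1 := by
      rw [← map_mul, ← map_mul, ← map_one T]
      congr 1
      have := pow_orderOf_eq_one x
      rwa [hx, pow_succ', pow_two] at this
    refine LinearMap.ext fun v => ?_
    have hv := congrArg (fun f : Module.End F (Fin 2 ⊕ Fin 2 → F) => f v) hx3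
    simp only [Module.End.mul_apply, Module.End.one_apply] at hv
    simp only [hN, Module.End.mul_apply, LinearMap.sub_apply, Module.End.one_apply, map_sub, hv, LinearMap.zero_apply]
    have : (3 : F) • (T x v - T x (T x v)) = 0 := by rw [h3, zero_smul]
    linear_combination (norm := module) this
  have hrn := LinearMap.finrank_range_add_finrank_ker N
  rw [hV] at hrn
  have hcross : ∀ u w, T x w = w → B (N u) w = 0 := fun u w hw => by
    have hb : B (T x u) w = B u w := by
      have := hBinv u w
      rwa [hw] at this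
    show (T x u - u) ⬝ᵥ (Matrix.J (Fin 2) F).mulVec w = 0
    rw [sub_dotProduct]
    exact sub_eq_zero.2 hb
  have hNN : N * N = 0 := by
    by_contra hne
    have hz : ∀ v, B v (N (N v)) = 0 := fun v => by
      have e1 : B v (T x (T x v)) = B (T x v) v := by
        have hx3' : T x (T x (T x v)) = v := by
          rw [← Module.End.mul_apply, ← Module.End.mul_apply, ← map_mul, ← map_mul]
          have := pow_orderOf_eq_one x
          rw [hx, pow_succ, pow_two] at this
          rw [this, map_one, Module.End.one_apply]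
        rw [← hBinv v (T x (T x v)), hx3']
      have e2 := hBneg v (T x v)
      have e3 := hB0 v
      have hd : ∀ a b c : (Fin 2 ⊕ Fin 2 → F), B a (b - c) = B a b - B a c := fun a b c => by
        simp only [B, Matrix.mulVec_sub, dotProduct_sub]
      simp only [hN, LinearMap.sub_apply, Module.End.one_apply, map_sub]
      rw [hd, hd, hd, e1, e2, e3]
      linear_combination (-(B v (T x v))) * h3
    have hN2le : 2 ≤ Module.finrank F (LinearMap.range (N * N)) := by
      by_contra hlt
      have h1 : Module.finrank F (LinearMap.range (N * N)) ≤ 1 := by omega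
      obtain ⟨v, hv⟩ : ∃ v, N (N v) ≠ 0 := by
        by_contra hall
        push Not at hall
        exact hne (LinearMap.ext hall)
      obtain ⟨e0, he0⟩ := finrank_le_one_iff.1 h1
      have hsp : ∀ w, ∃ c : F, N (N w) = c • (N (N v)) := by
        intro w
        obtain ⟨cv, hcv⟩ := he0 ⟨N (N v), LinearMap.mem_range.2 ⟨v, rfl⟩⟩
        obtain ⟨cw, hcw⟩ := he0 ⟨N (N w), LinearMap.mem_range.2 ⟨w, rfl⟩⟩
        have hcv0 : cv ≠ 0 := by rintro rfl; exact hv (by simpa using (congrArg Subtype.val hcv).symm)
        refine ⟨cw / cv, ?_⟩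
        have a1 : cv • (e0 : (Fin 2 ⊕ Fin 2 → F)) = N (N v) := congrArg Subtype.val hcv
        have a2 : cw • (e0 : (Fin 2 ⊕ Fin 2 → F)) = N (N w) := congrArg Subtype.val hcw
        rw [← a1, ← a2, smul_smul, div_mul_cancel₀ _ hcv0]
      have hwit : ∀ w, B w (N (N v)) = 0 := by
        intro w
        obtain ⟨c, hc⟩ := hsp w
        have h1 := hz (v + w)
        have h2 := hz v
        have h3' := hz w
        simp only [map_add, hc, B, add_dotProduct, Matrix.mulVec_add, Matrix.mulVec_smul, dotProduct_add, dotProduct_smul, smul_eq_mul] at h1 h2 h3' ⊢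
        simp only [h2, h3', zero_add, add_zero, mul_zero] at h1
        exact h1
      apply hv
      have hJ : (Matrix.J (Fin 2) F).mulVec (N (N v)) = 0 := dotProduct_eq_zero _ fun w => by
        rw [dotProduct_comm]; exact hwit w
      have := congrArg ((Matrix.J (Fin 2) F).mulVec) hJ
      rw [Matrix.mulVec_mulVec, Matrix.J_squared, Matrix.mulVec_zero, Matrix.neg_mulVec, Matrix.one_mulVec, neg_eq_zero] at this
      exact this
    have hres := LinearMap.finrank_range_add_finrank_ker (N.comp (LinearMap.range N).subtype)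
    have hr2 : LinearMap.range (N.comp (LinearMap.range N).subtype) = LinearMap.range (N * N) := by
      rw [LinearMap.range_comp, Submodule.range_subtype, ← LinearMap.range_comp]
      rfl
    rw [hr2] at hres
    have hker : 2 ≤ Module.finrank F (LinearMap.ker (N.comp (LinearMap.range N).subtype)) := by
      refine hN2le.trans ?_
      rw [LinearMap.ker_comp, ← LinearEquiv.finrank_eq
        (Submodule.equivMapOfInjective (LinearMap.range N).subtype Subtype.val_injective _).symm,
        Submodule.map_comap_subtype]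
      refine Submodule.finrank_mono ?_
      rintro _ ⟨w, rfl⟩
      exact ⟨⟨N w, rfl⟩, LinearMap.congr_fun hN3 w⟩
    have htop : LinearMap.ker N = ⊥ := by
      apply Submodule.finrank_eq_zero.1
      omega
    exact hne (LinearMap.ext fun v => by
      have := LinearMap.congr_fun hN3 v
      exact (LinearMap.ker_eq_bot.1 htop) (this.trans (map_zero N).symm))
  have hle : LinearMap.range N ≤ LinearMap.ker N := by
    rintro _ ⟨w, rfl⟩
    exact LinearMap.congr_fun hNN w
  have hle' := Submodule.finrank_mono hle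
  have hdim : Module.finrank F (LinearMap.ker N) = 2 := by omega
  have heq : LinearMap.range N = LinearMap.ker N := Submodule.eq_of_le_of_finrank_eq hle (by omega)
  refine ⟨hdim, fun v w hv hw => ?_⟩
  obtain ⟨u0, rfl⟩ : v ∈ LinearMap.range N := by
    rw [heq, LinearMap.mem_ker, hN, LinearMap.sub_apply, Module.End.one_apply, hTx, hv, sub_self]
  exact hcross u0 w hw

end Cfsg.Agent.S3213
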