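import Cfsg.Statements.S3215
import Cfsg.Agent.H77.CentNilpotent
import Cfsg.Agent.S1264
import Cfsg.Agent.H21.Complement
import Cfsg.Agent.H85.OddCyclic
import Cfsg.Agent.H20.FixedPoints
import Mathlib.GroupTheory.SpecificGroups.ZGroup

set_option autoImplicit false
open Cfsg

namespace Cfsg.Agent.S3215

/-- Every odd-order `p`-subgroup is cyclic in the situation of S3215. -/
theorem cyclic_pgroup {H : Type*} [Group H] [Finite H] [Group.IsSolvable H]
    (hO : Cfsg.pPrimeCore 2 H = ⊥)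
    (hI : ∀ t : H, orderOf t = 2 → Cfsg.HasNormalPComplement 2 ↥(Subgroup.centralizer ({t} : Set H)))
    {p : ℕ} [hp : Fact p.Prime] (hp2 : p ≠ 2) (P : Subgroup H) (hP : IsPGroup p ↥P) : IsCyclic ↥P := by
  haveI : (Cfsg.pCore 2 H).Normal := H19.pCore_normal 2 H
  rcases subsingleton_or_nontrivial ↥(Cfsg.pCore 2 H) with hY | hY
  · have hbot : Cfsg.pCore 2 H = ⊥ := Subgroup.eq_bot_of_subsingleton _
    have := H77.centralizer_pCore_le 2 hO
    rw [hbot] at this
    have hall : ∀ h : H, h = 1 := fun h => by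
      have : h ∈ (⊥ : Subgroup H) := this (Subgroup.mem_centralizer_iff.2 fun v hv => by
        rw [Subgroup.mem_bot.1 hv, one_mul, mul_one])
      exact this
    haveI : Subsingleton ↥P := ⟨fun a b => Subtype.ext ((hall a).trans (hall b).symm)⟩
    exact isCyclic_of_subsingleton
  have hodd : ∀ x ∈ P, Odd (orderOf x) := by
    intro x hx
    obtain ⟨k, hk⟩ := IsPGroup.iff_orderOf.1 hP ⟨x, hx⟩
    rw [Subgroup.orderOf_mk] at hk
    rw [hk]
    exact (hp.out.odd_of_ne_two hp2).pow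
  have habel : ∀ A : Subgroup H, A ≤ P → IsMulCommutative ↥A → IsCyclic ↥A := by
    intro A hA hc
    refine H21.isCyclic_of_comm_fpf ((MulAut.conjNormal (H := Cfsg.pCore 2 H)).comp A.subtype) fun e he k hk => ?_
    by_contra hk1
    apply he
    apply Subtype.ext
    refine H77.eq_one_of_commute_pCore hO hI (hodd _ (hA e.2)) k.2 (fun h => hk1 (Subtype.ext h)) ?_
    have := congrArg Subtype.val hk
    simp only [MonoidHom.coe_comp, Function.comp_apply, MulAut.conjNormal_apply, Subgroup.coe_subtype] at this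
    exact mul_inv_eq_iff_eq_mul.1 this
  refine H85.isCyclic_of_unique_order_p hp2 hP fun a b ha hb => ?_
  haveI : Nontrivial ↥P := ⟨⟨a, 1, fun h => by rw [h, orderOf_one] at ha; exact hp.out.ne_one ha.symm⟩⟩
  haveI := hP.center_nontrivial
  obtain ⟨⟨w, hwc⟩, hw1⟩ := exists_ne (1 : ↥(Subgroup.center ↥P))
  obtain ⟨n, hn⟩ := IsPGroup.iff_orderOf.1 hP w
  have hn0 : n ≠ 0 := by
    rintro rfl
    exact hw1 (Subtype.ext (orderOf_eq_one_iff.1 (by simpa using hn)))
  set c : ↥P := w ^ p ^ (n - 1) with hcdef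
  have hco : orderOf c = p := by
    rw [hcdef, orderOf_pow, hn, Nat.gcd_eq_right (pow_dvd_pow p (Nat.sub_le n 1)),
      Nat.pow_div (Nat.sub_le n 1) hp.out.pos, show n - (n - 1) = 1 by omega, pow_one]
  have key : ∀ a : ↥P, orderOf a = p → Subgroup.zpowers a = Subgroup.zpowers c := by
    intro a ha
    have hcm : IsMulCommutative ↥(Subgroup.closure ({(c : H), (a : H)} : Set H)) := by
      have hca : (a : H) * c = c * a := congrArg Subtype.val (Subgroup.mem_center_iff.1 (pow_mem hwc _ : c ∈ _) a)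
      refine Subgroup.isMulCommutative_closure ?_
      rintro x (rfl | rfl) y (rfl | rfl)
      · rfl
      · exact hca.symm
      · exact hca
      · rfl
    haveI := habel _ (by rw [Subgroup.closure_le]; rintro x (rfl | rfl) <;> exact Subtype.prop _) hcm
    let A := Subgroup.closure ({(c : H), (a : H)} : Set H)
    let a' : ↥A := ⟨a, Subgroup.subset_closure (by simp)⟩
    let c' : ↥A := ⟨c, Subgroup.subset_closure (by simp)⟩
    have h1 : Subgroup.zpowers a' = Subgroup.zpowers c' := by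
      letI : CommGroup ↥A := { (inferInstance : Group ↥A) with mul_comm := fun x y => Subtype.ext (setLike_mul_comm x.2 y.2) }
      have hker : ∀ x : ↥A, orderOf x = p → Subgroup.zpowers x = (powMonoidHom p : ↥A →* ↥A).ker := by
        intro x hx
        refine Subgroup.eq_of_le_of_card_ge (Subgroup.zpowers_le.2 ?_) ?_
        · rw [MonoidHom.mem_ker, powMonoidHom_apply, ← hx, pow_orderOf_eq_one]
        · rw [IsCyclic.card_powMonoidHom_ker, Nat.card_zpowers, hx]
          exact Nat.gcd_le_right _ hp.out.pos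
      rw [hker a' (by rw [← Subgroup.orderOf_coe]; show orderOf (a : H) = p; rw [Subgroup.orderOf_coe, ha]),
        hker c' (by rw [← Subgroup.orderOf_coe]; show orderOf (c : H) = p; rw [Subgroup.orderOf_coe, hco])]
    have h2 := congrArg (Subgroup.map A.subtype) h1
    rw [MonoidHom.map_zpowers, MonoidHom.map_zpowers] at h2
    apply Subgroup.map_injective P.subtype_injective
    rw [MonoidHom.map_zpowers, MonoidHom.map_zpowers]
    exact h2
  rw [key a ha, ← key b hb]
  exact Subgroup.mem_zpowers b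

/-- Let H be a finite solvable group with no nontrivial normal subgroup of odd order in which the centralizer of every involution has a normal 2-complement. Let X be a Hall 2'-subgroup of H (odd order, index a power of 2) and Y = O₂(H). Then no non-identity element of X commutes with a non-identity element of Y (so for X ≠ 1 the group XY is a Frobenius group with kernel Y), every Sylow subgroup of X is cyclic, XY is normal in H, and H/XY is a cyclic 2-group. -/
theorem result {H : Type*} [Group H] [Finite H] (hsol : Group.IsSolvable H)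
    (hO : Cfsg.oddCore H = ⊥)
    (hI : ∀ t : H, orderOf t = 2 → Cfsg.HasNormalPComplement 2 ↥(Subgroup.centralizer ({t} : Set H)))
    (X : Subgroup H) (hXodd : Odd (Nat.card X)) (hXidx : ∃ k : ℕ, X.index = 2 ^ k) :
    (∀ x ∈ X, x ≠ 1 → ∀ y ∈ Cfsg.pCore 2 H, y ≠ 1 → x * y ≠ y * x) ∧
      (∀ (p : ℕ) [Fact p.Prime] (P : Sylow p ↥X), IsCyclic ↥(P : Subgroup ↥X)) ∧
      (X ⊔ Cfsg.pCore 2 H).Normal ∧
      ∀ hN : (X ⊔ Cfsg.pCore 2 H).Normal, IsCyclic (H ⧸ (X ⊔ Cfsg.pCore 2 H)) ∧ IsPGroup 2 (H ⧸ (X ⊔ Cfsg.pCore 2 H)) := by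
  haveI := hsol
  set Y := Cfsg.pCore 2 H with hY
  haveI hYn : Y.Normal := H19.pCore_normal 2 H
  have hY2 : IsPGroup 2 ↥Y := H19.pCore_isPGroup 2
  have hOX : ∀ x ∈ X, Odd (orderOf x) := fun x hx => by
    have := orderOf_dvd_natCard (⟨x, hx⟩ : ↥X)
    rw [Subgroup.orderOf_mk] at this
    exact Odd.of_dvd_nat hXodd this
  refine ⟨fun x hx hx1 y hy hy1 h => hx1 (H77.eq_one_of_commute_pCore hO hI (hOX x hx) hy hy1 h), ?_, ?_⟩
  · intro p hp P
    by_cases hp2 : p = 2
    · subst hp2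
      obtain ⟨k, hk⟩ := P.isPGroup'.exists_card_eq
      rcases Nat.eq_zero_or_pos k with rfl | hk0
      · haveI : Subsingleton ↥(P : Subgroup ↥X) :=
          (Nat.card_eq_one_iff_unique.1 (by rw [hk, pow_zero])).1
        exact isCyclic_of_subsingleton
      · exfalso
        have h := Subgroup.card_subgroup_dvd_card (P : Subgroup ↥X)
        rw [hk] at h
        exact Nat.not_even_iff_odd.2 hXodd (even_iff_two_dvd.2 ((dvd_pow_self 2 hk0.ne').trans h))
    · haveI := cyclic_pgroup hO hI hp2 ((P : Subgroup ↥X).map X.subtype) (P.isPGroup'.map _)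
      exact isCyclic_of_injective ((P : Subgroup ↥X).equivMapOfInjective X.subtype X.subtype_injective).toMonoidHom
        (MulEquiv.injective _)
  set π := QuotientGroup.mk' Y with hπ
  have hπs : Function.Surjective π := QuotientGroup.mk'_surjective Y
  haveI : Group.IsSolvable (H ⧸ Y) := Group.isSolvable_of_surjective hπs
  set F := Cfsg.fittingSubgroup (H ⧸ Y) with hFdef
  haveI hFn : F.Normal := H19.fitting_normal _
  haveI hFnil : Group.IsNilpotent ↥F := H19.fitting_isNilpotent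
  have hR2 : Cfsg.pCore 2 (H ⧸ Y) = ⊥ := H19.pCore_quotient_pCore 2
  have hsub2 : ∀ Q : Subgroup (H ⧸ Y), Q.Normal → IsPGroup 2 ↥Q → Q = ⊥ := fun Q h1 h2 =>
    le_bot_iff.1 ((H19.le_pCore h1 h2).trans hR2.le)
  have hFodd : Odd (Nat.card ↥F) := by
    refine Nat.not_even_iff_odd.1 fun he => ?_
    obtain ⟨P⟩ : Nonempty (Sylow 2 ↥F) := inferInstance
    haveI : (P : Subgroup ↥F).Characteristic := P.characteristic_of_normal inferInstance
    have h0 := hsub2 ((P : Subgroup ↥F).map F.subtype) ConjAct.normal_of_characteristic_of_normal (P.isPGroup'.map _)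
    rw [Subgroup.map_eq_bot_iff_of_injective _ F.subtype_injective] at h0
    exact P.ne_bot_of_dvd_card (even_iff_two_dvd.1 he) h0
  haveI : IsZGroup ↥F := ⟨fun p hp P => by
    haveI := Fact.mk hp
    by_cases hp2 : p = 2
    · subst hp2
      obtain ⟨k, hk⟩ := P.isPGroup'.exists_card_eq
      rcases Nat.eq_zero_or_pos k with rfl | hk0
      · haveI : Subsingleton ↥(P : Subgroup ↥F) :=
          (Nat.card_eq_one_iff_unique.1 (by rw [hk, pow_zero])).1
        exact isCyclic_of_subsingleton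
      · exfalso
        have h := Subgroup.card_subgroup_dvd_card (P : Subgroup ↥F)
        rw [hk] at h
        exact Nat.not_even_iff_odd.2 hFodd (even_iff_two_dvd.2 ((dvd_pow_self 2 hk0.ne').trans h))
    · let T := ((P : Subgroup ↥F).map F.subtype).comap π
      let g : ↥T →* ↥((P : Subgroup ↥F).map F.subtype) := π.subgroupComap _
      have hg : Function.Surjective g := by
        rintro ⟨y, hy⟩
        obtain ⟨x, rfl⟩ := hπs y
        exact ⟨⟨x, hy⟩, rfl⟩
      obtain ⟨D⟩ : Nonempty (Sylow p ↥T) := inferInstance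
      haveI hDc := cyclic_pgroup hO hI hp2 ((D : Subgroup ↥T).map T.subtype) (D.isPGroup'.map _)
      have htop : (D.mapSurjective hg : Subgroup ↥((P : Subgroup ↥F).map F.subtype)) = ⊤ :=
        ((D.mapSurjective hg).is_maximal' (((P.isPGroup'.map F.subtype)).to_subgroup ⊤) le_top).symm
      haveI : IsCyclic ↥(D : Subgroup ↥T) :=
        isCyclic_of_injective ((D : Subgroup ↥T).equivMapOfInjective T.subtype T.subtype_injective).toMonoidHom
          (MulEquiv.injective _)
      haveI : IsCyclic ↥((D : Subgroup ↥T).map g) :=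
        isCyclic_of_surjective (g.subgroupMap _) (g.subgroupMap_surjective _)
      have hm : (D : Subgroup ↥T).map g = ⊤ := by rw [← Sylow.coe_mapSurjective hg D]; exact htop
      rw [hm] at this
      haveI : IsCyclic ↥((P : Subgroup ↥F).map F.subtype) := Subgroup.topEquiv.isCyclic.1 this
      exact isCyclic_of_injective ((P : Subgroup ↥F).equivMapOfInjective F.subtype F.subtype_injective).toMonoidHom
        (MulEquiv.injective _)⟩
  haveI hFc : IsCyclic ↥F := inferInstance
  have hCF : Subgroup.centralizer (F : Set (H ⧸ Y)) ≤ F := by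
    refine (Cfsg.Agent.S1264.result (Subgroup.centralizer (F : Set (H ⧸ Y))) le_rfl Subgroup.le_normalizer inferInstance).trans ?_
    exact Subgroup.map_subtype_le _
  have hab : ∀ a b : H ⧸ Y, a * b * (b * a)⁻¹ ∈ F := by
    intro a b
    refine hCF (Subgroup.mem_centralizer_iff.2 fun f hf => ?_)
    obtain ⟨⟨g, hgF⟩, hg⟩ := IsCyclic.exists_generator (α := ↥F)
    have hz : ∀ r : H ⧸ Y, ∃ i : ℤ, r * g * r⁻¹ = g ^ i := fun r => by
      obtain ⟨i, hi⟩ := Subgroup.mem_zpowers_iff.1 (hg ⟨r * g * r⁻¹, hFn.conj_mem g hgF r⟩)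
      exact ⟨i, by simpa using (congrArg Subtype.val hi).symm⟩
    obtain ⟨i, hi⟩ := hz a
    obtain ⟨j, hj⟩ := hz b
    obtain ⟨l, hl⟩ := Subgroup.mem_zpowers_iff.1 (hg ⟨(b * a)⁻¹ * f * (b * a), by simpa [mul_assoc] using hFn.conj_mem f hf (b * a)⁻¹⟩)
    have hl' : g ^ l = (b * a)⁻¹ * f * (b * a) := by simpa using congrArg Subtype.val hl
    have h1 : (a * b) * g ^ l * (a * b)⁻¹ = g ^ (i * j * l) := by
      calc (a * b) * g ^ l * (a * b)⁻¹ = a * (b * g * b⁻¹) ^ l * a⁻¹ := by rw [conj_zpow]; group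
        _ = (a * g * a⁻¹) ^ (j * l) := by rw [hj, ← zpow_mul, conj_zpow]
        _ = g ^ (i * j * l) := by rw [hi, ← zpow_mul, mul_assoc]
    have h2 : (b * a) * g ^ l * (b * a)⁻¹ = g ^ (i * j * l) := by
      calc (b * a) * g ^ l * (b * a)⁻¹ = b * (a * g * a⁻¹) ^ l * b⁻¹ := by rw [conj_zpow]; group
        _ = (b * g * b⁻¹) ^ (i * l) := by rw [hi, ← zpow_mul, conj_zpow]
        _ = g ^ (i * j * l) := by rw [hj, ← zpow_mul]; ring_nf
    have hff : f = (b * a) * g ^ l * (b * a)⁻¹ := by rw [hl']; group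
    symm
    calc (a * b * (b * a)⁻¹) * f
        = (a * b) * g ^ l * (a * b)⁻¹ * (a * b * (b * a)⁻¹) := by rw [hl']; group
      _ = f * (a * b * (b * a)⁻¹) := by rw [h1, ← h2, ← hff]
  set Xb := X.map π with hXb
  have hXbodd : Odd (Nat.card ↥Xb) := Odd.of_dvd_nat hXodd (Subgroup.card_map_dvd X π)
  obtain ⟨k, hk⟩ := hXidx
  have hFX : F ≤ Xb := by
    intro f hf
    have hdvd : Xb.relIndex (F ⊔ Xb) ∣ Nat.card ↥F := by
      have h1 := H19.card_sup_dvd F Xb
      rw [← Subgroup.relIndex_bot_left (F ⊔ Xb), ← Subgroup.relIndex_mul_relIndex ⊥ Xb (F ⊔ Xb) bot_le le_sup_right,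
        Subgroup.relIndex_bot_left, mul_comm (Nat.card ↥F)] at h1
      exact Nat.dvd_of_mul_dvd_mul_left Nat.card_pos h1
    have h2 : Xb.relIndex (F ⊔ Xb) ∣ 2 ^ k :=
      (Subgroup.relIndex_dvd_index_of_le le_sup_right).trans (hk ▸ Subgroup.index_map_dvd X hπs)
    have hone : Xb.relIndex (F ⊔ Xb) = 1 := by
      have h3 : Nat.Coprime (Nat.card ↥F) (2 ^ k) := Nat.Coprime.pow_right _ hFodd.coprime_two_right
      exact Nat.dvd_one.1 (h3 ▸ Nat.dvd_gcd hdvd h2)
    exact Subgroup.relIndex_eq_one.1 hone (Subgroup.mem_sup_left hf)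
  haveI hXbn : Xb.Normal := ⟨fun x hx g => by
    have h := hFX (hab g x)
    have e : g * x * g⁻¹ = (g * x * (x * g)⁻¹) * x := by group
    rw [e]
    exact mul_mem h hx⟩
  have hcomap : Xb.comap π = X ⊔ Y := by
    rw [hXb, Subgroup.comap_map_eq, hπ, QuotientGroup.ker_mk']
  have hXYn : (X ⊔ Y).Normal := hcomap ▸ Subgroup.Normal.comap hXbn π
  refine ⟨hXYn, fun hN => ?_⟩
  haveI := hN
  have hidx : ∃ l, (X ⊔ Y).index = 2 ^ l := by
    obtain ⟨l, -, hl⟩ := (Nat.dvd_prime_pow Nat.prime_two).1 (hk ▸ Subgroup.index_dvd_of_le (le_sup_left : X ≤ X ⊔ Y))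
    exact ⟨l, hl⟩
  obtain ⟨l, hl⟩ := hidx
  have hpg : IsPGroup 2 (H ⧸ (X ⊔ Y)) := IsPGroup.of_card (n := l) (by rw [← hl]; rfl)
  refine ⟨?_, hpg⟩
  haveI : IsMulCommutative (H ⧸ (X ⊔ Y)) := ⟨⟨fun a b => by
    induction a using QuotientGroup.induction_on with | _ a =>
    induction b using QuotientGroup.induction_on with | _ b =>
    rw [← QuotientGroup.mk_mul, ← QuotientGroup.mk_mul, QuotientGroup.eq, ← hcomap, Subgroup.mem_comap]
    have := hFX (hab ((π b)⁻¹) ((π a)⁻¹))
    convert this using 1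
    simp only [map_mul, map_inv]
    group⟩⟩
  have hX2 : ∀ g : H, g ^ 2 ∈ X ⊔ Y → ∃ r : H ⧸ Y, r * r = 1 ∧ r * (π g)⁻¹ ∈ Xb := by
    intro g hg
    have hg' : (π g) ^ 2 ∈ Xb := by
      rw [← map_pow, ← Subgroup.mem_comap, hcomap]; exact hg
    set o := orderOf ((π g) ^ 2) with hodef
    have ho : Odd o := Odd.of_dvd_nat hXbodd (Subgroup.orderOf_dvd_natCard Xb hg')
    refine ⟨(π g) ^ o, ?_, ?_⟩
    · rw [← pow_add, ← two_mul, pow_mul, hodef, pow_orderOf_eq_one]
    · obtain ⟨i, hi⟩ := ho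
      rw [hi, pow_succ, mul_inv_cancel_right, pow_mul]
      exact pow_mem hg' i
  have hinv : ∀ r : H ⧸ Y, r * r = 1 → r ≠ 1 → ∀ f ∈ F, r * f * r⁻¹ = f⁻¹ := by
    intro r hr hr1
    have hfix : ∀ f ∈ F, Commute r f → f = 1 := by
      intro f hf hrf
      by_contra hf1
      obtain ⟨t0, ht0⟩ := hπs r
      obtain ⟨x0, hx0⟩ := hπs f
      have hfo : Odd (orderOf f) := Odd.of_dvd_nat hFodd (Subgroup.orderOf_dvd_natCard F hf)
      set e := (orderOf x0).factorization 2
      set x := x0 ^ 2 ^ e with hxdef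
      have hxo : Odd (orderOf x) := by
        have : orderOf x = orderOf x0 / 2 ^ e := by
          rw [hxdef, orderOf_pow, Nat.gcd_eq_right (Nat.ordProj_dvd _ _)]
        rw [this]
        exact Nat.not_even_iff_odd.1 fun he =>
          Nat.not_dvd_ordCompl Nat.prime_two (orderOf_pos x0).ne' (even_iff_two_dvd.1 he)
      have hxf : π x = f ^ 2 ^ e := by rw [hxdef, map_pow, hx0]
      have hxne : x ≠ 1 := by
        intro h
        rw [h, map_one] at hxf
        have h1 : orderOf f ∣ 2 ^ e := orderOf_dvd_of_pow_eq_one hxf.symm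
        have h3 : Nat.Coprime (orderOf f) (2 ^ e) := Nat.Coprime.pow_right _ hfo.coprime_two_right
        exact hf1 (orderOf_eq_one_iff.1 (h3.eq_one_of_dvd h1))
      have hcomm : ∀ a ∈ Subgroup.zpowers x, t0⁻¹ * (a * t0 * a⁻¹) ∈ Y := by
        intro a ha
        obtain ⟨i, rfl⟩ := Subgroup.mem_zpowers_iff.1 ha
        rw [← QuotientGroup.eq_one_iff]
        show π (t0⁻¹ * (x ^ i * t0 * (x ^ i)⁻¹)) = 1
        simp only [map_mul, map_inv, map_zpow, ht0, hxf]
        have := ((hrf.pow_right (2 ^ e)).zpow_right i).eq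
        rw [← this]
        group
      have hcopY : (Nat.card ↥(Subgroup.zpowers x)).Coprime (Nat.card ↥Y) := by
        obtain ⟨m, hm⟩ := hY2.exists_card_eq
        rw [Nat.card_zpowers, hm]
        exact Nat.Coprime.pow_right _ hxo.coprime_two_right
      obtain ⟨n, hn, hnc⟩ := H20.exists_mul_mem_centralizer
        (show Subgroup.zpowers x ≤ Subgroup.normalizer (Y : Set H) by rw [Subgroup.normalizer_eq_top]; exact le_top)
        hcopY (Or.inl inferInstance) hcomm
      set t := t0 * n with htdef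
      have hxt : Commute x t := (Subgroup.mem_centralizer_iff.1 hnc x (Subgroup.mem_zpowers x))
      have htr : π t = r := by
        rw [htdef, map_mul, ht0, show π n = 1 from (QuotientGroup.eq_one_iff n).2 hn, mul_one]
      have ht2Y : t * t ∈ Y := by
        rw [← QuotientGroup.eq_one_iff]
        show π (t * t) = 1
        rw [map_mul, htr, hr]
      have ht2 : t * t = 1 := by
        by_contra hne
        exact hxne (H77.eq_one_of_commute_pCore hO hI hxo ht2Y hne (hxt.mul_right hxt))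
      have ht1 : t ≠ 1 := fun h => hr1 (by rw [← htr, h, map_one])
      have hto : orderOf t = 2 := orderOf_eq_prime (by rw [pow_two, ht2]) ht1
      set T := Y ⊔ Subgroup.zpowers t
      have hT2 : IsPGroup 2 ↥T :=
        IsPGroup.to_sup_of_normal_left hY2 (IsPGroup.of_card (n := 1) (by rw [Nat.card_zpowers, hto, pow_one]))
      haveI : Group.IsNilpotent ↥T := hT2.isNilpotent
      by_cases hY1 : Y = ⊥
      · have hh : t ∈ (⊥ : Subgroup H) := by
          rw [← hY1]
          refine H77.centralizer_pCore_le 2 hO ?_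
          rw [← hY, hY1]
          exact Subgroup.mem_centralizer_iff.2 fun v hv => by rw [Subgroup.mem_bot.1 hv, one_mul, mul_one]
        exact ht1 hh
      have hYT : Y.subgroupOf T ≠ ⊥ := by
        rw [Ne, Subgroup.subgroupOf_eq_bot, disjoint_iff, inf_eq_left.2 le_sup_left]
        exact hY1
      obtain ⟨v, hv, hv1⟩ := (fun h => (Subgroup.ne_bot_iff_exists_ne_one.1 h).elim fun v hv => (⟨v.1, v.2, fun e => hv (Subtype.ext e)⟩ : ∃ v ∈ _, v ≠ (1 : ↥T))) (H19.inf_center_ne_bot (Y.subgroupOf T) hYT)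
      have hvt : Commute (v : H) t :=
        (congrArg Subtype.val (Subgroup.mem_center_iff.1 hv.2 ⟨t, Subgroup.mem_sup_right (Subgroup.mem_zpowers t)⟩)).symm
      have hxv := H77.commute_pCore_inter hI hto hxo hxt hvt (Subgroup.mem_subgroupOf.1 hv.1)
      exact hxne (H77.eq_one_of_commute_pCore hO hI hxo (Subgroup.mem_subgroupOf.1 hv.1)
        (fun h => hv1 (Subtype.ext h)) hxv)
    intro f hf
    have hr' : r⁻¹ = r := inv_eq_of_mul_eq_one_right hr
    have hrf : r * f * r⁻¹ ∈ F := hFn.conj_mem f hf r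
    have hprod : Commute r (f * (r * f * r⁻¹)) := by
      have hsw : f * (r * f * r⁻¹) = (r * f * r⁻¹) * f := setLike_mul_comm hf hrf
      show r * _ = _ * r
      calc r * (f * (r * f * r⁻¹)) = (r * f * r⁻¹) * ((r * r) * f * (r * r)⁻¹) * r := by group
        _ = (r * f * r⁻¹) * f * r := by rw [hr]; group
        _ = f * (r * f * r⁻¹) * r := by rw [hsw]
    exact (inv_eq_of_mul_eq_one_right (hfix _ (mul_mem hf hrf) hprod)).symm
  obtain ⟨n, hn⟩ := hpg.exists_card_eq
  refine H21.isCyclic_of_comm_unique hpg fun K L hK hL => ?_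
  obtain ⟨a, ha, hau⟩ := (Nat.card_eq_two_iff' (1 : ↥K)).1 hK
  obtain ⟨b, hb, hbu⟩ := (Nat.card_eq_two_iff' (1 : ↥L)).1 hL
  have ha2 : (a : H ⧸ (X ⊔ Y)) ^ 2 = 1 := by
    have := congrArg Subtype.val (pow_card_eq_one' (x := a))
    rw [hK] at this
    exact this
  have hb2 : (b : H ⧸ (X ⊔ Y)) ^ 2 = 1 := by
    have := congrArg Subtype.val (pow_card_eq_one' (x := b))
    rw [hL] at this
    exact this
  obtain ⟨ga, hga⟩ := QuotientGroup.mk_surjective (a : H ⧸ (X ⊔ Y))
  obtain ⟨gb, hgb⟩ := QuotientGroup.mk_surjective (b : H ⧸ (X ⊔ Y))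
  rw [← hga, ← QuotientGroup.mk_pow, QuotientGroup.eq_one_iff] at ha2
  rw [← hgb, ← QuotientGroup.mk_pow, QuotientGroup.eq_one_iff] at hb2
  obtain ⟨ra, hra, hra'⟩ := hX2 ga ha2
  obtain ⟨rb, hrb, hrb'⟩ := hX2 gb hb2
  have hnot : ∀ (g : H) (r : H ⧸ Y), r * (π g)⁻¹ ∈ Xb → r = 1 → (g : H ⧸ (X ⊔ Y)) = 1 := by
    intro g r h h1
    rw [h1, one_mul, inv_mem_iff, ← Subgroup.mem_comap, hcomap] at h
    exact (QuotientGroup.eq_one_iff g).2 h
  have hra1 : ra ≠ 1 := fun h => ha (Subtype.ext (by rw [← hga]; exact hnot ga ra hra' h))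
  have hrb1 : rb ≠ 1 := fun h => hb (Subtype.ext (by rw [← hgb]; exact hnot gb rb hrb' h))
  have hprod : ra * rb ∈ F := by
    refine hCF (Subgroup.mem_centralizer_iff.2 fun f hf => ?_)
    have e1 := hinv ra hra hra1
    have e2 := hinv rb hrb hrb1
    have : (ra * rb) * f * (ra * rb)⁻¹ = f := by
      calc (ra * rb) * f * (ra * rb)⁻¹ = ra * (rb * f * rb⁻¹) * ra⁻¹ := by group
        _ = f := by rw [e2 f hf, e1 f⁻¹ (inv_mem hf), inv_inv]
    exact (mul_inv_eq_iff_eq_mul.1 this).symm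
  have hab' : (a : H ⧸ (X ⊔ Y)) = (b : H ⧸ (X ⊔ Y)) := by
    rw [← hga, ← hgb, QuotientGroup.eq, ← hcomap, Subgroup.mem_comap, map_mul, map_inv]
    have hrr : ra⁻¹ * rb ∈ Xb := by
      rw [inv_eq_of_mul_eq_one_right hra]
      exact hFX hprod
    have h1 : (π ga)⁻¹ * (ra * (π ga)⁻¹) * π ga ∈ Xb := by simpa using hXbn.conj_mem _ hra' (π ga)⁻¹
    have h2 : (rb⁻¹ * (rb * (π gb)⁻¹)⁻¹ * rb) ∈ Xb := by simpa using hXbn.conj_mem _ (inv_mem hrb') rb⁻¹
    have e'' : (π ga)⁻¹ * π gb = ((π ga)⁻¹ * (ra * (π ga)⁻¹) * π ga) * (ra⁻¹ * rb) * (rb⁻¹ * (rb * (π gb)⁻¹)⁻¹ * rb) := by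
      group
    rw [e'']
    exact mul_mem (mul_mem h1 hrr) h2
  have hKz : ∀ (M : Subgroup (H ⧸ (X ⊔ Y))) (c : ↥M), Nat.card ↥M = 2 → c ≠ 1 → M = Subgroup.zpowers (c : H ⧸ (X ⊔ Y)) := by
    intro M c hM hc
    refine (Subgroup.eq_of_le_of_card_ge (Subgroup.zpowers_le.2 c.2) ?_).symm
    rw [Nat.card_zpowers, hM]
    by_contra hlt
    have h1 : orderOf (c : H ⧸ (X ⊔ Y)) = 1 := by
      have := orderOf_pos (c : H ⧸ (X ⊔ Y))
      omega
    exact hc (Subtype.ext (orderOf_eq_one_iff.1 h1))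
  rw [hKz K a hK ha, hKz L b hL hb, hab']

end Cfsg.Agent.S3215
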