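import Cfsg.Statements.S3239
import Cfsg.Agent.H68.WeakJ1.Connect

set_option autoImplicit false
open Cfsg

namespace Cfsg.Agent.S3239

/-- Let t be an involution of a finite group G lying in the centre of a Sylow 2-subgroup of G, and suppose the weak closure of t in C_G(t) — the subgroup generated by all G-conjugates of t that commute with t — is isomorphic to Z₂ × A₅. Then the normal closure ⟨t^G⟩ of t in G is isomorphic to the first Janko group J₁. -/
theorem result {G : Type*} [Group G] [Finite G]
    (t : G) (ht : orderOf t = 2) (S : Sylow 2 G) (htS : t ∈ (S : Subgroup G)) (htc : ∀ s ∈ (S : Subgroup G), s * t = t * s)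
    (hW : Nonempty (↥(Subgroup.closure {x : G | ∃ g : G, x = g * t * g⁻¹ ∧ x * t = t * x}) ≃*
      (Multiplicative (ZMod 2) × ↥(alternatingGroup (Fin 5))))) :
    Cfsg.Spor.IsoJ1 ↥(Subgroup.normalClosure ({t} : Set G)) := by
  exact H68.WeakJ1.normalClosure_iso ⟨ht, ⟨S, htS, htc⟩, hW⟩

end Cfsg.Agent.S3239
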