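import Cfsg.Statements.S3244
import Cfsg.Agent.H17.CharTwoCenter

set_option autoImplicit false
open Cfsg

namespace Cfsg.Agent.S3244


/-- Say that a finite group G is of characteristic 2 type in the early sense when a Sylow 2-subgroup S of G has a self-centralizing normal subgroup of rank at least 3, S normalizes no nontrivial subgroup of odd order, and every 2-local subgroup of G is 2-constrained. If G is a non-abelian simple group of characteristic 2 type in this sense, then for some maximal 2-local subgroup M of G the centre of O₂(M) is not cyclic. -/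
theorem result {G : Type*} [Group G] [Finite G] [IsSimpleGroup G]
    (hG : ¬ IsMulCommutative G) (S : Sylow 2 G) (A : Subgroup G) (hA : Cfsg.IsSCN (S : Subgroup G) A) (hA3 : ¬ Cfsg.PRankLE 2 2 ↥A)
    (hinv : ∀ X : Subgroup G, Odd (Nat.card ↥X) → (S : Subgroup G) ≤ Subgroup.normalizer (X : Set G) → X = ⊥)
    (hcon : ∀ T : Subgroup G, IsPGroup 2 ↥T → T ≠ ⊥ → Cfsg.IsPConstrained 2 ↥(Subgroup.normalizer (T : Set G))) :
    ∃ M : Subgroup G, Cfsg.IsMaximalTwoLocal M ∧ ¬ IsCyclic ↥(Subgroup.center ↥(Cfsg.pCore 2 ↥M)) := by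
  exact Cfsg.Agent.H17.CharTwoCenter.exists_noncyclic_center hG S A hA hA3 hinv hcon

end Cfsg.Agent.S3244
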