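import Cfsg.Statements.S3246
import Cfsg.Agent.H77.Constrained
import Cfsg.Agent.H48.OddInvolution
import Cfsg.Agent.H29.FourGroup

set_option autoImplicit false
open Cfsg

namespace Cfsg.Agent.S3246

/-- Let G be a finite group whose Sylow 2-subgroup S has a self-centralizing normal subgroup of rank at least 3. Suppose that either every maximal 2-local subgroup of G is 2-constrained with no nontrivial normal subgroup of odd order, or the centralizer of every involution of G is 2-constrained with no nontrivial normal subgroup of odd order. Then S normalizes no nontrivial subgroup of G of odd order and every 2-local subgroup of G is 2-constrained. -/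
theorem result {G : Type*} [Group G] [Finite G]
    (S : Sylow 2 G) (A : Subgroup G) (hA : Cfsg.IsSCN (S : Subgroup G) A) (hA3 : ¬ Cfsg.PRankLE 2 2 ↥A)
    (h : (∀ M : Subgroup G, Cfsg.IsMaximalTwoLocal M → Cfsg.IsPConstrained 2 ↥M ∧ Cfsg.oddCore ↥M = ⊥) ∨
      (∀ t : G, orderOf t = 2 → Cfsg.IsPConstrained 2 ↥(Subgroup.centralizer ({t} : Set G)) ∧
        Cfsg.oddCore ↥(Subgroup.centralizer ({t} : Set G)) = ⊥)) :
    (∀ X : Subgroup G, Odd (Nat.card ↥X) → (S : Subgroup G) ≤ Subgroup.normalizer (X : Set G) → X = ⊥) ∧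
      (∀ T : Subgroup G, IsPGroup 2 ↥T → T ≠ ⊥ → Cfsg.IsPConstrained 2 ↥(Subgroup.normalizer (T : Set G))) := by
  classical
  refine ⟨fun X hX hSX => ?_, fun T hT hT1 => ?_⟩
  · obtain ⟨hAS, hSA, hSC⟩ := hA
    have hAc : ∀ a ∈ A, ∀ b ∈ A, a * b = b * a := by
      intro a ha b hb
      have : a ∈ Subgroup.centralizer (A : Set G) := by
        have := hSC.ge ha
        exact (Subgroup.mem_inf.1 this).2
      exact (Subgroup.mem_centralizer_iff.1 this b hb).symm
    simp only [Cfsg.PRankLE, not_forall, not_le] at hA3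
    obtain ⟨E0, hE0c, hE02, hE0card⟩ := hA3
    set E : Subgroup G :=
      { carrier := {g | g ∈ A ∧ g ^ 2 = 1}
        one_mem' := ⟨one_mem _, one_pow _⟩
        mul_mem' := fun {a b} ha hb => ⟨mul_mem ha.1 hb.1, by
          rw [Commute.mul_pow (hAc a ha.1 b hb.1 : Commute a b), ha.2, hb.2, one_mul]⟩
        inv_mem' := fun {a} ha => ⟨inv_mem ha.1, by rw [inv_pow, ha.2, inv_one]⟩ } with hEdef
    have hES : E ≤ (S : Subgroup G) := fun g hg => hAS hg.1
    have hEcard : 2 ^ 2 < Nat.card ↥E := by
      refine lt_of_lt_of_le hE0card ?_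
      rw [← Subgroup.card_map_of_injective A.subtype_injective (K := E0)]
      exact Subgroup.card_le_of_le (by
        rintro _ ⟨a, ha, rfl⟩
        exact ⟨a.2, by rw [Subgroup.coe_subtype, ← SubmonoidClass.coe_pow, hE02 a ha, Subgroup.coe_one]⟩)
    have hEn : ∀ s ∈ (S : Subgroup G), ∀ e ∈ E, s * e * s⁻¹ ∈ E := fun s hs e he =>
      ⟨(Subgroup.mem_normalizer_iff.1 (hSA hs) e).1 he.1, by rw [conj_pow, he.2, mul_one, mul_inv_cancel]⟩
    haveI hE' : (E.subgroupOf (S : Subgroup G)).Normal :=
      ⟨fun e he s => Subgroup.mem_subgroupOf.2 (hEn s s.2 e he)⟩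
    have hE'ne : E.subgroupOf (S : Subgroup G) ≠ ⊥ := by
      rw [Ne, ← Subgroup.card_eq_one, Nat.card_congr (Subgroup.subgroupOfEquivOfLe hES).toEquiv]
      omega
    obtain ⟨z, hzc, hzE, hz1⟩ := H29.exists_mem_center_of_normal S.isPGroup' hE'ne
    have hzE' : (z : G) ∈ E := hzE
    haveI : (Subgroup.zpowers z).Normal := ⟨fun n hn g => by
      obtain ⟨k, rfl⟩ := Subgroup.mem_zpowers_iff.1 hn
      rw [Subgroup.mem_center_iff.1 ((Subgroup.center _).zpow_mem hzc k) g, mul_inv_cancel_right]
      exact Subgroup.zpow_mem_zpowers z k⟩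
    set π := QuotientGroup.mk' (Subgroup.zpowers z) with hπ
    haveI : ((E.subgroupOf (S : Subgroup G)).map π).Normal := Subgroup.Normal.map hE' π (QuotientGroup.mk'_surjective _)
    have hzord : orderOf z = 2 := by
      refine orderOf_eq_prime (Subtype.ext ?_) hz1
      rw [SubmonoidClass.coe_pow, hzE'.2, Subgroup.coe_one]
    have hne2 : (E.subgroupOf (S : Subgroup G)).map π ≠ ⊥ := by
      rw [Ne, Subgroup.map_eq_bot_iff, hπ, QuotientGroup.ker_mk']
      intro hle
      have := Subgroup.card_le_of_le hle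
      rw [Nat.card_congr (Subgroup.subgroupOfEquivOfLe hES).toEquiv, Nat.card_zpowers, hzord] at this
      omega
    obtain ⟨ub, hubc, hubE, hub1⟩ := H29.exists_mem_center_of_normal (S.isPGroup'.to_quotient _) hne2
    obtain ⟨u, huE, rfl⟩ := hubE
    set T : Subgroup G := (S : Subgroup G) ⊓ Subgroup.centralizer {(u : G)} with hTdef
    have hTi : T.relIndex (S : Subgroup G) ≤ 2 := by
      rw [hTdef, Subgroup.inf_relIndex_left, Subgroup.relIndex]
      let f : ↥(S : Subgroup G) → ↥(Subgroup.zpowers z) := fun s =>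
        ⟨s * u * s⁻¹ * u⁻¹, by
          rw [← QuotientGroup.eq_one_iff]
          show π (s * u * s⁻¹ * u⁻¹) = 1
          simp only [map_mul, map_inv]
          rw [Subgroup.mem_center_iff.1 hubc (π s), mul_inv_cancel_right, mul_inv_cancel]⟩
      have hfeq : ∀ a b : ↥(S : Subgroup G), f a = f b →
          a⁻¹ * b ∈ (Subgroup.centralizer {(u : G)}).subgroupOf (S : Subgroup G) := by
        intro a b hab
        have h1 : a * u * a⁻¹ = b * u * b⁻¹ := mul_right_cancel (congrArg Subtype.val hab)
        rw [Subgroup.mem_subgroupOf, Subgroup.mem_centralizer_singleton_iff]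
        have h2 : (a⁻¹ * b) * u = u * (a⁻¹ * b) := by
          calc (a⁻¹ * b) * u = a⁻¹ * (b * u * b⁻¹) * b := by group
            _ = u * (a⁻¹ * b) := by rw [← h1]; group
        exact congrArg Subtype.val h2
      refine le_trans ?_ (le_of_eq ((Nat.card_zpowers z).trans hzord))
      rw [Subgroup.index_eq_card]
      refine Nat.card_le_card_of_injective (fun q => f q.out) fun q r hqr => ?_
      have := hfeq _ _ hqr
      rw [← QuotientGroup.eq, QuotientGroup.out_eq', QuotientGroup.out_eq'] at this
      exact this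
    have hu : (u : G) ∈ E := huE
    have hzcomm : ∀ s ∈ (S : Subgroup G), s * (z : G) = (z : G) * s := fun s hs =>
      congrArg Subtype.val (Subgroup.mem_center_iff.1 hzc ⟨s, hs⟩)
    have hkey : ∀ v : G, v ∈ E → v ≠ 1 → (∀ t ∈ T, t * v = v * t) →
        X ⊓ Subgroup.centralizer {v} = ⊥ := by
      intro v hv hv1 hTv
      have hvo : orderOf v = 2 := orderOf_eq_prime hv.2 hv1
      obtain ⟨M, hCM, hMc, hMO⟩ : ∃ M : Subgroup G, Subgroup.centralizer ({v} : Set G) ≤ M ∧
          Cfsg.IsPConstrained 2 ↥M ∧ Cfsg.oddCore ↥M = ⊥ := by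
        rcases h with h | h
        · have hloc : Cfsg.IsTwoLocal (Subgroup.normalizer ((Subgroup.zpowers v : Subgroup G) : Set G)) :=
            ⟨Subgroup.zpowers v, IsPGroup.of_card (n := 1) (by rw [Nat.card_zpowers, hvo, pow_one]),
              fun h0 => hv1 (Subgroup.zpowers_eq_bot.1 h0), rfl⟩
          obtain ⟨M, hM, hMmax⟩ := Finite.exists_le_maximal (p := fun M : Subgroup G => Cfsg.IsTwoLocal M) hloc
          refine ⟨M, le_trans ?_ hM, h M ⟨hMmax.1, fun N hN hle => le_antisymm (hMmax.2 hN hle) hle⟩⟩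
          intro c hc
          refine Subgroup.centralizer_le_normalizer _ (Subgroup.mem_centralizer_iff.2 fun x hx => ?_)
          obtain ⟨k, rfl⟩ := Subgroup.mem_zpowers_iff.1 hx
          exact ((show Commute c v from Subgroup.mem_centralizer_singleton_iff.1 hc).zpow_right k).eq.symm
        · exact ⟨_, le_rfl, h v hvo⟩
      refine H77.eq_bot_of_normalized_by_large S (T := T) (M := M) inf_le_left hTi
        (fun t ht => hCM (Subgroup.mem_centralizer_singleton_iff.2 (hTv t ht))) (inf_le_right.trans hCM) hMc hMO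
        (Odd.of_dvd_nat hX (Subgroup.card_dvd_of_le inf_le_left)) ?_
      intro t ht
      refine Subgroup.mem_normalizer_iff.2 fun x => ?_
      have htX := Subgroup.mem_normalizer_iff.1 (hSX ht.1) x
      have htv : t * v * t⁻¹ = v := by rw [hTv t ht, mul_inv_cancel_right]
      simp only [Subgroup.mem_inf, Subgroup.mem_centralizer_singleton_iff, ← htX]
      refine and_congr_right fun _ => ?_
      constructor
      · intro hx
        calc t * x * t⁻¹ * v = t * x * t⁻¹ * (t * v * t⁻¹) := by rw [htv]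
          _ = t * (x * v) * t⁻¹ := by group
          _ = t * (v * x) * t⁻¹ := by rw [hx]
          _ = (t * v * t⁻¹) * (t * x * t⁻¹) := by group
          _ = v * (t * x * t⁻¹) := by rw [htv]
      · intro hx
        have e : t * (x * v) * t⁻¹ = t * (v * x) * t⁻¹ := by
          calc t * (x * v) * t⁻¹ = t * x * t⁻¹ * (t * v * t⁻¹) := by group
            _ = v * (t * x * t⁻¹) := by rw [htv, hx]
            _ = (t * v * t⁻¹) * (t * x * t⁻¹) := by rw [htv]
            _ = t * (v * x) * t⁻¹ := by group
        exact mul_left_cancel (mul_right_cancel e)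
    have hTu : ∀ t ∈ T, t * (u : G) = (u : G) * t := fun t ht =>
      Subgroup.mem_centralizer_singleton_iff.1 ht.2
    have hu1 : (u : G) ≠ 1 := fun e => hub1 (by rw [show u = 1 from Subtype.ext e, map_one])
    have hz1' : (z : G) ≠ 1 := fun e => hz1 (Subtype.ext e)
    have hzu1 : (z : G) * u ≠ 1 := by
      intro e
      apply hub1
      have hu' : u = z⁻¹ := eq_inv_of_mul_eq_one_right (Subtype.ext e)
      exact (QuotientGroup.eq_one_iff u).2 (hu' ▸ inv_mem (Subgroup.mem_zpowers z))
    have hgen := H48.four_group_generation (X := X) (t := (z : G))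
      (by rw [← pow_two, hzE'.2]) (fun x hx => (Subgroup.mem_normalizer_iff.1 (hSX (hES hzE')) x).1 hx)
      (by rw [← pow_two, hu.2]) (hzcomm u (hES hu)).symm
      (fun x hx => (Subgroup.mem_normalizer_iff.1 (hSX (hES hu)) x).1 hx) hX
    rw [hkey z hzE' hz1' (fun t ht => hzcomm t ht.1), hkey u hu hu1 hTu,
      hkey ((z : G) * u) (mul_mem hzE' hu) hzu1 (fun t ht => by
        rw [← mul_assoc, hzcomm t ht.1, mul_assoc, hTu t ht, mul_assoc]), sup_idem, sup_idem] at hgen
    exact le_bot_iff.1 hgen
  · rcases h with h | h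
    · obtain ⟨M, hM, hMmax⟩ := Finite.exists_le_maximal (p := fun M : Subgroup G => Cfsg.IsTwoLocal M)
        (a := Subgroup.normalizer (T : Set G)) ⟨T, hT, hT1, rfl⟩
      have hMc := (h M ⟨hMmax.1, fun N hN hle => le_antisymm (hMmax.2 hN hle) hle⟩).1
      have hTM : T ≤ M := Subgroup.le_normalizer.trans hM
      have hmain := (Cfsg.Agent.S0631.result hMc (T.subgroupOf M)
        (hT.comap_of_injective M.subtype M.subtype_injective)).1
      rw [← Subgroup.subgroupOf_normalizer_eq hTM] at hmain
      exact H77.isPConstrained_of_mulEquiv (Subgroup.subgroupOfEquivOfLe hM) hmain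
    · exact H77.isPConstrained_normalizer_of_centralizers 2 (fun t ht => (h t ht).1) T hT hT1

end Cfsg.Agent.S3246
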