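import Cfsg.Statements.S3261
import Cfsg.Agent.H77.AltSixCent
import Cfsg.Agent.H38.D8Centralizer
import Cfsg.Agent.H48.OddInvolution
import Cfsg.Agent.S0495
import Cfsg.Agent.S0497
import Cfsg.Agent.H50.AbelianSylowTwo

set_option autoImplicit false
open Cfsg

namespace Cfsg.Agent.S3261

/-- Let α̃ be an involution of the alternating group A₆ that is a product of two disjoint transpositions (it lies in the centre of a Sylow 2-subgroup of A₆; its centralizer is dihedral of order 8). Let G be a finite group that has no subgroup of index 2 and contains an involution α, central in some Sylow 2-subgroup of G, with C_G(α) ≅ C_{A₆}(α̃). Then G is isomorphic to A₆ or to PSL₂(7). -/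
theorem result {G : Type*} [Group G] [Finite G]
    (hG : ∀ H : Subgroup G, H.index ≠ 2)
    (αt : ↥(alternatingGroup (Fin 6))) (hαt : orderOf αt = 2) (hsupp : (αt : Equiv.Perm (Fin 6)).support.card = 4)
    (α : G) (hα : orderOf α = 2) (S : Sylow 2 G) (hαS : α ∈ (S : Subgroup G)) (hαc : ∀ s ∈ (S : Subgroup G), s * α = α * s)
    (e : ↥(Subgroup.centralizer ({α} : Set G)) ≃* ↥(Subgroup.centralizer ({αt} : Set ↥(alternatingGroup (Fin 6))))) :
    Nonempty (G ≃* ↥(alternatingGroup (Fin 6))) ∨
      (∃ (F : Type) (_ : Field F) (_ : Fintype F), Fintype.card F = 7 ∧ Nonempty (G ≃* Matrix.ProjectiveSpecialLinearGroup (Fin 2) F)) := by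
  classical
  haveI : Fact (Nat.Prime 2) := ⟨Nat.prime_two⟩
  haveI : Fintype G := Fintype.ofFinite G
  obtain ⟨ed⟩ := H77.AltSix.nonempty_centralizer_equiv αt hαt hsupp
  obtain ⟨d, hd2⟩ := H38.exists_d8Data α hα (e.trans ed)
  have hS : (S : Subgroup G) ≤ d.f.range := fun s hs => d.mem_range_of_comm (hd2.symm ▸ hαc s hs)
  have hSeq : (S : Subgroup G) = d.f.range :=
    (S.3 (IsPGroup.of_card (n := 3) (by rw [d.card_range]; rfl)) hS).symm
  have hcenN : Subgroup.normalizer ((S : Subgroup G) : Set G) ≤ d.f.range := by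
    intro g hg
    rw [Subgroup.mem_normalizer_iff] at hg
    obtain ⟨x, hx⟩ : g * α * g⁻¹ ∈ d.f.range := hSeq ▸ (hg α).1 hαS
    have hxc : ∀ y, x * y = y * x := by
      intro y
      apply d.inj
      rw [map_mul, map_mul, hx]
      have hy : g⁻¹ * d.f y * g ∈ (S : Subgroup G) := by
        rw [hg, show g * (g⁻¹ * d.f y * g) * g⁻¹ = d.f y by group, hSeq]
        exact ⟨y, rfl⟩
      have h1 := hαc _ hy
      calc g * α * g⁻¹ * d.f y = g * (α * (g⁻¹ * d.f y * g)) * g⁻¹ := by group
        _ = g * (g⁻¹ * d.f y * g * α) * g⁻¹ := by rw [h1]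
        _ = d.f y * (g * α * g⁻¹) := by group
    rcases H38.d8_eq_center x hxc with rfl | rfl
    · exfalso
      rw [map_one] at hx
      have : α = 1 := by
        calc α = g⁻¹ * (g * α * g⁻¹) * g := by group
          _ = 1 := by rw [← hx]; group
      simp [this] at hα
    · exact d.mem_range_of_comm (by rw [hd2] at hx ⊢; exact mul_inv_eq_iff_eq_mul.1 hx.symm)
  have hfrat : ∀ M : Subgroup G, M.Normal → d.f.range ≤ M → M = ⊤ := by
    intro M hM hle
    have hSM : (S : Subgroup G) ≤ M := hSeq ▸ hle
    have := Sylow.normalizer_sup_eq_top' S hSM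
    rw [eq_top_iff, ← this]
    exact sup_le (hcenN.trans hle) le_rfl
  have hperf : commutator G = ⊤ := by
    refine hfrat _ inferInstance ?_
    intro y hy
    rw [← hSeq] at hy
    by_contra hyn
    obtain ⟨k, hk⟩ := S.2 ⟨y, hy⟩
    have hk' : y ^ 2 ^ k = 1 := by simpa using congrArg Subtype.val hk
    haveI : Finite (Abelianization G) := inferInstanceAs (Finite (G ⧸ _))
    let m := Nat.card (Abelianization G) / 2 ^ (Nat.card (Abelianization G)).factorization 2
    let f : Abelianization G →* Abelianization G := powMonoidHom m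
    have hf2 : IsPGroup 2 f.range := by
      rintro ⟨_, x, rfl⟩
      refine ⟨(Nat.card (Abelianization G)).factorization 2, Subtype.ext ?_⟩
      show (x ^ m) ^ 2 ^ (Nat.card (Abelianization G)).factorization 2 = 1
      rw [← pow_mul, Nat.div_mul_cancel (Nat.ordProj_dvd _ _), pow_card_eq_one']
    have hne : (f.rangeRestrict.comp Abelianization.of) y ≠ 1 := by
      intro h
      have h' : Abelianization.of y ^ m = 1 := congrArg Subtype.val h
      have hcop : Nat.Coprime m (2 ^ k) :=
        Nat.Coprime.pow_right _ (Nat.coprime_ordCompl Nat.prime_two Nat.card_pos.ne').symm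
      have h1 : Abelianization.of y = 1 := by
        rw [← orderOf_eq_one_iff, ← Nat.dvd_one, ← hcop.gcd_eq_one]
        exact Nat.dvd_gcd (orderOf_dvd_of_pow_eq_one h')
          (orderOf_dvd_of_pow_eq_one (by rw [← map_pow, hk', map_one]))
      exact hyn ((QuotientGroup.eq_one_iff _).1 h1)
    obtain ⟨H, hH, -⟩ := H50.exists_index_two_of_map hf2 (f.rangeRestrict.comp Abelianization.of) hne
    exact hG H hH
  have hconj : ∀ b : DihedralGroup 4, b * b = 1 → b ≠ 1 → IsConj α (d.f b) :=
    fun b hb hb1 => hd2 ▸ d.isConj_of_perfect hperf b hb hb1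
  have hsimple : IsSimpleGroup G := by
    haveI : Nontrivial G := ⟨⟨α, 1, fun h => by simp [h] at hα⟩⟩
    refine ⟨fun M hM => ?_⟩
    haveI := hM
    by_cases hα' : α ∈ M
    · right
      refine hfrat M hM ?_
      have hinv : ∀ b : DihedralGroup 4, b * b = 1 → d.f b ∈ M := by
        intro b hb
        rcases eq_or_ne b 1 with rfl | hb1
        · rw [map_one]; exact one_mem _
        obtain ⟨g, hg⟩ := isConj_iff.1 (hconj b hb hb1)
        rw [← hg]
        exact hM.conj_mem α hα' g
      rintro _ ⟨x, rfl⟩
      rcases x with i | i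
      · rw [show DihedralGroup.r i = DihedralGroup.sr 0 * DihedralGroup.sr i by simp, map_mul]
        exact mul_mem (hinv _ (by simp)) (hinv _ (by simp))
      · exact hinv _ (by simp)
    · left
      have hodd : Odd (Nat.card M) := by
        rw [Nat.odd_iff]
        by_contra hc
        obtain ⟨⟨z, hz⟩, hzo⟩ := exists_prime_orderOf_dvd_card' 2
          (show 2 ∣ Nat.card M from Nat.dvd_of_mod_eq_zero (by omega))
        rw [← Subgroup.orderOf_coe] at hzo
        obtain ⟨P, hP⟩ := (IsPGroup.of_card (n := 1) (by rw [Nat.card_zpowers, hzo, pow_one]) :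
          IsPGroup 2 (Subgroup.zpowers z)).exists_le_sylow
        obtain ⟨g, hg⟩ := MulAction.exists_smul_eq G P S
        have hgz : g * z * g⁻¹ ∈ d.f.range := by
          rw [← hSeq, ← hg, Sylow.smul_def, Sylow.pointwise_smul_def]
          exact ⟨z, hP (Subgroup.mem_zpowers z), rfl⟩
        obtain ⟨b, hb⟩ := hgz
        have hz2 : z * z = 1 := by rw [← sq, ← hzo]; exact pow_orderOf_eq_one z
        have hb2 : b * b = 1 := d.inj (by
          rw [map_mul, hb, map_one]
          calc g * z * g⁻¹ * (g * z * g⁻¹) = g * (z * z) * g⁻¹ := by group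
            _ = 1 := by rw [hz2]; group)
        have hb1 : b ≠ 1 := fun h => by
          rw [h, map_one] at hb
          have : z = 1 := by simpa using hb.symm
          simp [this] at hzo
        obtain ⟨k, hk⟩ := isConj_iff.1 (hconj b hb2 hb1).symm
        exact hα' (hk ▸ hM.conj_mem _ (hb.symm ▸ hM.conj_mem z hz g) k)
      have hfix : ∀ b : DihedralGroup 4, b * b = 1 → b ≠ 1 → M ⊓ Subgroup.centralizer {d.f b} = ⊥ := by
        intro b hb hb1
        rw [eq_bot_iff]
        rintro m ⟨hmM, hmc⟩
        obtain ⟨g, hg⟩ := isConj_iff.1 (hconj b hb hb1)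
        have hmem : g⁻¹ * m * g ∈ d.f.range := by
          refine d.mem_range_of_comm ?_
          rw [hd2]
          have hmc' : m * d.f b = d.f b * m := Subgroup.mem_centralizer_singleton_iff.1 hmc
          rw [← hg] at hmc'
          calc g⁻¹ * m * g * α = g⁻¹ * (m * (g * α * g⁻¹)) * g := by group
            _ = g⁻¹ * (g * α * g⁻¹ * m) * g := by rw [hmc']
            _ = α * (g⁻¹ * m * g) := by group
        have h8 := Subgroup.orderOf_dvd_natCard _ hmem
        rw [d.card_range] at h8
        have ho : Odd (orderOf (g⁻¹ * m * g)) := Odd.of_dvd_nat hodd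
          (Subgroup.orderOf_dvd_natCard M (by simpa using hM.conj_mem m hmM g⁻¹))
        obtain ⟨i, -, hi⟩ := (Nat.dvd_prime_pow Nat.prime_two).1 (show orderOf (g⁻¹ * m * g) ∣ 2 ^ 3 from h8)
        have hi0 : i = 0 := by
          by_contra h
          exact Nat.not_even_iff_odd.2 ho (hi ▸ Nat.even_pow.2 ⟨even_two, h⟩)
        rw [hi0, pow_zero, orderOf_eq_one_iff] at hi
        rw [Subgroup.mem_bot]
        calc m = g * (g⁻¹ * m * g) * g⁻¹ := by group
          _ = 1 := by rw [hi]; group
      have hgen := H48.four_group_generation (X := M) (t := d.f (DihedralGroup.r 2))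
        (by rw [← map_mul, show (DihedralGroup.r 2 : DihedralGroup 4) * DihedralGroup.r 2 = 1 by decide, map_one])
        (fun m hm => hM.conj_mem m hm _) (y := d.f (DihedralGroup.sr 0))
        (by rw [← map_mul, show (DihedralGroup.sr 0 : DihedralGroup 4) * DihedralGroup.sr 0 = 1 by decide, map_one])
        (by rw [← map_mul, ← map_mul, H38.d8_r_two_comm])
        (fun m hm => hM.conj_mem m hm _) hodd
      rw [← map_mul, hfix _ (by decide) (by decide), hfix _ (by decide) (by decide), hfix _ (by decide) (by decide),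
        sup_idem, sup_idem] at hgen
      exact le_bot_iff.1 hgen
  rcases d.card_eq hperf with h | h
  · right
    haveI : Fact (Nat.Prime 7) := ⟨by norm_num⟩
    exact ⟨ZMod 7, inferInstance, inferInstance, ZMod.card 7, Cfsg.Agent.S0495.result h (ZMod.card 7)⟩
  · exact Or.inl (Cfsg.Agent.S0497.result h)

end Cfsg.Agent.S3261
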