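import Cfsg.Statements.S3264
import Cfsg.Agent.H67.OddProductGraph

set_option autoImplicit false
open Cfsg

namespace Cfsg.Agent.S3264

/-- Let G be a non-abelian finite simple group and X a conjugacy class of involutions of G. Form the graph on X in which two distinct involutions are joined when their product has odd order. Then this graph is connected. (By the Baer–Suzuki Theorem the graph has at least one edge; connectedness is the stronger statement.) -/
theorem result {G : Type*} [Group G] [Finite G] [IsSimpleGroup G]
    (hG : ¬ IsMulCommutative G) (t : G) (ht : orderOf t = 2) :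
    (SimpleGraph.fromRel fun x y : {x : G // IsConj t x} => Odd (orderOf (x.1 * y.1))).Connected := by
  have ht2 : t * t = 1 := by rw [← pow_two, ← ht]; exact pow_orderOf_eq_one t
  have hcl : Subgroup.normalClosure ((Subgroup.zpowers t : Subgroup G) : Set G) = ⊤ := by
    refine (Subgroup.normalClosure_normal.eq_bot_or_eq_top).resolve_left fun h => ?_
    have h1 : t ∈ Subgroup.normalClosure ((Subgroup.zpowers t : Subgroup G) : Set G) :=
      Subgroup.subset_normalClosure (Subgroup.mem_zpowers t)
    rw [h, Subgroup.mem_bot] at h1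
    rw [h1, orderOf_one] at ht
    omega
  set Γ := SimpleGraph.fromRel fun x y : {x : G // IsConj t x} => Odd (orderOf (x.1 * y.1)) with hΓ
  have key : ∀ a : G, a ∈ Cfsg.Agent.H67.OddProductGraph.Reach t →
      ∃ ha : IsConj t a, Γ.Reachable ⟨t, IsConj.refl t⟩ ⟨a, ha⟩ := by
    intro a ha
    change Relation.ReflTransGen Cfsg.Agent.H67.OddProductGraph.Step t a at ha
    induction ha with
    | refl => exact ⟨IsConj.refl t, SimpleGraph.Reachable.refl _⟩
    | @tail b c _ hs ih =>
      obtain ⟨hb, hr⟩ := ih
      refine ⟨hb.trans hs.1, ?_⟩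
      by_cases e : b = c
      · subst e
        exact hr
      · refine hr.trans (SimpleGraph.Adj.reachable ?_)
        rw [hΓ, SimpleGraph.fromRel_adj]
        exact ⟨fun h => e (congrArg Subtype.val h), Or.inl hs.2⟩
  have hconn : ∀ a : {x : G // IsConj t x}, Γ.Reachable ⟨t, IsConj.refl t⟩ a := by
    rintro ⟨a, ha⟩
    obtain ⟨g, rfl⟩ := isConj_iff.1 ha
    exact (key _ (Cfsg.Agent.H67.OddProductGraph.reach_conjugate ht2 hcl g)).2
  haveI : Nonempty {x : G // IsConj t x} := ⟨⟨t, IsConj.refl t⟩⟩
  exact ⟨fun a b => (hconn a).symm.trans (hconn b)⟩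

end Cfsg.Agent.S3264
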