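import Cfsg.Statements.S3269
import Cfsg.Agent.H79.QuaternionFactor
import Cfsg.Agent.H28.ZStar

set_option autoImplicit false
open Cfsg

namespace Cfsg.Agent.S3269

open Cfsg.Agent.H79

/-- Let G be a finite group whose Sylow 2-subgroup S is an internal direct product Q × R with Q generalized quaternion (of order at least 8) and R a subgroup all of whose involutions are central in R. Then G is not simple. In particular no finite simple group has a Sylow 2-subgroup that is a direct product of one or more generalized quaternion groups. -/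
theorem result {G : Type*} [Group G] [Finite G]
    (S : Sylow 2 G) (Q R : Subgroup G) (hQR : Cfsg.IsInternalDirectProduct Q R (S : Subgroup G))
    (n : ℕ) (hn : 1 ≤ n) (eQ : ↥Q ≃* QuaternionGroup (2 ^ n))
    (hR : ∀ r ∈ R, orderOf r = 2 → ∀ s ∈ R, r * s = s * r) :
    ¬ IsSimpleGroup G := by
  intro hsimple
  haveI : Fact (Nat.Prime 2) := ⟨Nat.prime_two⟩
  obtain ⟨hQS, hRS, hcomm, hdisj, hsup⟩ := hQR
  haveI : NeZero (2 ^ n) := ⟨by positivity⟩
  haveI : Finite Q := Finite.of_equiv _ eQ.symm.toEquiv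
  obtain ⟨z, x, y, hz, hz2, hinv, hzxy, hker, hcen, hzc⟩ := quaternion_two_facts n hn
  -- the internal product
  let θ : QuaternionGroup (2 ^ n) × R →* (S : Subgroup G) :=
    (MonoidHom.noncommCoprod ((Subgroup.inclusion hQS).comp eQ.symm.toMonoidHom)
      (Subgroup.inclusion hRS) fun q r => Subtype.ext (hcomm _ (eQ.symm q).2 r.1 r.2))
  have hθv : ∀ p, ((θ p : (S : Subgroup G)) : G) = (eQ.symm p.1 : Q) * (p.2 : R) := fun p => rfl
  have hθi : Function.Injective θ := by
    rw [injective_iff_map_eq_one]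
    rintro ⟨q, r⟩ h
    have h1 : ((eQ.symm q : Q) : G) * r = 1 := congrArg Subtype.val h
    have h2 : ((eQ.symm q : Q) : G) ∈ Q ⊓ R :=
      Subgroup.mem_inf.2 ⟨(eQ.symm q).2, by
        rw [eq_inv_of_mul_eq_one_left h1]; exact R.inv_mem r.2⟩
    rw [hdisj, Subgroup.mem_bot] at h2
    have hq : q = 1 := eQ.symm.injective (by rw [map_one]; exact Subtype.ext h2)
    rw [h2, one_mul] at h1
    exact Prod.ext hq (Subtype.ext h1)
  have hθs : Function.Surjective θ := by
    intro s
    have hR' : Q ≤ Subgroup.normalizer (R : Set G) := fun a ha =>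
      Subgroup.mem_normalizer_iff.2 fun b => ⟨fun hb => by
        rw [hcomm a ha b hb, mul_inv_cancel_right]; exact hb, fun hb => by
        have := hcomm a⁻¹ (inv_mem ha) _ hb
        have h3 : b = a * b * a⁻¹ := by
          calc b = a⁻¹ * (a * b * a⁻¹) * a := by group
            _ = (a * b * a⁻¹) * a⁻¹ * a := by rw [this]
            _ = a * b * a⁻¹ := by group
        rw [h3]; exact hb⟩
    have hs : (s : G) ∈ ((Q ⊔ R : Subgroup G) : Set G) := by rw [hsup]; exact s.2
    rw [Subgroup.coe_mul_of_left_le_normalizer_right Q R hR'] at hs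
    obtain ⟨a, ha, b, hb, hab⟩ := hs
    refine ⟨(eQ ⟨a, ha⟩, ⟨b, hb⟩), Subtype.ext ?_⟩
    rw [hθv, MulEquiv.symm_apply_apply]
    exact hab
  let Θ := MulEquiv.ofBijective θ ⟨hθi, hθs⟩
  have hR2 : ∀ r : R, r * r = 1 → ∀ x : R, r * x = x * r := by
    intro r hr x
    rcases eq_or_ne r 1 with rfl | h1
    · simp
    · refine Subtype.ext (hR r.1 r.2 ?_ x.1 x.2)
      rw [Subgroup.orderOf_coe]
      exact orderOf_eq_prime (by rw [pow_two, hr]) h1
  obtain ⟨c, hc, hfix⟩ := exists_fixed_of_quaternion_factor (R := R) z x y hz hz2 hinv hzxy hker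
    hcen hzc hR2
  set u : (S : Subgroup G) := Θ c with hu
  have huo : orderOf u = 2 := by rw [hu, MulEquiv.orderOf_eq, hc]
  have huG : orderOf (u : G) = 2 := by rw [Subgroup.orderOf_coe, huo]
  have hufix : ∀ φ : MulAut (S : Subgroup G), φ u = u := by
    intro φ
    have h1 := hfix ((Θ.trans φ).trans Θ.symm)
    simp only [MulEquiv.trans_apply] at h1
    rw [MulEquiv.symm_apply_eq] at h1
    exact h1
  have hcentral : ∀ v : (S : Subgroup G), v * v = 1 →
      (v : G) ∈ Subgroup.centralizer ((S : Subgroup G) : Set G) := by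
    intro v hv
    rw [Subgroup.mem_centralizer_iff]
    intro w hw
    obtain ⟨⟨q, r⟩, rfl⟩ := Θ.surjective v
    obtain ⟨⟨q', r'⟩, hw'⟩ := Θ.surjective ⟨w, hw⟩
    have h1 : (q, r) * (q, r) = (1 : QuaternionGroup (2 ^ n) × R) :=
      Θ.injective (by rw [map_mul, hv, map_one])
    rw [Prod.mk_mul_mk, Prod.mk_eq_one] at h1
    have h2 : (q', r') * (q, r) = (q, r) * (q', r') := by
      refine Prod.ext ?_ (hR2 r h1.2 r').symm
      rcases hinv q h1.1 with e | e <;> simp [e, hzc]
    have h3 := congrArg (fun p => ((Θ p : (S : Subgroup G)) : G)) h2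
    simp only [map_mul, Subgroup.coe_mul, hw'] at h3
    exact h3
  have hu2 : u * u = 1 := by
    have h := pow_orderOf_eq_one u
    rwa [huo, pow_two] at h
  have hiso : ∀ g : G, g * (u : G) * g⁻¹ ∈ S → g * (u : G) * g⁻¹ = u := by
    intro g hg
    have h1 := hcentral u hu2
    have h2 := hcentral ⟨_, hg⟩ (Subtype.ext (by
      show g * (u : G) * g⁻¹ * (g * (u : G) * g⁻¹) = 1
      have := congrArg Subtype.val hu2
      calc g * (u : G) * g⁻¹ * (g * (u : G) * g⁻¹) = g * ((u : G) * u) * g⁻¹ := by group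
        _ = 1 := by rw [show (u : G) * u = 1 from this]; group))
    obtain ⟨m, hm, hmeq⟩ := Sylow.conj_eq_normalizer_conj_of_mem_centralizer S (u : G) g⁻¹ h1
      (by rw [inv_inv]; exact h2)
    rw [inv_inv] at hmeq
    rw [hmeq]
    let φ : MulAut (S : Subgroup G) := Subgroup.normalizerMonoidHom _ ⟨m⁻¹, inv_mem hm⟩
    calc m⁻¹ * (u : G) * m = m⁻¹ * (u : G) * (m⁻¹)⁻¹ := by rw [inv_inv]
      _ = u := congrArg Subtype.val (hufix φ)
  have hZ := Cfsg.Agent.H28.zStar (Cfsg.Agent.H28.isIsolatedInvolution_of_sylow S huG hiso)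
  haveI := hsimple
  haveI := Cfsg.Agent.H19.pPrimeCore_normal 2 G
  have hcore : Cfsg.pPrimeCore 2 G = ⊥ := by
    refine (inferInstance : (Cfsg.pPrimeCore 2 G).Normal).eq_bot_or_eq_top.resolve_right fun h => ?_
    have h1 := Cfsg.Agent.H19.pPrimeCore_coprime (G := G) 2
    rw [h, Subgroup.card_top] at h1
    have h2 : 2 ∣ Nat.card G := huG ▸ orderOf_dvd_natCard _
    rw [Nat.coprime_two_right, Nat.odd_iff] at h1
    omega
  have huc : (u : G) ∈ Subgroup.center G := by
    rw [Subgroup.mem_center_iff]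
    intro g
    have h1 := hZ g
    rw [hcore, Subgroup.mem_bot] at h1
    exact (mul_inv_eq_iff_eq_mul.1 (mul_inv_eq_one.1 h1)).symm
  rcases (inferInstance : (Subgroup.center G).Normal).eq_bot_or_eq_top with e | e
  · rw [e, Subgroup.mem_bot] at huc
    rw [huc, orderOf_one] at huG
    omega
  · have h2 : x * y = y * x := by
      have h0 : (θ (x, 1) : (S : Subgroup G)) * θ (y, 1) = θ (y, 1) * θ (x, 1) := by
        apply Subtype.ext
        rw [Subgroup.coe_mul, Subgroup.coe_mul]
        exact (Subgroup.mem_center_iff.1 (e ▸ Subgroup.mem_top (θ (x, 1) : G)) _).symm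
      have h3 := hθi (by rw [map_mul, map_mul]; exact h0 : θ ((x, 1) * (y, 1)) = θ ((y, 1) * (x, 1)))
      exact congrArg Prod.fst h3
    exact hz (by rw [hzxy, h2]; group)

end Cfsg.Agent.S3269
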