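import Cfsg.Statements.S3276
import Cfsg.Agent.H77.Dihedral

set_option autoImplicit false
open Cfsg

namespace Cfsg.Agent.S3276

/-- Let x and y be commuting, non-conjugate involutions of a finite group G, and suppose that for every involution u commuting with x, each conjugate of y that commutes with u also commutes with y. Then the normal closure of y is a proper, normal, elementary abelian 2-subgroup of G; and if y is the only involution of that normal closure commuting with x, it has order at most 4. -/
theorem result {G : Type*} [Group G] [Finite G] (x y : G) (hx : orderOf x = 2) (hy : orderOf y = 2)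
    (hxy : Commute x y) (hnc : ¬ IsConj x y)
    (hstar : ∀ u : G, orderOf u = 2 → Commute u x → ∀ g : G, Commute (g * y * g⁻¹) u → Commute (g * y * g⁻¹) y) :
    Subgroup.normalClosure ({y} : Set G) ≠ ⊤ ∧ Cfsg.IsElementaryAbelian 2 (Subgroup.normalClosure ({y} : Set G)) ∧
      ((∀ u ∈ Subgroup.normalClosure ({y} : Set G), orderOf u = 2 → Commute u x → u = y) →
        Nat.card ↥(Subgroup.normalClosure ({y} : Set G)) ≤ 4) := by
  have hxx : x * x = 1 := by rw [← pow_two, ← hx, pow_orderOf_eq_one]
  have hyy : y * y = 1 := by rw [← pow_two, ← hy, pow_orderOf_eq_one]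
  have hc : ∀ g : G, Commute (g * y * g⁻¹) y := by
    intro g
    have hgg : (g * y * g⁻¹) * (g * y * g⁻¹) = 1 := by
      rw [← pow_two, conj_pow, pow_two, hyy, mul_one, mul_inv_cancel]
    have hn : ¬ IsConj x (g * y * g⁻¹) := fun h => hnc (h.trans (isConj_iff.2 ⟨g, rfl⟩).symm)
    obtain ⟨u, -, hu, hux, huy⟩ := H77.exists_involution_commute_of_not_isConj hxx hgg hn
    exact hstar u hu hux g huy.symm
  have hc2 : ∀ a ∈ Group.conjugatesOfSet ({y} : Set G), ∀ b ∈ Group.conjugatesOfSet ({y} : Set G),
      a * b = b * a := by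
    intro a ha b hb
    simp only [Group.mem_conjugatesOfSet_iff, Set.mem_singleton_iff, exists_eq_left] at ha hb
    obtain ⟨g, rfl⟩ := isConj_iff.1 ha
    obtain ⟨k, rfl⟩ := isConj_iff.1 hb
    have h := (hc (k⁻¹ * g)).map (MulAut.conj k).toMonoidHom
    simp only [MulEquiv.coe_toMonoidHom, MulAut.conj_apply] at h
    have e1 : k * (k⁻¹ * g * y * (k⁻¹ * g)⁻¹) * k⁻¹ = g * y * g⁻¹ := by group
    rwa [e1] at h
  have hcomm : IsMulCommutative ↥(Subgroup.normalClosure ({y} : Set G)) :=
    Subgroup.isMulCommutative_closure hc2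
  have hsq : ∀ a ∈ Subgroup.normalClosure ({y} : Set G), a ^ 2 = 1 := by
    haveI : IsMulCommutative ↥(Subgroup.closure (Group.conjugatesOfSet ({y} : Set G))) := hcomm
    intro a ha
    change a ∈ Subgroup.closure (Group.conjugatesOfSet ({y} : Set G)) at ha
    induction ha using Subgroup.closure_induction with
    | mem z hz =>
      simp only [Group.mem_conjugatesOfSet_iff, Set.mem_singleton_iff, exists_eq_left] at hz
      obtain ⟨g, rfl⟩ := isConj_iff.1 hz
      rw [conj_pow, pow_two, hyy, mul_one, mul_inv_cancel]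
    | one => simp
    | mul a b ha hb iha ihb =>
      rw [Commute.mul_pow (setLike_mul_comm ha hb : Commute a b), iha, ihb, one_mul]
    | inv a ha iha => rw [inv_pow, iha, inv_one]
  refine ⟨fun htop => hnc ?_, ⟨hcomm, hsq⟩, fun honly => ?_⟩
  · have hab : ∀ a b : G, a * b = b * a := fun a b =>
      setLike_mul_comm (s := Subgroup.normalClosure ({y} : Set G)) (htop ▸ Subgroup.mem_top a) (htop ▸ Subgroup.mem_top b)
    have hle : Subgroup.normalClosure ({y} : Set G) ≤ Subgroup.zpowers y := by
      haveI : (Subgroup.zpowers y).Normal := ⟨fun n hn g => by rwa [hab g n, mul_inv_cancel_right]⟩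
      exact Subgroup.normalClosure_le_normal (by simp)
    rw [htop, top_le_iff] at hle
    have hcard : Nat.card G = 2 := by
      rw [← hy, ← Nat.card_zpowers y, hle, Subgroup.card_top]
    obtain ⟨z, hz, huniq⟩ := Nat.card_eq_two_iff' (1 : G) |>.1 hcard
    have hx1 : x ≠ 1 := by rintro rfl; simp at hx
    have hy1 : y ≠ 1 := by rintro rfl; simp at hy
    rw [huniq x hx1, huniq y hy1]
  · set V := Subgroup.normalClosure ({y} : Set G) with hV
    have hfix : ∀ v ∈ V, x * v * x⁻¹ = v → v = 1 ∨ v = y := by
      intro v hv hvx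
      by_cases h1 : v = 1
      · exact Or.inl h1
      · refine Or.inr (honly v hv (orderOf_eq_prime (hsq v hv) h1) ?_)
        exact (mul_inv_eq_iff_eq_mul.1 hvx).symm
    have hVn : V.Normal := Subgroup.normalClosure_normal
    have hd : ∀ v : ↥V, v.1 * (x * v.1 * x⁻¹) = 1 ∨ v.1 * (x * v.1 * x⁻¹) = y := by
      intro v
      have hm : x * v.1 * x⁻¹ ∈ V := hVn.conj_mem _ v.2 x
      refine hfix _ (mul_mem v.2 hm) ?_
      calc x * (v.1 * (x * v.1 * x⁻¹)) * x⁻¹ = (x * v.1 * x⁻¹) * ((x * x) * v.1 * (x * x)⁻¹) := by group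
        _ = (x * v.1 * x⁻¹) * v.1 := by rw [hxx]; group
        _ = v.1 * (x * v.1 * x⁻¹) := setLike_mul_comm hm v.2
    classical
    let f : ↥V → Bool := fun v => decide (v.1 * (x * v.1 * x⁻¹) = 1)
    haveI : Fintype ↥V := Fintype.ofFinite _
    have hfib : ∀ b : Bool, (Finset.univ.filter fun v => f v = b).card ≤ 2 := by
      intro b
      by_contra hlt
      obtain ⟨u, hu, v, hv, w, hw, huv, huw, hvw⟩ := Finset.two_lt_card.1 (Nat.lt_of_not_le hlt)
      simp only [Finset.mem_filter, Finset.mem_univ, true_and] at hu hv hw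
      have key : ∀ a c : ↥V, f a = f c → a ≠ c → a.1 * c.1 = y := by
        intro a c hac hne
        have heq : a.1 * (x * a.1 * x⁻¹) = c.1 * (x * c.1 * x⁻¹) := by
          rcases hd a with h1 | h1 <;> rcases hd c with h2 | h2 <;> simp [f, h1, h2] at hac ⊢ <;>
            first | exact hac | exact hac.symm
        have hmem : a.1 * c.1 ∈ V := mul_mem a.2 c.2
        have hfx : x * (a.1 * c.1) * x⁻¹ = a.1 * c.1 := by
          have ea : x * a.1 * x⁻¹ = a.1⁻¹ * (a.1 * (x * a.1 * x⁻¹)) := by group
          have ec : x * c.1 * x⁻¹ = c.1⁻¹ * (c.1 * (x * c.1 * x⁻¹)) := by group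
          have ia : a.1⁻¹ = a.1 := inv_eq_of_mul_eq_one_right (by rw [← pow_two, hsq _ a.2])
          have ic : c.1⁻¹ = c.1 := inv_eq_of_mul_eq_one_right (by rw [← pow_two, hsq _ c.2])
          have hq : c.1 * (x * c.1 * x⁻¹) ∈ V := mul_mem c.2 (hVn.conj_mem _ c.2 x)
          have hq2 := hsq _ hq
          rw [heq, ia] at ea
          rw [ic] at ec
          calc x * (a.1 * c.1) * x⁻¹ = (x * a.1 * x⁻¹) * (x * c.1 * x⁻¹) := by group
            _ = (a.1 * (c.1 * (x * c.1 * x⁻¹))) * (c.1 * (c.1 * (x * c.1 * x⁻¹))) := by rw [← ea, ← ec]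
            _ = (a.1 * c.1) * ((c.1 * (x * c.1 * x⁻¹)) ^ 2) := by
              rw [pow_two, mul_assoc, ← mul_assoc _ c.1, setLike_mul_comm hq c.2]
              group
            _ = a.1 * c.1 := by rw [hq2, mul_one]
        rcases hfix _ hmem hfx with h | h
        · exfalso
          apply hne
          apply Subtype.ext
          rw [mul_eq_one_iff_eq_inv.1 h]
          exact inv_eq_of_mul_eq_one_right (by rw [← pow_two, hsq _ c.2])
        · exact h
      have h1 := key u v (hu.trans hv.symm) huv
      have h2 := key u w (hu.trans hw.symm) huw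
      exact hvw (Subtype.ext (mul_left_cancel (h1.trans h2.symm)))
    rw [Nat.card_eq_fintype_card, ← Finset.card_univ,
      Finset.card_eq_sum_card_fiberwise (f := f) (t := Finset.univ) (by simp), Fintype.sum_bool]
    have := hfib true
    have := hfib false
    omega

end Cfsg.Agent.S3276
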