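import Cfsg.Statements.S3283
import Cfsg.Agent.H70.CHZ.Identify
import Cfsg.Agent.H70.CHZ.Final
import Cfsg.Agent.H70.CHZ.SplitCase
import Cfsg.Agent.H70.CHZ.ToTensor
import Cfsg.Agent.H70.CHZ.TensorOut

set_option autoImplicit false
open Cfsg

namespace Cfsg.Agent.S3283

/-- Let G be a finite group with an involution z whose centralizer M has Q = O₂(M) extraspecial of order 2⁹ with C_M(Q) ≤ Q, and M/Q isomorphic to S₃ × A₆ or to S₃ × S₆. Then G is not simple. -/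
theorem result {G : Type*} [Group G] [Finite G] (z : G) (hz : orderOf z = 2)
    (hQ : Cfsg.IsExtraspecial 2 ↥(Cfsg.pCore 2 ↥(Subgroup.centralizer ({z} : Set G)))) (hQ9 : Nat.card ↥(Cfsg.pCore 2 ↥(Subgroup.centralizer ({z} : Set G))) = 2 ^ 9)
    (hCQ : Subgroup.centralizer ((Cfsg.pCore 2 ↥(Subgroup.centralizer ({z} : Set G))) : Set ↥(Subgroup.centralizer ({z} : Set G))) ≤ Cfsg.pCore 2 ↥(Subgroup.centralizer ({z} : Set G)))
    (hMQ : Nonempty (↥(Subgroup.centralizer ({z} : Set G)) ⧸ Cfsg.pCore 2 ↥(Subgroup.centralizer ({z} : Set G)) ≃* (Equiv.Perm (Fin 3) × ↥(alternatingGroup (Fin 6)))) ∨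
      Nonempty (↥(Subgroup.centralizer ({z} : Set G)) ⧸ Cfsg.pCore 2 ↥(Subgroup.centralizer ({z} : Set G)) ≃* (Equiv.Perm (Fin 3) × Equiv.Perm (Fin 6)))) :
    ¬ IsSimpleGroup G := by
  obtain ⟨π, h, hfull⟩ := Cfsg.Agent.H70.CHZ.exists_base z hz hQ hQ9 hCQ hMQ
  refine Cfsg.Agent.H70.CHZ.not_simple_of_isolated h fun g hc => ?_
  rcases h.dichotomy with hf | ⟨E, hE⟩
  · obtain ⟨π', φ, hT⟩ := Cfsg.Agent.H70.CHZ.exists_tensor h hf hfull
    exact hT.isolated g hc.eq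
  · exact hE.isolated g hc

end Cfsg.Agent.S3283
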