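import Cfsg.Statements.S3284
import Cfsg.Agent.H70.CHZ.DiagBase
import Cfsg.Agent.H70.CHZ.Final
import Cfsg.Agent.H70.CHZ.Identify
import Cfsg.Agent.H70.CHZ.DiagToTensor
import Cfsg.Agent.H70.CHZ.TensorOut
import Cfsg.Agent.H70.CHZ.SplitCase
-- import your own Cfsg.Agent.* helpers here

set_option autoImplicit false
open Cfsg

namespace Cfsg.Agent.S3284

/-- There is no non-abelian finite simple group with an involution z whose centralizer M has generalized Fitting subgroup Q = F*(M) extraspecial of order 2⁹ and M/Q isomorphic to the subgroup of S₃ × S₆ consisting of the pairs of permutations with equal sign (a group (3 × A₆)·2 in which an involution outside 3 × A₆ induces S₃ on the first factor and S₆ on the second). -/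
theorem result {G : Type*} [Group G] [Finite G] [IsSimpleGroup G] (hG : ¬ IsMulCommutative G) (z : G) (hz : orderOf z = 2)
    [hn : (Cfsg.generalizedFittingSubgroup ↥(Subgroup.centralizer ({z} : Set G))).Normal]
    (hQ : Cfsg.IsExtraspecial 2 ↥(Cfsg.generalizedFittingSubgroup ↥(Subgroup.centralizer ({z} : Set G)))) (hQ9 : Nat.card ↥(Cfsg.generalizedFittingSubgroup ↥(Subgroup.centralizer ({z} : Set G))) = 2 ^ 9)
    (e : (↥(Subgroup.centralizer ({z} : Set G)) ⧸ Cfsg.generalizedFittingSubgroup ↥(Subgroup.centralizer ({z} : Set G))) ≃*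
      ↥(MonoidHom.ker (Equiv.Perm.sign.comp (MonoidHom.fst (Equiv.Perm (Fin 3)) (Equiv.Perm (Fin 6))) *
          Equiv.Perm.sign.comp (MonoidHom.snd (Equiv.Perm (Fin 3)) (Equiv.Perm (Fin 6)))))) :
    False := by
  obtain ⟨π, h, hdiag⟩ := H70.CHZ.exists_base_diag z hz hQ hQ9 e
  rcases h.dichotomy with hf | ⟨E, hE⟩
  · obtain ⟨π', φ, hT⟩ := H70.CHZ.exists_tensor_diag h hf hdiag
    exact H70.CHZ.not_simple_of_isolated hT.toBase (fun g hc => hT.isolated g hc) inferInstance
  · exact H70.CHZ.not_simple_of_isolated h hE.isolated inferInstance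

end Cfsg.Agent.S3284
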