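import Cfsg.Statements.S3299
import Cfsg.Agent.H77.LargeEspTransfer
-- import your own Cfsg.Agent.* helpers here

set_option autoImplicit false
open Cfsg

namespace Cfsg.Agent.S3299

/-- Let G be a finite group with no nontrivial 2-group quotient (O^2(G) = G), z an involution of G with H = C_G(z), and suppose E = O_2(H) is extraspecial with C_G(E) ≤ E and of order 2^(2n+1) with n ≥ 2. Then E is contained in every normal subgroup of H of index 2. -/
theorem result {G : Type*} [Group G] [Finite G] (hres : Cfsg.pResidual 2 G = ⊤) (z : G) (hz : orderOf z = 2)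
    (E : Subgroup G) (hE : E = (Cfsg.pCore 2 ↥(Subgroup.centralizer ({z} : Set G))).map (Subgroup.centralizer ({z} : Set G)).subtype)
    (hext : Cfsg.IsExtraspecial 2 ↥E) (hcent : Subgroup.centralizer (E : Set G) ≤ E) (n : ℕ) (hn : 2 ≤ n) (hcard : Nat.card ↥E = 2 ^ (2 * n + 1))
    (K : Subgroup G) (hKH : K ≤ Subgroup.centralizer ({z} : Set G))
    (hKn : ∀ h ∈ Subgroup.centralizer ({z} : Set G), K.map (MulAut.conj h).toMonoidHom = K)
    (hKi : K.relIndex (Subgroup.centralizer ({z} : Set G)) = 2) : E ≤ K := by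
  classical
  have S := H77.LargeEsp.setting_of hz hE hext hcent
  intro e₀ he₀
  by_contra he₀K
  set C := Subgroup.centralizer ({z} : Set G) with hC
  have hEC : E ≤ C := fun x hx => Subgroup.mem_centralizer_singleton_iff.2 (S.comm x hx)
  have hH2 : ∀ a ∈ C, ∀ b ∈ C, a ∉ K → b ∉ K → a * b ∈ K := by
    intro a ha b hb ha' hb'
    have := (Subgroup.mul_mem_iff_of_index_two (H := K.subgroupOf C) hKi (a := ⟨a, ha⟩) (b := ⟨b, hb⟩)).2
      ⟨fun h => absurd h ha', fun h => absurd h hb'⟩
    exact this
  have hbig : 32 ≤ Nat.card E := by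
    rw [hcard, show (32 : ℕ) = 2 ^ 5 by norm_num]
    exact Nat.pow_le_pow_right (by norm_num) (by omega)
  have hzK : z ∈ K := by
    haveI : (K.subgroupOf C).Normal := Subgroup.normal_of_index_eq_two hKi
    obtain ⟨a, ha, b, hb, hab⟩ : ∃ a ∈ E, ∃ b ∈ E, a * b ≠ b * a := by
      by_contra h
      push Not at h
      rcases S.cent e₀ (fun x hx => h e₀ he₀ x hx) with h1 | h1
      · exact he₀K (h1 ▸ one_mem K)
      · have hall : ∀ x ∈ E, x = 1 ∨ x = z := fun x hx => S.cent x (fun y hy => h x hx y hy)
        have : Nat.card E ≤ 2 := by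
          let f : E → Bool := fun x => decide ((x : G) = 1)
          have hf : Function.Injective f := by
            intro x y hxy
            simp only [f, decide_eq_decide] at hxy
            rcases hall x x.2 with e | e <;> rcases hall y y.2 with e' | e'
            · exact Subtype.ext (e.trans e'.symm)
            · exact Subtype.ext (e.trans (hxy.1 e).symm)
            · exact Subtype.ext ((hxy.2 e').trans e'.symm)
            · exact Subtype.ext (e.trans e'.symm)
          simpa using Nat.card_le_card_of_injective f hf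
        omega
    have hz' : z = a * b * a⁻¹ * b⁻¹ := by
      refine ((S.bracket a ha b hb).resolve_left fun h => hab ?_).symm
      calc a * b = a * b * a⁻¹ * b⁻¹ * (b * a) := by group
        _ = b * a := by rw [h, one_mul]
    have h1 : (⟨a, hEC ha⟩ * ⟨b, hEC hb⟩ * (⟨a, hEC ha⟩ : C)⁻¹ * (⟨b, hEC hb⟩ : C)⁻¹ : C) ∈
        K.subgroupOf C := by
      rw [← QuotientGroup.eq_one_iff]
      have hc : Nat.card (↥C ⧸ K.subgroupOf C) = 2 := by rw [← Subgroup.index_eq_card]; exact hKi
      haveI : IsCyclic (↥C ⧸ K.subgroupOf C) := isCyclic_of_prime_card hc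
      let : CommGroup (↥C ⧸ K.subgroupOf C) := IsCyclic.commGroup
      simp only [QuotientGroup.mk_mul, QuotientGroup.mk_inv]
      rw [mul_comm (QuotientGroup.mk (⟨a, hEC ha⟩ : C)) _, mul_inv_cancel_right, mul_inv_cancel]
    rw [hz']
    exact Subgroup.mem_subgroupOf.1 h1
  obtain ⟨e, he, he2, heK, x, hx, y, hy, hxe, hye, hxy⟩ := S.exists_data hbig K hzK he₀ he₀K
    (fun a ha b hb => hH2 a (hEC ha) b (hEC hb))
  exact S.transfer_contra (H77.LargeEsp.hom_trivial_of_residual hres) K hKH hKi he he2 heK hx hy hxe hye hxy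

end Cfsg.Agent.S3299
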