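import Cfsg.Statements.S3301
import Cfsg.Agent.H32.EspSign

set_option autoImplicit false
open Cfsg
open scoped commutatorElement

namespace Cfsg.Agent.S3301

/-- Let G be a finite group with no nontrivial 2-group quotient (O^2(G) = G), z an involution of G with H = C_G(z), and suppose E = O_2(H) is extraspecial with C_G(E) ≤ E. Then the Sylow 2-subgroups of H/[H, H] are elementary abelian: every element of 2-power order of the abelianization of H has order at most 2. -/
theorem result {G : Type*} [Group G] [Finite G] (hres : Cfsg.pResidual 2 G = ⊤) (z : G) (hz : orderOf z = 2)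
    (E : Subgroup G) (hE : E = (Cfsg.pCore 2 ↥(Subgroup.centralizer ({z} : Set G))).map (Subgroup.centralizer ({z} : Set G)).subtype)
    (hext : Cfsg.IsExtraspecial 2 ↥E) (hcent : Subgroup.centralizer (E : Set G) ≤ E) :
    ∀ q : Abelianization ↥(Subgroup.centralizer ({z} : Set G)), (∃ k : ℕ, orderOf q = 2 ^ k) → q ^ 2 = 1 := by
  classical
  have S := H77.LargeEsp.setting_of hz hE hext hcent
  set C := Subgroup.centralizer ({z} : Set G) with hC
  intro q hq
  by_contra hq2
  obtain ⟨k, hk⟩ := hq
  let sq : Abelianization ↥C →* Abelianization ↥C := powMonoidHom 2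
  let B := sq.range
  let sqB : ↥B →* ↥B := powMonoidHom 2
  -- squaring is not onto on the squares
  have hne : sqB.range ≠ ⊤ := by
    intro h
    have hinj : Function.Injective sqB := Finite.injective_iff_surjective.2 (MonoidHom.range_eq_top.1 h)
    have hall : ∀ (j : ℕ) (x : ↥B), x ^ 2 ^ j = 1 → x = 1 := by
      intro j
      induction j with
      | zero => intro x hx; simpa using hx
      | succ j ih =>
        intro x hx
        rw [pow_succ', pow_mul] at hx
        exact hinj ((ih _ hx).trans (one_pow 2).symm)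
    have := hall k ⟨q ^ 2, q, rfl⟩ (Subtype.ext (by
      show (q ^ 2) ^ 2 ^ k = 1
      rw [← pow_mul, mul_comm, pow_mul, ← hk, pow_orderOf_eq_one, one_pow]))
    exact hq2 (congrArg Subtype.val this)
  obtain ⟨H, hH, hsH⟩ := (eq_top_or_exists_le_coatom sqB.range).resolve_left hne
  have hH2 : H.index = 2 := by
    obtain ⟨x, -, hx⟩ := SetLike.exists_of_lt (lt_top_iff_ne_top.2 hH.1)
    refine Subgroup.index_eq_two_iff.2 ⟨x, fun b => ?_⟩
    have hxx : x * x ∈ H := hsH ⟨x, pow_two x⟩
    have hbb : b ∈ H ∨ b * x ∈ H := by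
      let H1 : Subgroup ↥B :=
        { carrier := {y | y ∈ H ∨ y * x ∈ H}
          one_mem' := Or.inl (one_mem H)
          mul_mem' := by
            rintro y y' (h | h) (h' | h')
            · exact Or.inl (mul_mem h h')
            · exact Or.inr (by rw [mul_assoc]; exact mul_mem h h')
            · exact Or.inr (by rw [mul_right_comm]; exact mul_mem h h')
            · refine Or.inl ?_
              have := mul_mem (mul_mem h h') (inv_mem hxx)
              rwa [mul_mul_mul_comm, mul_inv_cancel_right] at this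
          inv_mem' := by
            rintro y (h | h)
            · exact Or.inl (inv_mem h)
            · refine Or.inr ?_
              have := mul_mem (inv_mem h) hxx
              rwa [mul_inv, mul_assoc, inv_mul_cancel_left] at this }
      have hlt : H < H1 := lt_of_le_of_ne (fun y hy => Or.inl hy) fun e => hx (e.symm ▸ Or.inr hxx)
      have e := hH.2 H1 hlt
      exact (show b ∈ H1 by rw [e]; exact Subgroup.mem_top b)
    by_cases hb : b ∈ H
    · exact Or.inr ⟨hb, fun h => hx (by simpa using mul_mem (inv_mem hb) h)⟩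
    · exact Or.inl ⟨hbb.resolve_left hb, hb⟩
  let φ : ↥C →* ↥B := sq.rangeRestrict.comp Abelianization.of
  have hφ : Function.Surjective φ := sq.rangeRestrict_surjective.comp (QuotientGroup.mk'_surjective _)
  let K : Subgroup G := (H.comap φ).map C.subtype
  have hKi : K.relIndex C = 2 := by
    show (((H.comap φ).map C.subtype).subgroupOf C).index = 2
    rw [Subgroup.subgroupOf, Subgroup.comap_map_eq_self_of_injective C.subtype_injective,
      Subgroup.index_comap_of_surjective _ hφ, hH2]
  have hmem : ∀ (x : G) (hx : x ∈ C),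
      Abelianization.of (⟨x, hx⟩ : ↥C) * Abelianization.of (⟨x, hx⟩ : ↥C) = 1 → x ∈ K := by
    intro x hx h
    refine ⟨⟨x, hx⟩, ?_, rfl⟩
    show φ ⟨x, hx⟩ ∈ H
    have h1 : φ ⟨x, hx⟩ = 1 := Subtype.ext ((pow_two _).trans h)
    rw [h1]
    exact one_mem H
  have hin : ∀ g d : G, d * (g * z * g⁻¹) = g * z * g⁻¹ * d → g⁻¹ * d * g ∈ C := fun g d hd => by
    refine Subgroup.mem_centralizer_singleton_iff.2 ?_
    calc g⁻¹ * d * g * z = g⁻¹ * (d * (g * z * g⁻¹)) * g := by group
      _ = g⁻¹ * (g * z * g⁻¹ * d) * g := by rw [hd]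
      _ = _ := by group
  refine H32.EspSign.false_of_conditions S hext (H77.LargeEsp.hom_trivial_of_residual hres) K
    (Subgroup.map_subtype_le _) hKi ?_ ?_
  · intro g hgE hgne d hd hdw
    refine hmem _ (hin g d hdw) ?_
    rw [← map_mul]
    by_cases hd2 : d * d = 1
    · have e : (⟨g⁻¹ * d * g, hin g d hdw⟩ : ↥C) * ⟨g⁻¹ * d * g, hin g d hdw⟩ = 1 := Subtype.ext (by
        show g⁻¹ * d * g * (g⁻¹ * d * g) = 1
        rw [show g⁻¹ * d * g * (g⁻¹ * d * g) = g⁻¹ * (d * d) * g by group, hd2]; group)
      rw [e, map_one]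
    obtain ⟨p, hp, r, hr, hpr⟩ : ∃ p : G, (p ∈ E ∧ p * (g * z * g⁻¹) = g * z * g⁻¹ * p) ∧
        ∃ r : G, (r ∈ E ∧ r * (g * z * g⁻¹) = g * z * g⁻¹ * r) ∧ p * r ≠ r * p := by
      by_contra hab
      push Not at hab
      apply hd2
      set w := g * z * g⁻¹ with hw
      have hw1 : w ≠ 1 := fun e => S.z_ne (conj_eq_one_iff.1 e)
      have hw2 : w * w = 1 := by rw [hw, show g * z * g⁻¹ * (g * z * g⁻¹) = g * (z * z) * g⁻¹ by group, S.z_sq]; group
      obtain ⟨a, haE, haw⟩ : ∃ a ∈ E, a * w ≠ w * a := by
        by_contra hall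
        push Not at hall
        rcases S.cent w (fun e he => (hall e he).symm) with e | e
        · exact hw1 e
        · exact hgne e
      let w' : ↥E := ⟨w, hgE⟩
      let a' : ↥E := ⟨a, haE⟩
      let D := Subgroup.centralizer ({w'} : Set ↥E)
      have hDmem : ∀ x : ↥E, x ∈ D → (x : G) * w = w * x := fun x hx =>
        congrArg Subtype.val (Subgroup.mem_centralizer_singleton_iff.1 hx)
      have hD2 : D.index = 2 := by
        have h1 : D.index ≤ 2 := H18.index_centralizer_singleton_le hext w'
        have h2 : D.index ≠ 1 := fun e => haw (hDmem a' (Subgroup.index_eq_one.1 e ▸ Subgroup.mem_top _))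
        have h3 : D.index ≠ 0 := Subgroup.index_ne_zero_of_finite
        omega
      have hsub : D ⊓ Subgroup.centralizer ({a'} : Set ↥E) ≤ Subgroup.center ↥E := by
        intro c hc
        have hca : (c : G) * a = a * c :=
          congrArg Subtype.val (Subgroup.mem_centralizer_singleton_iff.1 hc.2)
        refine Subgroup.mem_center_iff.2 fun x => Subtype.ext ?_
        show (x : G) * c = c * x
        by_cases hx : x ∈ D
        · exact hab x ⟨x.2, hDmem x hx⟩ c ⟨c.2, hDmem c hc.1⟩
        · have haD : a' ∉ D := fun h => haw (hDmem a' h)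
          have hax : a'⁻¹ * x ∈ D := (Subgroup.mul_mem_iff_of_index_two hD2).2 (by simp [hx, haD])
          have h4 : ((a'⁻¹ * x : ↥E) : G) * c = c * ((a'⁻¹ * x : ↥E) : G) :=
            hab _ ⟨(a'⁻¹ * x).2, hDmem _ hax⟩ c ⟨c.2, hDmem c hc.1⟩
          calc (x : G) * c = a * (((a'⁻¹ * x : ↥E) : G) * c) := by
                show (x : G) * c = a * (a⁻¹ * (x : G) * c); group
            _ = a * ((c : G) * ((a'⁻¹ * x : ↥E) : G)) := by rw [h4]
            _ = ((c : G) * a) * ((a'⁻¹ * x : ↥E) : G) := by rw [hca, mul_assoc]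
            _ = c * x := by
                show (c : G) * a * (a⁻¹ * (x : G)) = c * x; group
      have h5 := Nat.card_le_card_of_injective _ (Subgroup.inclusion_injective hsub)
      rw [hext.2] at h5
      have h6 := Subgroup.card_mul_index (D ⊓ Subgroup.centralizer ({a'} : Set ↥E))
      have h7 : (D ⊓ Subgroup.centralizer ({a'} : Set ↥E)).index ≤ 2 * 2 :=
        Subgroup.index_inf_le.trans (Nat.mul_le_mul hD2.le (H18.index_centralizer_singleton_le hext a'))
      have h8 := Subgroup.card_mul_index D
      have h9 := Nat.mul_le_mul h5 h7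
      rw [h6] at h9
      have hcard : Nat.card D ≤ 4 := by rw [hD2] at h8; omega
      let z' : ↥E := ⟨z, S.mem⟩
      have hzD : z' ∈ D := Subgroup.mem_centralizer_singleton_iff.2 (Subtype.ext (S.comm w hgE).symm)
      have hwD : w' ∈ D := Subgroup.mem_centralizer_singleton_iff.2 rfl
      haveI := Fintype.ofFinite ↥D
      have hwz : w' ≠ z' := fun e => hgne (congrArg Subtype.val e)
      have hw'1 : w' ≠ 1 := fun e => hw1 (congrArg Subtype.val e)
      have hz'1 : z' ≠ 1 := fun e => S.z_ne (congrArg Subtype.val e)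
      have hzw1 : z' * w' ≠ 1 := fun e => hwz (by
        have e1 : (z : G) * w = 1 := congrArg Subtype.val e
        exact Subtype.ext (by
          show w = z
          rw [← mul_inv_cancel_left z w, ← inv_eq_of_mul_eq_one_left S.z_sq, inv_inv]
          rw [show z⁻¹ = z from inv_eq_of_mul_eq_one_left S.z_sq, e1, mul_one]))
      let T : Finset ↥D := {1, ⟨z', hzD⟩, ⟨w', hwD⟩, ⟨z' * w', mul_mem hzD hwD⟩}
      have hT : T = Finset.univ := Finset.eq_univ_of_card _ (le_antisymm (Finset.card_le_univ _) (by
        rw [← Nat.card_eq_fintype_card]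
        refine hcard.trans (le_of_eq ?_)
        symm
        refine Finset.card_eq_four.2 ⟨_, _, _, _, ?_, ?_, ?_, ?_, ?_, ?_, rfl⟩
        · exact fun e => hz'1 (congrArg Subtype.val e).symm
        · exact fun e => hw'1 (congrArg Subtype.val e).symm
        · exact fun e => hzw1 (congrArg Subtype.val e).symm
        · exact fun e => hwz (congrArg Subtype.val e).symm
        · exact fun e => hw'1 (mul_left_cancel (a := z') ((congrArg Subtype.val e).symm.trans (mul_one z').symm))
        · exact fun e => hz'1 (mul_right_cancel (b := w') ((congrArg Subtype.val e).symm.trans (one_mul w').symm))))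
      have hdD : (⟨d, hd⟩ : ↥E) ∈ D := Subgroup.mem_centralizer_singleton_iff.2 (Subtype.ext hdw)
      have hdT : (⟨⟨d, hd⟩, hdD⟩ : ↥D) ∈ T := hT ▸ Finset.mem_univ _
      simp only [T, Finset.mem_insert, Finset.mem_singleton, Subtype.ext_iff] at hdT
      rcases hdT with e | e | e | e
      · show d * d = 1; rw [show d = 1 from e, one_mul]
      · rw [show d = z from e, S.z_sq]
      · rw [show d = w from e, hw2]
      · rw [show d = z * w from e, show z * w * (z * w) = z * (w * z) * w by group, S.comm w hgE,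
          show z * (z * w) * w = (z * z) * (w * w) by group, S.z_sq, hw2, one_mul]
    have e : (⟨g⁻¹ * d * g, hin g d hdw⟩ : ↥C) * ⟨g⁻¹ * d * g, hin g d hdw⟩ =
        ⁅(⟨g⁻¹ * p * g, hin g p hp.2⟩ : ↥C), (⟨g⁻¹ * r * g, hin g r hr.2⟩ : ↥C)⁆ := Subtype.ext (by
      show g⁻¹ * d * g * (g⁻¹ * d * g) = g⁻¹ * p * g * (g⁻¹ * r * g) * (g⁻¹ * p * g)⁻¹ * (g⁻¹ * r * g)⁻¹
      rw [show g⁻¹ * d * g * (g⁻¹ * d * g) = g⁻¹ * (d * d) * g by group, (S.sq d hd).resolve_left hd2]
      have h1 : p * r * p⁻¹ * r⁻¹ = z := (S.bracket p hp.1 r hr.1).resolve_left fun h' => hpr (by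
        calc p * r = p * r * p⁻¹ * r⁻¹ * (r * p) := by group
          _ = r * p := by rw [h', one_mul])
      rw [← h1]; group)
    rw [e, map_commutatorElement, commutatorElement_eq_one_iff_commute.2 (Commute.all _ _)]
  · intro g hzw _ _
    refine hmem _ (hin g z hzw) ?_
    rw [← map_mul]
    have e : (⟨g⁻¹ * z * g, hin g z hzw⟩ : ↥C) * ⟨g⁻¹ * z * g, hin g z hzw⟩ = 1 := Subtype.ext (by
      show g⁻¹ * z * g * (g⁻¹ * z * g) = 1
      rw [show g⁻¹ * z * g * (g⁻¹ * z * g) = g⁻¹ * (z * z) * g by group, S.z_sq]; group)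
    rw [e, map_one]

end Cfsg.Agent.S3301
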