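import Cfsg.Statements.S3303
import Cfsg.Agent.H77.SylowIntersections
import Cfsg.Agent.H77.SolvableCore
import Mathlib.GroupTheory.SpecificGroups.Cyclic

set_option autoImplicit false
open Cfsg

namespace Cfsg.Agent.S3303

/-- Let G be a finite solvable group in which the intersection of any two distinct Sylow 2-subgroups is cyclic. Then G/O(G) has a normal Sylow 2-subgroup, where O(G) is the largest normal subgroup of odd order. -/
theorem result {G : Type*} [Group G] [Finite G] (hs : Group.IsSolvable G)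
    (hC : ∀ S T : Sylow 2 G, S ≠ T → IsCyclic ↥((S : Subgroup G) ⊓ (T : Subgroup G))) :
    ∃ P : Sylow 2 (G ⧸ Cfsg.oddCore G), (P : Subgroup (G ⧸ Cfsg.oddCore G)).Normal := by
  haveI := hs
  haveI : (Cfsg.oddCore G).Normal := H19.pPrimeCore_normal 2 G
  set π := QuotientGroup.mk' (Cfsg.oddCore G) with hπ
  haveI : Group.IsSolvable (G ⧸ Cfsg.oddCore G) := Group.isSolvable_of_surjective (QuotientGroup.mk'_surjective (Cfsg.oddCore G))
  have hO : Cfsg.pPrimeCore 2 (G ⧸ Cfsg.oddCore G) = ⊥ := H19.pPrimeCore_quotient_pPrimeCore 2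
  set Y := Cfsg.pCore 2 (G ⧸ Cfsg.oddCore G) with hY
  haveI : Y.Normal := H19.pCore_normal 2 _
  obtain ⟨P⟩ : Nonempty (Sylow 2 (G ⧸ Cfsg.oddCore G)) := inferInstance
  by_cases huniq : ∀ Q : Sylow 2 (G ⧸ Cfsg.oddCore G), Q = P
  · refine ⟨P, ⟨fun x hx g => ?_⟩⟩
    have hg := congrArg (fun Q : Sylow 2 (G ⧸ Cfsg.oddCore G) => (Q : Subgroup (G ⧸ Cfsg.oddCore G))) (huniq (g • P))
    simp only [Sylow.coe_subgroup_smul] at hg
    rw [← hg]
    exact ⟨x, hx, rfl⟩
  push Not at huniq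
  obtain ⟨Q, hQ⟩ := huniq
  haveI := H77.cyclic_intersections_map (QuotientGroup.mk'_surjective (Cfsg.oddCore G)) hC Q P hQ
  have hYle : Y ≤ (Q : Subgroup (G ⧸ Cfsg.oddCore G)) ⊓ P := le_inf (H19.pCore_le_sylow Q) (H19.pCore_le_sylow P)
  haveI : IsCyclic ↥Y := isCyclic_of_injective (Subgroup.inclusion hYle) (Subgroup.inclusion_injective hYle)
  obtain ⟨k, hk⟩ := (H19.pCore_isPGroup (G := G ⧸ Cfsg.oddCore G) 2).exists_card_eq
  have hall : IsPGroup 2 (G ⧸ Cfsg.oddCore G) := by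
    have hker : Y.normalizerMonoidHom.ker = (Subgroup.centralizer (Y : Set _)).subgroupOf _ :=
      Subgroup.normalizerMonoidHom_ker Y
    have hdvd := Subgroup.card_subgroup_dvd_card Y.normalizerMonoidHom.range
    rw [← Subgroup.index_ker, hker, IsCyclic.card_mulAut, hk] at hdvd
    have htot : ∃ l, Nat.totient (2 ^ k) = 2 ^ l := by
      rcases Nat.eq_zero_or_pos k with rfl | hk0
      · exact ⟨0, by simp⟩
      · exact ⟨k - 1, by rw [Nat.totient_prime_pow Nat.prime_two hk0]; simp⟩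
    obtain ⟨l, hl⟩ := htot
    rw [hl] at hdvd
    have htop : Subgroup.normalizer (Y : Set (G ⧸ Cfsg.oddCore G)) = ⊤ := Subgroup.normalizer_eq_top (H := Y)
    have hidx : (Subgroup.centralizer (Y : Set (G ⧸ Cfsg.oddCore G))).index ∣ 2 ^ l := by
      rw [← Subgroup.relIndex, htop, Subgroup.relIndex_top_right] at hdvd
      exact hdvd
    obtain ⟨l', -, hl'⟩ := (Nat.dvd_prime_pow Nat.prime_two).1 hidx
    obtain ⟨k', hk'⟩ := ((H19.pCore_isPGroup (G := G ⧸ Cfsg.oddCore G) 2).to_le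
      (H77.centralizer_pCore_le 2 hO)).exists_card_eq
    refine IsPGroup.of_card (n := k' + l') ?_
    rw [← (Subgroup.centralizer (Y : Set (G ⧸ Cfsg.oddCore G))).card_mul_index, hk', hl', pow_add]
  have hP : (P : Subgroup (G ⧸ Cfsg.oddCore G)) = ⊤ := (P.is_maximal' (hall.to_subgroup ⊤) le_top).symm
  exact ⟨P, by rw [hP]; infer_instance⟩

end Cfsg.Agent.S3303
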