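import Cfsg.Statements.S3309
import Cfsg.Agent.H77.TransferTwo
import Cfsg.Agent.H77.SylowBasics
import Mathlib.GroupTheory.SpecificGroups.Dihedral
import Mathlib.GroupTheory.Subgroup.Simple
import Mathlib.Data.Nat.Factorization.Basic

set_option autoImplicit false
open Cfsg

namespace Cfsg.Agent.S3309

/-- The model `2 × D₈`. -/
abbrev P16 := Multiplicative (ZMod 2) × DihedralGroup 4

/-- The rotation parity and reflection flag of an element of `D₈`. -/
def flags : DihedralGroup 4 → ZMod 2 × ZMod 2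
  | DihedralGroup.r i => ((i.val : ZMod 2), 0)
  | DihedralGroup.sr i => ((i.val : ZMod 2), 1)

/-- The four sign characters taking the central involution outside `D₈` to `1`. -/
def chi (u v : ZMod 2) (x : P16) : ZMod 2 := Multiplicative.toAdd x.1 + u * (flags x.2).1 + v * (flags x.2).2

/-- The squared rotation. -/
def zz : P16 := (1, DihedralGroup.r 2)

/-- The involution generating the direct factor. -/
def aa : P16 := (Multiplicative.ofAdd 1, DihedralGroup.r 0)

theorem chi_mul : ∀ u v : ZMod 2, ∀ x y : P16, chi u v (x * y) = chi u v x + chi u v y := by decide +kernel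

theorem centre_facts :
    (∀ x : P16, zz * x = x * zz) ∧ (∀ x : P16, aa * x = x * aa) ∧ zz * zz = 1 ∧ aa * aa = 1 ∧
    zz ≠ 1 ∧ aa ≠ 1 ∧ aa * zz ≠ 1 ∧ aa ≠ zz ∧ aa * zz ≠ zz ∧ aa * zz ≠ aa := by decide +kernel

theorem squares : ∀ x : P16, x * x = 1 ∨ x * x = zz := by decide +kernel

theorem exists_square : ∃ x : P16, x * x = zz := by decide +kernel

theorem central_cases : ∀ x : P16, x * x = 1 → (∀ y : P16, x * y = y * x) →
    x = 1 ∨ x = zz ∨ x = aa ∨ x = aa * zz := by decide +kernel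

theorem noncentral_conj : ∀ x : P16, x * x = 1 → (∃ y : P16, x * y ≠ y * x) →
    ∃ y : P16, y * x * y⁻¹ = x * zz := by decide +kernel

theorem ker_central : ∀ u v : ZMod 2, ∀ x : P16, chi u v x = 0 → x * x = 1 → (∀ y : P16, x * y = y * x) →
    x = 1 ∨ x = zz := by decide +kernel

theorem exists_chi : ∀ x : P16, x * x = 1 → (∃ y : P16, x * y ≠ y * x) → ∃ u v : ZMod 2, chi u v x = 0 := by
  decide +kernel

set_option synthInstance.maxSize 4000 in
theorem ker_two_classes : ∀ u v : ZMod 2, ∀ m : P16, chi u v m = 0 → m * m = 1 → (∃ y : P16, m * y ≠ y * m) →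
    ∀ p : P16, chi u v p = 0 → p * p = 1 → (∃ y : P16, p * y ≠ y * p) → p ≠ m → p ≠ m * zz →
    ∀ q : P16, chi u v q = 0 → q * q = 1 → (∃ y : P16, q * y ≠ y * q) → q = m ∨ q = m * zz ∨ q = p ∨ q = p * zz := by
  decide +kernel

theorem chi_aa : ∀ u v : ZMod 2, chi u v aa = 1 := by decide +kernel

/-- A finite group whose Sylow 2-subgroups are isomorphic to the direct product of a group of order 2 and the dihedral group of order 8 is not a non-abelian simple group. -/
theorem result {G : Type*} [Group G] [Finite G] (S : Sylow 2 G) (hS : Nonempty (↥(S : Subgroup G) ≃* Multiplicative (ZMod 2) × DihedralGroup 4))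
    [IsSimpleGroup G] (hG : ¬ IsMulCommutative G) : False := by
  classical
  obtain ⟨e⟩ := hS
  let ι : P16 →* G := (S : Subgroup G).subtype.comp e.symm.toMonoidHom
  have hι : Function.Injective ι := (S : Subgroup G).subtype_injective.comp e.symm.injective
  have hιS : ∀ x, ι x ∈ (S : Subgroup G) := fun x => (e.symm x).2
  have hrep : ∀ s ∈ (S : Subgroup G), ∃ x, ι x = s := fun s hs => ⟨e ⟨s, hs⟩, by simp [ι]⟩
  obtain ⟨hzc, hac, hzz, haa, hz1, ha1, haz1, haz, hazz, haza⟩ := centre_facts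
  have hcardS : Nat.card ↥(S : Subgroup G) = 16 := by
    rw [Nat.card_congr e.toEquiv, Nat.card_prod, DihedralGroup.nat_card, Nat.card_congr Multiplicative.toAdd, Nat.card_zmod]
  have hG : ∀ H : Subgroup G, H.index ≠ 2 := by
    intro H hH
    haveI : H.Normal := ⟨fun x hx g => by
      rw [Subgroup.mul_mem_iff_of_index_two hH, Subgroup.mul_mem_iff_of_index_two hH, inv_mem_iff]
      simp [hx]⟩
    rcases (inferInstance : H.Normal).eq_bot_or_eq_top with h | h
    · rw [h, Subgroup.index_bot] at hH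
      have := Subgroup.card_subgroup_dvd_card (S : Subgroup G)
      rw [hcardS, hH] at this
      exact absurd (Nat.le_of_dvd two_pos this) (by norm_num)
    · rw [h, Subgroup.index_top] at hH
      norm_num at hH
  have hnS : ∀ w w' : P16, (∀ y, w * y = y * w) → (∀ y, w' * y = y * w') → IsConj (ι w) (ι w') →
      ∃ n ∈ Subgroup.normalizer ((S : Subgroup G) : Set G), n * ι w * n⁻¹ = ι w' := by
    intro w w' hw hw' hc
    obtain ⟨g, hg⟩ := isConj_iff.1 hc
    obtain ⟨n, hn, hn'⟩ := Sylow.conj_eq_normalizer_conj_of_mem_centralizer S (ι w) (g⁻¹)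
      (Subgroup.mem_centralizer_iff.2 fun y hy => by
        obtain ⟨x, rfl⟩ := hrep y hy; rw [← map_mul, ← map_mul, hw])
      (Subgroup.mem_centralizer_iff.2 fun y hy => by
        obtain ⟨x, rfl⟩ := hrep y hy
        rw [inv_inv, hg, ← map_mul, ← map_mul, hw'])
    refine ⟨n⁻¹, inv_mem hn, ?_⟩
    rw [inv_inv] at hn' ⊢
    rw [← hn', hg]
  have hnz : ∀ n ∈ Subgroup.normalizer ((S : Subgroup G) : Set G), n * ι zz * n⁻¹ = ι zz := by
    intro n hn
    obtain ⟨x, hx⟩ := exists_square
    have hm : n * ι x * n⁻¹ ∈ (S : Subgroup G) := (Subgroup.mem_normalizer_iff.1 hn _).1 (hιS x)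
    obtain ⟨y, hy⟩ := hrep _ hm
    have h2 : ι (y * y) = n * ι zz * n⁻¹ := by rw [map_mul, hy, ← hx, map_mul]; group
    rcases squares y with h | h
    · exfalso
      rw [h, map_one] at h2
      exact hz1 (hι ((conj_eq_one_iff.1 h2.symm).trans (map_one ι).symm))
    · rw [← h2, h]
  have hzne : ∀ w : P16, w ≠ zz → (∀ y, w * y = y * w) → ¬ IsConj (ι zz) (ι w) := by
    intro w hw hwc hc
    obtain ⟨n, hn, h⟩ := hnS _ _ hzc hwc hc
    rw [hnz n hn] at h
    exact hw (hι h).symm
  have hazc : ∀ y, aa * zz * y = y * (aa * zz) := fun y => by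
    rw [mul_assoc, hzc, ← mul_assoc, hac, mul_assoc]
  have hanc : ¬ IsConj (ι aa) (ι (aa * zz)) := by
    intro hc
    obtain ⟨n, hn, h⟩ := hnS _ _ hac hazc hc
    have hodd : ∀ i : ℕ, n ^ (2 * i + 1) * ι aa * (n ^ (2 * i + 1))⁻¹ = ι (aa * zz) := by
      have h' : n * ι (aa * zz) * n⁻¹ = ι aa := by
        calc n * ι (aa * zz) * n⁻¹ = (n * ι aa * n⁻¹) * (n * ι zz * n⁻¹) := by rw [map_mul]; group
          _ = ι aa := by rw [h, hnz n hn, ← map_mul, mul_assoc, hzz, mul_one]
      intro i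
      induction i with
      | zero => simpa using h
      | succ i ih =>
        calc n ^ (2 * (i + 1) + 1) * ι aa * (n ^ (2 * (i + 1) + 1))⁻¹
            = n * (n * (n ^ (2 * i + 1) * ι aa * (n ^ (2 * i + 1))⁻¹) * n⁻¹) * n⁻¹ := by group
          _ = ι (aa * zz) := by rw [ih, h', h]
    have hord := Nat.ordProj_mul_ordCompl_eq_self (orderOf n) 2
    have hoddc : Odd (orderOf n / 2 ^ (orderOf n).factorization 2) :=
      Nat.not_even_iff_odd.1 fun he =>
        Nat.not_dvd_ordCompl Nat.prime_two (orderOf_pos n).ne' (even_iff_two_dvd.1 he)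
    obtain ⟨i, hi⟩ := hoddc
    have hmem : n ^ (2 * i + 1) ∈ (S : Subgroup G) := by
      refine H77.mem_sylow_of_mem_normalizer S (pow_mem hn _) ⟨(orderOf n).factorization 2, ?_⟩
      rw [← hi, ← pow_mul, mul_comm, hord, pow_orderOf_eq_one]
    obtain ⟨x, hx⟩ := hrep _ hmem
    have := hodd i
    rw [← hx, ← map_inv, ← map_mul, ← map_mul, ← hac, mul_inv_cancel_right] at this
    exact haza (hι this).symm
  have hfuse : ∀ (w : P16) (u v : ZMod 2), w * w = 1 → w ≠ 1 → w ≠ zz → (∀ y, w * y = y * w) →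
      ∃ m : P16, chi u v m = 0 ∧ m * m = 1 ∧ (∃ y, m * y ≠ y * m) ∧ IsConj (ι w) (ι m) := by
    intro w u v hw2 hw1 hwz hwc
    let M0 : Subgroup P16 :=
      { carrier := {x | chi u v x = 0}
        one_mem' := by have := chi_mul u v 1 1; rw [mul_one] at this; simpa using this
        mul_mem' := fun {x y} hx hy => by simp only [Set.mem_ofPred_eq] at hx hy ⊢; rw [chi_mul, hx, hy, add_zero]
        inv_mem' := fun {x} hx => by
          simp only [Set.mem_ofPred_eq] at hx ⊢
          have h1 := chi_mul u v x x⁻¹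
          rw [hx, mul_inv_cancel, zero_add] at h1
          rw [← h1]
          have h2 := chi_mul u v 1 1
          rw [mul_one] at h2
          simpa using h2 }
    have hM0 : M0.index = 2 := by
      refine Subgroup.index_eq_two_iff.2 ⟨aa, fun b => ?_⟩
      show Xor (chi u v (b * aa) = 0) (chi u v b = 0)
      rw [chi_mul, chi_aa]
      rcases (show ∀ c : ZMod 2, c = 0 ∨ c = 1 by decide) (chi u v b) with hb | hb <;> rw [hb] <;> simp [Xor] <;> decide
    have hrel : (M0.map ι).relIndex (S : Subgroup G) = 2 := by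
      have : (S : Subgroup G) = (⊤ : Subgroup P16).map ι := by
        ext y
        exact ⟨fun hy => by obtain ⟨x, rfl⟩ := hrep y hy; exact ⟨x, trivial, rfl⟩,
          by rintro ⟨x, -, rfl⟩; exact hιS x⟩
      rw [this, Subgroup.relIndex_map_map_of_injective _ _ hι, Subgroup.relIndex_top_right, hM0]
    have hwo : orderOf (ι w) = 2 ^ 1 := by
      rw [orderOf_injective ι hι, pow_one]
      exact orderOf_eq_prime (by rw [pow_two, hw2]) hw1
    obtain ⟨g, hg⟩ := H77.exists_conj_mem_of_transfer hG S (M0.map ι) (by rintro _ ⟨x, -, rfl⟩; exact hιS x)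
      hrel (ι w) 1 hwo (fun k g hk hkd _ => by
        have hk2 : k = 2 := by have := Nat.le_of_dvd (by norm_num) hkd; omega
        rw [hk2, pow_two, ← map_mul, hw2, map_one, mul_one, inv_mul_cancel]
        exact one_mem _)
    obtain ⟨m, hm, hgm⟩ := hg
    have hconj : IsConj (ι w) (ι m) := isConj_iff.2 ⟨g, hgm.symm⟩
    have hm2 : m * m = 1 := hι (by rw [map_mul, hgm, map_one]; calc g * ι w * g⁻¹ * (g * ι w * g⁻¹) = g * ι (w * w) * g⁻¹ := by rw [map_mul]; group
                                      _ = 1 := by rw [hw2, map_one, mul_one, mul_inv_cancel])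
    refine ⟨m, hm, hm2, ?_, hconj⟩
    by_contra hc
    push Not at hc
    rcases ker_central u v m hm hm2 hc with rfl | rfl
    · rw [map_one] at hconj
      exact hw1 (hι ((isConj_one_left.1 hconj).trans (map_one ι).symm))
    · exact hzne w hwz hwc hconj.symm
  have hzin : ∀ (x y : P16), x * x = 1 → y * x * y⁻¹ = x * zz → IsConj (ι x) (ι (x * zz)) := fun x y _ h =>
    isConj_iff.2 ⟨ι y, by rw [← map_inv, ← map_mul, ← map_mul, h]⟩
  have hS' : ∀ x, x * x = 1 → (∃ y, x * y ≠ y * x) → IsConj (ι x) (ι (x * zz)) := fun x h1 h2 =>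
    (noncentral_conj x h1 h2).elim fun y hy => hzin x y h1 hy
  have hcover : ∀ m : P16, m * m = 1 → (∃ y, m * y ≠ y * m) → IsConj (ι m) (ι aa) ∨ IsConj (ι m) (ι (aa * zz)) := by
    intro m hm2 hmn
    obtain ⟨u, v, huv⟩ := exists_chi m hm2 hmn
    have haz2 : aa * zz * (aa * zz) = 1 := by rw [← mul_assoc, hazc, ← mul_assoc, haa, one_mul, hzz]
    obtain ⟨p, hp0, hp2, hpn, hpa⟩ := hfuse aa u v haa ha1 haz hac
    obtain ⟨q, hq0, hq2, hqn, hqa⟩ := hfuse (aa * zz) u v haz2 haz1 hazz hazc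
    by_contra hno
    push Not at hno
    have hp1 : p ≠ m := fun h => hno.1 (h ▸ hpa.symm)
    have hp3 : p ≠ m * zz := fun h => hno.1 ((hS' m hm2 hmn).trans (h ▸ hpa.symm))
    rcases ker_two_classes u v m huv hm2 hmn p hp0 hp2 hpn hp1 hp3 q hq0 hq2 hqn with h | h | h | h
    · exact hno.2 (h ▸ hqa.symm)
    · exact hno.2 ((hS' m hm2 hmn).trans (h ▸ hqa.symm))
    · exact hanc (hpa.trans (h ▸ hqa.symm))
    · exact hanc (hpa.trans ((hS' p hp2 hpn).trans (h ▸ hqa.symm)))
  obtain ⟨s, -, hs2, hsn, hsa⟩ := hfuse aa 0 0 haa ha1 haz hac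
  obtain ⟨g, hg⟩ := isConj_iff.1 hsa.symm
  let C : Subgroup P16 := Subgroup.centralizer {s}
  have hSC : (S : Subgroup G) ≤ Subgroup.centralizer {ι aa} := fun y hy => by
    obtain ⟨x, rfl⟩ := hrep y hy
    rw [Subgroup.mem_centralizer_singleton_iff, ← map_mul, ← map_mul, hac]
  let T : Subgroup G := (C.map ι).map (MulAut.conj g).toMonoidHom
  have hT : T ≤ Subgroup.centralizer {ι aa} := by
    rintro _ ⟨_, ⟨c, hc, rfl⟩, rfl⟩
    rw [Subgroup.mem_centralizer_singleton_iff, ← hg]
    have hc' : c * s = s * c := Subgroup.mem_centralizer_singleton_iff.1 hc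
    simp only [MulEquiv.coe_toMonoidHom, MulAut.conj_apply]
    calc g * ι c * g⁻¹ * (g * ι s * g⁻¹) = g * ι (c * s) * g⁻¹ := by rw [map_mul]; group
      _ = g * ι (s * c) * g⁻¹ := by rw [hc']
      _ = g * ι s * g⁻¹ * (g * ι c * g⁻¹) := by rw [map_mul]; group
  have hT2 : IsPGroup 2 ↥T := by
    refine IsPGroup.map ?_ _
    refine S.isPGroup'.to_le ?_
    rintro _ ⟨x, -, rfl⟩
    exact hιS x
  obtain ⟨n, hn, hnT⟩ := H77.exists_conj_mem_le_sylow S hSC hT hT2
  set k := n * g with hk
  have hks : k * ι s * k⁻¹ = ι aa := by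
    rw [hk]
    calc n * g * ι s * (n * g)⁻¹ = n * (g * ι s * g⁻¹) * n⁻¹ := by group
      _ = ι aa * n * n⁻¹ := by rw [hg, Subgroup.mem_centralizer_singleton_iff.1 hn]
      _ = ι aa := by group
  have hzmem : k * ι zz * k⁻¹ ∈ (S : Subgroup G) := by
    have := hnT _ ⟨ι zz, ⟨zz, Subgroup.mem_centralizer_singleton_iff.2 (hzc s), rfl⟩, rfl⟩
    simp only [MulEquiv.coe_toMonoidHom, MulAut.conj_apply] at this
    convert this using 1
    rw [hk]; group
  obtain ⟨m, hm⟩ := hrep _ hzmem
  have hmc : IsConj (ι zz) (ι m) := isConj_iff.2 ⟨k, hm.symm⟩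
  have hm2 : m * m = 1 := hι (by rw [map_mul, hm, map_one]; calc k * ι zz * k⁻¹ * (k * ι zz * k⁻¹) = k * ι (zz * zz) * k⁻¹ := by rw [map_mul]; group
                                  _ = 1 := by rw [hzz, map_one, mul_one, mul_inv_cancel])
  have hmz : m = zz := by
    by_cases hc : ∀ y, m * y = y * m
    · by_contra hne
      exact hzne m hne hc hmc
    · push Not at hc
      exfalso
      rcases hcover m hm2 hc with h | h
      · exact hzne _ haz hac (hmc.trans h)
      · exact hzne _ hazz hazc (hmc.trans h)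
  apply hanc
  refine (IsConj.trans ?_ (hS' s hs2 hsn)).trans ?_
  · exact (isConj_iff.2 ⟨k, hks⟩).symm
  · refine isConj_iff.2 ⟨k, ?_⟩
    calc k * ι (s * zz) * k⁻¹ = (k * ι s * k⁻¹) * (k * ι zz * k⁻¹) := by rw [map_mul]; group
      _ = ι (aa * zz) := by rw [hks, ← hm, hmz, map_mul]

end Cfsg.Agent.S3309
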