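import Cfsg.Statements.S3313
import Cfsg.Agent.H33.HJPattern

set_option autoImplicit false
open Cfsg

namespace Cfsg.Agent.S3313

/-- The order of a simple group with the involution pattern of the Hall–Janko group. Let G be a non-abelian finite simple group with exactly two conjugacy classes of involutions, represented by z and t, such that: F*(C_G(z)) is an extraspecial 2-group; Q = O₂(C_G(z)) has order 32 and C_G(z) is the semidirect product of Q by a subgroup isomorphic to A₅; every involution of Q is conjugate to z and every other involution of C_G(z) is conjugate to t; C_G(t) is an internal direct product V × B with V a four-group containing t and B ≅ A₅; every involution of B is conjugate to z and every other involution of C_G(t) is conjugate to t. Then |G| = 604800. -/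
theorem result {G : Type*} [Group G] [Finite G]
    [IsSimpleGroup G] (hna : ¬ IsMulCommutative G) (z t : G) (hz : orderOf z = 2) (ht : orderOf t = 2)
    (hzt : ¬ IsConj z t) (hcl : ∀ x : G, orderOf x = 2 → IsConj x z ∨ IsConj x t)
    (hex : Cfsg.IsExtraspecial 2 ↥(Cfsg.generalizedFittingSubgroup ↥(Subgroup.centralizer ({z} : Set G))))
    (hQ : Nat.card ↥(Cfsg.pCore 2 ↥(Subgroup.centralizer ({z} : Set G))) = 32)
    (K : Subgroup G) (hK : Nonempty (↥K ≃* alternatingGroup (Fin 5)))
    (hKC : K ⊔ (Cfsg.pCore 2 ↥(Subgroup.centralizer ({z} : Set G))).map (Subgroup.centralizer ({z} : Set G)).subtype = Subgroup.centralizer ({z} : Set G))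
    (hKQ : K ⊓ (Cfsg.pCore 2 ↥(Subgroup.centralizer ({z} : Set G))).map (Subgroup.centralizer ({z} : Set G)).subtype = ⊥)
    (hQz : ∀ x ∈ (Cfsg.pCore 2 ↥(Subgroup.centralizer ({z} : Set G))).map (Subgroup.centralizer ({z} : Set G)).subtype, orderOf x = 2 → IsConj x z)
    (hCz : ∀ x ∈ Subgroup.centralizer ({z} : Set G), orderOf x = 2 →
      x ∉ (Cfsg.pCore 2 ↥(Subgroup.centralizer ({z} : Set G))).map (Subgroup.centralizer ({z} : Set G)).subtype → IsConj x t)
    (V B : Subgroup G) (hVB : Cfsg.IsInternalDirectProduct V B (Subgroup.centralizer ({t} : Set G)))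
    (hV : Nat.card ↥V = 4) (hV2 : ∀ v ∈ V, v ^ 2 = 1) (htV : t ∈ V) (hB : Nonempty (↥B ≃* alternatingGroup (Fin 5)))
    (hBz : ∀ x ∈ B, orderOf x = 2 → IsConj x z)
    (hCt : ∀ x ∈ Subgroup.centralizer ({t} : Set G), orderOf x = 2 → x ∉ B → IsConj x t) :
    Nat.card G = 604800 := by
  exact Cfsg.Agent.H33.HJ.card_eq z t hz ht hzt hcl hex hQ K hK.some hKC hKQ hQz hCz V B hVB hV hV2
    htV hB.some hBz hCt

end Cfsg.Agent.S3313
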