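import Cfsg.Statements.S3349
import Mathlib
-- import your own Cfsg.Agent.* helpers here

set_option autoImplicit false
open Cfsg

namespace Cfsg.Agent.S3349

/-- Let Q be a finite extraspecial p-group and α an automorphism of Q fixing every element of some maximal abelian subgroup of Q. Then the order of α is a power of p. -/
theorem result {Q : Type*} [Group Q] [Finite Q]
    (p : ℕ) [Fact p.Prime] (hQ : Cfsg.IsExtraspecial p Q) (α : MulAut Q)
    (A : Subgroup Q) (hA : IsMulCommutative A) (hmax : ∀ B : Subgroup Q, A ≤ B → IsMulCommutative B → B = A)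
    (hfix : ∀ a ∈ A, α a = a) :
    ∃ k : ℕ, orderOf α = p ^ k := by
  classical
  have hp : p.Prime := Fact.out
  obtain ⟨⟨hpg, -, hsp⟩, -⟩ := hQ
  set Z := Subgroup.center Q
  have hZA : Z ≤ A := by
    have h : A ⊔ Z = A := by
      refine hmax _ le_sup_left ?_
      have hle : A ⊔ Z ≤ Subgroup.centralizer ((A ⊔ Z : Subgroup Q) : Set Q) := by
        refine sup_le (fun a ha => ?_) (fun z hz => ?_)
        · have hle' : A ⊔ Z ≤ Subgroup.centralizer {a} := by
            refine sup_le (fun b hb => ?_) (fun z hz => ?_)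
            · exact Subgroup.mem_centralizer_singleton_iff.2
                (congrArg Subtype.val (hA.is_comm.comm ⟨b, hb⟩ ⟨a, ha⟩))
            · exact Subgroup.mem_centralizer_singleton_iff.2 (Subgroup.mem_center_iff.1 hz a).symm
          exact Subgroup.mem_centralizer_iff.2 fun b hb =>
            Subgroup.mem_centralizer_singleton_iff.1 (hle' hb)
        · exact Subgroup.mem_centralizer_iff.2 fun b _ => Subgroup.mem_center_iff.1 hz b
      exact ⟨⟨fun x y => Subtype.ext (Subgroup.mem_centralizer_iff.1 (hle y.2) x.1 x.2)⟩⟩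
    rw [← h]; exact le_sup_right
  have hCA : ∀ c : Q, (∀ a ∈ A, a * c = c * a) → c ∈ A := by
    intro c hc
    have h : A ⊔ Subgroup.zpowers c = A := by
      refine hmax _ le_sup_left ?_
      have hle : A ⊔ Subgroup.zpowers c ≤
          Subgroup.centralizer ((A ⊔ Subgroup.zpowers c : Subgroup Q) : Set Q) := by
        refine sup_le (fun a ha => ?_) (Subgroup.zpowers_le.2 ?_)
        · have hle' : A ⊔ Subgroup.zpowers c ≤ Subgroup.centralizer {a} := by
            refine sup_le (fun b hb => ?_) (Subgroup.zpowers_le.2 ?_)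
            · exact Subgroup.mem_centralizer_singleton_iff.2
                (congrArg Subtype.val (hA.is_comm.comm ⟨b, hb⟩ ⟨a, ha⟩))
            · exact Subgroup.mem_centralizer_singleton_iff.2 (hc a ha).symm
          exact Subgroup.mem_centralizer_iff.2 fun b hb =>
            Subgroup.mem_centralizer_singleton_iff.1 (hle' hb)
        · have hle' : A ⊔ Subgroup.zpowers c ≤ Subgroup.centralizer {c} := by
            refine sup_le (fun b hb => ?_) (Subgroup.zpowers_le.2 ?_)
            · exact Subgroup.mem_centralizer_singleton_iff.2 (hc b hb)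
            · exact Subgroup.mem_centralizer_singleton_iff.2 rfl
          exact Subgroup.mem_centralizer_iff.2 fun b hb =>
            Subgroup.mem_centralizer_singleton_iff.1 (hle' hb)
      exact ⟨⟨fun x y => Subtype.ext (Subgroup.mem_centralizer_iff.1 (hle y.2) x.1 x.2)⟩⟩
    exact h ▸ le_sup_right (a := A) (Subgroup.mem_zpowers c)
  have hcomm : commutator Q ≤ Z := hsp.le
  have hu : ∀ q : Q, q⁻¹ * α q ∈ A := by
    intro q
    refine hCA _ fun a ha => ?_
    have hz : q * a * q⁻¹ * a⁻¹ ∈ A := hZA (hcomm (Subgroup.commutator_mem_commutator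
      (Subgroup.mem_top q) (Subgroup.mem_top a)))
    have hqa : q * a * q⁻¹ ∈ A := by simpa using mul_mem hz ha
    have h1 : α q * a * (α q)⁻¹ = q * a * q⁻¹ := by
      have h := hfix _ hqa
      rwa [map_mul, map_mul, map_inv, hfix a ha] at h
    calc a * (q⁻¹ * α q) = q⁻¹ * (q * a * q⁻¹) * α q := by group
      _ = q⁻¹ * (α q * a * (α q)⁻¹) * α q := by rw [h1]
      _ = _ := by group
  have hiter : ∀ (n : ℕ) (q : Q), (α ^ n) q = q * (q⁻¹ * α q) ^ n := by
    intro n q
    induction n with
    | zero => simp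
    | succ n ih =>
      rw [pow_succ', MulAut.mul_apply, ih, map_mul, hfix _ (pow_mem (hu q) n), pow_succ']
      simp [mul_assoc]
  obtain ⟨k, hk⟩ := IsPGroup.iff_card.1 (hpg.to_subgroup A)
  have hone : α ^ (p ^ k) = 1 := by
    ext q
    rw [hiter, ← hk]
    have h1 : ((⟨_, hu q⟩ : A) ^ Nat.card A) = 1 := pow_card_eq_one'
    have h2 : (q⁻¹ * α q) ^ Nat.card A = 1 := congrArg Subtype.val h1
    rw [h2, mul_one]
    rfl
  obtain ⟨j, -, hj⟩ := (Nat.dvd_prime_pow hp).1 (orderOf_dvd_of_pow_eq_one hone)
  exact ⟨j, hj⟩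

end Cfsg.Agent.S3349
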