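import Cfsg.Statements.S3361
import Cfsg.Agent.H78.SolvableRegularLinear
import Cfsg.Agent.S2904

set_option autoImplicit false
open Cfsg

namespace Cfsg.Agent.S3361

/-- Let q be a prime and V a non-trivial finite vector space over the field with q elements, and let G be a finite solvable group acting faithfully and linearly on V and regularly on the non-zero vectors (transitively, with only the identity fixing a non-zero vector). Then either V can be identified with the additive group of a finite field F so that every element of G acts as x ↦ a·σ(x) (a ∈ F, σ a field automorphism), or V has 5^2, 7^2, 11^2 or 23^2 elements. Moreover, if q ≠ 2 then G has a normal subgroup of index 2, except that when V has 25 elements G may be isomorphic to SL(2,3) and when V has 121 elements G may be isomorphic to SL(2,3) × C₅. -/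
theorem result
    (q : ℕ) [Fact q.Prime] {V : Type*} [AddCommGroup V] [Module (ZMod q) V] [Finite V] [Nontrivial V]
    {G : Type*} [Group G] [Finite G] (hsol : Group.IsSolvable G)
    (ρ : G →* (V ≃ₗ[ZMod q] V)) (hρ : Function.Injective ρ)
    (htrans : ∀ v w : V, v ≠ 0 → w ≠ 0 → ∃ g : G, ρ g v = w)
    (hreg : ∀ v : V, v ≠ 0 → ∀ g : G, ρ g v = v → g = 1) :
    ((∃ (F : Type) (_ : Field F) (_ : Fintype F) (e : V ≃+ F),
        ∀ g : G, ∃ (a : F) (σ : F ≃+* F), ∀ v : V, e (ρ g v) = a * σ (e v)) ∨
      Nat.card V ∈ ({25, 49, 121, 529} : Set ℕ)) ∧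
    (q ≠ 2 → (∃ N : Subgroup G, N.Normal ∧ N.index = 2) ∨
      (Nat.card V = 25 ∧ Nonempty (G ≃* Matrix.SpecialLinearGroup (Fin 2) (ZMod 3))) ∨
      (Nat.card V = 121 ∧ Nonempty (G ≃* Matrix.SpecialLinearGroup (Fin 2) (ZMod 3) × Multiplicative (ZMod 5)))) := by
  have hfin : Module.Finite (ZMod q) V := Module.Finite.of_finite
  have hV : Nat.card V = q ^ Module.finrank (ZMod q) V := by
    rw [Module.natCard_eq_pow_finrank (K := ZMod q), Nat.card_zmod]
  have hG := Cfsg.Agent.H78.card_eq_of_regular ρ htrans hreg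
  rcases Cfsg.Agent.H78.solvable_regular_cases Cfsg.Agent.S2904.result hsol ρ hρ htrans hreg with
    h | ⟨A, E, h, hd, hq⟩
  · refine ⟨Or.inl h, fun hq2 => Or.inl (h.exists_index_two hρ ?_)⟩
    have hodd : Odd (q ^ Module.finrank (ZMod q) V) :=
      ((Fact.out : q.Prime).odd_of_ne_two hq2).pow
    obtain ⟨c, hc⟩ := hodd
    exact ⟨c, by rw [hG, hc, Nat.add_sub_cancel]⟩
  · refine ⟨Or.inr ?_, fun _ => ?_⟩
    · rw [hV, hd]
      rcases hq with rfl | rfl | rfl | rfl <;> simp
    · rw [hd] at hG
      rcases Cfsg.Agent.H78.exceptional_regular_cases ρ hρ hreg h hd hq hG with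
        h2 | ⟨rfl, h2⟩ | ⟨rfl, h2⟩
      · exact Or.inl h2
      · exact Or.inr (Or.inl ⟨by rw [hV, hd]; norm_num, h2⟩)
      · exact Or.inr (Or.inr ⟨by rw [hV, hd]; norm_num, h2⟩)

end Cfsg.Agent.S3361
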