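import Cfsg.Statements.S3376
import Cfsg.Agent.H17.Wreath162

set_option autoImplicit false
open Cfsg

namespace Cfsg.Agent.S3376

/-- Let G be a group of order 162 = 3⁴·2 with Sylow 3-subgroup S and Sylow 2-subgroup T, having an elementary abelian normal subgroup J of order 27, such that Z = Z(S) has order 3, Z centralizes T, and C_S(T) ≠ S. Then G is isomorphic to the centralizer in Sym(9) of a product of three disjoint 3-cycles. -/
theorem result {G : Type*} [Group G] [Finite G] (hG : Nat.card G = 162)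
    (S : Sylow 3 G) (T : Sylow 2 G) (J : Subgroup G) [hJn : J.Normal] (hJcomm : IsMulCommutative J)
    (hJexp : ∀ a ∈ J, a ^ 3 = 1) (hJcard : Nat.card J = 27)
    (Z : Subgroup G) (hZ : Z = (S : Subgroup G) ⊓ Subgroup.centralizer ((S : Subgroup G) : Set G)) (hZcard : Nat.card Z = 3)
    (hZT : Z ≤ Subgroup.centralizer ((T : Subgroup G) : Set G))
    (hST : (S : Subgroup G) ⊓ Subgroup.centralizer ((T : Subgroup G) : Set G) ≠ S) :
    Nonempty (G ≃* Subgroup.centralizer ({Equiv.swap (0 : Fin 9) 1 * Equiv.swap 1 2 * Equiv.swap 3 4 * Equiv.swap 4 5 * Equiv.swap 6 7 * Equiv.swap 7 8} : Set (Equiv.Perm (Fin 9)))) := by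
  exact H17.Wreath162.nonempty_equiv hG S T J hJcomm hJexp hJcard Z hZ hZcard hZT hST _
    (by decide +kernel) (by decide +kernel)

end Cfsg.Agent.S3376
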