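import Cfsg.Statements.S3389
import Mathlib
-- import your own Cfsg.Agent.* helpers here

set_option autoImplicit false
open Cfsg

namespace Cfsg.Agent.S3389

/-- Let G be a finite group acting faithfully and transitively on a finite set Ω with fixity k ≥ 1: every non-identity element fixes at most k points and some non-identity element fixes exactly k points. Then |Z(G)| divides k; if k = 2 then |G| is even; and for every prime p > k dividing |G| and every point α, either p does not divide |G_α| or G_α contains a Sylow p-subgroup of G. -/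
theorem result {G : Type*} [Group G] [Finite G] {Ω : Type*} [Fintype Ω] [MulAction G Ω] [FaithfulSMul G Ω]
    (htr : MulAction.IsPretransitive G Ω) (k : ℕ) (hk : 1 ≤ k)
    (hfix : ∀ g : G, g ≠ 1 → Nat.card (MulAction.fixedBy Ω g) ≤ k) (hex : ∃ g : G, g ≠ 1 ∧ Nat.card (MulAction.fixedBy Ω g) = k) :
    Nat.card (Subgroup.center G) ∣ k ∧ (k = 2 → 2 ∣ Nat.card G) ∧
      ∀ (p : ℕ), p.Prime → k < p → p ∣ Nat.card G → ∀ α : Ω,
        ¬ p ∣ Nat.card (MulAction.stabilizer G α) ∨ ¬ p ∣ (MulAction.stabilizer G α).index := by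
  classical
  have hfixle : ∀ g : G, g ≠ 1 → (MulAction.fixedBy Ω g).ncard ≤ k := fun g hg => by
    rw [← Nat.card_coe_set_eq]; exact hfix g hg
  -- a `q`-subgroup of a stabiliser, and the elements normalising it
  have hnorm : ∀ (P : Subgroup G) (x : G), x ∈ Subgroup.normalizer (P : Set G) → ∀ ω : Ω,
      (∀ y ∈ P, y • ω = ω) → ∀ y ∈ P, y • (x • ω) = x • ω := by
    intro P x hx ω hω y hy
    have h := hω _ ((Subgroup.mem_normalizer_iff.1 (inv_mem hx) y).1 hy)
    rw [inv_inv, mul_smul, mul_smul, inv_smul_eq_iff] at h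
    exact h
  refine ⟨?_, ?_, ?_⟩
  · obtain ⟨g, hg, hgk⟩ := hex
    letI : MulAction (Subgroup.center G) (MulAction.fixedBy Ω g) :=
      { smul := fun z x => ⟨(z : G) • (x : Ω), by
          change g • (z : G) • (x : Ω) = (z : G) • (x : Ω)
          rw [← mul_smul, Subgroup.mem_center_iff.1 z.2, mul_smul, x.2]⟩
        one_smul := fun x => Subtype.ext (one_smul G (x : Ω))
        mul_smul := fun z w x => Subtype.ext (mul_smul (z : G) (w : G) (x : Ω)) }
    have hfree : ∀ x : MulAction.fixedBy Ω g, MulAction.stabilizer (Subgroup.center G) x = ⊥ := by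
      intro x
      rw [Subgroup.eq_bot_iff_forall]
      intro z hz
      apply Subtype.ext
      refine FaithfulSMul.eq_of_smul_eq_smul (α := Ω) fun ω => ?_
      obtain ⟨h, rfl⟩ := htr.exists_smul_eq (x : Ω) ω
      rw [Subgroup.coe_one, one_smul, ← mul_smul, ← Subgroup.mem_center_iff.1 z.2, mul_smul,
        show (z : G) • (x : Ω) = x from congrArg Subtype.val hz]
    rw [← hgk, Nat.card_congr (MulAction.selfEquivOrbitsQuotientProd hfree), Nat.card_prod]
    exact dvd_mul_left _ _
  · rintro rfl
    obtain ⟨g, hg, hgk⟩ := hex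
    rw [Nat.card_coe_set_eq, Set.ncard_eq_two] at hgk
    obtain ⟨a, b, hab, hset⟩ := hgk
    have hga : g • a = a := (hset ▸ Set.mem_insert a _ : a ∈ MulAction.fixedBy Ω g)
    have hgb : g • b = b := (hset ▸ Set.mem_insert_of_mem a rfl : b ∈ MulAction.fixedBy Ω g)
    by_contra hodd
    set H := MulAction.stabilizer G a ⊓ MulAction.stabilizer G b with hH
    have hHne : Nat.card H ≠ 1 := fun h =>
      hg (Subgroup.mem_bot.1 ((Subgroup.card_eq_one.1 h) ▸ (show g ∈ H from ⟨hga, hgb⟩)))
    obtain ⟨p, hp, hpH⟩ := Nat.exists_prime_and_dvd hHne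
    have := Fact.mk hp
    let P₀ : Sylow p H := default
    set P : Subgroup G := (P₀ : Subgroup H).map H.subtype with hP
    have hPH : P ≤ H := Subgroup.map_subtype_le _
    have hPne : P ≠ ⊥ := by
      rw [Ne, Subgroup.map_eq_bot_iff_of_injective _ H.subtype_injective]
      exact P₀.ne_bot_of_dvd_card hpH
    obtain ⟨y, hy, hy1⟩ := (Subgroup.bot_or_exists_ne_one P).resolve_left hPne
    -- elements normalising `P` permute `{a, b}`
    have hperm : ∀ x ∈ Subgroup.normalizer (P : Set G), ∀ ω ∈ ({a, b} : Set Ω),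
        x • ω = a ∨ x • ω = b := by
      intro x hx ω hω
      have hpair : ({a, b} : Set Ω) = MulAction.fixedBy Ω y :=
        Set.eq_of_subset_of_ncard_le (Set.insert_subset (hPH hy).1
          (Set.singleton_subset_iff.2 (hPH hy).2))
          (by rw [Set.ncard_pair hab]; exact hfixle y hy1)
      have hωP : ∀ z ∈ P, z • ω = ω := fun z hz => by
        rcases hω with rfl | rfl
        · exact (hPH hz).1
        · exact (hPH hz).2
      have h : x • ω ∈ MulAction.fixedBy Ω y := hnorm P x hx ω hωP y hy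
      rw [← hpair] at h
      exact h
    -- `P` is a Sylow subgroup of the stabiliser of `a` and of `b`
    have hsyl : ∀ c ∈ ({a, b} : Set Ω), ∀ R : Subgroup G, R ≤ MulAction.stabilizer G c →
        IsPGroup p R → P ≤ R → R = P := by
      intro c hc R hRc hR hPR
      by_contra hne
      have hlt : P.subgroupOf R < ⊤ := by
        refine lt_top_iff_ne_top.2 fun h => hne (le_antisymm (Subgroup.subgroupOf_eq_top.1 h) hPR)
      haveI := hR.isNilpotent
      obtain ⟨x, hxN, hxP⟩ := SetLike.exists_of_lt (normalizerCondition_of_isNilpotent _ hlt)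
      apply hxP
      have hxn : (x : G) ∈ Subgroup.normalizer (P : Set G) := by
        rw [Subgroup.mem_normalizer_iff] at hxN ⊢
        intro z
        constructor
        · intro hz
          exact (hxN ⟨z, hPR hz⟩).1 hz
        · intro hz
          have hzR : z ∈ R := by
            have h1 := mul_mem (mul_mem (inv_mem x.2) (hPR hz)) x.2
            simpa [mul_assoc] using h1
          exact (hxN ⟨z, hzR⟩).2 hz
      have hxc : (x : G) • c = c := hRc x.2
      have hxab : (x : G) • a = a ∧ (x : G) • b = b := by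
        rcases hc with rfl | rfl
        · refine ⟨hxc, (hperm x hxn b (Set.mem_insert_of_mem _ rfl)).resolve_left fun h => hab ?_⟩
          exact (MulAction.injective (x : G)) (hxc.trans h.symm)
        · refine ⟨(hperm x hxn a (Set.mem_insert _ _)).resolve_right fun h => hab ?_, hxc⟩
          exact (MulAction.injective (x : G)) (h.trans hxc.symm)
      have hle : P ⊔ Subgroup.zpowers (x : G) ≤ R ⊓ H :=
        sup_le (le_inf hPR hPH) (Subgroup.zpowers_le.2 ⟨x.2, hxab⟩)
      have hpgrp : IsPGroup p ((R ⊓ H).subgroupOf H) :=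
        (hR.to_le inf_le_left).of_equiv (Subgroup.subgroupOfEquivOfLe inf_le_right).symm
      have h1 : (R ⊓ H).subgroupOf H = P₀ := by
        refine P₀.3 hpgrp fun z hz => ?_
        exact hle (le_sup_left (b := Subgroup.zpowers (x : G))
          (Subgroup.mem_map_of_mem H.subtype hz))
      have h2 : (⟨x.1, hxab⟩ : H) ∈ (P₀ : Subgroup H) :=
        h1 ▸ (⟨x.2, hxab⟩ : x.1 ∈ R ⊓ H)
      exact Subgroup.mem_map_of_mem H.subtype h2
    obtain ⟨x, hx⟩ := htr.exists_smul_eq a b
    have hxP : P.map (MulAut.conj x).toMonoidHom ≤ MulAction.stabilizer G b := by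
      rintro _ ⟨z, hz, rfl⟩
      change (x * z * x⁻¹) • b = b
      rw [← hx, mul_smul, mul_smul, inv_smul_smul, show z • a = a from (hPH hz).1]
    set B := MulAction.stabilizer G b
    have hPB : P ≤ B := hPH.trans inf_le_right
    have hpgP : IsPGroup p P := P₀.2.map _
    obtain ⟨S₁, hS₁⟩ := (hpgP.of_equiv (Subgroup.subgroupOfEquivOfLe hPB).symm).exists_le_sylow
    obtain ⟨S₂, hS₂⟩ :=
      ((hpgP.map _).of_equiv (Subgroup.subgroupOfEquivOfLe hxP).symm).exists_le_sylow
    obtain ⟨u, hu⟩ := MulAction.exists_smul_eq B S₂ S₁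
    have hS₁P : (S₁ : Subgroup B).map B.subtype = P := by
      refine hsyl b (Set.mem_insert_of_mem _ rfl) _ (Subgroup.map_subtype_le _) (S₁.2.map _) ?_
      rw [← Subgroup.map_subgroupOf_eq_of_le hPB]
      exact Subgroup.map_mono hS₁
    have hle : P.map (MulAut.conj ((u : G) * x)).toMonoidHom ≤ P := by
      rintro _ ⟨z, hz, rfl⟩
      have hxz : MulAut.conj x z ∈ P.map (MulAut.conj x).toMonoidHom := ⟨z, hz, rfl⟩
      have h1 : (⟨MulAut.conj x z, hxP hxz⟩ : B) ∈ (S₂ : Subgroup B) := hS₂ hxz
      have h3 := Subgroup.mem_map_of_mem (MulAut.conj u).toMonoidHom h1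
      have h4 : (S₂ : Subgroup B).map (MulAut.conj u).toMonoidHom = (S₁ : Subgroup B) :=
        congrArg (fun S : Sylow p B => (S : Subgroup B)) hu
      rw [h4] at h3
      rw [← hS₁P]
      refine ⟨_, h3, ?_⟩
      simp [mul_assoc]
    have heq : P.map (MulAut.conj ((u : G) * x)).toMonoidHom = P :=
      Subgroup.eq_of_le_of_card_ge hle
        (Subgroup.card_map_of_injective (MulAut.conj _).injective).ge
    have hy' : ((u : G) * x) ∈ Subgroup.normalizer (P : Set G) :=
      Subgroup.mem_normalizer_iff_map_conj_eq.2 heq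
    set v := (u : G) * x with hv
    have hva : v • a = b := by rw [hv, mul_smul, hx]; exact u.2
    have hvb : v • b = a := (hperm v hy' b (Set.mem_insert_of_mem _ rfl)).resolve_right fun h =>
      hab ((MulAction.injective v) (hva.trans h.symm))
    have hvodd : Odd (orderOf v) := by
      rw [← Nat.not_even_iff_odd, even_iff_two_dvd]
      exact fun h => hodd (h.trans (orderOf_dvd_natCard v))
    obtain ⟨j, hj⟩ := hvodd
    have hpow : ∀ i : ℕ, (v ^ 2) ^ i • a = a := by
      intro i
      induction i with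
      | zero => rw [pow_zero, one_smul]
      | succ i ih => rw [pow_succ, mul_smul, pow_two, mul_smul, hva, hvb, ← pow_two, ih]
    have h2 : v ^ (2 * j + 1) • a = a := by rw [← hj, pow_orderOf_eq_one, one_smul]
    rw [pow_succ', mul_smul, pow_mul, hpow, hva] at h2
    exact hab h2.symm
  · intro p hp hkp hpG α
    have := Fact.mk hp
    by_contra hcon
    push Not at hcon
    obtain ⟨hpa, hpi⟩ := hcon
    set A := MulAction.stabilizer G α
    let P₀ : Sylow p A := default
    set P : Subgroup G := (P₀ : Subgroup A).map A.subtype with hP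
    have hPA : P ≤ A := Subgroup.map_subtype_le _
    obtain ⟨Q, hQ⟩ := (P₀.2.map A.subtype).exists_le_sylow
    have hlt : P.subgroupOf (Q : Subgroup G) < ⊤ := by
      refine lt_top_iff_ne_top.2 fun h => ?_
      have hle : (Q : Subgroup G) ≤ A := (Subgroup.subgroupOf_eq_top.1 h).trans hPA
      exact Q.not_dvd_index (hpi.trans (Subgroup.index_dvd_of_le hle))
    haveI := Q.2.isNilpotent
    obtain ⟨x, hxN, hxP⟩ := SetLike.exists_of_lt (normalizerCondition_of_isNilpotent _ hlt)
    have hxn : (x : G) ∈ Subgroup.normalizer (P : Set G) := by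
      rw [Subgroup.mem_normalizer_iff] at hxN ⊢
      intro z
      constructor
      · intro hz
        exact (hxN ⟨z, hQ hz⟩).1 hz
      · intro hz
        have hzQ : z ∈ (Q : Subgroup G) := by
          have h1 := mul_mem (mul_mem (inv_mem x.2) (hQ hz)) x.2
          simpa [mul_assoc] using h1
        exact (hxN ⟨z, hzQ⟩).2 hz
    have hPne : P ≠ ⊥ := by
      rw [Ne, Subgroup.map_eq_bot_iff_of_injective _ A.subtype_injective]
      exact P₀.ne_bot_of_dvd_card hpa
    obtain ⟨y, hy, hy1⟩ := (Subgroup.bot_or_exists_ne_one P).resolve_left hPne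
    set W := MulAction.orbit (Subgroup.zpowers (x : G)) α
    have hWsub : W ⊆ MulAction.fixedBy Ω y := by
      rintro _ ⟨⟨z, hz⟩, rfl⟩
      exact hnorm P z ((Subgroup.zpowers_le.2 hxn) hz) α (fun w hw => hPA hw) y hy
    have hW : W.ncard ≤ k := (Set.ncard_le_ncard hWsub).trans (hfixle y hy1)
    have hWpg : IsPGroup p (Subgroup.zpowers (x : G)) :=
      Q.2.to_le (Subgroup.zpowers_le.2 x.2)
    obtain ⟨n, hn⟩ := hWpg.card_orbit α
    rw [Nat.card_coe_set_eq] at hn
    change W.ncard = p ^ n at hn
    have hn0 : n = 0 := by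
      by_contra h
      have := Nat.le_self_pow h p
      omega
    rw [hn0, pow_zero, Set.ncard_eq_one] at hn
    obtain ⟨c, hc⟩ := hn
    have hxA : (x : G) ∈ A := by
      have h1 : (⟨(x : G), Subgroup.mem_zpowers _⟩ : Subgroup.zpowers (x : G)) • α ∈ W :=
        MulAction.mem_orbit α _
      have h2 : α ∈ W := MulAction.mem_orbit_self α
      rw [hc] at h1 h2
      rw [Set.mem_singleton_iff] at h1 h2
      exact h1.trans h2.symm
    have hpg : IsPGroup p (((Q : Subgroup G) ⊓ A).subgroupOf A) :=
      (Q.2.to_le inf_le_left).of_equiv (Subgroup.subgroupOfEquivOfLe inf_le_right).symm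
    have h1 : ((Q : Subgroup G) ⊓ A).subgroupOf A = P₀ :=
      P₀.3 hpg fun z hz => ⟨hQ (Subgroup.mem_map_of_mem A.subtype hz), z.2⟩
    apply hxP
    have h2 : (⟨x.1, hxA⟩ : A) ∈ (P₀ : Subgroup A) := h1 ▸ (⟨x.2, hxA⟩ : x.1 ∈ (Q : Subgroup G) ⊓ A)
    exact Subgroup.mem_map_of_mem A.subtype h2

end Cfsg.Agent.S3389
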