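import Cfsg.Statements.S3391
import Cfsg.Agent.H78.SuzukiFixityTwo

set_option autoImplicit false
open Cfsg

namespace Cfsg.Agent.S3391

/-- Let q = 2^{2m+1} ≥ 8 and let G be isomorphic to the Suzuki group Sz(q). If G acts faithfully and transitively on a finite set Ω with fixity 2 (every non-identity element fixes at most two points, and some fixes exactly two), then either |Ω| = q² + 1 and the action is 2-transitive, or |Ω| = q²(q² + 1) and the point stabilizers have order q − 1. -/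
theorem result {G : Type*} [Group G] [Finite G] (F : Type) [Field F] [Fintype F] (m : ℕ) (hm : 1 ≤ m) (hF : Fintype.card F = 2 ^ (2 * m + 1))
    (e : G ≃* ↥(Cfsg.Lie.Sz F (2 ^ (m + 1)))) {Ω : Type*} [Fintype Ω] [MulAction G Ω] [FaithfulSMul G Ω] (htr : MulAction.IsPretransitive G Ω)
    (hfix : ∀ g : G, g ≠ 1 → Nat.card (MulAction.fixedBy Ω g) ≤ 2) (hex : ∃ g : G, g ≠ 1 ∧ Nat.card (MulAction.fixedBy Ω g) = 2) :
    (Fintype.card Ω = Fintype.card F ^ 2 + 1 ∧ MulAction.IsMultiplyPretransitive G Ω 2) ∨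
    (Fintype.card Ω = Fintype.card F ^ 2 * (Fintype.card F ^ 2 + 1) ∧ ∀ α : Ω, Nat.card (MulAction.stabilizer G α) = Fintype.card F - 1) := by
  classical
  have H : Cfsg.Agent.H7.SzHyp F m := Cfsg.Agent.H7.SzHyp.of_fintype hm hF
  let ψ : Cfsg.Sz F m ≃* G := H.lieEquiv.trans e.symm
  letI : MulAction (Cfsg.Sz F m) Ω := MulAction.compHom Ω ψ.toMonoidHom
  haveI : MulAction.IsPretransitive (Cfsg.Sz F m) Ω := ⟨fun x y => by
    obtain ⟨g, hg⟩ := htr.exists_smul_eq x y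
    refine ⟨ψ.symm g, ?_⟩
    change ψ (ψ.symm g) • x = y
    rw [ψ.apply_symm_apply, hg]⟩
  have hfb : ∀ s : Cfsg.Sz F m, MulAction.fixedBy Ω s = MulAction.fixedBy Ω (ψ s) := fun s => rfl
  have hne : ∀ s : Cfsg.Sz F m, s ≠ 1 → ψ s ≠ 1 := fun s hs h => hs (ψ.injective (by rw [h, map_one]))
  have h1 := Cfsg.Agent.H78.suzuki_fixity_two (Ω := Ω) H
    (fun s hs => by rw [hfb]; exact hfix _ (hne s hs))
    (by
      obtain ⟨g, hg, hg2⟩ := hex
      refine ⟨ψ.symm g, fun h => hg (ψ.symm.injective (by rw [h, map_one])), ?_⟩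
      rw [hfb, ψ.apply_symm_apply, hg2])
  rw [hF, ← Nat.card_eq_fintype_card]
  rcases h1 with ⟨hc, h2⟩ | ⟨hc, h2⟩
  · refine Or.inl ⟨hc, ?_⟩
    rw [MulAction.is_two_pretransitive_iff] at h2 ⊢
    intro a b c d hab hcd
    obtain ⟨s, hs1, hs2⟩ := h2 hab hcd
    exact ⟨ψ s, hs1, hs2⟩
  · refine Or.inr ⟨hc, fun α => ?_⟩
    rw [← h2 α]
    exact (Nat.card_congr (ψ.toEquiv.subtypeEquiv fun s => Iff.rfl)).symm

end Cfsg.Agent.S3391
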