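import Cfsg.Statements.S3399
import Cfsg.Agent.H26.Pro.Bound

set_option autoImplicit false
open Cfsg

namespace Cfsg.Agent.S3399

/-- Let G be a transitive permutation group of finite degree n and K a nontrivial subgroup of G that is pronormal in G (K and gKg⁻¹ are conjugate inside ⟨K, gKg⁻¹⟩ for every g ∈ G). If K fixes exactly f points, then f ≤ (n − 1)/2, that is, 2f + 1 ≤ n. -/
theorem result (n : ℕ) (G : Subgroup (Equiv.Perm (Fin n)))
    (htrans : ∀ a b : Fin n, ∃ g ∈ G, g a = b)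
    (K : Subgroup (Equiv.Perm (Fin n))) (hKG : K ≤ G) (hK : K ≠ ⊥)
    (hpro : ∀ g ∈ G, ∃ w ∈ K ⊔ K.map (MulAut.conj g).toMonoidHom,
      K.map (MulAut.conj w).toMonoidHom = K.map (MulAut.conj g).toMonoidHom) :
    2 * Nat.card {a : Fin n // ∀ k ∈ K, k a = a} + 1 ≤ n := by
  classical
  haveI htr : MulAction.IsPretransitive G (Fin n) :=
    ⟨fun a b => by obtain ⟨g, hg, e⟩ := htrans a b; exact ⟨⟨g, hg⟩, e⟩⟩
  have hmap : (K.subgroupOf G).map G.subtype = K := by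
    rw [Subgroup.subgroupOf_map_subtype, inf_eq_left.2 hKG]
  have hpr : H26.Pro.IsPron (K.subgroupOf G) := by
    intro g
    obtain ⟨w, hw, he⟩ := hpro g g.2
    have hsup : (K.subgroupOf G ⊔ H26.Pro.cj g (K.subgroupOf G)).map G.subtype
        = K ⊔ K.map (MulAut.conj (g : Equiv.Perm (Fin n))).toMonoidHom := by
      rw [Subgroup.map_sup, H26.Pro.map_cj, hmap]
      rfl
    rw [← hsup] at hw
    obtain ⟨w', hw', rfl⟩ := hw
    refine ⟨w', hw', Subgroup.map_injective G.subtype_injective ?_⟩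
    rw [H26.Pro.map_cj, H26.Pro.map_cj, hmap]
    exact he
  have hmv : H26.Pro.Moves (Fin n) (K.subgroupOf G) := by
    obtain ⟨k, hk, hk1⟩ := (Subgroup.ne_bot_iff_exists_ne_one.1 hK : ∃ a : K, a ≠ 1) |>
      fun ⟨a, ha⟩ => (⟨a.1, a.2, fun e => ha (Subtype.ext e)⟩ : ∃ k, k ∈ K ∧ k ≠ 1)
    obtain ⟨b, hb⟩ : ∃ b, k b ≠ b := by
      by_contra h
      simp only [not_exists, not_not] at h
      exact hk1 (Equiv.ext h)
    exact ⟨⟨k, hKG hk⟩, hk, b, hb⟩
  have h := H26.Pro.bnd (n + 1) n (Nat.lt_succ_self n) G (K.subgroupOf G) htr hpr hmv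
  have hc : Nat.card {a : Fin n // ∀ k ∈ K, k a = a}
      = (H26.Pro.fixF (β := Fin n) (K.subgroupOf G)).card := by
    rw [Nat.card_eq_fintype_card]
    refine Fintype.card_of_subtype _ fun a => ?_
    rw [H26.Pro.mem_fixF]
    exact ⟨fun h k hk => h ⟨k, hKG hk⟩ hk, fun h k hk => h k.1 hk⟩
  rw [hc]
  exact h

end Cfsg.Agent.S3399
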