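import Cfsg.Statements.S3412
import Cfsg.Agent.H78.PSL33.Core

set_option autoImplicit false
open Cfsg

namespace Cfsg.Agent.S3412

/-- Let H be a finite group whose commuting graph (vertices the non-identity elements, two joined when they commute) is isomorphic to that of PSL_3(3): there is a bijection between the non-identity elements of H and of PSL_3(3) under which two elements commute exactly when their images do. Then H ≅ PSL_3(3). -/
theorem result {H : Type*} [Group H] [Finite H]
    (f : {h : H // h ≠ 1} ≃ {g : Matrix.ProjectiveSpecialLinearGroup (Fin 3) (ZMod 3) // g ≠ 1})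
    (hf : ∀ x y : {h : H // h ≠ 1}, (x : H) * y = y * x ↔ ((f x) : Matrix.ProjectiveSpecialLinearGroup (Fin 3) (ZMod 3)) * (f y) = (f y) * (f x)) :
    Nonempty (H ≃* Matrix.ProjectiveSpecialLinearGroup (Fin 3) (ZMod 3)) := by
  classical
  have hcenter : Subgroup.center (Matrix.SpecialLinearGroup (Fin 3) (ZMod 3)) = ⊥ := by
    rw [Subgroup.eq_bot_iff_forall]
    intro z hz
    exact Cfsg.Agent.H78.PSL33.e_one_of_central (Equiv.refl _) (fun _ _ => Iff.rfl)
      (fun y => (Subgroup.mem_center_iff.mp hz y).symm)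
  let π : Matrix.SpecialLinearGroup (Fin 3) (ZMod 3) →*
      Matrix.ProjectiveSpecialLinearGroup (Fin 3) (ZMod 3) := QuotientGroup.mk' _
  have hπ : Function.Bijective π :=
    ⟨(MonoidHom.ker_eq_bot_iff π).mp ((QuotientGroup.ker_mk' _).trans hcenter),
      QuotientGroup.mk'_surjective _⟩
  let E := MulEquiv.ofBijective π hπ
  let e0 : H ≃ Matrix.ProjectiveSpecialLinearGroup (Fin 3) (ZMod 3) :=
    { toFun := fun h => if hh : h = 1 then 1 else (f ⟨h, hh⟩).1
      invFun := fun g => if hg : g = 1 then 1 else (f.symm ⟨g, hg⟩).1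
      left_inv := fun h => by
        by_cases hh : h = 1
        · simp [hh]
        · simp [hh, (f ⟨h, hh⟩).2]
      right_inv := fun g => by
        by_cases hg : g = 1
        · simp [hg]
        · simp [hg, (f.symm ⟨g, hg⟩).2] }
  have hc0 : ∀ x y : H, x * y = y * x ↔ e0 x * e0 y = e0 y * e0 x := by
    intro x y
    by_cases hx : x = 1
    · simp [e0, hx]
    by_cases hy : y = 1
    · simp [e0, hy]
    show _ ↔ (if hh : x = 1 then 1 else (f ⟨x, hh⟩).1) * (if hh : y = 1 then 1 else (f ⟨y, hh⟩).1) = _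
    simp only [e0, Equiv.coe_fn_mk, dif_neg hx, dif_neg hy]
    exact hf ⟨x, hx⟩ ⟨y, hy⟩
  obtain ⟨φ⟩ := Cfsg.Agent.H78.PSL33.nonempty_equiv (e0.trans E.symm.toEquiv) (fun x y => by
    refine (hc0 x y).trans ?_
    show _ ↔ E.symm (e0 x) * E.symm (e0 y) = E.symm (e0 y) * E.symm (e0 x)
    rw [← map_mul E.symm, ← map_mul E.symm]
    exact E.symm.injective.eq_iff.symm)
  exact ⟨φ.trans E⟩

end Cfsg.Agent.S3412
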