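import Cfsg.Statements.S3413
import Cfsg.Agent.H78.M11G.Core

set_option autoImplicit false
open Cfsg

namespace Cfsg.Agent.S3413

/-- Let H be a finite group whose commuting graph (vertices the non-identity elements, two joined when they commute) is isomorphic to that of the Mathieu group M_11: there is a bijection between the non-identity elements of H and of M_11 under which two elements commute exactly when their images do. Then H ≅ M_11. -/
theorem result {H : Type*} [Group H] [Finite H]
    (f : {h : H // h ≠ 1} ≃ {g : ↥Cfsg.Spor.M11 // g ≠ 1})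
    (hf : ∀ x y : {h : H // h ≠ 1}, (x : H) * y = y * x ↔ ((f x) : ↥Cfsg.Spor.M11) * (f y) = (f y) * (f x)) :
    Nonempty (H ≃* ↥Cfsg.Spor.M11) := by
  classical
  let e0 : H ≃ ↥Cfsg.Spor.M11 :=
    { toFun := fun h => if hh : h = 1 then 1 else (f ⟨h, hh⟩).1
      invFun := fun g => if hg : g = 1 then 1 else (f.symm ⟨g, hg⟩).1
      left_inv := fun h => by
        by_cases hh : h = 1
        · simp [hh]
        · simp [hh, (f ⟨h, hh⟩).2]
      right_inv := fun g => by
        by_cases hg : g = 1
        · simp [hg]
        · simp [hg, (f.symm ⟨g, hg⟩).2] }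
  have hc0 : ∀ x y : H, x * y = y * x ↔ e0 x * e0 y = e0 y * e0 x := by
    intro x y
    by_cases hx : x = 1
    · simp [e0, hx]
    by_cases hy : y = 1
    · simp [e0, hy]
    simp only [e0, Equiv.coe_fn_mk, dif_neg hx, dif_neg hy]
    exact hf ⟨x, hx⟩ ⟨y, hy⟩
  exact Cfsg.Agent.H78.M11G.nonempty_equiv_M11 e0 hc0

end Cfsg.Agent.S3413
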