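import Cfsg.Statements.S3495
import Cfsg.Agent.H79.ExtremelyPrimitiveAffine

set_option autoImplicit false
open Cfsg

namespace Cfsg.Agent.S3495

/-- Let a finite group G act faithfully and primitively on a finite set Ω with non-trivial point stabilizers, each acting primitively on every one of its orbits (an extremely primitive group), and suppose G has an elementary abelian normal p-subgroup N acting regularly on Ω (affine type). Then every non-trivial subgroup M of a point stabilizer G_α that is normal in G_α has the same orbits on Ω as G_α, and normalizes no subgroup of N other than 1 and N. -/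
theorem result {G : Type*} [Group G] [Finite G] {Ω : Type*} [Fintype Ω] [MulAction G Ω] [FaithfulSMul G Ω] (hprim : MulAction.IsPreprimitive G Ω) (hH : ∀ α : Ω, MulAction.stabilizer G α ≠ ⊥) (hep : ∀ (α : Ω) (ω : Ω), MulAction.IsPreprimitive (MulAction.stabilizer G α) (MulAction.orbit (MulAction.stabilizer G α) ω))
    (N : Subgroup G) [N.Normal] (hNc : IsMulCommutative N) (p : ℕ) (hp : p.Prime) (hNp : ∀ n ∈ N, n ^ p = 1)
    (hNtr : MulAction.IsPretransitive N Ω) (hNreg : ∀ ω : Ω, MulAction.stabilizer N ω = ⊥) (α : Ω) (M : Subgroup G) (hM : M ≠ ⊥) (hMle : M ≤ MulAction.stabilizer G α)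
    (hMn : MulAction.stabilizer G α ≤ Subgroup.normalizer (M : Set G)) :
    (∀ ω : Ω, MulAction.orbit M ω = MulAction.orbit (MulAction.stabilizer G α) ω) ∧
    (∀ L : Subgroup G, L ≤ N → M ≤ Subgroup.normalizer (L : Set G) → L = ⊥ ∨ L = N) := by
  haveI := hprim
  exact ⟨Cfsg.Agent.H79.affine_orbit_eq hH hep hM hMle hMn, fun L hL hML =>
    Cfsg.Agent.H79.affine_normalized_eq_bot_or_self hH hep N
      (fun a ha b hb => congrArg Subtype.val (hNc.is_comm.comm ⟨a, ha⟩ ⟨b, hb⟩))
      hNtr hNreg hM hMle hMn L hL hML⟩

end Cfsg.Agent.S3495
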