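import Cfsg.Statements.S3496
import Cfsg.Agent.H79.ExtremelyPrimitiveAffine

set_option autoImplicit false
open Cfsg

namespace Cfsg.Agent.S3496

/-- The soluble extremely primitive groups. Let a finite solvable group G act faithfully and primitively on a finite set Ω with p ^ d points (p prime), with non-trivial point stabilizers each acting primitively on every one of its orbits. Then there is a prime q such that every orbit of a point stabilizer G_α other than {α} has exactly q points, q divides p ^ d − 1 but no p ^ i − 1 with 0 < i < d, and G_α has a normal subgroup T of order q with G_α generated by T and one further element and the order of G_α dividing q·d (so G_α is cyclic of order q, or an extension of T by a cyclic group of order dividing d). -/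
theorem result {G : Type*} [Group G] [Finite G] {Ω : Type*} [Fintype Ω] [MulAction G Ω] [FaithfulSMul G Ω] [Group.IsSolvable G] (p d : ℕ) (hp : p.Prime) (hcard : Fintype.card Ω = p ^ d)
    (hprim : MulAction.IsPreprimitive G Ω) (hH : ∀ α : Ω, MulAction.stabilizer G α ≠ ⊥) (hep : ∀ (α : Ω) (ω : Ω), MulAction.IsPreprimitive (MulAction.stabilizer G α) (MulAction.orbit (MulAction.stabilizer G α) ω)) (α : Ω) :
    ∃ q : ℕ, q.Prime ∧ (∀ ω : Ω, ω ≠ α → Nat.card (MulAction.orbit (MulAction.stabilizer G α) ω) = q) ∧
      q ∣ p ^ d - 1 ∧ (∀ i : ℕ, 0 < i → i < d → ¬ q ∣ p ^ i - 1) ∧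
      ∃ T : Subgroup G, T ≤ MulAction.stabilizer G α ∧ MulAction.stabilizer G α ≤ Subgroup.normalizer (T : Set G) ∧ Nat.card T = q ∧
        (∃ h : G, MulAction.stabilizer G α = T ⊔ Subgroup.zpowers h) ∧ Nat.card (MulAction.stabilizer G α) ∣ q * d := by
  haveI := hprim
  exact Cfsg.Agent.H79.solvable_extremely_primitive p d hp (Nat.card_eq_fintype_card.trans hcard) hH hep α

end Cfsg.Agent.S3496
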