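import Cfsg.Statements.S3497
import Cfsg.Agent.H79.ExtremelyPrimitive
import Cfsg.Agent.H79.ConjToGL
import Cfsg.Agent.H19.Cores

set_option autoImplicit false
open Cfsg

namespace Cfsg.Agent.S3497

/-- Restrictions on the point stabilizer of an extremely primitive group. Let a finite group G act faithfully and primitively on a finite set Ω with point stabilizers H = G_α whose order is neither 1 nor a prime, each acting primitively on every one of its orbits. Then H has trivial center, the Fitting subgroup F(H) is an elementary abelian p-group for some prime p, and if F(H) ≠ 1 has order p ^ e then p ^ e divides the number of points minus one and H / F(H) embeds in GL_e(p) (there is a homomorphism from H to GL_e(p) with kernel exactly F(H)). -/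
theorem result {G : Type*} [Group G] [Finite G] {Ω : Type*} [Fintype Ω] [MulAction G Ω] [FaithfulSMul G Ω] (hprim : MulAction.IsPreprimitive G Ω) (hep : ∀ (α : Ω) (ω : Ω), MulAction.IsPreprimitive (MulAction.stabilizer G α) (MulAction.orbit (MulAction.stabilizer G α) ω)) (α : Ω)
    (hH1 : MulAction.stabilizer G α ≠ ⊥) (hHp : ¬ (Nat.card (MulAction.stabilizer G α)).Prime) :
    Subgroup.center (MulAction.stabilizer G α) = ⊥ ∧
    IsMulCommutative (Cfsg.fittingSubgroup (MulAction.stabilizer G α)) ∧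
    ∃ p e : ℕ, p.Prime ∧ Nat.card (Cfsg.fittingSubgroup (MulAction.stabilizer G α)) = p ^ e ∧
      (∀ x ∈ Cfsg.fittingSubgroup (MulAction.stabilizer G α), x ^ p = 1) ∧
      (Cfsg.fittingSubgroup (MulAction.stabilizer G α) ≠ ⊥ →
        p ^ e ∣ Fintype.card Ω - 1 ∧
        ∃ φ : MulAction.stabilizer G α →* GL (Fin e) (ZMod p), φ.ker = Cfsg.fittingSubgroup (MulAction.stabilizer G α)) := by
  classical
  haveI := hprim
  have hH : ∀ β : Ω, MulAction.stabilizer G β ≠ ⊥ := by
    intro β hb
    obtain ⟨g, rfl⟩ := MulAction.exists_smul_eq G β α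
    apply hH1
    rw [MulAction.stabilizer_smul_eq_stabilizer_map_conj, hb, Subgroup.map_bot]
  haveI : Nontrivial Ω := by
    by_contra hn
    rw [not_nontrivial_iff_subsingleton] at hn
    apply hH1
    refine (Subgroup.eq_bot_iff_forall _).2 fun g _ => FaithfulSMul.eq_of_smul_eq_smul (α := Ω) ?_
    exact fun x => Subsingleton.elim _ _
  obtain ⟨ω, hω⟩ := exists_ne α
  set S := MulAction.stabilizer G α
  haveI hFn : (Cfsg.fittingSubgroup S).Normal := Cfsg.Agent.H19.fitting_normal S
  set F := Cfsg.fittingSubgroup S with hF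
  have hcentre : Subgroup.center S = ⊥ := by
    by_contra hne
    have h := Cfsg.Agent.H79.abelian_normal_centralizer hH hep hω (M := Subgroup.center S) hne
      (fun a ha b _ => (Subgroup.mem_center_iff.1 ha b).symm)
    have hall : ∀ c : S, c ∈ Subgroup.center S := fun c => by
      rw [← h, Subgroup.mem_centralizer_iff]
      exact fun a ha => (Subgroup.mem_center_iff.1 ha c).symm
    exact hHp (Cfsg.Agent.H79.prime_of_abelian hH hep fun a b =>
      (Subgroup.mem_center_iff.1 (hall a) b).symm)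
  refine ⟨hcentre, ?_⟩
  by_cases hF0 : F = ⊥
  · refine ⟨⟨⟨fun a b => ?_⟩⟩, 2, 0, Nat.prime_two, ?_, ?_, fun h => absurd hF0 h⟩
    · have ha : (a : S) = 1 := Subgroup.mem_bot.1 (hF0 ▸ a.2)
      have hb : (b : S) = 1 := Subgroup.mem_bot.1 (hF0 ▸ b.2)
      exact Subtype.ext (by simp [ha, hb])
    · rw [pow_zero, Subgroup.card_eq_one]; exact hF0
    · intro x hx
      rw [hF0, Subgroup.mem_bot] at hx
      rw [hx, one_pow]
  -- the centre of the Fitting subgroup
  haveI : Group.IsNilpotent F := Cfsg.Agent.H19.fitting_isNilpotent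
  haveI : Nontrivial F := (Subgroup.nontrivial_iff_ne_bot F).2 hF0
  have hZ : (Subgroup.center F).map F.subtype ≠ ⊥ := by
    rw [Ne, Subgroup.map_eq_bot_iff_of_injective _ Subtype.val_injective]
    exact Group.IsNilpotent.center_ne_bot F
  have hZc := Cfsg.Agent.H79.abelian_normal_centralizer hH hep hω hZ (by
    rintro _ ⟨a, ha, rfl⟩ _ ⟨b, -, rfl⟩
    exact congrArg Subtype.val (Subgroup.mem_center_iff.1 ha b).symm)
  have hFZ : F ≤ (Subgroup.center F).map F.subtype := by
    intro x hx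
    rw [← hZc, Subgroup.mem_centralizer_iff]
    rintro _ ⟨a, ha, rfl⟩
    exact congrArg Subtype.val (Subgroup.mem_center_iff.1 ha ⟨x, hx⟩).symm
  have hFc : ∀ a ∈ F, ∀ b ∈ F, a * b = b * a := by
    intro a ha b hb
    obtain ⟨a', ha', rfl⟩ := hFZ ha
    exact congrArg Subtype.val (Subgroup.mem_center_iff.1 ha' ⟨b, hb⟩).symm
  refine ⟨⟨⟨fun a b => Subtype.ext (hFc a a.2 b b.2)⟩⟩, ?_⟩
  -- a prime-exponent characteristic part
  obtain ⟨p, hp, hpF⟩ := Nat.exists_prime_and_dvd
    (show Nat.card F ≠ 1 by rw [Ne, Subgroup.card_eq_one]; exact hF0)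
  haveI := Fact.mk hp
  let V : Subgroup S :=
    { carrier := {x | x ∈ F ∧ x ^ p = 1}
      one_mem' := ⟨one_mem _, one_pow _⟩
      mul_mem' := fun {x y} hx hy => ⟨mul_mem hx.1 hy.1, by
        rw [(show Commute x y from hFc x hx.1 y hy.1).mul_pow, hx.2, hy.2, one_mul]⟩
      inv_mem' := fun {x} hx => ⟨inv_mem hx.1, by rw [inv_pow, hx.2, inv_one]⟩ }
  haveI : V.Normal := ⟨fun x hx g => ⟨hFn.conj_mem x hx.1 g, by rw [conj_pow, hx.2]; group⟩⟩
  have hV : V ≠ ⊥ := by
    obtain ⟨a, ha⟩ := exists_prime_orderOf_dvd_card' p hpF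
    intro h
    have hm : (a : S) ∈ V := ⟨a.2, by rw [← Subgroup.coe_pow, ← ha, pow_orderOf_eq_one]; rfl⟩
    rw [h, Subgroup.mem_bot, OneMemClass.coe_eq_one] at hm
    rw [hm, orderOf_one] at ha
    exact hp.ne_one ha.symm
  have hVc := Cfsg.Agent.H79.abelian_normal_centralizer hH hep hω hV
    (fun a ha b hb => hFc a ha.1 b hb.1)
  have hFV : F = V := le_antisymm (fun x hx => by
    rw [← hVc, Subgroup.mem_centralizer_iff]
    exact fun a ha => hFc a ha.1 x hx) fun x hx => hx.1
  have hexp : ∀ x ∈ F, x ^ p = 1 := fun x hx => (hFV ▸ hx : x ∈ V).2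
  obtain ⟨e, he⟩ := (IsPGroup.iff_card (p := p) (G := F)).1
    (fun x => ⟨1, Subtype.ext (by simpa using hexp x x.2)⟩)
  refine ⟨p, e, hp, he, hexp, fun _ => ⟨?_, ?_⟩⟩
  · rw [← he, ← Nat.card_eq_fintype_card]
    exact Cfsg.Agent.H79.card_dvd_card_sub_one hH hep hFc
  · obtain ⟨φ, hφ⟩ := Cfsg.Agent.H79.exists_conj_hom_gl F p e hFc hexp he
    exact ⟨φ, hφ.trans (Cfsg.Agent.H79.abelian_normal_centralizer hH hep hω hF0 hFc)⟩

end Cfsg.Agent.S3497
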