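import Cfsg.Statements.S3504


set_option autoImplicit false
open Cfsg

namespace Cfsg.Agent.S3504

/-- For n ≥ 5, the fixed-point-free permutations of prime order in the symmetric group of degree n form a single conjugacy class if and only if n is a prime power. -/
theorem result (n : ℕ) (hn : 5 ≤ n) :
    Nat.card {c : ConjClasses (Equiv.Perm (Fin n)) // ∃ g : Equiv.Perm (Fin n), ConjClasses.mk g = c ∧ (orderOf g).Prime ∧ ∀ i : Fin n, g i ≠ i} = 1 ↔ IsPrimePow n := by
  classical
  have hct : ∀ g : Equiv.Perm (Fin n), (orderOf g).Prime → (∀ i : Fin n, g i ≠ i) →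
      ∃ k, g.cycleType = Multiset.replicate k (orderOf g) ∧ k * orderOf g = n := by
    intro g hg hfix
    obtain ⟨k, hk⟩ := Equiv.Perm.cycleType_prime_order hg
    refine ⟨k + 1, hk, ?_⟩
    have h1 := g.sum_cycleType
    rw [hk, Multiset.sum_replicate, smul_eq_mul,
      show g.support = Finset.univ from Finset.eq_univ_iff_forall.2 fun i =>
        Equiv.Perm.mem_support.2 (hfix i), Finset.card_univ, Fintype.card_fin] at h1
    exact h1
  have hex : ∀ p : ℕ, p.Prime → p ∣ n →
      ∃ g : Equiv.Perm (Fin n), orderOf g = p ∧ ∀ i : Fin n, g i ≠ i := by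
    intro p hp hpn
    obtain ⟨k, hk⟩ := hpn
    obtain ⟨g, hg⟩ := (Equiv.Perm.exists_with_cycleType_iff (Fin n)
      (m := Multiset.replicate k p)).2 ⟨by
        rw [Multiset.sum_replicate, smul_eq_mul, Fintype.card_fin, hk, mul_comm], fun a ha => by
        rw [Multiset.eq_of_mem_replicate ha]; exact hp.two_le⟩
    have hk0 : k ≠ 0 := by rintro rfl; omega
    have ho : orderOf g = p := by
      haveI := Fact.mk hp
      refine orderOf_eq_prime (Equiv.Perm.pow_prime_eq_one_iff.2 fun c hc => ?_) ?_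
      · rw [hg] at hc; exact Multiset.eq_of_mem_replicate hc
      · intro h1
        rw [h1, Equiv.Perm.cycleType_one] at hg
        exact hk0 (by simpa using (congrArg Multiset.card hg).symm)
    refine ⟨g, ho, fun i hi => ?_⟩
    have h1 := g.sum_cycleType
    rw [hg, Multiset.sum_replicate, smul_eq_mul] at h1
    have h2 : g.support ⊂ Finset.univ := Finset.ssubset_univ_iff.2 fun h => by
      have := h ▸ Finset.mem_univ i
      exact (Equiv.Perm.mem_support.1 this) hi
    have := Finset.card_lt_card h2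
    rw [← h1, Finset.card_univ, Fintype.card_fin, mul_comm, ← hk] at this
    exact lt_irrefl _ this
  rw [isPrimePow_iff_unique_prime_dvd, Nat.card_eq_one_iff_exists]
  constructor
  · rintro ⟨⟨c, g, hgc, hg, hgf⟩, huniq⟩
    obtain ⟨k, -, hkn⟩ := hct g hg hgf
    refine ⟨orderOf g, ⟨hg, Dvd.intro_left k hkn⟩, fun q hq => ?_⟩
    obtain ⟨x, hxq, hxf⟩ := hex q hq.1 hq.2
    have := congrArg Subtype.val (huniq ⟨ConjClasses.mk x, x, rfl, hxq ▸ hq.1, hxf⟩)
    rw [← hxq]
    simp only at this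
    rw [← hgc, ConjClasses.mk_eq_mk_iff_isConj] at this
    obtain ⟨u, hu⟩ := isConj_iff.1 this
    rw [← hu, ← MulAut.conj_apply, MulEquiv.orderOf_eq]
  · rintro ⟨p, ⟨hp, hpn⟩, huniq⟩
    obtain ⟨g, hgo, hgf⟩ := hex p hp hpn
    refine ⟨⟨ConjClasses.mk g, g, rfl, hgo ▸ hp, hgf⟩, ?_⟩
    rintro ⟨c, x, rfl, hxp, hxf⟩
    obtain ⟨k, hk, hkn⟩ := hct g (hgo ▸ hp) hgf
    obtain ⟨l, hl, hln⟩ := hct x hxp hxf
    have hox : orderOf x = p := huniq _ ⟨hxp, Dvd.intro_left l hln⟩
    rw [hgo] at hk hkn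
    rw [hox] at hl hln
    apply Subtype.ext
    show ConjClasses.mk x = ConjClasses.mk g
    rw [ConjClasses.mk_eq_mk_iff_isConj, Equiv.Perm.isConj_iff_cycleType_eq, hk, hl,
      Nat.eq_of_mul_eq_mul_right hp.pos (hln.trans hkn.symm)]

end Cfsg.Agent.S3504
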