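import Cfsg.Statements.S3508
import Cfsg.Agent.H79.AffineElementOrder

set_option autoImplicit false
open Cfsg

namespace Cfsg.Agent.S3508

/-- Let a finite group G act faithfully on a set Ω with p ^ m points (p prime) and have an elementary abelian normal p-subgroup N acting regularly on Ω (so G is a group of affine transformations of an m-dimensional space over the field with p elements). If G contains an element of order p ^ r with r ≥ 1, then p ^ (r − 1) ≤ m. In particular an element of order p ^ m forces m ≤ 2, and m ≤ 1 when p is odd. -/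
theorem result {G : Type*} [Group G] [Finite G] {Ω : Type*} [Fintype Ω] [MulAction G Ω] [FaithfulSMul G Ω] (p m : ℕ) (hp : p.Prime) (hcard : Fintype.card Ω = p ^ m)
    (N : Subgroup G) [N.Normal] (hNc : IsMulCommutative N) (hNp : ∀ n ∈ N, n ^ p = 1)
    (hNtr : MulAction.IsPretransitive N Ω) (hNreg : ∀ ω : Ω, MulAction.stabilizer N ω = ⊥)
    (g : G) (r : ℕ) (hr : 1 ≤ r) (hg : orderOf g = p ^ r) :
    p ^ (r - 1) ≤ m ∧ (r = m → m ≤ 2 ∧ (2 < p → m ≤ 1)) := by
  have hle : p ^ (r - 1) ≤ m := by
    by_contra hlt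
    have h1 := Cfsg.Agent.H79.affine_p_element_pow_eq_one p m hp hcard N hNc hNp hNtr hNreg g (r - 1)
      (not_le.1 hlt) ⟨r, hg ▸ pow_orderOf_eq_one g⟩
    have h2 := Nat.le_of_dvd (pow_pos hp.pos _) (orderOf_dvd_of_pow_eq_one h1)
    rw [hg] at h2
    have := (Nat.pow_le_pow_iff_right hp.one_lt).1 h2
    omega
  exact ⟨hle, Cfsg.Agent.H79.lt_pow_of_large_exp hp.two_le hle⟩

end Cfsg.Agent.S3508
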