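import Cfsg.Statements.S3511


set_option autoImplicit false
open Cfsg

namespace Cfsg.Agent.S3511

/-- Let a finite group G act faithfully on a set Ω. If every element of G of square-free order has a regular cycle (an orbit of the cyclic group it generates with trivial stabilizer), then every element of G has a regular cycle. -/
theorem result {G : Type*} [Group G] [Finite G] {Ω : Type*} [MulAction G Ω] [FaithfulSMul G Ω]
    (h : ∀ g : G, Squarefree (orderOf g) → ∃ ω : Ω, MulAction.stabilizer (Subgroup.zpowers g) ω = ⊥) (g : G) :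
    ∃ ω : Ω, MulAction.stabilizer (Subgroup.zpowers g) ω = ⊥ := by
  classical
  haveI : Nonempty Ω := ⟨(h 1 (by simp)).choose⟩
  set n := orderOf g with hn
  have hn0 : 0 < n := orderOf_pos g
  set r := ∏ p ∈ n.primeFactors, p with hr
  have hrdvd : r ∣ n := Nat.prod_primeFactors_dvd n
  obtain ⟨k, hk⟩ := hrdvd
  have hord : orderOf (g ^ k) = r := by
    rw [orderOf_pow, ← hn, Nat.gcd_eq_right (Dvd.intro_left r hk.symm), hk,
      Nat.mul_div_cancel]
    rcases Nat.eq_zero_or_pos k with h0 | h0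
    · simp [h0] at hk; omega
    · exact h0
  have hsq : Squarefree r := by
    rw [hr]
    exact Finset.squarefree_prod_of_pairwise_isCoprime
      (fun p hp q hq hpq => by
        rw [Function.onFun, ← Nat.coprime_iff_isRelPrime]
        exact (Nat.coprime_primes (Nat.prime_of_mem_primeFactors hp)
          (Nat.prime_of_mem_primeFactors hq)).2 hpq)
      (fun p hp => (Nat.prime_of_mem_primeFactors hp).squarefree)
  obtain ⟨ω, hω⟩ := h (g ^ k) (hord ▸ hsq)
  refine ⟨ω, (Subgroup.eq_bot_iff_forall _).2 ?_⟩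
  intro x hx
  by_contra hx1
  obtain ⟨q, hq, hqx⟩ := Nat.exists_prime_and_dvd (mt orderOf_eq_one_iff.1 hx1)
  have hy : orderOf (x ^ (orderOf x / q)) = q := orderOf_pow_orderOf_div (orderOf_pos x).ne' hqx
  set y : Subgroup.zpowers g := x ^ (orderOf x / q)
  have hys : y • ω = ω := pow_mem hx _
  have hyg : orderOf (y : G) = q := by rw [Subgroup.orderOf_coe, hy]
  obtain ⟨i, hi⟩ := (mem_powers_iff_mem_zpowers (G := G) (x := g) (y := (y : G))).2 y.2
  have hqn : q ∣ n := hyg ▸ hi ▸ orderOf_pow g ▸ Nat.div_dvd_of_dvd (Nat.gcd_dvd_left _ _)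
  have hgi : (g : G) ^ i = y := hi
  have h1 : g ^ (i * q) = 1 := by rw [pow_mul, hgi, ← hyg, pow_orderOf_eq_one]
  have hn1 : n ∣ i * q := orderOf_dvd_of_pow_eq_one h1
  have hqr : q ∣ r := Finset.dvd_prod_of_mem _ (Nat.mem_primeFactors.2 ⟨hq, hqn, hn0.ne'⟩)
  have hki : k ∣ i := by
    obtain ⟨u, hu⟩ := hqr
    rw [hk, hu] at hn1
    exact (dvd_mul_left k u).trans
      (Nat.dvd_of_mul_dvd_mul_right hq.pos (by
        rwa [mul_assoc, mul_comm q] at hn1))
  obtain ⟨u, rfl⟩ := hki
  have hmem : (y : G) ∈ Subgroup.zpowers (g ^ k) := ⟨(u : ℤ), by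
    show (g ^ k) ^ (u : ℤ) = _
    rw [zpow_natCast, ← pow_mul, hgi]⟩
  have : (⟨(y : G), hmem⟩ : Subgroup.zpowers (g ^ k)) = 1 := by
    rw [← Subgroup.mem_bot, ← hω]
    exact hys
  have hy1 : (y : G) = 1 := congrArg Subtype.val this
  rw [hy1, orderOf_one] at hyg
  exact hq.ne_one hyg.symm

end Cfsg.Agent.S3511
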