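import Cfsg.Statements.S3515
import Cfsg.Agent.H79.ThreeClosure

set_option autoImplicit false
open Cfsg

namespace Cfsg.Agent.S3515

/-- Every primitive affine permutation group of degree p² is 3-closed. Let p be a prime and G a group of permutations of the plane V = F_p² consisting of affine maps x ↦ Ax + b, containing all translations, and acting primitively on V. Then any permutation σ of V that agrees on every triple of points with some element of G (σ preserves every G-orbit on ordered triples) already lies in G. -/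
theorem result (p : ℕ) [Fact p.Prime] (G : Subgroup (Equiv.Perm (Fin 2 → ZMod p)))
    (haff : (G : Set (Equiv.Perm (Fin 2 → ZMod p))) ⊆ {τ : Equiv.Perm (Fin 2 → ZMod p) | ∃ (A : (Fin 2 → ZMod p) ≃ₗ[ZMod p] (Fin 2 → ZMod p)) (b : Fin 2 → ZMod p), ∀ x, τ x = A x + b})
    (htrans : ∀ b : Fin 2 → ZMod p, ∃ g ∈ G, ∀ x, g x = x + b) (hprim : MulAction.IsPreprimitive G (Fin 2 → ZMod p))
    (σ : Equiv.Perm (Fin 2 → ZMod p)) (hσ : (∀ t : Fin 3 → (Fin 2 → ZMod p), ∃ g ∈ G, ∀ i, σ (t i) = g (t i))) : σ ∈ G := by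
  obtain ⟨g, hgG, hg⟩ := hσ ![0, ![1, 0], ![0, 1]]
  suffices h : g⁻¹ * σ = 1 by
    rw [inv_mul_eq_one] at h
    exact h ▸ hgG
  have hagree : ∀ t : Fin 3 → (Fin 2 → ZMod p), ∃ k : Equiv.Perm (Fin 2 → ZMod p),
      Cfsg.Agent.H79.IsAffPerm p k ∧ ∀ i, (g⁻¹ * σ) (t i) = k (t i) := by
    intro t
    obtain ⟨k, hk, hkt⟩ := hσ t
    exact ⟨g⁻¹ * k, haff (mul_mem (inv_mem hgG) hk), fun i => by
      rw [Equiv.Perm.mul_apply, Equiv.Perm.mul_apply, hkt]⟩
  have hfix : ∀ x, σ x = g x → (g⁻¹ * σ) x = x := fun x hx => by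
    rw [Equiv.Perm.mul_apply, hx]; exact g.symm_apply_apply x
  exact Cfsg.Agent.H79.perm_eq_one_of_lines
    (Cfsg.Agent.H79.triple_agree_line (p := p) hagree)
    (hfix _ (hg 0)) (hfix _ (hg 1)) (hfix _ (hg 2))

end Cfsg.Agent.S3515
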