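import Cfsg.Statements.S3516
import Cfsg.Agent.H79.ThreeClosure

set_option autoImplicit false
open Cfsg

namespace Cfsg.Agent.S3516

/-- Let p be an odd prime, d ≥ 3, and G a group of affine permutations x ↦ Ax + b of V = F_p^d containing all translations and all maps x ↦ Ax with A of determinant 1. Then the 3-closure of G is the full affine group: a permutation σ of V agrees on every triple of points with some element of G if and only if σ is an affine map. -/
theorem result (p : ℕ) [Fact p.Prime] (hp : p ≠ 2) (d : ℕ) (hd : 3 ≤ d) (G : Subgroup (Equiv.Perm (Fin d → ZMod p)))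
    (haff : (G : Set (Equiv.Perm (Fin d → ZMod p))) ⊆ {τ : Equiv.Perm (Fin d → ZMod p) | ∃ (A : (Fin d → ZMod p) ≃ₗ[ZMod p] (Fin d → ZMod p)) (b : Fin d → ZMod p), ∀ x, τ x = A x + b})
    (htrans : ∀ b : Fin d → ZMod p, ∃ g ∈ G, ∀ x, g x = x + b)
    (hsl : ∀ A : (Fin d → ZMod p) ≃ₗ[ZMod p] (Fin d → ZMod p), LinearMap.det (A : (Fin d → ZMod p) →ₗ[ZMod p] (Fin d → ZMod p)) = 1 → ∃ g ∈ G, ∀ x, g x = A x)
    (σ : Equiv.Perm (Fin d → ZMod p)) :
    (∀ t : Fin 3 → (Fin d → ZMod p), ∃ g ∈ G, ∀ i, σ (t i) = g (t i)) ↔ σ ∈ {τ : Equiv.Perm (Fin d → ZMod p) | ∃ (A : (Fin d → ZMod p) ≃ₗ[ZMod p] (Fin d → ZMod p)) (b : Fin d → ZMod p), ∀ x, τ x = A x + b} := by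
  constructor
  · intro h
    exact Cfsg.Agent.H79.isAffPerm_of_triple_agree (p := p) hp fun t => by
      obtain ⟨g, hg, hgt⟩ := h t
      exact ⟨g, haff hg, hgt⟩
  · rintro ⟨A, b, hA⟩ t
    let W : Submodule (ZMod p) (Fin d → ZMod p) := Submodule.span (ZMod p) {t 1 - t 0, t 2 - t 0}
    have hW : W ≠ ⊤ := by
      intro hW
      have h1 : Module.finrank (ZMod p) W ≤ 2 := by
        classical
        have h := finrank_span_finset_le_card (R := ZMod p)
          ({t 1 - t 0, t 2 - t 0} : Finset (Fin d → ZMod p))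
        simp only [Finset.coe_insert, Finset.coe_singleton] at h
        exact le_trans h Finset.card_le_two
      rw [hW, finrank_top, Module.finrank_fin_fun] at h1
      omega
    obtain ⟨B, hB, hBW⟩ := Cfsg.Agent.H79.exists_det_one_agree A W hW
    obtain ⟨g₁, hg₁, hg₁'⟩ := hsl B hB
    obtain ⟨g₂, hg₂, hg₂'⟩ := htrans (σ (t 0) - B (t 0))
    refine ⟨g₂ * g₁, mul_mem hg₂ hg₁, fun i => ?_⟩
    have key : B (t i - t 0) = A (t i - t 0) := by
      fin_cases i
      · simp
      · exact hBW _ (Submodule.subset_span (Set.mem_insert _ _))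
      · exact hBW _ (Submodule.subset_span (Set.mem_insert_of_mem _ rfl))
    rw [Equiv.Perm.mul_apply, hg₂', hg₁', hA, hA]
    rw [map_sub, map_sub] at key
    rw [← sub_eq_zero]
    linear_combination (norm := module) -key

end Cfsg.Agent.S3516
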