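import Cfsg.Statements.S3517
-- import your own Cfsg.Agent.* helpers here

set_option autoImplicit false
open Cfsg

namespace Cfsg.Agent.S3517

/-- The set of all vectors of a linearly independent pair over `ZMod 2`. -/
theorem exists_linearEquiv_span {V : Type*} [AddCommGroup V] [Module (ZMod 2) V]
    [FiniteDimensional (ZMod 2) V] {n : ℕ} {v w : Fin n → V}
    (hv : LinearIndependent (ZMod 2) v) (hw : LinearIndependent (ZMod 2) w) :
    ∃ A : V ≃ₗ[ZMod 2] V, ∀ i, A (v i) = w i := by
  let bv := Module.Basis.span hv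
  let bw := Module.Basis.span hw
  obtain ⟨g, hg⟩ := Submodule.exists_linearEquiv_restrict_eq (bv.equiv bw (Equiv.refl _))
  refine ⟨g, fun i => ?_⟩
  have h := hg (bv i)
  rw [Module.Basis.equiv_apply] at h
  simpa [bv, bw, Module.Basis.span_apply] using h.symm

/-- Two pairs of vectors over `ZMod 2` with the same coincidences are related by an automorphism. -/
theorem exists_linearEquiv_two {V : Type*} [AddCommGroup V] [Module (ZMod 2) V]
    [FiniteDimensional (ZMod 2) V] (u v u' v' : V)
    (hu : u = 0 ↔ u' = 0) (hv : v = 0 ↔ v' = 0) (huv : u = v ↔ u' = v') :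
    ∃ A : V ≃ₗ[ZMod 2] V, A u = u' ∧ A v = v' := by
  have one : ∀ x y : V, x ≠ 0 → y ≠ 0 → ∃ A : V ≃ₗ[ZMod 2] V, A x = y := by
    intro x y hx hy
    obtain ⟨A, hA⟩ := exists_linearEquiv_span (n := 1) (v := ![x]) (w := ![y])
      (LinearIndependent.of_subsingleton 0 (by simpa using hx))
      (LinearIndependent.of_subsingleton 0 (by simpa using hy))
    exact ⟨A, by simpa using hA 0⟩
  have indep : ∀ x y : V, x ≠ 0 → y ≠ 0 → x ≠ y → LinearIndependent (ZMod 2) ![x, y] := by
    intro x y hx hy hxy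
    rw [LinearIndependent.pair_iff]
    intro s r h
    have cases2 : ∀ a : ZMod 2, a = 0 ∨ a = 1 := by decide
    rcases cases2 s with rfl | rfl <;> rcases cases2 r with rfl | rfl <;> simp_all
    exact hxy (by
      have hy2 : y + y = 0 := ZModModule.add_self y
      calc x = x + (y + y) := by rw [hy2, add_zero]
        _ = (x + y) + y := by abel
        _ = y := by rw [h, zero_add])
  by_cases h0 : u = 0
  · have h0' := hu.1 h0
    by_cases h1 : v = 0
    · exact ⟨LinearEquiv.refl _ _, by simp [h0, h0'], by simp [h1, hv.1 h1]⟩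
    · obtain ⟨A, hA⟩ := one v v' h1 (fun h => h1 (hv.2 h))
      exact ⟨A, by simp [h0, h0'], hA⟩
  · have h0' : u' ≠ 0 := fun h => h0 (hu.2 h)
    by_cases h1 : v = 0
    · obtain ⟨A, hA⟩ := one u u' h0 h0'
      exact ⟨A, hA, by simp [h1, hv.1 h1]⟩
    · have h1' : v' ≠ 0 := fun h => h1 (hv.2 h)
      by_cases h2 : u = v
      · obtain ⟨A, hA⟩ := one u u' h0 h0'
        exact ⟨A, hA, by rw [← h2, hA, huv.1 h2]⟩
      · obtain ⟨A, hA⟩ := exists_linearEquiv_span (indep u v h0 h1 h2)
          (indep u' v' h0' h1' (fun h => h2 (huv.2 h)))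
        exact ⟨A, by simpa using hA 0, by simpa using hA 1⟩

/-- For d ≥ 3, the 3-closure of the affine group AGL_d(2) acting on F_2^d is the full symmetric group: every permutation of F_2^d agrees on every ordered triple of points with some affine map (AGL_d(2) is 3-transitive). -/
theorem result (d : ℕ) (hd : 3 ≤ d) (σ : Equiv.Perm (Fin d → ZMod 2)) (t : Fin 3 → (Fin d → ZMod 2)) :
    ∃ (A : (Fin d → ZMod 2) ≃ₗ[ZMod 2] (Fin d → ZMod 2)) (b : Fin d → ZMod 2), ∀ i, σ (t i) = A (t i) + b := by
  classical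
  obtain ⟨A, h1, h2⟩ := exists_linearEquiv_two (t 1 - t 0) (t 2 - t 0) (σ (t 1) - σ (t 0)) (σ (t 2) - σ (t 0))
    (by simp [sub_eq_zero]) (by simp [sub_eq_zero]) (by simp [sub_left_inj])
  refine ⟨A, σ (t 0) - A (t 0), fun i => ?_⟩
  fin_cases i
  · simp
  · simp only [Fin.mk_one]
    rw [map_sub, sub_eq_sub_iff_add_eq_add] at h1
    linear_combination (norm := module) -h1
  · simp only [Fin.reduceFinMk]
    rw [map_sub, sub_eq_sub_iff_add_eq_add] at h2
    linear_combination (norm := module) -h2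

end Cfsg.Agent.S3517
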