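import Cfsg.Statements.S3518
-- import your own Cfsg.Agent.* helpers here

set_option autoImplicit false
open Cfsg

namespace Cfsg.Agent.S3518

/-- Power sums over `ZMod p` of the monomials below the top degree vanish. -/
theorem sum_pow_eq_zero {p : ℕ} [Fact p.Prime] {i : ℕ} (h : i < p - 1) :
    ∑ x : ZMod p, x ^ i = 0 := by
  exact FiniteField.sum_pow_lt_card_sub_one (K := ZMod p) i (by rwa [ZMod.card])

open Polynomial in
/-- A function on `ZMod p` whose slopes lie in a proper multiplicatively closed set of non-zero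
residues is affine. -/
theorem exists_affine_of_slopes {p : ℕ} [Fact p.Prime] (f : ZMod p → ZMod p) (H : Set (ZMod p))
    (hmul : ∀ a ∈ H, ∀ b ∈ H, a * b ∈ H) (h0 : ∀ a ∈ H, a ≠ 0)
    (hslope : ∀ x y, ∃ a ∈ H, f x - f y = a * (x - y)) (hne : ∃ c, c ≠ 0 ∧ c ∉ H) :
    ∃ a b, ∀ x, f x = a * x + b := by
  classical
  have hp := (Fact.out : p.Prime)
  -- many non-slopes
  let C : Finset (ZMod p) := Finset.univ.filter fun c => c ∉ H
  have hC : p + 1 ≤ 2 * C.card := by
    obtain ⟨c, hc0, hc⟩ := hne
    let A : Finset (ZMod p) := Finset.univ.filter fun a => a ∈ H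
    have h1 : (A.image (fun a => c * a)) ⊆ C.erase 0 := by
      intro z hz
      obtain ⟨a, ha, rfl⟩ := Finset.mem_image.1 hz
      have haH := (Finset.mem_filter.1 ha).2
      refine Finset.mem_erase.2 ⟨mul_ne_zero hc0 (h0 a haH), Finset.mem_filter.2 ⟨Finset.mem_univ _, ?_⟩⟩
      intro hca
      have hpow : ∀ n, a ^ (n + 1) ∈ H := fun n => by
        induction n with
        | zero => simpa using haH
        | succ n ih => rw [pow_succ]; exact hmul _ ih _ haH
      refine hc ?_
      rcases Nat.lt_or_ge (p - 1) 2 with h2 | h2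
      · exfalso
        have hp2 : p = 2 := by have := hp.two_le; omega
        subst hp2
        have he : ∀ z : ZMod 2, z ≠ 0 → z = 1 := by
          intro z hz
          fin_cases z
          · exact absurd rfl hz
          · rfl
        rw [he c hc0] at hc
        exact hc (he a (h0 a haH) ▸ haH)
      · have h3 := hmul _ hca _ (hpow (p - 3))
        rwa [show p - 3 + 1 = p - 2 by omega, mul_assoc, ← pow_succ', show p - 2 + 1 = p - 1 by omega,
          ZMod.pow_card_sub_one_eq_one (h0 a haH), mul_one] at h3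
    have h2 := Finset.card_le_card h1
    rw [Finset.card_image_of_injective _ (mul_right_injective₀ hc0)] at h2
    have h3 : (0 : ZMod p) ∈ C := Finset.mem_filter.2 ⟨Finset.mem_univ _, fun h => h0 0 h rfl⟩
    rw [Finset.card_erase_of_mem h3] at h2
    have h4 : A.card + C.card = p := by
      simp only [A, C]
      rw [Finset.card_filter_add_card_filter_not, Finset.card_univ, ZMod.card]
    have h5 : 0 < C.card := Finset.card_pos.2 ⟨0, h3⟩
    omega
  -- mixed power sums vanish
  have hmixed : ∀ i j, i + j < C.card → i + j < p - 1 → ∑ x, x ^ i * f x ^ j = 0 := by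
    intro i j hlt hlt'
    let P : (ZMod p)[X] := ∑ x, (Polynomial.C (f x) - Polynomial.X * Polynomial.C x) ^ (i + j)
    have hdeg : P.natDegree ≤ i + j := by
      refine Polynomial.natDegree_sum_le_of_forall_le _ _ fun x _ => ?_
      refine Polynomial.natDegree_pow_le.trans ?_
      have h1 : (Polynomial.C (f x) - Polynomial.X * Polynomial.C x).natDegree ≤ 1 := by
        compute_degree
      exact (Nat.mul_le_mul_left _ h1).trans (by omega)
    have heval : ∀ c ∈ C, P.eval c = 0 := by
      intro c hc
      have hbij : Function.Bijective fun x => f x - c * x := by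
        refine Finite.injective_iff_bijective.1 fun x y hxy => ?_
        by_contra hne'
        obtain ⟨a, ha, hfa⟩ := hslope x y
        have hxy' : f x - c * x = f y - c * y := hxy
        have : (a - c) * (x - y) = 0 := by linear_combination hxy' - hfa
        rcases mul_eq_zero.1 this with h | h
        · exact (Finset.mem_filter.1 hc).2 (sub_eq_zero.1 h ▸ ha)
        · exact hne' (sub_eq_zero.1 h)
      simp only [P, Polynomial.eval_finsetSum, Polynomial.eval_pow, Polynomial.eval_sub,
        Polynomial.eval_C, Polynomial.eval_mul, Polynomial.eval_X]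
      exact (Equiv.sum_comp (Equiv.ofBijective _ hbij) (fun z => z ^ (i + j))).trans
        (sum_pow_eq_zero hlt')
    have hP : P = 0 :=
      Polynomial.eq_zero_of_natDegree_lt_card_of_eval_eq_zero' P C heval (lt_of_le_of_lt hdeg hlt)
    have hcoef : P.coeff i = ((i + j).choose i : ZMod p) * (-1) ^ i * ∑ x, x ^ i * f x ^ j := by
      simp only [P, Polynomial.finsetSum_coeff, Finset.mul_sum]
      refine Finset.sum_congr rfl fun x _ => ?_
      rw [sub_eq_add_neg, add_comm (Polynomial.C (f x)),
        show -(Polynomial.X * Polynomial.C x) = Polynomial.C (-x) * Polynomial.X by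
          rw [map_neg]; ring,
        add_pow, Polynomial.finsetSum_coeff, Finset.sum_eq_single_of_mem i
          (Finset.mem_range.2 (by omega))]
      · rw [mul_pow, ← map_pow, ← map_pow, Nat.add_sub_cancel_left,
          show Polynomial.C ((-x) ^ i) * Polynomial.X ^ i * Polynomial.C (f x ^ j) *
            ((i + j).choose i : (ZMod p)[X]) =
            Polynomial.C ((-x) ^ i * f x ^ j * ((i + j).choose i : ZMod p)) * Polynomial.X ^ i by
          simp only [map_mul, map_natCast]; ring,
          Polynomial.coeff_C_mul_X_pow, if_pos rfl, neg_pow]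
        ring
      · intro l _ hl
        rw [mul_pow, ← map_pow, ← map_pow,
          show Polynomial.C ((-x) ^ l) * Polynomial.X ^ l * Polynomial.C (f x ^ (i + j - l)) *
            ((i + j).choose l : (ZMod p)[X]) =
            Polynomial.C ((-x) ^ l * f x ^ (i + j - l) * ((i + j).choose l : ZMod p)) *
              Polynomial.X ^ l by
          simp only [map_mul, map_natCast]; ring,
          Polynomial.coeff_C_mul_X_pow, if_neg (Ne.symm hl)]
    rw [hP, Polynomial.coeff_zero] at hcoef
    have hch : ((i + j).choose i : ZMod p) ≠ 0 := by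
      rw [Ne, ZMod.natCast_eq_zero_iff]
      intro hd
      have h1 : p ∣ (i + j).factorial := by
        rw [← Nat.choose_mul_factorial_mul_factorial (Nat.le_add_right i j), mul_assoc]
        exact dvd_mul_of_dvd_left hd _
      rw [hp.dvd_factorial] at h1
      omega
    exact (mul_eq_zero.1 hcoef.symm).resolve_left (mul_ne_zero hch (pow_ne_zero _ (by simp)))
  -- the interpolation polynomial
  let Q := Lagrange.interpolate (Finset.univ : Finset (ZMod p)) id f
  have hQ : ∀ x, Q.eval x = f x := fun x =>
    Lagrange.eval_interpolate_at_node f (Set.injOn_id _) (Finset.mem_univ x)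
  have hQd : Q.natDegree < p := by
    rcases eq_or_ne Q 0 with h | h
    · rw [h]; simpa using hp.pos
    · have h1 : Q.degree < ((Finset.univ : Finset (ZMod p)).card : ℕ) :=
        Lagrange.degree_interpolate_lt f Function.injective_id.injOn
      rw [Polynomial.degree_eq_natDegree h, Finset.card_univ, ZMod.card] at h1
      exact_mod_cast h1
  rcases Nat.lt_or_ge Q.natDegree 2 with he | he
  · refine ⟨Q.coeff 1, Q.coeff 0, fun x => ?_⟩
    rw [← hQ, Polynomial.eval_eq_sum_range' he]
    simp [Finset.sum_range_succ, add_comm]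
  exfalso
  -- a power sum of degree exactly `p - 1`
  have htop : ∀ a b, Q.natDegree * a + b = p - 1 → ∑ x, x ^ b * f x ^ a ≠ 0 := by
    intro a b hab
    let R := Polynomial.X ^ b * Q ^ a
    have hlead : R.natDegree = p - 1 ∧ R.coeff (p - 1) ≠ 0 := by
      have hQ0 : Q ≠ 0 := fun h => by rw [h] at he; simp at he
      have hR : R ≠ 0 := mul_ne_zero (pow_ne_zero _ Polynomial.X_ne_zero) (pow_ne_zero _ hQ0)
      have hd : R.natDegree = p - 1 := by
        simp only [R]
        rw [Polynomial.natDegree_mul (pow_ne_zero _ Polynomial.X_ne_zero) (pow_ne_zero _ hQ0),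
          Polynomial.natDegree_pow, Polynomial.natDegree_pow, Polynomial.natDegree_X]
        linarith [mul_comm a Q.natDegree]
      exact ⟨hd, hd ▸ Polynomial.leadingCoeff_ne_zero.2 hR⟩
    have hsum : ∑ x, x ^ b * f x ^ a = -R.coeff (p - 1) := by
      calc ∑ x, x ^ b * f x ^ a = ∑ x, R.eval x := by simp [R, hQ]
        _ = ∑ x, ∑ k ∈ Finset.range (p - 1 + 1), R.coeff k * x ^ k := by
            refine Finset.sum_congr rfl fun x _ => ?_
            rw [Polynomial.eval_eq_sum_range' (Nat.lt_succ_of_le hlead.1.le)]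
        _ = ∑ k ∈ Finset.range (p - 1 + 1), R.coeff k * ∑ x : ZMod p, x ^ k := by
            rw [Finset.sum_comm]; simp [Finset.mul_sum]
        _ = -R.coeff (p - 1) := by
            rw [Finset.sum_range_succ, Finset.sum_eq_zero fun k hk => by
              rw [sum_pow_eq_zero (Finset.mem_range.1 hk), mul_zero], zero_add]
            have : ∑ x : ZMod p, x ^ (p - 1) = -1 := by
              rw [← Finset.sum_erase_add _ _ (Finset.mem_univ (0 : ZMod p)),
                zero_pow (by have := hp.two_le; omega), add_zero,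
                Finset.sum_congr rfl (fun x hx => ZMod.pow_card_sub_one_eq_one (Finset.mem_erase.1 hx).1),
                Finset.sum_const, Finset.card_erase_of_mem (Finset.mem_univ _), Finset.card_univ,
                ZMod.card, nsmul_one, Nat.cast_sub hp.one_lt.le, ZMod.natCast_self, Nat.cast_one,
                zero_sub]
            rw [this, mul_neg_one]
    rw [hsum, neg_ne_zero]
    exact hlead.2
  set e := Q.natDegree
  rcases Nat.lt_or_ge (2 * e) p with hsmall | hbig
  · have hdm := Nat.div_add_mod (p - 1) e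
    have hmod : (p - 1) % e < e := Nat.mod_lt _ (by omega)
    have ha2 : 2 ≤ (p - 1) / e := by
      rw [Nat.le_div_iff_mul_le (by omega)]; omega
    have hle : 2 * ((p - 1) % e + (p - 1) / e) ≤ p - 1 := by
      rcases Nat.lt_or_ge e 3 with h | h
      · have : e = 2 := by omega
        rw [this] at hdm hmod ⊢
        have hpo : p % 2 = 1 := hp.eq_two_or_odd.resolve_left (by omega)
        omega
      · nlinarith
    exact htop _ _ hdm (hmixed _ _ (by omega) (by omega))
  · exact htop 1 (p - 1 - e) (by omega) (hmixed _ _ (by omega) (by have := hp.two_le; omega))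

/-- Closures of subgroups of the one-dimensional affine group. Let p be a prime and G a group of permutations of F_p lying in the affine group AGL₁(p) = {x ↦ ax + b, a ≠ 0} and containing all translations. (1) If G is a proper subgroup of AGL₁(p), then G is 2-closed: a permutation of F_p agreeing on every ordered pair of points with some element of G lies in G. (2) Every permutation of F_p agrees on every ordered pair with some element of AGL₁(p) (the 2-closure of AGL₁(p) is the symmetric group). (3) AGL₁(p) is 3-closed: a permutation agreeing on every ordered triple with some affine map is affine. -/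
theorem result (p : ℕ) [Fact p.Prime] (G : Subgroup (Equiv.Perm (ZMod p))) (hG : G ≤ Cfsg.affineGroup (ZMod p))
    (htrans : ∀ b : ZMod p, ∃ g ∈ G, ∀ x, g x = x + b) :
    (G ≠ Cfsg.affineGroup (ZMod p) → ∀ σ : Equiv.Perm (ZMod p), (∀ t : Fin 2 → ZMod p, ∃ g ∈ G, ∀ i, σ (t i) = g (t i)) → σ ∈ G) ∧
    (∀ σ : Equiv.Perm (ZMod p), (∀ t : Fin 2 → ZMod p, ∃ g ∈ Cfsg.affineGroup (ZMod p), ∀ i, σ (t i) = g (t i))) ∧
    (∀ σ : Equiv.Perm (ZMod p), (∀ t : Fin 3 → ZMod p, ∃ g ∈ Cfsg.affineGroup (ZMod p), ∀ i, σ (t i) = g (t i)) → σ ∈ Cfsg.affineGroup (ZMod p)) := by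
  classical
  have hp := (Fact.out : p.Prime)
  refine ⟨?_, ?_, ?_⟩
  · intro hne σ hσ
    -- translations and the multipliers
    let H : Set (ZMod p) := {a | ∃ g ∈ G, ∀ x, g x = a * x}
    obtain ⟨t₀, ht₀, ht₀'⟩ := htrans (σ 0)
    obtain ⟨f, hf⟩ : ∃ f : Equiv.Perm (ZMod p), f = t₀⁻¹ * σ := ⟨_, rfl⟩
    have hlin : ∀ g ∈ G, ∃ a ∈ H, ∀ x, g x = a * x + g 0 := by
      intro g hg
      obtain ⟨a, b, hab⟩ := hG hg
      have hb : g 0 = b := by rw [hab]; simp
      obtain ⟨t, ht, ht'⟩ := htrans (-b)
      refine ⟨a, ⟨t * g, G.mul_mem ht hg, fun x => ?_⟩, fun x => by rw [hab, hb]⟩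
      rw [Equiv.Perm.mul_apply, ht', hab]; ring
    have hmul : ∀ a ∈ H, ∃ g ∈ G, ∀ x, g x = a * x := fun a ha => ha
    have hH0 : ∀ a ∈ H, a ≠ 0 := by
      rintro a ⟨g, -, hg⟩ rfl
      exact one_ne_zero (g.injective (by rw [hg, hg]; simp) : (1 : ZMod p) = 0)
    have hHne : ∃ c, c ≠ 0 ∧ c ∉ H := by
      by_contra hall
      push Not at hall
      refine hne (le_antisymm hG ?_)
      rintro g ⟨a, b, hab⟩
      obtain ⟨g₁, hg₁, hg₁'⟩ := hall a a.ne_zero
      obtain ⟨t, ht, ht'⟩ := htrans b
      have : g = t * g₁ := Equiv.ext fun x => by rw [Equiv.Perm.mul_apply, ht', hg₁', hab]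
      rw [this]; exact G.mul_mem ht hg₁
    have hslope : ∀ x y, ∃ a ∈ H, f x - f y = a * (x - y) := by
      intro x y
      obtain ⟨g, hg, hgt⟩ := hσ ![x, y]
      obtain ⟨a, ha, hga⟩ := hlin _ (G.mul_mem (G.inv_mem ht₀) hg)
      refine ⟨a, ha, ?_⟩
      have h0 : f x = (t₀⁻¹ * g) x := by
        have := hgt 0; simp only [Matrix.cons_val_zero] at this
        rw [hf, Equiv.Perm.mul_apply, this, Equiv.Perm.mul_apply]
      have h1 : f y = (t₀⁻¹ * g) y := by
        have := hgt 1; simp only [Matrix.cons_val_one, Matrix.cons_val_fin_one] at this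
        rw [hf, Equiv.Perm.mul_apply, this, Equiv.Perm.mul_apply]
      rw [h0, h1, hga x, hga y]; ring
    have hf0 : f 0 = 0 := by
      rw [hf, Equiv.Perm.mul_apply, Equiv.Perm.inv_def, Equiv.symm_apply_eq, ht₀', zero_add]
    obtain ⟨a, ha, hfa⟩ : ∃ a ∈ H, ∀ x, f x = a * x := by
      obtain ⟨a, b, hab⟩ := exists_affine_of_slopes (⇑f) H (fun a ha b hb => by
        obtain ⟨g, hg, hg'⟩ := hmul a ha
        obtain ⟨k, hk, hk'⟩ := hmul b hb
        exact ⟨g * k, G.mul_mem hg hk, fun x => by rw [Equiv.Perm.mul_apply, hk', hg', mul_assoc]⟩)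
        hH0 hslope hHne
      · obtain ⟨a', ha', h'⟩ := hslope 1 0
        have hb : b = 0 := by rw [← hf0, hab]; simp
        refine ⟨a', ha', fun x => ?_⟩
        rw [hab, hab] at h'
        have : a = a' := by simpa [hb] using h'
        rw [hab, hb, this]; simp
    obtain ⟨g, hg, hga⟩ := hmul a ha
    have : σ = t₀ * g := by
      rw [← mul_inv_cancel_left t₀ σ, ← hf]
      exact congrArg (t₀ * ·) (Equiv.ext fun x => (hfa x).trans (hga x).symm)
    rw [this]; exact G.mul_mem ht₀ hg
  · intro σ t
    by_cases h : t 0 = t 1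
    · refine ⟨Equiv.addRight (σ (t 0) - t 0), ⟨1, σ (t 0) - t 0, fun x => by simp⟩, fun i => ?_⟩
      fin_cases i <;> simp [h]
    · have ha : (σ (t 1) - σ (t 0)) / (t 1 - t 0) ≠ 0 := by
        simp [sub_eq_zero, Ne.symm h]
      set a := (σ (t 1) - σ (t 0)) / (t 1 - t 0) with hadef
      refine ⟨(Equiv.mulLeft₀ a ha).trans (Equiv.addRight (σ (t 0) - a * t 0)),
        ⟨Units.mk0 a ha, σ (t 0) - a * t 0, fun x => rfl⟩, fun i => ?_⟩
      fin_cases i
      · simp
      · have : a * (t 1 - t 0) = σ (t 1) - σ (t 0) :=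
          div_mul_cancel₀ _ (sub_ne_zero.2 (Ne.symm h))
        show σ (t 1) = a * t 1 + (σ (t 0) - a * t 0)
        linear_combination -this
  · intro σ hσ
    have h01 : σ 1 - σ 0 ≠ 0 := sub_ne_zero.2 (fun h => one_ne_zero (σ.injective h))
    refine ⟨Units.mk0 _ h01, σ 0, fun x => ?_⟩
    obtain ⟨g, ⟨a, b, hab⟩, hg⟩ := hσ ![0, 1, x]
    have e0 := hg 0
    have e1 := hg 1
    have e2 := hg 2
    simp [hab] at e0 e1 e2
    rw [Units.val_mk0, e0, e1, e2]; ring

end Cfsg.Agent.S3518
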