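import Cfsg.Statements.S3521
import Cfsg.Agent.H80.ExtPrim.Main

set_option autoImplicit false
open Cfsg

namespace Cfsg.Agent.S3521

open MulAction
/-- Let a finite group G that is not solvable act faithfully and primitively on a finite set with p ^ d points (p prime), with a non-trivial abelian normal subgroup acting regularly (affine type) and with non-trivial point stabilizers each acting primitively on every one of its orbits (an insoluble extremely primitive group of affine type). Then p = 2; and if moreover G is not 2-transitive, then a point stabilizer is almost simple (it has a non-abelian simple normal subgroup with trivial centralizer). -/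
theorem result {G : Type*} [Group G] [Finite G] {Ω : Type*} [Fintype Ω] [MulAction G Ω] [FaithfulSMul G Ω] (p d : ℕ) (hp : p.Prime) (hcard : Fintype.card Ω = p ^ d) (hsol : ¬ Group.IsSolvable G)
    (N : Subgroup G) [N.Normal] (hN : N ≠ ⊥) (hNc : IsMulCommutative N) (hNreg : ∀ ω : Ω, MulAction.stabilizer N ω = ⊥)
    (hprim : MulAction.IsPreprimitive G Ω) (hH : ∀ α : Ω, MulAction.stabilizer G α ≠ ⊥) (hep : ∀ (α : Ω) (ω : Ω), MulAction.IsPreprimitive (MulAction.stabilizer G α) (MulAction.orbit (MulAction.stabilizer G α) ω)) (α : Ω) :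
    p = 2 ∧ (¬ MulAction.IsMultiplyPretransitive G Ω 2 → ∃ T : Subgroup (MulAction.stabilizer G α), T.Normal ∧ IsSimpleGroup T ∧ ¬ IsMulCommutative T ∧ Subgroup.centralizer (T : Set (MulAction.stabilizer G α)) = ⊥) := by
  have hNc' : ∀ x y : N, x * y = y * x := fun x y => hNc.is_comm.comm x y
  letI : CommGroup N := { (inferInstance : Group N) with mul_comm := hNc' }
  haveI : Finite N := inferInstance
  letI : MulDistribMulAction (stabilizer G α) N := MulDistribMulAction.compHom N
    ((MulAut.conjNormal (H := N)).comp (stabilizer G α).subtype)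
  have hsmul : ∀ (h : stabilizer G α) (n : N), ((h • n : N) : G) = (h : G) * n * (h : G)⁻¹ :=
    fun h n => MulAut.conjNormal_apply (H := N) (h : G) n
  have hfix1 : ∀ {x : G}, x ∈ N → x • α = α → x = 1 := fun {x} hx hxa => by
    have h1 : (⟨x, hx⟩ : N) ∈ stabilizer N α := hxa
    rw [hNreg α, Subgroup.mem_bot] at h1
    exact congrArg Subtype.val h1
  have : IsPretransitive G Ω := hprim.toIsPretransitive
  have hNtr : IsPretransitive N Ω := by
    have : IsQuasiPreprimitive G Ω := inferInstance
    refine IsQuasiPreprimitive.isPretransitive_of_normal (G := G) (N := N) fun h => hN ?_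
    rw [Subgroup.eq_bot_iff_forall]
    intro x hx
    exact hfix1 hx ((Set.eq_univ_iff_forall.1 h α) ⟨x, hx⟩)
  have key : ∀ (h : stabilizer G α) (n : N),
      (h : G) • (n : G) • α = ((h • n : N) : G) • α := by
    intro h n
    have hα : (h : G)⁻¹ • α = α := inv_smul_eq_iff.2 (mem_stabilizer_iff.1 h.2).symm
    rw [hsmul, mul_smul, mul_smul, hα]
  have hinj : ∀ n m : N, (n : G) • α = (m : G) • α → n = m := by
    intro n m e
    have h1 := hfix1 (x := (n : G)⁻¹ * m) (N.mul_mem (N.inv_mem n.2) m.2)
      (by rw [mul_smul, ← e, inv_smul_smul])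
    exact Subtype.ext (inv_mul_eq_one.1 h1)
  have hfaith : FaithfulSMul (stabilizer G α) N := by
    refine ⟨fun {g h} hgh => Subtype.ext (eq_of_smul_eq_smul fun ω : Ω => ?_)⟩
    obtain ⟨n, rfl⟩ := exists_smul_eq N α ω
    change (g : G) • (n : G) • α = (h : G) • (n : G) • α
    rw [key, key, hgh n]
  have hnsol : ¬ Group.IsSolvable (stabilizer G α) := by
    intro hs
    refine hsol ((Group.isSolvable_iff_subgroup_quotient (H := N)).2
      ⟨isSolvable_of_comm hNc', ?_⟩)
    have hsurj : Function.Surjective ((QuotientGroup.mk' N).comp (stabilizer G α).subtype) := by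
      intro q
      obtain ⟨g, rfl⟩ := QuotientGroup.mk'_surjective N q
      obtain ⟨n, hn⟩ := exists_smul_eq N α (g • α)
      have hn' : (n : G) • α = g • α := hn
      refine ⟨⟨(n : G)⁻¹ * g, by rw [mem_stabilizer_iff, mul_smul, ← hn', inv_smul_smul]⟩, ?_⟩
      rw [MonoidHom.comp_apply, Subgroup.subtype_apply, map_mul, map_inv,
        show QuotientGroup.mk' N (n : G) = 1 from (QuotientGroup.eq_one_iff _).2 n.2]
      simp
    exact Group.isSolvable_of_surjective hsurj
  -- a nonidentity element of `N` is moved by the stabiliser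
  have hirr : ∀ W : Subgroup N, (∀ h : stabilizer G α, ∀ w ∈ W, h • w ∈ W) → W = ⊥ ∨ W = ⊤ := by
    intro W hW
    have hWn : (W.map N.subtype).Normal := by
      refine ⟨fun x hx g => ?_⟩
      obtain ⟨w, hw, rfl⟩ := hx
      obtain ⟨n, hn⟩ := exists_smul_eq N α (g • α)
      have hn' : (n : G) • α = g • α := hn
      let h : stabilizer G α :=
        ⟨(n : G)⁻¹ * g, by rw [mem_stabilizer_iff, mul_smul, ← hn', inv_smul_smul]⟩
      refine ⟨h • w, hW h w hw, ?_⟩
      rw [Subgroup.subtype_apply, Subgroup.subtype_apply, hsmul]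
      change (n : G)⁻¹ * g * w * ((n : G)⁻¹ * g)⁻¹ = g * w * g⁻¹
      have hc := hNc' n⁻¹ ⟨g * w * g⁻¹, ‹N.Normal›.conj_mem _ w.2 g⟩
      have hc' : (n : G)⁻¹ * (g * w * g⁻¹) = g * w * g⁻¹ * (n : G)⁻¹ := congrArg Subtype.val hc
      calc (n : G)⁻¹ * g * w * ((n : G)⁻¹ * g)⁻¹ = (n : G)⁻¹ * (g * w * g⁻¹) * n := by group
        _ = g * w * g⁻¹ := by rw [hc']; group
    by_cases hb : W = ⊥
    · exact Or.inl hb
    right
    have : IsQuasiPreprimitive G Ω := inferInstance
    have hWtr : IsPretransitive (W.map N.subtype) Ω := by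
      refine IsQuasiPreprimitive.isPretransitive_of_normal (G := G) fun h => hb ?_
      rw [Subgroup.eq_bot_iff_forall]
      intro w hw
      exact Subtype.ext (hfix1 w.2
        ((Set.eq_univ_iff_forall.1 h α) ⟨w, Subgroup.mem_map_of_mem _ hw⟩))
    rw [eq_top_iff]
    intro n _
    obtain ⟨⟨_, w, hw, rfl⟩, hy⟩ := exists_smul_eq (W.map N.subtype) α ((n : G) • α)
    rw [← hinj w n hy]
    exact hw
  have hmoved : ∀ n : N, n ≠ 1 → ∃ h : stabilizer G α, h • n ≠ n := by
    intro n hn
    by_contra hall
    push Not at hall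
    let W : Subgroup N :=
      { carrier := {w | ∀ h : stabilizer G α, h • w = w}
        one_mem' := fun h => smul_one h
        mul_mem' := fun {a b} ha hb h => by rw [smul_mul', ha h, hb h]
        inv_mem' := fun {a} ha h => by rw [smul_inv', ha h] }
    rcases hirr W (fun h w hw k => by rw [hw h, hw k]) with e | e
    · exact hn (Subgroup.mem_bot.1 (e ▸ hall : n ∈ (⊥ : Subgroup N)))
    · refine hH α ?_
      rw [Subgroup.eq_bot_iff_forall]
      intro h hh
      have h1 : (⟨h, hh⟩ : stabilizer G α) = 1 := eq_of_smul_eq_smul fun w : N => by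
        rw [one_smul]
        exact (e ▸ Subgroup.mem_top w : w ∈ W) _
      exact congrArg Subtype.val h1
  have hco : ∀ n : N, n ≠ 1 → IsCoatom (stabilizer (stabilizer G α) n) := by
    intro n hn
    have hnt : Nontrivial (orbit (stabilizer G α) ((n : G) • α)) := by
      obtain ⟨h, hh⟩ := hmoved n hn
      exact ⟨⟨⟨_, mem_orbit_self _⟩, ⟨_, mem_orbit _ h⟩, fun e => hh
        (hinj _ _ ((key h n).symm.trans (congrArg Subtype.val e).symm))⟩⟩
    have := hep α ((n : G) • α)
    have h1 := IsPreprimitive.isCoatom_stabilizer_of_isPreprimitive (G := stabilizer G α)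
      (⟨_, mem_orbit_self _⟩ : orbit (stabilizer G α) ((n : G) • α))
    convert h1 using 2
    ext h
    simp only [mem_stabilizer_iff, Subtype.ext_iff, orbit.coe_smul]
    constructor
    · intro e
      change (h : G) • (n : G) • α = (n : G) • α
      rw [key, Subtype.ext e]
    · intro e
      exact congrArg Subtype.val (hinj _ _ ((key h n).symm.trans e))
  have he : H80.ExtPrim.EP (stabilizer G α) N := ⟨hco, hirr, hfaith, hnsol⟩
  refine ⟨?_, fun _ => he.almost_simple⟩
  have hcardN : Nat.card N = p ^ d := by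
    rw [← hcard, ← Nat.card_eq_fintype_card]
    refine Nat.card_eq_of_bijective (fun n : N => (n : G) • α) ⟨hinj, fun ω => ?_⟩
    exact exists_smul_eq N α ω
  exact ((Nat.prime_dvd_prime_iff_eq Nat.prime_two hp).1
    (Nat.prime_two.dvd_of_dvd_pow (hcardN ▸ he.two_dvd))).symm

end Cfsg.Agent.S3521
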