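import Cfsg.Statements.S3532
import Mathlib
import Cfsg.Agent.H69.PSL2Elements

set_option autoImplicit false
open Cfsg

namespace Cfsg.Agent.S3532

/-- The affine maps of a field whose slopes are powers of `ζ`: a soluble group whose element
orders are the divisors of the characteristic and of the order of `ζ`. -/
theorem exists_affine_subgroup {K : Type} [Field K] [Finite K] (p c : ℕ) [Fact p.Prime] [CharP K p]
    (hc : c ≠ 0) (ζ : Kˣ) (hζ : orderOf ζ = c) :
    ∃ A : Subgroup (Equiv.Perm K), Group.IsSolvable A ∧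
      Set.range (orderOf : A → ℕ) = {m : ℕ | m ∣ p ∨ m ∣ c} := by
  classical
  have hp : p.Prime := Fact.out
  let A : Subgroup (Equiv.Perm K) :=
    { carrier := {σ | ∃ a b : K, a ^ c = 1 ∧ ∀ x, σ x = a * x + b}
      one_mem' := ⟨1, 0, one_pow c, fun x => by simp⟩
      mul_mem' := by
        rintro σ τ ⟨a, b, ha, h⟩ ⟨a', b', ha', h'⟩
        exact ⟨a * a', a * b' + b, by rw [mul_pow, ha, ha', one_mul], fun x => by
          rw [Equiv.Perm.mul_apply, h', h]; ring⟩
      inv_mem' := by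
        rintro σ ⟨a, b, ha, h⟩
        have ha0 : a ≠ 0 := fun h0 => by rw [h0, zero_pow hc] at ha; exact zero_ne_one ha
        refine ⟨a⁻¹, -(a⁻¹ * b), by rw [inv_pow, ha, inv_one], fun x => ?_⟩
        rw [Equiv.Perm.inv_def, Equiv.symm_apply_eq, h]
        rw [mul_add, mul_neg, ← mul_assoc, ← mul_assoc, mul_inv_cancel₀ ha0, one_mul, one_mul]
        ring }
  let slope : A →* K :=
    { toFun := fun σ => (σ : Equiv.Perm K) 1 - (σ : Equiv.Perm K) 0
      map_one' := by simp
      map_mul' := fun σ τ => by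
        obtain ⟨a, b, -, h⟩ := σ.2
        obtain ⟨a', b', -, h'⟩ := τ.2
        rw [Subgroup.coe_mul]
        simp only [Equiv.Perm.mul_apply, h, h']; ring }
  have hslope : ∀ (σ : A) (a b : K), (∀ x, (σ : Equiv.Perm K) x = a * x + b) → slope σ = a := by
    intro σ a b h
    show (σ : Equiv.Perm K) 1 - (σ : Equiv.Perm K) 0 = a
    rw [h, h]; ring
  have hiter : ∀ (σ : A) (a b : K), (∀ x, (σ : Equiv.Perm K) x = a * x + b) → ∀ n : ℕ, ∀ x,
      ((σ ^ n : A) : Equiv.Perm K) x = a ^ n * x + b * ∑ i ∈ Finset.range n, a ^ i := by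
    intro σ a b h n
    induction n with
    | zero => intro x; simp
    | succ n ih =>
      intro x
      rw [pow_succ', Subgroup.coe_mul, Equiv.Perm.mul_apply, ih, h, geom_sum_succ]
      ring
  refine ⟨A, ?_, ?_⟩
  · let sl : A →* Kˣ := slope.toHomUnits
    let i : sl.ker →* A := sl.ker.subtype
    haveI : Group.IsSolvable sl.ker := Group.isSolvable_of_comm fun σ τ => by
      have translation : ∀ σ : sl.ker, ∀ x, ((σ : A) : Equiv.Perm K) x = x + ((σ : A) : Equiv.Perm K) 0 := by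
        intro σ x
        obtain ⟨a, b, -, h⟩ := (σ : A).2
        have ha : a = 1 := (hslope _ a b h).symm.trans (congrArg Units.val (MonoidHom.mem_ker.1 σ.2))
        rw [h, h, ha]; ring
      refine Subtype.ext (Subtype.ext (Equiv.ext fun x => ?_))
      simp only [Subgroup.coe_mul, Equiv.Perm.mul_apply]
      rw [translation σ (((τ : A) : Equiv.Perm K) x), translation τ (((σ : A) : Equiv.Perm K) x),
        translation τ x, translation σ x]
      ring
    haveI : Group.IsSolvable Kˣ := Group.isSolvable_of_comm mul_comm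
    exact Group.isSolvable_of_ker_le_range i sl (by rw [Subgroup.range_subtype])
  · ext m
    constructor
    · rintro ⟨σ, rfl⟩
      obtain ⟨a, b, ha, h⟩ := σ.2
      by_cases h1 : a = 1
      · refine Or.inl (orderOf_dvd_of_pow_eq_one (Subtype.ext (Equiv.ext fun x => ?_)))
        rw [hiter σ a b h, h1]
        simp [CharP.cast_eq_zero]
      · refine Or.inr (orderOf_dvd_of_pow_eq_one (Subtype.ext (Equiv.ext fun x => ?_)))
        rw [hiter σ a b h, ha, geom_sum_eq h1, ha, sub_self, zero_div, mul_zero, one_mul, add_zero]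
        rfl
    · rintro (hm | hm)
      · rcases (Nat.dvd_prime hp).1 hm with rfl | rfl
        · exact ⟨1, orderOf_one⟩
        let σ : A := ⟨Equiv.addRight (1 : K), 1, 1, one_pow c, fun x => by simp⟩
        refine ⟨σ, orderOf_eq_prime (Subtype.ext (Equiv.ext fun x => ?_)) fun h => ?_⟩
        · rw [hiter σ 1 1 (fun x => by simp [σ])]
          simp [CharP.cast_eq_zero]
        · have := congrArg (fun z : A => (z : Equiv.Perm K) 0) h
          simp [σ] at this
      · obtain ⟨k, hk⟩ := hm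
        have hk0 : k ≠ 0 := fun h => hc (by rw [hk, h, mul_zero])
        have hm0 : m ≠ 0 := fun h => hc (by rw [hk, h, zero_mul])
        have hord : orderOf ((ζ ^ k : Kˣ) : K) = m := by
          rw [orderOf_units, orderOf_pow_of_dvd hk0 (by rw [hζ, hk]; exact dvd_mul_left _ _), hζ, hk,
            Nat.mul_div_cancel _ (Nat.pos_of_ne_zero hk0)]
        set u : K := ((ζ ^ k : Kˣ) : K)
        have huc : u ^ c = 1 := by
          rw [← orderOf_dvd_iff_pow_eq_one, hord, hk]; exact dvd_mul_right _ _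
        let σ : A := ⟨Equiv.mulLeft₀ u (ζ ^ k).ne_zero, u, 0, huc, fun x => by simp⟩
        have hσ : ∀ x, (σ : Equiv.Perm K) x = u * x + 0 := fun x => by simp [σ]
        refine ⟨σ, Nat.dvd_antisymm (orderOf_dvd_of_pow_eq_one (Subtype.ext (Equiv.ext fun x => ?_))) ?_⟩
        · rw [hiter σ u 0 hσ, ← hord, pow_orderOf_eq_one]; simp
        · have := orderOf_map_dvd slope σ
          rwa [hslope σ u 0 hσ, hord] at this

/-- Let q ≥ 4 be a prime power and L = PSL(2,q). There is a finite solvable group with the same set of element orders as L × L (so L × L is not determined by its spectrum). -/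
theorem result {F : Type*} [Field F] [Fintype F] (hF : 4 ≤ Fintype.card F) :
    ∃ (H : Type) (_ : Group H) (_ : Finite H), Group.IsSolvable H ∧
      Set.range (orderOf : H → ℕ) = Set.range (orderOf : Matrix.ProjectiveSpecialLinearGroup (Fin 2) F × Matrix.ProjectiveSpecialLinearGroup (Fin 2) F → ℕ) := by
  classical
  obtain ⟨p, hchar, n, hp, hq⟩ := FiniteField.card' F
  haveI := hchar
  haveI := Fact.mk hp
  set q := Fintype.card F with hqdef
  set d := Nat.gcd 2 (q - 1) with hd
  set a := (q - 1) / d with hadef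
  set b := (q + 1) / d with hbdef
  have hspec := H69.psl2_spectrum (F := F) p hF
  rw [← hqdef, ← hd, ← hadef, ← hbdef] at hspec
  have hda : d ∣ q - 1 := Nat.gcd_dvd_right _ _
  have hdb : d ∣ q + 1 := by
    rw [show q + 1 = (q - 1) + 2 by omega]
    exact Nat.dvd_add hda (Nat.gcd_dvd_left _ _)
  have hdq : d = 1 ∧ 2 ∣ q ∨ d = 2 ∧ ¬ 2 ∣ q := by
    by_cases h2 : 2 ∣ q
    · refine Or.inl ⟨?_, h2⟩
      rw [hd, Nat.gcd_comm, ← Nat.coprime_iff_gcd_eq_one, Nat.coprime_two_right]
      exact Nat.odd_iff.2 (by omega)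
    · refine Or.inr ⟨?_, h2⟩
      rw [hd, Nat.gcd_eq_left]
      omega
  have ha1 : 2 ≤ a ∧ 2 ≤ b := by
    rcases hdq with ⟨h, h2⟩ | ⟨h, h2⟩ <;> rw [hadef, hbdef, h] <;> omega
  -- the common field
  let K := GaloisField p (2 * (n : ℕ))
  have hcardK : Nat.card K = q ^ 2 := by
    rw [show Nat.card K = p ^ (2 * (n : ℕ)) from
      GaloisField.card p _ (by have := n.pos; omega), hq, ← pow_mul, mul_comm]
  have : Finite K := Nat.finite_of_card_ne_zero (by rw [hcardK]; positivity)
  have hroot : ∀ c, c ∣ q ^ 2 - 1 → ∃ ζ : Kˣ, orderOf ζ = c := by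
    intro c hc
    obtain ⟨g, hg⟩ := IsCyclic.exists_generator (α := Kˣ)
    have hog : orderOf g = q ^ 2 - 1 := by
      rw [orderOf_eq_card_of_forall_mem_zpowers hg, Nat.card_units, hcardK]
    refine ⟨g ^ ((q ^ 2 - 1) / c), ?_⟩
    have hpos : 0 < q ^ 2 - 1 := Nat.sub_pos_of_lt (Nat.one_lt_pow two_ne_zero (by omega))
    rw [orderOf_pow_of_dvd (Nat.div_pos (Nat.le_of_dvd hpos hc)
      (Nat.pos_of_dvd_of_pos hc hpos)).ne' (hog.symm ▸ Nat.div_dvd_of_dvd hc : _ ∣ orderOf g), hog,
      Nat.div_div_self hc hpos.ne']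
  have hsq : q ^ 2 - 1 = (q - 1) * (q + 1) := by
    rw [mul_comm, ← Nat.sq_sub_sq, one_pow]
  obtain ⟨ζa, hζa⟩ := hroot a
    (hsq ▸ (Nat.div_dvd_of_dvd hda).trans (dvd_mul_right _ _))
  obtain ⟨ζb, hζb⟩ := hroot b
    (hsq ▸ (Nat.div_dvd_of_dvd hdb).trans (dvd_mul_left _ _))
  obtain ⟨A, hAs, hAspec⟩ := exists_affine_subgroup (K := K) p a (by omega) ζa hζa
  obtain ⟨B, hBs, hBspec⟩ := exists_affine_subgroup (K := K) p b (by omega) ζb hζb
  refine ⟨↥A × ↥B, inferInstance, inferInstance, inferInstance, ?_⟩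
  ext m
  have hmemL : ∀ c, c ∣ p ∨ c ∣ a ∨ c ∣ b →
      ∃ x : Matrix.ProjectiveSpecialLinearGroup (Fin 2) F, orderOf x = c := fun c hc => by
    have : c ∈ Set.range (orderOf : Matrix.ProjectiveSpecialLinearGroup (Fin 2) F → ℕ) := hspec ▸ hc
    exact this
  have hmemA : ∀ c, c ∣ p ∨ c ∣ a → ∃ x : A, orderOf x = c := fun c hc => by
    have : c ∈ Set.range (orderOf : A → ℕ) := hAspec ▸ hc
    exact this
  have hmemB : ∀ c, c ∣ p ∨ c ∣ b → ∃ x : B, orderOf x = c := fun c hc => by
    have : c ∈ Set.range (orderOf : B → ℕ) := hBspec ▸ hc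
    exact this
  constructor
  · rintro ⟨⟨x, y⟩, rfl⟩
    have hx : orderOf x ∣ p ∨ orderOf x ∣ a :=
      hAspec.subset (Set.mem_range_self (f := (orderOf : A → ℕ)) x)
    have hy : orderOf y ∣ p ∨ orderOf y ∣ b :=
      hBspec.subset (Set.mem_range_self (f := (orderOf : B → ℕ)) y)
    obtain ⟨u, hu⟩ := hmemL (orderOf x) (hx.imp_right Or.inl)
    obtain ⟨v, hv⟩ := hmemL (orderOf y) (hy.imp_right Or.inr)
    exact ⟨(u, v), by rw [Prod.orderOf, Prod.orderOf]; simp only; rw [hu, hv]⟩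
  · rintro ⟨⟨u, v⟩, rfl⟩
    have hu : orderOf u ∣ p ∨ orderOf u ∣ a ∨ orderOf u ∣ b :=
      hspec.subset (Set.mem_range_self (f := (orderOf : _ → ℕ)) u)
    have hv : orderOf v ∣ p ∨ orderOf v ∣ a ∨ orderOf v ∣ b :=
      hspec.subset (Set.mem_range_self (f := (orderOf : _ → ℕ)) v)
    rw [Prod.orderOf]
    -- choose the sides of the two orders
    have key : ∀ s t, (s ∣ p ∨ s ∣ a) → (t ∣ p ∨ t ∣ b) →
        s.lcm t ∈ Set.range (orderOf : ↥A × ↥B → ℕ) := fun s t hs ht => by
      obtain ⟨x, hx⟩ := hmemA s hs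
      obtain ⟨y, hy⟩ := hmemB t ht
      exact ⟨(x, y), by rw [Prod.orderOf]; simp only; rw [hx, hy]⟩
    have hone : ∀ z : ℕ, 1 ∣ z := one_dvd
    have both : ∀ s t c : ℕ, s ∣ c → t ∣ c → s.lcm t ∣ c := fun s t c => Nat.lcm_dvd
    rcases hu with hu | hu | hu <;> rcases hv with hv | hv | hv
    · exact key _ _ (Or.inl hu) (Or.inl hv)
    · rw [Nat.lcm_comm]; exact key _ _ (Or.inr hv) (Or.inl hu)
    · exact key _ _ (Or.inl hu) (Or.inr hv)
    · exact key _ _ (Or.inr hu) (Or.inl hv)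
    · simpa using key _ 1 (Or.inr (both _ _ _ hu hv)) (Or.inl (hone p))
    · exact key _ _ (Or.inr hu) (Or.inr hv)
    · rw [Nat.lcm_comm]; exact key _ _ (Or.inl hv) (Or.inr hu)
    · rw [Nat.lcm_comm]; exact key _ _ (Or.inr hv) (Or.inr hu)
    · simpa using key 1 _ (Or.inl (hone p)) (Or.inr (both _ _ _ hu hv))

end Cfsg.Agent.S3532
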