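import Cfsg.Statements.S3546
import Cfsg.Agent.H80.Derangements

set_option autoImplicit false
open Cfsg

namespace Cfsg.Agent.S3546

/-- Let G act faithfully and transitively on a finite set and let D be the subgroup of G generated by the derangements (the elements fixing no point). Then D is itself transitive, and D contains every element of G whose number of fixed points is different from 1. -/
theorem result {G Ω : Type*} [Group G] [Finite G] [MulAction G Ω] [FaithfulSMul G Ω] [Finite Ω]
    (htrans : MulAction.IsPretransitive G Ω) :
    MulAction.IsPretransitive ↥(Subgroup.closure {g : G | ∀ ω : Ω, g • ω ≠ ω}) Ω ∧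
    ∀ g : G, Nat.card (MulAction.fixedBy Ω g) ≠ 1 → g ∈ Subgroup.closure {g : G | ∀ ω : Ω, g • ω ≠ ω} := by
  refine ⟨H80.isPretransitive_derangementSubgroup, fun g hg => ?_⟩
  by_contra h
  rcases isEmpty_or_nonempty Ω with hΩ | hΩ
  · exact h (Subgroup.subset_closure fun ω => hΩ.elim ω)
  · exact hg (H80.card_fixedBy_eq_one h)

end Cfsg.Agent.S3546
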