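import Cfsg.Statements.S3547
import Cfsg.Agent.H80.Derangements

set_option autoImplicit false
open Cfsg

namespace Cfsg.Agent.S3547

/-- Let G act faithfully and transitively on a finite set Ω, let D be the subgroup generated by the derangements, and let r_G and r_D be the numbers of orbits of G and of D on ordered pairs of points (the permutation ranks). Then r_D − 1 = (r_G − 1)·[G : D]. -/
theorem result {G Ω : Type*} [Group G] [Finite G] [MulAction G Ω] [FaithfulSMul G Ω] [Finite Ω]
    (htrans : MulAction.IsPretransitive G Ω) :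
    Nat.card (MulAction.orbitRel.Quotient ↥(Subgroup.closure {g : G | ∀ ω : Ω, g • ω ≠ ω}) (Ω × Ω)) - 1 =
      (Nat.card (MulAction.orbitRel.Quotient G (Ω × Ω)) - 1) * (Subgroup.closure {g : G | ∀ ω : Ω, g • ω ≠ ω}).index := by
  classical
  rcases isEmpty_or_nonempty Ω with hΩ | hΩ
  · simp [Nat.card_of_isEmpty]
  have := Fintype.ofFinite G
  set D := H80.derangementSubgroup G Ω
  have hfix : ∀ g : G, Nat.card (MulAction.fixedBy (Ω × Ω) g) = Nat.card (MulAction.fixedBy Ω g) ^ 2 := by
    intro g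
    rw [sq, ← Nat.card_prod]
    exact Nat.card_congr ⟨fun p => (⟨p.1.1, congrArg Prod.fst p.2⟩, ⟨p.1.2, congrArg Prod.snd p.2⟩),
      fun p => ⟨(p.1.1, p.2.1), Prod.ext p.1.2 p.2.2⟩, fun _ => rfl, fun _ => rfl⟩
  have hG := H80.sum_card_fixedBy_eq (G := G) (Ω := Ω × Ω)
  simp_rw [hfix] at hG
  have hD : ∑ g ∈ Finset.univ.filter (fun g : G => g ∈ D), Nat.card (MulAction.fixedBy Ω g) ^ 2 =
      Nat.card (MulAction.orbitRel.Quotient D (Ω × Ω)) * Nat.card D := by
    rw [← H80.sum_card_fixedBy_eq]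
    simp_rw [← hfix]
    exact Finset.sum_subtype _ (by simp) (fun g : G => Nat.card (MulAction.fixedBy (Ω × Ω) g))
  have hO : ∀ g ∈ Finset.univ.filter (fun g : G => g ∉ D),
      Nat.card (MulAction.fixedBy Ω g) ^ 2 = 1 := by
    intro g hg
    rw [H80.card_fixedBy_eq_one (Finset.mem_filter.1 hg).2, one_pow]
  have hsplit := Finset.sum_filter_add_sum_filter_not Finset.univ (fun g : G => g ∈ D)
    (fun g => Nat.card (MulAction.fixedBy Ω g) ^ 2)
  rw [hD, Finset.sum_congr rfl hO, Finset.sum_const, smul_eq_mul, mul_one, hG] at hsplit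
  have hc := Finset.card_filter_add_card_filter_not (s := (Finset.univ : Finset G))
    (fun g : G => g ∈ D)
  have hcD : (Finset.univ.filter (fun g : G => g ∈ D)).card = Nat.card D := by
    rw [Nat.card_eq_fintype_card, Fintype.card_subtype]
  rw [Finset.card_univ, ← Nat.card_eq_fintype_card, hcD] at hc
  have hm := Subgroup.card_mul_index D
  have : Nonempty (MulAction.orbitRel.Quotient G (Ω × Ω)) :=
    ⟨Quotient.mk _ (Classical.arbitrary _)⟩
  have hr : 1 ≤ Nat.card (MulAction.orbitRel.Quotient G (Ω × Ω)) := Nat.card_pos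
  obtain ⟨r, hr'⟩ := Nat.exists_eq_add_of_le hr
  rw [hr', ← hm] at hsplit
  rw [hr', Nat.add_sub_cancel_left]
  have key : Nat.card (MulAction.orbitRel.Quotient D (Ω × Ω)) = r * D.index + 1 :=
    Nat.eq_of_mul_eq_mul_right (Nat.card_pos (α := D)) (by nlinarith)
  rw [key, Nat.add_sub_cancel]

end Cfsg.Agent.S3547
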