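import Cfsg.Statements.S3548
import Cfsg.Agent.H80.Derangements

set_option autoImplicit false
open Cfsg

namespace Cfsg.Agent.S3548

/-- Let G act faithfully and transitively on a finite set with n ≥ 2 points and let D be the subgroup generated by the derangements. Then the index of D in G divides n − 1, and if it equals n − 1 then n is a prime power. -/
theorem result {G Ω : Type*} [Group G] [Finite G] [MulAction G Ω] [FaithfulSMul G Ω] [Finite Ω]
    (htrans : MulAction.IsPretransitive G Ω) (hΩ : 2 ≤ Nat.card Ω) :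
    (Subgroup.closure {g : G | ∀ ω : Ω, g • ω ≠ ω}).index ∣ Nat.card Ω - 1 ∧
    ((Subgroup.closure {g : G | ∀ ω : Ω, g • ω ≠ ω}).index = Nat.card Ω - 1 → IsPrimePow (Nat.card Ω)) := by
  classical
  set D := H80.derangementSubgroup G Ω
  have hDt : MulAction.IsPretransitive D Ω := H80.isPretransitive_derangementSubgroup
  have hne : Nonempty Ω := Nat.card_pos_iff.1 (by omega) |>.1
  obtain ⟨a⟩ := hne
  have : Nonempty Ω := ⟨a⟩
  have hst : ∀ (g : G) (b : Ω), b ≠ a → g • a = a → g • b = b → g ∈ D := by
    intro g b hb ha hgb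
    by_contra h
    have h1 := H80.card_fixedBy_eq_one h
    have : Subsingleton (MulAction.fixedBy Ω g) := (Nat.card_eq_one_iff_unique.1 h1).1
    exact hb (congrArg Subtype.val (Subsingleton.elim (⟨b, hgb⟩ : MulAction.fixedBy Ω g) ⟨a, ha⟩))
  let X := H80.avoiding (H := MulAction.stabilizer G a) a (fun h => h.2)
  have hXcard : Nat.card X = Nat.card Ω - 1 := H80.card_avoiding _ _
  refine ⟨hXcard ▸ H80.index_derangementSubgroup_dvd_card a X hst, fun heq => ?_⟩
  set L := D.subgroupOf (MulAction.stabilizer G a)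
  have hL : L.index = Nat.card Ω - 1 :=
    (H80.index_derangement_subgroupOf_stabilizer a).trans heq
  have hb : ∀ b : X, (MulAction.stabilizer (MulAction.stabilizer G a) b) = L ∧
      MulAction.orbit (MulAction.stabilizer G a) b = Set.univ := by
    intro b
    have hle : MulAction.stabilizer (MulAction.stabilizer G a) b ≤ L := fun h hh =>
      hst h.1 b.1 b.2 h.2 (congrArg Subtype.val (MulAction.mem_stabilizer_iff.1 hh))
    have h1 := MulAction.index_stabilizer (MulAction.stabilizer G a) b
    have h2 := Subgroup.index_antitone hle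
    have h3 : (MulAction.orbit (MulAction.stabilizer G a) b).ncard ≤ Nat.card X :=
      Set.ncard_le_card _
    have h5 : (MulAction.orbit (MulAction.stabilizer G a) b).ncard = Nat.card X := by omega
    refine ⟨?_, Set.eq_of_subset_of_ncard_le (Set.subset_univ _) ?_⟩
    · refine le_antisymm hle ?_
      by_contra hc
      have h6 := Subgroup.index_strictAnti (lt_of_le_not_ge hle hc)
      omega
    · rw [Set.ncard_univ, h5]
  have hreg : ∀ (d : D) (ω : Ω), d • ω = ω → d = 1 := by
    intro d ω hdω
    have base : ∀ e : D, e • a = a → e = 1 := by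
      intro e he
      refine Subtype.ext (eq_of_smul_eq_smul (α := Ω) fun x => ?_)
      rw [OneMemClass.coe_one, one_smul]
      by_cases hx : x = a
      · subst hx; exact he
      · have : (⟨e.1, he⟩ : MulAction.stabilizer G a) ∈
            MulAction.stabilizer (MulAction.stabilizer G a) (⟨x, hx⟩ : X) := by
          rw [(hb ⟨x, hx⟩).1]; exact e.2
        exact congrArg Subtype.val (MulAction.mem_stabilizer_iff.1 this)
    obtain ⟨k, hk⟩ := MulAction.exists_smul_eq D a ω
    have := base (k⁻¹ * d * k) (by rw [mul_smul, mul_smul, hk, hdω, inv_smul_eq_iff, hk])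
    simpa [mul_assoc, inv_mul_eq_one] using this
  have hcardD : Nat.card D = Nat.card Ω :=
    Nat.card_congr (Equiv.ofBijective (fun d : D => d • a) ⟨fun d e h => by
      have h' : (e⁻¹ * d) • a = a := by
        rw [mul_smul, inv_smul_eq_iff]
        exact h
      exact (inv_mul_eq_one.1 (hreg _ _ h')).symm, fun ω => MulAction.exists_smul_eq D a ω⟩)
  have horder : ∀ d e : D, d ≠ 1 → e ≠ 1 → orderOf d = orderOf e := by
    intro d e hd he
    have hd' : d • a ≠ a := fun h => hd (hreg _ _ h)
    have he' : e • a ≠ a := fun h => he (hreg _ _ h)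
    obtain ⟨h, hh⟩ : (⟨e • a, he'⟩ : X) ∈ MulAction.orbit (MulAction.stabilizer G a) (⟨d • a, hd'⟩ : X) := by
      rw [(hb _).2]; trivial
    have hh' : h.1 • (d.1 • a) = e.1 • a := congrArg Subtype.val hh
    have hN : ∀ g : G, ∀ x ∈ D, g * x * g⁻¹ ∈ D := by
      intro g x hx
      induction hx using Subgroup.closure_induction with
      | mem y hy =>
        refine Subgroup.subset_closure fun ω hω => hy (g⁻¹ • ω) ?_
        rw [mul_smul, mul_smul] at hω
        rw [eq_inv_smul_iff, hω]
      | one => simpa using one_mem D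
      | mul u v _ _ hu hv => simpa [mul_assoc] using mul_mem hu hv
      | inv u _ hu => simpa [mul_assoc] using inv_mem hu
    have hmem := hN h.1 d.1 d.2
    have : (⟨_, hmem⟩ : D) = e := by
      have h0 := hreg (e⁻¹ * ⟨_, hmem⟩) a (by
        rw [mul_smul, inv_smul_eq_iff]
        change (h.1 * d.1 * h.1⁻¹) • a = e.1 • a
        rw [mul_smul, mul_smul, inv_smul_eq_iff.2 (MulAction.mem_stabilizer_iff.1 h.2).symm, hh'])
      exact (inv_mul_eq_one.1 h0).symm
    rw [← Subgroup.orderOf_coe d, ← Subgroup.orderOf_coe e, ← this]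
    exact SemiconjBy.orderOf_eq h.1 (by simp [SemiconjBy, mul_assoc])
  have hn1 : Nat.card D ≠ 1 := by omega
  obtain ⟨p, hp, hpd⟩ := Nat.exists_prime_and_dvd hn1
  haveI := Fact.mk hp
  obtain ⟨x, hx⟩ := exists_prime_orderOf_dvd_card' (G := D) p hpd
  have hx1 : x ≠ 1 := by rintro rfl; rw [orderOf_one] at hx; exact hp.one_lt.ne hx
  have hpg : IsPGroup p D := by
    rw [IsPGroup.iff_orderOf]
    intro g
    by_cases hg : g = 1
    · exact ⟨0, by simp [hg]⟩
    · exact ⟨1, by rw [horder g x hg hx1, hx, pow_one]⟩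
  obtain ⟨k, hk⟩ := IsPGroup.iff_card.1 hpg
  rw [← hcardD, hk]
  refine hp.isPrimePow.pow ?_
  rintro rfl
  rw [pow_zero] at hk
  exact hn1 hk

end Cfsg.Agent.S3548
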