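import Cfsg.Statements.S3549
import Cfsg.Agent.H80.Derangements

set_option autoImplicit false
open Cfsg

namespace Cfsg.Agent.S3549

/-- Let G act faithfully, transitively but imprimitively on a finite set with n points, and let D be the subgroup generated by the derangements. Then the index of D in G is at most √n − 1. -/
theorem result {G Ω : Type*} [Group G] [Finite G] [MulAction G Ω] [FaithfulSMul G Ω] [Finite Ω]
    (htrans : MulAction.IsPretransitive G Ω) (himp : ¬ MulAction.IsPreprimitive G Ω) :
    ((Subgroup.closure {g : G | ∀ ω : Ω, g • ω ≠ ω}).index : ℝ) ≤ Real.sqrt (Nat.card Ω) - 1 := by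
  classical
  set D := H80.derangementSubgroup G Ω
  have hΩn : Nontrivial Ω := by
    by_contra h
    rw [not_nontrivial_iff_subsingleton] at h
    exact himp MulAction.IsPreprimitive.of_subsingleton
  obtain ⟨a⟩ := (inferInstance : Nonempty Ω)
  have : Nonempty Ω := ⟨a⟩
  obtain ⟨K, hK1, hK2⟩ : ∃ K, MulAction.stabilizer G a < K ∧ K ≠ ⊤ := by
    have hnc : ¬ IsCoatom (MulAction.stabilizer G a) := fun h =>
      himp ((MulAction.isCoatom_stabilizer_iff_preprimitive (G := G) a).1 h)
    by_contra hK
    push Not at hK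
    refine hnc ⟨fun h => ?_, hK⟩
    obtain ⟨b, hb⟩ := exists_ne a
    obtain ⟨g, hg⟩ := htrans.exists_smul_eq a b
    exact hb (hg ▸ MulAction.mem_stabilizer_iff.1 (h ▸ Subgroup.mem_top g))
  choose t ht using htrans.exists_smul_eq a
  let f : Ω → G ⧸ K := fun ω => (t ω : G)
  have hf1 : ∀ g : G, f (g • a) = (g : G ⧸ K) := by
    intro g
    refine QuotientGroup.eq.2 (hK1.le ?_)
    rw [MulAction.mem_stabilizer_iff, mul_smul, inv_smul_eq_iff, ht]
  have hf : ∀ (g : G) ω, f (g • ω) = g • f ω := by
    intro g ω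
    conv_lhs => rw [← ht ω, ← mul_smul, hf1]
    rfl
  have hsurj : Function.Surjective f := fun q => by
    induction q using QuotientGroup.induction_on with
    | H g => exact ⟨g • a, hf1 g⟩
  let c := f a
  have hc : ∀ h : MulAction.stabilizer G a, h • c = c := fun h =>
    (hf h.1 a).symm.trans (congrArg f h.2)
  let X₂ := H80.avoiding (H := MulAction.stabilizer G a) c hc
  let X₁ : SubMulAction (MulAction.stabilizer G a) Ω :=
    { carrier := {ω | ω ≠ a ∧ f ω = c}
      smul_mem' := fun h ω hω => ⟨fun e => hω.1 (smul_left_cancel h (e.trans h.2.symm)),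
        (hf h.1 ω).trans ((congrArg (h.1 • ·) hω.2).trans (hc h))⟩ }
  have h1 : D.index ∣ Nat.card X₁ := by
    refine H80.index_derangementSubgroup_dvd_card a X₁ fun g b hb ha hgb => ?_
    by_contra h
    exact hb.1 (H80.eq_of_card_fixedBy_eq_one (H80.card_fixedBy_eq_one h) hgb ha)
  have h2 : D.index ∣ Nat.card X₂ := by
    refine H80.index_derangementSubgroup_dvd_card a X₂ fun g b hb ha hgb => ?_
    by_contra h
    exact hb (H80.eq_of_card_fixedBy_eq_one (H80.card_fixedBy_image_eq_one f hf hsurj h) hgb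
      ((hf g a).symm.trans (congrArg f ha)))
  -- sizes
  have hfib : Nat.card {ω // f ω = c} = (MulAction.stabilizer G a).relIndex K := by
    rw [← Nat.card_congr (Equiv.subtypeEquivRight (fun ω => show ω ∈ MulAction.orbit K a ↔ f ω = c from
      ⟨by rintro ⟨k, rfl⟩
          rw [show c = ((1 : G) : G ⧸ K) from by rw [← hf1 1, one_smul]]
          exact (hf1 k.1).trans (QuotientGroup.eq.2 (by simp)),
       fun h => ⟨⟨t ω, by
          have h' : ((t ω : G) : G ⧸ K) = ((1 : G) : G ⧸ K) := by
            rw [← hf1 (t ω), ht, h, ← hf1 1, one_smul]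
          simpa using QuotientGroup.eq.1 h'⟩, ht ω⟩⟩))]
    rw [Nat.card_coe_set_eq, ← MulAction.index_stabilizer]
    rfl
  have hb : Nat.card X₂ = K.index - 1 := H80.card_avoiding _ _
  have ha : Nat.card X₁ = (MulAction.stabilizer G a).relIndex K - 1 := by
    rw [← hfib]
    have := Fintype.ofFinite Ω
    have e1 : Nat.card X₁ = (Finset.univ.filter fun ω => ω ≠ a ∧ f ω = c).card := by
      rw [Nat.card_congr (Equiv.subtypeEquivRight (fun x => Iff.rfl) :
        X₁ ≃ {ω : Ω // ω ≠ a ∧ f ω = c}), Nat.card_eq_fintype_card, Fintype.card_subtype]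
    rw [e1, Nat.card_eq_fintype_card, Fintype.card_subtype,
      ← Finset.card_erase_of_mem (s := Finset.univ.filter fun ω => f ω = c) (a := a) (by simp [c])]
    congr 1
    ext ω; simp
  have hn : Nat.card Ω = (MulAction.stabilizer G a).relIndex K * K.index := by
    rw [Subgroup.relIndex_mul_index hK1.le, MulAction.index_stabilizer_of_transitive]
  rw [ha] at h1
  rw [hb] at h2
  have hA : 1 < (MulAction.stabilizer G a).relIndex K := by
    have h0 : (MulAction.stabilizer G a).relIndex K ≠ 0 := Subgroup.index_ne_zero_of_finite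
    have h1' : (MulAction.stabilizer G a).relIndex K ≠ 1 := fun h =>
      hK1.not_ge (Subgroup.relIndex_eq_one.1 h)
    omega
  have hB : 1 < K.index := Subgroup.one_lt_index_of_ne_top hK2
  have l1 := Nat.le_of_dvd (by omega) h1
  have l2 := Nat.le_of_dvd (by omega) h2
  have key : (D.index + 1) * (D.index + 1) ≤ Nat.card Ω := by
    rw [hn]; exact Nat.mul_le_mul (by omega) (by omega)
  have key' : ((D.index : ℝ) + 1) ^ 2 ≤ (Nat.card Ω : ℝ) := by rw [sq]; exact_mod_cast key
  rw [le_sub_iff_add_le]
  exact Real.le_sqrt_of_sq_le key'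

end Cfsg.Agent.S3549
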