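import Cfsg.Statements.S3559
import Cfsg.Agent.H80.CyclicBGroup

set_option autoImplicit false
open Cfsg

namespace Cfsg.Agent.S3559

/-- Let G act faithfully and transitively on a finite set whose number of points n ≥ 2 is not a prime power, and suppose G has a cyclic subgroup acting regularly (transitively with trivial point stabilizers). Then G is imprimitive or doubly transitive. -/
theorem result {G Ω : Type*} [Group G] [Finite G] [MulAction G Ω] [FaithfulSMul G Ω] [Finite Ω]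
    (htrans : MulAction.IsPretransitive G Ω) (hn : 2 ≤ Nat.card Ω) (hnp : ¬ IsPrimePow (Nat.card Ω))
    (C : Subgroup G) (hcyc : IsCyclic ↥C) (hC : MulAction.IsPretransitive ↥C Ω ∧ ∀ a : Ω, MulAction.stabilizer ↥C a = ⊥) :
    ¬ MulAction.IsPreprimitive G Ω ∨ MulAction.IsMultiplyPretransitive G Ω 2 := by
  classical
  rw [or_iff_not_imp_left, not_not]
  intro hprim
  haveI := hprim
  haveI : Nonempty Ω := (Nat.card_pos_iff.1 (by omega)).1
  haveI := hcyc
  haveI := hC.1
  obtain ⟨p, q, hp, hq, hpq, hpn, hqn⟩ : ∃ p q, p.Prime ∧ q.Prime ∧ p ≠ q ∧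
      p ∣ Nat.card Ω ∧ q ∣ Nat.card Ω := by
    rw [isPrimePow_iff_unique_prime_dvd] at hnp
    obtain ⟨p, hp, hpn⟩ := Nat.exists_prime_and_dvd (show Nat.card Ω ≠ 1 by omega)
    obtain ⟨q, ⟨hq, hqn⟩, hqp⟩ : ∃ q, (q.Prime ∧ q ∣ Nat.card Ω) ∧ q ≠ p := by
      by_contra hcon
      push Not at hcon
      exact hnp ⟨p, ⟨hp, hpn⟩, fun q hq => hcon q hq⟩
    exact ⟨p, q, hp, hq, hqp.symm, hpn, hqn⟩
  exact Cfsg.Agent.H80.isMultiplyPretransitive_two_of_regular_cyclic C hC.2 hp hq hpq hpn hqn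

end Cfsg.Agent.S3559
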