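import Cfsg.Statements.S3560
-- import your own Cfsg.Agent.* helpers here

set_option autoImplicit false
open scoped Pointwise
open Cfsg

namespace Cfsg.Agent.S3560

/-- Let K be a finite group isomorphic to a direct product of r ≥ 2 groups all of the same order m ≥ 3. Then K is not a B-group: there is a primitive but not doubly transitive permutation group (on some finite set) containing a regular subgroup isomorphic to K. -/
theorem result {K : Type*} [Group K] [Finite K] {ι : Type*} [Fintype ι] (F : ι → Type*) [∀ i, Group (F i)]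
    (hr : 2 ≤ Fintype.card ι) (m : ℕ) (hm : 3 ≤ m) (hcard : ∀ i, Nat.card (F i) = m) (e : K ≃* (∀ i, F i)) :
    ∃ (n : ℕ) (G R : Subgroup (Equiv.Perm (Fin n))), R ≤ G ∧ Nonempty (↥R ≃* K) ∧
      MulAction.IsPretransitive ↥R (Fin n) ∧ (∀ a : Fin n, MulAction.stabilizer ↥R a = ⊥) ∧
      MulAction.IsPreprimitive ↥G (Fin n) ∧ ¬ MulAction.IsMultiplyPretransitive ↥G (Fin n) 2 := by
  classical
  obtain ⟨n, ⟨eq⟩⟩ := Finite.exists_equiv_fin (ι → Fin m)
  let emb : (ι → Fin m) ≃ Fin n := eq
  let S : Subgroup (Equiv.Perm (ι → Fin m)) := Subgroup.closure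
    (Set.range (fun f : ι → Equiv.Perm (Fin m) => Equiv.piCongrRight f) ∪
      Set.range (fun π : Equiv.Perm ι => (Equiv.arrowCongr π (Equiv.refl (Fin m)) : Equiv.Perm (ι → Fin m))))
  have hcoord : ∀ f : ι → Equiv.Perm (Fin m), Equiv.piCongrRight f ∈ S :=
    fun f => Subgroup.subset_closure (Or.inl ⟨f, rfl⟩)
  have hperm : ∀ π : Equiv.Perm ι,
      (Equiv.arrowCongr π (Equiv.refl (Fin m)) : Equiv.Perm (ι → Fin m)) ∈ S :=
    fun π => Subgroup.subset_closure (Or.inr ⟨π, rfl⟩)
  let d : (ι → Fin m) → (ι → Fin m) → ℕ := fun x y => (Finset.univ.filter fun i => x i ≠ y i).card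
  have hdist : ∀ g ∈ S, ∀ x y, d (g x) (g y) = d x y := by
    intro g hg
    induction hg using Subgroup.closure_induction with
    | mem g hg =>
      intro x y
      rcases hg with ⟨f, rfl⟩ | ⟨π, rfl⟩
      · simp [d]
      · refine Finset.card_bij (fun i _ => π.symm i) ?_ ?_ ?_
        · intro i hi; simpa [Equiv.arrowCongr] using hi
        · intro i _ j _ h; exact π.symm.injective h
        · intro i hi; exact ⟨π i, by simpa [Equiv.arrowCongr] using hi, by simp⟩
    | one => intro x y; rfl
    | mul u v _ _ hu hv => intro x y; rw [Equiv.Perm.mul_apply, Equiv.Perm.mul_apply, hu, hv]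
    | inv u _ hu => intro x y; rw [← hu (u⁻¹ x) (u⁻¹ y)]; simp
  -- labelling of the factors
  have hfin : ∀ i, Finite (F i) := fun i => Nat.finite_of_card_ne_zero (by rw [hcard i]; omega)
  let τ : ∀ i, F i ≃ Fin m := fun i => (Finite.equivFin (F i)).trans (finCongr (hcard i))
  let ρ : K →* Equiv.Perm (ι → Fin m) :=
    { toFun := fun k => Equiv.piCongrRight fun i =>
        ((τ i).symm.trans (Equiv.mulLeft (e k i))).trans (τ i)
      map_one' := by ext x i; simp
      map_mul' := fun k l => by ext x i; simp [mul_assoc] }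
  have hρS : ∀ k, ρ k ∈ S := fun k => hcoord _
  have hρapp : ∀ k x i, ρ k x i = τ i (e k i * (τ i).symm (x i)) := fun _ _ _ => rfl
  have hρfree : ∀ k x, ρ k x = x → k = 1 := by
    intro k x h
    refine e.injective (funext fun i => ?_)
    have h1 := congrFun h i
    rw [hρapp, ← Equiv.eq_symm_apply, mul_eq_right] at h1
    rw [h1, map_one]; rfl
  have hρtrans : ∀ x y, ∃ k, ρ k x = y := by
    intro x y
    refine ⟨e.symm fun i => (τ i).symm (y i) * ((τ i).symm (x i))⁻¹, funext fun i => ?_⟩
    rw [hρapp, e.apply_symm_apply]; simp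
  have hρinj : Function.Injective ρ := by
    refine (injective_iff_map_eq_one ρ).2 fun k hk => ?_
    exact hρfree k (fun _ => ⟨0, by omega⟩) (by rw [hk]; rfl)
  let φ := emb.permCongrHom
  refine ⟨n, S.map φ.toMonoidHom, ρ.range.map φ.toMonoidHom, ?_, ?_, ?_, ?_, ?_, ?_⟩
  · rintro _ ⟨_, ⟨k, rfl⟩, rfl⟩
    exact Subgroup.mem_map_of_mem _ (hρS k)
  · exact ⟨((MonoidHom.ofInjective hρinj).trans (ρ.range.equivMapOfInjective φ.toMonoidHom φ.injective)).symm⟩
  · refine ⟨fun a b => ?_⟩
    obtain ⟨k, hk⟩ := hρtrans (emb.symm a) (emb.symm b)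
    refine ⟨⟨_, Subgroup.mem_map_of_mem _ ⟨k, rfl⟩⟩, ?_⟩
    show emb (ρ k (emb.symm a)) = b
    rw [hk, emb.apply_symm_apply]
  · intro a
    refine (Subgroup.eq_bot_iff_forall _).2 ?_
    rintro ⟨_, _, ⟨k, rfl⟩, rfl⟩ hk
    have h0 : emb (ρ k (emb.symm a)) = a := hk
    rw [← Equiv.eq_symm_apply] at h0
    refine Subtype.ext ?_
    show φ (ρ k) = 1
    rw [hρfree k _ h0, map_one, map_one]
  · -- primitivity on the product
    have htr : MulAction.IsPretransitive S (ι → Fin m) := ⟨fun x y => by
      obtain ⟨k, hk⟩ := hρtrans x y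
      exact ⟨⟨ρ k, hρS k⟩, hk⟩⟩
    have hprim : MulAction.IsPreprimitive S (ι → Fin m) := by
      refine ⟨fun {B} hB => ?_⟩
      refine or_iff_not_imp_left.2 fun hns => ?_
      rw [Set.not_subsingleton_iff] at hns
      obtain ⟨x, hx, y, hy, hxy⟩ := hns
      have fix : ∀ g ∈ S, ∀ b ∈ B, g b = b → ∀ c ∈ B, g c ∈ B := by
        intro g hg b hb hgb c hc
        have heq : (⟨g, hg⟩ : S) • B = B := by
          by_contra hne
          have hd := hB (g₁ := ⟨g, hg⟩) (g₂ := 1) (by rwa [one_smul])
          rw [one_smul] at hd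
          exact Set.disjoint_left.1 hd ⟨b, hb, hgb⟩ hb
        exact heq ▸ ⟨c, hc, rfl⟩
      -- two points of `B` differing in one coordinate only
      obtain ⟨i, hi⟩ := Function.ne_iff.1 hxy
      obtain ⟨w, hw1, hw2⟩ : ∃ w : Fin m, w ≠ x i ∧ w ≠ y i :=
        Fin.exists_ne_and_ne_of_two_lt (x i) (y i) (by omega)
      let f : ι → Equiv.Perm (Fin m) := Function.update 1 i (Equiv.swap (y i) w)
      have hfx : Equiv.piCongrRight f x = x := by
        funext j
        by_cases hj : j = i
        · subst hj; simp [f, Equiv.swap_apply_of_ne_of_ne hi hw1.symm]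
        · simp [f, Function.update_of_ne hj]
      have hy' : Equiv.piCongrRight f y = Function.update y i w := by
        funext j
        by_cases hj : j = i
        · subst hj; simp [f]
        · simp [f, Function.update_of_ne hj]
      have hB1 : Function.update y i w ∈ B := hy' ▸ fix _ (hcoord f) x hx hfx y hy
      -- all neighbours of a point of `B` lie in `B`
      have step : ∀ b ∈ B, ∀ j, ∀ v : Fin m, Function.update b j v ∈ B := by
        intro b hb j v
        by_cases hv : v = b j
        · rw [hv, Function.update_eq_self]; exact hb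
        obtain ⟨g₀, hg₀⟩ := htr.exists_smul_eq y b
        -- move the basic edge to `b`
        obtain ⟨i', u, hu, hmem⟩ : ∃ i' u, u ≠ b i' ∧ Function.update b i' u ∈ B := by
          obtain ⟨k, hk⟩ := hρtrans y b
          have heq : (⟨ρ k, hρS k⟩ : S) • B = B := by
            by_contra hne
            have hd := hB (g₁ := ⟨ρ k, hρS k⟩) (g₂ := 1) (by rwa [one_smul])
            rw [one_smul] at hd
            exact Set.disjoint_left.1 hd ⟨y, hy, hk⟩ hb
          refine ⟨i, τ i (e k i * (τ i).symm w), ?_, ?_⟩
          · rw [← congrFun hk i, hρapp]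
            simpa using hw2
          · refine heq ▸ ⟨_, hB1, funext fun j => ?_⟩
            show ρ k (Function.update y i w) j = _
            by_cases hj : j = i
            · subst hj; simp [hρapp]
            · rw [hρapp, Function.update_of_ne hj, Function.update_of_ne hj, ← hρapp, hk]
        let π := Equiv.swap i' j
        let f₁ : ι → Equiv.Perm (Fin m) := fun l =>
          Equiv.swap (b l) (b (π l))
        let g₁ : Equiv.Perm (ι → Fin m) :=
          Equiv.piCongrRight f₁ * Equiv.arrowCongr π (Equiv.refl (Fin m))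
        have hg₁ : g₁ ∈ S := S.mul_mem (hcoord _) (hperm _)
        have happ : ∀ (z : ι → Fin m) l, g₁ z l = f₁ l (z (π l)) := fun z l => by
          simp [g₁, Equiv.arrowCongr, π, Equiv.swap_inv]
        have hg₁b : g₁ b = b := funext fun l => by
          simp [happ, f₁, Equiv.swap_apply_right]
        let u' := f₁ j u
        have hg₁u : g₁ (Function.update b i' u) = Function.update b j u' := funext fun l => by
          rw [happ]
          by_cases hl : l = j
          · subst hl; simp [π, u']
          · have hl' : π l ≠ i' := fun h => hl (π.injective (h.trans (Equiv.swap_apply_right i' j).symm))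
            rw [Function.update_of_ne hl', Function.update_of_ne hl]
            simp [f₁, Equiv.swap_apply_right]
        have hmem' : Function.update b j u' ∈ B := hg₁u ▸ fix g₁ hg₁ b hb hg₁b _ hmem
        have hu' : u' ≠ b j := fun h => hu (by
          have h1 : f₁ j u = f₁ j (b (π j)) := h.trans (Equiv.swap_apply_right _ _).symm
          simpa [π] using (f₁ j).injective h1)
        let f₂ : ι → Equiv.Perm (Fin m) := Function.update 1 j (Equiv.swap u' v)
        have hf₂b : Equiv.piCongrRight f₂ b = b := funext fun l => by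
          by_cases hl : l = j
          · subst hl; simp [f₂, Equiv.swap_apply_of_ne_of_ne hu'.symm (Ne.symm hv)]
          · simp [f₂, Function.update_of_ne hl]
        have hf₂u : Equiv.piCongrRight f₂ (Function.update b j u') = Function.update b j v :=
          funext fun l => by
            by_cases hl : l = j
            · subst hl; simp [f₂]
            · simp [f₂, Function.update_of_ne hl]
        exact hf₂u ▸ fix _ (hcoord f₂) b hb hf₂b _ hmem'
      refine Set.eq_univ_of_forall fun z => ?_
      have all : ∀ s : Finset ι, (fun l => if l ∈ s then z l else x l) ∈ B := by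
        intro s
        induction s using Finset.induction with
        | empty => simpa using hx
        | insert j s hj ih =>
          have h1 := step _ ih j (z j)
          convert h1 using 1
          funext l
          by_cases hl : l = j
          · subst hl; simp
          · simp [Function.update_of_ne hl, hl]
      simpa using all Finset.univ
    let ψ : S →* (S.map φ.toMonoidHom) := (S.equivMapOfInjective φ.toMonoidHom φ.injective).toMonoidHom
    have hmap : ∀ (g : S) (x : ι → Fin m), emb (g • x) = ψ g • emb x := fun g x => by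
      show emb _ = emb ((g : Equiv.Perm (ι → Fin m)) (emb.symm (emb x)))
      rw [emb.symm_apply_apply]
      rfl
    let emap : (ι → Fin m) →ₑ[ψ] Fin n := { toFun := emb, map_smul' := hmap }
    exact MulAction.IsPreprimitive.of_surjective (f := emap) emb.surjective
  · rw [MulAction.is_two_pretransitive_iff]
    push Not
    obtain ⟨i₀, i₁, hi⟩ := Fintype.one_lt_card_iff.1 (by omega : 1 < Fintype.card ι)
    let z₀ : ι → Fin m := fun _ => ⟨0, by omega⟩
    let one : Fin m := ⟨1, by omega⟩
    let x₁ := Function.update z₀ i₀ one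
    let x₂ := Function.update x₁ i₁ one
    have hone : one ≠ ⟨0, by omega⟩ := by simp [one]
    have d1 : d z₀ x₁ = 1 := by
      refine Finset.card_eq_one.2 ⟨i₀, ?_⟩
      ext l
      by_cases hl : l = i₀
      · subst hl; simp [x₁, z₀, hone.symm]
      · simp [x₁, z₀, Function.update_of_ne hl, hl]
    have d2 : d z₀ x₂ = 2 := by
      refine Finset.card_eq_two.2 ⟨i₀, i₁, hi, ?_⟩
      ext l
      by_cases hl : l = i₁
      · subst hl; simp [x₂, z₀, hone.symm]
      · by_cases hl' : l = i₀
        · subst hl'; simp [x₂, x₁, z₀, hone.symm, Function.update_of_ne hl]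
        · simp [x₂, x₁, z₀, Function.update_of_ne hl, Function.update_of_ne hl', hl, hl']
    refine ⟨emb z₀, emb x₁, emb z₀, emb x₂, fun h => ?_, fun h => ?_, ?_⟩
    · rw [emb.injective h] at d1; simp [d] at d1
    · rw [emb.injective h] at d2; simp [d] at d2
    rintro ⟨_, g, hg, rfl⟩ h1 h2
    have e1 : emb (g (emb.symm (emb z₀))) = emb z₀ := h1
    have e2 : emb (g (emb.symm (emb x₁))) = emb x₂ := h2
    rw [emb.symm_apply_apply, emb.apply_eq_iff_eq] at e1 e2
    have := hdist g hg z₀ x₁
    rw [e1, e2, d1, d2] at this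
    omega

end Cfsg.Agent.S3560
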