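import Cfsg.Statements.S3572
import Cfsg.Agent.H28.DihedralSRing.Transitivity

set_option autoImplicit false
open Cfsg

namespace Cfsg.Agent.S3572

open Cfsg.Agent.H28.DihedralSRing

/-- A finite primitive permutation group containing a dihedral subgroup that acts regularly (transitively with trivial point stabilizers) is doubly transitive. -/
theorem result {G Ω : Type*} [Group G] [Finite G] [MulAction G Ω] [FaithfulSMul G Ω] [Finite Ω]
    (hprim : MulAction.IsPreprimitive G Ω) (D : Subgroup G) (m : ℕ) (hD : Nonempty (↥D ≃* DihedralGroup m))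
    (hDreg : MulAction.IsPretransitive ↥D Ω ∧ ∀ a : Ω, MulAction.stabilizer ↥D a = ⊥) :
    MulAction.IsMultiplyPretransitive G Ω 2 := by
  obtain ⟨e⟩ := hD
  obtain ⟨htr, hfree⟩ := hDreg
  haveI := htr
  haveI := hprim
  have hfin : Finite (DihedralGroup m) := Finite.of_equiv _ e.toEquiv
  have hm0 : m ≠ 0 := by
    rintro rfl
    haveI : Finite (ZMod 0) := Finite.of_injective DihedralGroup.r fun a b => DihedralGroup.r.inj
    exact not_finite (ZMod 0)
  haveI : NeZero m := ⟨hm0⟩
  rw [MulAction.is_two_pretransitive_iff]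
  intro a b c d hab hcd
  let o := a
  let θ : DihedralGroup m →* G := D.subtype.comp e.symm.toMonoidHom
  have hbij : Function.Bijective (pt θ o) := by
    refine ⟨fun x y h => ?_, fun w => ?_⟩
    · have h1 : (e.symm y)⁻¹ * e.symm x ∈ MulAction.stabilizer (↥D) o := by
        rw [MulAction.mem_stabilizer_iff, mul_smul, inv_smul_eq_iff]
        exact h
      rw [hfree o, Subgroup.mem_bot, inv_mul_eq_one] at h1
      exact (e.symm.injective h1).symm
    · obtain ⟨g, hg⟩ := MulAction.exists_smul_eq (↥D) o w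
      refine ⟨e g, ?_⟩
      change ((e.symm (e g) : ↥D) : G) • o = w
      rw [e.symm_apply_apply]
      exact hg
  -- translate to the base point
  obtain ⟨u, hu⟩ := MulAction.exists_smul_eq G c a
  have hne : u • d ≠ a := fun h => hcd (MulAction.injective u (hu.trans h.symm))
  obtain ⟨x, hx⟩ := hbij.2 b
  obtain ⟨y, hy⟩ := hbij.2 (u • d)
  have hx1 : x ≠ 1 := fun h => hab (by rw [← hx, h, pt_one])
  have hy1 : y ≠ 1 := fun h => hne (by rw [← hy, h, pt_one])
  have hrel : srel θ o x y := by
    rcases Nat.lt_or_ge m 2 with h2 | h2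
    · have hm1 : m = 1 := by omega
      subst hm1
      have : ∀ z : DihedralGroup 1, z = 1 ∨ z = .sr 0 := by decide
      rw [(this x).resolve_left hx1, (this y).resolve_left hy1]
      exact srel_equiv.refl _
    · exact rel_of_primitive (ofGroup hbij hprim h2) h2 hx1 hy1
  obtain ⟨g, hg, hgxy⟩ := hrel
  refine ⟨u⁻¹ * g, ?_, ?_⟩
  · rw [mul_smul, MulAction.mem_stabilizer_iff.1 hg, inv_smul_eq_iff, hu]
  · rw [mul_smul, ← hx, hgxy, hy, inv_smul_smul]

end Cfsg.Agent.S3572
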