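import Cfsg.Statements.S3573
import Cfsg.Agent.H80.PrimeOrderPerms

set_option autoImplicit false
open Cfsg

namespace Cfsg.Agent.S3573

/-- Let 1 ≤ k with 2k < n and consider the symmetric group of degree n acting on the k-subsets of an n-set. Let r be a prime dividing the number C(n,k) of k-subsets. If r is odd, then every permutation of order r fixes some k-subset if and only if r ≤ k and the remainder of k modulo r is at most the remainder of n modulo r. If r = 2, then every involution fixes some k-subset if and only if k is even or n is odd. -/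
theorem result (n k : ℕ) (hk : 1 ≤ k) (hkn : 2 * k < n) (r : ℕ) (hr : r.Prime) (hrd : r ∣ Nat.choose n k) :
    (r ≠ 2 → ((∀ σ : Equiv.Perm (Fin n), orderOf σ = r → ∃ s : Finset (Fin n), s.card = k ∧ s.image σ = s) ↔
      (r ≤ k ∧ k % r ≤ n % r))) ∧
    (r = 2 → ((∀ σ : Equiv.Perm (Fin n), orderOf σ = 2 → ∃ s : Finset (Fin n), s.card = k ∧ s.image σ = s) ↔
      (Even k ∨ Odd n))) := by
  have key := Cfsg.Agent.H80.forall_exists_invariant_iff (α := Fin n) hr (Fintype.card_fin n) hrd
    (by omega)
  have hrk : k % r ≤ n % r → r ≤ k := by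
    intro h
    by_contra hlt
    push Not at hlt
    rw [Nat.mod_eq_of_lt hlt] at h
    haveI := Fact.mk hr
    have h1 := (Choose.choose_modEq_choose_mod_mul_choose_div_nat (n := n) (k := k) (p := r))
    rw [Nat.mod_eq_of_lt hlt, Nat.div_eq_of_lt hlt, Nat.choose_zero_right, mul_one] at h1
    have h2 : r ∣ (n % r).choose k := h1.dvd_iff dvd_rfl |>.1 hrd
    have h3 : (n % r) < r := Nat.mod_lt _ hr.pos
    have h4 := (hr.dvd_factorial (n := n % r)).1
      ((Nat.choose_mul_factorial_mul_factorial h) ▸ (h2.mul_right _).mul_right _)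
    omega
  refine ⟨fun _ => key.trans ⟨fun h => ⟨hrk h, h⟩, And.right⟩, fun h2 => ?_⟩
  subst h2
  refine key.trans ?_
  rw [Nat.even_iff, Nat.odd_iff]
  omega

end Cfsg.Agent.S3573
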