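import Cfsg.Statements.S3575
import Cfsg.Agent.H80.UniformPartitions

set_option autoImplicit false
open Cfsg

namespace Cfsg.Agent.S3575

/-- Let a, b ≥ 2 and consider the symmetric group of degree a·b acting on the partitions of an (a·b)-set into b parts of size a (encoded as maps onto a b-element set all of whose fibres have a elements; a permutation fixes such a partition when it permutes the fibres). Let r be a prime dividing the number (ab)!/((a!)^b·b!) of such partitions, and let ℓ and k be the remainders of a and b modulo r. Then every permutation of order r fixes some such partition if and only if r ≤ a and one of the following holds: ℓ = 0; or k = 0 and ℓ = 1; or ℓ and k are non-zero, k·ℓ < r, and either b < r or (k + r)·ℓ ≤ k·a + r. -/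
theorem result (a b : ℕ) (ha : 2 ≤ a) (hb : 2 ≤ b) (r : ℕ) (hr : r.Prime)
    (hrd : r ∣ (a * b).factorial / (a.factorial ^ b * b.factorial)) :
    (∀ σ : Equiv.Perm (Fin (a * b)), orderOf σ = r →
        ∃ f : Fin (a * b) → Fin b, (∀ j : Fin b, Nat.card {x : Fin (a * b) // f x = j} = a) ∧
          ∃ π : Equiv.Perm (Fin b), ∀ x : Fin (a * b), f (σ x) = π (f x)) ↔
      (r ≤ a ∧ (a % r = 0 ∨ (b % r = 0 ∧ a % r = 1) ∨
        (a % r ≠ 0 ∧ b % r ≠ 0 ∧ (b % r) * (a % r) < r ∧ (b < r ∨ (b % r + r) * (a % r) ≤ (b % r) * a + r)))) := by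
  haveI := Fact.mk hr
  have hdvd : r ∣ (a * b).factorial := by
    refine hrd.trans (Nat.div_dvd_of_dvd ⟨b.uniformBell a, ?_⟩)
    rw [mul_comm a b, ← Nat.uniformBell_mul_eq b (by omega : a ≠ 0)]
    ring
  have hrn : r ≤ a * b := hr.dvd_factorial.1 hdvd
  have hB : ((a % r = 0 ∨ (b % r * (a % r) < r ∧ (b < r ∨ a % r ≤ b % r * (a / r) + 1))) ↔
      (a % r = 0 ∨ (b % r = 0 ∧ a % r = 1) ∨
        (a % r ≠ 0 ∧ b % r ≠ 0 ∧ (b % r) * (a % r) < r ∧
          (b < r ∨ (b % r + r) * (a % r) ≤ (b % r) * a + r)))) := by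
    have hdm := Nat.div_add_mod a r
    have hkey : (b % r + r) * (a % r) ≤ (b % r) * a + r ↔ a % r ≤ b % r * (a / r) + 1 := by
      constructor
      · intro h
        refine Nat.le_of_mul_le_mul_left ?_ hr.pos
        have : b % r * a = b % r * (r * (a / r) + a % r) := by rw [hdm]
        nlinarith
      · intro h
        have := Nat.mul_le_mul_left r h
        have : b % r * a = b % r * (r * (a / r) + a % r) := by rw [hdm]
        nlinarith
    rw [hkey]
    by_cases hL : a % r = 0
    · simp [hL]
    by_cases hK : b % r = 0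
    · have : ¬ b < r := fun h => by rw [Nat.mod_eq_of_lt h] at hK; omega
      simp [hL, hK, this, hr.pos]
      omega
    · simp [hL, hK]
  rw [← hB, ← Cfsg.Agent.H80.forall_exists_bounds_iff hr.two_le ha hb hrn]
  constructor
  · intro h c hc hcn
    obtain ⟨σ, hσ, hsupp⟩ := Cfsg.Agent.H80.exists_perm_replicate (α := Fin (a * b)) hr hc
      (by rwa [Fintype.card_fin])
    obtain ⟨f, hf, π, hπ⟩ := h σ hσ
    exact Cfsg.Agent.H80.exists_bounds_of_fixed_partition hr hσ (by omega) hf hπ hsupp
  · intro h σ hσ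
    have hsupp := Cfsg.Agent.H80.card_support_eq_mul hr hσ
    have hle := σ.support.card_le_univ
    rw [Fintype.card_fin, hsupp] at hle
    have hpos : 1 ≤ σ.cycleFactorsFinset.card := by
      by_contra h0
      have h1 : σ.support.card = 0 := by rw [hsupp, show σ.cycleFactorsFinset.card = 0 by omega, mul_zero]
      rw [Finset.card_eq_zero, Equiv.Perm.support_eq_empty_iff] at h1
      rw [h1, orderOf_one] at hσ
      exact hr.ne_one hσ.symm
    obtain ⟨t, h1, h2, h3⟩ := h _ hpos hle
    exact Cfsg.Agent.H80.exists_fixed_partition (r := r) (by omega) rfl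
      (orderOf_dvd_iff_pow_eq_one.1 hσ.dvd) hsupp h1 h2 h3

end Cfsg.Agent.S3575
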