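import Cfsg.Statements.S3580
import Cfsg.Agent.H9.SylowFix.Orbits


set_option autoImplicit false
open Cfsg

namespace Cfsg.Agent.S3580

/-- Let G act faithfully and transitively on a finite set Ω, let p be an odd prime dividing the order of G and P a Sylow p-subgroup of G. Then the number of orbits of P on Ω is at most (p/(2p − 1))·(number of points). -/
theorem result {G Ω : Type*} [Group G] [Finite G] [MulAction G Ω] [FaithfulSMul G Ω] [Finite Ω]
    (htrans : MulAction.IsPretransitive G Ω) (p : ℕ) [Fact p.Prime] (hp2 : p ≠ 2) (hpG : p ∣ Nat.card G)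
    (P : Sylow p G) :
    (2 * p - 1) * Nat.card (MulAction.orbitRel.Quotient ↥(P : Subgroup G) Ω) ≤ p * Nat.card Ω := by
  haveI := htrans
  have h := Cfsg.Agent.H9.SylowFix.dfct_nonneg_of_faithful (Ω := Ω) hpG P
  have h2 := Cfsg.Agent.H9.SylowFix.card_orbits_le (Ω := Ω) (P : Subgroup G) P.2
  simp only [Cfsg.Agent.H9.SylowFix.dfct, Set.univ_inter, Set.ncard_univ] at h
  have hp := (Fact.out : p.Prime).two_le
  set f := (Cfsg.Agent.H9.SylowFix.fixPts Ω (P : Subgroup G)).ncard
  set m := Nat.card (MulAction.orbitRel.Quotient ↥(P : Subgroup G) Ω)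
  refine Nat.le_of_mul_le_mul_left ?_ (show 0 < p by omega)
  zify [show 1 ≤ 2 * p by omega, show 1 ≤ p by omega] at h2 ⊢
  nlinarith [mul_le_mul_of_nonneg_left h2 (show (0 : ℤ) ≤ 2 * (p : ℤ) - 1 by omega),
    mul_le_mul_of_nonneg_left h (show (0 : ℤ) ≤ (p : ℤ) - 1 by omega)]

end Cfsg.Agent.S3580
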