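import Cfsg.Statements.S3592
import Cfsg.Agent.H30.M11Unique
import Cfsg.Agent.H30.M11SameCounts
import Cfsg.Agent.H13.Groups
import Cfsg.Agent.H13.Actions

set_option autoImplicit false
open Cfsg

namespace Cfsg.Agent.S3592

/-- Let M be the Mathieu group M₁₁ (order 7920). If a finite group G has the same order as M and the same set of values of the function 'number of elements of order n' (taken over the element orders n that occur), then G is isomorphic to M. -/
theorem result {G : Type*} [Group G] [Finite G]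
    (hcard : Nat.card G = Nat.card ↥Cfsg.Spor.M11)
    (hnse : {c : ℕ | 0 < c ∧ ∃ n : ℕ, c = Nat.card {g : G // orderOf g = n}} =
      {c : ℕ | 0 < c ∧ ∃ n : ℕ, c = Nat.card {g : ↥Cfsg.Spor.M11 // orderOf g = n}}) :
    Nonempty (G ≃* ↥Cfsg.Spor.M11) := by
  classical
  have hM : Nat.card ↥Cfsg.Spor.M11 = 7920 := by rw [H13.M11_eq, H13.card_g11]
  have : IsSimpleGroup ↥Cfsg.Spor.M11 := by
    rw [H13.M11_eq]; exact H13.g11_simple
  let _ := Fintype.ofFinite ↥Cfsg.Spor.M11
  have hG : Nat.card G = 7920 := hcard.trans hM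
  have : IsSimpleGroup G := H30.SameCounts.isSimpleGroup_of_sameCounts hM hG fun n hn => by
    have h : H30.SameCounts.cnt G n ∈ {c : ℕ | 0 < c ∧ ∃ k : ℕ, c = Nat.card {g : G // orderOf g = k}} :=
      ⟨hn, n, rfl⟩
    rw [hnse] at h
    exact h.2
  exact H30.MElevenUnique.nonempty_mulEquiv hG hM

end Cfsg.Agent.S3592
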