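import Cfsg.Statements.S3599
import Mathlib

set_option autoImplicit false
open Cfsg

namespace Cfsg.Agent.S3599

/-- A power of `x ^ o` is `x` when `o` is prime to the order of `x`. -/
theorem exists_pow_eq_self_of_coprime {M : Type*} [Monoid M] {x : M} {o : ℕ}
    (h : Nat.Coprime o (orderOf x)) : ∃ u : ℕ, (x ^ o) ^ u = x :=
  _root_.exists_pow_eq_self_of_coprime h

/-- A group with element orders `1, q, r`, normal set of `q`-elements, and no smaller such
section. -/
theorem exists_critical_factor {q r : ℕ} (hq : q.Prime) (hr : r.Prime) (hne : q ≠ r) :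
    ∃ (F : Type) (_ : Group F) (_ : Finite F),
      Set.range (orderOf : F → ℕ) = ({1, q, r} : Set ℕ) ∧
      (∀ x y : F, x ^ q = 1 → y ^ q = 1 → (x * y) ^ q = 1) ∧
      ∀ (H : Subgroup F) (N : Subgroup ↥H) [N.Normal], (H ≠ ⊤ ∨ N ≠ ⊥) →
        Set.range (orderOf : (↥H ⧸ N) → ℕ) ≠ ({1, q, r} : Set ℕ) := by
  classical
  let P : ℕ → Prop := fun m => ∃ (F : Type) (_ : Group F) (_ : Finite F), Nat.card F = m ∧
    Set.range (orderOf : F → ℕ) = ({1, q, r} : Set ℕ) ∧
    ∀ x y : F, x ^ q = 1 → y ^ q = 1 → (x * y) ^ q = 1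
  have hex : ∃ m, P m := by
    haveI := Fact.mk hq
    haveI := Fact.mk hr
    let K := GaloisField q (r - 1)
    have hr0 : r - 1 ≠ 0 := by have := hr.two_le; omega
    have hcardK : Nat.card K = q ^ (r - 1) := GaloisField.card q (r - 1) hr0
    have : Finite K := Nat.finite_of_card_ne_zero (by rw [hcardK]; exact (pow_pos hq.pos _).ne')
    have := Fintype.ofFinite K
    have hdvd : r ∣ Nat.card Kˣ := by
      rw [Nat.card_units, hcardK]
      refine (ZMod.natCast_eq_zero_iff _ _).1 ?_
      have hqr : (q : ZMod r) ≠ 0 := by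
        rw [Ne, ZMod.natCast_eq_zero_iff]
        exact fun h => hne ((Nat.prime_dvd_prime_iff_eq hr hq).1 h).symm
      rw [Nat.cast_sub (Nat.one_le_pow _ _ hq.pos), Nat.cast_pow, Nat.cast_one,
        ZMod.pow_card_sub_one_eq_one hqr, sub_self]
    obtain ⟨ζ, hζ⟩ := exists_prime_orderOf_dvd_card' r hdvd
    let A : Subgroup (Equiv.Perm K) :=
      { carrier := {σ | ∃ a b : K, a ^ r = 1 ∧ ∀ x, σ x = a * x + b}
        one_mem' := ⟨1, 0, one_pow r, fun x => by simp⟩
        mul_mem' := by
          rintro σ τ ⟨a, b, ha, h⟩ ⟨a', b', ha', h'⟩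
          exact ⟨a * a', a * b' + b, by rw [mul_pow, ha, ha', one_mul], fun x => by
            rw [Equiv.Perm.mul_apply, h', h]; ring⟩
        inv_mem' := by
          rintro σ ⟨a, b, ha, h⟩
          have ha0 : a ≠ 0 := fun h0 => by rw [h0, zero_pow hr.ne_zero] at ha; exact zero_ne_one ha
          refine ⟨a⁻¹, -(a⁻¹ * b), by rw [inv_pow, ha, inv_one], fun x => ?_⟩
          rw [Equiv.Perm.inv_def, Equiv.symm_apply_eq, h]
          rw [mul_add, mul_neg, ← mul_assoc, ← mul_assoc, mul_inv_cancel₀ ha0, one_mul, one_mul]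
          ring }
    have : Finite A := inferInstance
    have hiter : ∀ (σ : A) (a b : K), (∀ x, (σ : Equiv.Perm K) x = a * x + b) → ∀ n : ℕ, ∀ x,
        ((σ ^ n : A) : Equiv.Perm K) x = a ^ n * x + b * ∑ i ∈ Finset.range n, a ^ i := by
      intro σ a b h n
      induction n with
      | zero => intro x; simp
      | succ n ih =>
        intro x
        rw [pow_succ', Subgroup.coe_mul, Equiv.Perm.mul_apply, ih, h, geom_sum_succ]
        ring
    have htr : ∀ (σ : A) (a b : K), (∀ x, (σ : Equiv.Perm K) x = a * x + b) →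
        (a = 1 → σ ^ q = 1) ∧ (a ≠ 1 → a ^ r = 1 → σ ^ r = 1) := by
      intro σ a b h
      constructor
      · rintro rfl
        refine Subtype.ext (Equiv.ext fun x => ?_)
        rw [hiter σ 1 b h]
        simp [CharP.cast_eq_zero]
      · intro ha har
        refine Subtype.ext (Equiv.ext fun x => ?_)
        rw [hiter σ a b h, har, geom_sum_eq ha, har, sub_self, zero_div, mul_zero, one_mul,
          add_zero]
        rfl
    refine ⟨Nat.card A, A, inferInstance, inferInstance, rfl, ?_, ?_⟩
    · ext m
      constructor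
      · rintro ⟨σ, rfl⟩
        obtain ⟨a, b, ha, h⟩ := σ.2
        simp only [Set.mem_insert_iff, Set.mem_singleton_iff]
        by_cases h1 : a = 1
        · exact ((Nat.dvd_prime hq).1 (orderOf_dvd_of_pow_eq_one ((htr σ a b h).1 h1))).imp_right
            Or.inl
        · exact ((Nat.dvd_prime hr).1 (orderOf_dvd_of_pow_eq_one ((htr σ a b h).2 h1 ha))).imp_right
            Or.inr
      · rintro (rfl | rfl | rfl)
        · exact ⟨1, orderOf_one⟩
        · let σ : A := ⟨Equiv.addRight (1 : K), 1, 1, one_pow r, fun x => by simp⟩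
          refine ⟨σ, orderOf_eq_prime ((htr σ 1 1 fun x => by simp [σ]).1 rfl) fun h => ?_⟩
          have := congrArg (fun z : A => (z : Equiv.Perm K) 0) h
          simp [σ] at this
        · have hζ' : (ζ : K) ^ m = 1 := by
            have h0 := pow_orderOf_eq_one ζ
            rw [hζ] at h0
            rw [← Units.val_pow_eq_pow_val, h0, Units.val_one]
          let σ : A := ⟨Equiv.mulLeft₀ (ζ : K) ζ.ne_zero, ζ, 0, hζ', fun x => by simp⟩
          have hζ1 : (ζ : K) ≠ 1 := fun h => by
            rw [Units.val_eq_one.1 h, orderOf_one] at hζ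
            exact hr.one_lt.ne hζ
          refine ⟨σ, orderOf_eq_prime ((htr σ ζ 0 fun x => by simp [σ]).2 hζ1 hζ') fun h => ?_⟩
          have := congrArg (fun z : A => (z : Equiv.Perm K) 1) h
          simp [σ] at this
          exact hζ1 (by simpa using this)
    · intro x y hx hy
      have hone : ∀ (σ : A) (a b : K), a ^ r = 1 → (∀ x, (σ : Equiv.Perm K) x = a * x + b) →
          σ ^ q = 1 → a = 1 := by
        intro σ a b ha h hσ
        have e0 := hiter σ a b h q 0
        have e1 := hiter σ a b h q 1
        rw [hσ] at e0 e1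
        simp only [OneMemClass.coe_one, Equiv.Perm.one_apply, mul_zero, mul_one, zero_add] at e0 e1
        have haq : a ^ q = 1 := by linear_combination e0 - e1
        rw [← orderOf_eq_one_iff]
        exact Nat.eq_one_of_dvd_coprimes ((Nat.coprime_primes hq hr).2 hne)
          (orderOf_dvd_of_pow_eq_one haq) (orderOf_dvd_of_pow_eq_one ha)
      obtain ⟨a, b, ha, h⟩ := x.2
      obtain ⟨a', b', ha', h'⟩ := y.2
      refine (htr (x * y) (a * a') (a * b' + b) (fun z => ?_)).1 ?_
      · rw [Subgroup.coe_mul, Equiv.Perm.mul_apply, h', h]; ring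
      · rw [hone x a b ha h hx, hone y a' b' ha' h' hy, one_mul]
  obtain ⟨F, iG, iF, hcard, hspec, hclosed⟩ := Nat.find_spec hex
  refine ⟨F, iG, iF, hspec, hclosed, fun H N _ hHN hsp => ?_⟩
  have hlt : Nat.card (↥H ⧸ N) < Nat.card F := by
    have h1 := Subgroup.card_mul_index H
    have h2 := Subgroup.card_mul_index N
    rw [Subgroup.index_eq_card N] at h2
    have hq' : 0 < Nat.card (↥H ⧸ N) := Nat.card_pos
    rcases hHN with h | h
    · have h3 := Subgroup.one_lt_index_of_ne_top h
      have h4 : 0 < Nat.card N := Nat.card_pos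
      nlinarith
    · have h3 : 1 < Nat.card N := by
        have := (Subgroup.nontrivial_iff_ne_bot N).2 h
        exact Finite.one_lt_card
      have h4 : 0 < H.index := Nat.pos_of_ne_zero Subgroup.index_ne_zero_of_finite
      nlinarith
  refine Nat.find_min hex (m := Nat.card (↥H ⧸ N)) (hcard ▸ hlt)
    ⟨↥H ⧸ N, inferInstance, inferInstance, rfl, hsp, ?_⟩
  have lift : ∀ z : ↥H ⧸ N, z ^ q = 1 → ∃ h : H, h ^ q = 1 ∧ (h : ↥H ⧸ N) = z := by
    intro z hz
    induction z using QuotientGroup.induction_on with
    | H h =>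
      have hmem := Set.mem_range_self (f := (orderOf : F → ℕ)) (h : F)
      rw [hspec, Subgroup.orderOf_coe] at hmem
      simp only [Set.mem_insert_iff, Set.mem_singleton_iff] at hmem
      rcases hmem with e | e | e
      · exact ⟨h, by rw [orderOf_eq_one_iff.1 e, one_pow], rfl⟩
      · exact ⟨h, by rw [← e, pow_orderOf_eq_one], rfl⟩
      · refine ⟨1, one_pow q, ?_⟩
        have hzr : ((h : H) : ↥H ⧸ N) ^ r = 1 := by
          rw [← QuotientGroup.mk_pow, ← e, pow_orderOf_eq_one, QuotientGroup.mk_one]
        rw [QuotientGroup.mk_one, eq_comm, ← orderOf_eq_one_iff]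
        exact Nat.eq_one_of_dvd_coprimes ((Nat.coprime_primes hq hr).2 hne)
          (orderOf_dvd_of_pow_eq_one hz) (orderOf_dvd_of_pow_eq_one hzr)
  intro u v hu hv
  obtain ⟨h, hh, rfl⟩ := lift u hu
  obtain ⟨k, hk, rfl⟩ := lift v hv
  have : (h * k) ^ q = 1 := Subtype.ext (hclosed h.1 k.1 (congrArg Subtype.val hh) (congrArg Subtype.val hk))
  rw [← QuotientGroup.mk_mul, ← QuotientGroup.mk_pow, this, QuotientGroup.mk_one]

/-- A finite group is critical with respect to a set Ω of natural numbers when its set of element orders is Ω while no proper section H/N (H a subgroup, N normal in H, (H, N) ≠ (whole group, 1)) has Ω as its set of element orders. Let s ≥ 1 and let p(j,0), p(j,1) (j < s) be 2s pairwise distinct primes, and let Ω be the set of all products c(0)·…·c(s−1) with each c(j) ∈ {1, p(j,0), p(j,1)}. Then there are 2^s pairwise non-isomorphic finite groups critical with respect to Ω. -/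
theorem result (s : ℕ) (hs : 1 ≤ s) (p : Fin s → Fin 2 → ℕ)
    (hp : ∀ j i, (p j i).Prime) (hinj : ∀ j i j' i', p j i = p j' i' → j = j' ∧ i = i') :
    ∃ (G : Fin (2 ^ s) → Type) (_ : ∀ a, Group (G a)) (_ : ∀ a, Fintype (G a)),
      (∀ a b, a ≠ b → ¬ Nonempty (G a ≃* G b)) ∧
      ∀ a, Set.range (orderOf : (G a) → ℕ) = {m : ℕ | ∃ c : Fin s → ℕ, (∀ j, c j = 1 ∨ c j = p j 0 ∨ c j = p j 1) ∧ m = ∏ j, c j} ∧
      ∀ (H : Subgroup (G a)) (N : Subgroup ↥H) [N.Normal], (H ≠ ⊤ ∨ N ≠ ⊥) → Set.range (orderOf : (↥H ⧸ N) → ℕ) ≠ {m : ℕ | ∃ c : Fin s → ℕ, (∀ j, c j = 1 ∨ c j = p j 0 ∨ c j = p j 1) ∧ m = ∏ j, c j} := by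
  classical
  -- the factor of kernel prime `q` and complement prime `r`
  have hpair : ∀ j i, p j i ≠ p j (1 - i) := fun j i h => by
    obtain ⟨-, h2⟩ := hinj _ _ _ _ h
    revert h2; fin_cases i <;> simp
  choose F instF finF hFspec hFclosed hFcrit using
    fun (j : Fin s) (i : Fin 2) => exists_critical_factor (hp j i) (hp j (1 - i)) (hpair j i)
  let bit : Fin (2 ^ s) → Fin s → Fin 2 := fun a => finFunctionFinEquiv.symm a
  let G : Fin (2 ^ s) → Type := fun a => ∀ j, F j (bit a j)
  letI grp : ∀ a, Group (G a) := fun a => @Pi.group _ _ (fun j => instF j (bit a j))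
  haveI : ∀ j i, Finite (F j i) := finF
  haveI : ∀ a, Finite (G a) := fun a => by dsimp [G]; infer_instance
  have hfin2 : ∀ i : Fin 2, (i = 0 ∧ 1 - i = 1) ∨ (i = 1 ∧ 1 - i = 0) := by decide
  -- orders in the factors
  have hordF : ∀ j i (x : F j i), orderOf x = 1 ∨ orderOf x = p j 0 ∨ orderOf x = p j 1 := by
    intro j i x
    have h := Set.mem_range_self (f := (orderOf : F j i → ℕ)) x
    rw [hFspec j i] at h
    simp only [Set.mem_insert_iff, Set.mem_singleton_iff] at h
    rcases hfin2 i with ⟨e1, e2⟩ | ⟨e1, e2⟩ <;> rw [e2] at h <;> subst e1 <;> tauto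
  have hordF' : ∀ j i (c : ℕ), c = 1 ∨ c = p j 0 ∨ c = p j 1 → ∃ x : F j i, orderOf x = c := by
    intro j i c hc
    have : c ∈ Set.range (orderOf : F j i → ℕ) := by
      rw [hFspec j i]
      simp only [Set.mem_insert_iff, Set.mem_singleton_iff]
      rcases hfin2 i with ⟨e1, e2⟩ | ⟨e1, e2⟩ <;> rw [e2, e1] <;> tauto
    exact this
  have hcop : ∀ (c d : Fin s → ℕ), (∀ j, c j = 1 ∨ c j = p j 0 ∨ c j = p j 1) →
      (∀ j, d j = 1 ∨ d j = p j 0 ∨ d j = p j 1) → ∀ i j, i ≠ j → Nat.Coprime (c i) (d j) := by
    intro c d hc hd i j hij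
    have key : ∀ u v, Nat.Coprime (p i u) (p j v) := fun u v =>
      (Nat.coprime_primes (hp i u) (hp j v)).2 fun h => hij (hinj _ _ _ _ h).1
    rcases hc i with h | h | h <;> rcases hd j with h' | h' | h' <;> rw [h, h'] <;>
      first | exact Nat.coprime_one_left _ | exact Nat.coprime_one_right _ | exact key _ _
  have hord : ∀ a (x : G a), orderOf x = ∏ j, orderOf (x j) := by
    intro a x
    refine Nat.dvd_antisymm (orderOf_dvd_of_pow_eq_one (funext fun j => ?_)) ?_
    · show x j ^ _ = 1
      exact orderOf_dvd_iff_pow_eq_one.1 (Finset.dvd_prod_of_mem _ (Finset.mem_univ j))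
    · have hdvd : ∀ j, orderOf (x j) ∣ orderOf x := fun j =>
        orderOf_dvd_of_pow_eq_one (congrFun (pow_orderOf_eq_one x) j)
      have hS : ∀ S : Finset (Fin s), ∏ j ∈ S, orderOf (x j) ∣ orderOf x := by
        intro S
        induction S using Finset.induction with
        | empty => simp
        | insert k S hk ih =>
          rw [Finset.prod_insert hk]
          refine Nat.Coprime.mul_dvd_of_dvd_of_dvd ?_ (hdvd k) ih
          refine Nat.Coprime.prod_right fun l hl => ?_
          exact hcop _ _ (fun t => hordF t _ (x t)) (fun t => hordF t _ (x t)) k l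
            (fun e => hk (e ▸ hl))
      exact hS Finset.univ
  let Ω : Set ℕ := {m : ℕ | ∃ c : Fin s → ℕ, (∀ j, c j = 1 ∨ c j = p j 0 ∨ c j = p j 1) ∧ m = ∏ j, c j}
  have hspec : ∀ a, Set.range (orderOf : G a → ℕ) = Ω := by
    intro a
    ext m
    constructor
    · rintro ⟨x, rfl⟩
      exact ⟨fun j => orderOf (x j), fun j => hordF j _ (x j), hord a x⟩
    · rintro ⟨c, hc, rfl⟩
      choose x hx using fun j => hordF' j (bit a j) (c j) (hc j)
      exact ⟨x, by rw [hord a x]; simp_rw [hx]⟩
  refine ⟨G, grp, fun a => Fintype.ofFinite (G a), ?_, fun a => ⟨hspec a, ?_⟩⟩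
  · -- isomorphism type
    rintro a b hab ⟨e⟩
    obtain ⟨j, hj⟩ : ∃ j, bit a j ≠ bit b j := by
      by_contra h
      push Not at h
      exact hab (finFunctionFinEquiv.symm.injective (funext h))
    set q := p j (bit a j)
    set r := p j (bit b j)
    -- in a group with both kernels the two kinds of elements commute
    have hclosed : ∀ c, ∀ x y : G c, x ^ p j (bit c j) = 1 → y ^ p j (bit c j) = 1 →
        (x * y) ^ p j (bit c j) = 1 := by
      intro c x y hx hy
      funext k
      show (x k * y k) ^ p j (bit c j) = 1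
      by_cases hk : k = j
      · subst hk
        exact hFclosed k _ _ _ (congrFun hx k) (congrFun hy k)
      · have h1 : ∀ z : F k (bit c k), z ^ p j (bit c j) = 1 → z = 1 := by
          intro z hz
          rw [← orderOf_eq_one_iff]
          have hd := orderOf_dvd_of_pow_eq_one hz
          rcases hordF k _ z with h | h | h
          · exact h
          all_goals
            rw [h] at hd
            exact absurd (hinj _ _ _ _ ((Nat.prime_dvd_prime_iff_eq (hp _ _) (hp _ _)).1 hd)).1 hk
        rw [h1 _ (congrFun hx k), h1 _ (congrFun hy k), one_mul, one_pow]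
    have hr' : ∀ x y : G a, x ^ r = 1 → y ^ r = 1 → (x * y) ^ r = 1 := by
      intro x y hx hy
      apply e.injective
      rw [map_pow, map_mul, map_one]
      exact hclosed b _ _ (by rw [← map_pow, hx, map_one]) (by rw [← map_pow, hy, map_one])
    obtain ⟨u, hu⟩ := hordF' j (bit a j) q (by
      rcases Fin.exists_fin_two.1 ⟨bit a j, rfl⟩ with h | h <;> simp [q, h])
    obtain ⟨v, hv⟩ := hordF' j (bit a j) r (by
      rcases Fin.exists_fin_two.1 ⟨bit b j, rfl⟩ with h | h <;> simp [r, h])
    let x : G a := Pi.mulSingle j u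
    let y : G a := Pi.mulSingle j v
    have hx : x ^ q = 1 := by
      show (Pi.mulSingle j u : ∀ k, F k (bit a k)) ^ q = 1
      rw [← Pi.mulSingle_pow, ← hu, pow_orderOf_eq_one, Pi.mulSingle_one]
    have hy : y ^ r = 1 := by
      show (Pi.mulSingle j v : ∀ k, F k (bit a k)) ^ r = 1
      rw [← Pi.mulSingle_pow, ← hv, pow_orderOf_eq_one, Pi.mulSingle_one]
    have hne : q ≠ r := fun h => hj (hinj _ _ _ _ h).2
    have hcomm : x * y * x⁻¹ * y⁻¹ = 1 := by
      have h1 : (x * y * x⁻¹ * y⁻¹) ^ r = 1 := by
        refine hr' (x * y * x⁻¹) y⁻¹ ?_ (by rw [inv_pow, hy, inv_one])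
        rw [conj_pow, hy, mul_one, mul_inv_cancel]
      have h2 : (x * y * x⁻¹ * y⁻¹) ^ q = 1 := by
        rw [show x * y * x⁻¹ * y⁻¹ = x * (y * x⁻¹ * y⁻¹) by group]
        refine hclosed a x _ hx ?_
        rw [conj_pow, inv_pow, hx, inv_one, mul_one, mul_inv_cancel]
      rw [← orderOf_eq_one_iff]
      exact Nat.eq_one_of_dvd_coprimes ((Nat.coprime_primes (hp j _) (hp j _)).2 hne)
        (orderOf_dvd_of_pow_eq_one h2) (orderOf_dvd_of_pow_eq_one h1)
    have hc : Commute u v := by
      have h : x j * y j * (x j)⁻¹ * (y j)⁻¹ = 1 := congrFun hcomm j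
      rw [show x j = u from Pi.mulSingle_eq_same (M := fun k => F k (bit a k)) j u,
        show y j = v from Pi.mulSingle_eq_same (M := fun k => F k (bit a k)) j v] at h
      show u * v = v * u
      calc u * v = (u * v * u⁻¹ * v⁻¹) * (v * u) := by group
        _ = v * u := by rw [h, one_mul]
    have h := hordF j (bit a j) (u * v)
    rw [hc.orderOf_mul_eq_mul_orderOf_of_coprime (by
      rw [hu, hv]; exact (Nat.coprime_primes (hp j _) (hp j _)).2 hne), hu, hv] at h
    have hpr : ∀ t, Nat.Prime t → q * r ≠ t := fun t ht h =>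
      Nat.not_prime_mul (hp j _).one_lt.ne' (hp j _).one_lt.ne' (h ▸ ht : Nat.Prime (q * r))
    rcases h with h | h | h
    · exact (hp j (bit a j)).one_lt.ne' (mul_eq_one.1 h).1
    · exact hpr _ (hp j 0) h
    · exact hpr _ (hp j 1) h
  · intro H N _ hHN hsp
    have hall : ∀ j, ∀ f : F j (bit a j), ∃ h ∈ H, h j = f := by
      intro j
      have key : (H.map (Pi.evalMonoidHom (fun j => F j (bit a j)) j) = ⊤) ∧
          ∀ n : H, n ∈ N → (n : G a) j = 1 := by
        let π : H →* F j (bit a j) := (Pi.evalMonoidHom (fun j => F j (bit a j)) j).comp H.subtype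
        let A := π.range
        let π' : H →* A := π.rangeRestrict
        let B : Subgroup A := N.map π'
        haveI : B.Normal := Subgroup.Normal.map inferInstance π' π.rangeRestrict_surjective
        have hAB : Set.range (orderOf : A ⧸ B → ℕ) = ({1, p j (bit a j), p j (1 - bit a j)} : Set ℕ) := by
          apply Set.Subset.antisymm
          · rintro _ ⟨z, rfl⟩
            induction z using QuotientGroup.induction_on with
            | H w =>
              have hd := orderOf_map_dvd (QuotientGroup.mk' B) w
              rw [QuotientGroup.mk'_apply, ← Subgroup.orderOf_coe] at hd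
              have hw := Set.mem_range_self (f := (orderOf : F j (bit a j) → ℕ)) w.1
              rw [hFspec] at hw
              simp only [Set.mem_insert_iff, Set.mem_singleton_iff] at hw ⊢
              rcases hw with h | h | h <;> rw [h] at hd
              · exact Or.inl (Nat.dvd_one.1 hd)
              · exact ((Nat.dvd_prime (hp _ _)).1 hd).imp_right Or.inl
              · exact ((Nat.dvd_prime (hp _ _)).1 hd).imp_right Or.inr
          · rintro t (rfl | ht)
            · exact ⟨1, orderOf_one⟩
            obtain ⟨i, rfl⟩ : ∃ i, t = p j i := by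
              rcases ht with rfl | rfl <;> exact ⟨_, rfl⟩
            have : p j i ∈ Set.range (orderOf : (↥H ⧸ N) → ℕ) := by
              rw [hsp]
              refine ⟨Function.update 1 j (p j i), fun k => ?_, ?_⟩
              · by_cases hk : k = j
                · subst hk
                  rcases Fin.exists_fin_two.1 ⟨i, rfl⟩ with h | h <;> simp [h]
                · simp [Function.update_of_ne hk]
              · rw [Finset.prod_eq_single j (fun k _ hk => by simp [Function.update_of_ne hk])
                  (by simp)]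
                simp
            obtain ⟨z, hz⟩ := this
            induction z using QuotientGroup.induction_on with
            | H h =>
              refine ⟨QuotientGroup.mk' B (π' h), ?_⟩
              have hd : orderOf (QuotientGroup.mk' B (π' h)) ∣ p j i := by
                refine orderOf_dvd_of_pow_eq_one ?_
                rw [← map_pow, QuotientGroup.mk'_apply, QuotientGroup.eq_one_iff, ← map_pow]
                refine Subgroup.mem_map_of_mem _ ((QuotientGroup.eq_one_iff _).1 ?_)
                rw [QuotientGroup.mk_pow, ← hz, pow_orderOf_eq_one]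
              refine ((Nat.dvd_prime (hp _ _)).1 hd).resolve_left fun h1 => ?_
              rw [orderOf_eq_one_iff, QuotientGroup.mk'_apply, QuotientGroup.eq_one_iff] at h1
              obtain ⟨n, hn, hn'⟩ := Subgroup.mem_map.1 h1
              have hj : ((h * n⁻¹ : H) : G a) j = 1 := by
                have h2 : (n : G a) j = (h : G a) j := congrArg Subtype.val hn'
                show (h : G a) j * ((n : G a) j)⁻¹ = 1
                rw [h2, mul_inv_cancel]
              have hcp : Nat.Coprime (p j i) (orderOf ((h * n⁻¹ : H) : G a)) := by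
                rw [hord a]
                refine Nat.Coprime.prod_right fun k _ => ?_
                by_cases hk : k = j
                · subst hk; rw [hj, orderOf_one]; exact Nat.coprime_one_right _
                · have := hcop (fun l => if l = j then p j i else 1)
                    (fun l => orderOf (((h * n⁻¹ : H) : G a) l)) (fun l => by
                      by_cases hl : l = j
                      · subst hl
                        rcases Fin.exists_fin_two.1 ⟨i, rfl⟩ with h | h <;> simp [h]
                      · simp [hl]) (fun l => hordF l _ _) j k (Ne.symm hk)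
                  simpa using this
              have hd2 : orderOf ((h : H) : ↥H ⧸ N) ∣ orderOf ((h * n⁻¹ : H) : G a) := by
                have h2 := orderOf_map_dvd (QuotientGroup.mk' N) (h * n⁻¹)
                rw [map_mul, map_inv, QuotientGroup.mk'_apply, QuotientGroup.mk'_apply,
                  (QuotientGroup.eq_one_iff n).2 hn, inv_one, mul_one, ← Subgroup.orderOf_coe] at h2
                exact h2
              rw [hz] at hd2
              exact (hp j i).one_lt.ne' (Nat.eq_one_of_dvd_coprimes hcp dvd_rfl hd2)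
        obtain ⟨hA, hB⟩ : A = ⊤ ∧ B = ⊥ := by
          by_contra hcon
          exact hFcrit j (bit a j) A B (by tauto) hAB
        refine ⟨?_, fun n hn => ?_⟩
        · rw [← hA]
          exact ((MonoidHom.range_comp _ _).trans (by rw [Subgroup.range_subtype])).symm
        · have h1 : π' n ∈ B := Subgroup.mem_map_of_mem _ hn
          rw [hB, Subgroup.mem_bot] at h1
          exact congrArg Subtype.val h1
      intro f
      obtain ⟨h, hh, rfl⟩ := Subgroup.mem_map.1 (key.1.symm ▸ Subgroup.mem_top f)
      exact ⟨h, hh, rfl⟩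
    have hHtop : H = ⊤ := by
      rw [Subgroup.eq_top_iff']
      intro x
      -- split off the single components
      have hsingle : ∀ j, ∀ f : F j (bit a j), (Pi.mulSingle j f : G a) ∈ H := by
        intro j f
        obtain ⟨h, hh, rfl⟩ := hall j f
        let o := ∏ k ∈ Finset.univ.erase j, orderOf (h k)
        have hco : Nat.Coprime o (orderOf (h j)) :=
          Nat.Coprime.prod_left fun k hk => hcop _ _ (fun l => hordF l _ (h l))
            (fun l => hordF l _ (h l)) k j (Finset.mem_erase.1 hk).1
        obtain ⟨u, hu⟩ := exists_pow_eq_self_of_coprime hco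
        have : (Pi.mulSingle j (h j) : G a) = (h ^ o) ^ u := by
          funext k
          show _ = (h k ^ o) ^ u
          by_cases hk : k = j
          · subst hk; rw [Pi.mulSingle_eq_same, hu]
          · rw [Pi.mulSingle_eq_of_ne hk, orderOf_dvd_iff_pow_eq_one.1
              (Finset.dvd_prod_of_mem _ (Finset.mem_erase.2 ⟨hk, Finset.mem_univ k⟩) :
                orderOf (h k) ∣ o), one_pow]
        rw [this]; exact H.pow_mem (H.pow_mem hh _) _
      exact Subgroup.pi_mem_of_mulSingle_mem x fun j => hsingle j (x j)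
    subst hHtop
    refine hHN.elim (fun h => h rfl) fun hN => ?_
    obtain ⟨n, hn, hn1⟩ := (Subgroup.bot_or_exists_ne_one N).resolve_left hN
    obtain ⟨j, hj⟩ : ∃ j, (n : G a) j ≠ 1 := Function.ne_iff.1 fun h => hn1 (Subtype.ext h)
    -- the image of `N` in the factor is trivial by criticality
    let π : (⊤ : Subgroup (G a)) →* F j (bit a j) :=
      (Pi.evalMonoidHom (fun j => F j (bit a j)) j).comp (⊤ : Subgroup (G a)).subtype
    have hπ : Function.Surjective π := fun f =>
      ⟨⟨(Pi.mulSingle j f : ∀ k, F k (bit a k)), trivial⟩,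
        Pi.mulSingle_eq_same (M := fun k => F k (bit a k)) j f⟩
    let B : Subgroup (⊤ : Subgroup (F j (bit a j))) :=
      (N.map π).comap (⊤ : Subgroup (F j (bit a j))).subtype
    haveI : B.Normal := (Subgroup.Normal.map inferInstance π hπ).comap _
    refine hFcrit j (bit a j) ⊤ B (Or.inr fun hB => hj ?_) ?_
    · have h1 : (⟨π n, trivial⟩ : (⊤ : Subgroup (F j (bit a j)))) ∈ B := ⟨n, hn, rfl⟩
      rw [hB, Subgroup.mem_bot] at h1
      exact congrArg Subtype.val h1
    apply Set.Subset.antisymm
    · rintro _ ⟨z, rfl⟩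
      induction z using QuotientGroup.induction_on with
      | H w =>
        have hd := orderOf_map_dvd (QuotientGroup.mk' B) w
        rw [QuotientGroup.mk'_apply, ← Subgroup.orderOf_coe] at hd
        have hw := Set.mem_range_self (f := (orderOf : F j (bit a j) → ℕ)) w.1
        rw [hFspec] at hw
        simp only [Set.mem_insert_iff, Set.mem_singleton_iff] at hw ⊢
        rcases hw with h | h | h <;> rw [h] at hd
        · exact Or.inl (Nat.dvd_one.1 hd)
        · exact ((Nat.dvd_prime (hp _ _)).1 hd).imp_right Or.inl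
        · exact ((Nat.dvd_prime (hp _ _)).1 hd).imp_right Or.inr
    · rintro t (rfl | ht)
      · exact ⟨1, orderOf_one⟩
      obtain ⟨i, rfl⟩ : ∃ i, t = p j i := by
        rcases ht with rfl | rfl <;> exact ⟨_, rfl⟩
      have : p j i ∈ Set.range (orderOf : (↥(⊤ : Subgroup (G a)) ⧸ N) → ℕ) := by
        rw [hsp]
        refine ⟨Function.update 1 j (p j i), fun k => ?_, ?_⟩
        · by_cases hk : k = j
          · subst hk
            rcases Fin.exists_fin_two.1 ⟨i, rfl⟩ with h | h <;> simp [h]
          · simp [Function.update_of_ne hk]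
        · rw [Finset.prod_eq_single j (fun k _ hk => by simp [Function.update_of_ne hk]) (by simp)]
          simp
      obtain ⟨z, hz⟩ := this
      induction z using QuotientGroup.induction_on with
      | H h =>
        refine ⟨((⟨π h, trivial⟩ : (⊤ : Subgroup (F j (bit a j)))) : _ ⧸ B), ?_⟩
        have hd : orderOf ((⟨π h, trivial⟩ : (⊤ : Subgroup (F j (bit a j)))) : _ ⧸ B) ∣ p j i := by
          refine orderOf_dvd_of_pow_eq_one ?_
          rw [← QuotientGroup.mk_pow, QuotientGroup.eq_one_iff]
          show π h ^ p j i ∈ N.map π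
          rw [← map_pow]
          refine Subgroup.mem_map_of_mem _ ((QuotientGroup.eq_one_iff _).1 ?_)
          rw [QuotientGroup.mk_pow, ← hz, pow_orderOf_eq_one]
        refine ((Nat.dvd_prime (hp _ _)).1 hd).resolve_left fun h1 => ?_
        rw [orderOf_eq_one_iff, QuotientGroup.eq_one_iff] at h1
        obtain ⟨n', hn', hn''⟩ : ∃ n' ∈ N, π n' = π h := h1
        have hj' : ((h * n'⁻¹ : (⊤ : Subgroup (G a))) : G a) j = 1 := by
          show π h * (π n')⁻¹ = 1
          rw [hn'', mul_inv_cancel]
        have hcp : Nat.Coprime (p j i) (orderOf ((h * n'⁻¹ : (⊤ : Subgroup (G a))) : G a)) := by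
          rw [hord a]
          refine Nat.Coprime.prod_right fun k _ => ?_
          by_cases hk : k = j
          · subst hk; rw [hj', orderOf_one]; exact Nat.coprime_one_right _
          · have := hcop (fun l => if l = j then p j i else 1)
              (fun l => orderOf (((h * n'⁻¹ : (⊤ : Subgroup (G a))) : G a) l)) (fun l => by
                by_cases hl : l = j
                · subst hl
                  rcases Fin.exists_fin_two.1 ⟨i, rfl⟩ with h | h <;> simp [h]
                · simp [hl]) (fun l => hordF l _ _) j k (Ne.symm hk)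
            simpa using this
        have hd2 : orderOf (h : ↥(⊤ : Subgroup (G a)) ⧸ N) ∣
            orderOf ((h * n'⁻¹ : (⊤ : Subgroup (G a))) : G a) := by
          have h2 := orderOf_map_dvd (QuotientGroup.mk' N) (h * n'⁻¹)
          rw [map_mul, map_inv, QuotientGroup.mk'_apply, QuotientGroup.mk'_apply,
            (QuotientGroup.eq_one_iff n').2 hn', inv_one, mul_one, ← Subgroup.orderOf_coe] at h2
          exact h2
        rw [hz] at hd2
        exact (hp j i).one_lt.ne' (Nat.eq_one_of_dvd_coprimes hcp dvd_rfl hd2)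

end Cfsg.Agent.S3599
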