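import Cfsg.Statements.S3619
import Cfsg.Agent.H80.JordanSets

set_option autoImplicit false
open Cfsg

namespace Cfsg.Agent.S3619

/-- Let G act faithfully on a finite set in such a way that every non-trivial normal subgroup of G is transitive (G is quasiprimitive). Let Γ be a subset with more than one point and not the whole set, such that the pointwise stabilizer of the complement of Γ acts transitively on Γ (a Jordan set). If that pointwise stabilizer acts primitively on Γ, then G is k-fold transitive where k is one more than the number of points outside Γ (the Jordan set is a trivial one). -/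
theorem result {G Ω : Type*} [Group G] [Finite G] [MulAction G Ω] [FaithfulSMul G Ω] [Finite Ω]
    (hqp : ∀ N : Subgroup G, N.Normal → N ≠ ⊥ → MulAction.IsPretransitive ↥N Ω)
    (Γ : Set Ω) (hΓ1 : 1 < Γ.ncard) (hΓ2 : Γ.ncard < Nat.card Ω)
    (hJ : MulAction.IsPretransitive ↥(fixingSubgroup G Γᶜ) ↥(SubMulAction.ofFixingSubgroup G Γᶜ))
    (hJp : MulAction.IsPreprimitive ↥(fixingSubgroup G Γᶜ) ↥(SubMulAction.ofFixingSubgroup G Γᶜ)) :
    MulAction.IsMultiplyPretransitive G Ω (Nat.card Ω - Γ.ncard + 1) := by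
  classical
  have mem : ∀ {z : Ω}, z ∈ Γ → z ∈ SubMulAction.ofFixingSubgroup G Γᶜ := fun hz h => h hz
  obtain ⟨a, ha, b, hb, hab⟩ := (Set.one_lt_ncard Γ.toFinite).1 hΓ1
  have hΓnt : Γ.Nontrivial := ⟨a, ha, b, hb, hab⟩
  have hG : (⊤ : Subgroup G) ≠ ⊥ := by
    intro h
    obtain ⟨k, hk⟩ := hJ.exists_smul_eq ⟨a, mem ha⟩ ⟨b, mem hb⟩
    have h1 : (k.1 : G) ∈ (⊤ : Subgroup G) := trivial
    rw [h, Subgroup.mem_bot] at h1
    have h2 : k.1 • a = b := congrArg Subtype.val hk
    rw [h1, one_smul] at h2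
    exact hab h2
  have htop := hqp ⊤ inferInstance hG
  have hpt : MulAction.IsPretransitive G Ω := ⟨fun x y => by
    obtain ⟨g, hg⟩ := htop.exists_smul_eq x y
    exact ⟨g.1, hg⟩⟩
  have hkey : ∀ B : Set Ω, MulAction.IsBlock G B → (B ∩ Γ).Nonempty →
      B.Subsingleton ∨ B = Set.univ := by
    intro B hB hne
    rcases H80.block_jordan_cases hB hJ with h | h | h
    · rw [h] at hne; exact absurd hne Set.not_nonempty_empty
    · exact Or.inr (H80.block_eq_univ_of_jordan_subset hqp hB hΓnt h hJ)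
    · rcases hJp.isTrivialBlock_of_isBlock
        (hB.preimage (SubMulAction.ofFixingSubgroup_equivariantMap G Γᶜ)) with hs | hu
      · exact Or.inl fun x hx y hy => congrArg Subtype.val
          (hs (x := ⟨x, mem (h hx)⟩) hx (y := ⟨y, mem (h hy)⟩) hy)
      · refine Or.inr (H80.block_eq_univ_of_jordan_subset hqp hB hΓnt (fun x hx => ?_) hJ)
        exact (hu.symm ▸ Set.mem_univ (⟨x, mem hx⟩ : SubMulAction.ofFixingSubgroup G Γᶜ) :
          (⟨x, mem hx⟩ : SubMulAction.ofFixingSubgroup G Γᶜ) ∈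
            (SubMulAction.ofFixingSubgroup_equivariantMap G Γᶜ) ⁻¹' B)
  have hprim : MulAction.IsPreprimitive G Ω := by
    refine MulAction.IsPreprimitive.of_isTrivialBlock_base a fun {B} haB hB => ?_
    exact hkey B hB ⟨a, haB, ha⟩
  have hc : (Γᶜ).ncard = Nat.card Ω - Γ.ncard := Set.ncard_compl Γ
  have hM := hprim.isMultiplyPreprimitive (s := Γᶜ) (n := Nat.card Ω - Γ.ncard - 1)
    (by omega) (by omega) hJp
  have := hM.isMultiplyPretransitive
  rwa [show Nat.card Ω - Γ.ncard + 1 = Nat.card Ω - Γ.ncard - 1 + 2 by omega]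

end Cfsg.Agent.S3619
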