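import Cfsg.Statements.S3627
import Cfsg.Agent.H50.J1Spectrum.Main
import Cfsg.Agent.H10.J1.Order

set_option autoImplicit false
open Cfsg

namespace Cfsg.Agent.S3627

/-- Let J be the first Janko group. Then there are finite groups of arbitrarily large order with exactly the same set of element orders as J × J × J × J. -/
theorem result (N : ℕ) : ∃ (H : Type) (_ : Group H) (_ : Fintype H), N < Fintype.card H ∧
      Set.range (orderOf : H → ℕ) = Set.range (orderOf : ↥Cfsg.Spor.J1 × ↥Cfsg.Spor.J1 × ↥Cfsg.Spor.J1 × ↥Cfsg.Spor.J1 → ℕ) := by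
  exact Cfsg.Agent.H50.J1Spectrum.exists_isospectral Cfsg.Agent.H10.J1.card_J1 N

end Cfsg.Agent.S3627
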