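import Cfsg.Statements.S3633
import Cfsg.Agent.H81.Coclique
-- import your own Cfsg.Agent.* helpers here

set_option autoImplicit false
open Cfsg

namespace Cfsg.Agent.S3633

/-- Let G be a finite group and ρ a set of at least three prime divisors of the order of G that are pairwise non-adjacent in the prime graph (no element of order rs for distinct r, s ∈ ρ). Then at most one prime of ρ divides the order of any given solvable normal subgroup of G; in particular G is not solvable. -/
theorem result {G : Type*} [Group G] [Finite G] (ρ : Finset ℕ) (hρ : 3 ≤ ρ.card) (hc : ((∀ r ∈ ρ, r.Prime ∧ r ∣ Nat.card G) ∧ (∀ r ∈ ρ, ∀ s ∈ ρ, r ≠ s → ¬ ∃ x : G, orderOf x = r * s)))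
    (K : Subgroup G) [K.Normal] (hK : Group.IsSolvable ↥K) :
    (∀ r ∈ ρ, ∀ s ∈ ρ, r ∣ Nat.card ↥K → s ∣ Nat.card ↥K → r = s) ∧ ¬ Group.IsSolvable G := by
  obtain ⟨hc1, hc2⟩ := hc
  refine ⟨fun r hr s hs hrK hsK => ?_, fun hsol => ?_⟩
  · by_contra hne
    obtain ⟨t, ht, htr, hts⟩ : ∃ t ∈ ρ, t ≠ r ∧ t ≠ s := by
      by_contra h
      push Not at h
      have : ρ ⊆ {r, s} := fun x hx => by
        by_cases hxr : x = r
        · simp [hxr]
        · simp [h x hx hxr]
      exact absurd ((Finset.card_le_card this).trans Finset.card_le_two) (by omega)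
    obtain ⟨hrp, -⟩ := hc1 r hr
    obtain ⟨hsp, -⟩ := hc1 s hs
    obtain ⟨htp, htd⟩ := hc1 t ht
    have hno : ∀ (H : Type _) (_ : Group H) (f : H →* G), Function.Injective f →
        ¬ ((∃ x : H, orderOf x = r * s) ∨ (∃ x : H, orderOf x = r * t) ∨
          (∃ x : H, orderOf x = s * t)) := by
      intro H _ f hf h
      rcases h with ⟨x, hx⟩ | ⟨x, hx⟩ | ⟨x, hx⟩
      · exact hc2 r hr s hs hne ⟨f x, by rw [orderOf_injective f hf]; exact hx⟩
      · exact hc2 r hr t ht (Ne.symm htr) ⟨f x, by rw [orderOf_injective f hf]; exact hx⟩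
      · exact hc2 s hs t ht (Ne.symm hts) ⟨f x, by rw [orderOf_injective f hf]; exact hx⟩
    by_cases htK : t ∣ Nat.card K
    · exact hno K inferInstance K.subtype K.subtype_injective
        (Cfsg.Agent.H81.adjacent_of_solvable hrp hsp htp hne (Ne.symm htr) (Ne.symm hts) _ rfl hK
          hrK hsK htK)
    · exact hno G inferInstance (MonoidHom.id G) Function.injective_id
        (Cfsg.Agent.H81.adjacent_of_solvable_normal K hK hrp hsp htp hne (Ne.symm htr) (Ne.symm hts)
          hrK hsK ((htp.dvd_mul.mp (K.card_mul_index.symm ▸ htd)).resolve_left htK))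
  · obtain ⟨a, b, c, ha, hb, hc', hab, hac, hbc⟩ := Finset.two_lt_card_iff.mp (show 2 < ρ.card by omega)
    rcases Cfsg.Agent.H81.adjacent_of_solvable (hc1 a ha).1 (hc1 b hb).1 (hc1 c hc').1 hab hac hbc _
      rfl hsol (hc1 a ha).2 (hc1 b hb).2 (hc1 c hc').2 with h | h | h
    · exact hc2 a ha b hb hab h
    · exact hc2 a ha c hc' hac h
    · exact hc2 b hb c hc' hbc h

end Cfsg.Agent.S3633
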