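import Cfsg.Statements.S3639
import Cfsg.Agent.H8.SzFpf
-- import your own Cfsg.Agent.* helpers here

set_option autoImplicit false
open Cfsg

namespace Cfsg.Agent.S3639

open Matrix in
/-- `G` acting diagonally on `k` copies of the natural module. -/
def diagAct {F : Type*} [Field F] (m k : ℕ) :
    Cfsg.Sz F m →* MulAut (Multiplicative (Fin k → Fin 4 → F)) where
  toFun g :=
    { toFun := fun a => Multiplicative.ofAdd fun i => g.1.1 *ᵥ Multiplicative.toAdd a i
      invFun := fun a => Multiplicative.ofAdd fun i => g⁻¹.1.1 *ᵥ Multiplicative.toAdd a i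
      left_inv := fun a => by
        simp only [toAdd_ofAdd, H8.Sz.inv_mulVec_cancel]
        exact ofAdd_toAdd a
      right_inv := fun a => by
        simp only [toAdd_ofAdd]
        refine Eq.trans (congrArg _ (funext fun i => ?_)) (ofAdd_toAdd a)
        simpa using H8.Sz.inv_mulVec_cancel g⁻¹ (Multiplicative.toAdd a i)
      map_mul' := fun a b => by
        rw [← ofAdd_add]
        exact congrArg _ (funext fun i => Matrix.mulVec_add _ _ _) }
  map_one' := MulEquiv.ext fun a => by simp
  map_mul' g h := MulEquiv.ext fun a => by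
    simp [Matrix.mulVec_mulVec]

/-- The split extension of `k` copies of the natural module by the Suzuki group. -/
abbrev Ext (F : Type*) [Field F] (m k : ℕ) : Type _ :=
  SemidirectProduct (Multiplicative (Fin k → Fin 4 → F)) (Cfsg.Sz F m) (diagAct m k)

/-- Let S be the Suzuki group over the field with q = 2^(2m+1) ≥ 8 elements. Then there are finite groups of arbitrarily large order with the same prime graph as S. -/
theorem result {F : Type*} [Field F] [Fintype F] {m : ℕ} (hm : 1 ≤ m) (hF : Fintype.card F = 2 ^ (2 * m + 1)) (N : ℕ) :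
    ∃ (H : Type) (_ : Group H) (_ : Fintype H), N < Fintype.card H ∧ ((∀ r : ℕ, r.Prime → (r ∣ Nat.card ↥(Cfsg.Lie.Sz F (2 ^ (m + 1))) ↔ r ∣ Nat.card H)) ∧
      (∀ r s : ℕ, r.Prime → s.Prime → r ≠ s → ((∃ x : ↥(Cfsg.Lie.Sz F (2 ^ (m + 1))), orderOf x = r * s) ↔ (∃ y : H, orderOf y = r * s)))) := by
  classical
  have H := H7.SzHyp.of_fintype hm hF
  haveI := H.finite_Sz
  haveI := H.charTwo
  haveI : Finite (Ext F m (N + 1)) := Finite.of_equiv _ SemidirectProduct.equivProd.symm
  let H1 : Type := {_i : Fin (Nat.card (Ext F m (N + 1))) // True}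
  let eq1 : H1 ≃ Ext F m (N + 1) :=
    (Equiv.subtypeUnivEquiv fun _ => trivial).trans (Finite.equivFin (Ext F m (N + 1))).symm
  letI : Group H1 := eq1.group
  haveI : Fintype H1 := inferInstanceAs (Fintype {_i : Fin (Nat.card (Ext F m (N + 1))) // True})
  let e : H1 ≃* Ext F m (N + 1) := eq1.mulEquiv
  have hcard1 : Nat.card H1 = Nat.card (Ext F m (N + 1)) := Nat.card_congr eq1
  have hcard : Nat.card (Ext F m (N + 1)) = 2 ^ ((2 * m + 1) * 4 * (N + 1)) * Nat.card (Cfsg.Sz F m) := by
    rw [SemidirectProduct.card]
    congr 1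
    rw [Nat.card_congr Multiplicative.toAdd, Nat.card_fun, Nat.card_fun, Nat.card_fin, Nat.card_fin,
      H.card, ← pow_mul, ← pow_mul]
    congr 1
    ring
  have hbig : N < Nat.card (Ext F m (N + 1)) := by
    rw [hcard]
    have h1 : N + 1 < 2 ^ (N + 1) := Nat.lt_two_pow_self
    have h2 : 2 ^ (N + 1) ≤ 2 ^ ((2 * m + 1) * 4 * (N + 1)) :=
      Nat.pow_le_pow_right two_pos (Nat.le_mul_of_pos_left _ (by positivity))
    have h3 : 2 ^ ((2 * m + 1) * 4 * (N + 1)) ≤
        2 ^ ((2 * m + 1) * 4 * (N + 1)) * Nat.card (Cfsg.Sz F m) :=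
      Nat.le_mul_of_pos_right _ Nat.card_pos
    omega
  refine ⟨H1, inferInstance, inferInstance, by rwa [← Nat.card_eq_fintype_card, hcard1], fun r hr => ?_,
    fun r s hr hs hrs => ?_⟩
  · rw [← Nat.card_congr H.lieEquiv.toEquiv, hcard1, hcard]
    constructor
    · exact fun h => dvd_mul_of_dvd_right h _
    · intro h
      rcases hr.dvd_mul.1 h with h | h
      · rw [(Nat.prime_dvd_prime_iff_eq hr Nat.prime_two).1 (hr.dvd_of_dvd_pow h), H.card_Sz]
        exact dvd_mul_of_dvd_left (dvd_mul_of_dvd_left (dvd_pow (dvd_pow_self 2 (by omega)) two_ne_zero) _) _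
      · exact h
  · constructor
    · rintro ⟨x, hx⟩
      refine ⟨e.symm (SemidirectProduct.inr (H.lieEquiv.symm x)), ?_⟩
      rw [MulEquiv.orderOf_eq, orderOf_injective _ SemidirectProduct.inr_injective,
        MulEquiv.orderOf_eq, hx]
    · rintro ⟨y, hy⟩
      suffices ∃ g : Cfsg.Sz F m, orderOf g = r * s by
        obtain ⟨g, hg⟩ := this
        exact ⟨H.lieEquiv g, by rw [MulEquiv.orderOf_eq, hg]⟩
      have hz : orderOf (e y) = r * s := by rw [MulEquiv.orderOf_eq, hy]
      set z := e y with hzdef
      refine ⟨z.right, ?_⟩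
      have hker : ∀ w : (Ext F m (N + 1)), w.right = 1 → w ^ 2 = 1 := by
        intro w hw
        rw [sq]
        ext1
        · simp only [SemidirectProduct.mul_left, hw, map_one, MulAut.one_apply, SemidirectProduct.one_left]
          apply Multiplicative.toAdd.injective
          rw [toAdd_mul, toAdd_one]
          funext i j
          exact H.add_self _
        · simp [hw]
      have hpow : ∀ n : ℕ, (z ^ n).right = z.right ^ n := fun n =>
        map_pow (SemidirectProduct.rightHom : (Ext F m (N + 1)) →* Cfsg.Sz F m) z n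
      have hd1 : orderOf z.right ∣ r * s := by
        rw [orderOf_dvd_iff_pow_eq_one, ← hpow, ← hz, pow_orderOf_eq_one]
        rfl
      have hd2 : r * s ∣ orderOf z.right * 2 := by
        rw [← hz, orderOf_dvd_iff_pow_eq_one, pow_mul]
        exact hker _ (by rw [hpow, pow_orderOf_eq_one])
      by_contra hne
      -- then `z.right` has odd order and `z ^ orderOf z.right` is a fixed vector
      set d := orderOf z.right with hddef
      have hdpos : 0 < d := orderOf_pos _
      have hd2' : r * s = d * 2 := by
        obtain ⟨c, hc⟩ := hd1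
        rw [hc] at hd2
        have hc2 : c ∣ 2 := (Nat.mul_dvd_mul_iff_left hdpos).1 hd2
        rcases (Nat.dvd_prime Nat.prime_two).1 hc2 with rfl | rfl
        · exact absurd (by rw [hc, mul_one]) hne
        · exact hc
      have hodd : Odd d := by
        by_contra he
        rw [Nat.not_odd_iff_even] at he
        obtain ⟨c, hcd⟩ : 2 ∣ d := he.two_dvd
        have h4 : 2 * 2 ∣ r * s := ⟨c, by rw [hd2', hcd]; ring⟩
        have hr2 : 2 ∣ r * s := (dvd_mul_right 2 2).trans h4
        rcases Nat.prime_two.dvd_mul.1 hr2 with h | h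
        · obtain rfl := (Nat.prime_dvd_prime_iff_eq Nat.prime_two hr).1 h
          have := (Nat.mul_dvd_mul_iff_left two_pos).1 h4
          exact hrs ((Nat.prime_dvd_prime_iff_eq Nat.prime_two hs).1 this)
        · obtain rfl := (Nat.prime_dvd_prime_iff_eq Nat.prime_two hs).1 h
          have := (Nat.mul_dvd_mul_iff_right two_pos).1 h4
          exact hrs ((Nat.prime_dvd_prime_iff_eq Nat.prime_two hr).1 this).symm
      have hne1 : z.right ≠ 1 := by
        intro h1
        have hd1' : d = 1 := by rw [hddef, h1, orderOf_one]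
        rw [hd1', one_mul] at hd2'
        have : 2 * 2 ≤ r * s := Nat.mul_le_mul hr.two_le hs.two_le
        omega
      -- the fixed vector
      set w := z ^ d with hwdef
      have hw : w.right = 1 := by rw [hwdef, hpow, pow_orderOf_eq_one]
      have hcomm : z * w = w * z := by rw [hwdef, ← pow_succ', ← pow_succ]
      have hleft := congrArg SemidirectProduct.left hcomm
      simp only [SemidirectProduct.mul_left, hw, map_one, MulAut.one_apply] at hleft
      rw [mul_comm w.left] at hleft
      have hfix : diagAct (F := F) m (N + 1) z.right w.left = w.left := mul_left_cancel hleft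
      have hw1 : w ≠ 1 := by
        rw [hwdef, Ne, ← orderOf_dvd_iff_pow_eq_one, hz, hd2']
        intro h
        have := Nat.le_of_dvd hdpos h
        omega
      apply hw1
      ext1
      · apply Multiplicative.toAdd.injective
        rw [SemidirectProduct.one_left, toAdd_one]
        funext i
        refine H8.Sz.fixes_only_zero H hne1 hodd _ ?_
        exact congrFun (congrArg Multiplicative.toAdd hfix) i
      · exact hw

end Cfsg.Agent.S3639
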