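import Cfsg.Statements.S3648
import Cfsg.Agent.H25.NsePGL.Model
-- import your own Cfsg.Agent.* helpers here

set_option autoImplicit false
open Cfsg

namespace Cfsg.Agent.S3648

/-- For a finite group X let nse(X) be the set of values of the function 'number of elements of order k' over the element orders k that occur. Let F be a finite field of odd order q > 3 and P = PGL(2, F) = GL(2, F) modulo its centre. If G is a finite group with the same order as P and nse(G) = nse(P), then G is isomorphic to P. -/
theorem result {F : Type*} [Field F] [Fintype F] (hodd : Odd (Fintype.card F)) (h3 : 3 < Fintype.card F)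
    {G : Type*} [Group G] [Finite G] (hcard : Nat.card G = Nat.card (GL (Fin 2) F ⧸ Subgroup.center (GL (Fin 2) F)))
    (hnse : {c : ℕ | 0 < c ∧ ∃ n : ℕ, c = Nat.card {g : G // orderOf g = n}} = {c : ℕ | 0 < c ∧ ∃ n : ℕ, c = Nat.card {g : (GL (Fin 2) F ⧸ Subgroup.center (GL (Fin 2) F)) // orderOf g = n}}) :
    Nonempty (G ≃* (GL (Fin 2) F ⧸ Subgroup.center (GL (Fin 2) F))) := by
  obtain ⟨p, hchar⟩ := CharP.exists F
  haveI := hchar
  have hp : p.Prime := CharP.char_is_prime F p
  haveI := Fact.mk hp
  have hp2 : p ≠ 2 := fun e => by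
    subst e
    exact (Nat.not_even_iff_odd.2 hodd) (Nat.even_iff.2 (FiniteField.even_card_of_char_two (ringChar.eq F 2)))
  have H := H25.NsePGL.hyp_of_nse hp2 hcard hnse
  obtain ⟨K, iK, iKF, hK, ⟨e⟩⟩ := H.iso
  let σ : K ≃+* F := FiniteField.ringEquivOfCardEq (by rw [← hK])
  let m : GL (Fin 2) K ≃* GL (Fin 2) F := Units.mapEquiv (RingEquiv.mapMatrix σ).toMulEquiv
  refine ⟨e.trans (QuotientGroup.congr _ _ m ?_)⟩
  ext x
  constructor
  · rintro ⟨y, hy, rfl⟩
    exact Subgroup.mem_center_iff.2 fun z => by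
      obtain ⟨z, rfl⟩ := m.surjective z
      exact (map_mul m _ _).symm.trans ((congrArg m (Subgroup.mem_center_iff.1 hy z)).trans (map_mul m _ _))
  · intro hx
    obtain ⟨y, rfl⟩ := m.surjective x
    exact ⟨y, Subgroup.mem_center_iff.2 fun z => m.injective
      (by rw [map_mul, map_mul]; exact Subgroup.mem_center_iff.1 hx (m z)), rfl⟩

end Cfsg.Agent.S3648
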