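import Cfsg.Statements.S3660
import Cfsg.Agent.H81.PrimeGraph
-- import your own Cfsg.Agent.* helpers here

set_option autoImplicit false
open Cfsg

namespace Cfsg.Agent.S3660

/-- The prime graph of a finite group has the prime divisors of its order as vertices, two distinct primes p, q being joined when the group has an element of order pq; two groups have the same prime graph when they have the same prime divisors and the same joined pairs. Let F be a finite field of characteristic 2 with at least 4 elements. Then there are finite groups of arbitrarily large order with the same prime graph as PSL(2,F); in particular PSL(2,F) is not determined by its prime graph. -/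
theorem result {F : Type*} [Field F] [Fintype F] [CharP F 2] (hF : 4 ≤ Fintype.card F) (N : ℕ) :
    ∃ (H : Type) (_ : Group H) (_ : Finite H), N < Nat.card H ∧
      ((∀ p : ℕ, p.Prime → (p ∣ Nat.card (Matrix.ProjectiveSpecialLinearGroup (Fin 2) F) ↔ p ∣ Nat.card H)) ∧
      (∀ p q : ℕ, p.Prime → q.Prime → p ≠ q → ((∃ g : (Matrix.ProjectiveSpecialLinearGroup (Fin 2) F), orderOf g = p * q) ↔ (∃ g : H, orderOf g = p * q)))) := by
  obtain ⟨H, iG, iF, hN, hp, he⟩ := Cfsg.Agent.H81.exists_big_samePrimeGraph_sl_two F N
  have hc : Subgroup.center (Matrix.SpecialLinearGroup (Fin 2) F) = ⊥ := by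
    rw [eq_bot_iff]
    intro A hA
    obtain ⟨r, hr, hrA⟩ := Matrix.SpecialLinearGroup.mem_center_iff.mp hA
    have hr1 : r = 1 := by
      have h : (r + 1) ^ 2 = 0 := by
        rw [CharTwo.add_sq, one_pow]
        rw [Fintype.card_fin] at hr
        rw [hr]
        exact CharTwo.add_self_eq_zero 1
      exact CharTwo.add_eq_zero.mp (pow_eq_zero_iff (n := 2) two_ne_zero |>.mp h)
    rw [Subgroup.mem_bot]
    apply Subtype.ext
    rw [← hrA, hr1]
    simp
  let e : Matrix.ProjectiveSpecialLinearGroup (Fin 2) F ≃* Matrix.SpecialLinearGroup (Fin 2) F :=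
    (QuotientGroup.quotientMulEquivOfEq hc).trans QuotientGroup.quotientBot
  refine ⟨H, iG, iF, hN, fun p hpp => ?_, fun p q hpp hq hpq => ?_⟩
  · rw [Nat.card_congr e.toEquiv]; exact hp p hpp
  · rw [← he p q hpp hq hpq]
    exact ⟨fun ⟨g, hg⟩ => ⟨e g, by rw [MulEquiv.orderOf_eq]; exact hg⟩,
      fun ⟨g, hg⟩ => ⟨e.symm g, by rw [MulEquiv.orderOf_eq]; exact hg⟩⟩

end Cfsg.Agent.S3660
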