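import Cfsg.Statements.S3663
-- import your own Cfsg.Agent.* helpers here
import Cfsg.Agent.H23.UThreeFour.Count
import Cfsg.Agent.H79.SemiSpectrum
import Cfsg.Agent.H71.UnitaryThreeLower

set_option autoImplicit false
open Cfsg

namespace Cfsg.Agent.S3663

open scoped BigOperators
open Cfsg.Agent.H23.UThreeFour

variable (F : Type*) [Field F] [Fintype F]

/-- Functions summing to zero over every coset of every subgroup of order 13. -/
def fpfModule : AddSubgroup (Cfsg.SU 3 F 4 → ZMod 5) where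
  carrier := {φ | ∀ x : Cfsg.SU 3 F 4, orderOf x = 13 →
    ∀ g, ∑ i ∈ Finset.range 13, φ (x ^ i * g) = 0}
  add_mem' {a b} ha hb x hx g := by
    simp [Finset.sum_add_distrib, ha x hx g, hb x hx g]
  zero_mem' x _ g := by simp
  neg_mem' {a} ha x hx g := by simp [ha x hx g]

theorem fpfModule_translate {φ : Cfsg.SU 3 F 4 → ZMod 5} (hφ : φ ∈ fpfModule F)
    (h : Cfsg.SU 3 F 4) : (fun g => φ (h⁻¹ * g)) ∈ fpfModule F := by
  intro x hx g
  have hx' : orderOf (h⁻¹ * x * h) = 13 := by
    rw [← hx]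
    simpa using orderOf_injective (MulAut.conj h⁻¹).toMonoidHom
      (MulAut.conj h⁻¹).injective x
  refine Eq.trans ?_ (hφ _ hx' (h⁻¹ * g))
  refine Finset.sum_congr rfl fun i _ => congrArg φ ?_
  have e : (h⁻¹ * x * h) ^ i = h⁻¹ * x ^ i * h := by
    simpa using (conj_pow (i := i) (a := h⁻¹) (b := x))
  rw [e]
  group

/-- The action on several copies of the module. -/
def fpfRep (N : ℕ) : Cfsg.SU 3 F 4 →* AddMonoid.End (Fin N → fpfModule F) where
  toFun h := AddMonoidHom.mk'
    (fun v j => ⟨fun g => (v j).1 (h⁻¹ * g), fpfModule_translate F (v j).2 h⟩)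
    fun _ _ => rfl
  map_one' := by
    refine AddMonoidHom.ext fun v => funext fun j => Subtype.ext (funext fun g => ?_)
    show (v j).1 ((1 : Cfsg.SU 3 F 4)⁻¹ * g) = (v j).1 g
    rw [inv_one, one_mul]
  map_mul' a b := by
    refine AddMonoidHom.ext fun v => funext fun j => Subtype.ext (funext fun g => ?_)
    show (v j).1 ((a * b)⁻¹ * g) = (v j).1 (b⁻¹ * (a⁻¹ * g))
    rw [mul_inv_rev, mul_assoc]

theorem fpfRep_fpf {N : ℕ} {x : Cfsg.SU 3 F 4} (hx : orderOf x = 13)
    (v : Fin N → fpfModule F) (hv : fpfRep F N x v = v) : v = 0 := by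
  funext j
  refine Subtype.ext (funext fun g => ?_)
  have h1 : ∀ g, (v j).1 (x⁻¹ * g) = (v j).1 g := fun g =>
    congrArg (fun w : Fin N → fpfModule F => (w j).1 g) hv
  have h2 : ∀ (i : ℕ) g, (v j).1 (x ^ i * g) = (v j).1 g := by
    intro i
    induction i with
    | zero => intro g; simp
    | succ i ih =>
      intro g
      rw [← h1 (x ^ (i + 1) * g)]
      rw [pow_succ', ← mul_assoc, ← mul_assoc, inv_mul_cancel, one_mul, ih]
  have h := (v j).2 x hx g
  simp only [h2, Finset.sum_const, Finset.card_range, nsmul_eq_mul] at h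
  haveI : Fact (Nat.Prime 5) := ⟨by norm_num⟩
  rcases mul_eq_zero.mp h with h' | h'
  · exact absurd h' (by rw [ZMod.natCast_eq_zero_iff]; decide)
  · exact h'

theorem weilTwelve_mem (hF : Fintype.card F = 4 ^ 2) :
    (weilTwelve : Cfsg.SU 3 F 4 → ZMod 5) ∈ fpfModule F :=
  fun _ hx g => sum_weilTwelve_eq_zero hF hx g

theorem mk_bijective (hF : Fintype.card F = 4 ^ 2) :
    Function.Bijective (QuotientGroup.mk' (Subgroup.center (Cfsg.SU 3 F 4))) := by
  have h : Subgroup.center (Cfsg.SU 3 F 4) = ⊥ :=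
    Subgroup.eq_bot_of_card_eq _ (by rw [H3.card_center_SU hF (by norm_num)]; rfl)
  refine ⟨(MonoidHom.ker_eq_bot_iff _).mp ?_, QuotientGroup.mk'_surjective _⟩
  rw [QuotientGroup.ker_mk', h]

theorem card_psu (hF : Fintype.card F = 4 ^ 2) : Nat.card (Cfsg.PSU 3 F 4) = 62400 := by
  have h := H3.card_PSU hF (n := 3) (by norm_num)
  rw [H3.card_GU hF] at h
  norm_num [Finset.prod_range_succ] at h
  omega

theorem main (hF : Fintype.card F = 4 ^ 2) (N : ℕ) :
    ∃ (H : Type) (_ : Group H) (_ : Finite H), N < Nat.card H ∧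
      ((∀ p : ℕ, p.Prime → (p ∣ Nat.card (Cfsg.PSU 3 F 4) ↔ p ∣ Nat.card H)) ∧
      (∀ p q : ℕ, p.Prime → q.Prime → p ≠ q →
        ((∃ g : (Cfsg.PSU 3 F 4), orderOf g = p * q) ↔ (∃ g : H, orderOf g = p * q)))) := by
  classical
  haveI : Fact (Nat.Prime 2) := ⟨Nat.prime_two⟩
  haveI : Fact (Nat.Prime 5) := ⟨by norm_num⟩
  haveI := charP_two hF
  let V := Fin (N + 1) → fpfModule F
  haveI : Finite V := inferInstance
  let ρ := fpfRep F (N + 1)
  let X := H79.SemiRep ρ
  haveI : Finite X := Finite.of_equiv _ SemidirectProduct.equivProd.symm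
  let ev : {i : Fin (Nat.card X) // True} ≃ X :=
    (Equiv.subtypeUnivEquiv fun _ => trivial).trans (Finite.equivFin X).symm
  letI : Group {i : Fin (Nat.card X) // True} := ev.group
  let e : {i : Fin (Nat.card X) // True} ≃* X :=
    { ev with map_mul' := fun a b => ev.apply_symm_apply _ }
  let π : Cfsg.SU 3 F 4 ≃* Cfsg.PSU 3 F 4 := MulEquiv.ofBijective _ (mk_bijective F hF)
  have hexp : ∀ v : V, 5 • v = 0 := fun v => funext fun j => Subtype.ext (funext fun g => by
    show (5 : ℕ) • (v j).1 g = 0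
    rw [nsmul_eq_mul]
    exact mul_eq_zero_of_left (ZMod.natCast_self 5) _)
  have hV : IsPGroup 5 (Multiplicative V) := fun v => ⟨1, by
    rw [pow_one]
    exact Multiplicative.toAdd.injective (by simpa using hexp v.toAdd)⟩
  obtain ⟨k, hk⟩ := hV.exists_card_eq
  have hVbig : N < Nat.card V := by
    have : Nontrivial (fpfModule F) := ⟨⟨⟨weilTwelve, weilTwelve_mem F hF⟩, 0, fun h =>
      weilTwelve_one hF (congrFun (congrArg Subtype.val h) 1)⟩⟩
    rw [Nat.card_fun, Nat.card_fin]
    exact lt_of_lt_of_le (Nat.lt_succ_self N) (Nat.lt_pow_self Finite.one_lt_card).le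
  have hcardX : Nat.card {i : Fin (Nat.card X) // True} =
      Nat.card V * Nat.card (Cfsg.PSU 3 F 4) := by
    rw [Nat.card_congr ev, SemidirectProduct.card, Nat.card_congr π.toEquiv]
    rfl
  refine ⟨{i : Fin (Nat.card X) // True}, inferInstance, inferInstance, ?_, ?_, ?_⟩
  · rw [hcardX]
    exact lt_of_lt_of_le hVbig (Nat.le_mul_of_pos_right _ Nat.card_pos)
  · intro p hp
    rw [hcardX]
    refine ⟨fun h => dvd_mul_of_dvd_right h _, fun h => ?_⟩
    rcases (Nat.Prime.dvd_mul hp).mp h with h | h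
    · have : p ∣ 5 := hp.dvd_of_dvd_pow (hk ▸ h : p ∣ 5 ^ k)
      rw [card_psu F hF, (Nat.prime_dvd_prime_iff_eq hp (by norm_num)).mp this]
      norm_num
    · exact h
  intro p q hp hq hpq
  constructor
  · rintro ⟨g, hg⟩
    refine ⟨e.symm (H79.semiMk ρ 0 (π.symm g)), ?_⟩
    rw [MulEquiv.orderOf_eq, H79.orderOf_semiMk, map_zero, addOrderOf_zero, mul_one,
      MulEquiv.orderOf_eq, hg]
  · rintro ⟨g, hg⟩
    have hr : p * q ∈ Set.range (orderOf : X → ℕ) := ⟨e g, by rw [MulEquiv.orderOf_eq, hg]⟩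
    rcases (H79.mem_range_orderOf_semi ρ 5 (by norm_num) hexp _).mp hr with
      ⟨h, hh⟩ | ⟨h, ⟨v, hv⟩, hh⟩
    · exact ⟨π h, by rw [MulEquiv.orderOf_eq, hh]⟩
    obtain ⟨r, hr, hr5, hhr⟩ : ∃ r, r.Prime ∧ r ≠ 5 ∧ orderOf h = r := by
      have h5 : 5 ∣ p * q := ⟨orderOf h, by rw [← hh, mul_comm]⟩
      rcases (Nat.Prime.dvd_mul (by norm_num)).mp h5 with h5 | h5
      · have := (Nat.prime_dvd_prime_iff_eq (by norm_num) hp).mp h5
        subst this
        exact ⟨q, hq, hpq.symm, Nat.eq_of_mul_eq_mul_right (by norm_num) (hh.trans (mul_comm _ _))⟩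
      · have := (Nat.prime_dvd_prime_iff_eq (by norm_num) hq).mp h5
        subst this
        exact ⟨p, hp, hpq, Nat.eq_of_mul_eq_mul_right (by norm_num) hh⟩
    have hdiv : r ∣ 62400 := by
      rw [← card_psu F hF, ← hhr, ← MulEquiv.orderOf_eq π]
      exact orderOf_dvd_natCard _
    have hr' : r = 2 ∨ r = 3 ∨ r = 13 := by
      have h : r ∣ 2 ^ 6 * 3 * 5 ^ 2 * 13 := hdiv
      rcases (Nat.Prime.dvd_mul hr).mp h with h | h
      · rcases (Nat.Prime.dvd_mul hr).mp h with h | h
        · rcases (Nat.Prime.dvd_mul hr).mp h with h | h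
          · exact Or.inl ((Nat.prime_dvd_prime_iff_eq hr Nat.prime_two).mp (hr.dvd_of_dvd_pow h))
          · exact Or.inr (Or.inl ((Nat.prime_dvd_prime_iff_eq hr Nat.prime_three).mp h))
        · exact absurd ((Nat.prime_dvd_prime_iff_eq hr (by norm_num)).mp (hr.dvd_of_dvd_pow h)) hr5
      · exact Or.inr (Or.inr ((Nat.prime_dvd_prime_iff_eq hr (by norm_num)).mp h))
    rcases hr' with rfl | rfl | rfl
    · obtain ⟨x, hx⟩ := H71.UnitaryThree.lower_mixed (F := F) (q := 4) hF 2
      refine ⟨x ^ (orderOf x / 10), ?_⟩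
      rw [orderOf_pow_orderOf_div (orderOf_pos x).ne' (by simpa using hx), ← hh, hhr]
    · obtain ⟨⟨x, hx⟩, -⟩ := H71.UnitaryThree.lower_diag (F := F) (q := 4) hF 2
      refine ⟨x ^ (orderOf x / 15), ?_⟩
      rw [orderOf_pow_orderOf_div (orderOf_pos x).ne' (by simpa using hx), ← hh, hhr]
    · exfalso
      apply hv
      rw [H79.normEnd_eq_zero_of_fpf ρ h 1 fun w hw => fpfRep_fpf F hhr w (by rwa [pow_one] at hw)]
      rfl


/-- The prime graph of a finite group has the prime divisors of its order as vertices, two distinct primes p, q being joined when the group has an element of order pq; two groups have the same prime graph when they have the same prime divisors and the same joined pairs. Let F be the field with 16 elements and L = PSU(3,4) realised over F. There are finite groups of arbitrarily large order with the same prime graph as L. -/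
theorem result {F : Type*} [Field F] [Fintype F] (hF : Fintype.card F = 16) (N : ℕ) :
    ∃ (H : Type) (_ : Group H) (_ : Finite H), N < Nat.card H ∧
      ((∀ p : ℕ, p.Prime → (p ∣ Nat.card (Cfsg.PSU 3 F 4) ↔ p ∣ Nat.card H)) ∧
      (∀ p q : ℕ, p.Prime → q.Prime → p ≠ q → ((∃ g : (Cfsg.PSU 3 F 4), orderOf g = p * q) ↔ (∃ g : H, orderOf g = p * q)))) := by
  exact main F (by rw [hF]; rfl) N

end Cfsg.Agent.S3663
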