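import Cfsg.Prelude.Def_Classical
import Cfsg.Agent.H59.PSpSixThree.PSpSide

set_option autoImplicit false
open Cfsg

namespace Cfsg.Agent.S3664

/-- The prime graph of a finite group has the prime divisors of its order as vertices, two distinct primes p, q being joined when the group has an element of order pq; two groups have the same prime graph when they have the same prime divisors and the same joined pairs. Let F be the field with 3 elements and L = PSp(6,F). There are finite groups of arbitrarily large order with the same prime graph as L (a prime graph shared by the orthogonal groups Ω₇(3) and PΩ⁺₈(3)). -/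
theorem result {F : Type*} [Field F] [Fintype F] (hF : Fintype.card F = 3) (N : ℕ) :
    ∃ (H : Type) (_ : Group H) (_ : Finite H), N < Nat.card H ∧
      ((∀ p : ℕ, p.Prime → (p ∣ Nat.card (Cfsg.PSp 3 F) ↔ p ∣ Nat.card H)) ∧
      (∀ p q : ℕ, p.Prime → q.Prime → p ≠ q → ((∃ g : (Cfsg.PSp 3 F), orderOf g = p * q) ↔ (∃ g : H, orderOf g = p * q)))) := by
  classical
  haveI : Fact (Nat.Prime 2) := ⟨Nat.prime_two⟩
  have hc8 : Nat.card (GaloisField 2 3) = 2 ^ (2 * 1 + 1) := GaloisField.card 2 3 (by norm_num)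
  have H : Cfsg.Agent.H7.SzHyp (GaloisField 2 3) 1 := ⟨inferInstance, le_rfl, hc8⟩
  haveI := H.finite_Sz
  haveI : Finite (Cfsg.Agent.H59.PSpSixThree.K H) := Finite.of_equiv _ SemidirectProduct.equivProd.symm
  haveI : Finite (Cfsg.Agent.H59.PSpSixThree.Big H (N + 1)) :=
    Finite.of_equiv _ SemidirectProduct.equivProd.symm
  have hK : Nat.card (Cfsg.Agent.H59.PSpSixThree.K H) = 2 ^ 6 * 3 * 5 * 7 * 13 := by
    rw [Nat.card_congr SemidirectProduct.equivProd, Nat.card_prod,
      Cfsg.Agent.H59.PSpSixThree.card_sz H, Nat.card_congr Multiplicative.toAdd, Nat.card_zmod]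
    norm_num
  have hB : Nat.card (Cfsg.Agent.H59.PSpSixThree.Big H (N + 1)) =
      2 ^ (48 * (N + 1)) * (2 ^ 6 * 3 * 5 * 7 * 13) := by
    rw [Nat.card_congr SemidirectProduct.equivProd, Nat.card_prod, hK, Nat.card_congr Multiplicative.toAdd,
      Nat.card_fun, show Matrix (Fin 4) (Fin 4) (GaloisField 2 3) = (Fin 4 → Fin 4 → GaloisField 2 3) from rfl,
      Nat.card_fun, Nat.card_fun, hc8]
    simp only [Nat.card_eq_fintype_card, Fintype.card_fin, ← pow_mul]
  have hprimes : ∀ p : ℕ, p.Prime → (p ∣ Nat.card (Cfsg.Agent.H59.PSpSixThree.Big H (N + 1)) ↔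
      (p = 2 ∨ p = 3 ∨ p = 5 ∨ p = 7 ∨ p = 13)) := by
    intro p hp
    rw [hB]
    constructor
    · intro h
      rw [← Cfsg.Agent.H59.PSpSixThree.five_primes hp]
      rcases hp.dvd_mul.mp h with h | h
      · exact (dvd_trans (hp.dvd_of_dvd_pow h) (by norm_num : 2 ∣ 2 ^ 9 * 3 ^ 9 * 5 * 7 * 13))
      · rcases hp.dvd_mul.mp h with h | h
        · rcases hp.dvd_mul.mp h with h | h
          · rcases hp.dvd_mul.mp h with h | h
            · rcases hp.dvd_mul.mp h with h | h
              · exact dvd_trans (hp.dvd_of_dvd_pow h) (by norm_num)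
              · exact dvd_trans h (by norm_num)
            · exact dvd_trans h (by norm_num)
          · exact dvd_trans h (by norm_num)
        · exact dvd_trans h (by norm_num)
    · intro h
      refine Dvd.dvd.mul_left ?_ _
      rcases h with rfl | rfl | rfl | rfl | rfl <;> norm_num
  refine ⟨Cfsg.Agent.H59.PSpSixThree.Big H (N + 1), inferInstance, inferInstance, ?_, fun p hp => ?_, ?_⟩
  · rw [hB]
    calc N < 2 ^ (48 * (N + 1)) := lt_of_lt_of_le (Nat.lt_two_pow_self) (Nat.pow_le_pow_right (by norm_num) (by omega))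
      _ ≤ _ := Nat.le_mul_of_pos_right _ (by norm_num)
  · rw [Cfsg.Agent.H59.PSpSixThree.psp_prime_dvd_iff hF hp, hprimes p hp]
  · intro p q hp hq hpq
    by_cases he : p * q ∈ Cfsg.Agent.H59.PSpSixThree.edges
    · exact iff_of_true (Cfsg.Agent.H59.PSpSixThree.psp_exists hF _ he)
        (Cfsg.Agent.H59.PSpSixThree.big_exists H (N + 1) (Nat.succ_pos N) _ he)
    · have five : ∀ n : ℕ, (∀ r : ℕ, r.Prime → r ∣ n → (r = 2 ∨ r = 3 ∨ r = 5 ∨ r = 7 ∨ r = 13)) → p * q ∣ n →
          (p = 2 ∨ p = 3 ∨ p = 5 ∨ p = 7 ∨ p = 13) ∧ (q = 2 ∨ q = 3 ∨ q = 5 ∨ q = 7 ∨ q = 13) :=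
        fun n h hn => ⟨h p hp ((dvd_mul_right p q).trans hn), h q hq ((dvd_mul_left q p).trans hn)⟩
      refine iff_of_false ?_ ?_
      · rintro ⟨g, hg⟩
        obtain ⟨h1, h2⟩ := five _ (fun r hr => (Cfsg.Agent.H59.PSpSixThree.psp_prime_dvd_iff hF hr).mp)
          (hg ▸ orderOf_dvd_natCard g)
        have hne := fun a b ha hab hb hc =>
          Cfsg.Agent.H59.PSpSixThree.psp_no_element hF (p := a) (q := b) ha hab hb hc g
        have e1 := fun a b c d => hne p q a b c d hg
        have e2 := fun a b c d => hne q p a b c d (hg.trans (mul_comm p q))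
        rcases h1 with rfl | rfl | rfl | rfl | rfl <;> rcases h2 with rfl | rfl | rfl | rfl | rfl
        all_goals first
          | exact absurd rfl hpq
          | exact absurd (by decide) he
          | (refine e1 ?_ hpq hq ?_ <;> simp <;> done)
          | (refine e2 ?_ hpq.symm hp ?_ <;> simp <;> done)
      · rintro ⟨g, hg⟩
        obtain ⟨h1, h2⟩ := five _ (fun r hr => (hprimes r hr).mp) (hg ▸ orderOf_dvd_natCard g)
        have hne := fun a b ha hb hab h2 h3 hp3 h22 =>
          Cfsg.Agent.H59.PSpSixThree.big_no_element H (N + 1) (p := a) (q := b) ha hb hab h2 h3 hp3 h22 g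
        have e1 := fun a b c d => hne p q hp hq hpq a b c d hg
        have e2 := fun a b c d => hne q p hq hp hpq.symm a b c d (hg.trans (mul_comm p q))
        rcases h1 with rfl | rfl | rfl | rfl | rfl <;> rcases h2 with rfl | rfl | rfl | rfl | rfl
        all_goals first
          | exact absurd rfl hpq
          | exact absurd (by decide) he
          | (refine e1 ?_ ?_ ?_ ?_ <;> simp <;> done)
          | (refine e2 ?_ ?_ ?_ ?_ <;> simp <;> done)

end Cfsg.Agent.S3664
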