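import Cfsg.Statements.S3670
import Cfsg.Agent.H38.UThreeThree.Degrees
import Cfsg.Agent.H38.UThreeThree.SolvableModel
import Cfsg.Agent.H44.PSL2Degrees
-- import your own Cfsg.Agent.* helpers here

set_option autoImplicit false
open Cfsg

namespace Cfsg.Agent.S3670

/-- The character degree graph of a finite group has as vertices the primes dividing some irreducible complex character degree, two distinct primes being joined when their product divides some irreducible character degree; two groups have the same character degree graph when they have the same vertices and the same joined pairs. Let F be the field with 9 elements and L = PSU(3,3) realised over F (order 6048). There is a finite solvable group of order 6048 with the same character degree graph as L; so L is not determined by its order together with its character degree graph. -/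
theorem graph_of_pairs {G : Type*} [Group G] [Finite G] (hG : Nat.card G = 6048)
    (h23 : ∃ d ∈ Cfsg.charDegrees G, 6 ∣ d) (h27 : ∃ d ∈ Cfsg.charDegrees G, 14 ∣ d)
    (h37 : ∃ d ∈ Cfsg.charDegrees G, 21 ∣ d) :
    Cfsg.degreePrimes G = {2, 3, 7} ∧
      ∀ p q, (Cfsg.degreeGraph G).Adj p q ↔ p ≠ q ∧ p ∈ ({2, 3, 7} : Set ℕ) ∧ q ∈ ({2, 3, 7} : Set ℕ) := by
  have hin : ∀ p : ℕ, p.Prime → ∀ d ∈ Cfsg.charDegrees G, p ∣ d → p ∈ ({2, 3, 7} : Set ℕ) := by
    rintro p hp _ ⟨χ, rfl⟩ hpd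
    have h := hpd.trans (H44.charDegree_dvd_card χ)
    rw [hG, show (6048 : ℕ) = 2 ^ 5 * (3 ^ 3 * 7) by norm_num] at h
    simp only [Set.mem_insert_iff, Set.mem_singleton_iff]
    rcases hp.dvd_mul.1 h with h | h
    · exact Or.inl ((Nat.prime_dvd_prime_iff_eq hp Nat.prime_two).1 (hp.dvd_of_dvd_pow h))
    rcases hp.dvd_mul.1 h with h | h
    · exact Or.inr (Or.inl ((Nat.prime_dvd_prime_iff_eq hp Nat.prime_three).1 (hp.dvd_of_dvd_pow h)))
    · exact Or.inr (Or.inr ((Nat.prime_dvd_prime_iff_eq hp (by norm_num)).1 h))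
  have hpr : ∀ p ∈ ({2, 3, 7} : Set ℕ), p.Prime := by
    rintro p (rfl | rfl | rfl) <;> norm_num
  obtain ⟨a, ha, ha6⟩ := h23
  obtain ⟨b, hb, hb14⟩ := h27
  obtain ⟨c, hc, hc21⟩ := h37
  refine ⟨Set.ext fun p => ⟨fun ⟨hp, d, hd, hpd⟩ => hin p hp d hd hpd, fun hp => ⟨hpr p hp, ?_⟩⟩,
    fun p q => ⟨fun ⟨hne, hp, hq, d, hd, hpq⟩ =>
      ⟨hne, hin p hp d hd ((dvd_mul_right p q).trans hpq), hin q hq d hd ((dvd_mul_left q p).trans hpq)⟩,
      fun ⟨hne, hp, hq⟩ => ⟨hne, hpr p hp, hpr q hq, ?_⟩⟩⟩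
  · rcases hp with rfl | rfl | rfl
    · exact ⟨a, ha, (show 2 ∣ 6 by norm_num).trans ha6⟩
    · exact ⟨a, ha, (show 3 ∣ 6 by norm_num).trans ha6⟩
    · exact ⟨b, hb, (show 7 ∣ 14 by norm_num).trans hb14⟩
  · rcases hp with rfl | rfl | rfl <;> rcases hq with rfl | rfl | rfl <;>
      first
        | exact absurd rfl hne
        | exact ⟨a, ha, ha6⟩
        | exact ⟨b, hb, hb14⟩
        | exact ⟨c, hc, hc21⟩

theorem result {F : Type*} [Field F] [Fintype F] (hF : Fintype.card F = 9) :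
    ∃ (H : Type) (_ : Group H) (_ : Fintype H), Group.IsSolvable H ∧ Nat.card H = 6048 ∧ Cfsg.degreePrimes H = Cfsg.degreePrimes (Cfsg.PSU 3 F 3) ∧ Cfsg.degreeGraph H = Cfsg.degreeGraph (Cfsg.PSU 3 F 3) := by
  obtain ⟨H, iG, iF, hsol, hcard, χ, hχ⟩ := H38.UTT.exists_solvable_model
  obtain ⟨C⟩ := H38.UTT.exists_config hF
  haveI := Fintype.ofFinite (Cfsg.SU 3 F 3)
  obtain ⟨D⟩ := H38.UTT.exists_sevenData hF
  have hG := H38.UTT.card_SU_three hF
  let e := H38.UTT.equivPSU hF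
  have hmem : ∀ ψ : Cfsg.IrrCharacter (Cfsg.SU 3 F 3),
      Cfsg.charDegree (ψ : Cfsg.SU 3 F 3 → ℂ) ∈ Cfsg.charDegrees (Cfsg.PSU 3 F 3) := fun ψ =>
    H44.charDegrees_eq_of_equiv e ▸ ⟨ψ, rfl⟩
  obtain ⟨s, -, hs⟩ := C.exists_twentyseven
  obtain ⟨x, hx⟩ := H38.UTT.exists_six_dvd hG
    (H3.commutator_SU_eq_top (H38.UTT.card_sq hF) (n := 3) le_rfl (by norm_num)) D ⟨s, hs⟩
  obtain ⟨y, hy⟩ := C.exists_twentyeight
  obtain ⟨z, hz⟩ := C.exists_twentyone D
  obtain ⟨hp₁, ha₁⟩ := graph_of_pairs ((Nat.card_congr e.toEquiv).symm.trans hG) ⟨_, hmem x, hx⟩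
    ⟨_, hmem y, by rw [hy]; norm_num⟩ ⟨_, hmem z, by rw [hz]⟩
  obtain ⟨hp₂, ha₂⟩ := graph_of_pairs (G := H) hcard ⟨_, ⟨χ, rfl⟩, by rw [hχ]; norm_num⟩
    ⟨_, ⟨χ, rfl⟩, by rw [hχ]; norm_num⟩ ⟨_, ⟨χ, rfl⟩, by rw [hχ]; norm_num⟩
  refine ⟨H, iG, iF, hsol, hcard, hp₂.trans hp₁.symm, ?_⟩
  ext p q
  rw [ha₁, ha₂]

end Cfsg.Agent.S3670
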