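import Cfsg.Statements.S3678
import Cfsg.Agent.H81.PrimeGraph
-- import your own Cfsg.Agent.* helpers here

set_option autoImplicit false
open Cfsg

namespace Cfsg.Agent.S3678

open Matrix

/-- A group whose element orders are powers of three primes, all occurring, has the edgeless graph. -/
theorem graph_of_orders {L : Type*} [Group L] [Finite L]
    (h : ∀ g : L, orderOf g ∣ 4 ∨ orderOf g ∣ 7 ∨ orderOf g ∣ 9)
    (h2 : ∃ g : L, orderOf g = 2) (h3 : ∃ g : L, orderOf g = 3) (h7 : ∃ g : L, orderOf g = 7) :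
    (∀ p : ℕ, p.Prime → (p ∣ Nat.card L ↔ p = 2 ∨ p = 3 ∨ p = 7)) ∧
      (∀ p q : ℕ, p.Prime → q.Prime → p ≠ q → ¬ ∃ g : L, orderOf g = p * q) := by
  have hcase : ∀ (g : L) (p : ℕ), p.Prime → p ∣ orderOf g →
      (orderOf g ∣ 4 ∧ p = 2) ∨ (orderOf g ∣ 7 ∧ p = 7) ∨ (orderOf g ∣ 9 ∧ p = 3) := by
    intro g p hp hpd
    rcases h g with h' | h' | h'
    · exact Or.inl ⟨h', (Nat.prime_dvd_prime_iff_eq hp Nat.prime_two).mp
        (hp.dvd_of_dvd_pow (n := 2) (hpd.trans h'))⟩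
    · exact Or.inr (Or.inl ⟨h', (Nat.prime_dvd_prime_iff_eq hp (by norm_num)).mp (hpd.trans h')⟩)
    · exact Or.inr (Or.inr ⟨h', (Nat.prime_dvd_prime_iff_eq hp Nat.prime_three).mp
        (hp.dvd_of_dvd_pow (n := 2) (hpd.trans h'))⟩)
  refine ⟨fun p hp => ⟨fun hpd => ?_, ?_⟩, fun p q hp hq hpq ⟨g, hg⟩ => ?_⟩
  · haveI := Fact.mk hp
    obtain ⟨g, hg⟩ := exists_prime_orderOf_dvd_card' p hpd
    rcases hcase g p hp (hg ▸ dvd_refl p) with ⟨_, h'⟩ | ⟨_, h'⟩ | ⟨_, h'⟩ <;> simp [h']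
  · rintro (rfl | rfl | rfl)
    · obtain ⟨g, hg⟩ := h2; rw [← hg]; exact orderOf_dvd_natCard g
    · obtain ⟨g, hg⟩ := h3; rw [← hg]; exact orderOf_dvd_natCard g
    · obtain ⟨g, hg⟩ := h7; rw [← hg]; exact orderOf_dvd_natCard g
  · rcases hcase g p hp (hg ▸ dvd_mul_right p q) with ⟨h1, h1'⟩ | ⟨h1, h1'⟩ | ⟨h1, h1'⟩ <;>
      rcases hcase g q hq (hg ▸ dvd_mul_left q p) with ⟨h2, h2'⟩ | ⟨h2, h2'⟩ | ⟨h2, h2'⟩ <;>
      subst h1' h2' <;> first
        | exact absurd rfl hpq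
        | (rw [hg] at h1; norm_num at h1)

theorem sq_eq {K : Type*} [CommRing K] (A : Matrix (Fin 2) (Fin 2) K) (hd : A.det = 1) :
    A * A = (A 0 0 + A 1 1) • A - 1 := by
  rw [Matrix.det_fin_two] at hd
  ext i j
  fin_cases i <;> fin_cases j <;>
    simp only [Matrix.mul_apply, Fin.sum_univ_two, Matrix.sub_apply, Matrix.smul_apply, smul_eq_mul,
      Matrix.one_apply, Fin.zero_eta, Fin.mk_one, Fin.isValue, zero_ne_one, one_ne_zero, ↓reduceIte]
  · linear_combination -hd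
  · ring
  · ring
  · linear_combination -hd

theorem charP_seven {F : Type*} [Field F] [Fintype F] (hF : Fintype.card F = 7) : CharP F 7 := by
  obtain ⟨p, hp⟩ := CharP.exists F
  haveI := hp
  obtain ⟨n, hpp, hn⟩ := FiniteField.card F p
  rw [hF] at hn
  have : p ∣ 7 := hn ▸ dvd_pow_self p n.pos.ne'
  rcases (Nat.dvd_prime (by norm_num)).mp this with h | h
  · exact absurd h hpp.ne_one
  · exact h ▸ hp

theorem zmod_seven_cases : ∀ z : ZMod 7,
    z ^ 2 - 1 = 0 ∨ z ^ 3 - 2 * z = 0 ∨ z ^ 6 - 5 * z ^ 4 + 6 * z ^ 2 - 1 = 0 := by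
  decide

theorem pow_formulas {K : Type*} [CommRing K] (A : Matrix (Fin 2) (Fin 2) K) (T : K)
    (hAA : A * A = T • A - 1) :
    A ^ 3 = (T ^ 2 - 1) • A - T • 1 ∧
    A ^ 4 = (T ^ 3 - 2 * T) • A - (T ^ 2 - 1) • 1 ∧
    A ^ 7 = (T ^ 6 - 5 * T ^ 4 + 6 * T ^ 2 - 1) • A - (T ^ 5 - 4 * T ^ 3 + 3 * T) • 1 ∧
    A ^ 8 = (T ^ 7 - 6 * T ^ 5 + 10 * T ^ 3 - 4 * T) • A
      - (T ^ 6 - 5 * T ^ 4 + 6 * T ^ 2 - 1) • 1 := by
  have hrec : ∀ n : ℕ, A ^ (n + 2) = T • A ^ (n + 1) - A ^ n := fun n => by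
    rw [pow_add, pow_two, hAA, mul_sub, mul_smul_comm, ← pow_succ, mul_one]
  have e2 : A ^ 2 = T • A - 1 := by rw [hrec 0, pow_one, pow_zero]
  have e3 : A ^ 3 = (T ^ 2 - 1) • A - T • 1 := by rw [hrec 1, e2, pow_one]; module
  have e4 : A ^ 4 = (T ^ 3 - 2 * T) • A - (T ^ 2 - 1) • 1 := by rw [hrec 2, e3, e2]; module
  have e5 : A ^ 5 = (T ^ 4 - 3 * T ^ 2 + 1) • A - (T ^ 3 - 2 * T) • 1 := by
    rw [hrec 3, e4, e3]; module
  have e6 : A ^ 6 = (T ^ 5 - 4 * T ^ 3 + 3 * T) • A - (T ^ 4 - 3 * T ^ 2 + 1) • 1 := by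
    rw [hrec 4, e5, e4]; module
  have e7 : A ^ 7 =
      (T ^ 6 - 5 * T ^ 4 + 6 * T ^ 2 - 1) • A - (T ^ 5 - 4 * T ^ 3 + 3 * T) • 1 := by
    rw [hrec 5, e6, e5]; module
  exact ⟨e3, e4, e7, by rw [hrec 6, e7, e6]; module⟩

theorem orders_psl_two_seven {F : Type*} [Field F] [Fintype F] (hF : Fintype.card F = 7)
    (g : Matrix.ProjectiveSpecialLinearGroup (Fin 2) F) :
    orderOf g ∣ 4 ∨ orderOf g ∣ 7 ∨ orderOf g ∣ 9 := by
  obtain ⟨A, rfl⟩ := QuotientGroup.mk_surjective g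
  set T : F := A.1 0 0 + A.1 1 1 with hT
  have hAA := sq_eq A.1 A.2
  rw [← hT] at hAA
  obtain ⟨e3, e4, e7, -⟩ := pow_formulas A.1 T hAA
  have hcen : ∀ (k : ℕ) (a b : F), a = 0 → A.1 ^ k = a • A.1 - b • 1 →
      orderOf (A : Matrix.ProjectiveSpecialLinearGroup (Fin 2) F) ∣ k := by
    intro k a b ha he
    apply orderOf_dvd_of_pow_eq_one
    rw [← QuotientGroup.mk_pow, QuotientGroup.eq_one_iff, Subgroup.mem_center_iff]
    intro B
    apply Subtype.ext
    rw [Matrix.SpecialLinearGroup.coe_mul, Matrix.SpecialLinearGroup.coe_mul,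
      Matrix.SpecialLinearGroup.coe_pow, he, ha]
    simp
  haveI : Fact (Nat.Prime 7) := ⟨by norm_num⟩
  haveI : CharP F 7 := charP_seven hF
  have hbij : Function.Bijective (ZMod.castHom (dvd_refl 7) F) := by
    rw [Fintype.bijective_iff_injective_and_card]
    exact ⟨(ZMod.castHom (dvd_refl 7) F).injective, by rw [ZMod.card, hF]⟩
  obtain ⟨z, hz⟩ := hbij.2 T
  have hz' := zmod_seven_cases z
  rcases hz' with h | h | h <;> replace h := congrArg (ZMod.castHom (dvd_refl 7) F) h <;>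
    simp only [map_sub, map_add, map_pow, map_mul, map_one, map_zero, map_ofNat, hz] at h
  · exact Or.inr (Or.inr ((hcen 3 _ _ h e3).trans (by norm_num)))
  · exact Or.inl (hcen 4 _ _ h e4)
  · exact Or.inr (Or.inl (hcen 7 _ _ h e7))

theorem psl_two_seven_exists {F : Type*} [Field F] [Fintype F] (hF : Fintype.card F = 7) :
    (∃ g : Matrix.ProjectiveSpecialLinearGroup (Fin 2) F, orderOf g = 2) ∧
    (∃ g : Matrix.ProjectiveSpecialLinearGroup (Fin 2) F, orderOf g = 3) ∧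
    (∃ g : Matrix.ProjectiveSpecialLinearGroup (Fin 2) F, orderOf g = 7) := by
  haveI : Fact (Nat.Prime 7) := ⟨by norm_num⟩
  haveI : Fact (Nat.Prime 3) := ⟨Nat.prime_three⟩
  haveI : CharP F 7 := charP_seven hF
  have key : ∀ (A : Matrix.SpecialLinearGroup (Fin 2) F) (k : ℕ) [Fact k.Prime] (c : F),
      (A.1 0 1 ≠ 0 ∨ A.1 1 0 ≠ 0) → A.1 ^ k = c • 1 →
      orderOf (A : Matrix.ProjectiveSpecialLinearGroup (Fin 2) F) = k := by
    intro A k _ c hne he
    refine orderOf_eq_prime ?_ ?_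
    · rw [← QuotientGroup.mk_pow, QuotientGroup.eq_one_iff, Subgroup.mem_center_iff]
      intro B
      apply Subtype.ext
      rw [Matrix.SpecialLinearGroup.coe_mul, Matrix.SpecialLinearGroup.coe_mul,
        Matrix.SpecialLinearGroup.coe_pow, he]
      simp
    · intro h
      rw [QuotientGroup.eq_one_iff, Matrix.SpecialLinearGroup.mem_center_iff] at h
      obtain ⟨r, _, hr⟩ := h
      rcases hne with h' | h' <;> rw [← hr] at h' <;> simp [Matrix.scalar_apply] at h'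
  refine ⟨⟨_, key ⟨!![0, -1; 1, 0], by simp [Matrix.det_fin_two]⟩ 2 (-1) ?_ ?_⟩,
    ⟨_, key ⟨!![1, -1; 1, 0], by simp [Matrix.det_fin_two]⟩ 3 (-1) ?_ ?_⟩,
    ⟨_, key ⟨!![1, 1; 0, 1], by simp [Matrix.det_fin_two]⟩ 7 1 ?_ ?_⟩⟩
  · simp
  · ext i j; fin_cases i <;> fin_cases j <;> simp [pow_two, Matrix.mul_apply, Fin.sum_univ_two]
  · simp
  · ext i j; fin_cases i <;> fin_cases j <;> simp [pow_succ, Matrix.mul_apply, Fin.sum_univ_two]
  · simp
  · have h7 : (7 : F) = 0 := by exact_mod_cast CharP.cast_eq_zero F 7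
    ext i j
    fin_cases i <;> fin_cases j <;> simp [pow_succ, Matrix.mul_apply, Fin.sum_univ_two]
    linear_combination h7

theorem orders_sl_two_eight {K : Type*} [Field K] [Fintype K] [CharP K 2] (hK : Fintype.card K = 8)
    (g : Matrix.SpecialLinearGroup (Fin 2) K) :
    orderOf g ∣ 4 ∨ orderOf g ∣ 7 ∨ orderOf g ∣ 9 := by
  have h2 : (2 : K) = 0 := CharTwo.two_eq_zero
  set T : K := g.1 0 0 + g.1 1 1 with hT
  have hAA := sq_eq g.1 g.2
  rw [← hT] at hAA
  by_cases hT0 : T = 0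
  · left
    apply orderOf_dvd_of_pow_eq_one
    apply Subtype.ext
    obtain ⟨-, e4, -, -⟩ := pow_formulas g.1 T hAA
    rw [Matrix.SpecialLinearGroup.coe_pow, Matrix.SpecialLinearGroup.coe_one]
    refine Eq.trans e4 ?_
    rw [hT0]
    simp
  have hT7 : T ^ 7 = 1 := by
    have := FiniteField.pow_card_sub_one_eq_one T hT0
    rwa [hK] at this
  obtain ⟨-, -, -, e8⟩ := pow_formulas g.1 T hAA
  set c : K := T ^ 6 - 5 * T ^ 4 + 6 * T ^ 2 - 1 with hc
  have h7' : T ^ 7 - 6 * T ^ 5 + 10 * T ^ 3 - 4 * T = 1 := by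
    linear_combination hT7 + (-3 * T ^ 5 + 5 * T ^ 3 - 2 * T) * h2
  rw [h7', one_smul] at e8
  have hcc : c * (c - T) = 0 := by
    rw [hc]
    linear_combination (T ^ 5 + T + 1) * hT7 +
      (1 + T - 6 * T ^ 2 - 3 * T ^ 3 + 23 * T ^ 4 + 3 * T ^ 5 - 31 * T ^ 6 - T ^ 7 + 18 * T ^ 8
        - 5 * T ^ 10) * h2
  rcases mul_eq_zero.mp hcc with h | h
  · right; left
    apply orderOf_dvd_of_pow_eq_one
    have h8 : g ^ 8 = g := Subtype.ext (by
      rw [Matrix.SpecialLinearGroup.coe_pow, e8, h, zero_smul, sub_zero])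
    rw [pow_succ] at h8
    exact mul_eq_right.mp h8
  · right; right
    apply orderOf_dvd_of_pow_eq_one
    apply Subtype.ext
    rw [Matrix.SpecialLinearGroup.coe_pow, Matrix.SpecialLinearGroup.coe_one, pow_succ, e8,
      sub_eq_zero.mp h, sub_mul, hAA, smul_mul_assoc, one_mul]
    rw [show T • g.1 - 1 - T • g.1 = -1 from by abel]
    ext i j
    rw [Matrix.neg_apply, CharTwo.neg_eq]

/-- The prime graph of a finite group has the prime divisors of its order as vertices, two distinct primes p, q being joined when the group has an element of order pq; two groups have the same prime graph when they have the same prime divisors and the same joined pairs. Let F be the field with 7 elements. There are finite groups of arbitrarily large order with the same prime graph as PSL(2,F) (the graph on {2, 3, 7} with no edges, which is also the prime graph of PSL(2,8)). -/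
theorem result {F : Type*} [Field F] [Fintype F] (hF : Fintype.card F = 7) (N : ℕ) :
    ∃ (H : Type) (_ : Group H) (_ : Finite H), N < Nat.card H ∧
      ((∀ p : ℕ, p.Prime → (p ∣ Nat.card (Matrix.ProjectiveSpecialLinearGroup (Fin 2) F) ↔ p ∣ Nat.card H)) ∧
      (∀ p q : ℕ, p.Prime → q.Prime → p ≠ q → ((∃ g : (Matrix.ProjectiveSpecialLinearGroup (Fin 2) F), orderOf g = p * q) ↔ (∃ g : H, orderOf g = p * q)))) := by
  haveI : Fact (Nat.Prime 2) := ⟨Nat.prime_two⟩
  haveI : Fact (Nat.Prime 3) := ⟨Nat.prime_three⟩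
  haveI : Fact (Nat.Prime 7) := ⟨by norm_num⟩
  let K := GaloisField 2 3
  haveI : Fintype K := Fintype.ofFinite K
  have hK : Fintype.card K = 8 := by
    rw [← Nat.card_eq_fintype_card, GaloisField.card 2 3 (by norm_num)]; norm_num
  obtain ⟨H, iG, iF, hN, hp, he⟩ := Cfsg.Agent.H81.exists_big_samePrimeGraph_sl_two K N
  obtain ⟨a2, a3, a7⟩ := psl_two_seven_exists hF
  obtain ⟨hp1, he1⟩ := graph_of_orders (orders_psl_two_seven hF) a2 a3 a7
  have b2 : ∃ g : Matrix.SpecialLinearGroup (Fin 2) K, orderOf g = 2 := by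
    refine ⟨⟨!![1, 1; 0, 1], by simp [Matrix.det_fin_two]⟩, orderOf_eq_prime ?_ ?_⟩
    · apply Subtype.ext
      change (!![1, 1; 0, 1] : Matrix (Fin 2) (Fin 2) K) ^ 2 = 1
      ext i j
      fin_cases i <;> fin_cases j <;>
        simp [pow_two, Matrix.mul_apply, Fin.sum_univ_two, CharTwo.add_self_eq_zero]
    · intro h
      have := congrFun (congrFun (congrArg Subtype.val h) 0) 1
      simp at this
  have b3 : ∃ g : Matrix.SpecialLinearGroup (Fin 2) K, orderOf g = 3 := by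
    refine ⟨⟨!![1, 1; 1, 0], by simp [Matrix.det_fin_two, CharTwo.neg_eq]⟩, orderOf_eq_prime ?_ ?_⟩
    · apply Subtype.ext
      change (!![1, 1; 1, 0] : Matrix (Fin 2) (Fin 2) K) ^ 3 = 1
      ext i j
      fin_cases i <;> fin_cases j <;>
        simp [pow_succ, Matrix.mul_apply, Fin.sum_univ_two, CharTwo.add_self_eq_zero]
    · intro h
      have := congrFun (congrFun (congrArg Subtype.val h) 0) 1
      simp at this
  have b7 : ∃ g : Matrix.SpecialLinearGroup (Fin 2) K, orderOf g = 7 := by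
    obtain ⟨a, ha, ha'⟩ : ∃ a : K, a ∉ ({0} : Set K) ∧ a ≠ 1 := by
      by_contra hc
      push Not at hc
      classical
      have hsub : (Finset.univ : Finset K) ⊆ {0, 1} := fun x _ => by
        by_cases hx : x = 0
        · simp [hx]
        · simp [hc x (by simpa using hx)]
      have := (Finset.card_le_card hsub).trans Finset.card_le_two
      rw [Finset.card_univ, hK] at this
      omega
    have ha0 : a ≠ 0 := by simpa using ha
    have ha7 : a ^ 7 = 1 := by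
      have := FiniteField.pow_card_sub_one_eq_one a ha0
      rwa [hK] at this
    refine ⟨⟨Matrix.diagonal ![a, a⁻¹], by simp [mul_inv_cancel₀ ha0]⟩, orderOf_eq_prime ?_ ?_⟩
    · apply Subtype.ext
      change (Matrix.diagonal ![a, a⁻¹]) ^ 7 = 1
      rw [Matrix.diagonal_pow, ← Matrix.diagonal_one]
      congr 1
      funext i
      fin_cases i <;> simp [inv_pow, ha7]
    · intro h
      have := congrFun (congrFun (congrArg Subtype.val h) 0) 0
      simp [ha'] at this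
  obtain ⟨hp2, he2⟩ := graph_of_orders (orders_sl_two_eight hK) b2 b3 b7
  exact ⟨H, iG, iF, hN, fun p hpp => (hp1 p hpp).trans ((hp2 p hpp).symm.trans (hp p hpp)),
    fun p q hpp hq hpq => ⟨fun h => absurd h (he1 p q hpp hq hpq),
      fun h => absurd ((he p q hpp hq hpq).mpr h) (he2 p q hpp hq hpq)⟩⟩

end Cfsg.Agent.S3678
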