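import Cfsg.Statements.S3680
import Cfsg.Agent.H37.MinimalNormal
import Cfsg.Agent.H80.PrimitiveNormal
-- import your own Cfsg.Agent.* helpers here

set_option autoImplicit false
open Cfsg

namespace Cfsg.Agent.S3680

/-- A commuting transitive subgroup maps isomorphically onto any other semiregular one. -/
theorem regular_pair {G Ω : Type*} [Group G] [MulAction G Ω] [FaithfulSMul G Ω] {V W : Subgroup G}
    [MulAction.IsPretransitive V Ω] [MulAction.IsPretransitive W Ω]
    (hc : ∀ v ∈ V, ∀ w ∈ W, v * w = w * v) (a : Ω) : Nonempty (W ≃* V) := by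
  have hV : ∀ v v' : V, (v : G) • a = (v' : G) • a → v = v' := fun v v' h => by
    have hfix : ((v' : G)⁻¹ * v) • a = a := by rw [mul_smul, h, inv_smul_smul]
    have := Cfsg.Agent.H80.eq_one_of_commute_transitive (C := W)
      (fun w hw => hc _ (V.mul_mem (V.inv_mem v'.2) v.2) w hw) hfix
    exact Subtype.ext (inv_mul_eq_one.mp this).symm
  have hW : ∀ w w' : W, (w : G) • a = (w' : G) • a → w = w' := fun w w' h => by
    have hfix : ((w' : G)⁻¹ * w) • a = a := by rw [mul_smul, h, inv_smul_smul]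
    have := Cfsg.Agent.H80.eq_one_of_commute_transitive (C := V)
      (fun v hv => (hc v hv _ (W.mul_mem (W.inv_mem w'.2) w.2)).symm) hfix
    exact Subtype.ext (inv_mul_eq_one.mp this).symm
  have hex : ∀ w : W, ∃ v : V, (v : G) • a = (w : G) • a := fun w =>
    MulAction.exists_smul_eq V a ((w : G) • a)
  choose ψ hψ using hex
  let f : W →* V := MonoidHom.mk' (fun w => (ψ w)⁻¹) fun w w' => by
    rw [← mul_inv_rev]
    congr 1
    apply hV
    rw [hψ, Subgroup.coe_mul, mul_smul, ← hψ w', ← mul_smul, ← hc _ (ψ w').2 _ w.2, mul_smul,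
      ← hψ w, ← mul_smul]
    rfl
  refine ⟨MulEquiv.ofBijective f ⟨fun w w' h => hW w w' ?_, fun v => ?_⟩⟩
  · have h' : ψ w = ψ w' := inv_injective h
    rw [← hψ w, ← hψ w', h']
  · obtain ⟨w, hw⟩ := MulAction.exists_smul_eq W a (((v⁻¹ : V) : G) • a)
    refine ⟨w, inv_eq_iff_eq_inv.mpr (hV _ _ ?_)⟩
    rw [hψ w]
    exact hw

/-- The socle of a finite primitive permutation group. Let a finite group G act faithfully and primitively on a set Ω, and let N be the subgroup generated by the minimal normal subgroups of G. Then either N is an elementary abelian p-group for some prime p and acts regularly on Ω (transitively with trivial point stabilizers), or N is isomorphic to a direct product of m ≥ 1 copies of a non-abelian simple group. -/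
theorem result {G Ω : Type*} [Group G] [Finite G] [MulAction G Ω] [FaithfulSMul G Ω] [Finite Ω]
    (hprim : MulAction.IsPreprimitive G Ω) (N : Subgroup G)
    (hN : N = sSup {V : Subgroup G | V.Normal ∧ V ≠ ⊥ ∧ ∀ M : Subgroup G, M.Normal → M ≤ V → M = ⊥ ∨ M = V}) :
    (∃ p : ℕ, p.Prime ∧ IsMulCommutative N ∧ (∀ x : N, x ^ p = 1) ∧
      MulAction.IsPretransitive N Ω ∧ ∀ ω : Ω, MulAction.stabilizer N ω = ⊥) ∨
    (∃ (T : Type) (_ : Group T) (m : ℕ), 1 ≤ m ∧ IsSimpleGroup T ∧ ¬ IsMulCommutative T ∧ Nonempty (N ≃* (Fin m → T))) := by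
  classical
  haveI := hprim
  let F : Set (Subgroup G) :=
    {V : Subgroup G | V.Normal ∧ V ≠ ⊥ ∧ ∀ M : Subgroup G, M.Normal → M ≤ V → M = ⊥ ∨ M = V}
  have htrans : ∀ V ∈ F, MulAction.IsPretransitive V Ω := fun V hV =>
    Cfsg.Agent.H80.isPretransitive_of_normal hprim hV.1 hV.2.1
  rcases subsingleton_or_nontrivial G with hGs | hGn
  · left
    haveI : Subsingleton N := ⟨fun x y => Subtype.ext (Subsingleton.elim _ _)⟩
    refine ⟨2, Nat.prime_two, ⟨⟨fun x y => Subsingleton.elim _ _⟩⟩, fun x => Subsingleton.elim _ _,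
      ⟨fun x y => ?_⟩, fun ω => Subsingleton.elim _ _⟩
    obtain ⟨g, hg⟩ := MulAction.exists_smul_eq G x y
    exact ⟨1, by rw [one_smul, ← hg, Subsingleton.elim g 1, one_smul]⟩
  obtain ⟨V, -, hVmin⟩ := Cfsg.Agent.H80.exists_minimalNormalized (⊤ : Subgroup G) ⊤ top_ne_bot
    le_rfl (fun _ _ x _ => Subgroup.mem_top _)
  have hVF : V ∈ F := ⟨hVmin.normal, hVmin.ne_bot, fun M hM hle =>
    or_iff_not_imp_left.mpr fun h => hVmin.eq_of_normal hM hle h⟩
  have hdisj : ∀ V ∈ F, ∀ W ∈ F, V ≠ W → Disjoint V W ∧ ∀ v ∈ V, ∀ w ∈ W, v * w = w * v := by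
    intro V hV W hW hne
    haveI := hV.1
    haveI := hW.1
    have hd : Disjoint V W := by
      rw [disjoint_iff]
      rcases hV.2.2 (V ⊓ W) inferInstance inf_le_left with h | h
      · exact h
      · exfalso
        rcases hW.2.2 V hV.1 (inf_eq_left.mp h) with h' | h'
        · exact hV.2.1 h'
        · exact hne h'
    exact ⟨hd, fun v hv w hw => Subgroup.commute_of_normal_of_disjoint V W hV.1 hW.1 hd v w hv hw⟩
  rcases isEmpty_or_nonempty Ω with hΩ | hΩ
  · exfalso
    haveI : Subsingleton G := ⟨fun g h => FaithfulSMul.eq_of_smul_eq_smul (α := Ω) isEmptyElim⟩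
    exact not_subsingleton G inferInstance
  obtain ⟨a⟩ := hΩ
  by_cases hab : ∃ A ∈ F, ∀ x ∈ A, ∀ y ∈ A, x * y = y * x
  · left
    obtain ⟨A, hA, hAc⟩ := hab
    haveI := htrans A hA
    have hCA : ∀ x : G, (∀ c ∈ A, x * c = c * x) → x ∈ A := fun x hx => by
      obtain ⟨c, hc⟩ := MulAction.exists_smul_eq A a (x • a)
      have hfix : ((c : G)⁻¹ * x) • a = a := by
        rw [mul_smul, ← hc]; exact inv_smul_smul _ _
      have := Cfsg.Agent.H80.eq_one_of_commute_transitive (C := A) (fun d hd => by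
        rw [mul_assoc, hx d hd, ← mul_assoc, hAc _ (A.inv_mem c.2) d hd, mul_assoc]) hfix
      rw [inv_mul_eq_one] at this
      exact this ▸ c.2
    have hNA : N = A := by
      rw [hN]
      refine le_antisymm (sSup_le fun W hW => ?_) (le_sSup hA)
      by_contra hle
      have hne : W ≠ A := fun h => hle h.le
      exact hle fun w hw => hCA w fun c hc => (hdisj A hA W hW (Ne.symm hne)).2 c hc w hw |>.symm
    obtain ⟨V', hV'le, hV'⟩ := Cfsg.Agent.H80.exists_minimalNormalized (⊤ : Subgroup G) A hA.2.1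
      le_top (fun g _ x hx => hA.1.conj_mem x hx g)
    have hVA : V' = A := (hA.2.2 V' hV'.normal hV'le).resolve_left hV'.ne_bot
    subst hVA
    subst hNA
    obtain ⟨p, hp, hpow⟩ := hV'.exists_prime_pow_eq_one hAc
    exact ⟨p, hp, ⟨⟨fun x y => Subtype.ext (hAc _ x.2 _ y.2)⟩⟩, fun x => Subtype.ext (hpow _ x.2),
      htrans _ hA, fun ω => Cfsg.Agent.H80.stabilizer_eq_bot_of_comm hAc ω⟩
  right
  push Not at hab
  haveI := hVF.1
  obtain ⟨T, iT, m, hT, hm, ⟨e⟩⟩ := Cfsg.Agent.H37.minimalNormal_iso_pow V hVF.2.1 hVF.2.2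
  have hTna : ¬ IsMulCommutative T := fun hc => by
    obtain ⟨x, hx, y, hy, hne⟩ := hab V hVF
    apply hne
    have : (⟨x, hx⟩ : V) * ⟨y, hy⟩ = ⟨y, hy⟩ * ⟨x, hx⟩ :=
      e.injective (by rw [map_mul, map_mul]; funext i; exact hc.is_comm.comm _ _)
    exact congrArg Subtype.val this
  by_cases hone : ∀ W ∈ F, W = V
  · have hNV : N = V := by
      rw [hN]
      exact le_antisymm (sSup_le fun W hW => (hone W hW).le) (le_sSup hVF)
    subst hNV
    exact ⟨T, iT, m, hm, hT, hTna, ⟨e⟩⟩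
  push Not at hone
  obtain ⟨W, hW, hWV⟩ := hone
  haveI := hW.1
  obtain ⟨hd, hc⟩ := hdisj V hVF W hW (Ne.symm hWV)
  haveI := htrans V hVF
  haveI := htrans W hW
  obtain ⟨eW⟩ := regular_pair (Ω := Ω) hc a
  have hCV : ∀ x : G, (∀ c ∈ V, x * c = c * x) → x ∈ W := fun x hx => by
    obtain ⟨w, hw⟩ := MulAction.exists_smul_eq W a (x • a)
    have hfix : ((w : G)⁻¹ * x) • a = a := by
      rw [mul_smul, ← hw]; exact inv_smul_smul _ _
    have := Cfsg.Agent.H80.eq_one_of_commute_transitive (C := V) (fun d hd' => by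
      rw [mul_assoc, hx d hd', ← mul_assoc, ← hc d hd' _ (W.inv_mem w.2), mul_assoc]) hfix
    rw [inv_mul_eq_one] at this
    exact this ▸ w.2
  have hNV : N = V ⊔ W := by
    rw [hN]
    refine le_antisymm (sSup_le fun X hX => ?_) (sup_le (le_sSup hVF) (le_sSup hW))
    by_cases hXV : X = V
    · exact hXV ▸ le_sup_left
    · exact le_sup_of_le_right fun x hx => hCV x fun c hc' =>
        ((hdisj V hVF X hX (Ne.symm hXV)).2 c hc' x hx).symm
  subst hNV
  let φ : V × W →* ↥(V ⊔ W) :=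
    MonoidHom.mk' (fun p => ⟨(p.1 : G) * p.2, Subgroup.mul_mem_sup p.1.2 p.2.2⟩) fun p q =>
      Subtype.ext (by
        show (p.1 : G) * q.1 * ((p.2 : G) * q.2) = p.1 * p.2 * (q.1 * q.2)
        rw [mul_assoc, ← mul_assoc (q.1 : G), hc _ q.1.2 _ p.2.2]; group)
  have hφ : Function.Bijective φ := by
    constructor
    · rw [injective_iff_map_eq_one]
      intro p hp
      have h : (p.1 : G) * p.2 = 1 := congrArg Subtype.val hp
      have h1 : (p.1 : G) ∈ V ⊓ W :=
        ⟨p.1.2, by rw [eq_inv_of_mul_eq_one_left h]; exact W.inv_mem p.2.2⟩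
      rw [disjoint_iff.mp hd, Subgroup.mem_bot] at h1
      rw [h1, one_mul] at h
      exact Prod.ext (Subtype.ext h1) (Subtype.ext h)
    · rintro ⟨x, hx⟩
      obtain ⟨v, hv, w, hw, rfl⟩ := Subgroup.mem_sup_of_normal_right.mp hx
      exact ⟨(⟨v, hv⟩, ⟨w, hw⟩), rfl⟩
  let j : ((Fin m → T) × (Fin m → T)) ≃* (Fin (m + m) → T) :=
    { toEquiv := (Equiv.sumArrowEquivProdArrow _ _ _).symm.trans (finSumFinEquiv.arrowCongr (Equiv.refl T))
      map_mul' := fun x y => by
        funext i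
        show Sum.elim (x.1 * y.1) (x.2 * y.2) (finSumFinEquiv.symm i) =
          Sum.elim x.1 x.2 (finSumFinEquiv.symm i) * Sum.elim y.1 y.2 (finSumFinEquiv.symm i)
        cases finSumFinEquiv.symm i <;> rfl }
  exact ⟨T, iT, m + m, by omega, hT, hTna,
    ⟨(MulEquiv.ofBijective φ hφ).symm.trans ((e.prodCongr (eW.trans e)).trans j)⟩⟩

end Cfsg.Agent.S3680
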