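import Cfsg.Statements.S3681
-- import your own Cfsg.Agent.* helpers here

set_option autoImplicit false
open Cfsg

namespace Cfsg.Agent.S3681

open Equiv

/-- Bochert's argument for a primitive subgroup of the symmetric group. -/
theorem bochert_perm {Ω : Type*} [Fintype Ω] [DecidableEq Ω] (K : Subgroup (Perm Ω))
    (hprim : MulAction.IsPreprimitive K Ω) (hA : ¬ alternatingGroup Ω ≤ K) :
    Nat.card K * Nat.factorial ((Fintype.card Ω + 1) / 2) ≤ Nat.factorial (Fintype.card Ω) := by
  classical
  let P : Finset Ω → Prop := fun Γ => ∀ k ∈ K, (∀ x ∉ Γ, k x = x) → k = 1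
  have hempty : P ∅ := fun k _ h => Equiv.ext fun x => by simpa using h x (by simp)
  obtain ⟨Γ, hΓ, hmax⟩ := (Finset.univ.filter P).exists_max_image Finset.card
    ⟨∅, by simp [hempty]⟩
  simp only [Finset.mem_filter, Finset.mem_univ, true_and] at hΓ hmax
  have hsize : (Fintype.card Ω + 1) / 2 ≤ Γ.card := by
    by_contra hlt
    have hnΔ : ¬ P Γᶜ := fun hP => by
      have := hmax _ hP
      rw [Finset.card_compl] at this
      omega
    simp only [P, not_forall] at hnΔ
    obtain ⟨h, hhK, hhfix, hh1⟩ := hnΔ
    have hhfix' : ∀ x ∈ Γ, h x = x := fun x hx => hhfix x (by simpa using hx)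
    obtain ⟨δ, hδ⟩ : ∃ δ, h δ ≠ δ := by
      by_contra hc
      exact hh1 (Equiv.ext fun x => by simpa using (not_not.mp (not_exists.mp hc x)))
    have hδΓ : δ ∉ Γ := fun hx => hδ (hhfix' δ hx)
    have hnI : ¬ P (insert δ Γ) := fun hP => by
      have := hmax _ hP
      rw [Finset.card_insert_of_notMem hδΓ] at this
      omega
    simp only [P, not_forall] at hnI
    obtain ⟨g, hgK, hgfix, hg1⟩ := hnI
    have hgδ : g δ ≠ δ := fun he => hg1 (hΓ g hgK fun x hx => by
      by_cases hxd : x = δ
      · rw [hxd, he]
      · exact hgfix x (by simp [hxd, hx]))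
    have hgim : ∀ x ∈ insert δ Γ, g x ∈ insert δ Γ := fun x hx => by
      by_contra hc
      exact hc (by rw [g.injective (hgfix _ hc)]; exact hx)
    have hhim : ∀ x, x ∉ Γ → h x ∉ Γ := fun x hx hc => hx (by
      rw [← h.injective (hhfix' _ hc)]; exact hc)
    have ha : g δ ∈ Γ := by
      have := hgim δ (by simp)
      simpa [hgδ] using this
    have hc : h δ ∉ Γ := hhim δ hδΓ
    have hgsymm : ∀ x ∈ insert δ Γ, g.symm x ∈ insert δ Γ := fun x hx => by
      by_contra hc'
      have := hgfix _ hc'
      rw [Equiv.apply_symm_apply] at this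
      exact hc' (this ▸ hx)
    have hhsymm : ∀ x, x ∉ Γ → h.symm x ∉ Γ := fun x hx hc' => hx (by
      have := hhfix' _ hc'
      rw [Equiv.apply_symm_apply] at this
      rw [this]; exact hc')
    have hkey : h * g * h⁻¹ * g⁻¹ = swap δ (g δ) * swap δ (h δ) := by
      have hne : g δ ≠ h δ := fun e => hc (e ▸ ha)
      ext x
      show h (g (h.symm (g.symm x))) = swap δ (g δ) (swap δ (h δ) x)
      by_cases hx1 : x = δ
      · subst hx1
        have he : g.symm x ∈ Γ := by
          have := hgsymm x (by simp)
          rcases Finset.mem_insert.mp this with e | e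
          · exact absurd ((g.symm_apply_eq).mp e).symm hgδ
          · exact e
        have h2 : h.symm (g.symm x) = g.symm x := h.symm_apply_eq.mpr (hhfix' _ he).symm
        rw [h2, Equiv.apply_symm_apply, swap_apply_left, swap_apply_of_ne_of_ne hδ hne.symm]
      by_cases hx2 : x = h δ
      · subst hx2
        have h1 : g.symm (h δ) = h δ := g.symm_apply_eq.mpr (hgfix _ (by simp [hc, hδ])).symm
        rw [h1, Equiv.symm_apply_apply, hhfix' _ ha, swap_apply_right, swap_apply_left]
      by_cases hx3 : x = g δ
      · subst hx3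
        rw [Equiv.symm_apply_apply]
        have hd : h.symm δ ∉ Γ := hhsymm δ hδΓ
        have hd' : h.symm δ ≠ δ := fun e => hδ ((h.symm_apply_eq).mp e).symm
        rw [hgfix _ (by simp [hd, hd']), Equiv.apply_symm_apply,
          swap_apply_of_ne_of_ne hgδ hne, swap_apply_right]
      rw [swap_apply_of_ne_of_ne hx1 hx2, swap_apply_of_ne_of_ne hx1 hx3]
      by_cases hxΓ : x ∈ Γ
      · have he : g.symm x ∈ Γ := by
          have := hgsymm x (by simp [hxΓ])
          rcases Finset.mem_insert.mp this with e | e
          · exact absurd ((g.symm_apply_eq).mp e) hx3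
          · exact e
        have h2 : h.symm (g.symm x) = g.symm x := h.symm_apply_eq.mpr (hhfix' _ he).symm
        rw [h2, Equiv.apply_symm_apply, hhfix' _ hxΓ]
      · have h1 : g.symm x = x := g.symm_apply_eq.mpr (hgfix _ (by simp [hxΓ, hx1])).symm
        have hd : h.symm x ∉ Γ := hhsymm x hxΓ
        have hd' : h.symm x ≠ δ := fun e => hx2 ((h.symm_apply_eq).mp e)
        rw [h1, hgfix _ (by simp [hd, hd']), Equiv.apply_symm_apply]
    apply hA
    refine Perm.alternatingGroup_le_of_isPreprimitive_of_isThreeCycle_mem hprim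
      (g := h * g * h⁻¹ * g⁻¹) ?_
      (K.mul_mem (K.mul_mem (K.mul_mem hhK hgK) (K.inv_mem hhK)) (K.inv_mem hgK))
    rw [hkey]
    exact Perm.isThreeCycle_swap_mul_swap_same hgδ.symm hδ.symm fun e => hc (e ▸ ha)
  have hcard : Nat.card K * Nat.factorial Γ.card ≤ Nat.factorial (Fintype.card Ω) := by
    let f : K × Perm {x // x ∈ Γ} → Perm Ω := fun p => (p.1 : Perm Ω) * Perm.ofSubtype p.2
    have hf : Function.Injective f := by
      rintro ⟨k, s⟩ ⟨k', s'⟩ he
      simp only [f] at he
      have hd : ((k'⁻¹ * k : K) : Perm Ω) = Perm.ofSubtype (s' * s⁻¹) := by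
        rw [map_mul, map_inv, eq_mul_inv_iff_mul_eq]
        simp only [Subgroup.coe_mul, Subgroup.coe_inv]
        rw [mul_assoc, he, inv_mul_cancel_left]
      have h1 := hΓ _ (k'⁻¹ * k).2 fun x hx => by
        rw [hd]; exact Perm.ofSubtype_apply_of_not_mem _ hx
      have hk : k = k' := (inv_mul_eq_one.mp (Subtype.ext h1)).symm
      subst hk
      exact Prod.ext rfl (Perm.ofSubtype_injective (mul_left_cancel he))
    have := Nat.card_le_card_of_injective f hf
    rw [Nat.card_prod, Nat.card_perm, Nat.card_perm,
      Nat.card_eq_fintype_card (α := {x // x ∈ Γ}), Fintype.card_coe,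
      Nat.card_eq_fintype_card (α := Ω)] at this
    exact this
  exact le_trans (Nat.mul_le_mul le_rfl (Nat.factorial_le hsize)) hcard

/-- Bochert's bound for primitive groups. Let a finite group G act faithfully and primitively on a finite set Ω with n elements, and suppose the image of G in the symmetric group of Ω does not contain the alternating group of Ω. Then |G| · ⌊(n + 1)/2⌋! ≤ n!, that is, the index of G in the symmetric group is at least ⌊(n + 1)/2⌋!. -/
theorem result {G Ω : Type*} [Group G] [Finite G] [MulAction G Ω] [FaithfulSMul G Ω] [Fintype Ω] [DecidableEq Ω]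
    (hprim : MulAction.IsPreprimitive G Ω) (hA : ¬ alternatingGroup Ω ≤ (MulAction.toPermHom G Ω).range) :
    Nat.card G * Nat.factorial ((Fintype.card Ω + 1) / 2) ≤ Nat.factorial (Fintype.card Ω) := by
  have hφ : Function.Injective (MulAction.toPermHom G Ω) := MulAction.toPerm_injective
  rw [Nat.card_congr (MonoidHom.ofInjective hφ).toEquiv]
  refine bochert_perm _ ?_ hA
  let f : Ω →ₑ[(MulAction.toPermHom G Ω).rangeRestrict] Ω :=
    { toFun := id
      map_smul' := fun _ _ => rfl }
  haveI := hprim
  exact MulAction.IsPreprimitive.of_surjective (f := f) Function.surjective_id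

end Cfsg.Agent.S3681
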