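import Cfsg.Statements.S3682
import Cfsg.Agent.H81.ThompsonWielandt
-- import your own Cfsg.Agent.* helpers here

set_option autoImplicit false
open Cfsg

namespace Cfsg.Agent.S3682

/-- Wielandt's bound toward the Sims conjecture. Let a finite group G act faithfully and primitively on a set Ω, let a and b be points, and suppose the orbit of b under the stabilizer of a has length d ≥ 2. Then there are a prime p and a normal p-subgroup P of the stabilizer of a, all of whose elements fix b, such that the index of P in the stabilizer of a divides d! · ((d - 1)!)^d. -/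
theorem result {G Ω : Type*} [Group G] [Finite G] [MulAction G Ω] [FaithfulSMul G Ω] [Finite Ω]
    (hprim : MulAction.IsPreprimitive G Ω) (a b : Ω) (d : ℕ) (hd : Nat.card (MulAction.orbit (MulAction.stabilizer G a) b) = d) (h2 : 2 ≤ d) :
    ∃ p : ℕ, p.Prime ∧ ∃ P : Subgroup (MulAction.stabilizer G a), P.Normal ∧ IsPGroup p P ∧ (∀ g : P, ((g : MulAction.stabilizer G a) : G) • b = b) ∧
      P.index ∣ Nat.factorial d * (Nat.factorial (d - 1)) ^ d := by
  obtain ⟨h, hr⟩ := H81.TW.isPair_stabilizer hprim hd h2
  set H := MulAction.stabilizer G a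
  set K := MulAction.stabilizer G b
  by_cases hb : H81.TW.core2 H K = ⊥ ∨ H81.TW.core2 K H = ⊥
  · refine ⟨2, Nat.prime_two, ⊥, inferInstance, IsPGroup.of_bot, ?_, ?_⟩
    · intro g
      have : (g : H) = 1 := Subgroup.mem_bot.mp g.2
      rw [this]; simp
    · rw [Subgroup.index_bot]
      exact h.card_dvd_of_core2_eq_bot hr hb
  · obtain ⟨hb1, hb2⟩ := not_or.mp hb
    obtain ⟨p, hp, hP, -, -, -⟩ := h.thompsonWielandt hb1 hb2
    refine ⟨p, hp, (H81.TW.core2 H K).subgroupOf H, ?_, ?_, ?_, h.index_core2_dvd hr⟩
    · rw [H81.TW.core2, H81.TW.inCore_subgroupOf]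
      exact Subgroup.normalCore_normal _
    · exact hP.of_equiv (Subgroup.subgroupOfEquivOfLe (H81.TW.inCore_le_left _ _)).symm
    · intro g
      exact MulAction.mem_stabilizer_iff.mp
        (((H81.TW.IsPair.core2_le H K).trans (inf_le_left.trans
          ((H81.TW.IsPair.core1_le H K).trans inf_le_right))) g.2)

end Cfsg.Agent.S3682
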