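import Cfsg.Statements.S3683
-- import your own Cfsg.Agent.* helpers here

set_option autoImplicit false
open Cfsg

namespace Cfsg.Agent.S3683

/-- Let a finite group G act faithfully and primitively on a set Ω, and suppose the stabilizer of a point a fixes a second point b ≠ a (a suborbit of length 1 other than {a}). Then the stabilizer of a is trivial and G is cyclic of prime order. -/
theorem result {G Ω : Type*} [Group G] [Finite G] [MulAction G Ω] [FaithfulSMul G Ω] [Finite Ω]
    (hprim : MulAction.IsPreprimitive G Ω) (a b : Ω) (hab : a ≠ b) (hfix : ∀ g : G, g • a = a → g • b = b) :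
    MulAction.stabilizer G a = ⊥ ∧ IsCyclic G ∧ (Nat.card G).Prime := by
  haveI := hprim
  haveI : Nontrivial Ω := ⟨a, b, hab⟩
  have hle : MulAction.stabilizer G a ≤ MulAction.stabilizer G b := fun g hg => hfix g hg
  have hca := MulAction.IsPreprimitive.isCoatom_stabilizer_of_isPreprimitive (G := G) a
  have hcb := MulAction.IsPreprimitive.isCoatom_stabilizer_of_isPreprimitive (G := G) b
  have heq : MulAction.stabilizer G a = MulAction.stabilizer G b :=
    (eq_or_lt_of_le hle).resolve_right fun h => hcb.1 (hca.2 _ h)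
  obtain ⟨g, hg⟩ := MulAction.exists_smul_eq G a b
  have hnorm : g ∈ Subgroup.normalizer (MulAction.stabilizer G a : Set G) := by
    rw [Subgroup.mem_normalizer_iff]
    intro h
    conv_rhs => rw [heq]
    simp only [MulAction.mem_stabilizer_iff]
    rw [← hg, mul_smul, mul_smul, inv_smul_smul, smul_left_cancel_iff]
  have hN : Subgroup.normalizer (MulAction.stabilizer G a : Set G) = ⊤ := by
    refine hca.2 _ (lt_of_le_of_ne Subgroup.le_normalizer fun h => hab ?_)
    rw [← h] at hnorm
    exact (MulAction.mem_stabilizer_iff.mp hnorm).symm.trans hg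
  have hbot : MulAction.stabilizer G a = ⊥ := by
    rw [eq_bot_iff]
    intro h hh
    rw [Subgroup.mem_bot]
    refine FaithfulSMul.eq_of_smul_eq_smul (α := Ω) fun x => ?_
    obtain ⟨k, rfl⟩ := MulAction.exists_smul_eq G a x
    have hk : k⁻¹ ∈ Subgroup.normalizer (MulAction.stabilizer G a : Set G) := hN ▸ Subgroup.mem_top _
    have := MulAction.mem_stabilizer_iff.mp ((Subgroup.mem_normalizer_iff.mp hk h).mp hh)
    rw [inv_inv, mul_smul, mul_smul, inv_smul_eq_iff] at this
    rw [this, one_smul]
  have hne : (⊥ : Subgroup G) ≠ ⊤ := hbot ▸ hca.1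
  haveI : Nontrivial G := by
    rcases subsingleton_or_nontrivial G with hs | hs
    · exact absurd (Subsingleton.elim _ _) hne
    · exact hs
  have hgen : ∀ x : G, x ≠ 1 → Subgroup.zpowers x = ⊤ := fun x hx => by
    refine (hbot ▸ hca).2 _ (bot_lt_iff_ne_bot.mpr ?_)
    simpa using hx
  obtain ⟨x, hx⟩ := exists_ne (1 : G)
  refine ⟨hbot, ⟨⟨x, fun y => by
    have : y ∈ Subgroup.zpowers x := by rw [hgen x hx]; exact Subgroup.mem_top y
    exact this⟩⟩, ?_⟩
  obtain ⟨p, hp, hpdvd⟩ := Nat.exists_prime_and_dvd (Finite.one_lt_card (α := G)).ne'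
  haveI := Fact.mk hp
  obtain ⟨y, hy⟩ := exists_prime_orderOf_dvd_card' p hpdvd
  have hy1 : y ≠ 1 := fun e => hp.ne_one (by rw [← hy, e, orderOf_one])
  rw [← Subgroup.card_top (G := G), ← hgen y hy1, Nat.card_zpowers, hy]
  exact hp

end Cfsg.Agent.S3683
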