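import Cfsg.Statements.S3685
import Cfsg.Agent.H81.CubicIso
import Cfsg.Agent.H81.CubicOrbit

set_option autoImplicit false
open Cfsg

namespace Cfsg.Agent.S3685

open Cfsg.Agent.H81.Cubic

/-- Let a finite group G act faithfully and primitively on a set Ω, and suppose the stabilizer of a point a has an orbit of length 3. Then the stabilizer of a is isomorphic to one of: the cyclic group of order 3, the symmetric group of degree 3, the dihedral group of order 12, the symmetric group of degree 4, or the direct product of the symmetric group of degree 4 with a group of order 2. -/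
theorem result {G Ω : Type*} [Group G] [Finite G] [MulAction G Ω] [FaithfulSMul G Ω] [Finite Ω]
    (hprim : MulAction.IsPreprimitive G Ω) (a b : Ω) (h3 : Nat.card (MulAction.orbit (MulAction.stabilizer G a) b) = 3) :
    Nonempty (MulAction.stabilizer G a ≃* Multiplicative (ZMod 3)) ∨ Nonempty (MulAction.stabilizer G a ≃* Equiv.Perm (Fin 3)) ∨
      Nonempty (MulAction.stabilizer G a ≃* DihedralGroup 6) ∨ Nonempty (MulAction.stabilizer G a ≃* Equiv.Perm (Fin 4)) ∨
      Nonempty (MulAction.stabilizer G a ≃* Equiv.Perm (Fin 4) × Multiplicative (ZMod 2)) := by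
  obtain ⟨g0, hmax, hcore, hidx⟩ := of_orbit hprim a b h3
  obtain ⟨n, hn, hC⟩ := exists_chain hmax hcore hidx
  rcases Nat.eq_zero_or_pos n with rfl | hpos
  · haveI : Fact (Nat.Prime 3) := ⟨Nat.prime_three⟩
    have h3' : Nat.card (MulAction.stabilizer G a) = 3 := by rw [hn]; norm_num
    haveI := isCyclic_of_prime_card h3'
    exact Or.inl ⟨mulEquivOfCyclicCardEq (by rw [h3']; simp)⟩
  obtain ⟨C, hCn, ⟨e⟩⟩ := hC hpos
  subst hCn
  have h4 := C.n_le_four
  rcases (show C.n = 1 ∨ C.n = 2 ∨ C.n = 3 ∨ C.n = 4 by omega) with h | h | h | h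
  · exact Or.inr (Or.inl ((C.iso_three h).map e.trans))
  · exact Or.inr (Or.inr (Or.inl ((C.iso_six h).map e.trans)))
  · exact Or.inr (Or.inr (Or.inr (Or.inl ((C.iso_four h).map e.trans))))
  · exact Or.inr (Or.inr (Or.inr (Or.inr ((C.iso_eight h).map e.trans))))

end Cfsg.Agent.S3685
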