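import Cfsg.Statements.S3687
import Cfsg.Agent.H81.AltFinal
import Cfsg.Agent.H81.CubicChain

set_option autoImplicit false
open Cfsg

namespace Cfsg.Agent.S3687

open Cfsg.Agent.H81 Cfsg.Agent.H81.AltSC
open Cfsg.Agent.H81.TW (IsPair core1 core2)

/-- Let a finite group G act faithfully and primitively on a set Ω, let a and b be points such that the orbit Δ of b under the stabilizer H of a has d ≥ 6 elements, and suppose that the permutation group induced by H on Δ contains the alternating group of Δ (the image of H in the symmetric group of Δ has index at most 2) while H does not act faithfully on Δ. Then either H induces exactly the alternating group of Δ and H is isomorphic to the direct product of the alternating groups of degrees d and d - 1; or H induces the full symmetric group of Δ and H is isomorphic to one of: the direct product of the symmetric groups of degrees d and d - 1, the direct product of the symmetric group of degree d with the alternating group of degree d - 1, or the subgroup of the direct product of the symmetric groups of degrees d and d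 - 1 consisting of the pairs of permutations with equal signs. -/
theorem result {G Ω : Type*} [Group G] [Finite G] [MulAction G Ω] [FaithfulSMul G Ω] [Finite Ω]
    (hprim : MulAction.IsPreprimitive G Ω) (a b : Ω) (d : ℕ) (hd : Nat.card (MulAction.orbit (MulAction.stabilizer G a) b) = d) (h6 : 6 ≤ d)
    (halt : (MulAction.toPermHom (MulAction.stabilizer G a) (MulAction.orbit (MulAction.stabilizer G a) b)).range.index ≤ 2)
    (hunf : ¬ Function.Injective (MulAction.toPermHom (MulAction.stabilizer G a) (MulAction.orbit (MulAction.stabilizer G a) b))) :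
    ((MulAction.toPermHom (MulAction.stabilizer G a) (MulAction.orbit (MulAction.stabilizer G a) b)).range.index = 2 ∧
      Nonempty (MulAction.stabilizer G a ≃* alternatingGroup (Fin d) × alternatingGroup (Fin (d - 1)))) ∨
    ((MulAction.toPermHom (MulAction.stabilizer G a) (MulAction.orbit (MulAction.stabilizer G a) b)).range = ⊤ ∧
      (Nonempty (MulAction.stabilizer G a ≃* Equiv.Perm (Fin d) × Equiv.Perm (Fin (d - 1))) ∨
       Nonempty (MulAction.stabilizer G a ≃* Equiv.Perm (Fin d) × alternatingGroup (Fin (d - 1))) ∨
       Nonempty (MulAction.stabilizer G a ≃* ((Equiv.Perm.sign.comp (MonoidHom.fst (Equiv.Perm (Fin d)) (Equiv.Perm (Fin (d - 1))))) *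
         (Equiv.Perm.sign.comp (MonoidHom.snd (Equiv.Perm (Fin d)) (Equiv.Perm (Fin (d - 1)))))).ker))) := by
  classical
  obtain ⟨hp, hr⟩ := H81.TW.isPair_stabilizer hprim hd (by omega)
  have hprim' := hprim
  obtain ⟨g, hg⟩ := hp.conj
  set H := MulAction.stabilizer G a with hH
  set H' := MulAction.stabilizer G b with hH'
  have hs : H'.subgroupOf H = MulAction.stabilizer H b := rfl
  have hidx : d * Nat.card ↥(H ⊓ H') = Nat.card H := by
    have h := (H'.subgroupOf H).index_mul_card
    rw [show (H'.subgroupOf H).index = d by rw [hs, MulAction.index_stabilizer, ← Nat.card_coe_set_eq]; exact hd,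
      ← Subgroup.inf_subgroupOf_left, Nat.card_congr (Subgroup.subgroupOfEquivOfLe inf_le_left).toEquiv] at h
    exact h
  have hcardH : Nat.card H' = Nat.card H := by
    have := Cubic.card_cg g H
    rw [Cubic.cg, ← hg] at this
    exact this
  have hbase : Base H H' d := ⟨hp, hidx, hcardH ▸ hidx, h6⟩
  set φ := MulAction.toPermHom H (MulAction.orbit H b) with hφ
  have hker : φ.ker = (core1 H H').subgroupOf H := by
    ext h
    rw [core1, H81.TW.inCore, Subgroup.subgroupOf, Subgroup.comap_map_eq_self_of_injective H.subtype_injective]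
    constructor
    · intro hh k
      have h1 := Equiv.ext_iff.1 (MonoidHom.mem_ker.1 hh) ⟨(k⁻¹ : H) • b, MulAction.mem_orbit b (k⁻¹ : H)⟩
      have h2 : h • ((k⁻¹ : H) • b) = (k⁻¹ : H) • b := congrArg Subtype.val h1
      refine Subgroup.mem_subgroupOf.2 ⟨(k * h * k⁻¹ : H).2, ?_⟩
      show (k * h * k⁻¹ : H) • b = b
      rw [mul_smul, mul_smul, h2, smul_inv_smul]
    · intro hh
      apply Equiv.ext
      rintro ⟨_, k, rfl⟩
      apply Subtype.ext
      show h • (k • b) = k • b
      have h2 : (k⁻¹ * h * k⁻¹⁻¹ : H) • b = b := (Subgroup.mem_subgroupOf.1 (hh k⁻¹)).2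
      rw [inv_inv, mul_smul, mul_smul, inv_smul_eq_iff] at h2
      exact h2
  have hKH : core1 H H' ≤ H := core_facts.1
  have hR : Nat.card φ.range * Nat.card (core1 H H') = Nat.card H := by
    rw [← Subgroup.index_ker, hker, ← Nat.card_congr (Subgroup.subgroupOfEquivOfLe hKH).toEquiv,
      Subgroup.index_mul_card]
  have hidxR : φ.range.index * Nat.card φ.range = d.factorial := by
    rw [Subgroup.index_mul_card, Nat.card_perm, hd]
  have hcardK : d.factorial * Nat.card (core1 H H') ≤ 2 * Nat.card H := by
    rw [← hR, ← hidxR, ← mul_assoc]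
    exact Nat.mul_le_mul_right _ (Nat.mul_le_mul_right _ halt)
  have hg' : H' = Cubic.cg g H := hg
  have hconj := hbase.core1_conj hcardK hg'
  have hne : core1 H H' ≠ ⊥ := by
    intro e
    apply hunf
    rw [← MonoidHom.ker_eq_bot_iff, hker, e, Subgroup.bot_subgroupOf]
  have s : Setup H H' d := ⟨hbase, hcardK, by rw [hconj, Cubic.card_cg], hne⟩
  have hbot : core1 H H' ⊓ core1 H' H = ⊥ := by
    rcases hbase.core2_bot hcardK with h | h
    · exact s.inf_eq_bot h hconj
    · rw [inf_comm]
      exact s.symm.inf_eq_bot h (g := g⁻¹) (by rw [hconj, cg_eq_self_comm])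
  have hpos : 0 < Nat.card (core1 H H') := Nat.card_pos
  rcases s.products hbot with ⟨hc, hiso⟩ | ⟨hc, hiso⟩
  · refine Or.inl ⟨?_, hiso⟩
    rw [← hR, ← hidxR, ← mul_assoc] at hc
    have hc' := Nat.eq_of_mul_eq_mul_right hpos hc
    exact (Nat.eq_of_mul_eq_mul_right Nat.card_pos hc').symm
  · refine Or.inr ⟨?_, hiso⟩
    rw [← hR, ← hidxR] at hc
    have hc' := Nat.eq_of_mul_eq_mul_right hpos hc
    rw [← Subgroup.index_eq_one]
    exact (Nat.eq_of_mul_eq_mul_right Nat.card_pos (hc'.symm.trans (one_mul _).symm))

end Cfsg.Agent.S3687
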