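import Cfsg.Statements.S3693
import Cfsg.Agent.H81.ThompsonWielandt
-- import your own Cfsg.Agent.* helpers here

set_option autoImplicit false
open Cfsg

namespace Cfsg.Agent.S3693

/-- Let a finite group G act faithfully and primitively on a set Ω, let a and b be points such that the orbit Δ of b under the stabilizer H of a has length d ≥ 2, and consider the permutation group induced on Δ by the elements of H fixing b. If that induced group has trivial Fitting subgroup (no non-trivial nilpotent normal subgroup), then the two-point stabilizer of a and b has trivial Fitting subgroup and the order of H divides d! · ((d - 1)!)^d. -/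
theorem result {G Ω : Type*} [Group G] [Finite G] [MulAction G Ω] [FaithfulSMul G Ω] [Finite Ω]
    (hprim : MulAction.IsPreprimitive G Ω) (a b : Ω) (d : ℕ) (hd : Nat.card (MulAction.orbit (MulAction.stabilizer G a) b) = d) (h2 : 2 ≤ d)
    (hF : Cfsg.fittingSubgroup ↥(((MulAction.stabilizer G b).subgroupOf (MulAction.stabilizer G a)).map (MulAction.toPermHom (MulAction.stabilizer G a) (MulAction.orbit (MulAction.stabilizer G a) b))) = ⊥) :
    Cfsg.fittingSubgroup ↥(MulAction.stabilizer G a ⊓ MulAction.stabilizer G b) = ⊥ ∧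
      Nat.card (MulAction.stabilizer G a) ∣ Nat.factorial d * (Nat.factorial (d - 1)) ^ d := by
  obtain ⟨h, hr⟩ := H81.TW.isPair_stabilizer hprim hd h2
  set H := MulAction.stabilizer G a
  set K := MulAction.stabilizer G b
  let φ := MulAction.toPermHom H (MulAction.orbit H b)
  have hker : φ.ker ≤ K.subgroupOf H := fun x hx => by
    have := Equiv.ext_iff.mp (MonoidHom.mem_ker.mp hx) ⟨b, MulAction.mem_orbit_self b⟩
    exact MulAction.mem_stabilizer_iff.mpr (congrArg Subtype.val this)
  have hle : ∀ q : ℕ, q.Prime → H81.TW.opOf q (H ⊓ K) ≤ H81.TW.core1 H K := by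
    intro q hq
    haveI : Fact q.Prime := ⟨hq⟩
    let N := H81.TW.opOf q (H ⊓ K)
    have hNH : N ≤ H := (H81.TW.opOf_le _ _).trans inf_le_left
    let Nm := (N.subgroupOf H).map φ
    have hNm : Nm ≤ (K.subgroupOf H).map φ :=
      Subgroup.map_mono (Subgroup.comap_mono ((H81.TW.opOf_le _ _).trans inf_le_right))
    haveI hnorm : (Nm.subgroupOf ((K.subgroupOf H).map φ)).Normal := by
      refine (Subgroup.normal_subgroupOf_iff_le_normalizer hNm).mpr ?_
      refine le_trans (Subgroup.map_mono ?_) (Subgroup.le_normalizer_map φ)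
      intro x hx
      rw [Subgroup.mem_normalizer_iff]
      intro z
      exact Subgroup.mem_normalizer_iff.mp
        (H81.TW.le_normalizer_opOf q (H ⊓ K) ⟨x.2, hx⟩) (z : G)
    have hp : IsPGroup q (Nm.subgroupOf ((K.subgroupOf H).map φ)) :=
      (((H81.TW.isPGroup_opOf q (H ⊓ K)).of_equiv
        (Subgroup.subgroupOfEquivOfLe hNH).symm).map φ).of_equiv
          (Subgroup.subgroupOfEquivOfLe hNm).symm
    have hbot := (Cfsg.Agent.H51.le_pCore hnorm hp).trans
      (Cfsg.Agent.H51.pCore_le_fittingSubgroup q _)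
    rw [hF, le_bot_iff, Subgroup.subgroupOf_eq_bot, disjoint_iff, inf_of_le_left hNm] at hbot
    have hN : N.subgroupOf H ≤ ((H ⊓ K).subgroupOf H).normalCore := by
      refine ((Subgroup.map_eq_bot_iff _).mp hbot).trans (Subgroup.normal_le_normalCore.mpr ?_)
      exact fun x hx => Subgroup.mem_subgroupOf.mpr ⟨x.2, hker hx⟩
    exact fun x hx => ⟨⟨x, hNH hx⟩, hN hx, rfl⟩
  have hD : ∀ q : ℕ, q.Prime → H81.TW.opOf q (H ⊓ K) = ⊥ := fun q hq =>
    h.opOf_inf_eq_bot hq (hle q hq)
  refine ⟨?_, h.card_dvd_of_core2_eq_bot hr ?_⟩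
  · rw [Cfsg.Agent.H51.fittingSubgroup_eq_iSup_pCore, iSup_eq_bot]
    intro q
    exact (Subgroup.map_eq_bot_iff_of_injective _ (Subgroup.subtype_injective _)).mp
      (hD q (Nat.prime_of_mem_primeFactors q.2))
  · by_contra hb
    obtain ⟨hb1, hb2⟩ := not_or.mp hb
    obtain ⟨p, hp, hP, -, -, -⟩ := h.thompsonWielandt hb1 hb2
    refine hb1 (le_bot_iff.mp ((H81.TW.le_opOf ?_ hP ?_).trans (hD p hp).le))
    · exact (H81.TW.IsPair.core2_le H K).trans (inf_le_left.trans (H81.TW.IsPair.core1_le H K))
    · exact inf_le_left.trans (H81.TW.le_normalizer_inCore _ _)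

end Cfsg.Agent.S3693
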