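import Cfsg.Statements.S3696
-- import your own Cfsg.Agent.* helpers here

set_option autoImplicit false
open Cfsg

namespace Cfsg.Agent.S3696

open Finset
open scoped IsMulCommutative

/-- Two-term weighted AM-GM in the integral form needed here. -/
theorem pow_mean {a b x y : ℕ} (ha : 0 < a) :
    x ^ a * y ^ b * (a + b) ^ (a + b) ≤ (x + y) ^ (a + b) * (a ^ a * b ^ b) := by
  rcases Nat.eq_zero_or_pos b with rfl | hb
  · simp only [pow_zero, mul_one, add_zero]
    exact Nat.mul_le_mul_right _ (Nat.pow_le_pow_left (Nat.le_add_right x y) a)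
  have haR : (0 : ℝ) < a := by exact_mod_cast ha
  have hbR : (0 : ℝ) < b := by exact_mod_cast hb
  have hX : (0 : ℝ) ≤ (x : ℝ) / a := by positivity
  have hY : (0 : ℝ) ≤ (y : ℝ) / b := by positivity
  have h := Real.geom_mean_le_arith_mean2_weighted (w₁ := (a : ℝ) / (a + b))
    (w₂ := (b : ℝ) / (a + b)) (by positivity) (by positivity) hX hY
    (by rw [← add_div, div_self]; positivity)
  have hs : (a : ℝ) / (a + b) * ((x : ℝ) / a) + (b : ℝ) / (a + b) * ((y : ℝ) / b) =
      ((x : ℝ) + y) / (a + b) := by field_simp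
  rw [hs] at h
  have h' := pow_le_pow_left₀ (by positivity) h (a + b)
  rw [mul_pow, ← Real.rpow_natCast (((x : ℝ) / a) ^ ((a : ℝ) / (a + b))) (a + b),
    ← Real.rpow_natCast (((y : ℝ) / b) ^ ((b : ℝ) / (a + b))) (a + b), ← Real.rpow_mul hX,
    ← Real.rpow_mul hY] at h'
  have e1 : (a : ℝ) / (a + b) * ((a + b : ℕ) : ℝ) = (a : ℝ) := by push_cast; field_simp
  have e2 : (b : ℝ) / (a + b) * ((a + b : ℕ) : ℝ) = (b : ℝ) := by push_cast; field_simp
  rw [e1, e2, Real.rpow_natCast, Real.rpow_natCast, div_pow, div_pow, div_pow, div_mul_div_comm,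
    div_le_div_iff₀ (by positivity) (by positivity)] at h'
  exact_mod_cast h'

theorem self_pow_le {p d s : ℕ} (hp : 2 ≤ p) (hd : 1 ≤ d) (hs : d ≤ s) :
    p ^ s * d ^ d ≤ (p ^ s) ^ d := by
  obtain ⟨e, rfl⟩ : ∃ e, d = e + 1 := ⟨d - 1, by omega⟩
  rw [pow_succ (p ^ s) e, mul_comm]
  refine Nat.mul_le_mul_right _ ?_
  have h1 : e + 1 ≤ p ^ e := le_trans (Nat.lt_two_pow_self) (Nat.pow_le_pow_left hp e)
  calc (e + 1) ^ (e + 1) ≤ (p ^ e) ^ (e + 1) := Nat.pow_le_pow_left h1 _
    _ = p ^ (e * (e + 1)) := (pow_mul p e (e + 1)).symm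
    _ ≤ p ^ (s * e) := Nat.pow_le_pow_right (by omega) (by rw [mul_comm s e]; exact Nat.mul_le_mul_left e hs)
    _ = (p ^ s) ^ e := pow_mul p s e

/-- The bound for every subgroup of an abelian `p`-group acting faithfully on an invariant set. -/
theorem bound {Ω : Type*} [Finite Ω] {p : ℕ} [Fact p.Prime] :
    ∀ (n : ℕ) (A : Subgroup (Equiv.Perm Ω)) (S : Finset Ω), Nat.card A = n → IsPGroup p A →
      (∀ a ∈ A, ∀ b ∈ A, a * b = b * a) → (∀ a ∈ A, ∀ x, x ∉ S → a x = x) →
      (∀ a ∈ A, ∀ x ∈ S, a x ∈ S) →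
      ∀ k : ℕ, Nat.card {x : A // x ^ p = 1} = p ^ k → n * k ^ k ≤ S.card ^ k := by
  classical
  intro n
  induction n using Nat.strong_induction_on with
  | h n ih =>
    intro A S hn hA hab hout hinv k hk
    subst hn
    by_cases hbot : A = ⊥
    · subst hbot
      have hone : Nat.card {x : (⊥ : Subgroup (Equiv.Perm Ω)) // x ^ p = 1} = 1 := by
        haveI : Subsingleton (⊥ : Subgroup (Equiv.Perm Ω)) :=
          ⟨fun a b => Subtype.ext ((Subgroup.mem_bot.mp a.2).trans (Subgroup.mem_bot.mp b.2).symm)⟩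
        haveI : Nonempty {x : (⊥ : Subgroup (Equiv.Perm Ω)) // x ^ p = 1} := ⟨⟨1, one_pow p⟩⟩
        exact Nat.card_eq_one_iff_unique.mpr ⟨inferInstance, inferInstance⟩
      rw [hone] at hk
      have hk0 : k = 0 := by
        by_contra hne
        exact (Fact.out : p.Prime).ne_one (Nat.eq_one_of_dvd_one (hk ▸ dvd_pow_self p hne))
      simp [hk0]
    haveI : Nontrivial A := (Subgroup.nontrivial_iff_ne_bot A).mpr hbot
    obtain ⟨e, he, hAe⟩ := hA.nontrivial_iff_card.mp inferInstance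
    obtain ⟨a₀, ha₀⟩ := exists_prime_orderOf_dvd_card' p (G := A) (hAe ▸ dvd_pow_self p he.ne')
    have ha₀1 : (a₀ : Equiv.Perm Ω) ≠ 1 := fun h => by
      rw [← Subgroup.orderOf_coe, h, orderOf_one] at ha₀
      exact (Fact.out : p.Prime).ne_one ha₀.symm
    obtain ⟨x, hx⟩ : ∃ x, (a₀ : Equiv.Perm Ω) x ≠ x := by
      by_contra hc
      exact ha₀1 (Equiv.ext fun y => not_not.mp (not_exists.mp hc y))
    have hxS : x ∈ S := by
      by_contra hxS
      exact hx (hout _ a₀.2 x hxS)
    haveI : IsMulCommutative A := ⟨⟨fun a b => Subtype.ext (hab _ a.2 _ b.2)⟩⟩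
    let O : Finset Ω := S.filter fun y => ∃ a : A, (a : Equiv.Perm Ω) x = y
    have hOS : O ⊆ S := Finset.filter_subset _ _
    let B : Subgroup A := MulAction.stabilizer A x
    have hOcard : O.card = B.index := by
      rw [MulAction.index_stabilizer, ← Set.ncard_coe_finset]
      congr 1
      ext y
      simp only [O, Finset.coe_filter, Set.mem_ofPred_eq, MulAction.mem_orbit_iff]
      exact ⟨fun ⟨_, a, ha⟩ => ⟨a, ha⟩, fun ⟨a, ha⟩ => ⟨by rw [← ha]; exact hinv a a.2 x hxS, a, ha⟩⟩
    let B' : Subgroup (Equiv.Perm Ω) := B.map A.subtype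
    have hB'A : B' ≤ A := Subgroup.map_subtype_le _
    have hcardB : Nat.card B' = Nat.card B := Subgroup.card_map_of_injective A.subtype_injective
    have hmul := B.card_mul_index
    have hB1 : B.index ≠ 1 := fun h => by
      have h' : a₀ ∈ B := by rw [Subgroup.index_eq_one.mp h]; exact Subgroup.mem_top _
      exact hx h'
    have hlt : Nat.card B' < Nat.card A := by
      rw [hcardB, ← hmul]
      have h1 : 0 < Nat.card B := Nat.card_pos
      have h2 : B.index ≠ 0 := Subgroup.FiniteIndex.index_ne_zero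
      have h3 : 2 ≤ B.index := by omega
      nlinarith
    let W : Subgroup A := (powMonoidHom p : A →* A).ker
    have hWk : Nat.card W = p ^ k := by
      rw [← hk]
      exact Nat.card_congr (Equiv.subtypeEquivRight fun a => by simp [W, MonoidHom.mem_ker])
    have hWB : (W ⊓ B) ≤ B := inf_le_right
    obtain ⟨kB, hkB⟩ := IsPGroup.iff_card.mp (hA.to_subgroup (W ⊓ B))
    have hkB' : Nat.card {y : B' // y ^ p = 1} = p ^ kB := by
      rw [← hkB]
      refine Nat.card_congr ?_
      refine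
        { toFun := fun y => ⟨⟨(y.1 : Equiv.Perm Ω), hB'A y.1.2⟩, ?_, ?_⟩
          invFun := fun w => ⟨⟨((w : A) : Equiv.Perm Ω), Subgroup.mem_map_of_mem _ w.2.2⟩, ?_⟩
          left_inv := fun y => rfl
          right_inv := fun w => rfl }
      · change (⟨(y.1 : Equiv.Perm Ω), hB'A y.1.2⟩ : A) ^ p = 1
        exact Subtype.ext (congrArg (fun z : B' => (z : Equiv.Perm Ω)) y.2)
      · obtain ⟨b, hb, hbe⟩ := y.1.2
        have : (⟨(y.1 : Equiv.Perm Ω), hB'A y.1.2⟩ : A) = b := Subtype.ext hbe.symm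
        rw [this]; exact hb
      · exact Subtype.ext (congrArg (fun z : A => (z : Equiv.Perm Ω)) w.2.1)
    obtain ⟨s, hs⟩ := hA.index B
    have hdiv : B.relIndex W ∣ B.index := Subgroup.relIndex_dvd_index_of_normal B W
    obtain ⟨d, hds, hd⟩ := (Nat.dvd_prime_pow (Fact.out : p.Prime)).mp (hs ▸ hdiv)
    have hWmul : p ^ kB * p ^ d = p ^ k := by
      rw [← hkB, ← hd, ← hWk]
      have h := Subgroup.card_mul_index (B.subgroupOf W)
      rw [← h]
      congr 1
      rw [← Subgroup.inf_subgroupOf_left B W]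
      exact (Nat.card_congr (Subgroup.subgroupOfEquivOfLe inf_le_left).toEquiv).symm
    rw [← pow_add] at hWmul
    have hkd : kB + d = k := Nat.pow_right_injective (Fact.out : p.Prime).two_le hWmul
    have hd1 : 1 ≤ d := by
      by_contra h0
      have hd0 : d = 0 := by omega
      rw [hd0, pow_zero, Subgroup.relIndex_eq_one] at hd
      have h' : a₀ ∈ B := hd (by
        change a₀ ^ p = 1
        rw [← ha₀]; exact pow_orderOf_eq_one a₀)
      exact hx h'
    have hrec := ih _ hlt B' (S \ O) rfl ((hA.to_subgroup B).map _)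
      (fun a ha b hb => hab a (hB'A ha) b (hB'A hb)) ?_ ?_ kB hkB'
    · rw [hcardB] at hrec
      rw [← hkd, ← hmul, hs]
      have hO : O.card = p ^ s := hOcard.trans hs
      have h1 := self_pow_le (Fact.out : p.Prime).two_le hd1 hds
      rw [← hO] at h1 ⊢
      have h2 := Nat.mul_le_mul hrec h1
      have h3 := pow_mean (a := d) (b := kB) (x := O.card) (y := (S \ O).card) (by omega)
      rw [show O.card + (S \ O).card = S.card by
        rw [add_comm, Finset.card_sdiff_add_card_eq_card hOS]] at h3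
      have hpos : 0 < d ^ d * kB ^ kB := Nat.mul_pos (Nat.pow_pos (by omega)) Nat.pow_self_pos
      refine Nat.le_of_mul_le_mul_right (c := d ^ d * kB ^ kB) ?_ hpos
      have h4 := Nat.mul_le_mul_right ((d + kB) ^ (d + kB)) h2
      rw [add_comm kB d]
      calc Nat.card B * O.card * (d + kB) ^ (d + kB) * (d ^ d * kB ^ kB)
          = Nat.card B * kB ^ kB * (O.card * d ^ d) * (d + kB) ^ (d + kB) := by ring
        _ ≤ (S \ O).card ^ kB * O.card ^ d * (d + kB) ^ (d + kB) := h4
        _ = O.card ^ d * (S \ O).card ^ kB * (d + kB) ^ (d + kB) := by ring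
        _ ≤ _ := h3
    · intro b hb y hy
      simp only [Finset.mem_sdiff, not_and, not_not] at hy
      by_cases hyS : y ∈ S
      · obtain ⟨-, a, hay⟩ := Finset.mem_filter.mp (hy hyS)
        obtain ⟨b', hb', rfl⟩ := hb
        have hbx : (b' : Equiv.Perm Ω) x = x := hb'
        rw [← hay]
        change ((b' : Equiv.Perm Ω) * (a : Equiv.Perm Ω)) x = _
        rw [hab _ b'.2 _ a.2]
        exact congrArg _ hbx
      · exact hout b (hB'A hb) y hyS
    · intro b hb y hy
      simp only [Finset.mem_sdiff] at hy ⊢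
      refine ⟨hinv b (hB'A hb) y hy.1, fun h => hy.2 ?_⟩
      obtain ⟨-, a, hay⟩ := Finset.mem_filter.mp h
      refine Finset.mem_filter.mpr ⟨hy.1, (⟨b, hB'A hb⟩ : A)⁻¹ * a, ?_⟩
      change (b⁻¹ : Equiv.Perm Ω) ((a : Equiv.Perm Ω) x) = y
      rw [hay]; exact b.symm_apply_apply y

/-- Let p be a prime, Ω a finite set with n ≥ p elements, and A an abelian p-subgroup of the symmetric group on Ω whose elements of order dividing p number p^k (so k is the rank of A). Then |A| · k^k ≤ n^k, that is, |A| ≤ (n/k)^k. -/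
theorem result {Ω : Type*} [Fintype Ω] [DecidableEq Ω]
    (p : ℕ) (hp : p.Prime) (hn : p ≤ Fintype.card Ω) (A : Subgroup (Equiv.Perm Ω)) (hA : IsPGroup p A) (hab : IsMulCommutative A)
    (k : ℕ) (hk : Nat.card {x : A // x ^ p = 1} = p ^ k) :
    Nat.card A * k ^ k ≤ Fintype.card Ω ^ k := by
  haveI : Fact p.Prime := ⟨hp⟩
  have hcomm : ∀ a ∈ A, ∀ b ∈ A, a * b = b * a := fun a ha b hb =>
    congrArg Subtype.val (hab.is_comm.comm (⟨a, ha⟩ : A) ⟨b, hb⟩)
  rw [← Finset.card_univ]
  exact bound _ A Finset.univ rfl hA hcomm (fun a _ x hx => absurd (Finset.mem_univ x) hx)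
    (fun a _ x _ => Finset.mem_univ _) k hk

end Cfsg.Agent.S3696
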