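import Cfsg.Statements.S3702
import Cfsg.Agent.H29.CubeRows
set_option autoImplicit false
open Cfsg

namespace Cfsg.Agent.S3702

/-- Let K ≤ Sym(9) be generated by (1 2 3), (1 4 7)(2 5 8)(3 6 9), (1 2)(4 5) and (1 4)(2 5)(3 6)(7 8) (the normalizer in Alt(9) of the elementary abelian group generated by (1 2 3), (4 5 6), (7 8 9)). Let G be a finite group with a subgroup H ≅ K and J = O₃(H). If C_G(j) ≤ H for every j ≠ 1 in J and J is strongly closed in H with respect to G (a G-conjugate of an element of J lying in H lies in J), then G = H. -/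
theorem result {G : Type*} [Group G] [Finite G] (H : Subgroup G)
    (hH : Nonempty (↥H ≃* ↥(Subgroup.closure ({Equiv.swap (0 : Fin 9) 1 * Equiv.swap 1 2,
        Equiv.swap (0 : Fin 9) 3 * Equiv.swap 3 6 * (Equiv.swap (1 : Fin 9) 4 * Equiv.swap 4 7) * (Equiv.swap (2 : Fin 9) 5 * Equiv.swap 5 8),
        Equiv.swap (0 : Fin 9) 1 * Equiv.swap 3 4, Equiv.swap (0 : Fin 9) 3 * Equiv.swap 1 4 * Equiv.swap 2 5 * Equiv.swap 6 7} : Set (Equiv.Perm (Fin 9))))))
    (J : Subgroup G) (hJ : J = (Cfsg.pCore 3 ↥H).map H.subtype)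
    (hC : ∀ j ∈ J, j ≠ 1 → Subgroup.centralizer ({j} : Set G) ≤ H) (hsc : Cfsg.IsStronglyClosed J H) : H = ⊤ := by
  obtain ⟨e⟩ := hH
  haveI := Fintype.ofFinite G
  obtain ⟨v, hv, htop⟩ := Cfsg.Agent.H29.Cube.exists_coords H e J hJ hC hsc
  exact htop hv.card_eq

end Cfsg.Agent.S3702
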