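import Cfsg.Statements.S3703
import Cfsg.Agent.H81.Averaging
-- import your own Cfsg.Agent.* helpers here

set_option autoImplicit false
open Cfsg

namespace Cfsg.Agent.S3703

open Finset Cfsg.Agent.H81
open scoped IsMulCommutative Pointwise

/-- If every `z (y c)` has order dividing `n`, a coprime group `Q` on whose images `y` acts
without fixed points centralizes the `p`-group `P`. -/
theorem centralizes_of_powers {p : ℕ} [Fact p.Prime] :
    ∀ (k : ℕ) {M : Type*} [Group M] [Finite M] (P : Subgroup M) [P.Normal] (Q : Subgroup M) (y : M)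
      (n : ℕ), Nat.card P = k → IsPGroup p P → ¬ p ∣ Nat.card Q → 0 < n →
      (∀ c ∈ Q, y⁻¹ * c * y ∈ Q) →
      (∀ c ∈ Q, ∀ d ∈ Q, ∀ i, 0 < i → i < n → ((y * c) ^ i)⁻¹ * (y * d) ^ i ∈ P → c = d) →
      (∀ c ∈ Q, ∀ z ∈ P, (z * (y * c)) ^ n = 1) →
      ∀ c ∈ Q, ∀ z ∈ P, c * z = z * c := by
  intro k
  induction k using Nat.strong_induction_on with
  | h k ih =>
    intro M _ _ P _ Q y n hk hP hQp hn hnorm hinj hpow c hc z hz
    subst hk
    by_cases hbot : P = ⊥
    · rw [hbot, Subgroup.mem_bot] at hz; rw [hz]; simp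
    set Z := omegaCenter P p with hZdef
    haveI : Z.Normal := Subgroup.normalizer_eq_top_iff.mp (top_le_iff.mp fun x _ =>
      mem_normalizer_omegaCenter (p := p) (Subgroup.normalizer_eq_top (H := P) ▸ Subgroup.mem_top x))
    haveI : IsMulCommutative Z := omegaCenter_isMulCommutative P p
    have hcop : ∀ j : ℕ, (p ^ j).Coprime (Nat.card Q) := fun j =>
      Nat.Coprime.pow_left _ ((Nat.Prime.coprime_iff_not_dvd Fact.out).mpr hQp)
    have hpc : ∀ d ∈ Q, (y * d) ^ n = 1 := fun d hd => by simpa using hpow d hd 1 P.one_mem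
    have hfix : ∀ d ∈ Q, ∀ v : Z, MulAut.conjNormal d v = v := by
      refine trivial_of_norms_eq_one (V := Z) MulAut.conjNormal Q y hnorm n hn ?_ ?_ ?_
      · obtain ⟨j, hj⟩ := IsPGroup.iff_card.mp (isPGroup_omegaCenter P p)
        rw [hj]; exact hcop j
      · intro a ha b hb i hi hin he
        exact hinj a ha b hb i hi hin (by rw [he, inv_mul_cancel]; exact P.one_mem)
      · intro a ha v
        have := mul_pow_eq_prod_conj v (y * a) n
        rw [hpow a ha _ (omegaCenter_le P p v.2), hpc a ha, mul_one] at this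
        exact Subtype.ext this.symm
    have hlt : Nat.card (P.map (QuotientGroup.mk' Z)) < Nat.card P := by
      have hdvd := Subgroup.card_map_dvd P (QuotientGroup.mk' Z)
      refine lt_of_le_of_ne (Nat.le_of_dvd Nat.card_pos hdvd) fun he => ?_
      obtain ⟨v, hv, hv1⟩ := Z.bot_or_exists_ne_one.resolve_left (omegaCenter_ne_bot hP hbot)
      let f : P → P.map (QuotientGroup.mk' Z) :=
        fun x => ⟨QuotientGroup.mk' Z x, Subgroup.mem_map_of_mem _ x.2⟩
      have hsurj : Function.Surjective f := fun ⟨_, x, hx, rfl⟩ => ⟨⟨x, hx⟩, rfl⟩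
      have hb := (Nat.bijective_iff_surjective_and_card f).mpr ⟨hsurj, he.symm⟩
      have : f ⟨v, omegaCenter_le P p hv⟩ = f 1 := Subtype.ext (by
        simpa [f] using (QuotientGroup.eq_one_iff v).mpr hv)
      exact hv1 (congrArg Subtype.val (hb.1 this))
    haveI : (P.map (QuotientGroup.mk' Z)).Normal :=
      Subgroup.Normal.map inferInstance _ (QuotientGroup.mk'_surjective Z)
    have key := ih _ hlt (P.map (QuotientGroup.mk' Z)) (Q.map (QuotientGroup.mk' Z))
      (QuotientGroup.mk' Z y) n rfl (hP.map _)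
      (fun h => hQp (h.trans (Subgroup.card_map_dvd _ _))) hn
      (by
        rintro _ ⟨a, ha, rfl⟩
        exact ⟨_, hnorm a ha, by simp⟩)
      (by
        rintro _ ⟨a, ha, rfl⟩ _ ⟨b, hb, rfl⟩ i hi hin hmem
        obtain ⟨u, hu, he⟩ := hmem
        have : u⁻¹ * (((y * a) ^ i)⁻¹ * (y * b) ^ i) ∈ Z := by
          rw [← QuotientGroup.eq_one_iff]
          simpa [inv_mul_eq_one] using he
        have := P.mul_mem hu (omegaCenter_le P p this)
        rw [mul_inv_cancel_left] at this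
        rw [hinj a ha b hb i hi hin this])
      (by
        rintro _ ⟨a, ha, rfl⟩ _ ⟨b, hb, rfl⟩
        rw [← map_mul, ← map_mul, ← map_pow, hpow a ha b hb, map_one])
      _ (Subgroup.mem_map_of_mem _ hc) _ (Subgroup.mem_map_of_mem _ hz)
    rw [← map_mul, ← map_mul] at key
    have hw : c * z * c⁻¹ * z⁻¹ ∈ Z := by
      rw [← QuotientGroup.eq_one_iff]
      change QuotientGroup.mk' Z (c * z * c⁻¹ * z⁻¹) = 1
      rw [map_mul, map_mul, key, map_mul, map_inv, map_inv]
      group
    set w := c * z * c⁻¹ * z⁻¹ with hwdef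
    have hcw : Commute c w := by
      have := congrArg Subtype.val (hfix c hc ⟨w, hw⟩)
      rw [MulAut.conjNormal_apply, mul_inv_eq_iff_eq_mul] at this
      exact this
    have hiter : ∀ j : ℕ, c ^ j * z * (c ^ j)⁻¹ = w ^ j * z := by
      intro j
      induction j with
      | zero => simp
      | succ j ihj =>
        calc c ^ (j + 1) * z * (c ^ (j + 1))⁻¹ = c * (c ^ j * z * (c ^ j)⁻¹) * c⁻¹ := by
              rw [pow_succ']; group
          _ = (c * w ^ j) * (z * c⁻¹) := by rw [ihj]; group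
          _ = (w ^ j * c) * (z * c⁻¹) := by rw [(hcw.pow_right j).eq]
          _ = w ^ (j + 1) * z := by rw [pow_succ, hwdef]; group
    have h1 := hiter (Nat.card Q)
    rw [show c ^ Nat.card Q = 1 from congrArg Subtype.val (pow_card_eq_one' (x := (⟨c, hc⟩ : Q))),
      one_mul, inv_one, mul_one, eq_comm, mul_eq_right] at h1
    have h2 : w ^ p = 1 := hw.2.1
    have hd1 := orderOf_dvd_of_pow_eq_one h1
    have hd2 := orderOf_dvd_of_pow_eq_one h2
    have : orderOf w = 1 := by
      have h := Nat.dvd_gcd (hd2.trans (dvd_of_eq (pow_one p).symm)) hd1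
      rwa [(hcop 1).gcd_eq_one, Nat.dvd_one] at h
    rw [orderOf_eq_one_iff, hwdef, mul_inv_eq_one, mul_inv_eq_iff_eq_mul] at this
    exact this

/-- A subgroup of `E` whose order has every prime power divisor of `|E|` is `E`. -/
theorem eq_of_prime_pow_dvd {G : Type*} [Group G] [Finite G] {S E : Subgroup G} (hle : S ≤ E)
    (h : ∀ q k : ℕ, q.Prime → q ^ k ∣ Nat.card E → q ^ k ∣ Nat.card S) : S = E :=
  Subgroup.eq_of_le_of_card_ge hle (Nat.le_of_dvd Nat.card_pos
    ((Nat.dvd_iff_prime_pow_dvd_dvd _ _).mpr h))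

/-- Let N be a normal subgroup of the finite group G such that G/N is a Frobenius group with kernel F and cyclic complement H, where the order of F is coprime to that of N and F is not contained in the image of C_G(N) in G/N. Then G has an element of order p·#H for some prime p dividing the order of N. (A standard tool in recognising groups by their element orders.) -/
theorem result {G : Type*} [Group G] [Finite G] (N : Subgroup G) [N.Normal]
    (Fb Hb : Subgroup (G ⧸ N)) [Fb.Normal] (hHb : Cfsg.IsFrobeniusComplement Hb) (hker : Cfsg.frobeniusKernel Hb = (Fb : Set (G ⧸ N)))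
    (hcyc : IsCyclic Hb) (hcop : (Nat.card Fb).Coprime (Nat.card N))
    (hnot : ¬ Fb ≤ (Subgroup.centralizer (N : Set G)).map (QuotientGroup.mk' N)) :
    ∃ p : ℕ, p.Prime ∧ p ∣ Nat.card N ∧ ∃ g : G, orderOf g = p * Nat.card Hb := by
  obtain ⟨hH1, -, hmal⟩ := hHb
  have hFH : ∀ f ∈ Fb, ∀ g : G ⧸ N, f ∈ MulAut.conj g • Hb → f = 1 := by
    intro f hf g hg
    have : f ∈ Cfsg.frobeniusKernel Hb := by rw [hker]; exact hf
    rcases this with h | h
    · exact h
    · exact absurd hg (h g)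
  have hout : ∀ w : G ⧸ N, w ∉ Fb → ∃ g : G ⧸ N, w ∈ MulAut.conj g • Hb := by
    intro w hw
    by_contra hc
    push Not at hc
    exact hw (by
      have : w ∈ Cfsg.frobeniusKernel Hb := Or.inr hc
      rwa [hker] at this)
  have hfree : ∀ w : G ⧸ N, w ∉ Fb → ∀ f ∈ Fb, Commute f w → f = 1 := by
    intro w hw f hf hfw
    obtain ⟨g, hg⟩ := hout w hw
    obtain ⟨η, hη, rfl⟩ : ∃ η ∈ Hb, g * η * g⁻¹ = w := by
      obtain ⟨η, hη, he⟩ := hg
      exact ⟨η, hη, he⟩
    by_cases hf' : g⁻¹ * f * g ∈ Hb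
    · exact hFH f hf g ⟨_, hf', by simp [mul_assoc]⟩
    · exfalso
      apply hw
      have hη' : η = 1 := by
        have h1 := hmal _ hf'
        have : η ∈ Hb ⊓ MulAut.conj (g⁻¹ * f * g) • Hb := by
          refine ⟨hη, η, hη, ?_⟩
          simp only [MulDistribMulAction.toMonoidEnd_apply, MulDistribMulAction.toMonoidHom_apply,
            MulAut.smul_def, MulAut.conj_apply]
          calc g⁻¹ * f * g * η * (g⁻¹ * f * g)⁻¹
              = g⁻¹ * (f * (g * η * g⁻¹) * f⁻¹) * g := by group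
            _ = η := by rw [hfw.eq, mul_inv_cancel_right]; group
        rwa [h1, Subgroup.mem_bot] at this
      rw [hη']
      simpa using Fb.one_mem
  set π := QuotientGroup.mk' N with hπ
  set E := Fb.comap π with hE
  haveI : E.Normal := by rw [hE]; infer_instance
  have hNE : N ≤ E := fun x hx => by
    simp [hE, hπ, (QuotientGroup.eq_one_iff x).mpr hx]
  have hcardE : Nat.card E = Nat.card N * Nat.card Fb := by
    have h := Subgroup.card_mul_index (N.subgroupOf E)
    rw [Nat.card_congr (Subgroup.subgroupOfEquivOfLe hNE).toEquiv] at h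
    rw [← h]
    congr 1
    have : (N.subgroupOf E).index = (QuotientGroup.mk' N).ker.relIndex E := by
      rw [QuotientGroup.ker_mk']; rfl
    rw [this, Subgroup.relIndex_ker]
    rw [hE, hπ, Subgroup.map_comap_eq_self_of_surjective (QuotientGroup.mk'_surjective N)]
  have hqk : ∀ q k : ℕ, q.Prime → ¬ q ∣ Nat.card N → q ^ k ∣ Nat.card E → q ^ k ∣ Nat.card Fb :=
    fun q k hq hqN h => by
      rw [hcardE] at h
      exact (Nat.Coprime.pow_left k ((Nat.Prime.coprime_iff_not_dvd hq).mpr hqN)).dvd_of_dvd_mul_left h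
  have hEN : ∀ q k : ℕ, q.Prime → q ∣ Nat.card N → q ^ k ∣ Nat.card E → q ^ k ∣ Nat.card N :=
    fun q k hq hqN h => by
      rw [hcardE] at h
      refine (Nat.Coprime.pow_left k ?_).dvd_of_dvd_mul_right h
      exact (Nat.Prime.coprime_iff_not_dvd hq).mpr fun hqF =>
        hq.ne_one (Nat.eq_one_of_dvd_one ((hcop.gcd_eq_one) ▸ Nat.dvd_gcd hqF hqN))
  -- some Sylow subgroup `P` of `N` is normalised, not centralised, by a Sylow subgroup of `E`
  obtain ⟨p, hp, P, q, hq, hqN, Q, hQE, hQP, hQcard, hQq, hQcent⟩ : ∃ p : ℕ, p.Prime ∧ ∃ P : Sylow p N,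
      ∃ q : ℕ, q.Prime ∧ ¬ q ∣ Nat.card N ∧ ∃ Q : Subgroup G, Q ≤ E ∧
      Q ≤ Subgroup.normalizer ((P.1.map N.subtype : Subgroup G) : Set G) ∧
      (∀ k, q ^ k ∣ Nat.card E → q ^ k ∣ Nat.card Q) ∧ IsPGroup q Q ∧
      ¬ Q ≤ Subgroup.centralizer ((P.1.map N.subtype : Subgroup G) : Set G) := by
    by_contra hc
    apply hnot
    suffices hQC : E ≤ Subgroup.centralizer (N : Set G) ⊔ N by
      intro f hf
      obtain ⟨g, rfl⟩ := QuotientGroup.mk'_surjective N f
      obtain ⟨a, ha, b, hb, rfl⟩ := Subgroup.mem_sup_of_normal_right.mp (hQC (show g ∈ E from hf))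
      exact ⟨a, ha, by simp [hπ, (QuotientGroup.eq_one_iff b).mpr hb]⟩
    suffices h : (Subgroup.centralizer (N : Set G) ⊔ N) ⊓ E = E from h ▸ inf_le_left
    refine eq_of_prime_pow_dvd inf_le_right fun q k hq hk => ?_
    by_cases hqN : q ∣ Nat.card N
    · exact (hEN q k hq hqN hk).trans (Subgroup.card_dvd_of_le (le_inf le_sup_right hNE))
    haveI := Fact.mk hq
    obtain ⟨Qs⟩ : Nonempty (Sylow q E) := inferInstance
    have hQcard : ∀ j, q ^ j ∣ Nat.card E → q ^ j ∣ Nat.card (Qs : Subgroup E) :=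
      fun j hj => Qs.pow_dvd_card_of_pow_dvd_card hj
    refine ((hQcard k hk).trans (dvd_of_eq
      (Subgroup.card_map_of_injective E.subtype_injective).symm)).trans (Subgroup.card_dvd_of_le ?_)
    refine le_inf (le_sup_of_le_left ?_) (Subgroup.map_subtype_le _)
    -- every Sylow subgroup of `N` has a conjugate centralised by `Qs`
    suffices hC : Subgroup.centralizer (((Qs : Subgroup E).map E.subtype : Subgroup G) : Set G) ⊓ N = N by
      intro x hx
      rw [Subgroup.mem_centralizer_iff]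
      intro v hv
      have := (inf_eq_right.mp hC) hv
      exact (Subgroup.mem_centralizer_iff.mp this x hx).symm
    refine eq_of_prime_pow_dvd inf_le_right fun p j hp hj => ?_
    haveI := Fact.mk hp
    obtain ⟨P⟩ : Nonempty (Sylow p N) := inferInstance
    set P' := (P.1.map N.subtype : Subgroup G) with hP'
    set EP := Subgroup.normalizer (P' : Set G) ⊓ E with hEP
    have hmap : Fb ≤ EP.map π := by
      intro f hf
      obtain ⟨g, rfl⟩ := QuotientGroup.mk'_surjective N f
      have hg : g ∈ Subgroup.normalizer (P' : Set G) ⊔ N := by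
        rw [hP', Sylow.normalizer_sup_eq_top P]; exact Subgroup.mem_top g
      obtain ⟨a, ha, b, hb, rfl⟩ := Subgroup.mem_sup_of_normal_right.mp hg
      refine ⟨a, ⟨ha, ?_⟩, by simp [hπ, (QuotientGroup.eq_one_iff b).mpr hb]⟩
      exact (Subgroup.mul_mem_cancel_right E (hNE hb)).mp hf
    obtain ⟨Q1⟩ : Nonempty (Sylow q EP) := inferInstance
    have hQ1card : ∀ i, q ^ i ∣ Nat.card E → q ^ i ∣ Nat.card (Q1.1.map EP.subtype : Subgroup G) := by
      intro i hi
      rw [Subgroup.card_map_of_injective EP.subtype_injective]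
      exact Q1.pow_dvd_card_of_pow_dvd_card (((hqk q i hq hqN hi).trans
        (Subgroup.card_dvd_of_le hmap)).trans (Subgroup.card_map_dvd _ _))
    have hQ1E : (Q1.1.map EP.subtype : Subgroup G) ≤ E := (Subgroup.map_subtype_le _).trans inf_le_right
    have hcent : (Q1.1.map EP.subtype : Subgroup G) ≤ Subgroup.centralizer (P' : Set G) := by
      by_contra hnc
      exact hc ⟨p, hp, P, q, hq, hqN, _, hQ1E, (Subgroup.map_subtype_le _).trans inf_le_left,
        hQ1card, Q1.2.map _, hnc⟩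
    let QE : Subgroup E := (Q1.1.map EP.subtype).subgroupOf E
    have hQEp : IsPGroup q QE := (Q1.2.map _).of_equiv (Subgroup.subgroupOfEquivOfLe hQ1E).symm
    obtain ⟨Q2, hQ2⟩ := hQEp.exists_le_sylow
    have hQ2eq : QE = (Q2 : Subgroup E) := by
      refine eq_of_prime_pow_dvd hQ2 fun r i hr hri => ?_
      obtain ⟨m, hm⟩ := IsPGroup.iff_card.mp Q2.2
      rcases Nat.eq_zero_or_pos i with rfl | hi0
      · simp
      have hrq : r = q := by
        rw [hm] at hri
        exact (Nat.prime_dvd_prime_iff_eq hr hq).mp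
          (hr.dvd_of_dvd_pow ((dvd_pow_self r hi0.ne').trans hri))
      subst hrq
      rw [Nat.card_congr (Subgroup.subgroupOfEquivOfLe hQ1E).toEquiv]
      exact hQ1card i (hri.trans (Subgroup.card_subgroup_dvd_card _))
    obtain ⟨e, he⟩ := MulAction.exists_smul_eq E Q2 Qs
    have hconj : (Subgroup.map (MulAut.conj (e : G)).toMonoidHom P') ≤
        Subgroup.centralizer (((Qs : Subgroup E).map E.subtype : Subgroup G) : Set G) ⊓ N := by
      rintro _ ⟨v, hv, rfl⟩
      refine ⟨?_, ?_⟩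
      · refine Subgroup.mem_centralizer_iff.mpr ?_
        rintro _ ⟨x, hx, rfl⟩
        rw [← he, Sylow.coe_subgroup_smul] at hx
        obtain ⟨y, hy, hyx⟩ := hx
        rw [← hQ2eq] at hy
        have hcomm : v * (y : G) = (y : G) * v :=
          Subgroup.mem_centralizer_iff.mp (hcent hy) v hv
        subst hyx
        simp only [MulDistribMulAction.toMonoidEnd_apply, MulDistribMulAction.toMonoidHom_apply,
          MulAut.smul_def, MulAut.conj_apply, Subgroup.coe_subtype, Subgroup.coe_mul,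
          Subgroup.coe_inv, MulEquiv.toMonoidHom_eq_coe, MonoidHom.coe_coe]
        calc (e : G) * y * (e : G)⁻¹ * ((e : G) * v * (e : G)⁻¹)
            = (e : G) * (y * v) * (e : G)⁻¹ := by group
          _ = (e : G) * v * (e : G)⁻¹ * ((e : G) * y * (e : G)⁻¹) := by rw [← hcomm]; group
      · simpa using Subgroup.Normal.conj_mem inferInstance v (Subgroup.map_subtype_le _ hv) (e : G)
    refine ((P.pow_dvd_card_of_pow_dvd_card hj).trans (dvd_of_eq ?_)).trans (Subgroup.card_dvd_of_le hconj)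
    rw [Subgroup.card_map_of_injective (MulAut.conj (e : G)).injective, hP',
      Subgroup.card_map_of_injective N.subtype_injective]
  haveI := Fact.mk hp
  haveI := Fact.mk hq
  set P' := (P.1.map N.subtype : Subgroup G) with hP'
  have hP'N : P' ≤ N := Subgroup.map_subtype_le _
  have hpN : p ∣ Nat.card N := by
    by_contra hpn
    apply hQcent
    obtain ⟨j, hj⟩ := IsPGroup.iff_card.mp P.2
    have : P.1 = ⊥ := by
      rw [← Subgroup.card_eq_one, hj]
      rcases Nat.eq_zero_or_pos j with rfl | h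
      · simp
      · exact absurd (((hj ▸ dvd_pow_self p h.ne' : p ∣ Nat.card P.1)).trans
          (Subgroup.card_subgroup_dvd_card _)) hpn
    rw [hP', this, Subgroup.map_bot]
    intro x _
    rw [Subgroup.mem_centralizer_iff]
    intro v hv
    rw [SetLike.mem_coe, Subgroup.mem_bot] at hv
    rw [hv, one_mul, mul_one]
  -- a lift of a generator of `Hb` normalising both `P` and `Q`
  set M := Subgroup.normalizer (P' : Set G) with hM
  have hsurjM : M ⊔ N = ⊤ := Sylow.normalizer_sup_eq_top P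
  have hQEM : Q.subgroupOf M ≤ E.subgroupOf M := Subgroup.comap_mono hQE
  let QE : Subgroup (E.subgroupOf M) := (Q.subgroupOf M).subgroupOf (E.subgroupOf M)
  have hQEp : IsPGroup q QE :=
    (hQq.of_equiv (Subgroup.subgroupOfEquivOfLe hQP).symm).of_equiv
      (Subgroup.subgroupOfEquivOfLe hQEM).symm
  obtain ⟨Q2, hQ2⟩ := hQEp.exists_le_sylow
  have hQ2eq : QE = (Q2 : Subgroup (E.subgroupOf M)) := by
    refine eq_of_prime_pow_dvd hQ2 fun r i hr hri => ?_
    obtain ⟨m, hm⟩ := IsPGroup.iff_card.mp Q2.2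
    rcases Nat.eq_zero_or_pos i with rfl | hi0
    · simp
    have hrq : r = q := by
      rw [hm] at hri
      exact (Nat.prime_dvd_prime_iff_eq hr hq).mp
        (hr.dvd_of_dvd_pow ((dvd_pow_self r hi0.ne').trans hri))
    subst hrq
    rw [Nat.card_congr (Subgroup.subgroupOfEquivOfLe hQEM).toEquiv,
      Nat.card_congr (Subgroup.subgroupOfEquivOfLe hQP).toEquiv]
    refine hQcard i ((hri.trans (Subgroup.card_subgroup_dvd_card _)).trans ?_)
    have : Nat.card (E.subgroupOf M) = Nat.card ((E ⊓ M).subgroupOf M) := by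
      rw [Subgroup.inf_subgroupOf_right]
    rw [this, Nat.card_congr (Subgroup.subgroupOfEquivOfLe inf_le_right).toEquiv]
    exact Subgroup.card_dvd_of_le inf_le_left
  have hfr : Subgroup.normalizer ((Q.subgroupOf M : Subgroup M) : Set M) ⊔ E.subgroupOf M = ⊤ := by
    have := Sylow.normalizer_sup_eq_top Q2
    rw [← hQ2eq, Subgroup.subgroupOf_map_subtype, inf_eq_left.mpr hQEM] at this
    exact this
  obtain ⟨η, hη⟩ := hcyc
  obtain ⟨g₀, hg₀⟩ := QuotientGroup.mk'_surjective N (η : G ⧸ N)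
  obtain ⟨m, hm, nn, hnn, hmn⟩ : ∃ m ∈ M, ∃ nn ∈ N, m * nn = g₀ :=
    Subgroup.mem_sup_of_normal_right.mp (hsurjM ▸ Subgroup.mem_top g₀)
  obtain ⟨x, hx, e, he, hxe⟩ : ∃ x ∈ Subgroup.normalizer ((Q.subgroupOf M : Subgroup M) : Set M),
      ∃ e ∈ E.subgroupOf M, x * e = (⟨m, hm⟩ : M) :=
    Subgroup.mem_sup_of_normal_right.mp (hfr ▸ Subgroup.mem_top _)
  set n := Nat.card Hb with hn
  have hπx : (π (x : G))⁻¹ * (η : G ⧸ N) ∈ Fb := by
    have h1 : π m = (η : G ⧸ N) := by
      rw [← hg₀, ← hmn, map_mul]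
      simp [hπ, (QuotientGroup.eq_one_iff nn).mpr hnn]
    have h2 : π (x : G) * π (e : G) = π m := by
      rw [← map_mul]; exact congrArg (fun y : M => π (y : G)) hxe
    rw [← h1, ← h2, inv_mul_cancel_left]
    exact he
  have hηpow : ∀ i, 0 < i → i < n → ((η : G ⧸ N)) ^ i ∉ Fb := by
    intro i hi hin hmem
    have h1 : ((η : G ⧸ N)) ^ i = 1 := hFH _ hmem 1 (by
      rw [map_one, one_smul]; exact Hb.pow_mem η.2 i)
    have hord : orderOf (η : G ⧸ N) = n := by
      rw [Subgroup.orderOf_coe, hn]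
      exact orderOf_eq_card_of_forall_mem_zpowers hη
    have := Nat.le_of_dvd hi (hord ▸ orderOf_dvd_of_pow_eq_one h1)
    omega
  -- facts on elements of the coset of the generator
  have hcoset : ∀ y : G, (π y)⁻¹ * (η : G ⧸ N) ∈ Fb →
      (∀ i, 0 < i → i < n → π y ^ i ∉ Fb) ∧ π y ^ n = 1 := by
    intro y hy
    have hnmem : ∀ i, 0 < i → i < n → π y ^ i ∉ Fb := by
      intro i hi hin hmem
      apply hηpow i hi hin
      rw [← QuotientGroup.eq_one_iff] at hmem hy ⊢
      rw [QuotientGroup.mk_mul, QuotientGroup.mk_inv, inv_mul_eq_one] at hy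
      rw [QuotientGroup.mk_pow, ← hy, ← QuotientGroup.mk_pow]
      exact hmem
    refine ⟨hnmem, ?_⟩
    rcases Nat.lt_or_ge 1 n with h1 | h1
    · obtain ⟨g, hg⟩ := hout (π y) (by simpa using hnmem 1 one_pos h1)
      obtain ⟨η', hη', hge⟩ : ∃ η' ∈ Hb, g * η' * g⁻¹ = π y := by
        obtain ⟨a, ha, hae⟩ := hg
        exact ⟨a, ha, hae⟩
      rw [← hge, conj_pow, show η' ^ n = 1 from congrArg Subtype.val (pow_card_eq_one' (x := (⟨η', hη'⟩ : Hb)))]
      group
    · exfalso
      exact hH1 (Subgroup.card_eq_one.mp (le_antisymm h1 Nat.card_pos))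
  have hn0 : 0 < n := Nat.card_pos
  by_contra hno
  push Not at hno
  have hpow : ∀ y : G, (π y)⁻¹ * (η : G ⧸ N) ∈ Fb → y ^ n = 1 := by
    intro y hy
    by_contra hne
    obtain ⟨h1, h2⟩ := hcoset y hy
    have hndvd : n ∣ orderOf y := by
      have : orderOf (π y) = n := (orderOf_eq_iff hn0).mpr ⟨h2, fun i hi hi0 he => h1 i hi0 hi (he ▸ Fb.one_mem)⟩
      exact this ▸ orderOf_map_dvd π y
    have hmem : y ^ n ∈ N := by
      rw [← QuotientGroup.eq_one_iff]; exact (map_pow π y n).trans h2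
    obtain ⟨r, hr, hrd⟩ := Nat.exists_prime_and_dvd (show orderOf (y ^ n) ≠ 1 by simpa using hne)
    refine hno r hr (hrd.trans (Subgroup.orderOf_dvd_natCard N hmem)) (y ^ (orderOf y / (r * n))) ?_
    have hrn : r * n ∣ orderOf y := by
      rw [orderOf_pow_of_dvd hn0.ne' hndvd] at hrd
      rw [mul_comm]
      exact Nat.mul_dvd_of_dvd_div hndvd hrd
    rw [orderOf_pow_of_dvd]
    · exact Nat.div_div_self hrn (orderOf_pos y).ne'
    · exact (Nat.div_pos (Nat.le_of_dvd (orderOf_pos y) hrn) (Nat.mul_pos hr.pos hn0)).ne'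
    · exact Nat.div_dvd_of_dvd hrn
  haveI : (P'.subgroupOf M).Normal :=
    (Subgroup.normal_subgroupOf_iff_le_normalizer Subgroup.le_normalizer).mpr le_rfl
  have key := centralizes_of_powers (p := p) _ (P'.subgroupOf M) (Q.subgroupOf M) x n rfl
    ((P.2.map N.subtype).of_equiv (Subgroup.subgroupOfEquivOfLe Subgroup.le_normalizer).symm) ?_ hn0 ?_ ?_ ?_
  · apply hQcent
    intro c hc
    rw [Subgroup.mem_centralizer_iff]
    intro v hv
    exact (congrArg Subtype.val (key ⟨c, hQP hc⟩ hc ⟨v, Subgroup.le_normalizer hv⟩ hv)).symm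
  · intro h
    rw [Nat.card_congr (Subgroup.subgroupOfEquivOfLe hQP).toEquiv] at h
    obtain ⟨m', hm'⟩ := IsPGroup.iff_card.mp hQq
    rw [hm'] at h
    exact hqN ((Nat.prime_dvd_prime_iff_eq hp hq).mp (hp.dvd_of_dvd_pow h) ▸ hpN)
  · intro c hc
    have := (Subgroup.mem_normalizer_iff.mp (inv_mem hx) c).mp hc
    rwa [inv_inv] at this
  · intro c hc d hd i hi hin hmem
    have hπc : ∀ b : M, b ∈ Q.subgroupOf M → π (b : G) ∈ Fb := fun b hb => hQE hb
    have heq : π ((x * c : M) : G) ^ i = π ((x * d : M) : G) ^ i := by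
      have h1 : ((((x * c) ^ i)⁻¹ * (x * d) ^ i : M) : G) ∈ N := hP'N hmem
      rw [← QuotientGroup.eq_one_iff] at h1
      change π ((((x * c) ^ i)⁻¹ * (x * d) ^ i : M) : G) = 1 at h1
      rw [Subgroup.coe_mul, Subgroup.coe_inv, Subgroup.coe_pow, Subgroup.coe_pow, map_mul, map_inv,
        map_pow, map_pow, inv_mul_eq_one] at h1
      exact h1
    -- the map `a ↦ w⁻¹ a w a⁻¹` is a bijection of `Fb`
    set w := π (x : G) with hw
    have hwout : ∀ j, 0 < j → j < n → w ^ j ∉ Fb := (hcoset _ hπx).1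
    let f : Fb → Fb := fun a => ⟨w⁻¹ * a * w * (a : G ⧸ N)⁻¹,
      Fb.mul_mem (by simpa using Subgroup.Normal.conj_mem inferInstance _ a.2 w⁻¹) (Fb.inv_mem a.2)⟩
    have hn1 : 1 < n := by omega
    have hbij : Function.Bijective f := Finite.injective_iff_bijective.mp fun a b hab => by
      have h := congrArg Subtype.val hab
      simp only [f] at h
      have hcm : Commute ((b : G ⧸ N)⁻¹ * a) w := by
        change (b : G ⧸ N)⁻¹ * a * w = w * ((b : G ⧸ N)⁻¹ * a)
        calc (b : G ⧸ N)⁻¹ * a * w = (b : G ⧸ N)⁻¹ * w * ((w⁻¹ * a * w * (a : G ⧸ N)⁻¹) * a) := by group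
          _ = (b : G ⧸ N)⁻¹ * w * ((w⁻¹ * b * w * (b : G ⧸ N)⁻¹) * a) := by rw [h]
          _ = w * ((b : G ⧸ N)⁻¹ * a) := by group
      have := hfree w (by simpa using hwout 1 one_pos hn1) _ (Fb.mul_mem (Fb.inv_mem b.2) a.2) hcm
      exact Subtype.ext (inv_mul_eq_one.mp this).symm
    obtain ⟨a, ha⟩ := hbij.2 ⟨π (c : G), hπc c hc⟩
    obtain ⟨b, hb⟩ := hbij.2 ⟨π (d : G), hπc d hd⟩
    have ha' : w⁻¹ * a * w * (a : G ⧸ N)⁻¹ = π (c : G) := congrArg Subtype.val ha
    have hb' : w⁻¹ * b * w * (b : G ⧸ N)⁻¹ = π (d : G) := congrArg Subtype.val hb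
    rw [Subgroup.coe_mul, Subgroup.coe_mul, map_mul, map_mul, ← hw, ← ha', ← hb',
      show w * (w⁻¹ * a * w * (a : G ⧸ N)⁻¹) = a * w * (a : G ⧸ N)⁻¹ by group,
      show w * (w⁻¹ * b * w * (b : G ⧸ N)⁻¹) = b * w * (b : G ⧸ N)⁻¹ by group,
      conj_pow, conj_pow] at heq
    have hcm : Commute ((b : G ⧸ N)⁻¹ * a) (w ^ i) := by
      change (b : G ⧸ N)⁻¹ * a * w ^ i = w ^ i * ((b : G ⧸ N)⁻¹ * a)
      calc (b : G ⧸ N)⁻¹ * a * w ^ i = (b : G ⧸ N)⁻¹ * ((a * w ^ i * (a : G ⧸ N)⁻¹) * a) := by group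
        _ = (b : G ⧸ N)⁻¹ * ((b * w ^ i * (b : G ⧸ N)⁻¹) * a) := by rw [heq]
        _ = w ^ i * ((b : G ⧸ N)⁻¹ * a) := by group
    have hab : a = b := Subtype.ext (inv_mul_eq_one.mp
      (hfree _ (hwout i hi hin) _ (Fb.mul_mem (Fb.inv_mem b.2) a.2) hcm)).symm
    have hcd : π (c : G) = π (d : G) := by rw [← ha', ← hb', hab]
    have hmemN : (c : G)⁻¹ * d ∈ N := QuotientGroup.eq.mp hcd
    have hmemQ : (c : G)⁻¹ * d ∈ Q := Q.mul_mem (Q.inv_mem hc) hd
    have h1 := Subgroup.orderOf_dvd_natCard N hmemN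
    have h2 := Subgroup.orderOf_dvd_natCard Q hmemQ
    obtain ⟨m', hm'⟩ := IsPGroup.iff_card.mp hQq
    have : orderOf ((c : G)⁻¹ * d) = 1 := by
      have h := Nat.dvd_gcd (h2.trans (dvd_of_eq hm')) h1
      rwa [(Nat.Coprime.pow_left _ ((Nat.Prime.coprime_iff_not_dvd hq).mpr hqN)).gcd_eq_one,
        Nat.dvd_one] at h
    rw [orderOf_eq_one_iff, inv_mul_eq_one] at this
    exact Subtype.ext this
  · intro c hc z hz
    apply Subtype.ext
    rw [Subgroup.coe_pow, Subgroup.coe_one]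
    apply hpow
    have hz1 : π (z : G) = 1 := (QuotientGroup.eq_one_iff _).mpr (hP'N hz)
    rw [Subgroup.coe_mul, Subgroup.coe_mul, map_mul, map_mul, hz1, one_mul, mul_inv_rev, mul_assoc]
    exact Fb.mul_mem (Fb.inv_mem (hQE hc)) hπx

end Cfsg.Agent.S3703
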