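import Cfsg.Statements.S3713
import Cfsg.Agent.H78.SpSlim.Coset

set_option autoImplicit false
open Cfsg

namespace Cfsg.Agent.S3713

open Cfsg.Agent.H78.SpSlim Cfsg.Agent.H82.Sp in
/-- A presentation of the symplectic group as the universal completion of an amalgam of small subgroups. Let F be a field with more than two elements, n ≥ 2, and Sp the group of 2n × 2n matrices over F preserving the standard alternating form, acting on column vectors; write e_k, f_k for the standard basis vectors of the two halves (a hyperbolic basis). For each k let S_k be the subgroup of Sp fixing e_l and f_l for all l ≠ k (a copy of SL(2, F) on the plane of e_k, f_k), and for each i with i + 1 < n let M_i be the subgroup fixing every e_l and fixing f_l for all l other than i, i+1 (an abelian group isomorphic to the additive group of F³). Then Sp is the universal completion of the amalgam formed by the S_k, the M_i and the subgroups generated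 by two of them: for every group H and homomorphisms σ_k : S_k → H, μ_i : M_i → H such that for each pair of these subgroups some homomorphism on the subgroup they generate restricts to the given ones, there is exactly one homomorphism Sp → H restricting to every σ_k and μ_i. -/
theorem result
    (F : Type*) [Field F] (hF : ∃ a : F, a ≠ 0 ∧ a ≠ 1) (n : ℕ) (hn : 2 ≤ n)
    (S M : Fin n → Subgroup ↥(Matrix.symplecticGroup (Fin n) F))
    (hS : ∀ j : Fin n, S j = Subgroup.closure {A : ↥(Matrix.symplecticGroup (Fin n) F) | ∀ k : Fin n, k ≠ j →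
      ((A : ↥(Matrix.symplecticGroup (Fin n) F)) : Matrix (Fin n ⊕ Fin n) (Fin n ⊕ Fin n) F).mulVec (Pi.single (Sum.inl k) (1 : F)) = (Pi.single (Sum.inl k) (1 : F)) ∧ ((A : ↥(Matrix.symplecticGroup (Fin n) F)) : Matrix (Fin n ⊕ Fin n) (Fin n ⊕ Fin n) F).mulVec (Pi.single (Sum.inr k) (1 : F)) = (Pi.single (Sum.inr k) (1 : F))})
    (hM : ∀ i : Fin n, (i : ℕ) + 1 < n → M i = Subgroup.closure {A : ↥(Matrix.symplecticGroup (Fin n) F) |
      (∀ k : Fin n, ((A : ↥(Matrix.symplecticGroup (Fin n) F)) : Matrix (Fin n ⊕ Fin n) (Fin n ⊕ Fin n) F).mulVec (Pi.single (Sum.inl k) (1 : F)) = (Pi.single (Sum.inl k) (1 : F))) ∧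
        ∀ k : Fin n, (k : ℕ) ≠ i → (k : ℕ) ≠ (i : ℕ) + 1 → ((A : ↥(Matrix.symplecticGroup (Fin n) F)) : Matrix (Fin n ⊕ Fin n) (Fin n ⊕ Fin n) F).mulVec (Pi.single (Sum.inr k) (1 : F)) = (Pi.single (Sum.inr k) (1 : F))})
    {H : Type*} [Group H] (σ : ∀ j : Fin n, ↥(S j) →* H) (μ : ∀ i : Fin n, ↥(M i) →* H)
    (hSS : ∀ j l : Fin n, j ≠ l → ∃ Ψ : ↥(S j ⊔ S l) →* H,
      (∀ (g : ↥(Matrix.symplecticGroup (Fin n) F)) (hg : g ∈ S j), Ψ ⟨g, Subgroup.mem_sup_left hg⟩ = σ j ⟨g, hg⟩) ∧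
        (∀ (g : ↥(Matrix.symplecticGroup (Fin n) F)) (hg : g ∈ S l), Ψ ⟨g, Subgroup.mem_sup_right hg⟩ = σ l ⟨g, hg⟩))
    (hMM : ∀ i i' : Fin n, i ≠ i' → (i : ℕ) + 1 < n → (i' : ℕ) + 1 < n → ∃ Ψ : ↥(M i ⊔ M i') →* H,
      (∀ (g : ↥(Matrix.symplecticGroup (Fin n) F)) (hg : g ∈ M i), Ψ ⟨g, Subgroup.mem_sup_left hg⟩ = μ i ⟨g, hg⟩) ∧
        (∀ (g : ↥(Matrix.symplecticGroup (Fin n) F)) (hg : g ∈ M i'), Ψ ⟨g, Subgroup.mem_sup_right hg⟩ = μ i' ⟨g, hg⟩))
    (hMS : ∀ i j : Fin n, (i : ℕ) + 1 < n → ∃ Ψ : ↥(M i ⊔ S j) →* H,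
      (∀ (g : ↥(Matrix.symplecticGroup (Fin n) F)) (hg : g ∈ M i), Ψ ⟨g, Subgroup.mem_sup_left hg⟩ = μ i ⟨g, hg⟩) ∧
        (∀ (g : ↥(Matrix.symplecticGroup (Fin n) F)) (hg : g ∈ S j), Ψ ⟨g, Subgroup.mem_sup_right hg⟩ = σ j ⟨g, hg⟩)) :
    ∃! Φ : ↥(Matrix.symplecticGroup (Fin n) F) →* H,
      (∀ (j : Fin n) (g : ↥(Matrix.symplecticGroup (Fin n) F)) (hg : g ∈ S j), Φ g = σ j ⟨g, hg⟩) ∧
        (∀ (i : Fin n), (i : ℕ) + 1 < n → ∀ (g : ↥(Matrix.symplecticGroup (Fin n) F)) (hg : g ∈ M i), Φ g = μ i ⟨g, hg⟩) := by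
  have hS' : ∀ j, S j = GI {j} := by
    intro j
    rw [hS j]
    refine le_antisymm ((Subgroup.closure_le _).2 fun A hA k hk => hA k (by simpa using hk))
      fun A hA => Subgroup.subset_closure fun k hk => hA k (by simpa using hk)
  have hM' : ∀ i j : Fin n, (j : ℕ) = i + 1 → M i = FM i j := by
    intro i j hij
    rw [hM i (hij ▸ j.isLt)]
    refine le_antisymm ((Subgroup.closure_le _).2 fun A hA => ?_) fun A hA => Subgroup.subset_closure ?_
    · refine ⟨⟨fun k hk => ⟨hA.1 k, hA.2 k ?_ ?_⟩, hA.1 i⟩, hA.1 j⟩ <;>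
        (simp [Fin.ext_iff] at hk; omega)
    · refine ⟨FM_fix hA, fun k h1 h2 => (hA.1.1 k ?_).2⟩
      simp [Fin.ext_iff]; omega
  let G := ↥(Matrix.symplecticGroup (Fin n) F)
  let π : H × G →* G := MonoidHom.snd H G
  let pA : Fin n → Subgroup (H × G) := fun j => ((σ j).prod (S j).subtype).range
  let pC : Fin n → Subgroup (H × G) := fun i => ((μ i).prod (M i).subtype).range
  have hinj : ∀ (P : Subgroup G) (Ψ : ↥P →* H), InjOnS π (Ψ.prod P.subtype).range := by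
    rintro P Ψ _ ⟨p, rfl⟩ hp
    rw [show p = 1 from Subtype.ext hp, map_one]
  have hle : ∀ (P Q : Subgroup G) (hPQ : P ≤ Q) (φ : ↥P →* H) (Ψ : ↥Q →* H),
      (∀ (g : G) (hg : g ∈ P), Ψ ⟨g, hPQ hg⟩ = φ ⟨g, hg⟩) →
      (φ.prod P.subtype).range ≤ (Ψ.prod Q.subtype).range := by
    rintro P Q hPQ φ Ψ h _ ⟨⟨g, hg⟩, rfl⟩
    exact ⟨⟨g, hPQ hg⟩, Prod.ext (h g hg) rfl⟩
  have hmap : ∀ (P : Subgroup G) (φ : ↥P →* H), (φ.prod P.subtype).range.map π = P := by
    intro P φ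
    rw [MonoidHom.map_range, show π.comp (φ.prod P.subtype) = P.subtype from MonoidHom.snd_comp_prod _ _,
      Subgroup.range_subtype]
  let Am : Amal π :=
    { A := pA
      C := pC
      mapA := fun k => by rw [hmap, hS']
      mapC := fun i j h => by rw [hmap, hM' i j h]
      injAA := fun k l => by
        by_cases h : k = l
        · subst h; exact (hinj _ _).mono (sup_le le_rfl le_rfl)
        · obtain ⟨Ψ, h1, h2⟩ := hSS k l h
          exact (hinj _ Ψ).mono (sup_le (hle _ _ le_sup_left _ _ h1) (hle _ _ le_sup_right _ _ h2))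
      injCC := fun i k hi hk => by
        by_cases h : i = k
        · subst h; exact (hinj _ _).mono (sup_le le_rfl le_rfl)
        · obtain ⟨Ψ, h1, h2⟩ := hMM i k h hi hk
          exact (hinj _ Ψ).mono (sup_le (hle _ _ le_sup_left _ _ h1) (hle _ _ le_sup_right _ _ h2))
      injCA := fun i k hi => by
        obtain ⟨Ψ, h1, h2⟩ := hMS i k hi
        exact (hinj _ Ψ).mono (sup_le (hle _ _ le_sup_left _ _ h1) (hle _ _ le_sup_right _ _ h2)) }
  let i0 : Fin n := ⟨0, by omega⟩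
  have hgood : Am.Good i0 n := Am.good_all hF (n - 1) i0 n (show n = 0 + 1 + (n - 1) by omega) le_rfl
  have htop : (Am.T 0 n).map π = ⊤ := by
    rw [show Am.T 0 n = Am.T (i0 : ℕ) n from rfl, hgood.map, ← GI_univ]
    exact congrArg GI (Set.eq_univ_of_forall fun k => ⟨Nat.zero_le _, k.isLt⟩)
  have hsurj : ∀ g : G, ∃ x ∈ Am.T 0 n, π x = g := fun g => by
    have hg : g ∈ (Am.T 0 n).map π := htop ▸ Subgroup.mem_top g
    exact hg
  choose lift hlift hπ using hsurj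
  have heq : ∀ {x : H × G}, x ∈ Am.T 0 n → x = lift (π x) := fun {x} hx =>
    InjOnS.eq hgood.inj hx (hlift _) (hπ _).symm
  let Φ : G →* H := MonoidHom.mk' (fun g => (lift g).1) fun a b => by
    rw [← Prod.fst_mul, heq (mul_mem (hlift a) (hlift b)), map_mul, hπ, hπ]
  refine ⟨Φ, ⟨fun j g hg => ?_, fun i hi g hg => ?_⟩, fun Φ' hΦ' => ?_⟩
  · show (lift g).1 = _
    have := heq (Am.A_le_T (a := 0) (b := n) ⟨Nat.zero_le _, j.isLt⟩
      (show (σ j ⟨g, hg⟩, g) ∈ Am.A j from ⟨⟨g, hg⟩, rfl⟩))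
    exact (congrArg Prod.fst this).symm
  · show (lift g).1 = _
    have := heq (Am.C_le_T (a := 0) (b := n) ⟨Nat.zero_le _, hi⟩
      (show (μ i ⟨g, hg⟩, g) ∈ Am.C i from ⟨⟨g, hg⟩, rfl⟩))
    exact (congrArg Prod.fst this).symm
  · have hT : Am.T 0 n ≤ (MonoidHom.eqLocus Φ' Φ).comap π := by
      refine Am.T_le (fun j _ _ x hx => ?_) fun i _ hi x hx => ?_
      · obtain ⟨⟨g, hg⟩, rfl⟩ := hx
        show Φ' g = Φ g
        rw [hΦ'.1 j g hg]
        have := heq (Am.A_le_T (a := 0) (b := n) ⟨Nat.zero_le _, j.isLt⟩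
          (show (σ j ⟨g, hg⟩, g) ∈ Am.A j from ⟨⟨g, hg⟩, rfl⟩))
        exact congrArg Prod.fst this
      · obtain ⟨⟨g, hg⟩, rfl⟩ := hx
        show Φ' g = Φ g
        rw [hΦ'.2 i hi g hg]
        have := heq (Am.C_le_T (a := 0) (b := n) ⟨Nat.zero_le _, hi⟩
          (show (μ i ⟨g, hg⟩, g) ∈ Am.C i from ⟨⟨g, hg⟩, rfl⟩))
        exact congrArg Prod.fst this
    ext g
    obtain ⟨x, hx, rfl⟩ := (Subgroup.mem_map).1 (htop ▸ Subgroup.mem_top g : g ∈ (Am.T 0 n).map π)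
    exact hT hx

end Cfsg.Agent.S3713
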