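import Cfsg.Statements.S3716
import Cfsg.Agent.H29.DihNineRows

set_option autoImplicit false
open Cfsg

namespace Cfsg.Agent.S3716

/-- Let G be a finite group with an elementary abelian Sylow 3-subgroup M of order 9 which is self-centralizing (C_G(M) = M), let N = N_G(M), and suppose C_G(g) ≤ N for every nonidentity g ∈ M. If the Sylow 2-subgroups of N are dihedral of order 8, then G is not simple. -/
theorem result {G : Type*} [Group G] [Finite G] (M : Sylow 3 G) (hM9 : Nat.card ↥(M : Subgroup G) = 9)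
    (hMel : ∀ m ∈ (M : Subgroup G), m ^ 3 = 1)
    (hCM : Subgroup.centralizer ((M : Subgroup G) : Set G) = (M : Subgroup G))
    (N : Subgroup G) (hN : N = Subgroup.normalizer ((M : Subgroup G) : Set G))
    (hCg : ∀ g ∈ (M : Subgroup G), g ≠ 1 → Subgroup.centralizer ({g} : Set G) ≤ N)
    (hS : ∀ S : Sylow 2 ↥N, Nonempty (↥(S : Subgroup ↥N) ≃* DihedralGroup 4)) :
    ¬ IsSimpleGroup G := by
  subst hN
  intro hsimple
  haveI := Fintype.ofFinite G
  haveI : Fact (Nat.Prime 3) := ⟨Nat.prime_three⟩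
  obtain ⟨φ, hφ⟩ := Cfsg.Agent.H29.DihNine.exists_coords M hM9 hMel hCM hS
  have hcomm : ∀ a ∈ (M : Subgroup G), ∀ b ∈ (M : Subgroup G), a * b = b * a := fun a ha b hb => by
    have : a ∈ Subgroup.centralizer ((M : Subgroup G) : Set G) := hCM.symm ▸ ha
    exact (Subgroup.mem_centralizer_iff.1 this b hb).symm
  refine Cfsg.Agent.H29.DihNine.not_simple_of_coords (fun hab => ?_) hφ
    ⟨hcomm, hMel, ⟨M, rfl⟩, hCg⟩ hM9
  have htop : (M : Subgroup G) = ⊤ := by
    refine eq_top_iff.2 fun x _ => ?_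
    rw [← hCM, Subgroup.mem_centralizer_iff]
    intro y _
    exact hab.is_comm.comm y x
  obtain ⟨k, hk, hk9⟩ := hφ.card_eq ⟨hcomm, hMel, ⟨M, rfl⟩, hCg⟩ hM9
  rw [htop, Subgroup.card_top] at hM9
  omega

end Cfsg.Agent.S3716
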