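import Cfsg.Statements.S3781
import Cfsg.Agent.H88.ThreeSubgroups
import Mathlib

set_option autoImplicit false
open Cfsg

namespace Cfsg.Agent.S3781

section
open scoped commutatorElement
variable {G : Type*} [Group G]

/-- Iterated commutators of `X` with the whole group. -/
def iterComm (X : Subgroup G) : ℕ → Subgroup G
  | 0 => X
  | j + 1 => ⁅iterComm X j, (⊤ : Subgroup G)⁆

theorem iterComm_normal (X : Subgroup G) [X.Normal] : ∀ j, (iterComm X j).Normal
  | 0 => inferInstanceAs X.Normal
  | j + 1 => by
    haveI := iterComm_normal X j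
    exact Subgroup.commutator_normal _ _

theorem iterComm_le_lcs (X : Subgroup G) :
    ∀ j, iterComm X j ≤ (⊤ : Subgroup G).lowerCentralSeries j
  | 0 => le_top
  | j + 1 => Subgroup.commutator_mono (iterComm_le_lcs X j) le_rfl

theorem iterComm_antitone (X : Subgroup G) [X.Normal] : Antitone (iterComm X) := by
  refine antitone_nat_of_succ_le fun j => ?_
  haveI := iterComm_normal X j
  exact Subgroup.commutator_le_left _ _

theorem comm_lcs_le (X : Subgroup G) [X.Normal] : ∀ s j,
    ⁅iterComm X j, (⊤ : Subgroup G).lowerCentralSeries s⁆ ≤ iterComm X (j + s + 1) := by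
  intro s
  induction s with
  | zero => intro j; exact le_rfl
  | succ s ih =>
    intro j
    haveI := iterComm_normal X (j + (s + 1) + 1)
    rw [Subgroup.lowerCentralSeries_succ, Subgroup.commutator_comm (iterComm X j)]
    apply Cfsg.Agent.H88.commutator_commutator_le_of_rotate
    · rw [Subgroup.commutator_comm (⊤ : Subgroup G)]
      have h := ih (j + 1)
      rwa [show j + 1 + s + 1 = j + (s + 1) + 1 by omega] at h
    · exact (Subgroup.commutator_mono (ih j) le_rfl).trans
        (le_of_eq (by rw [show j + (s + 1) + 1 = (j + s + 1) + 1 by omega]; rfl))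

theorem iterComm_le_of_index [Finite G] [Group.IsNilpotent G] {p : ℕ} (hp : p.Prime)
    (X L : Subgroup G) [X.Normal] [L.Normal] (hLX : L ≤ X) {m : ℕ}
    (hm : L.relIndex X = p ^ m) : iterComm X m ≤ L := by
  obtain ⟨c, hc⟩ := Subgroup.nilpotent_iff_lowerCentralSeries.mp ‹Group.IsNilpotent G›
  suffices h : ∀ j, ∀ a, L.relIndex (iterComm X j ⊔ L) = p ^ a → a + j ≤ m ∨ iterComm X j ≤ L by
    haveI := iterComm_normal X m
    have hle : iterComm X m ⊔ L ≤ X := sup_le (iterComm_antitone X (Nat.zero_le m)) hLX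
    have hd : L.relIndex (iterComm X m ⊔ L) ∣ p ^ m := hm ▸
      ⟨_, (Subgroup.relIndex_mul_relIndex _ _ _ le_sup_right hle).symm⟩
    obtain ⟨a, -, ha⟩ := (Nat.dvd_prime_pow hp).mp hd
    rcases h m a ha with h | h
    · have ha0 : a = 0 := by omega
      subst ha0
      rw [pow_zero, Subgroup.relIndex_eq_one] at ha
      exact le_sup_left.trans ha
    · exact h
  intro j
  induction j with
  | zero =>
    intro a ha
    rw [show iterComm X 0 ⊔ L = X from sup_eq_left.mpr hLX, hm] at ha
    exact Or.inl (by rw [Nat.pow_right_injective hp.two_le ha]; rfl)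
  | succ j ih =>
    intro a ha
    by_cases hj : iterComm X j ≤ L
    · exact Or.inr ((iterComm_antitone X (Nat.le_succ j)).trans hj)
    have hle : iterComm X (j + 1) ⊔ L ≤ iterComm X j ⊔ L :=
      sup_le_sup_right (iterComm_antitone X (Nat.le_succ j)) _
    have hne : iterComm X (j + 1) ⊔ L ≠ iterComm X j ⊔ L := by
      intro heq
      apply hj
      have hiter : ∀ k, iterComm X j ⊔ L ≤ iterComm X (j + k) ⊔ L := by
        intro k
        induction k with
        | zero => exact le_rfl
        | succ k ihk =>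
          rw [← heq]
          refine sup_le ?_ le_sup_right
          haveI := iterComm_normal X (j + (k + 1))
          refine (Subgroup.commutator_mono (le_sup_left.trans ihk) le_rfl).trans ?_
          rw [Subgroup.commutator_le]
          intro x hx y _
          obtain ⟨u, hu, l, hl, rfl⟩ := Subgroup.mem_sup_of_normal_right.mp hx
          have e : ⁅u * l, y⁆ = u * ⁅l, y⁆ * u⁻¹ * ⁅u, y⁆ := by group
          rw [e]
          refine mul_mem (Subgroup.mem_sup_right ?_) (Subgroup.mem_sup_left
            (Subgroup.commutator_mem_commutator hu (Subgroup.mem_top y)))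
          exact Subgroup.Normal.conj_mem inferInstance _ (Subgroup.commutator_le_left L ⊤
            (Subgroup.commutator_mem_commutator hl (Subgroup.mem_top y))) u
      have h1 := le_sup_left.trans (hiter c)
      have h2 : iterComm X (j + c) = ⊥ := le_bot_iff.mp (((iterComm_le_lcs X (j + c)).trans
        ((⊤ : Subgroup G).lowerCentralSeries_antitone (Nat.le_add_left c j))).trans hc.le)
      rwa [h2, bot_sup_eq] at h1
    have hjle : iterComm X j ⊔ L ≤ X := sup_le (iterComm_antitone X (Nat.zero_le j)) hLX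
    obtain ⟨b, -, hb⟩ := (Nat.dvd_prime_pow hp).mp (hm ▸
      ⟨_, (Subgroup.relIndex_mul_relIndex _ _ _ le_sup_right hjle).symm⟩ :
        L.relIndex (iterComm X j ⊔ L) ∣ p ^ m)
    rcases ih b hb with h | h
    · left
      have hmul := Subgroup.relIndex_mul_relIndex L _ _ le_sup_right hle
      rw [ha, hb] at hmul
      have hlt : a < b := by
        by_contra hge
        push Not at hge
        apply hne
        refine le_antisymm hle (Subgroup.relIndex_eq_one.mp ?_)
        have hq : (iterComm X (j + 1) ⊔ L).relIndex (iterComm X j ⊔ L) ∣ 1 := by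
          have hpa : 0 < p ^ a := pow_pos hp.pos _
          have h1 : p ^ a * (iterComm X (j + 1) ⊔ L).relIndex (iterComm X j ⊔ L) ∣ p ^ a * 1 := by
            rw [hmul, mul_one]; exact pow_dvd_pow p hge
          exact (Nat.mul_dvd_mul_iff_left hpa).mp h1
        exact Nat.eq_one_of_dvd_one hq
      omega
    · exact absurd h hj

end

/-- Let G be a finite p-group and n ≥ 1, and write γ_1(G) = G, γ_{k+1}(G) = [γ_k(G), G], and likewise γ_k(N) for a subgroup N. Let N be a normal subgroup of G contained in γ_n(G). If i > 1 and γ_{i+1}(N) ≠ 1, then |γ_i(N) : γ_{i+1}(N)| ≥ p^n. -/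
theorem result {G : Type*} [Group G] [Finite G] {p : ℕ} [Fact p.Prime] (hG : IsPGroup p G) (n : ℕ) (hn : 1 ≤ n) (N : Subgroup G) [N.Normal] (hN : N ≤ (⊤ : Subgroup G).lowerCentralSeries (n - 1)) (i : ℕ) (hi : 1 < i) (hne : N.lowerCentralSeries i ≠ ⊥) : p ^ n ≤ (N.lowerCentralSeries i).relIndex (N.lowerCentralSeries (i - 1)) := by
  obtain ⟨n, rfl⟩ : ∃ n', n = n' + 1 := ⟨n - 1, by omega⟩
  obtain ⟨i, rfl⟩ : ∃ i', i = i' + 1 := ⟨i - 1, by omega⟩
  simp only [Nat.add_sub_cancel] at hN ⊢
  haveI : Group.IsNilpotent G := hG.isNilpotent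
  set X := N.lowerCentralSeries i with hX
  set L := N.lowerCentralSeries (i + 1) with hL
  have hnorm : ∀ j, (N.lowerCentralSeries j).Normal := fun j => by
    induction j with
    | zero => assumption
    | succ j ih => exact Subgroup.commutator_normal _ _
  haveI : X.Normal := hnorm i
  haveI : L.Normal := hnorm (i + 1)
  have hLX : L ≤ X := N.lowerCentralSeries_antitone (Nat.le_succ i)
  obtain ⟨k, hk⟩ := hG.exists_card_eq
  obtain ⟨m, -, hm⟩ := (Nat.dvd_prime_pow (Fact.out : p.Prime)).mp
    (hk ▸ (Subgroup.relIndex_dvd_card L X).trans (Subgroup.card_subgroup_dvd_card X))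
  rw [hm]
  refine Nat.pow_le_pow_right (Fact.out : p.Prime).pos ?_
  by_contra hlt
  apply hne
  have hL' : L ≤ ⁅L, (⊤ : Subgroup G)⁆ := by
    calc L = ⁅X, N⁆ := rfl
      _ ≤ ⁅iterComm X 0, (⊤ : Subgroup G).lowerCentralSeries n⁆ := Subgroup.commutator_mono le_rfl hN
      _ ≤ iterComm X (0 + n + 1) := comm_lcs_le X n 0
      _ ≤ iterComm X (m + 1) := iterComm_antitone X (by omega)
      _ ≤ ⁅L, (⊤ : Subgroup G)⁆ :=
        Subgroup.commutator_mono (iterComm_le_of_index Fact.out X L hLX hm) le_rfl
  obtain ⟨c, hc⟩ := Subgroup.nilpotent_iff_lowerCentralSeries.mp ‹Group.IsNilpotent G›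
  have hiter : ∀ j, L ≤ (⊤ : Subgroup G).lowerCentralSeries j := by
    intro j
    induction j with
    | zero => exact le_top
    | succ j ih => exact hL'.trans (Subgroup.commutator_mono ih le_rfl)
  exact le_bot_iff.mp ((hiter c).trans hc.le)

end Cfsg.Agent.S3781
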