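import Cfsg.Statements.S3802
import Mathlib
import Cfsg.Agent.H32.Subnormal

set_option autoImplicit false
open Cfsg

namespace Cfsg.Agent.S3802

/-- Let G be a finite group, M a maximal subgroup of G and N a subnormal subgroup of G contained in M. Then N is contained in every conjugate of M, that is, N lies in the core of M in G. -/
theorem result {G : Type*} [Group G] [Finite G] (M N : Subgroup G) (hM : IsCoatom M) (hN : N.IsSubnormal) (hNM : N ≤ M) :
    N ≤ Subgroup.normalCore M := by
  classical
  obtain ⟨S, ⟨hS, hNS, hSM⟩, hmax⟩ := (Set.toFinite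
    {S : Subgroup G | S.IsSubnormal ∧ N ≤ S ∧ S ≤ M}).exists_maximal ⟨N, hN, le_rfl, hNM⟩
  have hmax' : ∀ T : Subgroup G, T.IsSubnormal → S ≤ T → T ≤ M → T = S := fun T hT hST hTM =>
    le_antisymm (hmax ⟨hT, hNS.trans hST, hTM⟩ hST) hST
  have hMS : M ≤ Subgroup.normalizer (S : Set G) := by
    intro m hm
    have key : ∀ m' ∈ M, S.map (MulAut.conj m').toMonoidHom ≤ S := by
      intro m' hm'
      have hT : (S ⊔ S.map (MulAut.conj m').toMonoidHom).IsSubnormal :=
        Cfsg.Agent.H32.isSubnormal_sup hS (hS.map (MulAut.conj m').surjective)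
      have hle : S.map (MulAut.conj m').toMonoidHom ≤ M := by
        rintro _ ⟨s, hs, rfl⟩
        exact mul_mem (mul_mem hm' (hSM hs)) (inv_mem hm')
      exact le_sup_right.trans (hmax' _ hT le_sup_left (sup_le hSM hle)).le
    rw [Subgroup.mem_normalizer_iff]
    intro s
    constructor
    · intro hs
      exact key m hm ⟨s, hs, rfl⟩
    · intro hs
      have := key m⁻¹ (inv_mem hm) ⟨_, hs, rfl⟩
      simpa [mul_assoc] using this
  by_cases hn : S.Normal
  · exact hNS.trans (Subgroup.normal_le_normalCore.2 hSM)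
  · rcases Subgroup.IsSubnormal.iff_eq_top_or_exists.1 hS with h | ⟨K, hSK, hK, hKn⟩
    · exact absurd (h ▸ inferInstance) hn
    · have hnorm : Subgroup.normalizer (S : Set G) = M := by
        rcases eq_or_lt_of_le hMS with h | h
        · exact h.symm
        · exact absurd (Subgroup.normalizer_eq_top_iff.1 (hM.2 _ h)) hn
      have hKM : K ≤ M := hnorm ▸ (Subgroup.normal_subgroupOf_iff_le_normalizer hSK.le).1 hKn
      exact absurd (hmax' K hK hSK.le hKM).symm hSK.ne

end Cfsg.Agent.S3802
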