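import Cfsg.Statements.S3803
import Mathlib
import Cfsg.Agent.H84.PGroupFix
import Cfsg.Agent.H84.WardCore
import Cfsg.Agent.H19.Frattini
import Cfsg.Agent.H20.PxQ

set_option autoImplicit false
open Cfsg

namespace Cfsg.Agent.S3803

/-- A coatom of a finite 2-group, seen in the ambient group, has half the order. -/
theorem card_map_coatom {X : Type*} [Group X] [Finite X] {E : Subgroup X} (hE : IsPGroup 2 E)
    {M : Subgroup E} (hM : IsCoatom M) : Nat.card (M.map E.subtype) * 2 = Nat.card E := by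
  haveI := Fact.mk Nat.prime_two
  rw [Subgroup.card_map_of_injective E.subtype_injective,
    ← Cfsg.Agent.H19.index_coatom_of_isPGroup hE hM, Subgroup.card_mul_index]

/-- A group of odd order leaving invariant a 2-group and all its maximal subgroups centralises it. -/
theorem centralizes_of_maximals {X : Type*} [Group X] [Finite X] (A E : Subgroup X)
    (hE : IsPGroup 2 E) (hA : Odd (Nat.card A)) (hAE : A ≤ Subgroup.normalizer (E : Set X))
    (hM : ∀ M : Subgroup X, M ≤ E → Nat.card M * 2 = Nat.card E →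
      ∀ a ∈ A, ∀ x ∈ M, a * x * a⁻¹ ∈ M) :
    A ≤ Subgroup.centralizer (E : Set X) := by
  haveI := Fact.mk Nat.prime_two
  refine Cfsg.Agent.H20.le_centralizer_of_trivial_on_frattini hAE ?_ fun a ha k hk => ?_
  · obtain ⟨i, hi⟩ := IsPGroup.iff_card.1 (hE.to_subgroup (frattini E))
    rw [hi]
    exact (Nat.coprime_two_right.2 hA).pow_right i
  · have hak : a * k * a⁻¹ ∈ E := (Subgroup.mem_normalizer_iff.1 (hAE ha) k).1 hk
    refine ⟨⟨a * k * a⁻¹, hak⟩ * ⟨k, hk⟩⁻¹, ?_, rfl⟩
    simp only [frattini, Order.radical, Subgroup.coe_iInf, Set.mem_iInter, SetLike.mem_coe]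
    intro M hMco
    have hinvM : ∀ b ∈ A, ∀ y : E, y ∈ M → ∀ h : b * y * b⁻¹ ∈ E,
        (⟨b * y * b⁻¹, h⟩ : E) ∈ M := by
      intro b hb y hy h
      obtain ⟨z, hz, hze⟩ := hM _ (Subgroup.map_subtype_le M) (card_map_coatom hE hMco) b hb y
        ⟨y, hy, rfl⟩
      rwa [show z = ⟨b * y * b⁻¹, h⟩ from Subtype.ext hze] at hz
    rw [Subgroup.mul_mem_iff_of_index_two (Cfsg.Agent.H19.index_coatom_of_isPGroup hE hMco),
      inv_mem_iff]
    constructor
    · intro h
      have h2 := hinvM a⁻¹ (inv_mem ha) _ h (by simpa [mul_assoc] using hk)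
      have he : a⁻¹ * (a * k * a⁻¹) * (a⁻¹)⁻¹ = k := by group
      simp only [he] at h2
      exact h2
    · intro h
      exact hinvM a ha _ h hak

/-- Subgroups of a cyclic normalised group are invariant. -/
theorem maximal_invariant_of_cyclic {X : Type*} [Group X] [Finite X] (A E : Subgroup X)
    (hAE : A ≤ Subgroup.normalizer (E : Set X)) [IsCyclic E] (M : Subgroup X) (hME : M ≤ E) :
    ∀ a ∈ A, ∀ x ∈ M, a * x * a⁻¹ ∈ M := by
  classical
  intro a ha x hx
  have : Fintype E := Fintype.ofFinite _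
  have h1 : (Finset.univ.filter fun y : E => (y : X) ∈ M) =
      Finset.univ.filter fun y : E => y ^ Nat.card M = 1 := by
    refine Finset.eq_of_subset_of_card_le (fun y hy => ?_) ?_
    · simp only [Finset.mem_filter, Finset.mem_univ, true_and] at hy ⊢
      exact Subtype.ext (congrArg Subtype.val (pow_card_eq_one' (x := (⟨(y : X), hy⟩ : M))) :)
    · refine (IsCyclic.card_pow_eq_one_le (α := E) Nat.card_pos).trans (le_of_eq ?_)
      rw [← Nat.card_congr (Subgroup.subgroupOfEquivOfLe hME).toEquiv]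
      rw [Nat.card_eq_fintype_card, Fintype.card_subtype]
      rfl
  have hax : a * x * a⁻¹ ∈ E := (Subgroup.mem_normalizer_iff.1 (hAE ha) x).1 (hME hx)
  have h2 : (⟨a * x * a⁻¹, hax⟩ : E) ^ Nat.card M = 1 := by
    refine Subtype.ext ?_
    show (a * x * a⁻¹) ^ Nat.card M = 1
    rw [conj_pow, show x ^ Nat.card M = 1 from
      congrArg Subtype.val (pow_card_eq_one' (x := (⟨x, hx⟩ : M)))]
    group
  have h3 : (⟨a * x * a⁻¹, hax⟩ : E) ∈ Finset.univ.filter fun y : E => (y : X) ∈ M := by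
    rw [h1]; simpa using h2
  simpa using h3

/-- Let P be a 2-subgroup and A a subgroup of odd order of a finite group, with A normalizing P. Let D ≤ P with 1 < |D| < |P|. If every subgroup of P of order |D|, and also every subgroup of P of order 4 in case |D| = 2, is normalized by A, then A centralizes P. -/
theorem result {X : Type*} [Group X] [Finite X] (P A D : Subgroup X) (hP : IsPGroup 2 P) (hA : Odd (Nat.card A))
    (hAP : A ≤ Subgroup.normalizer (P : Set X)) (hDP : D ≤ P) (hD1 : 1 < Nat.card D) (hD2 : Nat.card D < Nat.card P)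
    (hinv : ∀ E : Subgroup X, E ≤ P → (Nat.card E = Nat.card D ∨ (Nat.card D = 2 ∧ Nat.card E = 4)) → A ≤ Subgroup.normalizer (E : Set X)) :
    A ≤ Subgroup.centralizer (P : Set X) := by
  obtain ⟨j, hj⟩ := IsPGroup.iff_card.1 (hP.to_le hDP)
  obtain ⟨n, hn⟩ := IsPGroup.iff_card.1 hP
  have hj1 : 1 ≤ j := by
    by_contra h
    rw [hj, show j = 0 by omega] at hD1
    simp at hD1
  have hjn : j < n := by
    rw [hj, hn] at hD2
    exact (Nat.pow_lt_pow_iff_right one_lt_two).1 hD2
  have hext : ∀ (H : Subgroup X) (i k : ℕ), H ≤ P → Nat.card H = 2 ^ i → i ≤ k → k ≤ n →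
      ∃ K : Subgroup X, H ≤ K ∧ K ≤ P ∧ Nat.card K = 2 ^ k := by
    intro H i k hHP hH hik hkn
    obtain ⟨K, hK, hHK⟩ := Sylow.exists_subgroup_card_pow_prime_le (G := P) 2
      (hn.symm ▸ Nat.pow_dvd_pow 2 hkn) (H.subgroupOf P)
      (by rw [Nat.card_congr (Subgroup.subgroupOfEquivOfLe hHP).toEquiv, hH]) hik
    refine ⟨K.map P.subtype, fun x hx => ⟨⟨x, hHP hx⟩, hHK hx, rfl⟩, Subgroup.map_subtype_le _, ?_⟩
    rw [Subgroup.card_map_of_injective P.subtype_injective, hK]
  -- cyclic groups of order `d` (or 4 if `d = 2`) are centralised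
  have hcyc : ∀ E : Subgroup X, E ≤ P → IsCyclic E →
      (Nat.card E = Nat.card D ∨ (Nat.card D = 2 ∧ Nat.card E = 4)) →
      ∀ a ∈ A, ∀ x ∈ E, a * x = x * a := by
    intro E hEP hEc hEcard a ha x hx
    refine (Subgroup.mem_centralizer_iff.1 (centralizes_of_maximals A E (hP.to_le hEP) hA
      (hinv E hEP hEcard) (fun M hME _ => maximal_invariant_of_cyclic A E (hinv E hEP hEcard) M hME)
      ha) x hx).symm
  -- all subgroups of order `d` are centralised
  have hd : ∀ F : Subgroup X, F ≤ P → Nat.card F = Nat.card D → ∀ a ∈ A, ∀ x ∈ F, a * x = x * a := by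
    intro F hFP hF a ha x hx
    by_cases hFc : IsCyclic F
    · exact hcyc F hFP hFc (Or.inl hF) a ha x hx
    obtain ⟨E, hFE, hEP, hE⟩ := hext F j (j + 1) hFP (hF.trans hj) (Nat.le_succ j) hjn
    have hEc : ¬ IsCyclic E := fun h => hFc
      (isCyclic_of_injective (Subgroup.inclusion hFE) (Subgroup.inclusion_injective hFE))
    have hMinv : ∀ M : Subgroup X, M ≤ E → Nat.card M * 2 = Nat.card E →
        ∀ a ∈ A, ∀ x ∈ M, a * x * a⁻¹ ∈ M := by
      intro M hME hM a ha x hx
      rw [hE, pow_succ, Nat.mul_right_cancel_iff two_pos] at hM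
      exact (Subgroup.mem_normalizer_iff.1
        (hinv M (hME.trans hEP) (Or.inl (hM.trans hj.symm)) ha) x).1 hx
    have hEinv : A ≤ Subgroup.normalizer (E : Set X) := by
      intro a ha
      refine Cfsg.Agent.H84.mem_normalizer_of_forall fun x hx => ?_
      have hne : Subgroup.zpowers (⟨x, hx⟩ : E) ≠ ⊤ := fun h =>
        hEc (isCyclic_iff_exists_zpowers_eq_top.2 ⟨_, h⟩)
      obtain ⟨M, hM, hxM⟩ := (eq_top_or_exists_le_coatom _).resolve_left hne
      obtain ⟨y, hy, hye⟩ := hMinv _ (Subgroup.map_subtype_le M)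
        (card_map_coatom (hP.to_le hEP) hM) a ha x
        ⟨_, hxM (Subgroup.mem_zpowers _), rfl⟩
      rw [← hye]
      exact y.2
    exact ((Subgroup.mem_centralizer_iff.1 (centralizes_of_maximals A E (hP.to_le hEP) hA hEinv
      hMinv ha)) x (hFE hx)).symm
  intro a ha
  refine Cfsg.Agent.H84.mem_centralizer_of_fixes hP (hAP ha) ?_ fun v hv hvp => ?_
  · exact Nat.Coprime.coprime_dvd_left (Subgroup.orderOf_dvd_natCard A ha)
      (Nat.coprime_two_right.2 hA)
  · obtain ⟨i, hi2, hi⟩ : ∃ i, i ≤ 2 ∧ orderOf v = 2 ^ i := by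
      have h : orderOf v ∣ 2 ^ 2 := by
        rcases hvp with h | ⟨-, h⟩
        · exact (orderOf_dvd_of_pow_eq_one h).trans ⟨2, rfl⟩
        · exact orderOf_dvd_of_pow_eq_one h
      exact (Nat.dvd_prime_pow Nat.prime_two).1 h
    have hzP : Subgroup.zpowers v ≤ P := Subgroup.zpowers_le.2 hv
    by_cases hij : i ≤ j
    · obtain ⟨F, hvF, hFP, hF⟩ := hext (Subgroup.zpowers v) i j hzP
        (by rw [Nat.card_zpowers, hi]) hij hjn.le
      exact hd F hFP (hF.trans hj.symm) a ha v (hvF (Subgroup.mem_zpowers v))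
    · refine hcyc _ hzP inferInstance (Or.inr ⟨?_, ?_⟩) a ha v (Subgroup.mem_zpowers v)
      · rw [hj, show j = 1 by omega, pow_one]
      · rw [Nat.card_zpowers, hi, show i = 2 by omega]
        norm_num

end Cfsg.Agent.S3803
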