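import Cfsg.Statements.S3814
import Mathlib
import Cfsg.Agent.H84.FourPrimes.Reduce
import Cfsg.Agent.H81.Coclique

set_option autoImplicit false
open Cfsg

namespace Cfsg.Agent.S3814

/-- A criterion for nonsolvability from element orders: let G be a finite group and σ a set of at least four primes such that for all distinct p, q ∈ σ the product pq is the order of some element of G, while for all pairwise distinct p, q, r ∈ σ no element of G has order pqr. Then G is not solvable. -/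
theorem result {G : Type*} [Group G] [Finite G]
    (σ : Finset ℕ) (hσ : 4 ≤ σ.card) (hprime : ∀ p ∈ σ, p.Prime)
    (h2 : ∀ p ∈ σ, ∀ q ∈ σ, p ≠ q → ∃ g : G, orderOf g = p * q)
    (h3 : ∀ p ∈ σ, ∀ q ∈ σ, ∀ r ∈ σ, p ≠ q → q ≠ r → p ≠ r → ∀ g : G, orderOf g ≠ p * q * r) :
    ¬ Group.IsSolvable G := by
  intro hsolv
  have hord : ∀ a b c : G, orderOf a ∈ σ → orderOf b ∈ σ → orderOf c ∈ σ → orderOf a ≠ orderOf b →
      orderOf b ≠ orderOf c → orderOf a ≠ orderOf c → Commute a b → Commute b c → Commute a c → False := by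
    intro a b c ha hb hc hab hbc hac cab cbc cac
    refine h3 _ ha _ hb _ hc hab hbc hac (a * b * c) ?_
    have h1 := cab.orderOf_mul_eq_mul_orderOf_of_coprime ((Nat.coprime_primes (hprime _ ha) (hprime _ hb)).mpr hab)
    rw [(cac.mul_left cbc).orderOf_mul_eq_mul_orderOf_of_coprime, h1]
    rw [h1]
    exact Nat.Coprime.mul_left ((Nat.coprime_primes (hprime _ ha) (hprime _ hc)).mpr hac)
      ((Nat.coprime_primes (hprime _ hb) (hprime _ hc)).mpr hbc)
  have hmiss : ∀ (g : G) (i j k : ℕ), orderOf g ∈ σ → i ∈ σ → j ∈ σ → k ∈ σ → i ≠ orderOf g → j ≠ orderOf g →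
      k ≠ orderOf g → i ≠ j → j ≠ k → i ≠ k →
      i ∣ Nat.card (Subgroup.centralizer ({g} : Set G)) → j ∣ Nat.card (Subgroup.centralizer ({g} : Set G)) →
      k ∣ Nat.card (Subgroup.centralizer ({g} : Set G)) → False := by
    intro g i j k hg hi hj hk hig hjg hkg hij hjk hik di dj dk
    have key : ∀ u v : ℕ, u ∈ σ → v ∈ σ → u ≠ orderOf g → v ≠ orderOf g → u ≠ v →
        ¬ ∃ x : Subgroup.centralizer ({g} : Set G), orderOf x = u * v := by
      rintro u v hu hv hug hvg huv ⟨⟨x, hx⟩, hxo⟩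
      rw [Subgroup.orderOf_mk] at hxo
      refine h3 _ hg _ hu _ hv hug.symm huv hvg.symm (g * x) ?_
      have hc : Commute g x := (Subgroup.mem_centralizer_singleton_iff.mp hx).symm
      rw [hc.orderOf_mul_eq_mul_orderOf_of_coprime, hxo, mul_assoc]
      rw [hxo]
      exact Nat.Coprime.mul_right ((Nat.coprime_primes (hprime _ hg) (hprime _ hu)).mpr hug.symm)
        ((Nat.coprime_primes (hprime _ hg) (hprime _ hv)).mpr hvg.symm)
    rcases Cfsg.Agent.H81.adjacent_of_solvable (hprime _ hi) (hprime _ hj) (hprime _ hk) hij hik hjk _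
      (M := Subgroup.centralizer ({g} : Set G)) rfl inferInstance di dj dk with h | h | h
    · exact key i j hi hj hig hjg hij h
    · exact key i k hi hk hig hkg hik h
    · exact key j k hj hk hjg hkg hjk h
  have hS : Cfsg.Agent.H84.FourPrimes.Setting G (↑σ : Set ℕ) := ⟨hprime, hord, hmiss⟩
  obtain ⟨τ, hτσ, hτ⟩ := Finset.exists_subset_card_eq hσ
  refine hS.false_of_four (τ := τ) (fun i hi => hτσ hi) hτ fun i hi => ?_
  have hip := hprime i (hτσ hi)
  haveI := Fact.mk hip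
  obtain ⟨P⟩ : Nonempty (Sylow i G) := inferInstance
  rcases Cfsg.Agent.H84.FourPrimes.uniq_or_hasE (X := (P : Subgroup G)) P.2 with hu | ⟨E, hE, -⟩
  swap
  · exact ⟨E, hE, le_top⟩
  exfalso
  have hne : ∀ j ∈ τ.erase i, j ∈ σ ∧ j ≠ i := fun j hj =>
    ⟨hτσ (Finset.mem_of_mem_erase hj), Finset.ne_of_mem_erase hj⟩
  have hcard : (τ.erase i).card = 3 := by rw [Finset.card_erase_of_mem hi, hτ]
  obtain ⟨a, b, c, hab, hac, hbc, habc⟩ := Finset.card_eq_three.mp hcard
  obtain ⟨ha, hai⟩ := hne a (by rw [habc]; simp)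
  obtain ⟨hb, hbi⟩ := hne b (by rw [habc]; simp)
  obtain ⟨hc, hci⟩ := hne c (by rw [habc]; simp)
  -- an element of order `i` in `P`
  obtain ⟨g₀, hg₀⟩ := h2 i (hτσ hi) a ha hai.symm
  have hdiv : i ∣ Nat.card G := (Dvd.intro a hg₀.symm).trans (orderOf_dvd_natCard g₀)
  obtain ⟨z, hz, hzo⟩ := Cfsg.Agent.H84.FourPrimes.exists_orderOf P.2
    (P.ne_bot_of_dvd_card hdiv)
  have hdvd : ∀ j ∈ σ, j ≠ i → j ∣ Nat.card (Subgroup.centralizer ({z} : Set G)) := by
    intro j hj hji
    obtain ⟨x, hx⟩ := h2 i (hτσ hi) j hj hji.symm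
    have hx1 : orderOf (x ^ j) = i := by
      rw [orderOf_pow_of_dvd (hprime j hj).ne_zero (hx ▸ dvd_mul_left j i), hx, Nat.mul_div_cancel _ (hprime j hj).pos]
    have hx2 : orderOf (x ^ i) = j := by
      rw [orderOf_pow_of_dvd hip.ne_zero (hx ▸ dvd_mul_right i j), hx, Nat.mul_div_cancel_left _ hip.pos]
    obtain ⟨R, hR⟩ := (Cfsg.Agent.H84.FourPrimes.isPGroup_zpowers hx1).exists_le_sylow
    obtain ⟨g, hg⟩ := MulAction.exists_smul_eq G R P
    have hmem : g * x ^ j * g⁻¹ ∈ (P : Subgroup G) := by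
      rw [← hg, Sylow.coe_subgroup_smul]
      exact ⟨x ^ j, hR (Subgroup.mem_zpowers _), rfl⟩
    have hy : orderOf (g * x ^ j * g⁻¹) = i := (MulEquiv.orderOf_eq (MulAut.conj g) _).trans hx1
    obtain ⟨n, hn⟩ := Subgroup.mem_zpowers_iff.mp (hu _ hmem z hz hy hzo)
    have hcomm : Commute (g * x ^ i * g⁻¹) z := by
      rw [← hn]
      refine Commute.zpow_right ?_ n
      simpa using ((Commute.refl x).pow_pow i j).map (MulAut.conj g).toMonoidHom
    have : orderOf (g * x ^ i * g⁻¹) = j := (MulEquiv.orderOf_eq (MulAut.conj g) _).trans hx2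
    rw [← this]
    exact Subgroup.orderOf_dvd_natCard _ (Subgroup.mem_centralizer_singleton_iff.mpr hcomm.eq)
  exact hmiss z a b c (hzo ▸ hτσ hi) ha hb hc (hzo ▸ hai) (hzo ▸ hbi) (hzo ▸ hci) hab hbc hac
    (hdvd a ha hai) (hdvd b hb hbi) (hdvd c hc hci)

end Cfsg.Agent.S3814
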