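import Cfsg.Statements.S3815
import Mathlib

set_option autoImplicit false
open Cfsg
open Pointwise

namespace Cfsg.Agent.S3815

/-- Let G be a finite group, p a prime and d ∈ G an element of order prime to p. If dg has order prime to p for every element g ∈ G of order prime to p, then d ∈ O_{p'}(G). -/
theorem result {G : Type*} [Group G] [Finite G] {p : ℕ} [Fact p.Prime]
    (d : G) (hd : (orderOf d).Coprime p)
    (h : ∀ g : G, (orderOf g).Coprime p → (orderOf (d * g)).Coprime p) :
    d ∈ Cfsg.pPrimeCore p G := by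
  classical
  let S : Set G := {g : G | (orderOf g).Coprime p}
  let K : Subgroup G := MulAction.stabilizer G S
  have hfin : S.Finite := Set.toFinite S
  have hdK : d ∈ K := by
    rw [MulAction.mem_stabilizer_iff]
    refine Set.eq_of_subset_of_ncard_le ?_ ?_ hfin
    · rintro _ ⟨g, hg, rfl⟩
      exact h g hg
    · exact le_of_eq (Set.ncard_image_of_injective S (MulAction.injective d)).symm
  have hone : (1 : G) ∈ S := by simp [S]
  have hKS : ∀ k ∈ K, k ∈ S := by
    intro k hk
    rw [MulAction.mem_stabilizer_iff] at hk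
    have := Set.smul_mem_smul_set (a := k) hone
    rwa [hk, smul_eq_mul, mul_one] at this
  have hconj : ∀ a : G, ∀ g, g ∈ S ↔ a * g * a⁻¹ ∈ S := by
    intro a g
    have : orderOf (a * g * a⁻¹) = orderOf g := (MulAut.conj a).orderOf_eq g
    simp only [S, Set.mem_ofPred_eq, this]
  have hKn : K.Normal := by
    constructor
    intro k hk a
    rw [MulAction.mem_stabilizer_iff] at hk ⊢
    refine Set.eq_of_subset_of_ncard_le ?_ ?_ hfin
    · rintro _ ⟨g, hg, rfl⟩
      have h1 : a⁻¹ * g * (a⁻¹)⁻¹ ∈ S := (hconj a⁻¹ g).1 hg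
      have h2 : k * (a⁻¹ * g * (a⁻¹)⁻¹) ∈ S := by
        have := Set.smul_mem_smul_set (a := k) h1
        rwa [hk, smul_eq_mul] at this
      have h3 := (hconj a _).1 h2
      simpa [smul_eq_mul, mul_assoc] using h3
    · exact le_of_eq (Set.ncard_image_of_injective S (MulAction.injective _)).symm
  have hcard : (Nat.card K).Coprime p := by
    rw [Nat.coprime_comm, (Fact.out : p.Prime).coprime_iff_not_dvd]
    intro hdvd
    obtain ⟨k, hk⟩ := exists_prime_orderOf_dvd_card' p hdvd
    have := hKS k k.2
    simp only [S, Set.mem_ofPred_eq, Subgroup.orderOf_coe, hk, Nat.coprime_self] at this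
    exact (Fact.out : p.Prime).ne_one this
  exact (le_sSup (show K ∈ {N : Subgroup G | N.Normal ∧ (Nat.card N).Coprime p} from ⟨hKn, hcard⟩)) hdK

end Cfsg.Agent.S3815
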