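import Cfsg.Statements.S3816
import Cfsg.Agent.H84.DispFix.Main

set_option autoImplicit false
open Cfsg

namespace Cfsg.Agent.S3816

/-- Let p be an odd prime, H a finite solvable group of order prime to p, and x an automorphism of H of order p (so P = ⟨x⟩ has prime order p > 2 and acts coprimely on H). For h ∈ H let [h, P] be the subgroup generated by the commutators h⁻¹·xⁱ(h), and let [H, P] be the subgroup generated by all of these. Then the fixed points of x in [H, P] are generated by the fixed points of x in the subgroups [h, P], h ∈ H. -/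
theorem result {H : Type*} [Group H] [Finite H]
    [Group.IsSolvable H] {p : ℕ} [Fact p.Prime] (hp : p ≠ 2) (hcop : (Nat.card H).Coprime p)
    (x : MulAut H) (hx : orderOf x = p) :
    Subgroup.closure {c : H | ∃ h : H, ∃ i : ℕ, c = h⁻¹ * (x ^ i) h} ⊓ (x : H →* H).eqLocus (MonoidHom.id H) =
      ⨆ h : H, Subgroup.closure {c : H | ∃ i : ℕ, c = h⁻¹ * (x ^ i) h} ⊓ (x : H →* H).eqLocus (MonoidHom.id H) := by
  have hp1 : x ^ p = 1 := by rw [← hx]; exact pow_orderOf_eq_one x
  have hset : Subgroup.closure {c : H | ∃ h : H, ∃ i : ℕ, c = h⁻¹ * (x ^ i) h} =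
      H84.DispFix.DispIn x (⊤ : Subgroup H) := by
    rw [H84.DispFix.DispIn]; congr 1; ext c; simp
  rw [hset]
  refine le_antisymm (H84.DispFix.main_aux hp (Nat.card H + 1) H inferInstance inferInstance
    inferInstance (Nat.lt_succ_self _) hcop x hp1) (iSup_le fun h => le_inf ?_ inf_le_right)
  exact inf_le_left.trans (H84.DispFix.D_le_DispIn (Subgroup.mem_top h))

end Cfsg.Agent.S3816
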