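import Cfsg.Statements.S3818
import Cfsg.Agent.H60.HalfFix.Main
-- import your own Cfsg.Agent.* helpers here

set_option autoImplicit false
open Cfsg

namespace Cfsg.Agent.S3818

/-- Let G be a finite solvable group and P a subgroup of G of prime order p > 3 whose conjugates generate G. Let V be a faithful irreducible representation of G over a field of positive characteristic, finite-dimensional. Then the subspace of V fixed by P has dimension less than half the dimension of V. -/
theorem result {G : Type*} [Group G] [Finite G] [Group.IsSolvable G]
    {p : ℕ} [Fact p.Prime] (hp : 3 < p) (P : Subgroup G) (hP : Nat.card P = p) (hgen : Subgroup.normalClosure (P : Set G) = ⊤)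
    {k : Type*} [Field k] (ℓ : ℕ) [Fact ℓ.Prime] [CharP k ℓ]
    {V : Type*} [AddCommGroup V] [Module k V] [FiniteDimensional k V]
    (ρ : Representation k G V) [ρ.IsIrreducible] (hfaith : Function.Injective ρ) :
    2 * Module.finrank k ↥(⨅ g : ↥P, LinearMap.ker (ρ (g : G) - LinearMap.id)) < Module.finrank k V := by
  exact H60.HalfFix.fixed_lt_half hp P hP hgen ρ hfaith

end Cfsg.Agent.S3818
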