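import Cfsg.Statements.S3819
import Cfsg.Agent.H52.CharP
import Cfsg.Agent.H20.FixedPoints
import Cfsg.Agent.H74.PGroupAction
import Cfsg.Agent.H19.Fitting

set_option autoImplicit false
open Cfsg

namespace Cfsg.Agent.S3819

open Subgroup
open scoped commutatorElement

variable {G : Type*} [Group G] [Finite G] {q : ℕ} [Fact q.Prime]

/-- The `q'`-core of a subgroup, inside the ambient group. -/
abbrev coreIn (q : ℕ) (K : Subgroup G) : Subgroup G := (Cfsg.pPrimeCore q ↥K).map K.subtype

theorem coreIn_coprime (K : Subgroup G) : (Nat.card ↥(coreIn q K)).Coprime q := by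
  rw [Subgroup.card_map_of_injective K.subtype_injective]
  exact H19.pPrimeCore_coprime q

omit [Fact q.Prime] in
theorem coreIn_conj_le {K : Subgroup G} {g : G} (hg : g ∈ normalizer (K : Set G)) :
    (coreIn q K).map (MulAut.conj g).toMonoidHom ≤ coreIn q K := by
  haveI := H19.pPrimeCore_characteristic q ↥K
  let e : ↥K ≃* ↥K := K.normalizerMonoidHom ⟨g, hg⟩
  have he : (Cfsg.pPrimeCore q ↥K).map e.toMonoidHom = Cfsg.pPrimeCore q ↥K :=
    Subgroup.characteristic_iff_map_eq.mp inferInstance e
  rintro _ ⟨_, ⟨x, hx, rfl⟩, rfl⟩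
  exact ⟨e x, he ▸ mem_map_of_mem _ hx, rfl⟩

omit [Fact q.Prime] in
theorem normalizer_le_normalizer_coreIn (K : Subgroup G) :
    normalizer (K : Set G) ≤ normalizer (coreIn q K : Set G) := by
  intro g hg
  rw [mem_normalizer_iff_map_conj_eq]
  refine eq_of_le_of_card_ge (coreIn_conj_le hg) ?_
  exact le_of_eq (Nat.card_congr
    ((coreIn q K).equivMapOfInjective _ (MulEquiv.injective (MulAut.conj g))).toEquiv)

omit [Fact q.Prime] in
theorem le_coreIn {K M : Subgroup G} (hM : M ≤ K) (hn : K ≤ normalizer (M : Set G))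
    (hc : (Nat.card ↥M).Coprime q) : M ≤ coreIn q K := by
  have hn' : (M.subgroupOf K).Normal := (normal_subgroupOf_iff_le_normalizer hM).2 hn
  have hle : M.subgroupOf K ≤ Cfsg.pPrimeCore q ↥K :=
    H19.le_pPrimeCore hn' (by rwa [Nat.card_congr (subgroupOfEquivOfLe hM).toEquiv])
  intro x hx
  exact ⟨⟨x, hM hx⟩, hle hx, rfl⟩

omit [Finite G] [Fact q.Prime] in
theorem centralizer_zpowers' (a : G) :
    centralizer (zpowers a : Set G) = centralizer ({a} : Set G) := by
  rw [zpowers_eq_closure, centralizer_closure]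

/-- A `q'`-subgroup of a solvable normal subgroup `X` centralised by a `q`-element `z` normalising
`X` and normalised by `C_X(z)` lies in `O_{q'}(X)`. -/
theorem le_coreIn_of_balance {X Y : Subgroup G} [X.Normal] (hX : Group.IsSolvable ↥X) {z : G}
    (hz : IsPGroup q ↥(zpowers z)) (hYX : Y ≤ X) (hY : (Nat.card ↥Y).Coprime q)
    (hYz : Y ≤ centralizer ({z} : Set G))
    (hn : centralizer ({z} : Set G) ⊓ (X ⊔ zpowers z) ≤ normalizer (Y : Set G)) :
    Y ≤ coreIn q X := by
  set W := X ⊔ zpowers z
  haveI : Group.IsSolvable ↥W := by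
    haveI := hX
    refine Group.isSolvable_of_ker_le_range (inclusion (le_sup_left : X ≤ W))
      ((QuotientGroup.mk' X).subgroupMap W) ?_ (hG'' := ?_)
    · intro x hx
      have hx' : (x : G) ∈ X := (QuotientGroup.eq_one_iff _).mp (congrArg Subtype.val hx)
      exact ⟨⟨x, hx'⟩, rfl⟩
    · haveI : IsCyclic ↥(zpowers (QuotientGroup.mk' X z)) := isCyclic_zpowers _
      have hW : W.map (QuotientGroup.mk' X) = zpowers (QuotientGroup.mk' X z) := by
        rw [Subgroup.map_sup, MonoidHom.map_zpowers, (map_eq_bot_iff (f := QuotientGroup.mk' X) X).mpr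
          (by rw [QuotientGroup.ker_mk']), bot_sup_eq]
      rw [hW]
      exact H20.isSolvable_of_isMulCommutative _
  have hzW : z ∈ W := mem_sup_right (mem_zpowers z)
  have hYW : Y ≤ W := hYX.trans le_sup_left
  have hP : IsPGroup q ↥((zpowers z).subgroupOf W) :=
    hz.of_injective (subgroupOfEquivOfLe (zpowers_le.mpr hzW)).toMonoidHom (MulEquiv.injective _)
  have hle := H52.le_pPrimeCore_of_pLayer_bot (G := ↥W)
    (H52.pLayer_eq_bot_of_isSolvable inferInstance) hP (Y := Y.subgroupOf W)
    (by rwa [Nat.card_congr (subgroupOfEquivOfLe hYW).toEquiv]) ?_ ?_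
  · have h1 : Y ≤ coreIn q W ⊓ X := le_inf (fun x hx => ⟨⟨x, hYW hx⟩, hle hx, rfl⟩) hYX
    refine h1.trans (le_coreIn inf_le_right ?_ ((coreIn_coprime W).coprime_dvd_left
      (card_dvd_of_le inf_le_left)))
    exact (le_inf ((le_sup_left.trans (le_normalizer (H := W))).trans
      (normalizer_le_normalizer_coreIn W)) le_normalizer).trans inf_normalizer_le_normalizer_inf
  · intro w hw
    rw [mem_centralizer_iff]
    intro y hy
    obtain ⟨i, hi⟩ := mem_zpowers_iff.mp hw
    have h1 : Commute (y : G) z := (mem_centralizer_singleton_iff.mp (hYz hy))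
    exact Subtype.ext (show (y : G) * w = w * y from (show Commute (y : G) (w : G) by
      show Commute (y : G) (W.subtype w)
      rw [← hi]
      exact h1.zpow_right i).eq)
  · intro w hw
    have h1 : (w : G) ∈ normalizer (Y : Set G) := hn ⟨mem_centralizer_singleton_iff.mpr
      (congrArg Subtype.val (mem_centralizer_iff.mp hw ⟨z, hzW⟩ (mem_zpowers z)).symm), w.2⟩
    rw [mem_normalizer_iff]
    intro y
    exact mem_normalizer_iff.mp h1 y

/-- The reduced statement: with no nontrivial normal `q'`-subgroup inside `N`. -/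
theorem inf_eq_bot {N X P C E : Subgroup G} [N.Normal] [X.Normal] (hXN : X ≤ N)
    (hX : Group.IsSolvable ↥X) (hNP : ⁅N, P⁆ ≤ X)
    (hmin : ∀ M : Subgroup G, M.Normal → M ≤ N → (Nat.card ↥M).Coprime q → M = ⊥)
    {z : G} (hzN : z ∈ N) (hz : IsPGroup q ↥(zpowers z))
    (hCN : C ≤ N) (hCq : (Nat.card ↥C).Coprime q) (hCz : C ≤ centralizer ({z} : Set G))
    (hEq : (Nat.card ↥E).Coprime q)
    (hCn : N ⊓ centralizer ({z} : Set G) ≤ normalizer (C : Set G))
    (hEn : N ⊓ centralizer (P : Set G) ≤ normalizer (E : Set G)) : C ⊓ E = ⊥ := by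
  haveI := hX
  have hXc : (Cfsg.pPrimeCore q ↥X) = ⊥ := by
    have h1 : coreIn q X = ⊥ := hmin _ (normalizer_eq_top_iff.mp (top_le_iff.mp
      ((normalizer_eq_top (H := X)).ge.trans (normalizer_le_normalizer_coreIn X))))
      ((map_subtype_le _).trans hXN) (coreIn_coprime X)
    exact (map_eq_bot_iff_of_injective _ X.subtype_injective).mp h1
  haveI := H19.pCore_characteristic q ↥X
  set Q := (Cfsg.pCore q ↥X).map X.subtype with hQdef
  haveI hQn : Q.Normal := ConjAct.normal_of_characteristic_of_normal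
  have hQp : IsPGroup q ↥Q := (H19.pCore_isPGroup q).map _
  have hQX : Q ≤ X := map_subtype_le _
  have hself : ∀ x ∈ X, x ∈ centralizer (Q : Set G) → x ∈ Q := by
    intro x hx hxc
    refine ⟨⟨x, hx⟩, H19.centralizer_pCore_le hXc ?_, rfl⟩
    rw [mem_centralizer_iff]
    exact fun y hy => Subtype.ext (mem_centralizer_iff.mp hxc (y : G) ⟨y, hy, rfl⟩)
  set Nc := N ⊓ centralizer (Q : Set G) with hNc
  set T := {n : G | n ∈ Nc ∧ ¬ q ∣ orderOf n} with hT
  set M := closure T with hM
  haveI hMn : M.Normal := by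
    haveI : Nc.Normal := normal_inf_normal _ _
    refine ⟨fun m hm g => ?_⟩
    have h1 : M.map (MulAut.conj g).toMonoidHom ≤ M := by
      rw [hM, MonoidHom.map_closure]
      refine closure_mono ?_
      rintro _ ⟨n, ⟨hn, hn'⟩, rfl⟩
      exact ⟨Normal.conj_mem inferInstance n hn g,
        by rwa [MulEquiv.coe_toMonoidHom, MulEquiv.orderOf_eq]⟩
    exact h1 ⟨m, hm, rfl⟩
  have hMP : M ≤ N ⊓ centralizer (P : Set G) := by
    rw [hM, closure_le]
    rintro n ⟨hn, hn'⟩
    refine ⟨hn.1, ?_⟩
    refine mem_centralizer_iff.mpr fun x hx => ?_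
    have hcX : ⁅x, n⁆ ∈ X := by
      rw [← commutatorElement_inv]
      exact inv_mem (hNP (commutator_mem_commutator hn.1 hx))
    have hQc : Nc.Normal := normal_inf_normal _ _
    have hc : ⁅x, n⁆ ∈ Q := by
      refine hself _ hcX ?_
      rw [commutatorElement_def]
      exact mul_mem (hQc.conj_mem n hn x).2 (inv_mem hn.2)
    have hcomm : Commute ⁅x, n⁆ n := mem_centralizer_iff.mp hn.2 _ hc
    have h1 : ⁅x, n⁆ * n = x * n * x⁻¹ := by rw [commutatorElement_def]; group
    have h2 : (⁅x, n⁆ * n) ^ orderOf n = 1 := by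
      rw [h1, conj_pow, pow_orderOf_eq_one, mul_one, mul_inv_cancel]
    rw [hcomm.mul_pow, pow_orderOf_eq_one, mul_one] at h2
    obtain ⟨k, hk⟩ := hQp ⟨_, hc⟩
    have hk' : ⁅x, n⁆ ^ (q ^ k) = 1 := congrArg Subtype.val hk
    have h3 : ⁅x, n⁆ = 1 := orderOf_eq_one_iff.mp (Nat.eq_one_of_dvd_coprimes
      ((((Fact.out : q.Prime).coprime_iff_not_dvd).mpr hn').symm.pow_right k)
      (orderOf_dvd_of_pow_eq_one h2) (orderOf_dvd_of_pow_eq_one hk'))
    exact commutatorElement_eq_one_iff_mul_comm.mp h3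
  -- the part of `E` in `M`
  have hEM : E ⊓ M = ⊥ := by
    have h1 : E ⊓ M ≤ coreIn q M := le_coreIn inf_le_right
      ((le_inf (hMP.trans hEn) le_normalizer).trans inf_normalizer_le_normalizer_inf)
      (hEq.coprime_dvd_left (card_dvd_of_le inf_le_left))
    have h2 : coreIn q M = ⊥ := hmin _ (normalizer_eq_top_iff.mp (top_le_iff.mp
      ((normalizer_eq_top (H := M)).ge.trans (normalizer_le_normalizer_coreIn M))))
      ((map_subtype_le _).trans (hMP.trans inf_le_left)) (coreIn_coprime M)
    exact le_bot_iff.mp (h2 ▸ h1)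
  rw [← le_bot_iff, ← hEM]
  refine le_inf inf_le_right fun d hd => subset_closure ⟨⟨hCN hd.1, ?_⟩, ?_⟩
  swap
  · intro hdvd
    have h1 : orderOf d ∣ Nat.card ↥C := orderOf_dvd_natCard C hd.1
    exact (Fact.out : q.Prime).coprime_iff_not_dvd.mp hCq.symm (hdvd.trans h1)
  · refine mem_centralizer_iff.mpr ?_
    have hnQ : ∀ K : Subgroup G, K ≤ normalizer (Q : Set G) := fun K =>
      le_top.trans (normalizer_eq_top (H := Q)).ge
    intro r hr
    refine (H74.thompson_AxB hQp hz (hnQ _) (hnQ ⊤ (mem_top d)) ?_ ?_ ?_ r hr).symm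
    · intro hdvd
      exact (Fact.out : q.Prime).coprime_iff_not_dvd.mp hCq.symm
        (hdvd.trans (orderOf_dvd_natCard C hd.1))
    · intro b hb
      obtain ⟨i, rfl⟩ := mem_zpowers_iff.mp hb
      exact (show Commute d z from mem_centralizer_singleton_iff.mp (hCz hd.1)).zpow_right i
    · intro u hu hbu
      have huz : u ∈ N ⊓ centralizer ({z} : Set G) :=
        ⟨hXN (hQX hu), mem_centralizer_singleton_iff.mpr (hbu z (mem_zpowers z)).eq.symm⟩
      have h1 : ⁅u, d⁆ ∈ C := by
        rw [commutatorElement_def]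
        exact mul_mem ((mem_normalizer_iff.mp (hCn huz) d).mp hd.1) (inv_mem hd.1)
      have h2 : ⁅u, d⁆ ∈ Q := by
        rw [commutatorElement_def, mul_assoc u d, mul_assoc]
        exact mul_mem hu (hQn.conj_mem _ (inv_mem hu) d)
      have h3 : ⁅u, d⁆ ∈ (Q ⊓ C : Subgroup G) := ⟨h2, h1⟩
      rw [H19.inf_eq_bot_of_isPGroup_coprime hQp hCq, mem_bot] at h3
      exact (commutatorElement_eq_one_iff_mul_comm.mp h3).symm

/-- Let G be a finite group with Sylow p-subgroup P and H = O_{p'}(G), and suppose G = PH and the commutator subgroup [H, P] is solvable. Let q be a prime and z an element of q-power order of C_H(P). Then (O_{q'}(C_H(z)) ∩ O_{q'}(C_H(P))) · [O_{q'}(C_H(z)), P] ≤ O_{q'}(H). -/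
theorem result {G : Type*} [Group G] [Finite G] {p : ℕ} [Fact p.Prime]
    (P : Sylow p G) (hPH : Cfsg.pPrimeCore p G ⊔ (P : Subgroup G) = ⊤)
    (hsol : Group.IsSolvable ↥⁅Cfsg.pPrimeCore p G, (P : Subgroup G)⁆)
    {q : ℕ} [Fact q.Prime] (z : G) (hzH : z ∈ Cfsg.pPrimeCore p G) (hzP : z ∈ Subgroup.centralizer ((P : Subgroup G) : Set G))
    (hz : ∃ k : ℕ, orderOf z = q ^ k) :
    ((Cfsg.pPrimeCore q ↥(Cfsg.pPrimeCore p G ⊓ Subgroup.centralizer ({z} : Set G))).map
        (Cfsg.pPrimeCore p G ⊓ Subgroup.centralizer ({z} : Set G)).subtype ⊓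
      (Cfsg.pPrimeCore q ↥(Cfsg.pPrimeCore p G ⊓ Subgroup.centralizer ((P : Subgroup G) : Set G))).map
        (Cfsg.pPrimeCore p G ⊓ Subgroup.centralizer ((P : Subgroup G) : Set G)).subtype) ⊔
    ⁅(Cfsg.pPrimeCore q ↥(Cfsg.pPrimeCore p G ⊓ Subgroup.centralizer ({z} : Set G))).map
        (Cfsg.pPrimeCore p G ⊓ Subgroup.centralizer ({z} : Set G)).subtype, (P : Subgroup G)⁆ ≤
    (Cfsg.pPrimeCore q ↥(Cfsg.pPrimeCore p G)).map (Cfsg.pPrimeCore p G).subtype := by
  set N := Cfsg.pPrimeCore p G with hNdef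
  haveI hNn : N.Normal := H19.pPrimeCore_normal p G
  obtain ⟨k, hk⟩ := hz
  have hzq : IsPGroup q ↥(zpowers z) := IsPGroup.of_card (n := k) (by rw [Nat.card_zpowers, hk])
  set O := coreIn q N with hOdef
  haveI hOn : O.Normal := normalizer_eq_top_iff.mp (top_le_iff.mp
    ((normalizer_eq_top (H := N)).ge.trans (normalizer_le_normalizer_coreIn N)))
  set C := coreIn q (N ⊓ centralizer ({z} : Set G)) with hCdef
  set E := coreIn q (N ⊓ centralizer ((P : Subgroup G) : Set G)) with hEdef
  set X := ⁅N, (P : Subgroup G)⁆ with hXdef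
  have hXN : X ≤ N := commutator_le_left _ _
  haveI hXn : X.Normal := normalizer_eq_top_iff.mp (top_le_iff.mp (hPH.ge.trans
    (sup_le (normalizer_commutator_ge_left _ _) (normalizer_commutator_ge_right _ _))))
  haveI := hsol
  have hnorm : ∀ K : Subgroup G, N ⊓ K ≤ normalizer (coreIn q (N ⊓ K) : Set G) := fun K =>
    le_normalizer.trans (normalizer_le_normalizer_coreIn _)
  have hPz : (P : Subgroup G) ≤ normalizer (C : Set G) := by
    refine le_trans ?_ (normalizer_le_normalizer_coreIn _)
    refine le_trans (le_inf (le_top.trans (normalizer_eq_top (H := N)).ge) ?_)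
      inf_normalizer_le_normalizer_inf
    intro x hx
    refine le_normalizer ?_
    rw [mem_centralizer_singleton_iff]
    exact mem_centralizer_iff.mp hzP x hx
  have hCN : C ≤ N := (map_subtype_le _).trans inf_le_left
  have hCz : C ≤ centralizer ({z} : Set G) := (map_subtype_le _).trans inf_le_right
  refine sup_le ?_ ?_
  swap
  · -- the commutator part lies in the solvable subgroup `X`
    have h1 : ⁅C, (P : Subgroup G)⁆ ≤ C ⊓ X :=
      le_inf (le_normalizer_iff_commutator_le_left.mp hPz) (commutator_mono hCN le_rfl)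
    refine h1.trans ?_
    have hXI : C ⊓ X ≤ coreIn q X := by
      have hC' : centralizer ({z} : Set G) ⊓ N ≤ normalizer ((C ⊓ X : Subgroup G) : Set G) := by
        rw [inf_comm]
        exact (le_inf (hnorm _) (le_top.trans (normalizer_eq_top (H := X)).ge)).trans
          inf_normalizer_le_normalizer_inf
      exact le_coreIn_of_balance hsol hzq inf_le_right
        ((coreIn_coprime _).coprime_dvd_left (card_dvd_of_le inf_le_left))
        (inf_le_left.trans hCz)
        ((inf_le_inf_left _ (sup_le hXN (zpowers_le.mpr hzH))).trans hC')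
    exact hXI.trans (le_coreIn ((map_subtype_le _).trans hXN)
      ((le_top.trans (normalizer_eq_top (H := X)).ge).trans (normalizer_le_normalizer_coreIn X))
      (coreIn_coprime X))
  · -- reduce modulo `O`
    set π := QuotientGroup.mk' O with hπ
    have hsurj : Function.Surjective π := QuotientGroup.mk'_surjective O
    haveI : (N.map π).Normal := hNn.map π hsurj
    haveI : (X.map π).Normal := hXn.map π hsurj
    have hON : O ≤ N := map_subtype_le _
    have hOq : (Nat.card ↥O).Coprime q := coreIn_coprime N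
    have hmin : ∀ M : Subgroup (G ⧸ O), M.Normal → M ≤ N.map π → (Nat.card ↥M).Coprime q →
        M = ⊥ := by
      intro M hM hMN hMq
      have hO' : O ≤ M.comap π := fun x hx => by
        rw [mem_comap, hπ, QuotientGroup.mk'_apply, (QuotientGroup.eq_one_iff x).mpr hx]
        exact one_mem M
      have hle : M.comap π ≤ O := by
        refine le_coreIn ?_ (le_top.trans (normalizer_eq_top (H := M.comap π)).ge) ?_
        · refine (comap_mono hMN).trans ?_
          rw [comap_map_eq, hπ, QuotientGroup.ker_mk', sup_eq_left.mpr hON]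
        · have h := H19.card_comap_mk O M
          rw [h]
          exact Nat.Coprime.mul_left hMq hOq
      rw [← map_comap_eq_self_of_surjective hsurj M, Subgroup.map_eq_bot_iff, hπ, QuotientGroup.ker_mk']
      exact hle
    have hfix : ∀ A : Subgroup G, Group.IsSolvable ↥A → (Nat.card ↥A).Coprime (Nat.card ↥O) →
        N.map π ⊓ centralizer ((A.map π : Subgroup (G ⧸ O)) : Set (G ⧸ O)) ≤
          (N ⊓ centralizer (A : Set G)).map π := by
      rintro A hA hAO _ ⟨⟨n, hn, rfl⟩, hc⟩
      obtain ⟨o, ho, hoc⟩ := H20.exists_mul_mem_centralizer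
        (le_top.trans (normalizer_eq_top (H := O)).ge) hAO (Or.inl hA) (k := n) fun a ha => by
          rw [← QuotientGroup.eq_one_iff]
          have h := mem_centralizer_iff.mp hc _ (mem_map_of_mem π ha)
          simp only [hπ, QuotientGroup.mk'_apply] at h
          rw [QuotientGroup.mk_mul, QuotientGroup.mk_mul, QuotientGroup.mk_mul,
            QuotientGroup.mk_inv, QuotientGroup.mk_inv, h, mul_inv_cancel_right, inv_mul_cancel]
      refine ⟨n * o, ⟨mul_mem hn (hON ho), hoc⟩, ?_⟩
      simp only [hπ, QuotientGroup.mk'_apply]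
      rw [QuotientGroup.mk_mul, (QuotientGroup.eq_one_iff o).mpr ho, mul_one]
    have hcz : N.map π ⊓ centralizer ({π z} : Set (G ⧸ O)) ≤
        (N ⊓ centralizer ({z} : Set G)).map π := by
      have h := hfix (zpowers z) (H20.isSolvable_of_isMulCommutative _) (by
        rw [Nat.card_zpowers, hk]; exact hOq.symm.pow_left k)
      rw [MonoidHom.map_zpowers, centralizer_zpowers', centralizer_zpowers'] at h
      exact h
    have hcP : N.map π ⊓ centralizer (((P : Subgroup G).map π : Subgroup (G ⧸ O)) : Set (G ⧸ O)) ≤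
        (N ⊓ centralizer ((P : Subgroup G) : Set G)).map π := by
      refine hfix _ (H20.isSolvable_of_isPGroup P.isPGroup') ?_
      obtain ⟨n, hn⟩ := IsPGroup.iff_card.mp P.isPGroup'
      rw [hn]
      exact (((H19.pPrimeCore_coprime (G := G) p).coprime_dvd_left
        (card_dvd_of_le hON)).symm).pow_left n
    have h0 := inf_eq_bot (q := q) (N := N.map π) (X := X.map π) (P := (P : Subgroup G).map π)
      (C := C.map π) (E := E.map π) (map_mono hXN)
      (Group.isSolvable_of_surjective (π.subgroupMap_surjective X))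
      (by rw [hXdef, map_commutator]) hmin (z := π z) (mem_map_of_mem π hzH)
      (by rw [← MonoidHom.map_zpowers]; exact hzq.map π) (map_mono hCN)
      ((coreIn_coprime _).coprime_dvd_left (card_map_dvd _ _))
      (by
        rintro _ ⟨c, hc, rfl⟩
        rw [mem_centralizer_singleton_iff, ← map_mul, mem_centralizer_singleton_iff.mp (hCz hc),
          map_mul])
      ((coreIn_coprime _).coprime_dvd_left (card_map_dvd _ _))
      (hcz.trans ((map_mono (hnorm _)).trans (le_normalizer_map π)))
      (hcP.trans ((map_mono (hnorm _)).trans (le_normalizer_map π)))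
    have h1 : (C ⊓ E).map π = ⊥ := le_bot_iff.mp (h0 ▸ map_inf_le C E π)
    rwa [Subgroup.map_eq_bot_iff, hπ, QuotientGroup.ker_mk'] at h1

end Cfsg.Agent.S3819
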