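import Cfsg.Statements.S3821
import Mathlib

set_option autoImplicit false
open Cfsg

namespace Cfsg.Agent.S3821

/-- Let A be a normal subgroup of the finite group G and H a subgroup of A. Then H is pronormal in G (H and gHg⁻¹ conjugate inside ⟨H, gHg⁻¹⟩ for every g ∈ G) if and only if H is pronormal in A and G = A · N_G(H). -/
theorem result {G : Type*} [Group G] [Finite G] (A H : Subgroup G) [A.Normal] (hHA : H ≤ A) :
    Cfsg.IsPronormal H ↔ (Cfsg.IsPronormal (H.subgroupOf A) ∧ A ⊔ Subgroup.normalizer (H : Set G) = ⊤) := by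
  have e : ∀ (K : Subgroup G) (a b : G), K.map (MulAut.conj (a * b)).toMonoidHom
      = (K.map (MulAut.conj b).toMonoidHom).map (MulAut.conj a).toMonoidHom := by
    intro K a b
    rw [Subgroup.map_map]
    congr 1
    ext y
    simp [MulAut.conj_apply, mul_assoc]
  have eA : ∀ (a : A), ((H.subgroupOf A).map (MulAut.conj a).toMonoidHom).map A.subtype
      = H.map (MulAut.conj (a : G)).toMonoidHom := by
    intro a
    rw [Subgroup.map_map]
    have : A.subtype.comp (MulAut.conj a).toMonoidHom = (MulAut.conj (a : G)).toMonoidHom.comp A.subtype := by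
      ext y; simp [MulAut.conj_apply]
    rw [this, ← Subgroup.map_map, Subgroup.map_subgroupOf_eq_of_le hHA]
  constructor
  · intro h
    constructor
    · intro a
      obtain ⟨x, hx, hxe⟩ := h (a : G)
      have hJ : (H.subgroupOf A ⊔ (H.subgroupOf A).map (MulAut.conj a).toMonoidHom).map A.subtype
          = H ⊔ H.map (MulAut.conj (a : G)).toMonoidHom := by
        rw [Subgroup.map_sup, eA, Subgroup.map_subgroupOf_eq_of_le hHA]
      rw [← hJ] at hx
      obtain ⟨x', hx', rfl⟩ := hx
      refine ⟨x', hx', ?_⟩
      apply Subgroup.map_injective A.subtype_injective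
      rw [eA, eA]
      exact hxe
    · rw [eq_top_iff]
      intro g _
      obtain ⟨x, hx, hxe⟩ := h g
      have hxA : x ∈ A := by
        refine (sup_le hHA ?_) hx
        rintro _ ⟨y, hy, rfl⟩
        simpa [MulAut.conj_apply] using (inferInstance : A.Normal).conj_mem y (hHA hy) g
      have hn : x⁻¹ * g ∈ Subgroup.normalizer (H : Set G) := by
        have h1 : H.map (MulAut.conj (x⁻¹ * g)).toMonoidHom = H := by
          rw [e, hxe, ← e, inv_mul_cancel]
          ext y; simp
        rw [Subgroup.mem_normalizer_iff]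
        intro y
        constructor
        · intro hy
          have : MulAut.conj (x⁻¹ * g) y ∈ H.map (MulAut.conj (x⁻¹ * g)).toMonoidHom := ⟨y, hy, rfl⟩
          rw [h1] at this
          simpa [MulAut.conj_apply, mul_assoc] using this
        · intro hy
          have hy' : x⁻¹ * g * y * (x⁻¹ * g)⁻¹ ∈ H.map (MulAut.conj (x⁻¹ * g)).toMonoidHom := by
            rw [h1]; simpa [mul_assoc] using hy
          obtain ⟨z, hz, hze⟩ := hy'
          simp [MulAut.conj_apply, mul_assoc] at hze
          exact SetLike.mem_coe.1 (hze ▸ hz)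
      have : x * (x⁻¹ * g) ∈ A ⊔ Subgroup.normalizer (H : Set G) :=
        mul_mem (le_sup_left (b := Subgroup.normalizer (H : Set G)) hxA) (le_sup_right (a := A) hn)
      rwa [mul_inv_cancel_left] at this
  · rintro ⟨h, htop⟩ g
    have hg : g ∈ A ⊔ Subgroup.normalizer (H : Set G) := by rw [htop]; trivial
    rw [← SetLike.mem_coe, Subgroup.normal_mul A (Subgroup.normalizer (H : Set G))] at hg
    obtain ⟨a, ha, n, hn, rfl⟩ := hg
    have hnH : H.map (MulAut.conj n).toMonoidHom = H := by
      ext y
      constructor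
      · rintro ⟨z, hz, rfl⟩
        simpa [MulAut.conj_apply] using ((Subgroup.mem_normalizer_iff.1 hn) z).1 hz
      · intro hy
        refine ⟨n⁻¹ * y * n, ?_, by simp [MulAut.conj_apply, mul_assoc]⟩
        refine ((Subgroup.mem_normalizer_iff.1 hn) _).2 ?_
        simpa [mul_assoc] using hy
    rw [e, hnH]
    obtain ⟨x, hx, hxe⟩ := h (⟨a, ha⟩ : A)
    refine ⟨x, ?_, ?_⟩
    · have := Subgroup.mem_map_of_mem A.subtype hx
      rwa [Subgroup.map_sup, eA, Subgroup.map_subgroupOf_eq_of_le hHA] at this
    · have := congrArg (fun K => Subgroup.map A.subtype K) hxe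
      rwa [eA, eA] at this

end Cfsg.Agent.S3821
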