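import Cfsg.Statements.S3825
import Mathlib

set_option autoImplicit false
open Cfsg
open scoped commutatorElement

namespace Cfsg.Agent.S3825

/-- Let U be a subgroup of a finite group H and w an involution of H normalizing U and commuting with exactly two elements of U, the identity and y. If V is a non-cyclic elementary abelian 2-subgroup of U containing y which is normal in U and invariant under w, then V is a Sylow 2-subgroup of U, V has order 4, and U/V is abelian. -/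
theorem result {H : Type*} [Group H] [Finite H] (U : Subgroup H) (w : H) (hw : orderOf w = 2)
    (hwU : w ∈ Subgroup.normalizer (U : Set H)) (y : H) (hy : y ≠ 1) (hyU : y ∈ U)
    (hfix : ∀ u ∈ U, w * u * w⁻¹ = u ↔ (u = 1 ∨ u = y))
    (V : Subgroup H) (hVU : V ≤ U) (hVn : (V.subgroupOf U).Normal) (hVw : ∀ v ∈ V, w * v * w⁻¹ ∈ V)
    (hVe : Cfsg.IsElementaryAbelian 2 V) (hVc : ¬ IsCyclic ↥V) (hyV : y ∈ V) :
    ¬ 2 ∣ V.relIndex U ∧ Nat.card ↥V = 4 ∧ ⁅U, U⁆ ≤ V := by
  classical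
  have hw2 : w * w = 1 := by rw [← sq, ← hw, pow_orderOf_eq_one]
  have hinvol : ∀ g : H, w * (w * g * w⁻¹) * w⁻¹ = g := by
    intro g
    calc w * (w * g * w⁻¹) * w⁻¹ = (w * w) * g * (w * w)⁻¹ := by group
      _ = g := by rw [hw2]; group
  have hVcomm : ∀ a ∈ V, ∀ b ∈ V, a * b = b * a := fun a ha b hb =>
    congrArg Subtype.val (hVe.1.is_comm.comm (⟨a, ha⟩ : V) ⟨b, hb⟩)
  have hVinv : ∀ a ∈ V, a⁻¹ = a := fun a ha => inv_eq_of_mul_eq_one_left (by rw [← sq, hVe.2 a ha])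
  have hwy : w * y * w⁻¹ = y := (hfix y hyU).2 (Or.inr rfl)
  let f : V →* V := MonoidHom.mk' (fun v => ⟨(v : H)⁻¹ * (w * v * w⁻¹),
      mul_mem (inv_mem v.2) (hVw v v.2)⟩) (fun a b => Subtype.ext (by
    show ((a : H) * b)⁻¹ * (w * (a * b) * w⁻¹) = _
    calc ((a : H) * b)⁻¹ * (w * (a * b) * w⁻¹)
        = (b : H)⁻¹ * ((a : H)⁻¹ * (w * a * w⁻¹)) * (w * b * w⁻¹) := by group
      _ = ((a : H)⁻¹ * (w * a * w⁻¹)) * (b : H)⁻¹ * (w * b * w⁻¹) := by
          rw [hVcomm _ (inv_mem b.2) _ (mul_mem (inv_mem a.2) (hVw a a.2))]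
      _ = ((a : H)⁻¹ * (w * a * w⁻¹)) * ((b : H)⁻¹ * (w * b * w⁻¹)) := by group))
  let Y : Subgroup V := Subgroup.zpowers ⟨y, hyV⟩
  have hYcard : Nat.card Y = 2 := by
    rw [Nat.card_zpowers]
    exact orderOf_eq_prime (Subtype.ext (hVe.2 y hyV)) (fun h => hy (congrArg Subtype.val h))
  have hker : f.ker = Y := by
    refine le_antisymm ?_ (Subgroup.zpowers_le.2 (Subtype.ext ?_))
    · intro v hv
      have h : (v : H)⁻¹ * (w * v * w⁻¹) = 1 := congrArg Subtype.val hv
      rcases (hfix v (hVU v.2)).1 (inv_mul_eq_one.1 h).symm with h1 | h1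
      · rw [show v = 1 from Subtype.ext h1]; exact one_mem Y
      · rw [show v = ⟨y, hyV⟩ from Subtype.ext h1]; exact Subgroup.mem_zpowers _
    · show y⁻¹ * (w * y * w⁻¹) = 1
      rw [hwy, inv_mul_cancel]
  have hrange : f.range ≤ Y := by
    rintro _ ⟨v, rfl⟩
    rw [← hker]
    refine Subtype.ext ?_
    show ((v : H)⁻¹ * (w * v * w⁻¹))⁻¹ * (w * ((v : H)⁻¹ * (w * v * w⁻¹)) * w⁻¹) = 1
    rw [hVinv _ (mul_mem (inv_mem v.2) (hVw v v.2))]
    calc (v : H)⁻¹ * (w * v * w⁻¹) * (w * ((v : H)⁻¹ * (w * v * w⁻¹)) * w⁻¹)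
        = (v : H)⁻¹ * (w * (w * v * w⁻¹) * w⁻¹) := by group
      _ = 1 := by rw [hinvol, inv_mul_cancel]
  have hYne : Nat.card V ≠ 2 := fun h => by
    haveI := Fact.mk Nat.prime_two
    exact hVc (isCyclic_of_prime_card (p := 2) h)
  have hcardV : Nat.card V = 2 * Nat.card f.range := by
    rw [← Subgroup.index_ker f, hker, ← hYcard, Subgroup.card_mul_index]
  have hrange2 : Nat.card f.range = 2 := by
    rcases (Nat.dvd_prime Nat.prime_two).1 (hYcard ▸ Subgroup.card_dvd_of_le hrange) with h | h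
    · exact absurd (by rw [hcardV, h]) hYne
    · exact h
  have hV4 : Nat.card V = 4 := by rw [hcardV, hrange2]
  have hYrange : (⟨y, hyV⟩ : V) ∈ f.range := by
    rw [Subgroup.eq_of_le_of_card_ge hrange (by rw [hrange2, hYcard])]
    exact Subgroup.mem_zpowers _
  obtain ⟨v0, hv0⟩ := hYrange
  have hv0' : (v0 : H)⁻¹ * (w * v0 * w⁻¹) = y := congrArg Subtype.val hv0
  set N := V.subgroupOf U with hN
  haveI : N.Normal := hVn
  let ψ : U →* U := MonoidHom.mk' (fun u => ⟨w * u * w⁻¹,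
      (Subgroup.mem_normalizer_iff.1 hwU (u : H)).1 u.2⟩)
    (fun a b => Subtype.ext (by simp [mul_assoc]))
  have hψN : N ≤ N.comap ψ := fun u hu => hVw u hu
  let φ : U ⧸ N →* U ⧸ N := QuotientGroup.map N N ψ hψN
  have hinv : Function.Involutive φ := by
    intro g
    induction g using QuotientGroup.induction_on with
    | _ u =>
      simp only [φ, QuotientGroup.map_mk]
      congr 1
      exact Subtype.ext (hinvol u)
  have hfpf : MonoidHom.FixedPointFree φ := by
    intro g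
    induction g using QuotientGroup.induction_on with
    | _ u =>
      intro hg
      simp only [φ, QuotientGroup.map_mk] at hg
      have hd1 : u⁻¹ * ψ u ∈ N := QuotientGroup.eq.1 hg.symm
      have hd : (u : H)⁻¹ * (w * u * w⁻¹) ∈ V := hd1
      set d := (u : H)⁻¹ * (w * u * w⁻¹) with hddef
      have hdfix : w * d * w⁻¹ = d := by
        rw [← hVinv d hd, hddef]
        calc w * ((u : H)⁻¹ * (w * u * w⁻¹))⁻¹ * w⁻¹
            = (w * (w * u * w⁻¹) * w⁻¹)⁻¹ * (w * u * w⁻¹) := by simp [mul_assoc]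
          _ = ((u : H)⁻¹ * (w * u * w⁻¹)) := by rw [hinvol]
          _ = ((u : H)⁻¹ * (w * u * w⁻¹))⁻¹ := (hVinv _ hd).symm
      obtain ⟨v, hvV, hvd⟩ : ∃ v ∈ V, v⁻¹ * (w * v * w⁻¹) = d := by
        rcases (hfix d (hVU hd)).1 hdfix with h1 | h1
        · exact ⟨1, one_mem V, by rw [h1]; group⟩
        · exact ⟨v0, v0.2, by rw [h1]; exact hv0'⟩
      have hfx : w * ((u : H) * v⁻¹) * w⁻¹ = u * v⁻¹ := by
        calc w * ((u : H) * v⁻¹) * w⁻¹ = u * ((u : H)⁻¹ * (w * u * w⁻¹))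
              * (v * (v⁻¹ * (w * v * w⁻¹)))⁻¹ := by group
          _ = u * v⁻¹ := by rw [← hddef, hvd]; group
      have hmem : (u : H) * v⁻¹ ∈ V := by
        rcases (hfix _ (mul_mem u.2 (inv_mem (hVU hvV)))).1 hfx with h1 | h1 <;> rw [h1]
        · exact one_mem V
        · exact hyV
      rw [QuotientGroup.eq_one_iff]
      show (u : H) ∈ V
      simpa using mul_mem hmem hvV
  refine ⟨?_, hV4, ?_⟩
  · have hodd : Odd (Nat.card (U ⧸ N)) := hfpf.odd_card_of_involutive hinv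
    exact fun h => (Nat.not_even_iff_odd.2 hodd) (even_iff_two_dvd.2 h)
  · rw [Subgroup.commutator_le]
    intro a ha b hb
    have h : (⁅(⟨a, ha⟩ : U), ⟨b, hb⟩⁆ : U) ∈ N := by
      rw [← QuotientGroup.eq_one_iff]
      show QuotientGroup.mk' N _ = 1
      rw [map_commutatorElement, commutatorElement_eq_one_iff_mul_comm]
      exact hfpf.commute_all_of_involutive hinv _ _
    exact h

end Cfsg.Agent.S3825
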