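import Cfsg.Statements.S3835
import Mathlib
import Cfsg.Agent.H84.EspecIndex
import Cfsg.Agent.H84.WardCore
import Cfsg.Agent.H92.SL2Mat
import Cfsg.Agent.H95.QdGroup

set_option autoImplicit false
open Cfsg
open scoped commutatorElement Pointwise

namespace Cfsg.Agent.S3835

open Cfsg.Agent.H95 in
/-- Homomorphisms from `Qd(p)`, `p` odd, to `±1` are trivial. -/
theorem hom_units_eq_one {p : ℕ} [Fact p.Prime] (hp : p ≠ 2) (s : ↥(Cfsg.qd p) →* ℤˣ)
    (m : ↥(Cfsg.qd p)) : s m = 1 := by
  have key : ∀ x : ↥(Cfsg.qd p), x ^ p = 1 → s x = 1 := by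
    intro x hx
    rcases Int.units_eq_one_or (s x) with h | h
    · exact h
    · have h1 := congrArg s hx
      rw [map_pow, map_one, h, ((Fact.out : p.Prime).odd_of_ne_two hp).neg_one_pow] at h1
      exact absurd h1 (by decide)
  obtain ⟨A, v, rfl⟩ := qd_eq_mul m
  rw [map_mul, key _ (by rw [← map_pow, plane_pow_eq_one, map_one]), one_mul]
  have hker : (⊤ : Subgroup (SL2 p)) ≤ (s.comp linearPart).ker := by
    rw [← Cfsg.Agent.H92.sl2_closure_sx_sy, Subgroup.closure_le]
    have hx : ∀ (k : ℕ) (t : ZMod p), Cfsg.Agent.H92.sx t ^ k = Cfsg.Agent.H92.sx ((k : ZMod p) * t) := by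
      intro k t
      induction k with
      | zero => simp
      | succ k ih => rw [pow_succ, ih, ← Cfsg.Agent.H92.sx_add]; congr 1; push_cast; ring
    have hy : ∀ (k : ℕ) (t : ZMod p), Cfsg.Agent.H92.sy t ^ k = Cfsg.Agent.H92.sy ((k : ZMod p) * t) := by
      intro k t
      induction k with
      | zero => simp
      | succ k ih => rw [pow_succ, ih, ← Cfsg.Agent.H92.sy_add]; congr 1; push_cast; ring
    rintro _ (⟨t, rfl⟩ | ⟨t, rfl⟩)
    · exact key _ (by rw [← map_pow, hx, ZMod.natCast_self, zero_mul, Cfsg.Agent.H92.sx_zero, map_one])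
    · exact key _ (by rw [← map_pow, hy, ZMod.natCast_self, zero_mul, Cfsg.Agent.H92.sy_zero, map_one])
  exact hker (Subgroup.mem_top A)

open Cfsg.Agent.H95 in
/-- `Qd(p)` has a nonabelian `p`-subgroup. -/
theorem qd_nonabelian_pSubgroup {p : ℕ} [Fact p.Prime] :
    ∃ B : Subgroup ↥(Cfsg.qd p), IsPGroup p B ∧ ∃ a ∈ B, ∃ b ∈ B, a * b ≠ b * a := by
  set x : ↥(Cfsg.qd p) := linearPart (Cfsg.Agent.H92.sx 1)
  set T := (translation (p := p)).range
  have hT : IsPGroup p T := IsPGroup.of_surjective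
    (fun v : Plane p => ⟨1, by rw [pow_one]; exact plane_pow_eq_one v⟩)
    (translation (p := p)).rangeRestrict (MonoidHom.rangeRestrict_surjective _)
  have hxp : x ^ p = 1 := by
    have hx : ∀ k : ℕ, Cfsg.Agent.H92.sx (1 : ZMod p) ^ k = Cfsg.Agent.H92.sx (k : ZMod p) := by
      intro k
      induction k with
      | zero => simp
      | succ k ih => rw [pow_succ, ih, ← Cfsg.Agent.H92.sx_add]; congr 1; push_cast; ring
    rw [← map_pow, hx, ZMod.natCast_self, Cfsg.Agent.H92.sx_zero, map_one]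
  have hX : IsPGroup p (Subgroup.zpowers x) := fun ⟨g, hg⟩ => ⟨1, Subtype.ext (by
    obtain ⟨k, rfl⟩ := hg
    show (x ^ k) ^ p ^ 1 = 1
    rw [pow_one, ← zpow_natCast, ← zpow_mul, mul_comm, zpow_mul, zpow_natCast, hxp, one_zpow])⟩
  have hn : Subgroup.zpowers x ≤ Subgroup.normalizer (T : Set ↥(Cfsg.qd p)) := by
    rw [Subgroup.zpowers_le]
    refine Cfsg.Agent.H84.mem_normalizer_of_forall ?_
    rintro _ ⟨v, rfl⟩
    exact ⟨_, by rw [eq_mul_inv_iff_mul_eq]; exact (linearPart_translation _ v).symm⟩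
  refine ⟨_, hX.to_sup_of_normal_right' hT hn, x,
    (le_sup_left : Subgroup.zpowers x ≤ _) (Subgroup.mem_zpowers x),
    translation (Multiplicative.ofAdd ![0, 1]), (le_sup_right : T ≤ _) ⟨_, rfl⟩, fun h => ?_⟩
  rw [linearPart_translation] at h
  have h1 := mul_right_cancel h
  have h2 := congrFun (congrArg Multiplicative.toAdd (translation_injective h1)) 0
  simp [act, Matrix.mulVec, dotProduct, Fin.sum_univ_two] at h2

/-- A `p`-group of permutations of fewer than `p²` points is commutative. -/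
theorem commute_of_card_lt_sq {α : Type*} [Finite α] {p : ℕ} [Fact p.Prime]
    (P : Subgroup (Equiv.Perm α)) (hP : IsPGroup p P) (hn : Nat.card α < p ^ 2) :
    ∀ a ∈ P, ∀ b ∈ P, a * b = b * a := by
  intro a ha b hb
  have hp := (Fact.out : p.Prime)
  suffices key : ∀ x : α, ((⁅(⟨a, ha⟩ : P), ⟨b, hb⟩⁆ : P) : Equiv.Perm α) x = x by
    have h1 : ((⁅(⟨a, ha⟩ : P), ⟨b, hb⟩⁆ : P) : Equiv.Perm α) = 1 := Equiv.ext key
    have h2 : a * b * a⁻¹ * b⁻¹ = 1 := h1
    rw [mul_inv_eq_one, mul_inv_eq_iff_eq_mul] at h2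
    exact h2
  intro x
  set H := MulAction.stabilizer P x with hH
  have hc : (⁅(⟨a, ha⟩ : P), ⟨b, hb⟩⁆ : P) ∈ H := by
    obtain ⟨k, hk⟩ := hP.index H
    have hlt : p ^ k < p ^ 2 := by
      rw [← hk, MulAction.index_stabilizer]
      exact lt_of_le_of_lt (Set.ncard_le_card _) hn
    rcases (show k = 0 ∨ k = 1 by
      have := (Nat.pow_lt_pow_iff_right hp.one_lt).1 hlt; omega) with rfl | rfl
    · rw [pow_zero, Subgroup.index_eq_one] at hk
      rw [hk]; exact Subgroup.mem_top _
    · rw [pow_one] at hk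
      exact (Cfsg.Agent.H84.index_prime_spec hP hk).2.2
        (Subgroup.commutator_mem_commutator (Subgroup.mem_top _) (Subgroup.mem_top _))
  exact hc

/-- Let p be an odd prime and n a natural number. The alternating group of degree n has a subgroup isomorphic to Qd(p) (the natural semidirect product of an elementary abelian group of order p² by SL₂(p)) if and only if n ≥ p²; and if n < p² then Qd(p) is not even involved in it. -/
theorem result {p : ℕ} [Fact p.Prime] (hp : p ≠ 2) (n : ℕ) : ((∃ H : Subgroup (alternatingGroup (Fin n)), Nonempty (↥H ≃* ↥(Cfsg.qd p))) ↔ p ^ 2 ≤ n) ∧ (n < p ^ 2 → ¬ Cfsg.Involves ↥(Cfsg.qd p) ↥(alternatingGroup (Fin n))) := by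
  classical
  have hp' := (Fact.out : p.Prime)
  have hsmall : n < p ^ 2 → ¬ Cfsg.Involves ↥(Cfsg.qd p) ↥(alternatingGroup (Fin n)) := by
    rintro hn ⟨K, R, hR, ⟨e⟩⟩
    let π : K →* ↥(Cfsg.qd p) := e.toMonoidHom.comp (QuotientGroup.mk' _)
    have hπ : Function.Surjective π := e.surjective.comp (QuotientGroup.mk'_surjective _)
    obtain ⟨B, hB, a, ha, b, hb, hab⟩ := qd_nonabelian_pSubgroup (p := p)
    obtain ⟨P, hP⟩ := hB.exists_le_sylow
    obtain ⟨S, hS⟩ := Sylow.mapSurjective_surjective hπ p P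
    set f : K →* Equiv.Perm (Fin n) := (alternatingGroup (Fin n)).subtype.comp K.subtype with hf
    have hfi : Function.Injective f := Subtype.val_injective.comp Subtype.val_injective
    have hcomm : ∀ x ∈ (S : Subgroup K), ∀ y ∈ (S : Subgroup K), x * y = y * x := by
      intro x hx y hy
      apply hfi
      rw [map_mul, map_mul]
      exact commute_of_card_lt_sq ((S : Subgroup K).map f) (S.2.map f) (by simpa using hn)
        _ ⟨x, hx, rfl⟩ _ ⟨y, hy, rfl⟩
    rw [← hS] at hP
    obtain ⟨x, hx, rfl⟩ := hP ha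
    obtain ⟨y, hy, rfl⟩ := hP hb
    exact hab (by rw [← map_mul, ← map_mul, hcomm x hx y hy])
  refine ⟨⟨fun h => ?_, fun hn => ?_⟩, hsmall⟩
  · obtain ⟨H, ⟨e⟩⟩ := h
    by_contra hlt
    refine hsmall (not_le.1 hlt) ⟨H, ⊥, inferInstance, ⟨?_⟩⟩
    exact ((QuotientGroup.quotientMulEquivOfEq (Subgroup.bot_subgroupOf H)).trans
      QuotientGroup.quotientBot).trans e
  · haveI : Finite (Cfsg.Agent.H95.Plane p) := inferInstance
    set L := (Cfsg.Agent.H95.linearPart (p := p)).range
    let act : ↥(Cfsg.qd p) →* Equiv.Perm (↥(Cfsg.qd p) ⧸ L) := MulAction.toPermHom _ _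
    have hacti : Function.Injective act := by
      rw [injective_iff_map_eq_one]
      intro m hm
      have hfix : ∀ v, m * Cfsg.Agent.H95.translation v ∈ (Cfsg.Agent.H95.translation v) • (L : Set _) := by
        intro v
        have h := Equiv.ext_iff.1 hm (QuotientGroup.mk (Cfsg.Agent.H95.translation v))
        have h' : ((m * Cfsg.Agent.H95.translation v : ↥(Cfsg.qd p)) : ↥(Cfsg.qd p) ⧸ L)
            = (Cfsg.Agent.H95.translation v : ↥(Cfsg.qd p)) := h
        rw [mem_leftCoset_iff, SetLike.mem_coe]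
        exact QuotientGroup.eq.1 h'.symm
      have h1 := hfix 1
      rw [map_one, mul_one, one_smul, SetLike.mem_coe] at h1
      obtain ⟨A, rfl⟩ := h1
      have hA : ∀ v, Cfsg.Agent.H95.act A v = v := by
        intro v
        have h2 := hfix v
        rw [Cfsg.Agent.H95.linearPart_translation, mem_leftCoset_iff, SetLike.mem_coe,
          ← mul_assoc, Subgroup.mul_mem_cancel_right _ (MonoidHom.mem_range.2 ⟨A, rfl⟩)] at h2
        obtain ⟨B, hB⟩ := h2
        have h3 : Cfsg.Agent.H95.translation v⁻¹ * Cfsg.Agent.H95.translation (Cfsg.Agent.H95.act A v)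
            = Cfsg.Agent.H95.linearPart B := by rw [map_inv]; exact hB.symm
        rw [← map_mul] at h3
        have h4 := (Cfsg.Agent.H95.affMat_inj (congrArg Subtype.val h3)).2
        exact (inv_mul_eq_one.1 h4).symm
      rw [show A = 1 from Cfsg.Agent.H95.act_faithful (fun v => by rw [hA v, Cfsg.Agent.H95.act_one]),
        map_one]
    let q : Cfsg.Agent.H95.Plane p → ↥(Cfsg.qd p) ⧸ L := fun v =>
      ((Cfsg.Agent.H95.translation v : ↥(Cfsg.qd p)) : ↥(Cfsg.qd p) ⧸ L)
    have hq : Function.Surjective q := by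
      intro x
      induction x using QuotientGroup.induction_on with
      | _ m =>
        obtain ⟨A, v, rfl⟩ := Cfsg.Agent.H95.qd_eq_mul m
        refine ⟨v, QuotientGroup.eq.2 ?_⟩
        rw [inv_mul_cancel_left]
        exact ⟨A, rfl⟩
    have hcard : Nat.card (↥(Cfsg.qd p) ⧸ L) ≤ Nat.card (Fin n) := by
      refine (Nat.card_le_card_of_surjective q hq).trans ?_
      rw [Nat.card_fin]
      refine le_trans (le_of_eq ?_) hn
      rw [Nat.card_congr Multiplicative.toAdd, Nat.card_fun, Nat.card_zmod, Nat.card_fin]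
    haveI := Fintype.ofFinite (↥(Cfsg.qd p) ⧸ L)
    obtain ⟨ι⟩ : Nonempty ((↥(Cfsg.qd p) ⧸ L) ↪ Fin n) := by
      apply Function.Embedding.nonempty_of_card_le
      simpa [Nat.card_eq_fintype_card] using hcard
    let g : ↥(Cfsg.qd p) →* Equiv.Perm (Fin n) := (Equiv.Perm.viaEmbeddingHom ι).comp act
    have hgi : Function.Injective g := (Equiv.Perm.viaEmbeddingHom_injective ι).comp hacti
    have hsign : ∀ m, g m ∈ alternatingGroup (Fin n) := fun m =>
      Equiv.Perm.mem_alternatingGroup.2 (hom_units_eq_one hp ((Equiv.Perm.sign).comp g) m)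
    refine ⟨(g.codRestrict _ hsign).range, ⟨(MonoidHom.ofInjective ?_).symm⟩⟩
    exact fun a b h => hgi (congrArg Subtype.val h)

end Cfsg.Agent.S3835
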