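import Cfsg.Statements.S3836
import Mathlib
import Cfsg.Agent.H19.Cores

set_option autoImplicit false
open Cfsg

namespace Cfsg.Agent.S3836

/-- Let G be a finite group that is p-stable in the normalizer form: for every p-subgroup Q and every x ∈ N_G(Q) with [Q, x, x] = 1, the image of x in N_G(Q)/C_G(Q) lies in O_p(N_G(Q)/C_G(Q)). Then every subgroup of G is p-stable in the same sense. -/
theorem result {G : Type*} [Group G] [Finite G] {p : ℕ} [Fact p.Prime] (hst : Cfsg.IsNormalizerPStable p G) (H : Subgroup G) : Cfsg.IsNormalizerPStable p ↥H := by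
  intro P hP x hx hxx
  set Q : Subgroup G := P.map H.subtype with hQ
  have hQp : IsPGroup p Q := hP.map _
  have hmem : ∀ y : H, (y : G) ∈ Q ↔ y ∈ P := by
    intro y
    refine ⟨?_, fun h => ⟨y, h, rfl⟩⟩
    rintro ⟨z, hz, hze⟩
    rwa [← Subtype.ext hze]
  have hN : ∀ y : H, y ∈ Subgroup.normalizer (P : Set H) → (y : G) ∈ Subgroup.normalizer (Q : Set G) := by
    intro y hy
    rw [Subgroup.mem_normalizer_iff] at hy ⊢
    intro g
    constructor
    · rintro ⟨z, hz, rfl⟩
      exact ⟨y * z * y⁻¹, (hy z).1 hz, by simp⟩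
    · rintro ⟨z, hz, hze⟩
      refine ⟨y⁻¹ * z * y, ?_, ?_⟩
      · refine (hy _).2 ?_
        simpa [mul_assoc] using hz
      · simp only [Subgroup.coe_subtype, Subgroup.coe_mul, InvMemClass.coe_inv] at hze ⊢
        rw [hze]; group
  have hxQ := hN x hx
  have hcomm : ⁅⁅Q, Subgroup.zpowers (x : G)⁆, Subgroup.zpowers (x : G)⁆ = ⊥ := by
    have : Subgroup.zpowers (x : G) = (Subgroup.zpowers x).map H.subtype := by
      rw [MonoidHom.map_zpowers]; rfl
    rw [this, hQ, ← Subgroup.map_commutator, ← Subgroup.map_commutator, hxx, Subgroup.map_bot]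
  have hG := hst Q hQp (x : G) hxQ hcomm
  set CH := (Subgroup.centralizer (P : Set H)).subgroupOf (Subgroup.normalizer (P : Set H)) with hCH
  set CG := (Subgroup.centralizer (Q : Set G)).subgroupOf (Subgroup.normalizer (Q : Set G)) with hCG
  let ι : ↥(Subgroup.normalizer (P : Set H)) →* ↥(Subgroup.normalizer (Q : Set G)) :=
    (H.subtype.comp (Subgroup.normalizer (P : Set H)).subtype).codRestrict _ (fun y => hN y.1 y.2)
  have hker : CG.comap ι = CH := by
    ext y
    simp only [Subgroup.mem_comap, hCG, hCH, Subgroup.mem_subgroupOf, Subgroup.mem_centralizer_iff]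
    constructor
    · intro h z hz
      apply Subtype.ext
      exact h z.1 ⟨z, hz, rfl⟩
    · rintro h _ ⟨z, hz, rfl⟩
      exact congrArg Subtype.val (h z hz)
  haveI : CG.Normal := by
    rw [hCG]; infer_instance
  haveI : CH.Normal := by
    rw [hCH]; infer_instance
  let f := QuotientGroup.map CH CG ι hker.ge
  have hf : Function.Injective f := by
    rw [← MonoidHom.ker_eq_bot_iff]
    rw [QuotientGroup.ker_map, hker]
    exact QuotientGroup.map_mk'_self _
  set K := (Cfsg.pCore p (↥(Subgroup.normalizer (Q : Set G)) ⧸ CG)).comap f with hK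
  have hKp : IsPGroup p K := by
    refine IsPGroup.comap_of_injective ?_ f hf
    exact Cfsg.Agent.H19.pCore_isPGroup p
  haveI := Cfsg.Agent.H19.pCore_normal p (↥(Subgroup.normalizer (Q : Set G)) ⧸ CG)
  have hKn : K.Normal := by rw [hK]; infer_instance
  exact (le_sSup (show K ∈ {N : Subgroup _ | N.Normal ∧ IsPGroup p N} from ⟨hKn, hKp⟩)) hG

end Cfsg.Agent.S3836
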