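import Cfsg.Statements.S3838
import Mathlib
import Cfsg.Agent.H22.Tate
import Cfsg.Agent.H22.AbelianSylow
import Cfsg.Agent.H84.EspecIndex
import Cfsg.Agent.H84.WardCore

set_option autoImplicit false
open Cfsg
open scoped commutatorElement

namespace Cfsg.Agent.S3838

/-- Let G be a finite group with Sylow p-subgroup P such that N_G(P) has a normal p-complement. Then N_G(Q) has a normal p-complement for every subgroup Q with [P, P] ≤ Q ≤ Φ(P). -/
theorem result {G : Type*} [Group G] [Finite G] {p : ℕ} [Fact p.Prime] (P : Sylow p G) (hN : Cfsg.HasNormalPComplement p ↥(Subgroup.normalizer ((P : Subgroup G) : Set G))) (Q : Subgroup G) (h1 : (commutator ↥(P : Subgroup G)).map (P : Subgroup G).subtype ≤ Q) (h2 : Q ≤ (frattini ↥(P : Subgroup G)).map (P : Subgroup G).subtype) : Cfsg.HasNormalPComplement p ↥(Subgroup.normalizer (Q : Set G)) := by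
  have hQP : Q ≤ (P : Subgroup G) := h2.trans (Subgroup.map_subtype_le _)
  set H := Subgroup.normalizer (Q : Set G) with hH
  have hPH : (P : Subgroup G) ≤ H := fun x hx => Cfsg.Agent.H84.mem_normalizer_of_forall fun q hq => by
    have hc : ⁅x, q⁆ ∈ Q :=
      h1 ⟨⁅(⟨x, hx⟩ : (P : Subgroup G)), ⟨q, hQP hq⟩⁆,
        Subgroup.commutator_mem_commutator (Subgroup.mem_top _) (Subgroup.mem_top _), rfl⟩
    have := mul_mem hc hq
    simpa [commutatorElement_def] using this
  let PH : Sylow p H := P.subtype hPH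
  have hPHmem : ∀ x : H, x ∈ (PH : Subgroup H) ↔ (x : G) ∈ (P : Subgroup G) := fun x => Iff.rfl
  set QH := Q.subgroupOf H with hQH
  haveI hQn : QH.Normal := Subgroup.normal_in_normalizer
  set π := QuotientGroup.mk' QH with hπ
  have hπs : Function.Surjective π := QuotientGroup.mk'_surjective QH
  let PQ : Sylow p (H ⧸ QH) := PH.mapSurjective hπs
  have hcomm : ∀ a ∈ (PH : Subgroup H), ∀ b ∈ (PH : Subgroup H), π a * π b = π b * π a := by
    intro a ha b hb
    rw [← commutatorElement_eq_one_iff_mul_comm, ← map_commutatorElement]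
    exact (QuotientGroup.eq_one_iff _).2 (h1 ⟨⁅(⟨a, ha⟩ : (P : Subgroup G)), ⟨b, hb⟩⁆,
      Subgroup.commutator_mem_commutator (Subgroup.mem_top _) (Subgroup.mem_top _), rfl⟩)
  have hnc : Subgroup.normalizer (PQ : Set (H ⧸ QH)) ≤ Subgroup.centralizer (PQ : Set (H ⧸ QH)) := by
    intro y hy
    obtain ⟨x, rfl⟩ := hπs y
    have hker : π.ker ≤ (PH : Subgroup H) := by
      rw [QuotientGroup.ker_mk']; exact fun z hz => hQP hz
    have hxN : (x : G) ∈ Subgroup.normalizer ((P : Subgroup G) : Set G) := by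
      refine Cfsg.Agent.H84.mem_normalizer_of_forall fun a ha => ?_
      have h3 := (Subgroup.mem_normalizer_iff.1 hy (π ⟨a, hPH ha⟩)).1 ⟨⟨a, hPH ha⟩, ha, rfl⟩
      rw [← map_inv, ← map_mul, ← map_mul] at h3
      have h4 : x * ⟨a, hPH ha⟩ * x⁻¹ ∈ ((PH : Subgroup H).map π).comap π := h3
      rw [Subgroup.comap_map_eq_self hker] at h4
      exact h4
    set N := Subgroup.normalizer ((P : Subgroup G) : Set G) with hNdef
    let PN : Sylow p N := P.subtype Subgroup.le_normalizer
    haveI hPNn : (PN : Subgroup N).Normal := Subgroup.normal_in_normalizer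
    have hc := Cfsg.Agent.H22.isComplement'_pResidual_of_not_dvd PN
      (Cfsg.Agent.H22.hasNormalPComplement_iff.1 hN)
    obtain ⟨⟨⟨k, hk⟩, ⟨b, hb⟩⟩, hkb, -⟩ := hc.existsUnique ⟨(x : G), hxN⟩
    have hxe : (x : G) = (k : G) * (b : G) := congrArg Subtype.val hkb.symm
    have hbH : (b : G) ∈ H := hPH hb
    have hkH : (k : G) ∈ H := by
      have := mul_mem x.2 (inv_mem hbH)
      rwa [hxe, mul_inv_cancel_right] at this
    have hxe' : x = ⟨(k : G), hkH⟩ * ⟨(b : G), hbH⟩ := Subtype.ext hxe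
    refine Subgroup.mem_centralizer_iff.2 ?_
    rintro _ ⟨a, ha, rfl⟩
    have hka : (a : G) * k = k * a := by
      have := Subgroup.commute_of_normal_of_disjoint (PN : Subgroup N) (Cfsg.pResidual p N) hPNn
        Cfsg.Agent.H22.pResidual_normal hc.disjoint.symm
        (⟨(a : G), Subgroup.le_normalizer ha⟩ : N) k ha hk
      exact congrArg Subtype.val this.eq
    have h5 : π a * π ⟨(k : G), hkH⟩ = π ⟨(k : G), hkH⟩ * π a := by
      rw [← map_mul, ← map_mul]; exact congrArg π (Subtype.ext hka)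
    rw [hxe', map_mul, ← mul_assoc, h5, mul_assoc,
      hcomm a ha ⟨(b : G), hbH⟩ hb, mul_assoc]
  have hquot := Cfsg.Agent.H22.burnside_normal_complement PQ hnc
  set R := Cfsg.pResidual p (H ⧸ QH) with hR
  haveI : R.Normal := Cfsg.Agent.H22.pResidual_normal
  have hcR := Cfsg.Agent.H22.isComplement'_pResidual_of_not_dvd PQ
    (Cfsg.Agent.H22.hasNormalPComplement_iff.1 hquot)
  have hder : commutator (H ⧸ QH) ≤ R := by
    rw [commutator_def, Subgroup.commutator_le]
    intro u _ v _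
    rw [← QuotientGroup.eq_one_iff]
    show QuotientGroup.mk' R _ = 1
    rw [map_commutatorElement, commutatorElement_eq_one_iff_mul_comm]
    obtain ⟨⟨⟨r, hr⟩, ⟨_, ⟨a, ha, rfl⟩⟩⟩, rfl, -⟩ := hcR.existsUnique u
    obtain ⟨⟨⟨r', hr'⟩, ⟨_, ⟨a', ha', rfl⟩⟩⟩, rfl, -⟩ := hcR.existsUnique v
    have hr1 : QuotientGroup.mk' R r = 1 := (QuotientGroup.eq_one_iff r).2 hr
    have hr1' : QuotientGroup.mk' R r' = 1 := (QuotientGroup.eq_one_iff r').2 hr'
    simp only [map_mul, hr1, hr1', one_mul]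
    exact (map_mul _ _ _).symm.trans ((congrArg _ (hcomm a ha a' ha')).trans (map_mul _ _ _))
  refine Cfsg.Agent.H22.hasNormalPComplement_iff.2 (fun hd => ?_)
  have htate := Cfsg.Agent.H22.tate PH (PH : Subgroup H) le_rfl fun M hMn hMi => ?_
  · have hbot : Cfsg.pResidual p (PH : Subgroup H) = ⊥ :=
      Cfsg.Agent.H22.pResidual_eq_bot_of_isPGroup PH.2
    rw [hbot, Subgroup.map_bot] at htate
    exact Cfsg.Agent.H22.not_dvd_card_of_sylow_inf_eq_bot PH _ (le_bot_iff.1 htate) hd
  · rintro x ⟨hxP, hxc⟩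
    have hxQ : x ∈ QH := by
      rw [← QuotientGroup.eq_one_iff]
      have h6 : π x ∈ (PQ : Subgroup (H ⧸ QH)) ⊓ R := by
        refine ⟨⟨x, hxP, rfl⟩, hder ?_⟩
        have : (commutator H).map π ≤ commutator (H ⧸ QH) := by
          rw [commutator_def, commutator_def, Subgroup.map_commutator]
          exact Subgroup.commutator_mono le_top le_top
        exact this ⟨x, hxc, rfl⟩
      rw [inf_comm, hcR.disjoint.eq_bot] at h6
      exact Subgroup.mem_bot.1 h6
    have hco := (Cfsg.Agent.H84.index_prime_spec PH.2 hMi).1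
    obtain ⟨y, hy, hye⟩ := h2 hxQ
    let e : (P : Subgroup G) →* (PH : Subgroup H) :=
      MonoidHom.mk' (fun z => ⟨⟨z, hPH z.2⟩, z.2⟩) fun _ _ => rfl
    have hes : Function.Surjective e := fun z => ⟨⟨((z : H) : G), z.2⟩, rfl⟩
    refine ⟨e y, frattini_le_coatom hco (frattini_le_comap_frattini_of_surjective hes hy), ?_⟩
    exact Subtype.ext hye

end Cfsg.Agent.S3838
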