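import Cfsg.Statements.S3857
import Mathlib
import Cfsg.Agent.H84.SolvableGK

set_option autoImplicit false
open Cfsg

namespace Cfsg.Agent.S3857

/-- A finite solvable group whose prime graph (prime divisors of the order, two distinct primes joined when there is an element of order their product) is disconnected is a Frobenius group or a 2-Frobenius group (it has normal subgroups H < K with K a Frobenius group with kernel H and G/H a Frobenius group with kernel K/H). -/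
theorem result {G : Type*} [Group G] [Finite G] (hsol : Group.IsSolvable G)
    (hdisc : (∃ A : Set ℕ, (∃ a ∈ A, a.Prime ∧ a ∣ Nat.card G) ∧ (∃ b ∉ A, b.Prime ∧ b ∣ Nat.card G) ∧
      ∀ a ∈ A, ∀ b ∉ A, a.Prime → b.Prime → a ∣ Nat.card G → b ∣ Nat.card G → ¬ ∃ g : G, orderOf g = a * b)) :
    (∃ C : Subgroup G, Cfsg.IsFrobeniusComplement C) ∨
    (∃ (H K : Subgroup G) (_ : H.Normal), K.Normal ∧ H < K ∧
      (∃ C : Subgroup ↥K, Cfsg.IsFrobeniusComplement C ∧ Cfsg.frobeniusKernel C = (H.subgroupOf K : Set ↥K)) ∧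
      (∃ C : Subgroup (G ⧸ H), Cfsg.IsFrobeniusComplement C ∧ Cfsg.frobeniusKernel C = (K.map (QuotientGroup.mk' H) : Set (G ⧸ H)))) := by
  obtain ⟨A, ⟨a, haA, hap, had⟩, ⟨b, hbA, hbp, hbd⟩, hno⟩ := hdisc
  have hsep : Cfsg.Agent.H84.Separated A G := fun x y hx hy hxA hyA hg => by
    obtain ⟨g, hg⟩ := hg
    exact hno x hxA y hyA hx hy (Dvd.dvd.trans (hg ▸ dvd_mul_right x y) (orderOf_dvd_natCard g))
      (Dvd.dvd.trans (hg ▸ dvd_mul_left y x) (orderOf_dvd_natCard g)) ⟨g, hg⟩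
  haveI := hsol
  haveI : Nontrivial G := by
    rw [← Finite.one_lt_card_iff_nontrivial]
    exact hap.one_lt.trans_le (Nat.le_of_dvd Nat.card_pos had)
  obtain ⟨r, R, hr, hRn, hRne, hRp⟩ := Cfsg.Agent.H84.exists_normal_pGroup (Q := G)
  haveI := Fact.mk hr
  have hcore : ∀ π : Set ℕ, r ∈ π → Cfsg.piCore π G ≠ ⊥ := fun π hrπ h0 => hRne (le_bot_iff.1 (by
    rw [← h0]
    refine Cfsg.Agent.H55.le_piCore hRn fun p hp hd => ?_
    obtain ⟨k, hk⟩ := hRp.exists_card_eq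
    rw [hk] at hd
    exact (Nat.prime_dvd_prime_iff_eq hp hr).1 (hp.dvd_of_dvd_pow hd) ▸ hrπ))
  by_cases hrA : r ∈ A
  · exact Cfsg.Agent.H84.gk_solvable hsep (hcore A hrA) ⟨b, hbp, hbA, hbd⟩
  · exact Cfsg.Agent.H84.gk_solvable hsep.compl (hcore Aᶜ hrA) ⟨a, hap, not_not.2 haA, had⟩

end Cfsg.Agent.S3857
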