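import Cfsg.Statements.S3858
import Mathlib

set_option autoImplicit false
open Cfsg

namespace Cfsg.Agent.S3858

/-- Let G be a finite group with a normal non-abelian simple subgroup T whose centralizer is trivial (G almost simple with socle T), r a prime and R a Sylow r-subgroup of G meeting T nontrivially. Then R lies in exactly one maximal subgroup of G if and only if G has exactly one conjugacy class of maximal subgroups whose index is prime to r. -/
theorem result {G : Type*} [Group G] [Finite G] (T : Subgroup G) [T.Normal] (hT : IsSimpleGroup T) (hna : ¬ IsMulCommutative T)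
    (hC : Subgroup.centralizer (T : Set G) = ⊥) {r : ℕ} [Fact r.Prime] (R : Sylow r G) (hR0 : (R : Subgroup G) ⊓ T ≠ ⊥) :
    (∃! M : Subgroup G, IsCoatom M ∧ (R : Subgroup G) ≤ M) ↔
      ((∃ M : Subgroup G, IsCoatom M ∧ ¬ r ∣ M.index) ∧
        ∀ M₁ M₂ : Subgroup G, IsCoatom M₁ → ¬ r ∣ M₁.index → IsCoatom M₂ → ¬ r ∣ M₂.index → ∃ g : G, M₂ = M₁.map (MulAut.conj g).toMonoidHom) := by
  have hr : r.Prime := Fact.out
  set R' : Subgroup G := (R : Subgroup G) with hR'
  have hNne : Subgroup.normalizer (R' : Set G) ≠ ⊤ := by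
    intro h
    rw [Subgroup.normalizer_eq_top_iff] at h
    have hn : ((R' ⊓ T).subgroupOf T).Normal := (Subgroup.normal_inf_normal R' T).subgroupOf T
    rcases hT.eq_bot_or_eq_top_of_normal _ hn with h' | h'
    · apply hR0
      rw [Subgroup.subgroupOf_eq_bot] at h'
      exact h'.eq_bot_of_le inf_le_right
    · rw [Subgroup.subgroupOf_eq_top] at h'
      have hTp : IsPGroup r T := R.isPGroup'.to_le (h'.trans inf_le_left)
      have : Group.IsNilpotent T := hTp.isNilpotent
      apply hna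
      have := hT
      exact ⟨⟨(IsSimpleGroup.comm_iff_isSolvable (G := T)).2 inferInstance⟩⟩
  have hidx : ∀ H : Subgroup G, R' ≤ H → ¬ r ∣ H.index := fun H h hd =>
    R.not_dvd_index (hd.trans (Subgroup.index_dvd_of_le h))
  have emem : ∀ (H : Subgroup G) (g y : G), y ∈ H.map (MulAut.conj g).toMonoidHom ↔ g⁻¹ * y * g ∈ H := by
    intro H g y
    constructor
    · rintro ⟨z, hz, rfl⟩
      simpa [MulAut.conj_apply, mul_assoc] using hz
    · intro h
      exact ⟨_, h, by simp [MulAut.conj_apply, mul_assoc]⟩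
  -- every subgroup of index prime to `r` contains a conjugate of `R`
  have hcont : ∀ H : Subgroup G, ¬ r ∣ H.index → ∃ g : G, ∀ y ∈ R', g * y * g⁻¹ ∈ H := by
    intro H hH
    obtain ⟨S⟩ : Nonempty (Sylow r H) := Sylow.nonempty
    have hp : IsPGroup r ((S : Subgroup H).map H.subtype) := S.isPGroup'.map _
    have hn : ¬ r ∣ ((S : Subgroup H).map H.subtype).index := by
      rw [Subgroup.index_map_subtype]
      exact fun h => (hr.dvd_mul.1 h).elim S.not_dvd_index hH
    obtain ⟨g, hg⟩ := MulAction.exists_smul_eq G R (hp.toSylow hn)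
    refine ⟨g, fun y hy => ?_⟩
    have h1 : g * y * g⁻¹ ∈ ((g • R : Sylow r G) : Subgroup G) := by
      rw [Sylow.coe_subgroup_smul]
      exact ⟨y, hy, by simp [MulAut.conj_apply]⟩
    rw [hg] at h1
    obtain ⟨z, _, hz⟩ := h1
    rw [← hz]
    exact z.2
  have emax : ∀ (H : Subgroup G) (g : G), IsCoatom H → IsCoatom (H.map (MulAut.conj g).toMonoidHom) :=
    fun H g h => ((MulEquiv.mapSubgroup (MulAut.conj g : G ≃* G)).isCoatom_iff H).2 h
  constructor
  · rintro ⟨M, ⟨hM, hRM⟩, hu⟩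
    refine ⟨⟨M, hM, hidx M hRM⟩, fun M₁ M₂ h1 h1' h2 h2' => ?_⟩
    obtain ⟨g₁, hg₁⟩ := hcont M₁ h1'
    obtain ⟨g₂, hg₂⟩ := hcont M₂ h2'
    have k : ∀ (H : Subgroup G) (g : G), IsCoatom H → (∀ y ∈ R', g * y * g⁻¹ ∈ H) →
        H.map (MulAut.conj g⁻¹).toMonoidHom = M := by
      intro H g hH hg
      refine hu _ ⟨emax H g⁻¹ hH, fun y hy => ?_⟩
      rw [emem, inv_inv]
      exact hg y hy
    have e1 := k M₁ g₁ h1 hg₁
    have e2 := k M₂ g₂ h2 hg₂
    refine ⟨g₂ * g₁⁻¹, ?_⟩
    ext y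
    rw [emem]
    have := congrArg (fun K : Subgroup G => g₂⁻¹ * y * g₂ ∈ K) (e1.trans e2.symm)
    simp only [emem, inv_inv, eq_iff_iff] at this
    simpa [mul_assoc] using this.symm
  · rintro ⟨-, hconj⟩
    obtain ⟨M₀, hM₀, hle⟩ := (eq_top_or_exists_le_coatom _).resolve_left hNne
    have hRM₀ : R' ≤ M₀ := Subgroup.le_normalizer.trans hle
    refine ⟨M₀, ⟨hM₀, hRM₀⟩, ?_⟩
    rintro M ⟨hM, hRM⟩
    obtain ⟨g, rfl⟩ := hconj M₀ M hM₀ (hidx _ hRM₀) hM (hidx _ hRM)
    -- `R` and its conjugate by `g⁻¹` are Sylow subgroups of `M₀`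
    have hle' : ((g⁻¹ • R : Sylow r G) : Subgroup G) ≤ M₀ := by
      rw [Sylow.coe_subgroup_smul]
      rintro _ ⟨y, hy, rfl⟩
      simpa [MulAut.conj_apply] using (emem M₀ g y).1 (hRM hy)
    obtain ⟨m, hm⟩ := MulAction.exists_smul_eq M₀ (R.subtype hRM₀) ((g⁻¹ • R).subtype hle')
    rw [Sylow.smul_subtype] at hm
    · have hm' : (m : G) • R = g⁻¹ • R := Sylow.subtype_injective hm
      have hn : g * (m : G) ∈ Subgroup.normalizer (R' : Set G) := by
        refine (Sylow.smul_eq_iff_mem_normalizer (P := R)).1 ?_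
        rw [mul_smul, hm', smul_inv_smul]
      have hgM : g ∈ M₀ := by
        have := mul_mem (hle hn) (inv_mem m.2)
        simpa [mul_assoc] using this
      ext y
      rw [emem, Subgroup.mul_mem_cancel_right _ hgM, Subgroup.mul_mem_cancel_left _ (inv_mem hgM)]

end Cfsg.Agent.S3858
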