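import Cfsg.Statements.S3859
import Mathlib

set_option autoImplicit false
open Cfsg

namespace Cfsg.Agent.S3859

/-- Let G be a finite group with a normal non-abelian simple subgroup T whose centralizer is trivial (G almost simple with socle T), r a prime and R a Sylow r-subgroup of G meeting T nontrivially. If R lies in exactly one maximal subgroup of G, then G/T is an r-group. -/
theorem result {G : Type*} [Group G] [Finite G] (T : Subgroup G) [T.Normal] (hT : IsSimpleGroup T) (hna : ¬ IsMulCommutative T)
    (hC : Subgroup.centralizer (T : Set G) = ⊥) {r : ℕ} [Fact r.Prime] (R : Sylow r G) (hR0 : (R : Subgroup G) ⊓ T ≠ ⊥)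
    (huniq : ∃! M : Subgroup G, IsCoatom M ∧ (R : Subgroup G) ≤ M) : IsPGroup r (G ⧸ T) := by
  obtain ⟨M, ⟨hMmax, hRM⟩, hu⟩ := huniq
  have hover : ∀ H : Subgroup G, (R : Subgroup G) ≤ H → H ≠ ⊤ → H ≤ M := by
    intro H hRH hH
    obtain ⟨M', hM', hle⟩ := (eq_top_or_exists_le_coatom H).resolve_left hH
    rw [hu M' ⟨hM', hRH.trans hle⟩] at hle
    exact hle
  by_cases htop : T ⊔ (R : Subgroup G) = ⊤
  · have h1 : (R : Subgroup G).map (QuotientGroup.mk' T) = ⊤ := by
      have h2 := congrArg (Subgroup.map (QuotientGroup.mk' T)) htop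
      rw [Subgroup.map_sup, QuotientGroup.map_mk'_self, bot_sup_eq, ← MonoidHom.range_eq_map,
        MonoidHom.range_eq_top.2 (QuotientGroup.mk'_surjective T)] at h2
      exact h2
    have h3 : IsPGroup r ((R : Subgroup G).map (QuotientGroup.mk' T) : Subgroup (G ⧸ T)) := R.isPGroup'.map _
    rw [h1] at h3
    exact h3.of_equiv Subgroup.topEquiv
  · exfalso
    have hTM : T ≤ M := le_sup_left.trans (hover _ le_sup_right htop)
    -- `R ⊓ T` is a Sylow subgroup of `T`
    have hPp : IsPGroup r ((R : Subgroup G).subgroupOf T) :=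
      R.isPGroup'.comap_of_injective T.subtype T.subtype_injective
    have hndvd : ¬ r ∣ ((R : Subgroup G).subgroupOf T).index := by
      intro hdvd
      apply R.not_dvd_index
      refine hdvd.trans ?_
      have : ((R : Subgroup G).subgroupOf T).index = (R : Subgroup G).relIndex T := rfl
      have key : (R : Subgroup G).relIndex T = (R : Subgroup G).relIndex (T ⊔ (R : Subgroup G)) := by
        have e1 := Subgroup.relIndex_mul_relIndex ((R : Subgroup G) ⊓ T) T (T ⊔ (R : Subgroup G))
          inf_le_right le_sup_left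
        have e2 := Subgroup.relIndex_mul_relIndex ((R : Subgroup G) ⊓ T) (R : Subgroup G) (T ⊔ (R : Subgroup G))
          inf_le_left le_sup_right
        rw [Subgroup.inf_relIndex_right, Subgroup.relIndex_sup_left] at e1
        rw [Subgroup.inf_relIndex_left] at e2
        have hne : T.relIndex (R : Subgroup G) ≠ 0 := Subgroup.index_ne_zero_of_finite
        rw [← e2, mul_comm] at e1
        exact mul_left_cancel₀ hne e1
      rw [this, key, ← Subgroup.relIndex_top_right (R : Subgroup G),
        ← Subgroup.relIndex_mul_relIndex (R : Subgroup G) (T ⊔ (R : Subgroup G)) ⊤ le_sup_right le_top]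
      exact dvd_mul_right _ _
    have hF := Sylow.normalizer_sup_eq_top (hPp.toSylow hndvd)
    rw [IsPGroup.toSylow_coe, Subgroup.subgroupOf_map_subtype] at hF
    have hNR : (R : Subgroup G) ≤ Subgroup.normalizer (((R : Subgroup G) ⊓ T : Subgroup G) : Set G) := by
      intro x hx
      rw [Subgroup.mem_normalizer_iff]
      intro y
      have hTc : y ∈ T ↔ x * y * x⁻¹ ∈ T := by
        refine ⟨fun h => (inferInstance : T.Normal).conj_mem y h x, fun h => ?_⟩
        simpa [mul_assoc] using (inferInstance : T.Normal).conj_mem _ h x⁻¹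
      have hRc : y ∈ (R : Subgroup G) ↔ x * y * x⁻¹ ∈ (R : Subgroup G) := by
        rw [Subgroup.mul_mem_cancel_right _ (inv_mem hx), Subgroup.mul_mem_cancel_left _ hx]
      exact and_congr hRc hTc
    have hNne : Subgroup.normalizer (((R : Subgroup G) ⊓ T : Subgroup G) : Set G) ≠ ⊤ := by
      intro h
      rw [Subgroup.normalizer_eq_top_iff] at h
      have hn : ((((R : Subgroup G) ⊓ T : Subgroup G)).subgroupOf T).Normal := h.subgroupOf T
      rcases hT.eq_bot_or_eq_top_of_normal _ hn with h' | h'
      · apply hR0
        rw [Subgroup.subgroupOf_eq_bot] at h'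
        exact h'.eq_bot_of_le inf_le_right
      · rw [Subgroup.subgroupOf_eq_top] at h'
        have hTR : T ≤ (R : Subgroup G) := h'.trans inf_le_left
        have hTp : IsPGroup r T := R.isPGroup'.to_le hTR
        have : Group.IsNilpotent T := hTp.isNilpotent
        apply hna
        have : Group.IsSolvable T := inferInstance
        exact ⟨⟨(IsSimpleGroup.comm_iff_isSolvable (G := T)).2 this⟩⟩
    apply hMmax.1
    rw [eq_top_iff, ← hF]
    exact sup_le (hover _ hNR hNne) hTM

end Cfsg.Agent.S3859
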