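import Cfsg.Statements.S3862
import Mathlib
import Cfsg.Agent.H84.FpfFour
import Cfsg.Agent.H22.Frobenius

set_option autoImplicit false
open Cfsg

namespace Cfsg.Agent.S3862


open scoped commutatorElement

/-- An odd automorphism of a 2-group fixing all elements conjugate to their inverse is trivial. -/
theorem fix_of_real_fix (n : ℕ) : ∀ (V : Type*) [Group V] [Finite V], Nat.card V ≤ n →
    IsPGroup 2 V → ∀ a : MulAut V, (orderOf a).Coprime 2 →
    (∀ v : V, (∃ z : V, z * v * z⁻¹ = v⁻¹) → a v = v) → ∀ x : V, a x = x := by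
  induction n with
  | zero =>
    intro V _ _ hle
    exact absurd hle (Nat.not_le.2 Nat.card_pos)
  | succ n ih =>
    intro V _ _ hle hV a ha hfix x
    -- proper invariant subgroups are fixed
    have hprop : ∀ U : Subgroup V, (∀ u ∈ U, a u ∈ U) → U ≠ ⊤ → ∀ u ∈ U, a u = u := by
      intro U hU hne u hu
      have hlt : Nat.card U ≤ n := by
        have : Nat.card U ≠ Nat.card V := fun h => hne (Subgroup.eq_top_of_card_eq U h)
        have := Subgroup.card_le_card_group U
        omega
      obtain ⟨b, hb⟩ := H84.exists_restrict a U hU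
      have hbp : ∀ (m : ℕ) (y : U), (((b ^ m) y : U) : V) = (a ^ m) y := by
        intro m
        induction m with
        | zero => intro y; rfl
        | succ m ihm =>
          intro y
          rw [pow_succ', pow_succ', MulAut.mul_apply, MulAut.mul_apply, hb, ihm]
      have hbord : orderOf b ∣ orderOf a := by
        refine orderOf_dvd_of_pow_eq_one (MulEquiv.ext fun y => Subtype.ext ?_)
        rw [hbp, pow_orderOf_eq_one]
        rfl
      have := ih U hlt (hV.to_subgroup U) b (ha.coprime_dvd_left hbord) (fun v hv => by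
        apply Subtype.ext
        rw [hb]
        obtain ⟨z, hz⟩ := hv
        exact hfix _ ⟨z, congrArg Subtype.val hz⟩) ⟨u, hu⟩
      rw [← hb ⟨u, hu⟩, this]
    -- it suffices that the displacement is fixed
    have hend : ∀ y : V, x⁻¹ * a x = y → a y = y → a x = x := by
      intro y hy hay
      have hax : a x = x * y := by rw [← hy]; group
      have hpow : ∀ m : ℕ, (a ^ m) x = x * y ^ m := by
        intro m
        induction m with
        | zero => simp
        | succ m ihm =>
          rw [pow_succ', MulAut.mul_apply, ihm, map_mul, map_pow, hay, hax, mul_assoc, ← pow_succ']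
      have h1 := hpow (orderOf a)
      rw [pow_orderOf_eq_one, MulAut.one_apply, left_eq_mul] at h1
      obtain ⟨k, hk⟩ := hV y
      have : orderOf y = 1 := Nat.eq_one_of_dvd_coprimes (a := orderOf a) (b := 2 ^ k)
        (ha.pow_right k) (orderOf_dvd_of_pow_eq_one h1) (orderOf_dvd_of_pow_eq_one hk)
      rw [hax, orderOf_eq_one_iff.1 this, mul_one]
    set W : Subgroup V := Subgroup.closure (Set.range fun z : V => z⁻¹ * a z) with hW
    have hWinv : ∀ w ∈ W, a w ∈ W := by
      intro w hw
      have : W ≤ W.comap (a : V ≃* V).toMonoidHom := by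
        rw [hW, Subgroup.closure_le]
        rintro _ ⟨z, rfl⟩
        show a (z⁻¹ * a z) ∈ W
        exact Subgroup.subset_closure ⟨a z, by simp⟩
      exact this hw
    by_cases hWtop : W = ⊤
    swap
    · exact hend _ rfl (hprop W hWinv hWtop _ (Subgroup.subset_closure ⟨x, rfl⟩))
    by_cases htriv : Subsingleton V
    · exact Subsingleton.elim _ _
    have : Nontrivial V := not_subsingleton_iff_nontrivial.1 htriv
    set U := frattini V with hUdef
    have hUne : U ≠ ⊤ := fun h =>
      bot_ne_top (frattini_nongenerating (K := (⊥ : Subgroup V)) (by rw [← hUdef, h, bot_sup_eq]))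
    have hUfix := hprop U (fun u hu =>
      Subgroup.characteristic_iff_map_le.1 frattini_characteristic a ⟨u, hu, rfl⟩) hUne
    have hUc : ∀ u ∈ U, ∀ z : V, Commute u z := by
      intro u hu z
      have hle' : W ≤ Subgroup.centralizer ({u} : Set V) := by
        rw [hW, Subgroup.closure_le]
        rintro _ ⟨z, rfl⟩
        rw [SetLike.mem_coe, Subgroup.mem_centralizer_singleton_iff]
        have h1 := hUfix _ ((inferInstance : U.Normal).conj_mem u hu z)
        rw [map_mul, map_mul, hUfix u hu, map_inv] at h1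
        calc z⁻¹ * a z * u = z⁻¹ * (a z * u * (a z)⁻¹) * a z := by group
          _ = z⁻¹ * (z * u * z⁻¹) * a z := by rw [h1]
          _ = u * (z⁻¹ * a z) := by group
      rw [hWtop] at hle'
      exact (Subgroup.mem_centralizer_singleton_iff.1 (hle' (Subgroup.mem_top z))).symm
    have hcomm : ∀ z w : V, ⁅z, w⁆ ∈ U := fun z w => H24.commutator_le_frattini hV
      (Subgroup.commutator_mem_commutator (Subgroup.mem_top _) (Subgroup.mem_top _))
    -- the displacement `y` of `x` squares to a commutator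
    set y := x⁻¹ * a x with hy
    have hxsq : a (x * x) = x * x := hUfix _ (by
      have := H24.pow_mem_frattini hV x
      rwa [sq] at this)
    refine hend y hy ?_
    have hmul1 : ∀ z w₁ w₂ : V, ⁅z, w₁ * w₂⁆ = ⁅z, w₁⁆ * ⁅z, w₂⁆ := by
      intro z w₁ w₂
      have h := hUc _ (hcomm z w₂) w₁
      calc ⁅z, w₁ * w₂⁆ = ⁅z, w₁⁆ * (w₁ * ⁅z, w₂⁆ * w₁⁻¹) := by
            simp [commutatorElement_def, mul_assoc]
        _ = ⁅z, w₁⁆ * ⁅z, w₂⁆ := by rw [← h.eq, mul_inv_cancel_right]
    let ψ : V →* V := MonoidHom.mk' (fun w => ⁅y, w⁆) (fun w₁ w₂ => hmul1 y w₁ w₂)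
    set K := ψ.range with hK
    have hKU : K ≤ U := by rintro _ ⟨w, rfl⟩; exact hcomm y w
    have hKfix : ∀ k ∈ K, a k = k := fun k hk => hUfix k (hKU hk)
    let R : Subgroup V :=
      { carrier := {z | ∀ w, ⁅z, w⁆ ∈ K}
        one_mem' := fun w => by rw [commutatorElement_one_left]; exact one_mem K
        mul_mem' := by
          intro z₁ z₂ h₁ h₂ w
          have h := hUc _ (hcomm z₂ w) z₁
          have e : ⁅z₁ * z₂, w⁆ = ⁅z₂, w⁆ * ⁅z₁, w⁆ := by
            calc ⁅z₁ * z₂, w⁆ = (z₁ * ⁅z₂, w⁆ * z₁⁻¹) * ⁅z₁, w⁆ := by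
                  simp [commutatorElement_def, mul_assoc]
              _ = ⁅z₂, w⁆ * ⁅z₁, w⁆ := by rw [← h.eq, mul_inv_cancel_right]
          rw [e]
          exact mul_mem (h₂ w) (h₁ w)
        inv_mem' := by
          intro z hz w
          have h := hUc _ (hcomm z w) z
          have e : ⁅z⁻¹, w⁆ = ⁅z, w⁆⁻¹ := by
            calc ⁅z⁻¹, w⁆ = z⁻¹ * ⁅z, w⁆⁻¹ * z := by simp [commutatorElement_def, mul_assoc]
              _ = ⁅z, w⁆⁻¹ := by rw [mul_assoc, h.inv_left.eq, inv_mul_cancel_left]
          rw [e]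
          exact inv_mem (hz w) }
    have hyR : y ∈ R := fun w => ⟨w, rfl⟩
    by_cases hR : R = ⊤
    swap
    · refine hprop R ?_ hR y hyR
      intro z hz w
      obtain ⟨w', rfl⟩ := a.surjective w
      rw [← map_commutatorElement, hKfix _ (hz w')]
      exact hz w'
    -- now `y² ∈ [y, V]`, so `y` is conjugate to its inverse
    have hy2 : y * y ∈ K := by
      have hcK : ⁅a x, x⁻¹⁆ ∈ K := by
        have hR' : a x ∈ R := by rw [hR]; trivial
        exact hR' x⁻¹
      have h1 : a x * a x = x * x := by rw [← map_mul, hxsq]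
      have e2 : y * y = ⁅a x, x⁻¹⁆ := by
        calc y * y = x⁻¹ * a x * x⁻¹ * a x := by rw [hy]; group
          _ = x⁻¹ * (a x * x⁻¹ * (a x)⁻¹) * (a x * a x) := by group
          _ = x⁻¹ * (a x * x⁻¹ * (a x)⁻¹) * (x * x) := by rw [h1]
          _ = (x⁻¹ * ((a x * x⁻¹ * (a x)⁻¹) * x)) * x := by group
          _ = (x⁻¹ * ⁅a x, x⁻¹⁆) * x := by simp [commutatorElement_def, mul_assoc]
          _ = x⁻¹ * (⁅a x, x⁻¹⁆ * x) := by group
          _ = x⁻¹ * (x * ⁅a x, x⁻¹⁆) := by rw [(hUc _ (hcomm (a x) x⁻¹) x).eq]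
          _ = ⁅a x, x⁻¹⁆ := by group
      rw [e2]
      exact hcK
    obtain ⟨w, hw⟩ := hy2
    refine hfix y ⟨w, ?_⟩
    have hw' : ⁅y, w⁆ = y * y := hw
    have h3 : w * y⁻¹ * w⁻¹ = y := by
      have := congrArg (fun t => y⁻¹ * t) hw'
      simpa [commutatorElement_def, mul_assoc] using this
    have h4 := congrArg Inv.inv h3
    simpa [mul_assoc] using h4


/-- If every 2-element of the finite group G that is conjugate to its inverse lies in the centre of G, then G has a normal 2-complement. -/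
theorem result {G : Type*} [Group G] [Finite G] (h : ∀ x : G, (∃ j : ℕ, orderOf x = 2 ^ j) → IsConj x x⁻¹ → x ∈ Subgroup.center G) : Cfsg.HasNormalPComplement 2 G := by
  refine H22.hasNormalPComplement_of_frobenius fun D hD g hg hco => ?_
  let φ : ↥(Subgroup.normalizer (D : Set G)) →* MulAut D := D.normalizerMonoidHom
  have hord : (orderOf (φ ⟨g, hg⟩)).Coprime 2 :=
    hco.coprime_dvd_left ((orderOf_map_dvd φ _).trans (by rw [Subgroup.orderOf_mk]))
  rw [Subgroup.mem_centralizer_iff]
  intro v hv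
  have h1 := fix_of_real_fix (Nat.card D) D le_rfl hD (φ ⟨g, hg⟩) hord (fun u ⟨z, hz⟩ => by
    apply Subtype.ext
    show g * (u : G) * g⁻¹ = u
    obtain ⟨j, hj⟩ := IsPGroup.iff_orderOf.1 hD u
    have hu : (u : G) ∈ Subgroup.center G :=
      h u ⟨j, by rw [Subgroup.orderOf_coe, hj]⟩ (isConj_iff.2 ⟨z, congrArg Subtype.val hz⟩)
    rw [(Subgroup.mem_center_iff.1 hu g), mul_inv_cancel_right]) ⟨v, hv⟩
  have h2 : g * v * g⁻¹ = v := congrArg Subtype.val h1
  exact (mul_inv_eq_iff_eq_mul.1 h2).symm

end Cfsg.Agent.S3862
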