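import Cfsg.Statements.S3865
import Cfsg.Agent.H24.MaxClassDichotomy

set_option autoImplicit false
open Cfsg

namespace Cfsg.Agent.S3865

open Subgroup
open scoped commutatorElement
open Cfsg.Agent.H24

/-- Let G be a finite group whose Sylow p-subgroup P has order p ^ n with n ≥ 2 and nilpotency class n - 1 (maximal class), whose largest normal subgroup of order prime to p is trivial, and which has no proper normal subgroup of index prime to p. Then either some x ∈ P has a centralizer in G whose order has p-part p ^ 2, or G is quasisimple with centre of order at most p. -/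
theorem result {G : Type*} [Group G] [Finite G] (p : ℕ) [Fact p.Prime] (P : Sylow p G) (n : ℕ) (hP : Nat.card P = p ^ n) (hn : 2 ≤ n) (hmax : Group.nilpotencyClass ↥(P : Subgroup G) = n - 1) (hcore : Cfsg.pPrimeCore p G = ⊥) (hres : ∀ N : Subgroup G, N.Normal → (N.index).Coprime p → N = ⊤) : (∃ x ∈ (P : Subgroup G), (Nat.card (Subgroup.centralizer ({x} : Set G))).factorization p = 2) ∨ (Cfsg.IsQuasisimple G ∧ Nat.card (Subgroup.center G) ≤ p) := by
  have hp : p.Prime := Fact.out
  rcases Nat.lt_or_ge n 3 with h3 | h3
  · refine .inl ⟨1, one_mem _, ?_⟩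
    obtain rfl : n = 2 := by omega
    have hc : centralizer ({(1 : G)} : Set G) = ⊤ :=
      eq_top_iff.mpr fun g _ => mem_centralizer_singleton_iff.mpr (by simp)
    rw [hc, card_top, ← Subgroup.card_mul_index (P : Subgroup G), hP,
      Nat.factorization_mul (pow_ne_zero _ hp.ne_zero) Subgroup.FiniteIndex.index_ne_zero,
      hp.factorization_pow, Finsupp.add_apply, Finsupp.single_eq_same,
      Nat.factorization_eq_zero_of_not_dvd P.not_dvd_index]
  by_cases hex : ∃ x ∈ (P : Subgroup G), (Nat.card (Subgroup.centralizer ({x} : Set G))).factorization p = 2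
  · exact .inl hex
  push Not at hex
  have S : MaxSetting ↥(P : Subgroup G) p n := ⟨P.isPGroup', hP, h3, fun hbot => by
    have := P.isPGroup'.isNilpotent
    have := Subgroup.lowerCentralSeries_eq_bot_iff_nilpotencyClass_le.mp hbot
    omega⟩
  exact .inr (S.dichotomy P hcore hres hex)

end Cfsg.Agent.S3865
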