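import Cfsg.Statements.S3867
-- import your own Cfsg.Agent.* helpers here
import Cfsg.Agent.H85.SylowCount

set_option autoImplicit false
open Cfsg

namespace Cfsg.Agent.S3867

/-- Let M and N be nontrivial normal subgroups of the finite group G with M ⊓ N trivial, and let p be a prime. Writing n(X) for the number of Sylow p-subgroups of a group X, one has n(G) · n(G/MN) = n(G/M) · n(G/N). -/
theorem result {G : Type*} [Group G] [Finite G] (p : ℕ) [Fact p.Prime] (M N : Subgroup G) [M.Normal] [N.Normal] (hM : M ≠ ⊥) (hN : N ≠ ⊥) (hMN : M ⊓ N = ⊥) : Nat.card (Sylow p G) * Nat.card (Sylow p (G ⧸ (M ⊔ N))) = Nat.card (Sylow p (G ⧸ M)) * Nat.card (Sylow p (G ⧸ N)) := by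
  exact Cfsg.Agent.H85.card_sylow_mul M N hMN

end Cfsg.Agent.S3867
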