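import Cfsg.Statements.S3878
import Cfsg.Agent.H85.HallSymmetric

set_option autoImplicit false
open Cfsg

namespace Cfsg.Agent.S3878

/-- For a set of primes π the following are equivalent: every finite group has a Hall π-subgroup; in every finite group the maximal π-subgroups are pairwise conjugate; π contains at most one prime or contains every prime. -/
theorem result (π : Set ℕ) :
    ((∀ (G : Type) [Group G] [Finite G], Cfsg.IsEPiGroup π G) ↔
      ((∀ p q : ℕ, p.Prime → q.Prime → p ∈ π → q ∈ π → p = q) ∨ ∀ p : ℕ, p.Prime → p ∈ π)) ∧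
    ((∀ (G : Type) [Group G] [Finite G], Cfsg.IsDPiGroup π G) ↔
      ((∀ p q : ℕ, p.Prime → q.Prime → p ∈ π → q ∈ π → p = q) ∨ ∀ p : ℕ, p.Prime → p ∈ π)) := by
  classical
  have hneg : ¬ ((∀ p q : ℕ, p.Prime → q.Prime → p ∈ π → q ∈ π → p = q) ∨
      ∀ p : ℕ, p.Prime → p ∈ π) →
      ∃ n : ℕ, ∀ H : Subgroup (Equiv.Perm (Fin n)), ¬ Cfsg.IsPiHall π H := by
    intro h
    push Not at h
    obtain ⟨⟨p, q, hp, hq, hpπ, hqπ, hpq⟩, r, hr, hrπ⟩ := h
    by_cases h2 : 2 ∈ π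
    · by_cases h3 : 3 ∈ π
      · exact Cfsg.Agent.H85.no_hall_of_two_three_mem h2 h3 ⟨r, hr, hrπ⟩
      · by_cases hp2 : p = 2
        · exact ⟨q, Cfsg.Agent.H85.no_hall_of_three_not_mem h2 h3 hq hqπ (hp2 ▸ hpq.symm)⟩
        · exact ⟨p, Cfsg.Agent.H85.no_hall_of_three_not_mem h2 h3 hp hpπ hp2⟩
    · rcases lt_or_gt_of_ne hpq with hlt | hlt
      · exact ⟨q, Cfsg.Agent.H85.no_hall_of_two_not_mem h2 hp hq hpπ hqπ hlt⟩
      · exact ⟨p, Cfsg.Agent.H85.no_hall_of_two_not_mem h2 hq hp hqπ hpπ hlt⟩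
  have hpos : ((∀ p q : ℕ, p.Prime → q.Prime → p ∈ π → q ∈ π → p = q) ∨
      ∀ p : ℕ, p.Prime → p ∈ π) → ∀ (G : Type) [Group G] [Finite G], Cfsg.IsDPiGroup π G := by
    intro h G _ _ H K hH hK
    rcases h with h | h
    · by_cases hex : ∃ p, p.Prime ∧ p ∈ π
      · obtain ⟨p, hp, hpπ⟩ := hex
        haveI : Fact p.Prime := ⟨hp⟩
        have key : ∀ L : Subgroup G, Maximal (Cfsg.IsPiSubgroup π) L →
            ∃ P : Sylow p G, (P : Subgroup G) = L := by
          intro L hL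
          have hLp : IsPGroup p L := IsPGroup.of_card
            (Nat.eq_prime_pow_of_unique_prime_dvd Nat.card_pos.ne'
              (fun {d} hd hdd => h d p hd hp (hL.1 d hd hdd) hpπ))
          obtain ⟨P, hP⟩ := hLp.exists_le_sylow
          refine ⟨P, le_antisymm (hL.2 (fun q hq hqd => ?_) hP) hP⟩
          obtain ⟨k, hk⟩ := IsPGroup.iff_card.1 P.isPGroup'
          rw [hk] at hqd
          rwa [(Nat.prime_dvd_prime_iff_eq hq hp).1 (hq.dvd_of_dvd_pow hqd)]
        obtain ⟨P, hP⟩ := key H hH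
        obtain ⟨Q, hQ⟩ := key K hK
        obtain ⟨g, hg⟩ := MulAction.exists_smul_eq G P Q
        exact ⟨g, by rw [← hP, ← hQ, ← hg]; rfl⟩
      · push Not at hex
        have key : ∀ L : Subgroup G, Cfsg.IsPiSubgroup π L → L = ⊥ := fun L hL => by
          apply Subgroup.eq_bot_of_card_eq
          exact Nat.eq_one_iff_not_exists_prime_dvd.2 fun q hq hqd => hex q hq (hL q hq hqd)
        exact ⟨1, by rw [key H hH.1, key K hK.1, Subgroup.map_bot]⟩
    · have key : ∀ L : Subgroup G, Maximal (Cfsg.IsPiSubgroup π) L → L = ⊤ := fun L hL =>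
        top_le_iff.1 (hL.2 (fun q hq _ => h q hq) le_top)
      refine ⟨1, ?_⟩
      rw [key H hH, key K hK]
      exact (Subgroup.map_top_of_surjective _ (MulAut.conj 1).surjective).symm
  refine ⟨⟨fun hE => ?_, fun h G _ _ => Cfsg.Agent.H85.isEPiGroup_of_isDPiGroup (hpos h G)⟩,
    ⟨fun hD => ?_, fun h G _ _ => hpos h G⟩⟩
  · by_contra hc
    obtain ⟨n, hn⟩ := hneg hc
    obtain ⟨H, hH⟩ := hE (Equiv.Perm (Fin n))
    exact hn H hH
  · by_contra hc
    obtain ⟨n, hn⟩ := hneg hc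
    obtain ⟨H, hH⟩ := Cfsg.Agent.H85.isEPiGroup_of_isDPiGroup (hD (Equiv.Perm (Fin n)))
    exact hn H hH

end Cfsg.Agent.S3878
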