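import Cfsg.Statements.S3880
import Cfsg.Agent.H85.MetacyclicFacts

set_option autoImplicit false
open Cfsg

namespace Cfsg.Agent.S3880

/-- Let p be an odd prime and G a finite metacyclic p-group (G has a cyclic normal subgroup with cyclic quotient). Then a subgroup L of G is abelian if and only if |L| ≤ |G : G'|, and L is a maximal abelian subgroup of G if and only if |L| = |G : G'|. -/
theorem result {G : Type*} [Group G] [Finite G] {p : ℕ} [Fact p.Prime] (hp : p ≠ 2) (hG : IsPGroup p G) (hmc : Cfsg.IsMetacyclic G) (L : Subgroup G) :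
    (IsMulCommutative ↥L ↔ Nat.card ↥L ≤ (commutator G).index) ∧
      (Maximal (fun K : Subgroup G => IsMulCommutative ↥K) L ↔ Nat.card ↥L = (commutator G).index) := by
  obtain ⟨r, t, n, ⟨d⟩⟩ := Cfsg.Agent.H85.exists_metaData hp hG hmc
  have hp1 := (Fact.out : p.Prime).one_lt
  have hn := d.nr
  have hab : ∀ K : Subgroup G,
      IsMulCommutative ↥K ↔ Nat.card ↥K ≤ (commutator G).index := by
    intro K
    obtain ⟨α, β, hK⟩ := d.exists_params K
    rw [d.commute_gen hK, d.card_eq hK, d.index_commutator, Nat.pow_le_pow_iff_right hp1]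
    have := hK.2.2.1
    have := hK.2.2.2
    omega
  refine ⟨hab L, ⟨fun hmax => ?_, fun heq => ⟨(hab L).2 heq.le, fun K hK hLK => ?_⟩⟩⟩
  · obtain ⟨α, β, hL⟩ := d.exists_params L
    have hα := hL.2.2.1
    have hβt := hL.2.2.2
    have hn' := (d.commute_gen hL).1 hmax.1
    suffices h : α + β = n by
      rw [d.card_eq hL, d.index_commutator]
      congr 1
      omega
    by_contra hne
    -- a maximal abelian subgroup contains the centre
    have hcomm : ∀ S : Set G, (∀ x ∈ S, ∀ y ∈ S, x * y = y * x) →
        IsMulCommutative ↥(Subgroup.closure S) := fun S hS => Subgroup.isMulCommutative_closure hS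
    have hZ : Subgroup.center G ≤ L := by
      intro z hz
      have h1 := hcomm (insert z (L : Set G)) (by
        rintro x (rfl | hx) y (rfl | hy)
        · rfl
        · exact (Subgroup.mem_center_iff.1 hz y).symm
        · exact Subgroup.mem_center_iff.1 hz x
        · exact congrArg Subtype.val (hmax.1.is_comm.comm ⟨x, hx⟩ ⟨y, hy⟩))
      exact hmax.2 h1 (fun x hx => Subgroup.subset_closure (Set.mem_insert_of_mem _ hx))
        (Subgroup.subset_closure (Set.mem_insert z _))
    obtain ⟨-, hβn⟩ := d.params_le hL hZ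
    have hα1 : α ≠ 0 := by omega
    set z := d.a ^ ((p : ℤ) ^ (α - 1)) with hz
    have hzc : ∀ y ∈ L, z * y = y * z := by
      intro y hy
      obtain ⟨i, j, rfl⟩ := d.repr y
      refine ((d.commute_a_iff i j _).2 ?_).eq
      have hj : p ^ β ∣ j := (hL.2.1 j).1 ⟨i, hy⟩
      refine (pow_dvd_pow _ (by omega : n ≤ (α - 1) + β)).trans ?_
      rw [pow_add]
      exact mul_dvd_mul_left _ (by exact_mod_cast hj)
    have h1 := hcomm (insert z (L : Set G)) (by
        rintro x (rfl | hx) y (rfl | hy)
        · rfl
        · exact hzc y hy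
        · exact (hzc x hx).symm
        · exact congrArg Subtype.val (hmax.1.is_comm.comm ⟨x, hx⟩ ⟨y, hy⟩))
    have h2 := hmax.2 h1 (fun x hx => Subgroup.subset_closure (Set.mem_insert_of_mem _ hx))
      (Subgroup.subset_closure (Set.mem_insert z _))
    have h3 := (hL.1 _).1 h2
    rw [← Int.natCast_pow, ← Int.natCast_pow, Int.natCast_dvd_natCast,
      Nat.pow_dvd_pow_iff_le_right hp1] at h3
    omega
  · exact (Subgroup.eq_of_le_of_card_ge hLK (heq.symm ▸ (hab K).1 hK)).ge

end Cfsg.Agent.S3880
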