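import Cfsg.Statements.S3881
import Cfsg.Agent.H85.MetacyclicFacts

set_option autoImplicit false
open Cfsg

namespace Cfsg.Agent.S3881

/-- Let p be an odd prime and G a finite metacyclic p-group (G has a cyclic normal subgroup with cyclic quotient). Suppose G is non-abelian with |G'| = p^n. Then for 1 ≤ i ≤ n the number of elements of G whose conjugacy class has exactly p^i elements is |Z(G)| · (p^(2i) − p^(2i−2)). -/
theorem result {G : Type*} [Group G] [Finite G] {p : ℕ} [Fact p.Prime] (hp : p ≠ 2) (hG : IsPGroup p G) (hmc : Cfsg.IsMetacyclic G) (n : ℕ) (hn : n ≠ 0) (hGn : Nat.card ↥(commutator G) = p ^ n) (i : ℕ) (hi : 1 ≤ i) (hin : i ≤ n) :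
    Nat.card {g : G // (Subgroup.centralizer ({g} : Set G)).index = p ^ i} =
      Nat.card ↥(Subgroup.center G) * (p ^ (2 * i) - p ^ (2 * i - 2)) := by
  obtain ⟨r, t, m, ⟨d⟩⟩ := Cfsg.Agent.H85.exists_metaData hp hG hmc
  obtain rfl : m = n := Nat.pow_right_injective (Fact.out : p.Prime).two_le
    (d.card_commutator.symm.trans hGn)
  have hp1 := (Fact.out : p.Prime).one_lt
  have hr := d.nr
  have ht := d.nt
  have hcount : ∀ k ≤ m, Nat.card {g : G // (Subgroup.centralizer ({g} : Set G)).index ≤ p ^ k}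
      = Nat.card ↥(Subgroup.center G) * p ^ (2 * k) := by
    intro k hk
    obtain ⟨S, hS, hSiff⟩ := d.exists_Nsub (Nat.sub_le m k)
    rw [Nat.card_congr (Equiv.subtypeEquivRight (q := fun g => g ∈ S) fun g => by
      rw [d.mem_iff_index_le hSiff (Nat.sub_le m k), Nat.sub_sub_self hk]),
      d.card_eq hS, d.card_center, ← pow_add]
    congr 1
    omega
  have key : Nat.card {g : G // (Subgroup.centralizer ({g} : Set G)).index = p ^ i}
      + Nat.card {g : G // (Subgroup.centralizer ({g} : Set G)).index ≤ p ^ (i - 1)}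
      = Nat.card {g : G // (Subgroup.centralizer ({g} : Set G)).index ≤ p ^ i} := by
    classical
    rw [← Nat.card_sum]
    refine Nat.card_congr ((subtypeOrEquiv _ _ ?_).symm.trans (Equiv.subtypeEquivRight fun g => ?_))
    · rw [Pi.disjoint_iff]
      intro g
      simp only [disjoint_iff, inf_Prop_eq, Prop.bot_eq_false]
      refine eq_false fun ⟨h1, h2⟩ => ?_
      rw [h1, Nat.pow_le_pow_iff_right hp1] at h2
      omega
    · obtain ⟨x, y, rfl⟩ := d.repr g
      obtain ⟨e, he, h1, h2, h3⟩ := d.exists_level x y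
      rw [d.classSize he h1 h2 h3, Nat.pow_right_inj (Fact.out : p.Prime).two_le,
        Nat.pow_le_pow_iff_right hp1, Nat.pow_le_pow_iff_right hp1]
      omega
  rw [hcount i hin, hcount (i - 1) (by omega)] at key
  rw [Nat.mul_sub, show 2 * i - 2 = 2 * (i - 1) by omega]
  omega

end Cfsg.Agent.S3881
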