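import Cfsg.Statements.S3883
import Cfsg.Agent.H85.MetacyclicFacts

set_option autoImplicit false
open Cfsg

namespace Cfsg.Agent.S3883

/-- Let p be an odd prime and G a finite metacyclic p-group (G has a cyclic normal subgroup with cyclic quotient). Suppose G is non-abelian. Then an element g of G lies outside the Frattini subgroup if and only if its centralizer C_G(g) is abelian. -/
theorem result {G : Type*} [Group G] [Finite G] {p : ℕ} [Fact p.Prime] (hp : p ≠ 2) (hG : IsPGroup p G) (hmc : Cfsg.IsMetacyclic G) (hna : ¬ IsMulCommutative G) (g : G) :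
    g ∉ frattini G ↔ IsMulCommutative ↥(Subgroup.centralizer ({g} : Set G)) := by
  obtain ⟨r, t, n, ⟨d⟩⟩ := Cfsg.Agent.H85.exists_metaData hp hG hmc
  have hp1 := (Fact.out : p.Prime).one_lt
  have hn : 1 ≤ n := by
    by_contra h0
    exact hna (by
      have h1 := (d.commute_gen d.params_top).2 (by omega)
      exact ⟨⟨fun a b => congrArg Subtype.val
        (h1.is_comm.comm (⟨a, trivial⟩ : (⊤ : Subgroup G)) ⟨b, trivial⟩)⟩⟩)
  have hr := d.nr
  have ht := d.nt
  obtain ⟨S, hS, hSiff⟩ := d.exists_Nsub hn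
  -- the centralizer is abelian iff the class is as large as possible
  have hC : IsMulCommutative ↥(Subgroup.centralizer ({g} : Set G)) ↔ g ∉ S := by
    obtain ⟨α, β, hL⟩ := d.exists_params (Subgroup.centralizer ({g} : Set G))
    rw [d.commute_gen hL, d.mem_iff_index_le hSiff hn, d.index_eq hL,
      Nat.pow_le_pow_iff_right hp1]
    omega
  rw [hC]
  suffices hfr : frattini G = S by rw [hfr]
  refine le_antisymm ?_ ?_
  · -- two subgroups of index `p`
    have hcl : ∀ (i k : ℤ) (j l : ℕ), d.a ^ i * d.b ^ j * (d.a ^ k * d.b ^ l)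
        = d.a ^ (i + d.u ^ j * k) * d.b ^ (j + l) := fun i k j l => d.mul_rule i k j l
    have hmax : ∀ M : Subgroup G, M.index = p → IsCoatom M := by
      intro M hM
      refine ⟨fun h => by rw [h, Subgroup.index_top] at hM; omega, fun K hK => ?_⟩
      by_contra hKt
      have h1 := Subgroup.relIndex_mul_index hK.le
      rw [hM] at h1
      rcases (Nat.dvd_prime (Fact.out : p.Prime)).1 (h1 ▸ dvd_mul_left _ _ : K.index ∣ p) with h | h
      · exact hKt (Subgroup.index_eq_one.1 h)
      · rw [h] at h1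
        exact hK.not_ge (Subgroup.relIndex_eq_one.1 (by
          exact Nat.eq_of_mul_eq_mul_right (Fact.out : p.Prime).pos (by rw [h1, one_mul])))
    intro x hx
    let M₁ : Subgroup G := S ⊔ Subgroup.zpowers d.a
    let M₂ : Subgroup G := S ⊔ Subgroup.zpowers d.b
    have hbound : ∀ M : Subgroup G, S ≤ M → ∀ y ∈ M, y ∉ S → M ≠ ⊤ → M.index = p := by
      intro M hSM y hy hyS hMt
      have h2 := Subgroup.relIndex_mul_index hSM
      rw [d.index_eq hS] at h2
      obtain ⟨k, hk, hk'⟩ := (Nat.dvd_prime_pow (Fact.out : p.Prime)).1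
        (h2 ▸ dvd_mul_left _ _ : M.index ∣ p ^ (1 + 1))
      interval_cases k
      · exact absurd (Subgroup.index_eq_one.1 (by rw [hk', pow_zero])) hMt
      · rw [hk', pow_one]
      · exfalso
        rw [hk'] at h2
        exact hyS (Subgroup.relIndex_eq_one.1 (Nat.eq_of_mul_eq_mul_right
          (pow_pos (Fact.out : p.Prime).pos 2) (by rw [h2, one_mul])) hy)
    have haS : d.a ∉ S := fun h => by
      have := ((hSiff 1 0).1 (by simpa using h)).1
      rw [pow_one] at this
      exact absurd (Int.le_of_dvd one_pos this) (by omega)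
    have hbS : d.b ∉ S := fun h => by
      have := ((hSiff 0 1).1 (by simpa using h)).2
      rw [pow_one] at this
      exact absurd (Nat.le_of_dvd one_pos this) (by omega)
    have hSn : S.Normal := by
      refine ⟨fun y hy w => ?_⟩
      rw [d.mem_iff_index_le hSiff hn] at hy ⊢
      refine le_of_eq_of_le ?_ hy
      have hc : Subgroup.centralizer ({w * y * w⁻¹} : Set G)
          = (Subgroup.centralizer ({y} : Set G)).map (MulAut.conj w).toMonoidHom := by
        ext v
        rw [Subgroup.mem_map_equiv, Subgroup.mem_centralizer_singleton_iff,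
          Subgroup.mem_centralizer_singleton_iff, MulAut.conj_symm_apply]
        constructor <;> intro he
        · calc w⁻¹ * v * w * y = w⁻¹ * (v * (w * y * w⁻¹)) * w := by group
            _ = w⁻¹ * (w * y * w⁻¹ * v) * w := by rw [he]
            _ = y * (w⁻¹ * v * w) := by group
        · calc v * (w * y * w⁻¹) = w * (w⁻¹ * v * w * y) * w⁻¹ := by group
            _ = w * (y * (w⁻¹ * v * w)) * w⁻¹ := by rw [he]
            _ = w * y * w⁻¹ * v := by group
      rw [hc]
      exact Subgroup.index_map_equiv _ (MulAut.conj w)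
    -- coordinates in `M₁` and `M₂`
    have hd1 : ∀ y ∈ M₁, ∀ (i : ℤ) (j : ℕ), d.a ^ i * d.b ^ j = y → p ∣ j := by
      intro y hy i j hij
      rw [Subgroup.mem_sup_of_normal_left (hs := hSn)] at hy
      obtain ⟨s, hs, z, hz, rfl⟩ := hy
      obtain ⟨k, rfl⟩ := Subgroup.mem_zpowers_iff.1 hz
      have h1 : d.a ^ i * d.b ^ j * (d.a ^ (-k) * d.b ^ 0) ∈ S := by
        rw [hij, pow_zero, mul_one, mul_assoc, ← zpow_add, add_neg_cancel, zpow_zero, mul_one]
        exact hs
      rw [hcl, hSiff, pow_one, pow_one, add_zero] at h1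
      exact h1.2
    have hd2 : ∀ y ∈ M₂, ∀ (i : ℤ) (j : ℕ), d.a ^ i * d.b ^ j = y → (p : ℤ) ∣ i := by
      intro y hy i j hij
      rw [Subgroup.mem_sup_of_normal_left (hs := hSn)] at hy
      obtain ⟨s, hs, z, hz, rfl⟩ := hy
      obtain ⟨k, rfl⟩ := (isOfFinOrder_of_finite d.b).mem_powers_iff_mem_zpowers.2 hz
      obtain ⟨k', hk'⟩ : ∃ k' : ℕ, d.b ^ k' = (d.b ^ k)⁻¹ := by
        obtain ⟨k', hk'⟩ := (isOfFinOrder_of_finite d.b).mem_powers_iff_mem_zpowers.2
          (Subgroup.inv_mem _ (Subgroup.npow_mem_zpowers d.b k))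
        exact ⟨k', hk'⟩
      have h1 : d.a ^ i * d.b ^ j * (d.a ^ (0 : ℤ) * d.b ^ k') ∈ S := by
        rw [hij, zpow_zero, one_mul, hk']
        show s * d.b ^ k * (d.b ^ k)⁻¹ ∈ S
        rw [mul_inv_cancel_right]
        exact hs
      rw [hcl, hSiff, mul_zero, add_zero, pow_one, pow_one] at h1
      exact h1.1
    have hM1 : M₁ ≠ ⊤ := fun h => by
      have := hd1 d.b (h ▸ Subgroup.mem_top _) 0 1 (by simp)
      exact absurd (Nat.le_of_dvd one_pos this) (by omega)
    have hM2 : M₂ ≠ ⊤ := fun h => by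
      have := hd2 d.a (h ▸ Subgroup.mem_top _) 1 0 (by simp)
      exact absurd (Int.le_of_dvd one_pos this) (by omega)
    have h1 := frattini_le_coatom (hmax _ (hbound M₁ le_sup_left d.a
      (Subgroup.mem_sup_right (Subgroup.mem_zpowers _)) haS hM1)) hx
    have h2 := frattini_le_coatom (hmax _ (hbound M₂ le_sup_left d.b
      (Subgroup.mem_sup_right (Subgroup.mem_zpowers _)) hbS hM2)) hx
    obtain ⟨i, j, rfl⟩ := d.repr x
    rw [hSiff, pow_one, pow_one]
    exact ⟨hd2 _ h2 i j rfl, hd1 _ h1 i j rfl⟩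
  · rw [← d.closure_powers_eq hSiff]
    haveI := hG.isNilpotent
    refine le_iInf₂ fun M hM => (Subgroup.closure_le _).2 ?_
    rintro _ ⟨y, rfl⟩
    haveI : M.Normal := Subgroup.NormalizerCondition.normal_of_coatom M
      Group.normalizerCondition_of_isNilpotent hM
    have hidx : M.index = p := by
      obtain ⟨k, hk⟩ := hG.index M
      rcases Nat.eq_zero_or_pos k with rfl | hk0
      · exact absurd (Subgroup.index_eq_one.1 (by rw [hk, pow_zero])) hM.1
      obtain ⟨z, hz⟩ := exists_prime_orderOf_dvd_card' (G := G ⧸ M) p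
        (by rw [← Subgroup.index_eq_card, hk]; exact dvd_pow_self p hk0.ne')
      obtain ⟨v, rfl⟩ := QuotientGroup.mk_surjective z
      have hlt : M < (Subgroup.zpowers (v : G ⧸ M)).comap (QuotientGroup.mk' M) := by
        refine lt_of_le_of_ne (fun w hw => ?_) fun he => ?_
        · show (w : G ⧸ M) ∈ Subgroup.zpowers _
          rw [(QuotientGroup.eq_one_iff w).2 hw]; exact Subgroup.one_mem _
        · have : v ∈ M := by rw [he]; exact Subgroup.mem_zpowers _
          rw [(QuotientGroup.eq_one_iff v).2 this, orderOf_one] at hz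
          omega
      have htop := hM.2 _ hlt
      rw [Subgroup.index_eq_card, ← hz, ← Nat.card_zpowers]
      refine (Nat.card_congr ((Equiv.subtypeUnivEquiv fun w => ?_))).symm
      obtain ⟨w', rfl⟩ := QuotientGroup.mk_surjective w
      exact (htop.symm ▸ Subgroup.mem_top w' :
        w' ∈ (Subgroup.zpowers (v : G ⧸ M)).comap (QuotientGroup.mk' M))
    have := Subgroup.pow_index_mem M y
    rw [hidx] at this
    show y ^ p ^ 1 ∈ M
    rwa [pow_one]

end Cfsg.Agent.S3883
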