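import Cfsg.Statements.S3885
import Cfsg.Agent.H85.MetacyclicFacts

set_option autoImplicit false
open Cfsg

namespace Cfsg.Agent.S3885

/-- Let p be an odd prime and G a finite metacyclic p-group (G has a cyclic normal subgroup with cyclic quotient). Then every abelian subgroup K of G containing the center of G is the center of its own centralizer: K = Z(C_G(K)). -/
theorem result {G : Type*} [Group G] [Finite G] {p : ℕ} [Fact p.Prime] (hp : p ≠ 2) (hG : IsPGroup p G) (hmc : Cfsg.IsMetacyclic G) (K : Subgroup G) (hK : IsMulCommutative ↥K) (hZ : Subgroup.center G ≤ K) :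
    K = Subgroup.centralizer (K : Set G) ⊓ Subgroup.centralizer (Subgroup.centralizer (K : Set G) : Set G) := by
  obtain ⟨r, t, n, ⟨d⟩⟩ := Cfsg.Agent.H85.exists_metaData hp hG hmc
  have h1 : K ≤ Subgroup.centralizer (K : Set G) := fun x hx y hy =>
    congrArg Subtype.val (hK.is_comm.comm ⟨y, hy⟩ ⟨x, hx⟩)
  have h2 : K ≤ Subgroup.centralizer (Subgroup.centralizer (K : Set G) : Set G) :=
    fun x hx y hy => (hy x hx).symm
  obtain ⟨α, β, hL⟩ := d.exists_params K
  obtain ⟨hα, hβ⟩ := d.params_le hL hZ
  have hC := d.params_centralizer hL hZ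
  have hCC := d.params_centralizer hC (hZ.trans h1)
  rw [Nat.sub_sub_self hα, Nat.sub_sub_self hβ] at hCC
  have heq := Subgroup.eq_of_le_of_card_ge h2 (by rw [d.card_eq hCC, d.card_eq hL])
  rw [← heq]
  exact (inf_eq_right.2 h1).symm

end Cfsg.Agent.S3885
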