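import Cfsg.Statements.S3886
import Cfsg.Agent.H85.MetacyclicFacts
import Cfsg.Agent.S3880

set_option autoImplicit false
open Cfsg

namespace Cfsg.Agent.S3886

/-- Let p be an odd prime and G a finite metacyclic p-group (G has a cyclic normal subgroup with cyclic quotient). Then the largest value of |R| · |Z(R)| over subgroups R of G is |G : G'|², and the subgroups attaining it (the centrally large subgroups) are exactly the non-abelian subgroups together with the maximal abelian subgroups of G. -/
theorem result {G : Type*} [Group G] [Finite G] {p : ℕ} [Fact p.Prime] (hp : p ≠ 2) (hG : IsPGroup p G) (hmc : Cfsg.IsMetacyclic G) : Cfsg.maxCentralProduct G = (commutator G).index ^ 2 ∧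
    ∀ R : Subgroup G, Cfsg.IsCentrallyLarge R ↔ (¬ IsMulCommutative ↥R ∨ Maximal (fun K : Subgroup G => IsMulCommutative ↥K) R) := by
  obtain ⟨r, t, n, ⟨d⟩⟩ := Cfsg.Agent.H85.exists_metaData hp hG hmc
  have hp1 := (Fact.out : p.Prime).one_lt
  have hnr := d.nr
  have hnt := d.nt
  have hI : (commutator G).index ^ 2 = p ^ (2 * (r + t - n)) := by
    rw [d.index_commutator, ← pow_mul, mul_comm]
  -- the product for a subgroup
  have hval : ∀ R : Subgroup G, ∀ α β : ℕ, d.Params R α β →
      (IsMulCommutative ↥R → Nat.card ↥R * Nat.card ↥(Subgroup.center ↥R) = Nat.card ↥R ^ 2) ∧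
      (¬ IsMulCommutative ↥R →
        Nat.card ↥R * Nat.card ↥(Subgroup.center ↥R) = p ^ (2 * (r + t - n))) := by
    intro R α β hR
    refine ⟨fun h => ?_, fun h => ?_⟩
    · haveI := h
      rw [sq, show Subgroup.center ↥R = ⊤ from eq_top_iff.2 fun x _ =>
        Subgroup.mem_center_iff.2 fun y => h.is_comm.comm y x, Subgroup.card_top]
    · have hlt : α + β < n := by
        rw [d.commute_gen hR] at h
        omega
      have hZR : Nat.card ↥(Subgroup.center ↥R)
          = Nat.card ↥(R ⊓ Subgroup.centralizer (R : Set G)) :=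
        Nat.card_congr ⟨fun x => ⟨((x : ↥R) : G), (x : ↥R).2, fun y hy =>
            congrArg Subtype.val (Subgroup.mem_center_iff.1 x.2 ⟨y, hy⟩)⟩,
          fun x => ⟨⟨(x : G), x.2.1⟩, Subgroup.mem_center_iff.2 fun y =>
            Subtype.ext (x.2.2 (y : G) y.2)⟩,
          fun x => rfl, fun x => rfl⟩
      rw [hZR, d.card_eq hR, d.card_eq (d.params_inf_centralizer hR hlt.le), ← pow_add]
      congr 1
      have := hR.2.2.1
      have := hR.2.2.2
      omega
  have hmax : Cfsg.maxCentralProduct G = p ^ (2 * (r + t - n)) := by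
    refine IsGreatest.csSup_eq ⟨?_, ?_⟩
    · refine ⟨⊤, ?_⟩
      by_cases h : IsMulCommutative ↥(⊤ : Subgroup G)
      · rw [((hval ⊤ 0 0 d.params_top).1 h), d.card_eq d.params_top, ← pow_mul]
        have := (d.commute_gen d.params_top).1 h
        congr 1
        omega
      · exact (hval ⊤ 0 0 d.params_top).2 h
    · rintro k ⟨R, rfl⟩
      obtain ⟨α, β, hR⟩ := d.exists_params R
      by_cases h : IsMulCommutative ↥R
      · rw [(hval R α β hR).1 h, d.card_eq hR, ← pow_mul]
        have := (d.commute_gen hR).1 h
        have := hR.2.2.1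
        have := hR.2.2.2
        exact Nat.pow_le_pow_right (by omega) (by omega)
      · rw [(hval R α β hR).2 h]
  refine ⟨by rw [hmax, hI], fun R => ?_⟩
  obtain ⟨α, β, hR⟩ := d.exists_params R
  unfold Cfsg.IsCentrallyLarge
  rw [hmax]
  by_cases h : IsMulCommutative ↥R
  · simp only [h, not_true_eq_false, false_or]
    rw [(hval R α β hR).1 h, (Cfsg.Agent.S3880.result hp hG hmc R).2, d.index_commutator,
      mul_comm 2, pow_mul]
    exact (Nat.pow_left_injective two_ne_zero).eq_iff
  · simp only [h, not_false_eq_true, true_or, iff_true]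
    exact (hval R α β hR).2 h

end Cfsg.Agent.S3886
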