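import Cfsg.Statements.S3887
import Cfsg.Agent.H85.MetacyclicFacts

set_option autoImplicit false
open Cfsg

namespace Cfsg.Agent.S3887

/-- Let p be an odd prime and G a finite metacyclic p-group (G has a cyclic normal subgroup with cyclic quotient). Then a subgroup R of G maximizes |R| · |C_G(R)| over all subgroups of G if and only if R contains the center of G. -/
theorem result {G : Type*} [Group G] [Finite G] {p : ℕ} [Fact p.Prime] (hp : p ≠ 2) (hG : IsPGroup p G) (hmc : Cfsg.IsMetacyclic G) (R : Subgroup G) : Cfsg.IsCentralizerLarge R ↔ Subgroup.center G ≤ R := by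
  obtain ⟨r, t, n, ⟨d⟩⟩ := Cfsg.Agent.H85.exists_metaData hp hG hmc
  have hp1 := (Fact.out : p.Prime).one_lt
  have hnr := d.nr
  have hnt := d.nt
  set M := p ^ (r + t) * p ^ ((r - n) + (t - n)) with hM
  -- the product for a subgroup containing the centre
  have hval : ∀ L : Subgroup G, Subgroup.center G ≤ L →
      Nat.card ↥L * Nat.card ↥(Subgroup.centralizer (L : Set G)) = M := by
    intro L hL
    obtain ⟨α, β, hP⟩ := d.exists_params L
    obtain ⟨hα, hβ⟩ := d.params_le hP hL
    rw [d.card_eq hP, d.card_eq (d.params_centralizer hP hL), hM, ← pow_add, ← pow_add]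
    congr 1
    omega
  have hsup : ∀ L : Subgroup G,
      Subgroup.centralizer ((L ⊔ Subgroup.center G : Subgroup G) : Set G)
        = Subgroup.centralizer (L : Set G) := by
    intro L
    refine le_antisymm (Subgroup.centralizer_le (SetLike.coe_subset_coe.2 le_sup_left)) fun x hx => ?_
    have h : L ⊔ Subgroup.center G ≤ Subgroup.centralizer ({x} : Set G) :=
      sup_le (fun y hy => Subgroup.mem_centralizer_singleton_iff.2 (hx y hy))
        (fun y hy => Subgroup.mem_centralizer_singleton_iff.2 (Subgroup.mem_center_iff.1 hy x).symm)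
    exact fun y hy => Subgroup.mem_centralizer_singleton_iff.1 (h hy)
  have hle : ∀ L : Subgroup G,
      Nat.card ↥L * Nat.card ↥(Subgroup.centralizer (L : Set G)) ≤ M := fun L => by
    rw [← hval (L ⊔ Subgroup.center G) le_sup_right, hsup]
    exact Nat.mul_le_mul_right _ (Nat.le_of_dvd Nat.card_pos (Subgroup.card_dvd_of_le le_sup_left))
  have hmax : Cfsg.maxCentralizerProduct G = M :=
    IsGreatest.csSup_eq ⟨⟨⊤, hval ⊤ le_top⟩, fun k ⟨L, hL⟩ => hL ▸ hle L⟩
  unfold Cfsg.IsCentralizerLarge
  rw [hmax]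
  refine ⟨fun h => ?_, hval R⟩
  have h2 := hval (R ⊔ Subgroup.center G) le_sup_right
  rw [hsup, ← h] at h2
  have h3 : Nat.card ↥(R ⊔ Subgroup.center G : Subgroup G) = Nat.card ↥R :=
    Nat.eq_of_mul_eq_mul_right Nat.card_pos h2
  rw [Subgroup.eq_of_le_of_card_ge (le_sup_left : R ≤ R ⊔ Subgroup.center G) h3.le]
  exact le_sup_right

end Cfsg.Agent.S3887
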