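import Cfsg.Statements.S3898
-- import your own Cfsg.Agent.* helpers here
import Cfsg.Agent.H85.ClassCountPi

set_option autoImplicit false
open Cfsg

namespace Cfsg.Agent.S3898

/-- Let π be a finite set of primes containing 2 and G a finite group. Write k_π(G) for the number of conjugacy classes of G consisting of π-elements (elements all of whose order's prime divisors lie in π) and |G|_π for the π-part of the order of G. If k_π(G) > |G|_π/2, then G has a normal π-complement (a normal subgroup of order prime to π whose index is a π-number) and an abelian Hall subgroup for the set of odd primes in π. -/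
theorem result {G : Type*} [Group G] [Finite G] (π : Finset ℕ) (hπ : ∀ r ∈ π, r.Prime) (h2 : 2 ∈ π)
    (hk : π.prod (fun r => r ^ (Nat.card G).factorization r) < 2 * Nat.card {c : ConjClasses G // ∀ x ∈ c.carrier, ∀ r : ℕ, r.Prime → r ∣ orderOf x → r ∈ π}) :
    (∃ N : Subgroup G, N.Normal ∧ (∀ r : ℕ, r.Prime → r ∣ Nat.card ↥N → r ∉ π) ∧ ∀ r : ℕ, r.Prime → r ∣ N.index → r ∈ π) ∧ ∃ H : Subgroup G, Cfsg.IsPiHall ((↑π : Set ℕ) \ {2}) H ∧ IsMulCommutative ↥H := by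
  classical
  have hk' : π.prod (fun r => r ^ (Nat.card G).factorization r) < 2 * Cfsg.Agent.H85.piClassCount π G := hk
  have hq : ∀ q ∈ π, ∀ _ : Fact q.Prime, ∀ Q : Sylow q G,
      Nat.card ↥(Q : Subgroup G) < 2 * Cfsg.Agent.H85.pClassCount q G := by
    intro q hqπ _ Q
    have h1 := Cfsg.Agent.H85.piClassCount_le_mul (G := G) hπ hqπ
    have h3 := hk'
    rw [← Finset.mul_prod_erase π _ hqπ, ← Sylow.card_eq_multiplicity Q] at h3
    set M := (π.erase q).prod (fun r => r ^ (Nat.card G).factorization r)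
    refine Nat.lt_of_mul_lt_mul_right (a := M) ?_
    calc Nat.card ↥(Q : Subgroup G) * M < 2 * Cfsg.Agent.H85.piClassCount π G := h3
      _ ≤ 2 * (Cfsg.Agent.H85.pClassCount q G * M) := Nat.mul_le_mul_left _ h1
      _ = 2 * Cfsg.Agent.H85.pClassCount q G * M := by ring
  haveI : Fact (Nat.Prime 2) := ⟨Nat.prime_two⟩
  obtain ⟨⟨P, N, hN, hNP⟩, -⟩ := (Cfsg.Agent.H85.many_two_classes_iff
    (default : Sylow 2 G)).1 (hq 2 h2 ⟨Nat.prime_two⟩ _)
  have hN2 : ¬ 2 ∣ Nat.card ↥N := by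
    rw [← hNP.index_eq_card]; exact P.not_dvd_index
  have hNodd : Odd (Nat.card ↥N) := Nat.odd_iff.2 (by omega)
  obtain ⟨l, hl⟩ := IsPGroup.iff_card.1 P.2
  have hidx : N.index = 2 ^ l := hNP.symm.index_eq_card.trans hl
  have key : ∀ q ∈ π.erase 2, ∃ M : Subgroup G, M.Normal ∧ M ≤ N ∧ ¬ q ∣ Nat.card ↥M ∧
      (∃ k, M.relIndex N = q ^ k) ∧ ∀ a ∈ N, ∀ b ∈ N, a * b * a⁻¹ * b⁻¹ ∈ M := by
    intro q hqπ
    obtain ⟨hq2, hqπ⟩ := Finset.mem_erase.1 hqπ
    haveI : Fact q.Prime := ⟨hπ q hqπ⟩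
    refine Cfsg.Agent.H85.odd_prime_step N hNodd ?_ (fun Q => hq q hqπ inferInstance Q)
    rw [hidx]
    exact fun h => hq2 ((Nat.prime_dvd_prime_iff_eq (hπ q hqπ) Nat.prime_two).1
      ((hπ q hqπ).dvd_of_dvd_pow h))
  choose! Mq hMn hMle hMc hMi hMab using key
  let K : Subgroup G := N ⊓ ⨅ q ∈ π.erase 2, Mq q
  have hKmem : ∀ g : G, g ∈ K ↔ g ∈ N ∧ ∀ q ∈ π.erase 2, g ∈ Mq q := fun g => by
    simp only [K, Subgroup.mem_inf, Subgroup.mem_iInf]
  have hKN : K ≤ N := inf_le_left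
  haveI hKn : K.Normal := ⟨fun n hn g => by
    rw [hKmem] at hn ⊢
    exact ⟨hN.conj_mem n hn.1 g, fun q hq => (hMn q hq).conj_mem n (hn.2 q hq) g⟩⟩
  have hA : ∀ r : ℕ, r.Prime → r ∣ Nat.card ↥K → r ∉ π := fun r hr hrd hrπ => by
    by_cases hr2 : r = 2
    · exact hN2 (hr2 ▸ hrd.trans (Subgroup.card_dvd_of_le hKN))
    · have hre := Finset.mem_erase.2 ⟨hr2, hrπ⟩
      exact hMc r hre (hrd.trans (Subgroup.card_dvd_of_le fun g hg => ((hKmem g).1 hg).2 r hre))
  haveI : (K.subgroupOf N).Normal := Subgroup.normal_subgroupOf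
  have hB0 : ∀ r : ℕ, r.Prime → r ∣ K.relIndex N → r ∈ π ∧ r ≠ 2 := by
    intro r hr hrd
    haveI : Fact r.Prime := ⟨hr⟩
    by_contra hrπ
    change r ∣ (K.subgroupOf N).index at hrd
    rw [Subgroup.index_eq_card] at hrd
    obtain ⟨x, hx⟩ := exists_prime_orderOf_dvd_card' r hrd
    obtain ⟨g, rfl⟩ := QuotientGroup.mk_surjective x
    have hgr : (g : G) ^ r ∈ K := by
      have h1 : (g ^ r : ↥N) ∈ K.subgroupOf N := by
        rw [← QuotientGroup.eq_one_iff, QuotientGroup.mk_pow, ← hx, pow_orderOf_eq_one]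
      exact h1
    have h1 : g ∈ K.subgroupOf N := by
      show (g : G) ∈ K
      rw [hKmem]
      refine ⟨g.2, fun q hq => ?_⟩
      haveI := hMn q hq
      haveI : ((Mq q).subgroupOf N).Normal := Subgroup.normal_subgroupOf
      show g ∈ (Mq q).subgroupOf N
      rw [← QuotientGroup.eq_one_iff, ← orderOf_eq_one_iff]
      have ha : orderOf (g : ↥N ⧸ (Mq q).subgroupOf N) ∣ r := by
        apply orderOf_dvd_of_pow_eq_one
        rw [← QuotientGroup.mk_pow, QuotientGroup.eq_one_iff]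
        exact ((hKmem _).1 hgr).2 q hq
      obtain ⟨k, hk2⟩ := hMi q hq
      have hb : orderOf (g : ↥N ⧸ (Mq q).subgroupOf N) ∣ q ^ k := by
        rw [← hk2, Subgroup.relIndex, Subgroup.index_eq_card]
        exact orderOf_dvd_natCard _
      obtain ⟨hq2, hqπ⟩ := Finset.mem_erase.1 hq
      exact Nat.eq_one_of_dvd_coprimes (((Nat.coprime_primes hr (hπ q hqπ)).2
        (fun he => hrπ ⟨he ▸ hqπ, he ▸ hq2⟩)).pow_right k) ha hb
    rw [(QuotientGroup.eq_one_iff g).2 h1, orderOf_one] at hx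
    exact hr.one_lt.ne hx
  refine ⟨⟨K, hKn, hA, fun r hr hrd => ?_⟩, ?_⟩
  · rw [← Subgroup.relIndex_mul_index hKN, hidx, hr.dvd_mul] at hrd
    rcases hrd with h | h
    · exact (hB0 r hr h).1
    · exact ((Nat.prime_dvd_prime_iff_eq hr Nat.prime_two).1 (hr.dvd_of_dvd_pow h)) ▸ h2
  obtain ⟨H, hH⟩ := Subgroup.exists_right_complement'_of_coprime (N := K.subgroupOf N)
    (Nat.coprime_of_dvd fun r hr h1 h2' => hA r hr (by
      rwa [Nat.card_congr (Subgroup.subgroupOfEquivOfLe hKN).toEquiv] at h1) (hB0 r hr h2').1)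
  refine ⟨H.map N.subtype, ⟨fun r hr hrd => ?_, fun r hr hrπ hrd => ?_⟩, ⟨⟨?_⟩⟩⟩
  · rw [← Nat.card_congr (H.equivMapOfInjective _ N.subtype_injective).toEquiv,
      ← hH.symm.index_eq_card] at hrd
    obtain ⟨ha, hb⟩ := hB0 r hr hrd
    exact ⟨ha, hb⟩
  · rw [Subgroup.index_map_subtype, hidx, hH.index_eq_card,
      Nat.card_congr (Subgroup.subgroupOfEquivOfLe hKN).toEquiv, hr.dvd_mul] at hrd
    rcases hrd with h | h
    · exact hA r hr h hrπ.1
    · exact hrπ.2 ((Nat.prime_dvd_prime_iff_eq hr Nat.prime_two).1 (hr.dvd_of_dvd_pow h))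
  · rintro ⟨_, a, ha, rfl⟩ ⟨_, b, hb, rfl⟩
    have h1 : a * b * a⁻¹ * b⁻¹ ∈ K.subgroupOf N := by
      show ((a : G) * b * (a : G)⁻¹ * (b : G)⁻¹) ∈ K
      rw [hKmem]
      exact ⟨(a * b * a⁻¹ * b⁻¹).2, fun q hq => hMab q hq a a.2 b b.2⟩
    have h2' : a * b * a⁻¹ * b⁻¹ ∈ H :=
      mul_mem (mul_mem (mul_mem ha hb) (inv_mem ha)) (inv_mem hb)
    have h3 := Subgroup.disjoint_def.1 hH.disjoint h1 h2'
    rw [mul_inv_eq_one, mul_inv_eq_iff_eq_mul] at h3
    exact Subtype.ext (show (a : G) * b = b * a from congrArg Subtype.val h3)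

end Cfsg.Agent.S3898
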