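import Cfsg.Statements.S3899
import Cfsg.Agent.H85.ClassCount

set_option autoImplicit false
open Cfsg

namespace Cfsg.Agent.S3899

/-- Let π be a finite non-empty set of odd primes with smallest member p and G a finite group. Write k_π(G) for the number of conjugacy classes of G consisting of π-elements (elements all of whose order's prime divisors lie in π) and |G|_π for the π-part of the order of G. If k_π(G) > (p + 1)|G|_π/(2p), then G has a normal π-complement (a normal subgroup of order prime to π whose index is a π-number) and an abelian Hall π-subgroup. -/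
theorem result {G : Type*} [Group G] [Finite G] (π : Finset ℕ) (hπ : ∀ r ∈ π, r.Prime) (h2 : 2 ∉ π) (p : ℕ) (hp : p ∈ π)
    (hmin : ∀ r ∈ π, p ≤ r) (hk : (p + 1) * π.prod (fun r => r ^ (Nat.card G).factorization r) < 2 * p * Nat.card {c : ConjClasses G // ∀ x ∈ c.carrier, ∀ r : ℕ, r.Prime → r ∣ orderOf x → r ∈ π}) :
    (∃ N : Subgroup G, N.Normal ∧ (∀ r : ℕ, r.Prime → r ∣ Nat.card ↥N → r ∉ π) ∧ ∀ r : ℕ, r.Prime → r ∣ N.index → r ∈ π) ∧ ∃ H : Subgroup G, Cfsg.IsPiHall (↑π : Set ℕ) H ∧ IsMulCommutative ↥H := by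
  classical
  open Cfsg.Agent.H85 in
  have key : ∀ q ∈ π, ∃ N : Subgroup G, N.Normal ∧ ¬ q ∣ Nat.card N ∧ (∃ k, N.index = q ^ k) ∧
      ∀ a b : G, a * b * a⁻¹ * b⁻¹ ∈ N := by
    intro q hq
    haveI : Fact q.Prime := ⟨hπ q hq⟩
    obtain ⟨Q⟩ := (inferInstance : Nonempty (Sylow q G))
    have h1 := piClassCount_le_mul (G := G) hπ hq
    have hk' : (p + 1) * π.prod (fun r => r ^ (Nat.card G).factorization r) <
        2 * p * piClassCount π G := hk
    rw [← Finset.mul_prod_erase π _ hq, ← Sylow.card_eq_multiplicity Q] at hk'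
    set M := (π.erase q).prod (fun r => r ^ (Nat.card G).factorization r)
    have h2 : (p + 1) * Nat.card (Q : Subgroup G) < 2 * p * pClassCount q G := by
      refine Nat.lt_of_mul_lt_mul_right (a := M) ?_
      calc (p + 1) * Nat.card (Q : Subgroup G) * M
          < 2 * p * piClassCount π G := by linarith
        _ ≤ 2 * p * (pClassCount q G * M) := Nat.mul_le_mul_left _ h1
        _ = 2 * p * pClassCount q G * M := by ring
    have h3 : (q + 1) * Nat.card (Q : Subgroup G) < 2 * q * pClassCount q G := by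
      have hpq := hmin q hq
      have hp0 := (hπ p hp).two_le
      have : (q + 1) * p ≤ (p + 1) * q := by nlinarith
      refine Nat.lt_of_mul_lt_mul_left (a := p) ?_
      calc p * ((q + 1) * Nat.card (Q : Subgroup G))
          ≤ q * ((p + 1) * Nat.card (Q : Subgroup G)) := by nlinarith
        _ < q * (2 * p * pClassCount q G) :=
            Nat.mul_lt_mul_of_pos_left h2 (hπ q hq).pos
        _ = p * (2 * q * pClassCount q G) := by ring
    obtain ⟨⟨N, hN, hNQ⟩, hab⟩ := complement_of_many_classes Q h3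
    have hi : N.index = Nat.card (Q : Subgroup G) := hNQ.symm.index_eq_card
    refine ⟨N, hN, ?_, ⟨_, hi.trans (Sylow.card_eq_multiplicity Q)⟩, fun a b => ?_⟩
    · rw [← hNQ.index_eq_card]
      exact Q.not_dvd_index
    · rw [← QuotientGroup.eq_one_iff]
      have hs : ∀ a : G, ∃ x ∈ (Q : Subgroup G), (x : G ⧸ N) = a := by
        intro a
        obtain ⟨⟨n, x⟩, hnx⟩ := hNQ.2 a
        refine ⟨x, x.2, QuotientGroup.eq.2 ?_⟩
        rw [← hnx]
        simpa [mul_assoc] using hN.conj_mem n n.2 ((x : G)⁻¹)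
      obtain ⟨x, hx, hxa⟩ := hs a
      obtain ⟨y, hy, hyb⟩ := hs b
      rw [QuotientGroup.mk_mul, QuotientGroup.mk_mul, QuotientGroup.mk_mul, QuotientGroup.mk_inv,
        QuotientGroup.mk_inv, ← hxa, ← hyb]
      rw [← QuotientGroup.mk_inv, ← QuotientGroup.mk_inv, ← QuotientGroup.mk_mul,
        ← QuotientGroup.mk_mul, ← QuotientGroup.mk_mul]
      have hxy : x * y = y * x := congrArg Subtype.val (hab.is_comm.comm ⟨x, hx⟩ ⟨y, hy⟩)
      rw [hxy]
      simp
  choose! Nq hNn hNc hNi hNab using key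
  let N : Subgroup G := ⨅ q ∈ π, Nq q
  have hNle : ∀ q ∈ π, N ≤ Nq q := fun q hq => iInf₂_le q hq
  haveI hNnormal : N.Normal := ⟨fun n hn g => by
    simp only [N, Subgroup.mem_iInf] at hn ⊢
    exact fun q hq => (hNn q hq).conj_mem n (hn q hq) g⟩
  have hA : ∀ r : ℕ, r.Prime → r ∣ Nat.card N → r ∉ π := fun r _ hrd hrπ =>
    hNc r hrπ (hrd.trans (Subgroup.card_dvd_of_le (hNle r hrπ)))
  have hB : ∀ r : ℕ, r.Prime → r ∣ N.index → r ∈ π := by
    intro r hr hrd
    by_contra hrπ
    haveI : Fact r.Prime := ⟨hr⟩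
    rw [Subgroup.index_eq_card] at hrd
    obtain ⟨x, hx⟩ := exists_prime_orderOf_dvd_card' r hrd
    obtain ⟨g, rfl⟩ := QuotientGroup.mk_surjective x
    have h1 : g ∈ N := by
      simp only [N, Subgroup.mem_iInf]
      intro q hq
      haveI := hNn q hq
      rw [← QuotientGroup.eq_one_iff, ← orderOf_eq_one_iff]
      have ha : orderOf (g : G ⧸ Nq q) ∣ r := by
        apply orderOf_dvd_of_pow_eq_one
        rw [← QuotientGroup.mk_pow, QuotientGroup.eq_one_iff]
        apply hNle q hq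
        rw [← QuotientGroup.eq_one_iff, QuotientGroup.mk_pow, ← hx, pow_orderOf_eq_one]
      obtain ⟨k, hk'⟩ := hNi q hq
      have hb : orderOf (g : G ⧸ Nq q) ∣ q ^ k := by
        rw [← hk', Subgroup.index_eq_card]
        exact orderOf_dvd_natCard _
      exact Nat.eq_one_of_dvd_coprimes
        (((Nat.coprime_primes hr (hπ q hq)).2 (fun he => hrπ (he ▸ hq))).pow_right k) ha hb
    rw [(QuotientGroup.eq_one_iff g).2 h1, orderOf_one] at hx
    exact hr.one_lt.ne hx
  refine ⟨⟨N, hNnormal, hA, hB⟩, ?_⟩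
  obtain ⟨H, hH⟩ := Subgroup.exists_right_complement'_of_coprime (N := N)
    (Nat.coprime_of_dvd fun r hr h1 h2 => hA r hr h1 (hB r hr h2))
  refine ⟨H, ⟨fun r hr hrd => hB r hr ?_, fun r hr hrπ hrd => hA r hr ?_ hrπ⟩, ⟨⟨fun a b => ?_⟩⟩⟩
  · rwa [hH.symm.index_eq_card]
  · rwa [← hH.index_eq_card]
  · have h1 : ((a : G) * b * (a : G)⁻¹ * (b : G)⁻¹) ∈ N := by
      simp only [N, Subgroup.mem_iInf]
      exact fun q hq => hNab q hq _ _
    have h2 : ((a : G) * b * (a : G)⁻¹ * (b : G)⁻¹) ∈ H :=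
      H.mul_mem (H.mul_mem (H.mul_mem a.2 b.2) (H.inv_mem a.2)) (H.inv_mem b.2)
    have h3 : ((a : G) * b * (a : G)⁻¹ * (b : G)⁻¹) = 1 :=
      Subgroup.disjoint_def.1 hH.disjoint h1 h2
    apply Subtype.ext
    show (a : G) * b = b * a
    rw [mul_inv_eq_one, mul_inv_eq_iff_eq_mul] at h3
    exact h3

end Cfsg.Agent.S3899
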