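import Cfsg.Statements.S3901
import Cfsg.Agent.S0144
import Cfsg.Agent.H85.PrimePowerCoset

set_option autoImplicit false
open Cfsg

namespace Cfsg.Agent.S3901

/-- Let N be a non-trivial normal subgroup of the finite group G such that every element of G outside N has prime power order. If N is not solvable, then G/N is solvable. -/
theorem result {G : Type*} [Group G] [Finite G] (N : Subgroup G) [N.Normal] (hN : N ≠ ⊥) (hns : ¬ Group.IsSolvable ↥N)
    (h : ∀ x : G, x ∉ N → IsPrimePow (orderOf x)) : Group.IsSolvable (G ⧸ N) := by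
  refine Cfsg.Agent.H85.isSolvable_quotient h fun a b => ?_
  by_contra hno
  push Not at hno
  apply hns
  -- every prime divisor of `|N|` is `a` or `b`
  have hab : ∀ r : ℕ, r.Prime → r ∣ Nat.card ↥N → r = a ∨ r = b := fun r hr hrd => by
    by_cases hra : r = a
    · exact Or.inl hra
    · exact Or.inr (hno r hr hrd hra)
  -- replace `a`, `b` by primes, equal to them whenever they are prime
  let p := if a.Prime then a else 2
  let q := if b.Prime then b else 2
  have hp : p.Prime := by
    by_cases ha : a.Prime <;> simp [p, ha, Nat.prime_two]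
  have hq : q.Prime := by
    by_cases hb : b.Prime <;> simp [q, hb, Nat.prime_two]
  have hpq : ∀ r : ℕ, r.Prime → r ∣ Nat.card ↥N → r = p ∨ r = q := fun r hr hrd => by
    rcases hab r hr hrd with rfl | rfl
    · exact Or.inl (if_pos hr).symm
    · exact Or.inr (if_pos hr).symm
  obtain ⟨i, m, hm, him⟩ :=
    Nat.exists_eq_pow_mul_and_not_dvd (n := Nat.card ↥N) Nat.card_pos.ne' p hp.one_lt.ne'
  refine Cfsg.Agent.S0144.result p q i m.primeFactorsList.length hp hq ?_
  rw [him]
  congr 1
  refine Nat.eq_prime_pow_of_unique_prime_dvd (fun h0 => hm (h0 ▸ dvd_zero p)) ?_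
  intro r hr hrd
  rcases hpq r hr (him ▸ hrd.trans (dvd_mul_left m _)) with rfl | rfl
  · exact absurd hrd hm
  · rfl

end Cfsg.Agent.S3901
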