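import Cfsg.Statements.S3903
import Cfsg.Agent.S3901
import Cfsg.Agent.H85.MaximalCentralizers

set_option autoImplicit false
open Cfsg

namespace Cfsg.Agent.S3903

/-- Let N be a proper normal subgroup of the finite group G such that every element x of G outside N has prime power order and has centralizer C_G(x) a maximal subgroup of G. Then N is solvable. -/
theorem result {G : Type*} [Group G] [Finite G] (N : Subgroup G) [N.Normal] (hN : N ≠ ⊤)
    (h : ∀ x : G, x ∉ N → IsPrimePow (orderOf x) ∧ IsCoatom (Subgroup.centralizer ({x} : Set G))) : Group.IsSolvable ↥N := by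
  classical
  by_contra hns
  have hNb : N ≠ ⊥ := fun hb => hns (by subst hb; infer_instance)
  have hR : Group.IsSolvable (G ⧸ N) := Cfsg.Agent.S3901.result N hNb hns fun x hx => (h x hx).1
  haveI := hR
  haveI : Nontrivial (G ⧸ N) := QuotientGroup.nontrivial_iff.2 hN
  -- a normal subgroup of prime index above `N`
  set C := commutator (G ⧸ N) with hC
  have hClt : C < ⊤ := Group.IsSolvable.commutator_lt_top_of_nontrivial (G ⧸ N)
  obtain ⟨M, hMco, hCM⟩ := (IsCoatomic.eq_top_or_exists_le_coatom C).resolve_left hClt.ne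
  haveI hMn : M.Normal := ⟨fun a ha g => by
    have h1 : g * a * g⁻¹ * a⁻¹ ∈ M := hCM (Subgroup.commutator_mem_commutator
      (Subgroup.mem_top g) (Subgroup.mem_top a))
    simpa using M.mul_mem h1 ha⟩
  haveI hs : IsSimpleGroup ((G ⧸ N) ⧸ M) := by
    haveI : Nontrivial ((G ⧸ N) ⧸ M) := QuotientGroup.nontrivial_iff.2 hMco.1
    refine ⟨fun H _ => ?_⟩
    have hle : M ≤ H.comap (QuotientGroup.mk' M) := fun v hv => by
      show QuotientGroup.mk' M v ∈ H
      rw [show QuotientGroup.mk' M v = 1 from (QuotientGroup.eq_one_iff v).2 hv]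
      exact H.one_mem
    rcases hMco.le_iff.1 hle with h1 | h1
    · exact Or.inr (by
        rw [← Subgroup.map_comap_eq_self_of_surjective (QuotientGroup.mk'_surjective M) H, h1,
          Subgroup.map_top_of_surjective _ (QuotientGroup.mk'_surjective M)])
    · exact Or.inl (by
        rw [← Subgroup.map_comap_eq_self_of_surjective (QuotientGroup.mk'_surjective M) H, h1,
          QuotientGroup.map_mk'_self])
  have hcomm : ∀ a b : (G ⧸ N) ⧸ M, a * b = b * a :=
    IsSimpleGroup.comm_iff_isSolvable.2 inferInstance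
  letI : CommGroup ((G ⧸ N) ⧸ M) := { (inferInstance : Group _) with mul_comm := hcomm }
  have hp : (Nat.card ((G ⧸ N) ⧸ M)).Prime := IsSimpleGroup.prime_card
  haveI : Fact (Nat.card ((G ⧸ N) ⧸ M)).Prime := ⟨hp⟩
  set M' := M.comap (QuotientGroup.mk' N) with hM'
  have hNM : N ≤ M' := fun v hv => by
    show QuotientGroup.mk' N v ∈ M
    rw [show QuotientGroup.mk' N v = 1 from (QuotientGroup.eq_one_iff v).2 hv]
    exact M.one_mem
  have hsol : Group.IsSolvable G := Cfsg.Agent.H85.isSolvable_of_prime_index M'
    (s := Nat.card ((G ⧸ N) ⧸ M))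
    (by rw [hM', Subgroup.index_comap_of_surjective _ (QuotientGroup.mk'_surjective N),
      Subgroup.index_eq_card])
    (fun x hx => h x fun hxN => hx (hNM hxN))
  exact hns inferInstance

end Cfsg.Agent.S3903
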