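import Cfsg.Statements.S3908
-- import your own Cfsg.Agent.* helpers here
import Cfsg.Agent.H85.AbelianConjugate

set_option autoImplicit false
open Cfsg

namespace Cfsg.Agent.S3908

/-- Let G be a finite group in which any two abelian subgroups of the same order are conjugate. Then a Sylow 2-subgroup of G is cyclic, elementary abelian or generalized quaternion, and for an odd prime p a Sylow p-subgroup of G is cyclic or has exponent dividing p. -/
theorem result {G : Type*} [Group G] [Finite G] (hB : ∀ A B : Subgroup G, IsMulCommutative ↥A → IsMulCommutative ↥B → Nat.card ↥A = Nat.card ↥B → ∃ g : G, B = A.map (MulAut.conj g).toMonoidHom) :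
    (∀ P : Sylow 2 G, IsCyclic ↥(P : Subgroup G) ∨ Cfsg.IsElementaryAbelian 2 (P : Subgroup G) ∨ ∃ k : ℕ, Nonempty (↥(P : Subgroup G) ≃* QuaternionGroup (2 ^ k))) ∧
    ∀ (p : ℕ) [Fact p.Prime], p ≠ 2 → ∀ P : Sylow p G, IsCyclic ↥(P : Subgroup G) ∨ ∀ x ∈ (P : Subgroup G), x ^ p = 1 := by
  refine ⟨fun P => ?_, fun p _ hp P => ?_⟩
  · rcases Cfsg.Agent.H85.AbConj.cyclic_quaternion_or_exponent hB P.2 with h | ⟨-, h⟩ | h
    · exact Or.inl h
    · exact Or.inr (Or.inr h)
    · refine Or.inr (Or.inl ⟨⟨⟨fun a b => Subtype.ext ?_⟩⟩, h⟩)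
      have ha := h a a.2
      have hb := h b b.2
      have hab := h (a * b) (mul_mem a.2 b.2)
      rw [sq] at ha hb hab
      show (a : G) * b = b * a
      calc (a : G) * b = (a * b)⁻¹ := eq_inv_of_mul_eq_one_left hab
        _ = (b : G)⁻¹ * (a : G)⁻¹ := mul_inv_rev _ _
        _ = b * a := by rw [inv_eq_of_mul_eq_one_right ha, inv_eq_of_mul_eq_one_right hb]
  · rcases Cfsg.Agent.H85.AbConj.cyclic_quaternion_or_exponent hB P.2 with h | ⟨h2, -⟩ | h
    · exact Or.inl h
    · exact absurd h2 hp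
    · exact Or.inr h

end Cfsg.Agent.S3908
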