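import Cfsg.Statements.S3909
-- import your own Cfsg.Agent.* helpers here
import Cfsg.Agent.H85.AbelianConjugate

set_option autoImplicit false
open Cfsg

namespace Cfsg.Agent.S3909

/-- Let G be a finite group in which any two abelian subgroups of the same order are conjugate. Let M be a normal subgroup of G. If M contains an element of the same order as a ∈ G, then a ∈ M; and if M is elementary abelian of order p^t with p prime and t ≥ 2, then M is the unique Sylow p-subgroup of G. -/
theorem result {G : Type*} [Group G] [Finite G] (hB : ∀ A B : Subgroup G, IsMulCommutative ↥A → IsMulCommutative ↥B → Nat.card ↥A = Nat.card ↥B → ∃ g : G, B = A.map (MulAut.conj g).toMonoidHom) (M : Subgroup G) [M.Normal] :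
    (∀ a : G, (∃ m ∈ M, orderOf m = orderOf a) → a ∈ M) ∧
    ∀ (p t : ℕ) [Fact p.Prime], 2 ≤ t → Nat.card ↥M = p ^ t → Cfsg.IsElementaryAbelian p M → ∀ P : Sylow p G, (P : Subgroup G) = M := by
  refine ⟨fun a ⟨m, hm, he⟩ => Cfsg.Agent.H85.AbConj.mem_of_orderOf_eq hB inferInstance hm he,
    fun p t _ ht hcard hE P => ?_⟩
  have hMP : M ≤ (P : Subgroup G) := by
    obtain ⟨Q, hQ⟩ := (IsPGroup.of_card hcard).exists_le_sylow
    obtain ⟨g, hg⟩ := MulAction.exists_smul_eq G Q P
    rw [← hg, Sylow.coe_subgroup_smul]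
    intro x hx
    exact Subgroup.mem_pointwise_smul_iff_inv_smul_mem.2
      (hQ (by simpa using (inferInstance : M.Normal).conj_mem x hx g⁻¹))
  refine le_antisymm (fun x hx => ?_) hMP
  by_cases hx1 : x = 1
  · rw [hx1]; exact one_mem M
  obtain ⟨k, hk⟩ := IsPGroup.iff_orderOf.1 P.2 ⟨x, hx⟩
  rw [Subgroup.orderOf_mk] at hk
  have hxp := Cfsg.Agent.H85.AbConj.pow_prime_eq_one hB hE (hcard ▸ pow_dvd_pow p ht) ⟨k, hk⟩
  obtain ⟨⟨m, hm⟩, hmo⟩ := exists_prime_orderOf_dvd_card' (G := M) p
    (hcard ▸ dvd_pow_self p (by omega))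
  rw [Subgroup.orderOf_mk] at hmo
  exact Cfsg.Agent.H85.AbConj.mem_of_orderOf_eq hB inferInstance hm
    (hmo.trans (orderOf_eq_prime hxp hx1).symm)

end Cfsg.Agent.S3909
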