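import Cfsg.Statements.S3911
import Cfsg.Agent.H61.AbelianPGroupTools
import Cfsg.Agent.H85.OddCyclic
import Cfsg.Agent.H55.FittingHall

set_option autoImplicit false
open Cfsg Cfsg.Agent Cfsg.Agent.H61

namespace Cfsg.Agent.S3911

open scoped Classical

variable {G : Type*} [Group G] [Finite G]

/-- An odd prime dividing both `|M|` and `|G/M|` has cyclic Sylow subgroups. -/
theorem isCyclic_sylow_of_dvd (hB : ∀ A B : Subgroup G, IsMulCommutative ↥A → IsMulCommutative ↥B →
    Nat.card ↥A = Nat.card ↥B → ∃ g : G, B = A.map (MulAut.conj g).toMonoidHom)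
    (M : Subgroup G) [M.Normal] {s : ℕ} [Fact s.Prime] (hs2 : s ≠ 2) (hsM : s ∣ Nat.card M)
    (hsi : s ∣ M.index) (S : Sylow s G) : IsCyclic (S : Subgroup G) := by
  have hs : s.Prime := Fact.out
  have hordM : ∀ g : G, g ^ s = 1 → g ∈ M := by
    intro g hg
    by_cases hg1 : g = 1
    · rw [hg1]; exact one_mem M
    obtain ⟨m, hm⟩ := exists_prime_orderOf_dvd_card' (G := M) s hsM
    obtain ⟨a, ha⟩ := hB (Subgroup.zpowers (m : G)) (Subgroup.zpowers g) inferInstance inferInstance
      (by rw [Nat.card_zpowers, Nat.card_zpowers, Subgroup.orderOf_coe, hm, orderOf_eq_prime hg hg1])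
    obtain ⟨y, hy, hye⟩ := (ha ▸ Subgroup.mem_zpowers g : g ∈ (Subgroup.zpowers (m : G)).map _)
    rw [← hye]
    exact Subgroup.Normal.conj_mem inferInstance y (Subgroup.zpowers_le.mpr m.2 hy) a
  by_contra hnc
  -- an elementary abelian subgroup of order `s²`
  obtain ⟨E, hEc, hEcard, hEexp⟩ : ∃ E : Subgroup G, IsMulCommutative E ∧ Nat.card E = s ^ 2 ∧
      ∀ e ∈ E, e ^ s = 1 := by
    haveI : Nontrivial (S : Subgroup G) := by
      rcases subsingleton_or_nontrivial (S : Subgroup G) with h | h
      · exact absurd (inferInstance : IsCyclic (S : Subgroup G)) hnc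
      · exact h
    haveI := S.2.center_nontrivial
    obtain ⟨z, hz⟩ := exists_prime_orderOf_dvd_card' (G := Subgroup.center (S : Subgroup G)) s
      ((S.2.to_subgroup _).card_eq_or_dvd.resolve_left
        (fun h => absurd h (Finite.one_lt_card (α := Subgroup.center (S : Subgroup G))).ne'))
    set w : (S : Subgroup G) := (z : (S : Subgroup G))
    have hw : orderOf w = s := (Subgroup.orderOf_coe z).trans hz
    obtain ⟨u, hu, hun⟩ : ∃ u : (S : Subgroup G), orderOf u = s ∧ u ∉ Subgroup.zpowers w := by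
      by_contra hno
      push Not at hno
      refine hnc (Cfsg.Agent.H85.isCyclic_of_unique_order_p hs2 S.2 fun u v hu hv => ?_)
      have hu' := Subgroup.eq_of_le_of_card_ge (Subgroup.zpowers_le.mpr (hno u hu))
        (by rw [Nat.card_zpowers, Nat.card_zpowers, hu, hw])
      rw [hu']; exact hno v hv
    have hc : Commute w u := (Subgroup.mem_center_iff.mp z.2 u).symm
    refine ⟨Subgroup.zpowers (w : G) ⊔ Subgroup.zpowers (u : G), ?_, ?_, ?_⟩
    · exact Cfsg.Agent.H61.isMulCommutative_zpowers_sup (congrArg Subtype.val hc.eq)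
    · exact Cfsg.Agent.H61.card_zpowers_sup_zpowers hs ((Subgroup.orderOf_coe w).trans hw)
        ((Subgroup.orderOf_coe u).trans hu) (congrArg Subtype.val hc.eq)
        (fun ⟨i, hi⟩ => hun ⟨i, Subtype.ext hi⟩)
    · exact Cfsg.Agent.H61.pow_eq_one_of_mem_zpowers_sup (congrArg Subtype.val hc.eq)
        (orderOf_dvd_iff_pow_eq_one.mp ((Subgroup.orderOf_coe w).trans hw).dvd)
        (orderOf_dvd_iff_pow_eq_one.mp ((Subgroup.orderOf_coe u).trans hu).dvd)
  -- so all `s`-elements lie in `M`
  refine S.not_dvd_index (hsi.trans (Subgroup.index_dvd_of_le fun g hg => hordM g ?_))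
  by_contra hgs
  obtain ⟨k, hk⟩ := (IsPGroup.iff_orderOf.mp S.2) ⟨g, hg⟩
  rw [← Subgroup.orderOf_coe] at hk
  have hk2 : 2 ≤ k := by
    by_contra h
    exact hgs (orderOf_dvd_iff_pow_eq_one.mp (hk ▸ (by
      simpa using pow_dvd_pow s (show k ≤ 1 by omega))))
  have hord : orderOf (g ^ s ^ (k - 2)) = s ^ 2 := by
    have hk' : orderOf g = s ^ k := hk
    rw [orderOf_pow' g (pow_ne_zero _ hs.ne_zero), hk', Nat.gcd_eq_right (pow_dvd_pow s (by omega)),
      Nat.pow_div (by omega) hs.pos, show k - (k - 2) = 2 by omega]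
  obtain ⟨a, ha⟩ := hB E (Subgroup.zpowers (g ^ s ^ (k - 2))) hEc inferInstance
    (by rw [hEcard, Nat.card_zpowers, hord])
  obtain ⟨e, he, hee⟩ := (ha ▸ Subgroup.mem_zpowers (g ^ s ^ (k - 2)) :
    g ^ s ^ (k - 2) ∈ E.map _)
  have : (g ^ s ^ (k - 2)) ^ s = 1 := by
    rw [← hee, ← map_pow, hEexp e he, map_one]
  have h3 := Nat.le_of_dvd hs.pos (hord ▸ orderOf_dvd_of_pow_eq_one this)
  nlinarith [hs.two_le]

/-- An abelian subgroup mapping onto a given abelian subgroup of `G/M`, of order determined by the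
order of that subgroup. -/
theorem exists_abelian_lift (hB : ∀ A B : Subgroup G, IsMulCommutative ↥A → IsMulCommutative ↥B →
    Nat.card ↥A = Nat.card ↥B → ∃ g : G, B = A.map (MulAut.conj g).toMonoidHom)
    (M : Subgroup G) [M.Normal] (hM : Odd (Nat.card ↥M)) (A₀ : Subgroup (G ⧸ M))
    (hA₀ : IsMulCommutative A₀) :
    ∃ A : Subgroup G, IsMulCommutative A ∧ A.map (QuotientGroup.mk' M) = A₀ ∧
      ∀ s : ℕ, (Nat.card A).factorization s = (Nat.card A₀).factorization s +
        if s ∣ Nat.card A₀ then (Nat.card M).factorization s else 0 := by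
  set π := QuotientGroup.mk' M with hπ
  obtain ⟨A, hA, hmin⟩ := (wellFounded_lt (α := Subgroup G)).has_min
    {A : Subgroup G | A.map π = A₀}
    ⟨A₀.comap π, Subgroup.map_comap_eq_self_of_surjective (QuotientGroup.mk'_surjective M) A₀⟩
  replace hA : A.map π = A₀ := hA
  have hmin' : ∀ K : Subgroup G, K ≤ A → K.map π = A₀ → K = A := fun K hK hKm =>
    hK.eq_of_not_lt (hmin K hKm)
  set f : A →* A₀ := (π.comp A.subtype).codRestrict A₀ (fun a => hA ▸ ⟨a, a.2, rfl⟩) with hf
  have hfs : Function.Surjective f := by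
    rintro ⟨b, hb⟩
    obtain ⟨a, ha, rfl⟩ := (hA.symm ▸ hb : b ∈ A.map π)
    exact ⟨⟨a, ha⟩, rfl⟩
  have hker : ∀ L : Subgroup A, L.map f = ⊤ → L = ⊤ := by
    intro L hL
    have h : (L.map A.subtype).map π = A₀ := by
      rw [Subgroup.map_map]
      calc L.map (π.comp A.subtype) = (L.map f).map A₀.subtype := by
            rw [Subgroup.map_map]; congr 1
        _ = A₀ := by rw [hL, ← MonoidHom.range_eq_map, Subgroup.range_subtype]
    have := hmin' _ (Subgroup.map_subtype_le L) h
    rw [eq_top_iff]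
    intro a _
    obtain ⟨l, hl, hla⟩ := (this.symm ▸ a.2 : (a : G) ∈ L.map A.subtype)
    rwa [← Subtype.ext hla]
  haveI : Group.IsNilpotent A := by
    refine ((Group.isNilpotent_of_finite_tfae (G := A)).out 0 2).mpr fun L hL => ?_
    have hkL : f.ker ≤ L := by
      by_contra hn
      have h1 : L ⊔ f.ker = ⊤ := hL.2 _ (left_lt_sup.mpr hn)
      have h2 := congrArg (Subgroup.map f) h1
      rw [Subgroup.map_sup, (Subgroup.map_eq_bot_iff _).mpr le_rfl, sup_bot_eq,
        Subgroup.map_top_of_surjective _ hfs] at h2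
      exact hL.1 (hker L h2)
    refine ⟨fun a ha b => ?_⟩
    have h1 : f (b * a * b⁻¹ * a⁻¹) = 1 := by
      simp only [map_mul, map_inv]
      rw [hA₀.is_comm.comm (f b) (f a)]; group
    have := L.mul_mem (hkL (MonoidHom.mem_ker.mpr h1)) ha
    simpa using this
  -- Sylow subgroups are abelian
  have habel : ∀ a b : A, Commute a b := by
    have hpp : ∀ (p : ℕ), p.Prime → ∀ u : A, (∃ i, orderOf u = p ^ i) →
        ∀ (r : ℕ), r.Prime → ∀ v : A, (∃ i, orderOf v = r ^ i) → Commute u v := by
      intro p hp u ⟨i, hi⟩ r hr v ⟨j, hj⟩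
      by_cases hpr : p = r
      swap
      · refine Cfsg.Agent.H55.commute_of_coprime_orderOf inferInstance ?_
        rw [hi, hj]; exact ((Nat.coprime_primes hp hr).mpr hpr).pow i j
      subst hpr
      haveI := Fact.mk hp
      obtain ⟨P⟩ : Nonempty (Sylow p A) := inferInstance
      haveI : (P : Subgroup A).Normal := by
        have h03 : Group.IsNilpotent A ↔ ∀ (p : ℕ) (_ : Fact p.Prime) (P : Sylow p A),
            (P : Subgroup A).Normal := (Group.isNilpotent_of_finite_tfae (G := A)).out 0 3
        exact h03.mp ‹Group.IsNilpotent A› p ⟨hp⟩ P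
      have hmem : ∀ x : A, (∃ i, orderOf x = p ^ i) → x ∈ (P : Subgroup A) := fun x ⟨i, hi⟩ =>
        Cfsg.Agent.H61.le_normal_sylow P (IsPGroup.of_card (n := i) (by rw [Nat.card_zpowers, hi]))
          (Subgroup.mem_zpowers x)
      have hc : IsMulCommutative (P : Subgroup A) := by
        have hP' : IsPGroup p ((P : Subgroup A).map A.subtype) := P.2.map _
        obtain ⟨S, hS⟩ := hP'.exists_le_sylow
        by_cases hpM : p ∣ Nat.card M ∧ p ∣ M.index
        · have hp2 : p ≠ 2 := by rintro rfl; exact Nat.not_even_iff_odd.mpr hM (even_iff_two_dvd.mpr hpM.1)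
          haveI := isCyclic_sylow_of_dvd hB M hp2 hpM.1 hpM.2 S
          refine ⟨⟨fun x y => Subtype.ext (Subtype.ext ?_)⟩⟩
          have := congrArg Subtype.val (IsMulCommutative.is_comm.comm
            (⟨((x : A) : G), hS ⟨x, x.2, rfl⟩⟩ : (S : Subgroup G)) ⟨((y : A) : G), hS ⟨y, y.2, rfl⟩⟩)
          simpa using this
        · refine ⟨⟨fun x y => ?_⟩⟩
          by_cases hpM' : p ∣ Nat.card M
          · -- then `P` lies in `M`, hence in the kernel
            have hk : ∀ x : (P : Subgroup A), f x = 1 := by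
              intro x
              obtain ⟨i, hi⟩ := (IsPGroup.iff_orderOf.mp P.2) x
              refine Subtype.ext ?_
              show π ((x : A) : G) = 1
              by_contra hne
              have hd : orderOf (π ((x : A) : G)) ∣ p ^ i := hi ▸ (orderOf_map_dvd π _).trans
                (by rw [Subgroup.orderOf_coe, Subgroup.orderOf_coe])
              obtain ⟨j, -, hj⟩ := (Nat.dvd_prime_pow hp).mp hd
              rcases Nat.eq_zero_or_pos j with rfl | hj0
              · exact hne (orderOf_eq_one_iff.mp (hj.trans (pow_zero p)))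
              · exact hpM ⟨hpM', (dvd_pow_self p hj0.ne').trans (hj ▸ orderOf_dvd_natCard _)⟩
            -- hence `P` is trivial
            have hbot : (P : Subgroup A) = ⊥ := by
              by_contra hne
              obtain ⟨K, hKc⟩ := Subgroup.exists_right_complement'_of_coprime P.card_coprime_index
              have htop : K.map f = ⊤ := by
                have h2 := congrArg (Subgroup.map f) hKc.sup_eq_top
                rw [Subgroup.map_sup, (Subgroup.map_eq_bot_iff _).mpr
                  (fun x hx => MonoidHom.mem_ker.mpr (hk ⟨x, hx⟩)), bot_sup_eq,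
                  Subgroup.map_top_of_surjective _ hfs] at h2
                exact h2
              have hKtop := hker K htop
              rw [hKtop, Subgroup.isComplement'_top_right] at hKc
              exact hne hKc
            have hsub : ∀ z : (P : Subgroup A), z = 1 := fun z =>
              Subtype.ext (Subgroup.mem_bot.mp (hbot ▸ z.2))
            rw [hsub x, hsub y]
          · -- then `P` embeds in the abelian group `A₀`
            refine (Cfsg.Agent.H61.injOn_of_coprime_ker P.2 f ?_ (x.1 * y.1) (y.1 * x.1) ((P : Subgroup A).mul_mem x.2 y.2)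
              ((P : Subgroup A).mul_mem y.2 x.2) ?_ |> Subtype.ext)
            · intro h
              refine hpM' (h.trans ?_)
              rw [← Subgroup.card_subtype A f.ker]
              refine Subgroup.card_dvd_of_le ?_
              rintro _ ⟨z, hz, rfl⟩
              exact (QuotientGroup.eq_one_iff _).mp (congrArg Subtype.val (MonoidHom.mem_ker.mp hz))
            · rw [map_mul, map_mul]; exact hA₀.is_comm.comm _ _
      exact congrArg Subtype.val (hc.is_comm.comm ⟨u, hmem u ⟨i, hi⟩⟩ ⟨v, hmem v ⟨j, hj⟩⟩)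
    have hcen : ∀ (p : ℕ), p.Prime → ∀ u : A, (∃ i, orderOf u = p ^ i) →
        u ∈ Subgroup.center A :=
      fun p hp u hu => Cfsg.Agent.H61.mem_center_of_primePow fun r hr v hv => hpp p hp u hu r hr v hv
    intro a b
    exact (Subgroup.mem_center_iff.mp (Cfsg.Agent.H61.mem_center_of_primePow fun r hr v hv =>
      (Subgroup.mem_center_iff.mp (hcen r hr v hv) a)) b).symm
  refine ⟨A, ⟨⟨fun a b => (habel a b).eq⟩⟩, hA, fun s => ?_⟩
  have hcard : Nat.card A = Nat.card A₀ * Nat.card f.ker := by
    rw [← f.ker.index_mul_card, Subgroup.index_ker, MonoidHom.range_eq_top.mpr hfs,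
      Subgroup.card_top]
  rw [hcard, Nat.factorization_mul Nat.card_pos.ne' Nat.card_pos.ne', Finsupp.add_apply]
  congr 1
  by_cases hs : s.Prime
  swap
  · simp [Nat.factorization_eq_zero_of_not_prime _ hs]
  haveI := Fact.mk hs
  have hkM : Nat.card f.ker ∣ Nat.card M := by
    rw [← Subgroup.card_subtype A f.ker]
    refine Subgroup.card_dvd_of_le ?_
    rintro _ ⟨z, hz, rfl⟩
    exact (QuotientGroup.eq_one_iff _).mp (congrArg Subtype.val (MonoidHom.mem_ker.mp hz))
  split_ifs with hs0
  · refine le_antisymm ((Nat.factorization_le_iff_dvd Nat.card_pos.ne' Nat.card_pos.ne').mpr hkM s) ?_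
    by_cases hsM : s ∣ Nat.card M
    swap
    · rw [Nat.factorization_eq_zero_of_not_dvd hsM]; exact Nat.zero_le _
    have hs2 : s ≠ 2 := by rintro rfl; exact Nat.not_even_iff_odd.mpr hM (even_iff_two_dvd.mpr hsM)
    have hsi : s ∣ M.index := hs0.trans (Subgroup.card_subgroup_dvd_card A₀)
    obtain ⟨x₀, hx₀⟩ := exists_prime_orderOf_dvd_card' (G := A₀) s hs0
    obtain ⟨a, ha, har⟩ := Cfsg.Agent.H61.exists_lift_primePow f hfs hs (x := x₀) ⟨1, by rw [hx₀, pow_one]⟩
    have haM : (a : G) ∉ M := fun h => by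
      have h1 : x₀ = 1 := ha ▸ Subtype.ext ((QuotientGroup.eq_one_iff _).mpr h)
      rw [h1, orderOf_one] at hx₀; exact hs.one_lt.ne hx₀
    obtain ⟨i, hi⟩ := har
    have hpa : IsPGroup s (Subgroup.zpowers (a : G)) :=
      IsPGroup.of_card (n := i) (by rw [Nat.card_zpowers, Subgroup.orderOf_coe, hi])
    obtain ⟨S, hS⟩ := hpa.exists_le_sylow
    haveI := isCyclic_sylow_of_dvd hB M hs2 hsM hsi S
    -- `S ⊓ M ≤ ⟨a⟩ ≤ A`
    have hle : (S : Subgroup G) ⊓ M ≤ A.map (MonoidHom.id G) := by
      rw [Subgroup.map_id]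
      intro z hz
      refine (Subgroup.zpowers_le.mpr a.2) ?_
      by_contra hza
      refine haM ?_
      have := Cfsg.Agent.H61.mem_zpowers_or_of_cyclic S.2 (a := (a : G)) (b := z)
        (hS (Subgroup.mem_zpowers _)) hz.1
      rcases this with h | h
      · exact Subgroup.zpowers_le.mpr hz.2 h
      · exact absurd h hza
    rw [Subgroup.map_id] at hle
    have hfac : s ^ (Nat.card M).factorization s ∣ Nat.card f.ker := by
      refine (Cfsg.Agent.H61.pow_dvd_card_inf_sylow S M).trans ?_
      have hsub : ((S : Subgroup G) ⊓ M).subgroupOf A ≤ f.ker := fun z hz =>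
        MonoidHom.mem_ker.mpr (Subtype.ext ((QuotientGroup.eq_one_iff _).mpr hz.2))
      have h := Subgroup.card_dvd_of_le hsub
      rwa [Nat.card_congr (Subgroup.subgroupOfEquivOfLe hle).toEquiv] at h
    exact (hs.pow_dvd_iff_le_factorization Nat.card_pos.ne').mp hfac
  · refine Nat.factorization_eq_zero_of_not_dvd fun hd => ?_
    obtain ⟨z, hz⟩ := exists_prime_orderOf_dvd_card' (G := f.ker) s hd
    let K : Subgroup A :=
      { carrier := {a | (orderOf a).Coprime s}
        one_mem' := by simp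
        mul_mem' := fun {a b} ha hb =>
          Nat.Coprime.coprime_dvd_left (habel a b).orderOf_mul_dvd_mul_orderOf (Nat.Coprime.mul_left ha hb)
        inv_mem' := fun {a} ha => by simpa using ha }
    have hK : K.map f = ⊤ := by
      refine eq_top_iff.mpr fun b _ => ?_
      obtain ⟨a, rfl⟩ := hfs b
      set k := (orderOf a).factorization s
      have hco : ((s ^ k : ℕ) : ℤ) * 1 = (s ^ k : ℕ) := mul_one _
      obtain ⟨u, v, huv⟩ : ∃ u v : ℤ, u * ((s ^ k : ℕ) : ℤ) + v * (orderOf (f a) : ℤ) = 1 :=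
        Int.isCoprime_iff_nat_coprime.mpr (by
          simpa using ((Nat.Coprime.pow_left k (hs.coprime_iff_not_dvd.mpr fun h =>
            hs0 (h.trans (orderOf_dvd_natCard _))))))
      refine ⟨(a ^ (s ^ k)) ^ u, K.zpow_mem (show (orderOf (a ^ s ^ k)).Coprime s from ?_) u, ?_⟩
      · rw [orderOf_pow' a (pow_ne_zero _ hs.ne_zero),
          Nat.gcd_eq_right (Nat.ordProj_dvd (orderOf a) s)]
        exact (Nat.coprime_ordCompl hs (orderOf_pos a).ne').symm
      · rw [map_zpow, map_pow, ← zpow_natCast, ← zpow_mul, mul_comm,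
          show u * ((s ^ k : ℕ) : ℤ) = 1 - v * (orderOf (f a) : ℤ) by omega, zpow_sub, zpow_one,
          mul_comm v, zpow_mul, zpow_natCast, pow_orderOf_eq_one, one_zpow, inv_one, mul_one]
    have hmem : (z : A) ∈ K := (hker K hK).symm ▸ Subgroup.mem_top _
    have h1 : (orderOf (z : A)).Coprime s := hmem
    rw [Subgroup.orderOf_coe, hz, Nat.coprime_self] at h1
    exact hs.one_lt.ne' h1

/-- Let G be a finite group in which any two abelian subgroups of the same order are conjugate. If M is a normal subgroup of G of odd order, then any two abelian subgroups of G/M of the same order are conjugate in G/M. -/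
theorem result {G : Type*} [Group G] [Finite G] (hB : ∀ A B : Subgroup G, IsMulCommutative ↥A → IsMulCommutative ↥B → Nat.card ↥A = Nat.card ↥B → ∃ g : G, B = A.map (MulAut.conj g).toMonoidHom) (M : Subgroup G) [M.Normal] (hM : Odd (Nat.card ↥M)) :
    ∀ A B : Subgroup (G ⧸ M), IsMulCommutative ↥A → IsMulCommutative ↥B → Nat.card ↥A = Nat.card ↥B →
      ∃ g : G ⧸ M, B = A.map (MulAut.conj g).toMonoidHom := by
  intro A₀ B₀ hA₀ hB₀ hcard
  obtain ⟨A, hAc, hAm, hA⟩ := exists_abelian_lift hB M hM A₀ hA₀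
  obtain ⟨B, hBc, hBm, hB'⟩ := exists_abelian_lift hB M hM B₀ hB₀
  have h1 : Nat.card A = Nat.card B := by
    refine Nat.eq_of_factorization_eq Nat.card_pos.ne' Nat.card_pos.ne' fun s => ?_
    rw [hA s, hB' s, hcard]
  obtain ⟨g, hg⟩ := hB A B hAc hBc h1
  refine ⟨QuotientGroup.mk' M g, ?_⟩
  rw [← hAm, ← hBm, hg, Subgroup.map_map, Subgroup.map_map]
  congr 1

end Cfsg.Agent.S3911
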