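import Cfsg.Statements.S3915
import Cfsg.Agent.H59.ConjCyclic
import Cfsg.Agent.S0205

set_option autoImplicit false
open Cfsg

namespace Cfsg.Agent.S3915

/-- Let G be a finite group in which, for every prime p, any two cyclic p-subgroups of the same order are conjugate. If the layer E(G), the subgroup generated by the components of G, is non-trivial, then E(G)/Z(E(G)) is a non-abelian simple group. -/
theorem result {G : Type*} [Group G] [Finite G] (hP : ∀ (p : ℕ), p.Prime → ∀ A B : Subgroup G, IsCyclic ↥A → IsCyclic ↥B → IsPGroup p ↥A → Nat.card ↥A = Nat.card ↥B → ∃ g : G, B = A.map (MulAut.conj g).toMonoidHom) (hE : Cfsg.layer G ≠ ⊥) :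
    IsSimpleGroup (↥(Cfsg.layer G) ⧸ Subgroup.center ↥(Cfsg.layer G)) ∧ ¬ IsMulCommutative (↥(Cfsg.layer G) ⧸ Subgroup.center ↥(Cfsg.layer G)) := by
  obtain ⟨K, hK⟩ : ∃ K : Subgroup G, Cfsg.IsComponent K := by
    by_contra h
    push Not at h
    exact hE (sSup_eq_bot.mpr fun K hK => absurd hK (h K))
  have h := H59.layer_eq_component (hP 2 Nat.prime_two)
    (fun L hL => H59.two_dvd_index_center hL.2 fun hodd => S0205.result hodd) hK
  rw [h]
  refine ⟨hK.2.2, fun hc => ?_⟩
  haveI := hc
  haveI := hK.2.2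
  haveI := hK.2.1
  haveI : Group.IsSolvable (↥K ⧸ Subgroup.center ↥K) := Group.isSolvable_of_comm fun a b => mul_comm' a b
  refine H51.quasisimple_not_isSolvable hK.2 ?_
  haveI : Group.IsSolvable ↥(Subgroup.center K) :=
    Group.isSolvable_of_comm fun a b => Subtype.ext (Subgroup.mem_center_iff.mp b.2 a.1)
  exact Group.isSolvable_of_ker_le_range (Subgroup.center K).subtype (QuotientGroup.mk' (Subgroup.center K))
    (by rw [QuotientGroup.ker_mk', Subgroup.range_subtype])

end Cfsg.Agent.S3915
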