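import Cfsg.Statements.S3917
-- import your own Cfsg.Agent.* helpers here
import Cfsg.Agent.H85.AbelianConjugate

set_option autoImplicit false
open Cfsg

namespace Cfsg.Agent.S3917

/-- Say that a group has self-centralizing non-cyclic subgroups when every non-cyclic subgroup H satisfies C_G(H) ≤ H. A finite abelian group with self-centralizing non-cyclic subgroups is cyclic or elementary abelian of order p² for a prime p. -/
theorem result {G : Type*} [CommGroup G] [Finite G] (hX : (∀ H : Subgroup G, ¬ IsCyclic ↥H → Subgroup.centralizer (H : Set G) ≤ H)) :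
    IsCyclic G ∨ ∃ p : ℕ, p.Prime ∧ Nat.card G = p ^ 2 ∧ Monoid.exponent G = p := by
  classical
  refine or_iff_not_imp_left.2 fun hnc => ?_
  have hsub : ∀ H : Subgroup G, H ≠ ⊤ → IsCyclic H := fun H hH => by
    by_contra h
    exact hH (top_le_iff.1 fun x _ => hX H h (Subgroup.mem_centralizer_iff.2 fun y _ => mul_comm y x))
  obtain ⟨p, hp, P, hP⟩ : ∃ p : ℕ, ∃ _ : Fact p.Prime, ∃ P : Sylow p G, ¬ IsCyclic P := by
    by_contra hall
    push Not at hall
    have : IsZGroup G := ⟨fun p hp P => hall p ⟨hp⟩ P⟩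
    exact hnc inferInstance
  have hPtop : (P : Subgroup G) = ⊤ := by_contra fun h => hP (hsub _ h)
  rcases Cfsg.Agent.H85.AbConj.unique_or_exists_elementary (p := p) (P := P) P.2 with h | ⟨E, hE, hcard⟩
  · exact absurd (Cfsg.Agent.H21.isCyclic_of_comm_unique P.2 h) hP
  · have hexp : ∀ a ∈ E.map (P : Subgroup G).subtype, a ^ p = 1 := by
      rintro _ ⟨a, ha, rfl⟩
      rw [← map_pow, hE.2 a ha, map_one]
    have hc : p ^ 2 ∣ Nat.card (E.map (P : Subgroup G).subtype) := by
      rwa [← Nat.card_congr (E.equivMapOfInjective _ (P : Subgroup G).subtype_injective).toEquiv]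
    set A := E.map (P : Subgroup G).subtype
    have hncyc : ∀ B : Subgroup G, B ≤ A → p < Nat.card B → ¬ IsCyclic B := by
      intro B hB hlt hcyc
      obtain ⟨⟨g, hg⟩, hgc⟩ := isCyclic_iff_exists_orderOf_eq_natCard.1 hcyc
      rw [Subgroup.orderOf_mk] at hgc
      exact absurd (Nat.le_of_dvd hp.out.pos (orderOf_dvd_of_pow_eq_one (hexp g (hB hg))))
        (not_le.2 (hgc ▸ hlt))
    have hlt : p < p ^ 2 := by nlinarith [hp.out.one_lt]
    obtain ⟨B, hB⟩ := Sylow.exists_subgroup_card_pow_prime (G := A) p hc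
    have hBc : Nat.card (B.map A.subtype) = p ^ 2 := by
      rw [← hB]; exact (Nat.card_congr (B.equivMapOfInjective _ A.subtype_injective).toEquiv).symm
    have hBtop : B.map A.subtype = ⊤ := by_contra fun h =>
      hncyc _ (Subgroup.map_subtype_le B) (hBc ▸ hlt) (hsub _ h)
    have hAall : ∀ x : G, x ^ p = 1 := fun x => hexp x
      (Subgroup.map_subtype_le B (hBtop ▸ Subgroup.mem_top x))
    refine ⟨p, hp.out, by rw [← hBc, hBtop, Subgroup.card_top], ?_⟩
    have hd : Monoid.exponent G ∣ p := Monoid.exponent_dvd_of_forall_pow_eq_one hAall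
    refine ((Nat.dvd_prime hp.out).1 hd).resolve_left fun h1 => hP ?_
    have : Subsingleton G := Monoid.exp_eq_one_iff.1 h1
    exact isCyclic_of_subsingleton

end Cfsg.Agent.S3917
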