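import Cfsg.Statements.S3919
-- import your own Cfsg.Agent.* helpers here
import Cfsg.Agent.H85.SelfCentralizing

set_option autoImplicit false
open Cfsg

namespace Cfsg.Agent.S3919

/-- Say that a group has self-centralizing non-cyclic subgroups when every non-cyclic subgroup H satisfies C_G(H) ≤ H. A finite non-abelian 2-group G of order 2^n has self-centralizing non-cyclic subgroups if and only if G has nilpotency class n − 1 (that is, G is dihedral, semidihedral or generalized quaternion). -/
theorem result {G : Type*} [Group G] [Finite G] (hna : ¬ IsMulCommutative G) (n : ℕ) (hG : Nat.card G = 2 ^ n) :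
    (∀ H : Subgroup G, ¬ IsCyclic ↥H → Subgroup.centralizer (H : Set G) ≤ H) ↔ (⊤ : Subgroup G).lowerCentralSeries (n - 2) ≠ ⊥ := by
  haveI : Fact (Nat.Prime 2) := ⟨Nat.prime_two⟩
  have hP : IsPGroup 2 G := IsPGroup.of_card hG
  haveI : Group.IsNilpotent G := hP.isNilpotent
  obtain ⟨k, hk, hk3⟩ := Cfsg.Agent.H85.card_three_le (p := 2) hP hna
  obtain rfl : n = k := Nat.pow_right_injective (le_refl 2) (hG.symm.trans hk)
  rw [Ne, Subgroup.lowerCentralSeries_eq_bot_iff_nilpotencyClass_le]
  constructor
  · intro h hle
    have := Cfsg.Agent.H85.class_eq_of_selfCentNoncyclic hG hna h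
    omega
  · intro hlt
    refine Cfsg.Agent.H85.selfCentNoncyclic_of_class_eq hG hna ?_
    have := Cfsg.Agent.H24.class_le_pred G 2 n hG (by omega)
    omega

end Cfsg.Agent.S3919
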