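import Cfsg.Statements.S3920
-- import your own Cfsg.Agent.* helpers here

set_option autoImplicit false
open Cfsg

namespace Cfsg.Agent.S3920

/-- Say that a group has self-centralizing non-cyclic subgroups when every non-cyclic subgroup H satisfies C_G(H) ≤ H. For n ≥ 3, the dihedral group of order 2n has self-centralizing non-cyclic subgroups if and only if n is odd or a power of 2. -/
theorem result (n : ℕ) (hn : 3 ≤ n) : (∀ H : Subgroup (DihedralGroup n), ¬ IsCyclic ↥H → Subgroup.centralizer (H : Set (DihedralGroup n)) ≤ H) ↔ (Odd n ∨ ∃ k : ℕ, n = 2 ^ k) := by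
  haveI : NeZero n := ⟨by omega⟩
  constructor
  · intro h
    by_contra hcon
    push Not at hcon
    obtain ⟨hodd, hpow⟩ := hcon
    obtain ⟨a, o, ho, hn'⟩ := Nat.exists_eq_pow_mul_and_not_dvd (show n ≠ 0 by omega) 2 (by norm_num)
    rcases a with _ | b
    · apply hodd
      rw [hn', pow_zero, one_mul, Nat.odd_iff]
      omega
    have ho1 : o ≠ 1 := fun h1 => hpow (b + 1) (by rw [hn', h1, mul_one])
    have hmn : 2 ^ (b + 1) ∣ n := ⟨o, hn'⟩
    set c : ZMod n →+* ZMod (2 ^ (b + 1)) := ZMod.castHom hmn _ with hc
    let f : DihedralGroup n →* DihedralGroup (2 ^ (b + 1)) :=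
      { toFun := fun g => match g with
          | DihedralGroup.r j => DihedralGroup.r (c j)
          | DihedralGroup.sr j => DihedralGroup.sr (c j)
        map_one' := congrArg DihedralGroup.r (map_zero c)
        map_mul' := fun x y => by
          cases x <;> cases y <;>
            simp only [DihedralGroup.r_mul_r, DihedralGroup.r_mul_sr, DihedralGroup.sr_mul_r,
              DihedralGroup.sr_mul_sr, map_add, map_sub] }
    set j0 : ZMod n := ((2 ^ (b + 1) : ℕ) : ZMod n) with hj0
    set z : ZMod n := ((2 ^ b * o : ℕ) : ZMod n) with hz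
    set H := Subgroup.closure ({DihedralGroup.r j0, DihedralGroup.sr 0} : Set (DihedralGroup n)) with hH
    have hj2 : j0 + j0 ≠ 0 := by
      rw [hj0, ← Nat.cast_add, Ne, ZMod.natCast_eq_zero_iff]
      intro hd
      have h1 : o ∣ 2 ^ (b + 2) := (Dvd.intro_left _ hn'.symm).trans
        (by rw [pow_succ]; exact (by rwa [mul_two]))
      obtain ⟨k, -, hk⟩ := (Nat.dvd_prime_pow Nat.prime_two).1 h1
      rcases k with _ | k
      · exact ho1 hk
      · exact ho (hk ▸ dvd_pow_self 2 k.succ_ne_zero)
    have hnc : ¬ IsCyclic H := by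
      intro hcyc
      have h1 := congrArg Subtype.val ((IsCyclic.isMulCommutative (α := H)).is_comm.comm
        ⟨DihedralGroup.r j0, Subgroup.subset_closure (Or.inl rfl)⟩
        ⟨DihedralGroup.sr 0, Subgroup.subset_closure (Or.inr rfl)⟩)
      simp at h1
      exact hj2 (by linear_combination -h1)
    have hz2 : z + z = 0 := by
      rw [hz, ← Nat.cast_add, ZMod.natCast_eq_zero_iff]
      exact ⟨1, by rw [hn', pow_succ]; ring⟩
    have hzH : DihedralGroup.r z ∈ H := h H hnc (Subgroup.mem_centralizer_iff.2 fun g _ => by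
      rcases g with j | j <;> simp [add_comm]
      linear_combination hz2)
    have hle : H ≤ (Subgroup.zpowers (DihedralGroup.sr (0 : ZMod (2 ^ (b + 1))))).comap f := by
      rw [hH, Subgroup.closure_le]
      rintro g (rfl | rfl)
      · refine Subgroup.mem_comap.2 ?_
        show DihedralGroup.r (c j0) ∈ _
        rw [hj0, map_natCast, ZMod.natCast_self, ← DihedralGroup.one_def]
        exact one_mem _
      · refine Subgroup.mem_comap.2 ?_
        show DihedralGroup.sr (c 0) ∈ _
        rw [map_zero]
        exact Subgroup.mem_zpowers _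
    obtain ⟨k, hk⟩ := mem_powers_iff_mem_zpowers.2 (hle hzH)
    change DihedralGroup.sr 0 ^ k = DihedralGroup.r (c z) at hk
    rcases Nat.even_or_odd' k with ⟨l, rfl | rfl⟩
    · rw [pow_mul, sq, DihedralGroup.sr_mul_self, one_pow, DihedralGroup.one_def] at hk
      have h0 : c z = 0 := (DihedralGroup.r.inj hk).symm
      rw [hz, map_natCast, ZMod.natCast_eq_zero_iff, pow_succ] at h0
      exact ho ((Nat.mul_dvd_mul_iff_left (Nat.two_pow_pos b)).1 h0)
    · have hodd : ∀ {m : ℕ} (x : DihedralGroup m) (l : ℕ), x * x = 1 → x ^ (2 * l + 1) = x :=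
        fun x l hx => by rw [pow_succ, pow_mul, sq, hx, one_pow, one_mul]
      rw [hodd _ l (DihedralGroup.sr_mul_self _)] at hk
      exact absurd hk (by simp)
  · intro hn'
    have key : ∀ j k : ZMod n, j ≠ 0 → k + k = 0 → ∃ c : ℕ, c • j = k := by
      intro j k hj hk
      have hk' : n ∣ 2 * k.val := by
        rw [← ZMod.natCast_eq_zero_iff, Nat.cast_mul, ZMod.natCast_zmod_val, Nat.cast_two,
          two_mul, hk]
      rcases hn' with hodd | ⟨m, rfl⟩
      · have := Nat.eq_zero_of_dvd_of_lt ((Nat.Coprime.symm (Nat.coprime_two_left.2 hodd)).dvd_of_dvd_mul_left hk') k.val_lt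
        exact ⟨0, by rw [zero_smul, (ZMod.val_eq_zero k).1 this]⟩
      · rcases m with _ | l
        · simp at hn
        have hk0 : k.val = 0 ∨ k.val = 2 ^ l := by
          obtain ⟨t, ht⟩ := hk'
          have := k.val_lt
          have hps := pow_succ 2 l
          rcases t with _ | _ | t
          · left; omega
          · right; omega
          · exfalso; nlinarith
        rcases hk0 with h0 | h0
        · exact ⟨0, by rw [zero_smul, (ZMod.val_eq_zero k).1 h0]⟩
        obtain ⟨v, o, ho, hjv⟩ := Nat.exists_eq_pow_mul_and_not_dvd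
          (show j.val ≠ 0 from fun h => hj ((ZMod.val_eq_zero j).1 h)) 2 (by norm_num)
        have hvl : v ≤ l := by
          by_contra hlt
          have h1 := Nat.le_of_dvd (Nat.pos_of_ne_zero fun h => hj ((ZMod.val_eq_zero j).1 h))
            (hjv ▸ (pow_dvd_pow 2 (show l + 1 ≤ v by omega)).trans (dvd_mul_right _ o))
          have := j.val_lt
          omega
        refine ⟨2 ^ (l - v), ?_⟩
        obtain ⟨q, hq⟩ : ∃ q, o = 2 * q + 1 := ⟨o / 2, by omega⟩
        rw [← ZMod.natCast_zmod_val k, h0, ← ZMod.natCast_zmod_val j, nsmul_eq_mul, ← Nat.cast_mul,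
          hjv, ← mul_assoc, ← pow_add, Nat.sub_add_cancel hvl, hq, mul_add, ← mul_assoc, ← pow_succ,
          Nat.cast_add, Nat.cast_mul, ZMod.natCast_self, zero_mul, zero_add, mul_one]
    intro H hH
    obtain ⟨i, hi⟩ : ∃ i, DihedralGroup.sr i ∈ H := by
      by_contra hall
      push Not at hall
      refine hH (Subgroup.isCyclic_of_le (H' := Subgroup.zpowers (DihedralGroup.r (1 : ZMod n))) ?_)
      rintro (j | j) hj
      · exact ⟨j.val, by simp [zpow_natCast]⟩
      · exact absurd hj (hall j)
    obtain ⟨j, hj0, hj⟩ : ∃ j, j ≠ 0 ∧ DihedralGroup.r j ∈ H := by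
      by_contra hall
      push Not at hall
      refine hH (Subgroup.isCyclic_of_le (H' := Subgroup.zpowers (DihedralGroup.sr i)) ?_)
      rintro (j | j) hj
      · rw [show j = 0 from by_contra fun h => hall j h hj, ← DihedralGroup.one_def]
        exact one_mem _
      · have h1 := mul_mem hi hj
        rw [DihedralGroup.sr_mul_sr] at h1
        rw [show j = i from sub_eq_zero.1 (by_contra fun h => hall _ h h1)]
        exact Subgroup.mem_zpowers _
    have hmem : ∀ k : ZMod n, k + k = 0 → DihedralGroup.r k ∈ H := fun k hk => by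
      obtain ⟨c, rfl⟩ := key j k hj0 hk
      have : ∀ c : ℕ, DihedralGroup.r (c • j) = DihedralGroup.r j ^ c := by
        intro c
        induction c with
        | zero => rw [zero_smul, pow_zero, DihedralGroup.one_def]
        | succ c ih => rw [pow_succ, ← ih, DihedralGroup.r_mul_r, succ_nsmul]
      rw [this]
      exact pow_mem hj c
    intro g hg
    rw [Subgroup.mem_centralizer_iff] at hg
    have hg' := hg _ hi
    rcases g with k | k
    · simp at hg'
      exact hmem k (by linear_combination hg')
    · simp at hg'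
      have h1 := mul_mem hi (hmem (k - i) (by linear_combination hg'))
      rwa [DihedralGroup.sr_mul_r, add_sub_cancel] at h1

end Cfsg.Agent.S3920
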