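import Cfsg.Statements.S3933
import Cfsg.Agent.H25.SylowNumbers

set_option autoImplicit false
open Cfsg

namespace Cfsg.Agent.S3933

/-- If for every prime r the number of Sylow r-subgroups of the finite group G is a prime power or 1, then G is solvable. -/
theorem result {G : Type*} [Group G] [Finite G] (h : ∀ (r : ℕ) [Fact r.Prime], Nat.card (Sylow r G) = 1 ∨ IsPrimePow (Nat.card (Sylow r G))) :
    Group.IsSolvable G := by
  refine H25.isSolvable_of_sylow_numbers (Nat.card G) G rfl fun r hr => ?_
  rcases @h r ⟨hr⟩ with h1 | h1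
  · exact ⟨2, 0, Nat.prime_two, by simpa using h1⟩
  · obtain ⟨s, k, hs, -, he⟩ := (isPrimePow_nat_iff _).mp h1
    exact ⟨s, k, hs, he.symm⟩

end Cfsg.Agent.S3933
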