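import Cfsg.Statements.S3937
import Cfsg.Agent.H51.FStar
import Cfsg.Agent.H21.Wielandt

set_option autoImplicit false
open Cfsg
open scoped commutatorElement

namespace Cfsg.Agent.S3937

/-- Baer's characterization of the Fitting subgroup: in a finite group G, an element g lies in the Fitting subgroup if and only if g is a left Engel element, that is, for every x there is n with [x, g, g, …, g] = 1 (n entries g, [a, b] = aba⁻¹b⁻¹). -/
theorem result {G : Type*} [Group G] [Finite G] (g : G) :
    g ∈ Cfsg.fittingSubgroup G ↔ ∀ x : G, ∃ n : ℕ, (List.replicate n g).foldl (fun a b => a * b * a⁻¹ * b⁻¹) x = 1 := by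
  have hfold : ∀ (n : ℕ) (x : G),
      (List.replicate (n + 1) g).foldl (fun a b => a * b * a⁻¹ * b⁻¹) x =
        (List.replicate n g).foldl (fun a b => a * b * a⁻¹ * b⁻¹) ⁅x, g⁆ := fun n x => by
    rw [List.replicate_succ, List.foldl_cons, commutatorElement_def]
  constructor
  · intro hg x
    haveI := Cfsg.Agent.H51.fittingSubgroup_isNilpotent G
    haveI hFn := Cfsg.Agent.H51.fittingSubgroup_normal G
    obtain ⟨c, hc⟩ := (Subgroup.isNilpotent_iff_lowerCentralSeries (Cfsg.fittingSubgroup G)).mp
      inferInstance
    have key : ∀ (k j : ℕ) (y : G), j + k = c → y ∈ (Cfsg.fittingSubgroup G).lowerCentralSeries j →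
        (List.replicate k g).foldl (fun a b => a * b * a⁻¹ * b⁻¹) y = 1 := by
      intro k
      induction k with
      | zero =>
        intro j y hj hy
        obtain rfl : j = c := by omega
        rw [hc] at hy
        simpa using hy
      | succ k ih =>
        intro j y hj hy
        rw [hfold]
        refine ih (j + 1) _ (by omega) ?_
        rw [Subgroup.lowerCentralSeries_succ]
        exact Subgroup.commutator_mem_commutator hy hg
    refine ⟨c + 1, ?_⟩
    rw [hfold]
    refine key c 0 _ (by omega) ?_
    rw [Subgroup.lowerCentralSeries_zero]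
    exact mul_mem (hFn.conj_mem g hg x) (inv_mem hg)
  · intro h
    have main : ∀ H : Subgroup G, ∀ hg : g ∈ H,
        (Subgroup.zpowers (⟨g, hg⟩ : ↥H)).IsSubnormal := by
      intro H
      induction H using WellFoundedLT.induction with
      | ind H ih =>
        intro hg
        set A := Subgroup.zpowers (⟨g, hg⟩ : ↥H) with hA
        by_contra hns
        have hsub : ∀ L : Subgroup ↥H, A ≤ L → L ≠ ⊤ → (A.subgroupOf L).IsSubnormal := by
          intro L hAL hL
          have hlt : L.map H.subtype < H := by
            refine lt_of_le_of_ne (Subgroup.map_subtype_le _) fun e => hL ?_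
            apply Subgroup.map_injective H.subtype_injective
            rw [e, ← MonoidHom.range_eq_map, Subgroup.range_subtype]
          have hgL : g ∈ L.map H.subtype := ⟨⟨g, hg⟩, hAL (Subgroup.mem_zpowers _), rfl⟩
          have h1 := (ih _ hlt hgL).comap
            (L.equivMapOfInjective H.subtype H.subtype_injective).toMonoidHom
          convert h1 using 1
          ext ⟨⟨a, ha⟩, haL⟩
          rw [Subgroup.mem_subgroupOf, Subgroup.mem_comap, hA, Subgroup.mem_zpowers_iff,
            Subgroup.mem_zpowers_iff]
          refine exists_congr fun k => ⟨fun e => ?_, fun e => ?_⟩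
          · apply Subtype.ext
            simpa using congrArg Subtype.val e
          · apply Subtype.ext
            simpa using congrArg Subtype.val e
        obtain ⟨M, hM, hAM, huniq⟩ := Cfsg.Agent.H21.zipper hsub hns
        by_cases hMn : M.Normal
        · exact hns (Subgroup.IsSubnormal.trans hAM (hsub M hAM hM.1) hMn.isSubnormal)
        have hNM : Subgroup.normalizer (M : Set ↥H) = M := by
          refine le_antisymm ?_ Subgroup.le_normalizer
          rcases eq_or_lt_of_le (Subgroup.le_normalizer (H := M)) with h' | h'
          · exact h'.ge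
          · exact absurd (Subgroup.normalizer_eq_top_iff.mp (hM.2 _ h')) hMn
        have key : ∀ (n : ℕ) (a : ↥H),
            (List.replicate n g).foldl (fun a b => a * b * a⁻¹ * b⁻¹) (a : G) = 1 → a ∈ M := by
          intro n
          induction n with
          | zero => intro a ha; rw [show a = 1 from Subtype.ext (by simpa using ha)]; exact M.one_mem
          | succ n ihn =>
            intro a ha
            rw [hfold] at ha
            have h2 : ⁅a, (⟨g, hg⟩ : ↥H)⁆ ∈ M := ihn _ (by simpa [commutatorElement_def] using ha)
            have h3 : a * ⟨g, hg⟩ * a⁻¹ ∈ M := by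
              have := M.mul_mem h2 (hAM (Subgroup.mem_zpowers _))
              simpa [commutatorElement_def] using this
            let e : ↥H ≃* ↥H := MulAut.conj a⁻¹
            have h4 : M.map e.toMonoidHom = M := by
              refine huniq _ ((OrderIso.isCoatom_iff e.mapSubgroup M).mpr hM) ?_
              rw [Subgroup.zpowers_le]
              exact ⟨_, h3, by simp [e, mul_assoc]⟩
            have h5 : a⁻¹ ∈ Subgroup.normalizer (M : Set ↥H) :=
              Subgroup.mem_normalizer_iff_map_conj_eq.mpr h4
            rw [hNM] at h5
            simpa using M.inv_mem h5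
        obtain ⟨x, -, hx⟩ := SetLike.exists_of_lt hM.1.lt_top
        obtain ⟨n, hn⟩ := h (x : G)
        exact hx (key n x hn)
    have hsn : (Subgroup.zpowers g).IsSubnormal := by
      have h1 := Subgroup.IsSubnormal.map
        (f := (Subgroup.topEquiv (G := G)).toMonoidHom) (Subgroup.topEquiv (G := G)).surjective
        (main ⊤ (Subgroup.mem_top g))
      rwa [MonoidHom.map_zpowers] at h1
    haveI : Group.IsNilpotent ↥(Subgroup.zpowers g) := open scoped IsMulCommutative in inferInstance
    exact Cfsg.Agent.H51.le_fittingSubgroup_of_subnormal hsn (Subgroup.mem_zpowers g)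

end Cfsg.Agent.S3937
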