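import Cfsg.Statements.S3941
-- import your own Cfsg.Agent.* helpers here

set_option autoImplicit false
open Cfsg

namespace Cfsg.Agent.S3941

/-- Let n ≥ 5 and p an odd prime with p ≤ n, and suppose that every proper subgroup of the alternating group of degree n whose order is divisible by p has a normal Sylow p-subgroup. Then n = p. -/
theorem result (n p : ℕ) (hn : 5 ≤ n) [Fact p.Prime] (hp : p ≠ 2) (hpn : p ≤ n)
    (h : ∀ H : Subgroup ↥(alternatingGroup (Fin n)), H ≠ ⊤ → p ∣ Nat.card ↥H → Cfsg.IsPClosed p ↥H) : n = p := by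
  classical
  by_contra hne
  have hpn' : p ≤ n - 1 := by omega
  have hp3 : 3 ≤ p := by have := (Fact.out : p.Prime).two_le; omega
  set ι : Fin (n - 1) ↪ Fin n := Fin.castLEEmb (by omega) with hι
  let F : Equiv.Perm (Fin (n - 1)) →* Equiv.Perm (Fin n) := Equiv.Perm.extendDomainHom (Equiv.ofInjective ι ι.injective)
  have hFs : ∀ e, Equiv.Perm.sign (F e) = Equiv.Perm.sign e := fun e => by
    exact Equiv.Perm.sign_extendDomain _ _
  let f : ↥(alternatingGroup (Fin (n - 1))) →* ↥(alternatingGroup (Fin n)) :=
    (F.comp (alternatingGroup (Fin (n - 1))).subtype).codRestrict _ fun e => by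
      rw [Equiv.Perm.mem_alternatingGroup, MonoidHom.comp_apply, hFs]
      exact e.2
  have hinj : Function.Injective f := fun a b hab =>
    Subtype.ext (Equiv.Perm.extendDomainHom_injective _ (congrArg Subtype.val hab))
  have hcard : ∀ m, 2 ≤ m → 2 * Nat.card ↥(alternatingGroup (Fin m)) = m.factorial := fun m hm => by
    have : Nontrivial (Fin m) := Fin.nontrivial_iff_two_le.2 hm
    rw [Nat.card_eq_fintype_card, two_mul_card_alternatingGroup, Fintype.card_perm, Fintype.card_fin]
  have hHcard : Nat.card f.range = Nat.card ↥(alternatingGroup (Fin (n - 1))) :=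
    (Nat.card_congr (MonoidHom.ofInjective hinj).toEquiv).symm
  have hHtop : f.range ≠ ⊤ := fun ht => by
    rw [ht, Subgroup.card_top] at hHcard
    have h1 := hcard n (by omega)
    have h2 := hcard (n - 1) (by omega)
    have h3 : (n - 1).factorial < n.factorial := (Nat.factorial_lt (by omega)).2 (by omega)
    omega
  have hdvdH : p ∣ Nat.card ↥(alternatingGroup (Fin (n - 1))) := by
    have h1 : p ∣ (n - 1).factorial := Nat.dvd_factorial (by omega) hpn'
    rw [← hcard (n - 1) (by omega)] at h1
    exact ((Nat.Coprime.dvd_mul_left ((Nat.coprime_primes (Fact.out : p.Prime) Nat.prime_two).2 hp)).1 h1)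
  have hclosed := h f.range hHtop (hHcard ▸ hdvdH)
  obtain ⟨P⟩ := (inferInstance : Nonempty (Sylow p ↥(alternatingGroup (Fin (n - 1)))))
  have hPn : (P : Subgroup ↥(alternatingGroup (Fin (n - 1)))).Normal := by
    have h1 := hclosed (P.mapSurjective (MonoidHom.ofInjective hinj).surjective)
    change ((P : Subgroup ↥(alternatingGroup (Fin (n - 1)))).map (MonoidHom.ofInjective hinj).toMonoidHom).Normal at h1
    have h2 := h1.comap (MonoidHom.ofInjective hinj).toMonoidHom
    rwa [Subgroup.comap_map_eq_self_of_injective (f := (MonoidHom.ofInjective hinj).toMonoidHom)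
      (MonoidHom.ofInjective hinj).injective] at h2
  have hPne : (P : Subgroup ↥(alternatingGroup (Fin (n - 1)))) ≠ ⊥ := fun hbot =>
    P.ne_bot_of_dvd_card hdvdH hbot
  by_cases h6 : 6 ≤ n
  · have hs : IsSimpleGroup ↥(alternatingGroup (Fin (n - 1))) :=
      alternatingGroup.isSimpleGroup (by rw [Nat.card_fin]; omega)
    rcases hs.eq_bot_or_eq_top_of_normal _ hPn with h1 | h1
    · exact hPne h1
    · obtain ⟨k, hk⟩ := IsPGroup.iff_card.1 P.2
      rw [h1, Subgroup.card_top] at hk
      have h2 := hcard (n - 1) (by omega)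
      have h4 : 2 * 2 ∣ (n - 1).factorial := Nat.dvd_factorial (by norm_num) (by omega)
      rw [← h2, hk] at h4
      have h5 := Nat.prime_two.dvd_of_dvd_pow (Nat.dvd_of_mul_dvd_mul_left two_pos h4)
      exact hp ((Nat.prime_dvd_prime_iff_eq Nat.prime_two Fact.out).1 h5).symm
  · obtain rfl : n = 5 := by omega
    obtain rfl : p = 3 := by
      rcases (by omega : p = 3 ∨ p = 4) with h | h
      · exact h
      · exact absurd (h ▸ (Fact.out : p.Prime)) (by norm_num)
    have hk : Nat.card P = 3 := by
      obtain ⟨k, hk⟩ := IsPGroup.iff_card.1 P.2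
      have h12 : Nat.card ↥(alternatingGroup (Fin (5 - 1))) = 12 := by
        have := hcard 4 (by norm_num)
        rw [show Nat.factorial 4 = 24 from rfl] at this
        show Nat.card ↥(alternatingGroup (Fin 4)) = 12
        omega
      have hd : Nat.card P ∣ 12 := h12 ▸ Subgroup.card_subgroup_dvd_card _
      have hne1 : Nat.card P ≠ 1 := fun h1 => hPne (Subgroup.card_eq_one.1 h1)
      rcases k with _ | _ | k
      · exact absurd hk hne1
      · exact hk
      · exfalso
        rw [hk, pow_succ, pow_succ, mul_assoc] at hd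
        have h9 := (dvd_mul_left (3 * 3) (3 ^ k)).trans hd
        norm_num at h9
    have hall : ∀ x : ↥(alternatingGroup (Fin 4)), x ^ 3 = 1 → x ∈ (P : Subgroup ↥(alternatingGroup (Fin 4))) := fun x hx => by
      have hzp : IsPGroup 3 (Subgroup.zpowers x) := by
        intro y
        obtain ⟨i, hi⟩ := y.2
        refine ⟨1, Subtype.ext ?_⟩
        show (y : ↥(alternatingGroup (Fin 4))) ^ 3 ^ 1 = 1
        rw [← hi, pow_one, ← zpow_natCast, ← zpow_mul, mul_comm, zpow_mul, zpow_natCast, hx, one_zpow]
      obtain ⟨Q, hQ⟩ := hzp.exists_le_sylow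
      have := Sylow.unique_of_normal P hPn
      rw [Subsingleton.elim P Q]
      exact hQ (Subgroup.mem_zpowers x)
    have h9 : 9 ≤ Nat.card P := by
      have h1 : Nat.card {x : ↥(alternatingGroup (Fin 4)) // x ^ 3 = 1} = 9 := by
        rw [Nat.card_eq_fintype_card]; decide
      rw [← h1]
      exact Nat.card_le_card_of_injective (fun x => (⟨x.1, hall x.1 x.2⟩ : P))
        fun a b hab => Subtype.ext (congrArg (fun z : P => (z : ↥(alternatingGroup (Fin 4)))) hab)
    omega

end Cfsg.Agent.S3941
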