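import Cfsg.Statements.S3946
import Cfsg.Agent.H86.Kegel


set_option autoImplicit false
open Cfsg

namespace Cfsg.Agent.S3946

/-- Call an automorphism α of order n of a group G splitting when x · α(x) · α²(x) ⋯ α^(n−1)(x) = 1 for every x ∈ G. A finite group admitting a splitting automorphism of prime order is nilpotent (this contains the case of a fixed-point-free automorphism of prime order). -/
theorem result {G : Type*} [Group G] [Finite G] (α : MulAut G) (hp : (orderOf α).Prime)
    (hsplit : ∀ x : G, (((List.range (orderOf α)).map (fun i : ℕ => (α ^ i) x)).prod = 1)) : Group.IsNilpotent G := by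
  classical
  haveI := Fact.mk hp
  set p := orderOf α with hpdef
  let A := Subgroup.zpowers α
  let φ : A →* MulAut G := A.subtype
  let H := G ⋊[φ] A
  haveI : Finite H := Finite.of_equiv (G × A) SemidirectProduct.equivProd.symm
  let G' : Subgroup H := (SemidirectProduct.rightHom : H →* A).ker
  have hidx : G'.index = p := by
    rw [Subgroup.index_ker, MonoidHom.range_eq_top.2 SemidirectProduct.rightHom_surjective, Subgroup.card_top,
      Nat.card_zpowers]
  let a : A := ⟨α, Subgroup.mem_zpowers α⟩
  have ha : a ^ p = 1 := Subtype.ext (pow_orderOf_eq_one α)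
  -- the powers of the elements of the coset of `α`
  have hpow : ∀ (y : G) (n : ℕ), ((SemidirectProduct.inl y : H) * SemidirectProduct.inr a) ^ n =
      SemidirectProduct.inl (((List.range n).map (fun i : ℕ => (α ^ i) y)).prod) * SemidirectProduct.inr (a ^ n) := by
    intro y n
    induction n with
    | zero => simp
    | succ n ih =>
      rw [pow_succ, ih, List.range_succ, List.map_append, List.prod_append]
      apply SemidirectProduct.ext
      · simp [φ, a]
      · simp [pow_succ]
  have hy1 : ∀ y : G, ((SemidirectProduct.inl y : H) * SemidirectProduct.inr a) ^ p = 1 := fun y => by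
    rw [hpow, ha, hsplit y, map_one, map_one, one_mul]
  have hout : ∀ x ∉ G', x ^ p = 1 := by
    intro x hx
    have hx' : x.right ≠ 1 := hx
    obtain ⟨i, hi, hie⟩ : ∃ i < p, x.right = a ^ i := by
      obtain ⟨i, hi, he⟩ := (IsOfFinOrder.mem_zpowers_iff_mem_range_orderOf (isOfFinOrder_of_finite α)).1 x.right.2 |> fun h => by
        simpa using h
      exact ⟨i, hi, Subtype.ext he.symm⟩
    have hi0 : i ≠ 0 := fun e => hx' (by rw [hie, e, pow_zero])
    let f : G → G := fun y => (((SemidirectProduct.inl y : H) * SemidirectProduct.inr a) ^ i).left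
    have hf : Function.Injective f := by
      intro y y' e
      have e' : ((SemidirectProduct.inl y : H) * SemidirectProduct.inr a) ^ i =
          ((SemidirectProduct.inl y' : H) * SemidirectProduct.inr a) ^ i := by
        refine SemidirectProduct.ext e ?_
        rw [hpow, hpow]; simp
      obtain ⟨m, hm⟩ := Nat.exists_mul_mod_eq_one_of_coprime
        (hp.coprime_iff_not_dvd.2 (Nat.not_dvd_of_pos_of_lt (by omega) hi)).symm hp.one_lt
      have key : ∀ g : H, g ^ p = 1 → (g ^ i) ^ m = g := fun g hg => by
        rw [← pow_mul, ← Nat.div_add_mod (i * m) p, hm.2, pow_succ, pow_mul, hg, one_pow, one_mul]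
      have h1 := key _ (hy1 y)
      rw [e', key _ (hy1 y')] at h1
      simpa using (congrArg SemidirectProduct.left h1).symm
    obtain ⟨y, hy⟩ := Finite.surjective_of_injective hf x.left
    have hxe : x = ((SemidirectProduct.inl y : H) * SemidirectProduct.inr a) ^ i := by
      refine SemidirectProduct.ext hy.symm ?_
      rw [hpow, hie, SemidirectProduct.mul_right, SemidirectProduct.right_inl, SemidirectProduct.right_inr, one_mul]
    rw [hxe, ← pow_mul, mul_comm, pow_mul, hy1, one_pow]
  haveI := H86.Kegel.isNilpotent_aux p (Nat.card H) H rfl G' ⟨inferInstance, hidx, hout⟩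
  let e : G →* G' := (SemidirectProduct.inl : G →* H).codRestrict G' fun x => SemidirectProduct.right_inl (φ := φ) x
  exact Group.nilpotent_of_mulEquiv (MonoidHom.ofInjective (f := e) fun x y h =>
    SemidirectProduct.inl_injective (congrArg Subtype.val h)).symm

end Cfsg.Agent.S3946
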