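import Cfsg.Statements.S3949


set_option autoImplicit false
open Cfsg

namespace Cfsg.Agent.S3949

/-- Let G be a finite group and α an automorphism of G of order 2 such that the elements g·α(g)⁻¹ generate G. Let j be a positive integer such that 2^j divides the order of no element inverted by α. Then the set of values of the j-th iterate of the map c ↦ c·α(c)⁻¹ is exactly the set of elements of odd order inverted by α. -/
theorem result {G : Type*} [Group G] [Finite G] (α : MulAut G) (hα : orderOf α = 2) (hG : Subgroup.closure (Set.range (fun c : G => c * (α c)⁻¹)) = ⊤)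
    (j : ℕ) (hj : ∀ g : G, α g = g⁻¹ → ¬ 2 ^ j ∣ orderOf g) :
    Set.range ((fun c : G => c * (α c)⁻¹)^[j]) = {g : G | Odd (orderOf g) ∧ α g = g⁻¹} := by
  set f : G → G := fun c => c * (α c)⁻¹ with hf
  have hα2 : ∀ c, α (α c) = c := fun c => by
    have h1 : α ^ 2 = 1 := hα ▸ pow_orderOf_eq_one α
    have h2 := DFunLike.congr_fun h1 c
    simpa [pow_two, MulAut.mul_apply] using h2
  have hinv : ∀ c, α (f c) = (f c)⁻¹ := fun c => by simp [hf, hα2]
  have hsq : ∀ g, α g = g⁻¹ → f g = g ^ 2 := fun g hg => by simp [hf, hg, pow_two]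
  have hj1 : 1 ≤ j := by
    rcases Nat.eq_zero_or_pos j with rfl | h
    · exact absurd (by simp) (hj 1 (by simp))
    · exact h
  have hit : ∀ (i : ℕ) (g : G), α g = g⁻¹ → f^[i] g = g ^ (2 ^ i) := by
    intro i
    induction i with
    | zero => intro g _; simp
    | succ i ih =>
      intro g hg
      rw [Function.iterate_succ_apply, hsq g hg, ih _ (by rw [map_pow, hg, inv_pow]), ← pow_mul, pow_succ']
  ext x
  constructor
  · rintro ⟨c, rfl⟩
    obtain ⟨i, rfl⟩ : ∃ i, j = i + 1 := ⟨j - 1, by omega⟩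
    rw [Function.iterate_succ_apply, hit i _ (hinv c)]
    refine ⟨?_, by rw [map_pow, hinv, inv_pow]⟩
    set g := f c
    obtain ⟨a, m, hm, hgm⟩ := Nat.exists_eq_two_pow_mul_odd (orderOf_pos g).ne'
    have ha : a ≤ i := by
      by_contra hlt
      exact hj g (hinv c) (hgm ▸ (Nat.pow_dvd_pow 2 (show i + 1 ≤ a by omega)).mul_right m)
    refine hm.of_dvd_nat (orderOf_dvd_of_pow_eq_one ?_)
    rw [← pow_mul, show 2 ^ i * m = 2 ^ (i - a) * (2 ^ a * m) by rw [← mul_assoc, ← pow_add, Nat.sub_add_cancel ha],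
      ← hgm, mul_comm, pow_mul, pow_orderOf_eq_one, one_pow]
  · rintro ⟨hx, hxi⟩
    have hcop : (orderOf x).Coprime (2 ^ j) := (Nat.coprime_two_right.2 hx).pow_right j
    obtain ⟨k, hk⟩ := exists_pow_eq_self_of_coprime hcop.symm
    refine ⟨x ^ k, ?_⟩
    rw [hit j _ (by rw [map_pow, hxi, inv_pow]), ← pow_mul, mul_comm, pow_mul, hk]

end Cfsg.Agent.S3949
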