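import Cfsg.Statements.S3982
import Cfsg.Agent.H86.Basic
import Cfsg.Agent.H86.SylowTI
import Cfsg.Agent.H28.BaerSuzuki
import Cfsg.Agent.H21.Fpf
import Cfsg.Agent.H56.Coprime


set_option autoImplicit false
open Cfsg

namespace Cfsg.Agent.S3982

/-- The normalizer of a subgroup normalizes its centralizer. -/
theorem normalizer_le_normalizer_centralizer' {G : Type*} [Group G] (R : Subgroup G) :
    Subgroup.normalizer (R : Set G) ≤ Subgroup.normalizer ((Subgroup.centralizer (R : Set G) : Subgroup G) : Set G) := by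
  have key : ∀ a ∈ Subgroup.normalizer (R : Set G), ∀ c ∈ Subgroup.centralizer (R : Set G),
      a * c * a⁻¹ ∈ Subgroup.centralizer (R : Set G) := by
    intro a ha c hc
    rw [Subgroup.mem_centralizer_iff] at hc ⊢
    intro r hr
    have h1 : a⁻¹ * r * a ∈ R := by simpa using (Subgroup.mem_normalizer_iff.1 (inv_mem ha) r).1 hr
    calc r * (a * c * a⁻¹) = a * ((a⁻¹ * r * a) * c) * a⁻¹ := by group
      _ = a * (c * (a⁻¹ * r * a)) * a⁻¹ := by rw [hc _ h1]
      _ = _ := by group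
  intro a ha
  rw [Subgroup.mem_normalizer_iff]
  intro c
  refine ⟨key a ha c, fun hc => ?_⟩
  simpa [mul_assoc] using key a⁻¹ (inv_mem ha) _ hc

/-- Let p be an odd prime and G a finite group of even order divisible by p in which the centralizer of every non-identity p-element has odd order. If some nontrivial p-subgroup of G has a normalizer of even order, then the normalizer of every Sylow p-subgroup of G has even order. -/
theorem result {G : Type*} [Group G] [Finite G] (p : ℕ) [Fact p.Prime] (hp2 : p ≠ 2) (hpG : p ∣ Nat.card G) (h2G : 2 ∣ Nat.card G) (hC : ∀ g : G, g ≠ 1 → (∃ k : ℕ, orderOf g = p ^ k) → Odd (Nat.card ↥(Subgroup.centralizer ({g} : Set G)))) (Q : Subgroup G) (hQ : IsPGroup p ↥Q) (hQ1 : Q ≠ ⊥) (hev : Even (Nat.card ↥(Subgroup.normalizer (Q : Set G)))) (P : Sylow p G) : Even (Nat.card ↥(Subgroup.normalizer ((P : Subgroup G) : Set G))) := by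

  classical
  obtain ⟨t, ht⟩ := exists_prime_orderOf_dvd_card' (G := Subgroup.normalizer (Q : Set G)) 2 (even_iff_two_dvd.1 hev)
  have hto : orderOf (t : G) = 2 := by rw [Subgroup.orderOf_coe, ht]
  have ht2 : (t : G) ^ 2 = 1 := by rw [← hto, pow_orderOf_eq_one]
  -- a maximal t-invariant p-subgroup containing Q
  obtain ⟨R, -, hR⟩ := (Set.toFinite {R : Subgroup G | IsPGroup p R ∧ Q ≤ R ∧ (t : G) ∈ Subgroup.normalizer (R : Set G)}).exists_le_maximal ⟨hQ, le_rfl, t.2⟩
  obtain ⟨⟨hRp, hQR, htR⟩, hmax⟩ := hR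
  have hR1 : R ≠ ⊥ := fun h => hQ1 (eq_bot_iff.2 (h ▸ hQR))
  obtain ⟨S, hS⟩ := hRp.exists_le_sylow
  suffices hRS : R = S by
    obtain ⟨c, hc⟩ := MulAction.exists_smul_eq G S P
    rw [← hc, even_iff_two_dvd, ← hto]
    have hmem : c * (t : G) * c⁻¹ ∈ Subgroup.normalizer (((c • S : Sylow p G) : Subgroup G) : Set G) := by
      refine Sylow.smul_eq_iff_mem_normalizer.1 ?_
      rw [mul_smul, mul_smul, inv_smul_smul]
      congr 1
      refine Sylow.smul_eq_iff_mem_normalizer.2 ?_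
      show (t : G) ∈ Subgroup.normalizer ((S : Subgroup G) : Set G)
      rw [← hRS]
      exact htR
    have := Subgroup.orderOf_dvd_natCard _ hmem
    rwa [show orderOf (c * (t : G) * c⁻¹) = orderOf (t : G) from
      orderOf_injective (MulAut.conj c).toMonoidHom (MulAut.conj c).injective (t : G)] at this
  by_contra hne
  have hodd : ∀ g ∈ R, g ≠ 1 → Odd (Nat.card ↥(Subgroup.centralizer ({g} : Set G))) := fun g hg hg1 =>
    hC g hg1 (H86.exists_orderOf_eq_pow_of_mem hRp hg)
  have hnc : ∀ g ∈ R, g ≠ 1 → g * (t : G) ≠ (t : G) * g := fun g hg hg1 h => by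
    have hmem : (t : G) ∈ Subgroup.centralizer ({g} : Set G) := Subgroup.mem_centralizer_singleton_iff.2 h.symm
    have h1 := Subgroup.orderOf_dvd_natCard _ hmem
    rw [hto] at h1
    exact Nat.not_even_iff_odd.2 (hodd g hg hg1) (even_iff_two_dvd.2 h1)
  -- t inverts R, which is abelian
  let φ : MulAut R := (R.normalizerMonoidHom ⟨t, htR⟩ : MulAut R)
  have hφ : MonoidHom.FixedPointFree φ := by
    intro g hg
    by_contra h1
    refine hnc g g.2 (fun h => h1 (Subtype.ext h)) ?_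
    have h2 : (t : G) * g * (t : G)⁻¹ = g := congrArg Subtype.val hg
    exact (mul_inv_eq_iff_eq_mul.1 h2).symm
  have hinvol : Function.Involutive φ := fun g => Subtype.ext (by
    show (t : G) * ((t : G) * g * (t : G)⁻¹) * (t : G)⁻¹ = g
    have h2 : (t : G) * t = 1 := by rw [← pow_two, ht2]
    rw [inv_eq_of_mul_eq_one_right h2]
    simp [← mul_assoc, h2]
    rw [mul_assoc, h2, mul_one])
  have hinv : ∀ g ∈ R, (t : G) * g * (t : G)⁻¹ = g⁻¹ := fun g hg =>
    congrArg Subtype.val (congrFun (hφ.coe_eq_inv_of_involutive hinvol) ⟨g, hg⟩)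
  have hab : ∀ a b : R, a * b = b * a := fun a b => hφ.commute_all_of_involutive hinvol a b
  set C := Subgroup.centralizer (R : Set G)
  have hRC : R ≤ C := fun a ha => Subgroup.mem_centralizer_iff.2 fun b hb =>
    congrArg Subtype.val (hab ⟨b, hb⟩ ⟨a, ha⟩)
  have hCodd : Odd (Nat.card C) := by
    obtain ⟨g, hg, hg1⟩ := (Subgroup.bot_or_exists_ne_one R).resolve_left hR1
    exact (hodd g hg hg1).of_dvd_nat (Subgroup.card_dvd_of_le (Subgroup.centralizer_le (Set.singleton_subset_iff.2 hg)))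
  -- p-elements of N(R) centralize R
  have hpel : ∀ g ∈ Subgroup.normalizer (R : Set G), (∃ k, orderOf g = p ^ k) → g ∈ C := by
    intro g hg hgp
    set N := Subgroup.normalizer (R : Set G)
    have htgC : g * (t : G) * g⁻¹ * (t : G)⁻¹ ∈ C := by
      refine Subgroup.mem_centralizer_iff.2 fun u hu => ?_
      have h1 : g⁻¹ * u * g ∈ R := by
        simpa using (Subgroup.mem_normalizer_iff.1 (inv_mem hg) u).1 hu
      have h2 := hinv _ h1
      have h3 : (t : G)⁻¹ * u * (t : G) = u⁻¹ := by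
        have h4 := hinv _ (R.inv_mem hu)
        rw [inv_inv] at h4
        calc (t : G)⁻¹ * u * (t : G) = (t : G)⁻¹ * ((t : G) * u⁻¹ * (t : G)⁻¹) * (t : G) := by rw [h4]
          _ = u⁻¹ := by group
      calc u * (g * (t : G) * g⁻¹ * (t : G)⁻¹)
          = g * ((g⁻¹ * u * g)⁻¹)⁻¹ * (t : G) * g⁻¹ * (t : G)⁻¹ := by group
        _ = g * ((t : G) * (g⁻¹ * u * g) * (t : G)⁻¹)⁻¹ * (t : G) * g⁻¹ * (t : G)⁻¹ := by rw [h2]
        _ = g * (t : G) * g⁻¹ * u⁻¹ * (t : G)⁻¹ := by group
        _ = g * (t : G) * g⁻¹ * ((t : G)⁻¹ * u * (t : G)) * (t : G)⁻¹ := by rw [h3]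
        _ = g * (t : G) * g⁻¹ * (t : G)⁻¹ * u := by group
    have hnC : (t : G) ∈ Subgroup.normalizer (C : Set G) := normalizer_le_normalizer_centralizer' _ htR
    obtain ⟨c, hc, hce⟩ := H56.exists_conj_of_coset_of_coprime 2 C (t : G) (g * (t : G) * g⁻¹) hnC ht2
      (by rw [conj_pow, ht2]; group) htgC (Nat.coprime_two_left.2 hCodd)
    have hCN : C ≤ N := Subgroup.centralizer_le_normalizer _
    haveI : (C.subgroupOf N).Normal := Subgroup.normal_subgroupOf_of_le_normalizer (normalizer_le_normalizer_centralizer' _)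
    let π := QuotientGroup.mk' (C.subgroupOf N)
    have hmem : c * g ∈ N := Subgroup.mul_mem _ (hCN hc) hg
    have heq : π ⟨g, hg⟩ = π ⟨c * g, hmem⟩ := by
      have : (⟨c * g, hmem⟩ : N) = ⟨c, hCN hc⟩ * ⟨g, hg⟩ := rfl
      rw [this, map_mul, show π ⟨c, hCN hc⟩ = 1 from (QuotientGroup.eq_one_iff _).2 hc, one_mul]
    have hone : π ⟨g, hg⟩ = 1 := by
      obtain ⟨k, hk⟩ := hgp
      rw [← orderOf_eq_one_iff]
      obtain ⟨i, -, hi⟩ := (Nat.dvd_prime_pow Fact.out).1 (hk ▸ (Subgroup.orderOf_mk g hg ▸ orderOf_map_dvd π ⟨g, hg⟩))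
      by_contra hne1
      have hi0 : i ≠ 0 := fun h => hne1 (by rw [hi, h, pow_zero])
      have hpd : p ∣ orderOf (c * g) := by
        refine (dvd_pow_self p hi0).trans (hi ▸ ?_)
        rw [heq]
        exact (orderOf_map_dvd π _).trans (by rw [Subgroup.orderOf_mk])
      have hord : orderOf ((c * g) ^ (orderOf (c * g) / p)) = p := orderOf_pow_orderOf_div (orderOf_pos _).ne' hpd
      set u := (c * g) ^ (orderOf (c * g) / p)
      have htu : Commute (c * g) (t : G) := by
        have h8 : (c * g) * (t : G) * (c * g)⁻¹ = t := by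
          rw [show (c * g) * (t : G) * (c * g)⁻¹ = c * (g * (t : G) * g⁻¹) * c⁻¹ by group, hce]
        exact mul_inv_eq_iff_eq_mul.1 h8
      have hmem2 : (t : G) ∈ Subgroup.centralizer ({u} : Set G) :=
        Subgroup.mem_centralizer_singleton_iff.2 (htu.pow_left (orderOf (c * g) / p)).symm.eq
      have hu1 : u ≠ 1 := fun h => by rw [h, orderOf_one] at hord; exact (Fact.out : p.Prime).ne_one hord.symm
      have h1 := Subgroup.orderOf_dvd_natCard _ hmem2
      rw [hto] at h1
      exact Nat.not_even_iff_odd.2 (hC u hu1 ⟨1, by rw [hord, pow_one]⟩) (even_iff_two_dvd.2 h1)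
    exact (QuotientGroup.eq_one_iff (N := C.subgroupOf N) (⟨g, hg⟩ : N)).1 hone
  obtain ⟨g, hgS, hgR, hgN⟩ := H28.exists_mem_normalizer_not_mem S.2 hS hne
  have hgC := hpel g hgN (H86.exists_orderOf_eq_pow_of_mem S.2 hgS)
  -- t fixes a Sylow p-subgroup of C(R)
  have hnC : (t : G) ∈ Subgroup.normalizer (C : Set G) := normalizer_le_normalizer_centralizer' _ htR
  let ψ : Subgroup.zpowers (t : G) →* MulAut C := C.normalizerMonoidHom.comp (Subgroup.inclusion (Subgroup.zpowers_le.2 hnC))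
  have h2C : ¬ 2 ∣ Nat.card C := fun h => Nat.not_even_iff_odd.2 hCodd (even_iff_two_dvd.2 h)
  obtain ⟨T, hT⟩ := H21.exists_sylow_fixed (p := 2)
    (IsPGroup.of_card (n := 1) (by rw [Nat.card_zpowers, hto, pow_one]) : IsPGroup 2 (Subgroup.zpowers (t : G))) ψ h2C p
  let T' := (T : Subgroup C).map C.subtype
  have htT : (t : G) ∈ Subgroup.normalizer (T' : Set G) := by
    have h1 : ∀ e : Subgroup.zpowers (t : G), ∀ v ∈ T', (e : G) * v * (e : G)⁻¹ ∈ T' := by
      rintro e _ ⟨v, hv, rfl⟩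
      have h3 : ψ e v ∈ (T : Subgroup C) := hT e ▸ ⟨v, hv, rfl⟩
      exact ⟨ψ e v, h3, rfl⟩
    rw [Subgroup.mem_normalizer_iff]
    intro v
    refine ⟨h1 ⟨t, Subgroup.mem_zpowers _⟩ v, fun h => ?_⟩
    simpa [mul_assoc] using h1 ⟨(t : G)⁻¹, Subgroup.inv_mem _ (Subgroup.mem_zpowers _)⟩ _ h
  have hRT : R ≤ T' := by
    intro r hr
    haveI : (R.subgroupOf C).Normal := Subgroup.normal_subgroupOf_of_le_normalizer (Subgroup.centralizer_le_normalizer _)
    have := H86.le_sylow_of_normalizes T ((hRp.comap_of_injective C.subtype C.subtype_injective) : IsPGroup p ↥(R.subgroupOf C)) (fun v hv => by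
      rw [Subgroup.mem_normalizer_iff]
      intro w
      have h : v * w * v⁻¹ = w := by
        refine Subtype.ext ?_
        have h5 : (v : G) * w = w * v := Subgroup.mem_centralizer_iff.1 w.2 _ hv
        show (v : G) * w * (v : G)⁻¹ = w
        rw [h5, mul_inv_cancel_right]
      rw [h])
    exact ⟨⟨r, hRC hr⟩, this hr, rfl⟩
  have hT'eq : T' = R := le_antisymm (hmax ⟨T.2.map _, hQR.trans hRT, htT⟩ hRT) hRT
  have hcyc : IsPGroup p ↥(R ⊔ Subgroup.zpowers g) := (hRp.to_sup_of_normal_left'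
    ((S.2).to_le (Subgroup.zpowers_le.2 hgS)) (Subgroup.zpowers_le.2 hgN))
  have hle : R ⊔ Subgroup.zpowers g ≤ C := sup_le hRC (Subgroup.zpowers_le.2 hgC)
  obtain ⟨T2, hT2⟩ := (hcyc.comap_of_injective C.subtype C.subtype_injective).exists_le_sylow
  have hcardle : Nat.card ↥(R ⊔ Subgroup.zpowers g) ≤ Nat.card T' := by
    rw [show Nat.card T' = Nat.card (T : Subgroup C) from Subgroup.card_subtype _ _, T.card_eq_multiplicity,
      ← T2.card_eq_multiplicity,
      ← Nat.card_congr (Subgroup.subgroupOfEquivOfLe hle).toEquiv]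
    exact Nat.card_le_card_of_injective _ (Subgroup.inclusion_injective hT2)
  rw [hT'eq] at hcardle
  have := Subgroup.eq_of_le_of_card_ge (le_sup_left : R ≤ R ⊔ Subgroup.zpowers g) hcardle
  exact hgR (this.symm ▸ Subgroup.mem_sup_right (Subgroup.mem_zpowers g))

end Cfsg.Agent.S3982
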