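import Cfsg.Statements.S3983
import Cfsg.Agent.H86.SylowTI


set_option autoImplicit false
open scoped Pointwise
open Cfsg

namespace Cfsg.Agent.S3983

/-- Let P be a Sylow p-subgroup of the finite group G that meets each conjugate g P g⁻¹ with g outside N_G(P) trivially, and let U be a subgroup of G of order divisible by p. Then a Sylow p-subgroup Q of U has the same property inside U: Q meets each conjugate u Q u⁻¹ with u ∈ U outside N_U(Q) trivially. -/
theorem result {G : Type*} [Group G] [Finite G] (p : ℕ) [Fact p.Prime] (P : Sylow p G) (hTI : ∀ g : G, g ∉ Subgroup.normalizer ((P : Subgroup G) : Set G) → (P : Subgroup G) ⊓ (MulAut.conj g • (P : Subgroup G)) = ⊥) (U : Subgroup G) (hU : p ∣ Nat.card ↥U) (Q : Sylow p ↥U) : ∀ u : ↥U, u ∉ Subgroup.normalizer ((Q : Subgroup ↥U) : Set ↥U) → (Q : Subgroup ↥U) ⊓ (MulAut.conj u • (Q : Subgroup ↥U)) = ⊥ := by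
  intro u hu
  rw [eq_bot_iff]
  intro x hx
  obtain ⟨hxQ, hxu⟩ := hx
  by_contra hx1
  rw [Subgroup.mem_bot] at hx1
  apply hu
  obtain ⟨R, hR⟩ := (Q.2.map U.subtype).exists_le_sylow
  have hsub : ∀ v : U, v ∈ (Q : Subgroup U) → (v : G) ∈ R := fun v hv => hR ⟨v, hv, rfl⟩
  have hmax : (R : Subgroup G).subgroupOf U = Q := by
    refine Q.3 ((R.2.comap_of_injective _ U.subtype_injective)) ?_
    intro v hv; exact hsub v hv
  have hxu' : u⁻¹ * x * u ∈ (Q : Subgroup U) := H86.mem_conj_smul_iff.1 hxu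
  have hx2 : (x : G) ∈ ((u : G) • R : Sylow p G) := by
    rw [← SetLike.mem_coe, Sylow.coe_smul]
    exact H86.mem_conj_smul_iff.2 (hsub _ hxu')
  have heq := H86.sylow_eq_of_ti hTI R ((u : G) • R) (hsub x hxQ) hx2 (fun h => hx1 (Subtype.ext h))
  have hn : (u : G) ∈ Subgroup.normalizer ((R : Subgroup G) : Set G) :=
    Sylow.smul_eq_iff_mem_normalizer.1 heq.symm
  rw [← hmax, Subgroup.mem_normalizer_iff]
  intro v
  exact Subgroup.mem_normalizer_iff.1 hn v

end Cfsg.Agent.S3983
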