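import Cfsg.Statements.S3984
import Cfsg.Agent.H86.SylowTI
import Cfsg.Agent.H56.Coprime


set_option autoImplicit false
open scoped Pointwise
open Cfsg

namespace Cfsg.Agent.S3984

/-- Let P be a Sylow p-subgroup of the finite group G that meets each conjugate g P g⁻¹ with g outside N_G(P) trivially, and let N be a normal subgroup of G of order prime to p. Then every Sylow p-subgroup Q of G ⧸ N meets each conjugate x Q x⁻¹ with x outside its normalizer trivially. -/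
theorem result {G : Type*} [Group G] [Finite G] (p : ℕ) [Fact p.Prime] (P : Sylow p G) (hTI : ∀ g : G, g ∉ Subgroup.normalizer ((P : Subgroup G) : Set G) → (P : Subgroup G) ⊓ (MulAut.conj g • (P : Subgroup G)) = ⊥) (N : Subgroup G) [N.Normal] (hN : (Nat.card ↥N).Coprime p) (Q : Sylow p (G ⧸ N)) : ∀ x : G ⧸ N, x ∉ Subgroup.normalizer ((Q : Subgroup (G ⧸ N)) : Set (G ⧸ N)) → (Q : Subgroup (G ⧸ N)) ⊓ (MulAut.conj x • (Q : Subgroup (G ⧸ N))) = ⊥ := by
  intro x hx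
  rw [eq_bot_iff]
  intro z hz
  obtain ⟨hzQ, hzx⟩ := hz
  by_contra hz1
  rw [Subgroup.mem_bot] at hz1
  apply hx
  let π := QuotientGroup.mk' N
  obtain ⟨g, rfl⟩ := QuotientGroup.mk'_surjective N x
  obtain ⟨R, hR⟩ := Sylow.mapSurjective_surjective (QuotientGroup.mk'_surjective N) p Q
  have hQR : (Q : Subgroup (G ⧸ N)) = (R : Subgroup G).map π := by rw [← hR]; rfl
  rw [SetLike.mem_coe, hQR] at hzQ
  obtain ⟨y, hy, rfl⟩ := hzQ
  have hy' : π g⁻¹ * π y * (π g⁻¹)⁻¹ ∈ (R : Subgroup G).map π := by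
    rw [map_inv, inv_inv, ← hQR]; exact H86.mem_conj_smul_iff.1 hzx
  obtain ⟨w, hw, hwy⟩ := hy'
  -- y and g w g⁻¹ lie in one coset of N
  obtain ⟨k, hk⟩ := IsPGroup.iff_orderOf.1 R.2 ⟨y, hy⟩
  rw [Subgroup.orderOf_mk] at hk
  obtain ⟨l, hl⟩ := IsPGroup.iff_orderOf.1 R.2 ⟨w, hw⟩
  rw [Subgroup.orderOf_mk] at hl
  have hm1 : y ^ p ^ (k + l) = 1 := by rw [pow_add, pow_mul, ← hk, pow_orderOf_eq_one, one_pow]
  have hm2 : (g * w * g⁻¹) ^ p ^ (k + l) = 1 := by
    rw [conj_pow, pow_add, mul_comm, pow_mul w, ← hl, pow_orderOf_eq_one, one_pow, mul_one, mul_inv_cancel]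
  have hco : (g * w * g⁻¹) * y⁻¹ ∈ N := by
    rw [← QuotientGroup.eq_one_iff]
    show π ((g * w * g⁻¹) * y⁻¹) = 1
    rw [map_mul, map_mul, map_mul, hwy, map_inv, map_inv, inv_inv]
    group
  obtain ⟨n, hn, hne⟩ := H56.exists_conj_of_coset_of_coprime (p ^ (k + l)) N y (g * w * g⁻¹)
    (by rw [Subgroup.normalizer_eq_top]; trivial) hm1 hm2 hco (hN.symm.pow_left _)
  have hy2 : y ∈ ((n * g) • R : Sylow p G) := by
    rw [← SetLike.mem_coe, Sylow.coe_smul]
    refine H86.mem_conj_smul_iff.2 ?_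
    rw [← hne, show (n * g)⁻¹ * (n * (g * w * g⁻¹) * n⁻¹) * (n * g) = w by group]
    exact hw
  have heq := H86.sylow_eq_of_ti hTI R ((n * g) • R) hy hy2 (fun h => hz1 (by rw [h, map_one]))
  have hnorm := Sylow.smul_eq_iff_mem_normalizer.1 heq.symm
  have h2 := Subgroup.le_normalizer_map π ⟨n * g, hnorm, rfl⟩
  rw [map_mul, show π n = 1 from (QuotientGroup.eq_one_iff n).2 hn, one_mul, ← hQR] at h2
  exact h2

end Cfsg.Agent.S3984
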