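import Cfsg.Statements.S3985
import Cfsg.Agent.H86.SylowTI
import Cfsg.Agent.H86.Basic


set_option autoImplicit false
open scoped Pointwise
open Cfsg

namespace Cfsg.Agent.S3985

/-- Let P be a cyclic Sylow p-subgroup of the finite group G. Then P meets each conjugate g P g⁻¹ with g outside N_G(P) trivially if and only if P is weakly self-centralizing: C_G(x) = C_G(P) for every non-identity x ∈ P. -/
theorem result {G : Type*} [Group G] [Finite G] (p : ℕ) [Fact p.Prime] (P : Sylow p G) (hcyc : IsCyclic ↥(P : Subgroup G)) : (∀ g : G, g ∉ Subgroup.normalizer ((P : Subgroup G) : Set G) → (P : Subgroup G) ⊓ (MulAut.conj g • (P : Subgroup G)) = ⊥) ↔ ∀ x : G, x ∈ (P : Subgroup G) → x ≠ 1 → Subgroup.centralizer ({x} : Set G) = Subgroup.centralizer ((P : Subgroup G) : Set G) := by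
  constructor
  · intro hTI x hxP hx1
    refine le_antisymm ?_ (Subgroup.centralizer_le (Set.singleton_subset_iff.2 hxP))
    intro g hg
    have hgx : g * x = x * g := Subgroup.mem_centralizer_singleton_iff.1 hg
    have hN : ∀ g : G, g * x = x * g → g ∈ Subgroup.normalizer ((P : Subgroup G) : Set G) := by
      intro g hgx
      by_contra hn
      have h1 : x ∈ MulAut.conj g • (P : Subgroup G) := by
        rw [H86.mem_conj_smul_iff, mul_assoc, ← hgx, ← mul_assoc, inv_mul_cancel, one_mul]; exact hxP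
      exact hx1 (Subgroup.mem_bot.1 (hTI g hn ▸ ⟨hxP, h1⟩))
    obtain ⟨v, hv⟩ := hcyc.exists_generator
    have hgen : ∀ u ∈ (P : Subgroup G), u ∈ Subgroup.zpowers (v : G) := fun u hu => by
      obtain ⟨i, hi⟩ := Subgroup.mem_zpowers_iff.1 (hv ⟨u, hu⟩)
      exact Subgroup.mem_zpowers_iff.2 ⟨i, by simpa using congrArg Subtype.val hi⟩
    obtain ⟨a, b, ha, hb, hab, ⟨ka, hka⟩, hbp⟩ := H86.exists_pPart_mul_pPrimePart g (isOfFinOrder_of_finite g) (p := p) Fact.out
    have hcx : Subgroup.zpowers g ≤ Subgroup.centralizer ({x} : Set G) := Subgroup.zpowers_le.2 hg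
    have hax := Subgroup.mem_centralizer_singleton_iff.1 (hcx ha)
    have hbx := Subgroup.mem_centralizer_singleton_iff.1 (hcx hb)
    have haP : a ∈ (P : Subgroup G) := H86.le_sylow_of_normalizes P
      (IsPGroup.of_card (n := ka) (by rw [Nat.card_zpowers, hka]) : IsPGroup p ↥(Subgroup.zpowers a))
      (Subgroup.zpowers_le.2 (hN a hax)) (Subgroup.mem_zpowers a)
    obtain ⟨kv, hkv⟩ := IsPGroup.iff_orderOf.1 P.2 v
    have hbv : b * (v : G) * b⁻¹ = v := H86.commute_of_normalizes_cyclic ⟨kv, by rw [Subgroup.orderOf_coe, hkv]⟩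
      (hgen _ ((Subgroup.mem_normalizer_iff.1 (hN b hbx) _).1 v.2)) (hgen x hxP) hx1
      (by rw [hbx, mul_inv_cancel_right]) hbp
    rw [Subgroup.mem_centralizer_iff]
    intro u hu
    obtain ⟨i, rfl⟩ := Subgroup.mem_zpowers_iff.1 (hgen u hu)
    obtain ⟨j, rfl⟩ := Subgroup.mem_zpowers_iff.1 (hgen a haP)
    have hbv' : Commute b (v : G) := mul_inv_eq_iff_eq_mul.1 hbv
    rw [← hab]
    exact ((Commute.zpow_zpow_self (v : G) i j).mul_right (hbv'.zpow_right i).symm).eq
  · intro h g hg
    rw [eq_bot_iff]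
    intro x hx
    obtain ⟨hxP, hxg⟩ := hx
    by_contra hx1
    rw [Subgroup.mem_bot] at hx1
    apply hg
    have hy : g⁻¹ * x * g ∈ (P : Subgroup G) := H86.mem_conj_smul_iff.1 hxg
    have hy1 : g⁻¹ * x * g ≠ 1 := fun h1 => hx1 (by
      calc x = g * (g⁻¹ * x * g) * g⁻¹ := by group
        _ = 1 := by rw [h1]; group)
    have e1 := h x hxP hx1
    have e2 := h _ hy hy1
    obtain ⟨v, hv⟩ := hcyc.exists_generator
    have hPC : (P : Subgroup G) ≤ Subgroup.centralizer ((P : Subgroup G) : Set G) := fun a ha => by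
      rw [Subgroup.mem_centralizer_iff]
      intro u hu
      obtain ⟨i, hi⟩ := Subgroup.mem_zpowers_iff.1 (hv ⟨a, ha⟩)
      obtain ⟨j, hj⟩ := Subgroup.mem_zpowers_iff.1 (hv ⟨u, hu⟩)
      exact congrArg Subtype.val (show (⟨u, hu⟩ : (P : Subgroup G)) * ⟨a, ha⟩ = ⟨a, ha⟩ * ⟨u, hu⟩ by
        rw [← hi, ← hj]; exact Commute.zpow_zpow_self v j i)
    refine H86.conj_smul_eq_iff.1 (Subgroup.eq_of_le_of_card_ge ?_ ?_)
    · refine H86.le_sylow_of_normalizes P ((P.2.map _) : IsPGroup p ↥(MulAut.conj g • (P : Subgroup G))) ?_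
      intro u hu
      have hu' : g⁻¹ * u * g ∈ (P : Subgroup G) := H86.mem_conj_smul_iff.1 hu
      have h3 := hPC hu'
      rw [← e2, Subgroup.mem_centralizer_singleton_iff] at h3
      have h4 : u ∈ Subgroup.centralizer ({x} : Set G) := by
        rw [Subgroup.mem_centralizer_singleton_iff]
        calc u * x = g * ((g⁻¹ * u * g) * (g⁻¹ * x * g)) * g⁻¹ := by group
          _ = g * ((g⁻¹ * x * g) * (g⁻¹ * u * g)) * g⁻¹ := by rw [h3]
          _ = x * u := by group
      rw [e1, Subgroup.mem_centralizer_iff] at h4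
      rw [Subgroup.mem_normalizer_iff]
      intro w
      constructor
      · intro hw
        rw [← h4 w hw, mul_inv_cancel_right]; exact hw
      · intro hw
        have h5 := h4 _ hw
        have : w = u * w * u⁻¹ := by
          calc w = u⁻¹ * (u * w * u⁻¹ * u) := by group
            _ = u⁻¹ * (u * (u * w * u⁻¹)) := by rw [h5]
            _ = _ := by group
        rw [this]; exact hw
    · exact (Nat.card_congr (Subgroup.equivSMul (MulAut.conj g) (P : Subgroup G)).toEquiv).le

end Cfsg.Agent.S3985
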