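import Cfsg.Statements.S3987
import Cfsg.Agent.H86.DirectFactor


set_option autoImplicit false
open Cfsg

namespace Cfsg.Agent.S3987

/-- Let p be a prime and G a finite group. Then some Sylow p-subgroup of G is a direct factor of G (normal with a normal complement) if and only if for every element x of p-power order and every element y whose order is a power of a prime other than p, the conjugacy class of x y has as many elements as the product of the sizes of the classes of x and of y. -/
theorem result {G : Type*} [Group G] [Finite G] (p : ℕ) [Fact p.Prime] : (∃ (P : Sylow p G) (K : Subgroup G), (P : Subgroup G).Normal ∧ K.Normal ∧ (P : Subgroup G) ⊓ K = ⊥ ∧ (P : Subgroup G) ⊔ K = ⊤) ↔ ∀ x y : G, (∃ a : ℕ, orderOf x = p ^ a) → (∃ q b : ℕ, q.Prime ∧ q ≠ p ∧ orderOf y = q ^ b) → (Subgroup.centralizer ({x * y} : Set G)).index = (Subgroup.centralizer ({x} : Set G)).index * (Subgroup.centralizer ({y} : Set G)).index := by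
  constructor
  · rintro ⟨P, K, hP, hK, hd, ht⟩ x y hx hy
    obtain ⟨h1, h2⟩ := H86.mem_factors_of_direct_factor hP hK hd ht
    have hcomm : ∀ u ∈ (P : Subgroup G), ∀ v ∈ K, u * v = v * u := fun u hu v hv =>
      (Subgroup.commute_of_normal_of_disjoint _ _ hP hK (disjoint_iff.2 hd) u v hu hv).eq
    set Cx := Subgroup.centralizer ({x} : Set G)
    set Cy := Subgroup.centralizer ({y} : Set G)
    have hKx : K ≤ Cx := fun v hv => Subgroup.mem_centralizer_singleton_iff.2 (hcomm x (h1 x hx) v hv).symm
    have hPy : (P : Subgroup G) ≤ Cy := fun u hu => Subgroup.mem_centralizer_singleton_iff.2 (hcomm u hu y (h2 y hy))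
    have hxy : Commute x y := hcomm x (h1 x hx) y (h2 y hy)
    have hc : Subgroup.centralizer ({x * y} : Set G) = Cx ⊓ Cy := by
      obtain ⟨a, ha⟩ := hx
      obtain ⟨q, b, hq, hqp, hb⟩ := hy
      apply le_antisymm
      · intro g hg
        have hg' : Commute g (x * y) := Subgroup.mem_centralizer_singleton_iff.1 hg
        have hcop : (orderOf y).Coprime (orderOf x) := by rw [ha, hb]; exact Nat.coprime_pow_primes b a hq Fact.out hqp
        have hpowy : (x * y) ^ orderOf y = x ^ orderOf y := by rw [hxy.mul_pow, pow_orderOf_eq_one, mul_one]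
        obtain ⟨m, hm⟩ := exists_pow_eq_self_of_coprime (x := x) (n := orderOf y) hcop
        have hgx : Commute g x := by
          rw [← hm, ← hpowy]; exact (hg'.pow_right _).pow_right m
        refine ⟨Subgroup.mem_centralizer_singleton_iff.2 hgx, Subgroup.mem_centralizer_singleton_iff.2 ?_⟩
        have : Commute g (x⁻¹ * (x * y)) := hgx.inv_right.mul_right hg'
        rwa [inv_mul_cancel_left] at this
      · intro g hg
        exact Subgroup.mem_centralizer_singleton_iff.2
          ((Commute.mul_right (Subgroup.mem_centralizer_singleton_iff.1 hg.1) (Subgroup.mem_centralizer_singleton_iff.1 hg.2)).eq)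
    rw [hc]
    have hdx : Cx.index ∣ Nat.card (P : Subgroup G) := by
      refine (Subgroup.index_dvd_of_le hKx).trans ?_
      rw [(Subgroup.isComplement'_of_disjoint_and_mul_eq_univ (disjoint_iff.2 hd) (by
        rw [← Subgroup.mul_normal, ht, Subgroup.coe_top])).index_eq_card]
    have hdy : Cy.index ∣ (P : Subgroup G).index := Subgroup.index_dvd_of_le hPy
    refine le_antisymm Subgroup.index_inf_le (Nat.le_of_dvd (Nat.pos_of_ne_zero Subgroup.index_ne_zero_of_finite) ?_)
    exact (Nat.Coprime.coprime_dvd_left hdx (Nat.Coprime.coprime_dvd_right hdy P.card_coprime_index)).mul_dvd_of_dvd_of_dvd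
      (Subgroup.index_dvd_of_le inf_le_left) (Subgroup.index_dvd_of_le inf_le_right)
  · intro h
    refine H86.direct_factor_of_commute fun x y hx hy => ?_
    set Cx := Subgroup.centralizer ({x} : Set G)
    set Cy := Subgroup.centralizer ({y} : Set G)
    have hle : Cx ⊓ Cy ≤ Subgroup.centralizer ({x * y} : Set G) := fun g hg =>
      Subgroup.mem_centralizer_singleton_iff.2
        ((Commute.mul_right (Subgroup.mem_centralizer_singleton_iff.1 hg.1) (Subgroup.mem_centralizer_singleton_iff.1 hg.2)).eq)
    have h1 : (Cx ⊓ Cy).index = (Subgroup.centralizer ({x * y} : Set G)).index :=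
      le_antisymm ((Subgroup.index_inf_le).trans (h x y hx hy).ge)
        (Nat.le_of_dvd (Nat.pos_of_ne_zero Subgroup.index_ne_zero_of_finite) (Subgroup.index_dvd_of_le hle))
    have heq : Cx ⊓ Cy = Subgroup.centralizer ({x * y} : Set G) := by
      refine Subgroup.eq_of_le_of_card_ge hle ?_
      have e1 := (Cx ⊓ Cy).card_mul_index
      rw [h1, ← (Subgroup.centralizer ({x * y} : Set G)).card_mul_index] at e1
      exact (Nat.eq_of_mul_eq_mul_right (Nat.pos_of_ne_zero Subgroup.index_ne_zero_of_finite) e1).ge
    have hm : x * y ∈ Cx ⊓ Cy := heq ▸ Subgroup.mem_centralizer_singleton_iff.2 rfl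
    have h2 := Subgroup.mem_centralizer_singleton_iff.1 hm.1
    rw [mul_assoc] at h2
    exact (mul_left_cancel h2).symm

end Cfsg.Agent.S3987
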