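import Cfsg.Statements.S3989
import Cfsg.Agent.H63.MultClasses.Main

set_option autoImplicit false
open Cfsg

namespace Cfsg.Agent.S3989

/-- Let p be a prime and G a finite group such that for every element x of p-power order and every element y whose order is a power of a prime other than p, the conjugacy class of x y is the set of all products of a conjugate of x with a conjugate of y. Then G is p-solvable. -/
theorem result {G : Type*} [Group G] [Finite G] (p : ℕ) [Fact p.Prime] (h : ∀ x y : G, (∃ a : ℕ, orderOf x = p ^ a) → (∃ q b : ℕ, q.Prime ∧ q ≠ p ∧ orderOf y = q ^ b) → ∀ z : G, IsConj (x * y) z ↔ ∃ a b : G, z = a * x * a⁻¹ * (b * y * b⁻¹)) : Cfsg.IsPSolvable p G := by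
  exact H63.MultClasses.isPSolvable_of_mult (Nat.card G) G rfl h

end Cfsg.Agent.S3989
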