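import Cfsg.Statements.S4009
import Cfsg.Agent.H68.PG.Mann
-- import your own Cfsg.Agent.* helpers here

set_option autoImplicit false
open Cfsg

namespace Cfsg.Agent.S4009

/-- Let P be a finite p-group of order p^n whose derived length is exactly k + 1 (the k-th derived subgroup is nontrivial and the (k+1)-st is trivial). Then n ≥ 2^k + 2k − 2. -/
theorem result {P : Type*} [Group P] [Finite P] (p : ℕ) [Fact p.Prime] (n k : ℕ) (hcard : Nat.card P = p ^ n) (hk : derivedSeries P k ≠ ⊥) (hk' : derivedSeries P (k + 1) = ⊥) : 2 ^ k + 2 * k ≤ n + 2 := by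
  classical
  have hP : IsPGroup p P := IsPGroup.of_card hcard
  haveI : Group.IsNilpotent P := hP.isNilpotent
  have hne : ∀ i, i ≤ k → derivedSeries P i ≠ ⊥ := fun i hi h =>
    hk (le_bot_iff.1 ((derivedSeries_antitone P hi).trans h.le))
  have hex : ∀ i, ∃ a, i ≤ k → derivedSeries P i ≤ H68.PG.Mann.Γ P a ∧
      ¬ derivedSeries P i ≤ H68.PG.Mann.Γ P (a + 1) := by
    intro i
    by_cases hi : i ≤ k
    · obtain ⟨a, ha⟩ := H68.PG.Mann.exists_level _ (hne i hi)
      exact ⟨a, fun _ => ha⟩
    · exact ⟨0, fun h => absurd h hi⟩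
  choose a ha using hex
  have hex2 : ∀ i, ∃ e f : ℕ, i < k →
      (derivedSeries P (i + 1)).relIndex (derivedSeries P i) = p ^ e ∧ a i + 1 + f ≤ e ∧ 1 ≤ f ∧
      derivedSeries P (i + 1) ≤ H68.PG.Mann.Γ P (2 * a i + 1) ∧
      (H68.PG.Mann.TopCyclic (derivedSeries P i) (a i) →
        derivedSeries P (i + 1) ≤ H68.PG.Mann.Γ P (2 * a i + 2)) ∧
      (f = 1 → H68.PG.Mann.TopCyclic (derivedSeries P i) (a i) ∨
        H68.PG.Mann.TopCyclic (derivedSeries P (i + 1)) (2 * a i + 1)) := by
    intro i
    by_cases hi : i < k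
    · haveI := derivedSeries_normal P i
      obtain ⟨e, f, h⟩ := H68.PG.Mann.step hP (derivedSeries P i) (a i) (ha i hi.le).1
        (ha i hi.le).2 (hne (i + 1) hi)
      exact ⟨e, f, fun _ => h⟩
    · exact ⟨0, 0, fun h => absurd h hi⟩
  choose e f hef using hex2
  -- the level at most doubles
  have hlevel : ∀ i b, i ≤ k → derivedSeries P i ≤ H68.PG.Mann.Γ P b → b ≤ a i := by
    intro i b hi hb
    by_contra hlt
    exact (ha i hi).2 (hb.trans ((⊤ : Subgroup P).lowerCentralSeries_antitone (by omega)))
  have hdouble : ∀ i, i < k → 2 * a i + 1 ≤ a (i + 1) := fun i hi =>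
    hlevel (i + 1) _ hi (hef i hi).2.2.2.1
  have hpow : ∀ i, i ≤ k → 2 ^ i ≤ a i + 1 := by
    intro i
    induction i with
    | zero => intro _; simp
    | succ i ih =>
      intro hi
      have := hdouble i hi
      have := ih (by omega)
      rw [pow_succ]
      omega
  -- a gain persists
  have hgain : ∀ i l, i ≤ l → l ≤ k → 2 ^ i + 1 ≤ a i + 1 → 2 ^ l + 1 ≤ a l + 1 := by
    intro i l hil
    induction l, hil using Nat.le_induction with
    | base => exact fun _ h => h
    | succ l _ ih =>
      intro hl h
      have := hdouble l hl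
      have := ih (by omega) h
      rw [pow_succ]
      omega
  have hone : ∀ i l, i + 2 ≤ l → l < k → f i = 1 → 2 ^ l + 1 ≤ a l + 1 := by
    intro i l hil hl hf
    refine hgain (i + 2) l hil hl.le ?_
    have hi : i < k := by omega
    have h0 := hpow i hi.le
    have h2 : 2 * a (i + 1) + 1 ≤ a (i + 2) := hdouble (i + 1) (by omega)
    rcases (hef i hi).2.2.2.2.2 hf with hc | hc
    · have := hlevel (i + 1) _ hi ((hef i hi).2.2.2.2.1 hc)
      rw [pow_succ, pow_succ]
      omega
    · by_cases hlt : 2 * a i + 1 < a (i + 1)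
      · rw [pow_succ, pow_succ]
        omega
      · have heq : a (i + 1) = 2 * a i + 1 := by
          have := hdouble i hi
          omega
        rw [← heq] at hc
        have := hlevel (i + 2) _ (by omega) ((hef (i + 1) (by omega)).2.2.2.2.1 hc)
        rw [pow_succ, pow_succ]
        omega
  -- the lower bound on each factor
  set B := (Finset.range k).filter (fun l => e l < 2 ^ l + 2) with hB
  have hBcard : B.card ≤ 2 := by
    rcases B.eq_empty_or_nonempty with h | h
    · simp [h]
    · refine le_trans (Finset.card_le_card (t := {B.min' h, B.min' h + 1}) ?_)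
        Finset.card_le_two
      intro l hl
      have hmin := B.min'_le l hl
      obtain ⟨hlk, hlt⟩ := Finset.mem_filter.1 hl
      obtain ⟨hik, hit⟩ := Finset.mem_filter.1 (B.min'_mem h)
      rw [Finset.mem_range] at hlk hik
      have h1 := (hef l hlk).2.1
      have h2 := (hef l hlk).2.2.1
      have h3 := (hef _ hik).2.1
      have h4 := (hef _ hik).2.2.1
      have h5 := hpow _ hik.le
      have hfi : f (B.min' h) = 1 := by omega
      have : ¬ B.min' h + 2 ≤ l := fun hle => by
        have := hone _ l hle hlk hfi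
        omega
      simp only [Finset.mem_insert, Finset.mem_singleton]
      omega
  have hterm : ∀ l ∈ Finset.range k, 2 ^ l + 2 ≤ e l + if l ∈ B then 1 else 0 := by
    intro l hl
    rw [Finset.mem_range] at hl
    split_ifs with h
    · have := (hef l hl).2.1
      have := (hef l hl).2.2.1
      have := hpow l hl.le
      omega
    · simp only [hB, Finset.mem_filter, Finset.mem_range, not_and, not_lt] at h
      have := h hl
      omega
  have hsum := Finset.sum_le_sum hterm
  rw [Finset.sum_add_distrib, Finset.sum_add_distrib, Finset.sum_const, Finset.card_range,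
    Finset.sum_boole, smul_eq_mul, Nat.geomSum_eq le_rfl] at hsum
  have hfilter : ((Finset.range k).filter (fun l => l ∈ B)).card ≤ 2 :=
    (Finset.card_le_card (fun l hl => (Finset.mem_filter.1 hl).2)).trans hBcard
  -- the order is at least the product of the factors
  have hprod : ∀ j, j ≤ k → ∃ N, Nat.card (derivedSeries P j) = p ^ N ∧
      n = N + ∑ l ∈ Finset.range j, e l := by
    intro j
    induction j with
    | zero => intro _; exact ⟨n, by simp [hcard], by simp⟩
    | succ j ih =>
      intro hj
      obtain ⟨N, hN, hn⟩ := ih (by omega)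
      obtain ⟨N', hN'⟩ := (hP.to_subgroup (derivedSeries P (j + 1))).exists_card_eq
      have hmul := Subgroup.relIndex_mul_relIndex (⊥ : Subgroup P) (derivedSeries P (j + 1))
        (derivedSeries P j) bot_le (derivedSeries_antitone P (Nat.le_succ j))
      rw [Subgroup.relIndex_bot_left, Subgroup.relIndex_bot_left, hN, hN', (hef j hj).1,
        ← pow_add] at hmul
      refine ⟨N', hN', ?_⟩
      have := Nat.pow_right_injective (Fact.out : p.Prime).two_le hmul
      rw [Finset.sum_range_succ]
      omega
  obtain ⟨N, hN, hn⟩ := hprod k le_rfl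
  have hN0 : N ≠ 0 := by
    rintro rfl
    rw [pow_zero] at hN
    exact hk ((Subgroup.card_eq_one).1 hN)
  have h2k : 1 ≤ 2 ^ k := Nat.one_le_two_pow
  simp only [Nat.cast_id] at hsum
  have h21 : (2 - 1 : ℕ) = 1 := rfl
  rw [h21, Nat.div_one] at hsum
  omega
end Cfsg.Agent.S4009
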