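import Cfsg.Statements.S4010
import Cfsg.Agent.H86.LinearDerived
import Mathlib.FieldTheory.IsAlgClosed.AlgebraicClosure
import Mathlib.LinearAlgebra.Matrix.ToLin


set_option autoImplicit false
open Cfsg

namespace Cfsg.Agent.S4010

/-- Let F be a field, n ≥ 1, and P a finite p-group (p a prime) admitting an injective homomorphism into the general linear group of degree n over F. Then the derived length of P is at most ⌊log₂ n⌋ + 1: that term of the derived series of P is trivial. -/
theorem result {P : Type*} [Group P] [Finite P] (p : ℕ) [Fact p.Prime] (hP : IsPGroup p P) (F : Type*) [Field F] (n : ℕ) (hn : 1 ≤ n) (ρ : P →* Matrix.GeneralLinearGroup (Fin n) F) (hρ : Function.Injective ρ) : derivedSeries P (Nat.log 2 n + 1) = ⊥ := by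
  classical
  let K := AlgebraicClosure F
  let e : Matrix (Fin n) (Fin n) F →* Module.End K (Fin n → K) :=
    (Matrix.toLinAlgEquiv' (R := K) (n := Fin n)).toAlgHom.toRingHom.toMonoidHom.comp
      ((algebraMap F K).mapMatrix.toMonoidHom)
  have he : Function.Injective e :=
    (Matrix.toLinAlgEquiv' (R := K) (n := Fin n)).injective.comp
      (Matrix.map_injective (algebraMap F K).injective)
  let σ : P →* Module.End K (Fin n → K) := e.comp ((Units.coeHom _).comp ρ)
  have hσ : Function.Injective σ := he.comp (Units.val_injective.comp hρ)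
  rw [Subgroup.eq_bot_iff_forall]
  intro x hx
  apply hσ
  rw [map_one]
  by_cases hpK : (p : K) = 0
  · haveI : CharP K p := (CharP.charP_iff_prime_eq_zero Fact.out).2 hpK
    refine H86.derived_trivial_charP (Nat.log 2 n + 1) (Fin n → K) ?_ P hP σ x hx
    rw [Module.finrank_fin_fun]
    exact (Nat.lt_pow_succ_log_self one_lt_two n).le
  · exact H86.derived_trivial_coprime hpK n (Fin n → K) (Module.finrank_fin_fun K) P hP σ x hx

end Cfsg.Agent.S4010
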