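import Cfsg.Statements.S4013


set_option autoImplicit false
open Cfsg

namespace Cfsg.Agent.S4013

/-- Let G be a finite p-group (p prime) and N < M normal subgroups of G such that for some g ∈ M ∖ N the conjugacy class of g is exactly M ∖ N. Then p = 2 and N has index 2 in M. -/
theorem result {G : Type*} [Group G] [Finite G] (p : ℕ) [Fact p.Prime] (hG : IsPGroup p G) (N M : Subgroup G) [N.Normal] [M.Normal] (hNM : N < M) (g : G) (hgM : g ∈ M) (hgN : g ∉ N) (hcl : {h : G | IsConj g h} = (M : Set G) \ (N : Set G)) : p = 2 ∧ N.relIndex M = 2 := by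
  have hp : p.Prime := Fact.out
  let π := QuotientGroup.mk' N
  have hker : ∀ x, π x = 1 ↔ x ∈ N := fun x => QuotientGroup.eq_one_iff x
  set Mb := M.map π with hMb
  have : Mb.Normal := Subgroup.Normal.map inferInstance π (QuotientGroup.mk'_surjective N)
  have hgb : π g ∈ Mb := ⟨g, hgM, rfl⟩
  have hgb1 : π g ≠ 1 := fun h => hgN ((hker g).1 h)
  have hne : Nontrivial Mb := ⟨⟨⟨π g, hgb⟩, 1, fun h => hgb1 (congrArg Subtype.val h)⟩⟩
  have hQ : IsPGroup p (G ⧸ N) := hG.to_quotient N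
  obtain ⟨k, hk⟩ := IsPGroup.iff_card.1 (hQ.to_subgroup Mb)
  have hp2 : p ∣ Nat.card Mb := by
    rw [hk]; refine dvd_pow_self p fun h0 => ?_
    rw [h0, pow_zero] at hk
    exact absurd hk Finite.one_lt_card.ne'
  have hQ' : IsPGroup p (ConjAct (G ⧸ N)) := hQ.of_equiv ConjAct.toConjAct
  have h1fix : (1 : Mb) ∈ MulAction.fixedPoints (ConjAct (G ⧸ N)) Mb := fun c => Subtype.ext (by simp)
  obtain ⟨z, hz, hz1⟩ := IsPGroup.exists_fixed_point_of_prime_dvd_card_of_fixed_point
    hQ' Mb hp2 h1fix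
  have hall : ∀ w : Mb, w ≠ 1 → w = z := by
    have hrep : ∀ w : Mb, w ≠ 1 → IsConj (π g) (w : G ⧸ N) := by
      intro w hw
      obtain ⟨m, hm, hmw⟩ := w.2
      have hmN : m ∉ N := fun h => hw (Subtype.ext (hmw ▸ (hker m).2 h))
      have : IsConj g m := (hcl ▸ ⟨hm, hmN⟩ : m ∈ {h : G | IsConj g h})
      rw [← hmw]
      exact π.map_isConj this
    intro w hw
    have h3 : IsConj (z : G ⧸ N) (w : G ⧸ N) := (hrep z (Ne.symm hz1)).symm.trans (hrep w hw)
    obtain ⟨c, hc⟩ := isConj_iff.1 h3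
    have := congrArg Subtype.val (hz (ConjAct.toConjAct c))
    apply Subtype.ext
    rw [← hc]
    simpa [ConjAct.smul_def, ConjAct.Subgroup.val_conj_smul] using this
  have h2 : Nat.card Mb = 2 := by
    rw [Nat.card_eq_two_iff]
    refine ⟨1, z, hz1, ?_⟩
    ext w
    simp only [Set.mem_insert_iff, Set.mem_singleton_iff, Set.mem_univ, iff_true]
    by_cases hw : w = 1
    · exact Or.inl hw
    · exact Or.inr (hall w hw)
  refine ⟨(Nat.prime_dvd_prime_iff_eq hp Nat.prime_two).1 (h2 ▸ hp2), ?_⟩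
  rw [← h2, hMb, ← Subgroup.relIndex_ker, QuotientGroup.ker_mk']

end Cfsg.Agent.S4013
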