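import Cfsg.Statements.S4027
import Cfsg.Agent.H86.Irrational
import Cfsg.Agent.H86.Basic
import Cfsg.Agent.H19.Cores
import Cfsg.Agent.H28.BaerSuzuki


set_option autoImplicit false
open Cfsg

namespace Cfsg.Agent.S4027

/-- Let G be a finite group in which every element x of odd order satisfies N_G(⟨x⟩) = C_G(x). Then the Sylow 2-subgroups of G are normal. -/
theorem result {G : Type*} [Group G] [Finite G]
    (hirr : ∀ x : G, (∀ r : ℕ, r.Prime → r ∣ orderOf x → r ≠ 2) →
      Subgroup.normalizer ((Subgroup.zpowers x : Subgroup G) : Set G) ≤ Subgroup.centralizer {x}) (P : Sylow 2 G) :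
    (P : Subgroup G).Normal := by
  set O := Cfsg.pCore 2 G with hO
  haveI : O.Normal := H19.pCore_normal 2 G
  have hOp : IsPGroup 2 O := H19.pCore_isPGroup (G := G) 2
  obtain ⟨n, hn⟩ := IsPGroup.iff_card.1 hOp
  have hq := H86.irrational_quotient {r : ℕ | r ≠ 2} hirr O (fun r hr hd => by
    rw [hn] at hd
    simp [(Nat.prime_dvd_prime_iff_eq hr Nat.prime_two).1 (hr.dvd_of_dvd_pow hd)])
  have hno : ∀ t : G ⧸ O, t ^ 2 = 1 → t = 1 := by
    intro t ht
    have htinv : t⁻¹ = t := inv_eq_of_mul_eq_one_right (by rw [← pow_two, ht])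
    obtain ⟨M, hM, hMp, htM⟩ := H28.baer_suzuki_element (p := 2) t (fun g => by
      set d := t * (g * t * g⁻¹) with hd
      have hdinv : t * d * t⁻¹ = d⁻¹ := by
        rw [hd]; simp only [mul_inv_rev, inv_inv, htinv, mul_assoc]
        rw [show t * (t * (g * (t * (g⁻¹ * t)))) = g * (t * (g⁻¹ * t)) by rw [← mul_assoc t t, ← pow_two, ht, one_mul]]
      obtain ⟨y, z, hy, hz, hyz, ⟨k, hk⟩, hz2⟩ := H86.exists_pPart_mul_pPrimePart d (isOfFinOrder_of_finite d) Nat.prime_two
      have hzinv : t * z * t⁻¹ = z⁻¹ := by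
        obtain ⟨i, rfl⟩ := Subgroup.mem_zpowers_iff.1 hz
        rw [← conj_zpow, hdinv, inv_zpow]
      have hz1 : z = 1 := by
        have hc := hq z (fun r hr hd' => by
          intro h2
          subst h2
          exact absurd (Nat.eq_one_of_dvd_coprimes hz2 hd' dvd_rfl) (by norm_num))
          (x := t) (H86.mem_normalizer_zpowers (by rw [hzinv]; exact Subgroup.inv_mem _ (Subgroup.mem_zpowers z)))
        have h1 : z = z⁻¹ := by rw [← hzinv, Subgroup.mem_centralizer_singleton_iff.1 hc, mul_inv_cancel_right]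
        have h2 : z ^ 2 = 1 := by rw [pow_two]; nth_rw 1 [h1]; exact inv_mul_cancel z
        rw [← orderOf_eq_one_iff]
        exact Nat.eq_one_of_dvd_coprimes hz2 dvd_rfl (orderOf_dvd_of_pow_eq_one h2)
      have hd2 : IsPGroup 2 ↥(Subgroup.zpowers d) := IsPGroup.of_card (n := k) (by
        rw [Nat.card_zpowers, ← hyz, hz1, mul_one, hk])
      have htp : IsPGroup 2 ↥(Subgroup.zpowers t) := by
        obtain ⟨i, -, hi⟩ := (Nat.dvd_prime_pow Nat.prime_two).1 (orderOf_dvd_of_pow_eq_one (show t ^ 2 ^ 1 = 1 by simpa using ht))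
        exact IsPGroup.of_card (n := i) (by rw [Nat.card_zpowers, hi])
      have hnorm : Subgroup.zpowers t ≤ Subgroup.normalizer ((Subgroup.zpowers d : Subgroup (G ⧸ O)) : Set (G ⧸ O)) :=
        Subgroup.zpowers_le.2 (H86.mem_normalizer_zpowers (by rw [hdinv]; exact Subgroup.inv_mem _ (Subgroup.mem_zpowers d)))
      refine (hd2.to_sup_of_normal_left' htp hnorm).to_le ((Subgroup.closure_le _).2 ?_)
      rintro u (rfl | rfl)
      · exact Subgroup.mem_sup_right (Subgroup.mem_zpowers _)
      · have : g * t * g⁻¹ = t⁻¹ * d := by rw [hd]; group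
        rw [this]
        exact Subgroup.mul_mem _ (Subgroup.mem_sup_right (Subgroup.inv_mem _ (Subgroup.mem_zpowers t))) (Subgroup.mem_sup_left (Subgroup.mem_zpowers d)))
    have hle : M ≤ Cfsg.pCore 2 (G ⧸ O) := H19.le_pCore hM hMp
    rw [H19.pCore_quotient_pCore 2] at hle
    exact hle htM
  have hodd : ¬ 2 ∣ O.index := by
    intro hd
    rw [Subgroup.index_eq_card] at hd
    obtain ⟨t, ht⟩ := exists_prime_orderOf_dvd_card' 2 hd
    have := hno t (by rw [← ht, pow_orderOf_eq_one])
    rw [this, orderOf_one] at ht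
    norm_num at ht
  have hPO : (P : Subgroup G) = O := by
    have h1 := (hOp.toSylow hodd)
    haveI : ((hOp.toSylow hodd : Sylow 2 G) : Subgroup G).Normal := (inferInstance : O.Normal)
    have := Sylow.unique_of_normal (hOp.toSylow hodd) inferInstance
    rw [Subsingleton.elim P (hOp.toSylow hodd)]
    rfl
  rw [hPO]
  infer_instance

end Cfsg.Agent.S4027
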