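import Cfsg.Statements.S4028
import Cfsg.Agent.H86.Irrational
import Cfsg.Agent.H86.Basic


set_option autoImplicit false
open Cfsg

namespace Cfsg.Agent.S4028

/-- Let G be a finite group with Sylow 2-subgroup P. Then N_G(⟨x⟩) = C_G(x) holds for every 2-element x of G if and only if N_P(⟨y⟩) = C_P(y) holds for every y ∈ P (computed inside P). -/
theorem result {G : Type*} [Group G] [Finite G] (P : Sylow 2 G) :
    (∀ x : G, (∀ r : ℕ, r.Prime → r ∣ orderOf x → r = 2) →
      Subgroup.normalizer ((Subgroup.zpowers x : Subgroup G) : Set G) ≤ Subgroup.centralizer {x}) ↔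
    (∀ y : ↥(P : Subgroup G), Subgroup.normalizer ((Subgroup.zpowers y : Subgroup ↥(P : Subgroup G)) : Set ↥(P : Subgroup G)) ≤
        Subgroup.centralizer {y}) := by
  constructor
  · intro h y z hz
    obtain ⟨k, hk⟩ := IsPGroup.iff_orderOf.1 P.2 y
    have hy2 : ∀ r : ℕ, r.Prime → r ∣ orderOf (y : G) → r = 2 := fun r hr hd => by
      rw [Subgroup.orderOf_coe, hk] at hd
      exact (Nat.prime_dvd_prime_iff_eq hr Nat.prime_two).1 (hr.dvd_of_dvd_pow hd)
    have h1 : (z : G) ∈ Subgroup.normalizer ((Subgroup.zpowers (y : G) : Subgroup G) : Set G) := by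
      refine H86.mem_normalizer_zpowers ?_
      obtain ⟨i, hi⟩ := Subgroup.mem_zpowers_iff.1 ((Subgroup.mem_normalizer_iff.1 hz y).1 (Subgroup.mem_zpowers y))
      exact Subgroup.mem_zpowers_iff.2 ⟨i, by simpa using congrArg Subtype.val hi⟩
    rw [Subgroup.mem_centralizer_singleton_iff]
    exact Subtype.ext (Subgroup.mem_centralizer_singleton_iff.1 (h y hy2 h1))
  · intro h x hx g hg
    obtain ⟨a, b, ha, hb, hab, ⟨ka, hka⟩, hb2⟩ := H86.exists_pPart_mul_pPrimePart g (isOfFinOrder_of_finite g) Nat.prime_two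
    set H := Subgroup.zpowers x with hH
    have hzg : Subgroup.zpowers g ≤ Subgroup.normalizer (H : Set G) := Subgroup.zpowers_le.2 hg
    have hx2 : ∃ k, orderOf x = 2 ^ k :=
      ⟨_, Nat.eq_prime_pow_of_unique_prime_dvd (orderOf_pos x).ne' (fun {r} hr hd => hx r hr hd)⟩
    have hbx : Commute b x := H86.commute_of_normalizes_cyclic_two hx2 (hzg hb) hb2
    have haH : Subgroup.zpowers a ≤ Subgroup.normalizer (H : Set G) := Subgroup.zpowers_le.2 (hzg ha)
    obtain ⟨kx, hkx⟩ := hx2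
    have hp1 : IsPGroup 2 ↥H := IsPGroup.of_card (n := kx) (by rw [Nat.card_zpowers, hkx])
    have hp2 : IsPGroup 2 ↥(Subgroup.zpowers a) := IsPGroup.of_card (n := ka) (by rw [Nat.card_zpowers, hka])
    obtain ⟨Q, hQ⟩ := (hp1.to_sup_of_normal_left' hp2 haH).exists_le_sylow
    obtain ⟨c, hc⟩ := MulAction.exists_smul_eq G P Q
    have hmem : ∀ u : G, u ∈ (Q : Subgroup G) → c⁻¹ * u * c ∈ (P : Subgroup G) := by
      intro u hu
      rw [← hc, Sylow.coe_subgroup_smul, Subgroup.mem_pointwise_smul_iff_inv_smul_mem] at hu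
      simpa [MulAut.smul_def] using hu
    let y : (P : Subgroup G) := ⟨c⁻¹ * x * c, hmem x (hQ (Subgroup.mem_sup_left (Subgroup.mem_zpowers x)))⟩
    let z : (P : Subgroup G) := ⟨c⁻¹ * a * c, hmem a (hQ (Subgroup.mem_sup_right (Subgroup.mem_zpowers a)))⟩
    have hz : z ∈ Subgroup.normalizer ((Subgroup.zpowers y : Subgroup ↥(P : Subgroup G)) : Set ↥(P : Subgroup G)) := by
      refine H86.mem_normalizer_zpowers ?_
      obtain ⟨i, hi⟩ := Subgroup.mem_zpowers_iff.1 ((Subgroup.mem_normalizer_iff.1 (hzg ha) x).1 (Subgroup.mem_zpowers x))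
      refine Subgroup.mem_zpowers_iff.2 ⟨i, Subtype.ext ?_⟩
      show ((y ^ i : (P : Subgroup G)) : G) = c⁻¹ * a * c * (c⁻¹ * x * c) * (c⁻¹ * a * c)⁻¹
      rw [SubgroupClass.coe_zpow]
      show (c⁻¹ * x * c) ^ i = _
      have : (c⁻¹ * x * c) ^ i = c⁻¹ * x ^ i * c := by
        simpa using (conj_zpow (i := i) (a := c⁻¹) (b := x))
      rw [this, hi]; group
    have h2 := congrArg Subtype.val (Subgroup.mem_centralizer_singleton_iff.1 (h y hz))
    have hax : Commute a x := by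
      have h3 : (c⁻¹ * a * c) * (c⁻¹ * x * c) = (c⁻¹ * x * c) * (c⁻¹ * a * c) := h2
      calc a * x = c * ((c⁻¹ * a * c) * (c⁻¹ * x * c)) * c⁻¹ := by group
        _ = c * ((c⁻¹ * x * c) * (c⁻¹ * a * c)) * c⁻¹ := by rw [h3]
        _ = x * a := by group
    rw [Subgroup.mem_centralizer_singleton_iff, ← hab]
    exact hax.mul_left hbx

end Cfsg.Agent.S4028
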