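import Cfsg.Statements.S4029
import Cfsg.Agent.H86.RealClasses


set_option autoImplicit false
open Cfsg

namespace Cfsg.Agent.S4029

/-- Let P be a finite 2-group in which N_P(⟨y⟩) = C_P(y) for every y ∈ P. If s is the number of conjugacy classes of involutions of P, then #(P/Φ(P)) ≤ s + 1; in particular the subgroup generated by the involutions of P has order at least #(P/Φ(P)). -/
theorem result {P : Type*} [Group P] [Finite P] (hP : IsPGroup 2 P)
    (hirr : ∀ y : P, Subgroup.normalizer ((Subgroup.zpowers y : Subgroup P) : Set P) ≤ Subgroup.centralizer {y}) :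
    Nat.card (P ⧸ frattini P) ≤ Nat.card {c : ConjClasses P // ∃ y : P, ConjClasses.mk y = c ∧ orderOf y = 2} + 1 ∧
    Nat.card (P ⧸ frattini P) ≤ Nat.card (Subgroup.closure {y : P | orderOf y = 2}) := by
  classical
  have := Fintype.ofFinite P
  have hirr' : ∀ x u : P, u * x * u⁻¹ = x⁻¹ → u * x = x * u := by
    intro x u h
    have hn : u ∈ Subgroup.normalizer ((Subgroup.zpowers x : Subgroup P) : Set P) := by
      rw [Subgroup.mem_normalizer_iff]
      intro z
      have hmap : (Subgroup.zpowers x).map (MulAut.conj u).toMonoidHom = Subgroup.zpowers x := by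
        rw [MonoidHom.map_zpowers]
        show Subgroup.zpowers (u * x * u⁻¹) = _
        rw [h, Subgroup.zpowers_inv]
      constructor
      · intro hz; rw [← hmap]; exact ⟨z, hz, rfl⟩
      · intro hz
        rw [← hmap] at hz
        obtain ⟨w, hw, e⟩ := hz
        have e' : u * w * u⁻¹ = u * z * u⁻¹ := e
        rwa [← mul_left_cancel (mul_right_cancel e')]
    exact Subgroup.mem_centralizer_singleton_iff.1 (hirr x hn)
  have key := H86.card_quotient_frattini_le hP hirr'
  refine ⟨key.trans ?_, key.trans (Finset.card_image_le.trans ?_)⟩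
  · set I := {c : ConjClasses P // ∃ y : P, ConjClasses.mk y = c ∧ orderOf y = 2}
    refine (Finset.card_le_card (t := insert (ConjClasses.mk 1)
      (Finset.univ.filter fun c : ConjClasses P => ∃ y : P, ConjClasses.mk y = c ∧ orderOf y = 2)) ?_).trans
      ((Finset.card_insert_le _ _).trans (Nat.add_le_add_right ?_ 1))
    · intro c hc
      obtain ⟨x, hx, rfl⟩ := Finset.mem_image.1 hc
      rw [Finset.mem_insert]
      rcases eq_or_ne x 1 with rfl | hne
      · exact Or.inl rfl
      · exact Or.inr (Finset.mem_filter.2 ⟨Finset.mem_univ _, x, rfl,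
          orderOf_eq_prime (p := 2) (Finset.mem_filter.1 hx).2 hne⟩)
    · rw [Nat.card_eq_fintype_card, Fintype.card_subtype]
  · rw [Nat.card_eq_fintype_card, Fintype.card_subtype]
    refine Finset.card_le_card fun x hx => Finset.mem_filter.2 ⟨Finset.mem_univ _, ?_⟩
    rcases eq_or_ne x 1 with rfl | hne
    · exact one_mem _
    · exact Subgroup.subset_closure (orderOf_eq_prime (p := 2) (Finset.mem_filter.1 hx).2 hne)

end Cfsg.Agent.S4029
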