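import Cfsg.Statements.S4036


set_option autoImplicit false
open Cfsg

namespace Cfsg.Agent.S4036

/-- Let P be a finite abelian p-group and K a group of automorphisms of P (a subgroup of Aut P) whose order is divisible by p. If all non-identity elements of K have the same fixed-point subgroup on P, then K has no non-trivial normal subgroup of order prime to p. -/
theorem result {P : Type*} [CommGroup P] [Finite P] {p : ℕ}
    [Fact p.Prime] (hP : IsPGroup p P) (K : Subgroup (MulAut P)) (hK : p ∣ Nat.card K)
    (hfix : ∀ x y : MulAut P, x ∈ K → y ∈ K → x ≠ 1 → y ≠ 1 → ∀ v : P, x v = v ↔ y v = v) :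
    ∀ N : Subgroup ↥K, N.Normal → ¬ p ∣ Nat.card N → N = ⊥ := by
  classical
  intro N hN hNp
  obtain ⟨x, hx⟩ := exists_prime_orderOf_dvd_card' (G := ↥K) p hK
  have := Fintype.ofFinite ↥N
  have hx1 : (x : MulAut P) ≠ 1 := by
    intro h
    have : x = 1 := Subtype.ext h
    rw [this, orderOf_one] at hx
    exact (Fact.out : p.Prime).ne_one hx.symm
  let act : ↥N → P → P := fun n v => ((n : ↥K) : MulAut P) v
  let ψ : P →* P :=
    { toFun := fun v => ∏ n : N, act n v
      map_one' := by simp [act]
      map_mul' := fun a b => by simp [act, Finset.prod_mul_distrib] }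
  have hψn : ∀ (m : N) v, act m (ψ v) = ψ v := by
    intro m v
    show act m (∏ n : N, act n v) = ∏ n : N, act n v
    rw [show act m (∏ n : N, act n v) = ∏ n : N, act (m * n) v by
      simp only [act, map_prod]; rfl]
    exact Fintype.prod_equiv (Equiv.mulLeft m) _ _ fun n => rfl
  have hψfix : ∀ v, (∀ n : N, act n v = v) → ψ v = v ^ Nat.card N := by
    intro v hv
    show ∏ n : N, act n v = _
    rw [Finset.prod_congr rfl fun n _ => hv n, Finset.prod_const, Finset.card_univ, Nat.card_eq_fintype_card]
  have hcop : (Nat.card P).Coprime (Nat.card N) := by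
    obtain ⟨e, he⟩ := IsPGroup.iff_card.1 hP
    rw [he]
    exact ((Fact.out : p.Prime).coprime_iff_not_dvd.2 hNp).pow_left e
  have hfixed : ∀ w : P, (x : MulAut P) w = w → ∀ n : N, act n w = w := by
    intro w hw n
    by_cases hn : ((n : ↥K) : MulAut P) = 1
    · simp [act, hn]
    · exact (hfix _ _ x.2 (n : ↥K).2 hx1 hn w).1 hw
  -- the kernel of ψ is trivial
  have hker : ψ.ker = ⊥ := by
    by_contra hne
    have hxinv : ∀ v, ψ v = 1 → ψ ((x : MulAut P) v) = 1 := by
      intro v hv
      let e : N ≃ N := MulEquiv.toEquiv (MulAut.conjNormal x⁻¹ : MulAut N)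
      have : ψ ((x : MulAut P) v) = (x : MulAut P) (ψ v) := by
        show ∏ n : N, act n _ = (x : MulAut P) (∏ n : N, act n v)
        rw [map_prod]
        refine Fintype.prod_equiv e _ _ fun n => ?_
        show act n ((x : MulAut P) v) = (x : MulAut P) (act (MulAut.conjNormal x⁻¹ n) v)
        simp [act, MulAut.mul_apply]
      rw [this, hv, map_one]
    let Q := Subgroup.zpowers (x : MulAut P)
    have hQ : IsPGroup p Q := IsPGroup.of_card (n := 1) (by rw [Nat.card_zpowers, pow_one, Subgroup.orderOf_coe, hx])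
    have hS : ∀ q ∈ Q, ∀ v, ψ v = 1 → ψ (q v) = 1 := by
      intro q hq v hv
      obtain ⟨k, rfl⟩ := (isOfFinOrder_of_finite (x : MulAut P)).mem_powers_iff_mem_zpowers.2 hq
      show ψ (((x : MulAut P) ^ k) v) = 1
      induction k with
      | zero => simpa using hv
      | succ k ih => rw [pow_succ', MulAut.mul_apply]; exact hxinv _ (ih (Subgroup.pow_mem _ (Subgroup.mem_zpowers _) k))
    let iA : MulAction Q ψ.ker :=
      { smul := fun q v => ⟨(q : MulAut P) v, hS q q.2 v v.2⟩
        one_smul := fun v => Subtype.ext rfl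
        mul_smul := fun a b v => Subtype.ext rfl }
    obtain ⟨k, hk⟩ := IsPGroup.iff_card.1 (hP.to_subgroup ψ.ker)
    have hd : p ∣ Nat.card ψ.ker := by
      rw [hk]; refine dvd_pow_self p ?_
      rintro rfl
      exact hne (Subgroup.eq_bot_of_card_eq _ (by simpa using hk))
    obtain ⟨w, hw, hw1⟩ := hQ.exists_fixed_point_of_prime_dvd_card_of_fixed_point ψ.ker hd
      (a := 1) (fun q => Subtype.ext (show (q : MulAut P) (1 : P) = 1 from map_one _))
    have hw' : (x : MulAut P) w = w := congrArg Subtype.val (hw ⟨x, Subgroup.mem_zpowers _⟩)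
    have h2 : (w : P) ^ Nat.card N = 1 := by rw [← hψfix w (hfixed w hw')]; exact w.2
    exact hw1.symm (Subtype.ext ((powCoprime hcop).injective (by simpa [powCoprime] using h2)))
  have hinj : Function.Injective ψ := (MonoidHom.ker_eq_bot_iff ψ).1 hker
  have htriv : ∀ (n : N) v, act n v = v := by
    intro n v
    obtain ⟨u, rfl⟩ := (powCoprime hcop).surjective v
    show act n (u ^ Nat.card N) = u ^ Nat.card N
    have h1 : ψ u = u ^ Nat.card N := hinj (by rw [hψfix (ψ u) (fun m => hψn m u), map_pow])
    rw [← h1]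
    exact hψn n u
  rw [Subgroup.eq_bot_iff_forall]
  intro n hn
  exact Subtype.ext (MulEquiv.ext fun v => htriv ⟨n, hn⟩ v)

end Cfsg.Agent.S4036
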