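import Cfsg.Statements.S4039
import Cfsg.Agent.H86.NilpotentMaximal


set_option autoImplicit false
open Cfsg

namespace Cfsg.Agent.S4039

/-- A finite group possessing a maximal subgroup that is nilpotent of class at most 2 is solvable. -/
theorem result {G : Type*} [Group G] [Finite G]
    (M : Subgroup G) (hmax : IsCoatom M) (hnil : Group.IsNilpotent M) (hcl : Group.nilpotencyClass ↥M ≤ 2) :
    Group.IsSolvable G := by
  refine H86.isSolvable_of_nilpotent_maximal M hmax hnil fun x hx y hy z hz _ _ _ => ?_
  have htop : Subgroup.upperCentralSeries (↥M) 2 = ⊤ :=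
    Subgroup.upperCentralSeries_eq_top_iff_nilpotencyClass_le.2 hcl
  have h1 : (⟨x, hx⟩ : M) ∈ Subgroup.upperCentralSeries (↥M) (1 + 1) := by
    rw [show (1 + 1 : ℕ) = 2 from rfl, htop]; exact Subgroup.mem_top _
  rw [Subgroup.mem_upperCentralSeries_succ_iff] at h1
  have h2 := h1 ⟨y, hy⟩
  rw [Subgroup.upperCentralSeries_one, Subgroup.mem_center_iff] at h2
  have h3 := congrArg Subtype.val (h2 ⟨z, hz⟩)
  simpa [Commute, SemiconjBy, commutatorElement_def] using h3.symm

end Cfsg.Agent.S4039
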