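import Cfsg.Statements.S4040
import Cfsg.Agent.H86.NilpotentMaximal


set_option autoImplicit false
open Cfsg

namespace Cfsg.Agent.S4040

/-- A finite group possessing a maximal subgroup that is nilpotent of odd order is solvable. -/
theorem result {G : Type*} [Group G] [Finite G]
    (M : Subgroup G) (hmax : IsCoatom M) (hnil : Group.IsNilpotent M) (hodd : Odd (Nat.card M)) :
    Group.IsSolvable G := by
  refine H86.isSolvable_of_nilpotent_maximal M hmax hnil fun x hx y hy z hz ⟨i, hi⟩ _ _ => ?_
  have h1 : orderOf x = 1 := by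
    have h2 : 2 ^ i ∣ Nat.card M := hi ▸ M.orderOf_dvd_natCard hx
    rw [hi]
    exact Nat.eq_one_of_dvd_coprimes ((Nat.coprime_two_left.2 hodd).pow_left i) dvd_rfl h2
  rw [orderOf_eq_one_iff] at h1
  simp [h1]

end Cfsg.Agent.S4040
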