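import Cfsg.Statements.S4043
import Cfsg.Agent.H19.SchurZassenhaus
import Cfsg.Agent.H29.FourGroup


set_option autoImplicit false
open Cfsg

namespace Cfsg.Agent.S4043

open scoped Pointwise

/-- The normal `p`-complement of a subgroup, pushed to `G`. -/
theorem exists_complement_data {G : Type*} [Group G] [Finite G] {p : ℕ} [Fact p.Prime] (A : Subgroup G)
    (h : Cfsg.HasNormalPComplement p A) :
    ∃ K P : Subgroup G, K ≤ A ∧ P ≤ A ∧ (∀ a ∈ A, ∀ k ∈ K, a * k * a⁻¹ ∈ K) ∧ IsPGroup p P ∧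
      ¬ p ∣ Nat.card K ∧ (∀ a ∈ A, ∃ k ∈ K, ∃ u ∈ P, a = k * u) ∧
      (∀ a ∈ A, (orderOf a).Coprime p → a ∈ K) := by
  obtain ⟨P, K, hK, hc⟩ := h
  refine ⟨K.map A.subtype, (P : Subgroup A).map A.subtype, Subgroup.map_subtype_le _, Subgroup.map_subtype_le _,
    ?_, P.2.map _, ?_, ?_, ?_⟩
  · rintro a ha _ ⟨k, hk, rfl⟩
    exact ⟨⟨a, ha⟩ * k * ⟨a, ha⟩⁻¹, hK.conj_mem k hk _, rfl⟩
  · rw [Subgroup.card_subtype, ← hc.index_eq_card]
    exact P.not_dvd_index
  · intro a ha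
    obtain ⟨⟨k, u⟩, hku⟩ := hc.2 ⟨a, ha⟩
    exact ⟨_, ⟨k, k.2, rfl⟩, _, ⟨u, u.2, rfl⟩, (congrArg Subtype.val hku).symm⟩
  · intro a ha hcop
    refine ⟨⟨a, ha⟩, ?_, rfl⟩
    show (⟨a, ha⟩ : A) ∈ K
    rw [← QuotientGroup.eq_one_iff]
    show QuotientGroup.mk' K ⟨a, ha⟩ = 1
    rw [← orderOf_eq_one_iff]
    have hd := orderOf_map_dvd (QuotientGroup.mk' K) (⟨a, ha⟩ : A)
    rw [Subgroup.orderOf_mk] at hd
    have hd2 := orderOf_dvd_natCard (QuotientGroup.mk' K ⟨a, ha⟩)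
    rw [← Subgroup.index_eq_card, hc.symm.index_eq_card, P.card_eq_multiplicity] at hd2
    exact Nat.eq_one_of_dvd_coprimes (hcop.pow_right _) hd hd2

/-- The `p'`-complement of one complement of `N` is conjugate into that of another. -/
theorem exists_conj_le {G : Type*} [Group G] [Finite G] {p : ℕ} [Fact p.Prime] (N : Subgroup G) [N.Normal]
    (hN : IsPGroup p N) (A K K₁ : Subgroup G) (hA : A.IsComplement' N) (hKA : K ≤ A) (hKp : ¬ p ∣ Nat.card K)
    (hK₁p : ¬ p ∣ Nat.card K₁) (hKmax : ∀ a ∈ A, (orderOf a).Coprime p → a ∈ K) :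
    ∃ n ∈ N, ∀ k ∈ K₁, n⁻¹ * k * n ∈ K := by
  obtain ⟨e, he⟩ := IsPGroup.iff_card.1 hN
  have hp : p.Prime := Fact.out
  set X := K ⊔ N
  have hK₁X : K₁ ≤ X := by
    intro k hk
    obtain ⟨⟨a, n⟩, han⟩ := hA.2 k
    simp only at han
    have hcop : (orderOf k).Coprime p :=
      (hp.coprime_iff_not_dvd.2 fun hd => hK₁p (hd.trans (Subgroup.orderOf_dvd_natCard _ hk))).symm
    have hao : (orderOf (a : G)).Coprime p := by
      refine Nat.Coprime.coprime_dvd_left ?_ hcop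
      rw [orderOf_dvd_iff_pow_eq_one]
      have hmem : (a : G) ^ orderOf k ∈ N := by
        have h1 := congrArg (QuotientGroup.mk' N) han
        rw [map_mul, (QuotientGroup.eq_one_iff (n : G)).2 n.2 |> (show QuotientGroup.mk' N (n : G) = 1 from ·), mul_one] at h1
        rw [← QuotientGroup.eq_one_iff]
        show QuotientGroup.mk' N ((a : G) ^ orderOf k) = 1
        rw [map_pow, h1, ← map_pow, pow_orderOf_eq_one, map_one]
      exact Subgroup.mem_bot.1 (hA.disjoint.le_bot ⟨pow_mem a.2 _, hmem⟩)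
    rw [← han]
    exact Subgroup.mul_mem_sup (hKmax a a.2 hao) n.2
  have hdis : Disjoint K N := hA.disjoint.mono_left hKA
  haveI hNX : (N.subgroupOf X).Normal := Subgroup.normal_subgroupOf
  have hcompl : Subgroup.IsComplement' (N.subgroupOf X) (K.subgroupOf X) := by
    refine Subgroup.isComplement'_of_disjoint_and_mul_eq_univ ?_ ?_
    · rw [disjoint_iff, Subgroup.subgroupOf, Subgroup.subgroupOf, ← Subgroup.comap_inf, inf_comm, hdis.eq_bot]
      exact Subgroup.bot_subgroupOf _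
    · refine Set.eq_univ_of_forall fun x => ?_
      have hx : (x : G) ∈ (↑(N ⊔ K) : Set G) := by rw [sup_comm]; exact x.2
      rw [Subgroup.normal_mul] at hx
      obtain ⟨n, hn, k, hk, hnk⟩ := hx
      exact ⟨⟨n, Subgroup.mem_sup_right hn⟩, hn, ⟨k, Subgroup.mem_sup_left hk⟩, hk, Subtype.ext hnk⟩
  have hcN : Nat.card (N.subgroupOf X) = p ^ e := by
    rw [Nat.card_congr (Subgroup.subgroupOfEquivOfLe le_sup_right).toEquiv, he]
  have hcK : Nat.card (K.subgroupOf X) = Nat.card K :=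
    Nat.card_congr (Subgroup.subgroupOfEquivOfLe le_sup_left).toEquiv
  have hcK₁ : Nat.card (K₁.subgroupOf X) = Nat.card K₁ :=
    Nat.card_congr (Subgroup.subgroupOfEquivOfLe hK₁X).toEquiv
  obtain ⟨n, hn, hle⟩ := H19.sz_contained (N.subgroupOf X)
    (by rw [hcompl.symm.index_eq_card, hcN, hcK]; exact (hp.coprime_iff_not_dvd.2 hKp).pow_left e) hcompl
    (K₁.subgroupOf X) (by rw [hcN, hcK₁]; exact ((hp.coprime_iff_not_dvd.2 hK₁p).pow_left e).symm)
    (Or.inl (by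
      have : IsPGroup p (N.subgroupOf X) := IsPGroup.of_card hcN
      haveI := this.isNilpotent
      infer_instance))
  have hn' : (n : G) ∈ N := hn
  -- K₁ ≤ n K n⁻¹, normal in A₁, and in A' := n A n⁻¹
  have hK₁K : ∀ k ∈ K₁, (n : G)⁻¹ * k * n ∈ K := by
    intro k hk
    have h1 : (⟨k, hK₁X hk⟩ : X) ∈ MulAut.conj n • K.subgroupOf X := hle hk
    rw [Subgroup.mem_pointwise_smul_iff_inv_smul_mem] at h1
    simpa [MulAut.smul_def, Subgroup.mem_subgroupOf] using h1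
  exact ⟨n, hn', hK₁K⟩

/-- Let G be a finite group that is the semidirect product of a normal p-subgroup N by a subgroup A, and also of N by a subgroup A₁, where p is a prime and A and A₁ both have normal p-complements. If C_N(A) = C_N(A₁) = 1, then A₁ is conjugate to A by an element of N. -/
theorem result {G : Type*} [Group G] [Finite G] {p : ℕ}
    [Fact p.Prime] (N : Subgroup G) [N.Normal] (hN : IsPGroup p N) (A A₁ : Subgroup G)
    (hA : A.IsComplement' N) (hA₁ : A₁.IsComplement' N)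
    (hAp : Cfsg.HasNormalPComplement p A) (hA₁p : Cfsg.HasNormalPComplement p A₁)
    (hC : ∀ n : G, n ∈ N → (∀ a : G, a ∈ A → a * n * a⁻¹ = n) → n = 1)
    (hC₁ : ∀ n : G, n ∈ N → (∀ a : G, a ∈ A₁ → a * n * a⁻¹ = n) → n = 1) :
    ∃ n : G, n ∈ N ∧ A₁ = A.map (MulAut.conj n).toMonoidHom := by

  obtain ⟨K, P, hKA, hPA, hKn, hP, hKp, hKP, hKmax⟩ := exists_complement_data A hAp
  obtain ⟨K₁, P₁, hK₁A, hP₁A, hK₁n, hP₁, hK₁p, hK₁P, hK₁max⟩ := exists_complement_data A₁ hA₁p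
  obtain ⟨n, hn', hK₁K⟩ := exists_conj_le N hN A K K₁ hA hKA hKp hK₁p hKmax
  obtain ⟨n', -, hKK₁⟩ := exists_conj_le N hN A₁ K₁ K hA₁ hK₁A hK₁p hKp hK₁max
  have hD : ∀ d ∈ N, (∀ k ∈ K₁, k * d = d * k) → d = 1 := by
    by_contra hc
    push Not at hc
    obtain ⟨d, hd, hdc, hd1⟩ := hc
    let D : Subgroup G := N ⊓ Subgroup.centralizer (K₁ : Set G)
    have hDnorm : A₁ ≤ Subgroup.normalizer (D : Set G) := by
      intro a ha
      have key : ∀ a ∈ A₁, ∀ u ∈ D, a * u * a⁻¹ ∈ D := by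
        intro a ha u hu
        refine ⟨(inferInstance : N.Normal).conj_mem u hu.1 a, ?_⟩
        show a * u * a⁻¹ ∈ Subgroup.centralizer (K₁ : Set G)
        rw [Subgroup.mem_centralizer_iff]
        intro k hk
        have h1 := hK₁n a⁻¹ (inv_mem ha) k hk
        rw [inv_inv] at h1
        have h2 : (a⁻¹ * k * a) * u = u * (a⁻¹ * k * a) := Subgroup.mem_centralizer_iff.1 hu.2 _ h1
        calc k * (a * u * a⁻¹) = a * ((a⁻¹ * k * a) * u) * a⁻¹ := by group
          _ = a * (u * (a⁻¹ * k * a)) * a⁻¹ := by rw [h2]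
          _ = _ := by group
      rw [Subgroup.mem_normalizer_iff]
      intro u
      refine ⟨key a ha u, fun hu => ?_⟩
      have := key a⁻¹ (inv_mem ha) _ hu
      simpa [mul_assoc] using this
    have hdD : d ∈ D := ⟨hd, fun k hk => hdc k hk⟩
    set S := D ⊔ P₁
    have hDp : IsPGroup p D := hN.to_le inf_le_left
    have hS : IsPGroup p S := hDp.to_sup_of_normal_left' hP₁ (hP₁A.trans hDnorm)
    haveI : (D.subgroupOf S).Normal :=
      Subgroup.normal_subgroupOf_of_le_normalizer (sup_le Subgroup.le_normalizer (hP₁A.trans hDnorm))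
    obtain ⟨z, hz, hzD, hz1⟩ := H29.exists_mem_center_of_normal hS (N := D.subgroupOf S) (by
      intro h
      have h1 : (⟨d, Subgroup.mem_sup_left hdD⟩ : S) ∈ D.subgroupOf S := hdD
      rw [h, Subgroup.mem_bot] at h1
      exact hd1 (congrArg Subtype.val h1))
    refine hz1 (Subtype.ext (hC₁ z hzD.1 ?_))
    intro a ha
    obtain ⟨k, hk, u, hu, rfl⟩ := hK₁P a ha
    have h1 : u * (z : G) = (z : G) * u :=
      congrArg Subtype.val (Subgroup.mem_center_iff.1 hz ⟨u, Subgroup.mem_sup_right hu⟩)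
    have h2 : k * (z : G) = (z : G) * k := Subgroup.mem_centralizer_iff.1 hzD.2 k hk
    calc k * u * (z : G) * (k * u)⁻¹ = k * (u * z) * u⁻¹ * k⁻¹ := by group
      _ = k * z * k⁻¹ := by rw [h1]; group
      _ = z := by rw [h2]; group
  have hmap : K₁ = K.map (MulAut.conj n).toMonoidHom := by
    refine Subgroup.eq_of_le_of_card_ge (fun k hk => ⟨n⁻¹ * k * n, hK₁K k hk, by simp [mul_assoc]⟩) ?_
    rw [Subgroup.card_map_of_injective (MulAut.conj n).injective]
    exact Nat.card_le_card_of_injective (fun x : K => (⟨n'⁻¹ * x * n', hKK₁ x x.2⟩ : K₁))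
      (fun a b h => Subtype.ext (by simpa using congrArg Subtype.val h))
  refine ⟨n, hn', (Subgroup.eq_of_le_of_card_ge ?_ ?_).symm⟩
  · rintro _ ⟨a, ha, rfl⟩
    obtain ⟨⟨b, m⟩, hbm⟩ := hA₁.2 ((MulAut.conj n).toMonoidHom a)
    have hbm' : (b : G) * m = (MulAut.conj n).toMonoidHom a := hbm
    suffices hm : (m : G) = 1 by
      rw [← hbm', hm, mul_one]; exact b.2
    refine hD m m.2 fun k hk => ?_
    have hy : ∀ k ∈ K₁, ((b : G) * m) * k * ((b : G) * m)⁻¹ ∈ K₁ := by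
      intro k hk
      have h5 : k ∈ K.map (MulAut.conj n).toMonoidHom := by rwa [← hmap]
      obtain ⟨x, hx, rfl⟩ := h5
      rw [hbm', hmap]
      exact ⟨a * x * a⁻¹, hKn a ha x hx, by simp [mul_assoc]⟩
    have h1 : (m : G) * k * (m : G)⁻¹ ∈ K₁ := by
      have := hK₁n (b : G)⁻¹ (inv_mem b.2) _ (hy k hk)
      simpa [mul_assoc] using this
    have h2 : (m : G) * k * (m : G)⁻¹ * k⁻¹ ∈ N := by
      have := N.mul_mem m.2 ((inferInstance : N.Normal).conj_mem (m : G)⁻¹ (inv_mem m.2) k)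
      simpa [mul_assoc] using this
    have h3 : (m : G) * k * (m : G)⁻¹ * k⁻¹ = 1 :=
      Subgroup.mem_bot.1 (hA₁.disjoint.le_bot ⟨hK₁A (K₁.mul_mem h1 (inv_mem hk)), h2⟩)
    rw [mul_inv_eq_one] at h3
    exact (mul_inv_eq_iff_eq_mul.1 h3).symm
  · rw [Subgroup.card_map_of_injective (MulAut.conj n).injective, ← hA.index_eq_card, ← hA₁.index_eq_card]

end Cfsg.Agent.S4043
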