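import Cfsg.Statements.S4050
import Cfsg.Agent.H19.PiClosed

set_option autoImplicit false
open Cfsg

namespace Cfsg.Agent.S4050

/-- Let π be a set of primes and G a finite group. The π-elements of G (elements whose order is divisible only by primes of π) form a subgroup if and only if G is π-separable (it has a chain of normal subgroups from 1 to G with each successive index divisible only by primes in π or only by primes outside π) and N_G(H)/C_G(H) is a π'-group for every nontrivial π'-subgroup H of G. -/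
theorem result {G : Type*} [Group G] [Finite G] (π : Set ℕ)
    (hπ : ∀ p ∈ π, p.Prime) :
    (∃ K : Subgroup G, ∀ x : G, x ∈ K ↔ ∀ p : ℕ, p.Prime → p ∣ orderOf x → p ∈ π) ↔
    ((∃ (n : ℕ) (H : Fin (n + 1) → Subgroup G), H 0 = ⊥ ∧ H (Fin.last n) = ⊤ ∧ Monotone H ∧ (∀ i, (H i).Normal) ∧
      ∀ i : Fin n, (∀ q : ℕ, q.Prime → q ∣ (H i.castSucc).relIndex (H i.succ) → q ∈ π) ∨
        (∀ q : ℕ, q.Prime → q ∣ (H i.castSucc).relIndex (H i.succ) → q ∉ π)) ∧
     (∀ H : Subgroup G, H ≠ ⊥ → (∀ p : ℕ, p.Prime → p ∣ Nat.card ↥H → p ∉ π) →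
        ∀ p : ℕ, p.Prime → p ∣ (Subgroup.centralizer (H : Set G)).relIndex (Subgroup.normalizer (H : Set G)) → p ∉ π)) := by
  constructor
  · rintro ⟨K, hK⟩
    exact Cfsg.Agent.H19.piSep_of_piClosed hK
  · rintro ⟨hsep, hhom⟩
    exact Cfsg.Agent.H19.piClosed_of_piSep hsep hhom

end Cfsg.Agent.S4050
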