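import Cfsg.Statements.S4051
import Mathlib
import Cfsg.Agent.S4050

set_option autoImplicit false
open Cfsg

namespace Cfsg.Agent.S4051

/-- The subgroup of `π`-elements is a Hall subgroup. -/
theorem pi_elements_hall {X : Type*} [Group X] [Finite X] (π : Set ℕ) (L : Subgroup X)
    (hL : ∀ x : X, x ∈ L ↔ ∀ p : ℕ, p.Prime → p ∣ orderOf x → p ∈ π) :
    L.Normal ∧ (∀ q : ℕ, q.Prime → q ∣ Nat.card L → q ∈ π) ∧ (∀ q : ℕ, q.Prime → q ∣ L.index → q ∉ π) := by
  refine ⟨⟨fun x hx g => (hL _).2 ?_⟩, fun q hq hd => ?_, fun q hq hd hqπ => ?_⟩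
  · rw [show g * x * g⁻¹ = MulAut.conj g x from rfl, MulEquiv.orderOf_eq]
    exact (hL x).1 hx
  · haveI := Fact.mk hq
    obtain ⟨x, hx⟩ := exists_prime_orderOf_dvd_card' (G := L) q hd
    exact (hL x).1 x.2 q hq (by rw [Subgroup.orderOf_coe, hx])
  · haveI := Fact.mk hq
    obtain ⟨S⟩ : Nonempty (Sylow q X) := inferInstance
    refine S.not_dvd_index (hd.trans (Subgroup.index_dvd_of_le fun x hx => (hL x).2 fun p hp hpd => ?_))
    obtain ⟨k, hk⟩ := IsPGroup.iff_orderOf.1 S.isPGroup' ⟨x, hx⟩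
    rw [Subgroup.orderOf_mk] at hk
    exact ((Nat.prime_dvd_prime_iff_eq hp hq).1 (hp.dvd_of_dvd_pow (hk ▸ hpd))).symm ▸ hqπ


/-- Let π be a set of primes and G a finite group such that N_G(H)/C_G(H) is a π'-group for every nontrivial π'-subgroup H of G. If K is a normal subgroup of G such that the π-elements of K form a subgroup and the π-elements of G/K form a subgroup, then the π-elements of G form a subgroup. -/
theorem result {G : Type*} [Group G] [Finite G] (π : Set ℕ)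
    (hπ : ∀ p ∈ π, p.Prime) (hhom : (∀ H : Subgroup G, H ≠ ⊥ → (∀ p : ℕ, p.Prime → p ∣ Nat.card ↥H → p ∉ π) →
        ∀ p : ℕ, p.Prime → p ∣ (Subgroup.centralizer (H : Set G)).relIndex (Subgroup.normalizer (H : Set G)) → p ∉ π))
    (K : Subgroup G) [K.Normal]
    (hK : ∃ L : Subgroup ↥K, ∀ x : ↥K, x ∈ L ↔ ∀ p : ℕ, p.Prime → p ∣ orderOf x → p ∈ π)
    (hQ : ∃ L : Subgroup (G ⧸ K), ∀ x : G ⧸ K, x ∈ L ↔ ∀ p : ℕ, p.Prime → p ∣ orderOf x → p ∈ π) :
    (∃ K : Subgroup G, ∀ x : G, x ∈ K ↔ ∀ p : ℕ, p.Prime → p ∣ orderOf x → p ∈ π) := by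
  obtain ⟨L, hL⟩ := hK
  obtain ⟨R, hR⟩ := hQ
  obtain ⟨hLn, hLπ, hLi⟩ := pi_elements_hall π L hL
  obtain ⟨hRn, hRπ, hRi⟩ := pi_elements_hall π R hR
  refine (Cfsg.Agent.S4050.result π hπ).2 ⟨?_, hhom⟩
  set L' := L.map K.subtype with hL'
  set M := R.comap (QuotientGroup.mk' K) with hM
  haveI hL'n : L'.Normal := ⟨by
    rintro _ ⟨x, hx, rfl⟩ g
    refine ⟨⟨g * (x : G) * g⁻¹, (inferInstance : K.Normal).conj_mem _ x.2 g⟩, (hL _).2 ?_, rfl⟩
    rw [← Subgroup.orderOf_coe]
    show ∀ p, p.Prime → p ∣ orderOf (MulAut.conj g (x : G)) → p ∈ π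
    rw [MulEquiv.orderOf_eq, Subgroup.orderOf_coe]
    exact (hL x).1 hx⟩
  haveI hMn : M.Normal := hRn.comap _
  have hKM : K ≤ M := fun k hk => by
    show QuotientGroup.mk' K k ∈ R
    rw [QuotientGroup.mk'_apply, (QuotientGroup.eq_one_iff k).2 hk]
    exact one_mem R
  refine ⟨4, ![⊥, L', K, M, ⊤], rfl, rfl, ?_, ?_, ?_⟩
  · rw [Fin.monotone_iff_le_succ]
    intro i
    fin_cases i <;> simp
    · exact Subgroup.map_subtype_le L
    · exact hKM
  · intro i
    fin_cases i <;> simp <;> infer_instance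
  · intro i
    fin_cases i
    · refine Or.inl fun q hq hd => hLπ q hq ?_
      change q ∣ (⊥ : Subgroup G).relIndex L' at hd
      rwa [Subgroup.relIndex_bot_left, hL', Subgroup.card_map_of_injective K.subtype_injective] at hd
    · refine Or.inr fun q hq hd => hLi q hq ?_
      change q ∣ L'.relIndex K at hd
      rwa [hL', Subgroup.relIndex, Subgroup.subgroupOf, Subgroup.comap_map_eq_self_of_injective K.subtype_injective] at hd
    · refine Or.inl fun q hq hd => hRπ q hq ?_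
      change q ∣ K.relIndex M at hd
      have e : ((⊥ : Subgroup (G ⧸ K)).comap (QuotientGroup.mk' K)).relIndex M = Nat.card R := by
        rw [hM, Subgroup.relIndex_comap,
          Subgroup.map_comap_eq_self_of_surjective (QuotientGroup.mk'_surjective _), Subgroup.relIndex_bot_left]
      rw [MonoidHom.comap_bot, QuotientGroup.ker_mk'] at e
      rwa [e] at hd
    · refine Or.inr fun q hq hd => hRi q hq ?_
      change q ∣ M.relIndex ⊤ at hd
      rwa [Subgroup.relIndex_top_right, hM, Subgroup.index_comap_of_surjective _ (QuotientGroup.mk'_surjective _)] at hd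

end Cfsg.Agent.S4051
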