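import Cfsg.Statements.S4056
import Mathlib

set_option autoImplicit false
open Cfsg
open scoped commutatorElement

namespace Cfsg.Agent.S4056

/-- In a finite 2-group of nilpotency class at most 2 and exponent dividing 4, the Frattini subgroup lies in the centre and is elementary abelian. -/
theorem result {P : Type*} [Group P] [Finite P] (hP : IsPGroup 2 P)
    (hcl : Group.nilpotencyClass P ≤ 2) (hexp : Monoid.exponent P ∣ 4) :
    frattini P ≤ Subgroup.center P ∧ Cfsg.IsElementaryAbelian 2 (frattini P) := by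
  have h4 : ∀ x : P, x ^ 4 = 1 := fun x =>
    orderOf_dvd_iff_pow_eq_one.1 ((Monoid.order_dvd_exponent x).trans hexp)
  have hcomm : ∀ x y : P, ⁅x, y⁆ ∈ Subgroup.center P := by
    intro x y
    haveI := hP.isNilpotent
    have h2 : Subgroup.upperCentralSeries P 2 = ⊤ :=
      Subgroup.upperCentralSeries_eq_top_iff_nilpotencyClass_le.2 hcl
    have hx : x ∈ Subgroup.upperCentralSeries P (1 + 1) := h2 ▸ Subgroup.mem_top x
    rw [Subgroup.mem_upperCentralSeries_succ_iff] at hx
    simpa [Subgroup.upperCentralSeries_one] using hx y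
  let W : Subgroup P :=
    { carrier := {w | w ∈ Subgroup.center P ∧ w ^ 2 = 1}
      one_mem' := ⟨one_mem _, one_pow 2⟩
      mul_mem' := fun {a b} ha hb => ⟨mul_mem ha.1 hb.1, by
        rw [(show Commute a b from Subgroup.mem_center_iff.1 hb.1 a).mul_pow, ha.2, hb.2, one_mul]⟩
      inv_mem' := fun {a} ha => ⟨inv_mem ha.1, by rw [inv_pow, ha.2, inv_one]⟩ }
  have hsq : ∀ x : P, x ^ 2 ∈ W := by
    intro x
    refine ⟨Subgroup.mem_center_iff.2 fun y => ?_, by rw [← pow_mul]; exact h4 x⟩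
    set c := ⁅x, y⁆ with hc
    have hcc : ∀ z, z * c = c * z := Subgroup.mem_center_iff.1 (hcomm x y)
    have hxy : x * y = c * y * x := by rw [hc]; simp [commutatorElement_def]
    have hxxy : x ^ 2 * y = c ^ 2 * y * x ^ 2 := by
      calc x ^ 2 * y = x * (x * y) := by rw [pow_two, mul_assoc]
        _ = (x * c) * (y * x) := by rw [hxy]; group
        _ = c * (x * y) * x := by rw [hcc x]; group
        _ = c * (c * y * x) * x := by rw [hxy]
        _ = _ := by simp only [pow_two, mul_assoc]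
    have hc2 : c ^ 2 = 1 := by
      have h1 : Commute (x ^ 2) (y ^ 2) := by
        show x ^ 2 * y ^ 2 = y ^ 2 * x ^ 2
        have hy2 : y * c ^ 2 = c ^ 2 * y := ((show Commute y c from hcc y).pow_right 2).eq
        calc x ^ 2 * y ^ 2 = (x ^ 2 * y) * y := by rw [pow_two y, mul_assoc]
          _ = (c ^ 2 * y * x ^ 2) * y := by rw [hxxy]
          _ = c ^ 2 * y * (x ^ 2 * y) := mul_assoc _ _ _
          _ = c ^ 2 * (y * c ^ 2) * y * x ^ 2 := by rw [hxxy]; simp only [mul_assoc]
          _ = c ^ 4 * y ^ 2 * x ^ 2 := by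
            rw [hy2, show c ^ 4 = c ^ 2 * c ^ 2 from pow_add c 2 2, pow_two y]
            simp only [mul_assoc]
          _ = y ^ 2 * x ^ 2 := by rw [h4 c, one_mul]
      have hpow : (x * y) ^ 2 = c⁻¹ * (x ^ 2 * y ^ 2) := by
        have hyx : y * x = c⁻¹ * (x * y) := by rw [hxy]; group
        have hxci : x * c⁻¹ = c⁻¹ * x := ((show Commute x c from hcc x).inv_right).eq
        calc (x * y) ^ 2 = x * (y * x) * y := by simp only [pow_two, mul_assoc]
          _ = (x * c⁻¹) * (x * y) * y := by rw [hyx]; simp only [mul_assoc]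
          _ = _ := by rw [hxci]; simp only [pow_two, mul_assoc]
      have h4' : ((x * y) ^ 2) ^ 2 = 1 := by rw [← pow_mul]; exact h4 _
      have hci : ∀ z : P, Commute c⁻¹ z := fun z => ((show Commute z c from hcc z).symm).inv_left
      rw [hpow, (hci _).mul_pow, h1.mul_pow, ← pow_mul, ← pow_mul, h4 x, h4 y, mul_one, mul_one,
        inv_pow, inv_eq_one] at h4'
      exact h4'
    rw [hxxy, hc2, one_mul]
  suffices h : frattini P ≤ W from
    ⟨fun x hx => (h hx).1, ⟨⟨fun a b => Subtype.ext (Subgroup.mem_center_iff.1 (h b.2).1 a)⟩⟩,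
      fun a ha => (h ha).2⟩
  intro f hf
  by_contra hfW
  obtain ⟨M, hWM, hM⟩ := Finite.exists_le_maximal
    (p := fun M : Subgroup P => W ≤ M ∧ f ∉ M) (a := W) ⟨le_rfl, hfW⟩
  haveI hMn : M.Normal := ⟨fun m hm g => by
    have hsq' : ∀ z : P, z ^ 2 ∈ M := fun z => hWM (hsq z)
    have : g * m * g⁻¹ = (g * m) ^ 2 * (m⁻¹) * (g ^ 2)⁻¹ := by
      simp [pow_two, mul_assoc]
    rw [this]
    exact mul_mem (mul_mem (hsq' _) (inv_mem hm)) (inv_mem (hsq' g))⟩
  have hcoatom : IsCoatom M := by
    refine ⟨fun e => hM.1.2 (e ▸ Subgroup.mem_top f), fun K hK => ?_⟩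
    rw [eq_top_iff]
    intro z _
    have hfK : f ∈ K := by
      by_contra hfK
      exact hK.not_ge (hM.2 ⟨hWM.trans hK.le, hfK⟩ hK.le)
    by_cases hzM : z ∈ M
    · exact hK.le hzM
    let M' : Subgroup P := M ⊔ Subgroup.zpowers z
    have hfM' : f ∈ M' := by
      by_contra hfM'
      exact hzM (hM.2 ⟨hWM.trans le_sup_left, hfM'⟩ le_sup_left
        (le_sup_right (a := M) (Subgroup.mem_zpowers z)))
    have hmem : f ∈ ((M' : Subgroup P) : Set P) := hfM'
    rw [Subgroup.normal_mul] at hmem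
    obtain ⟨m, hm, w, hw, rfl⟩ := hmem
    obtain ⟨i, rfl⟩ := hw
    rcases Int.even_or_odd i with ⟨j, rfl⟩ | ⟨j, rfl⟩
    · exfalso
      apply hM.1.2
      refine mul_mem hm ?_
      show z ^ (j + j) ∈ M
      rw [← two_mul, zpow_mul]
      exact zpow_mem (by exact_mod_cast hWM (hsq z)) j
    · have hzK : z ^ (2 * j + 1) ∈ K := by
        have := mul_mem (inv_mem (hK.le hm)) hfK
        simpa using this
      have : z = (z ^ (2 * j)) ⁻¹ * z ^ (2 * j + 1) := by group
      rw [this]
      refine mul_mem (inv_mem (hK.le ?_)) hzK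
      rw [zpow_mul]
      exact zpow_mem (by exact_mod_cast hWM (hsq z)) j
  exact hM.1.2 (frattini_le_coatom hcoatom hf)

end Cfsg.Agent.S4056
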