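import Cfsg.Statements.S4057
import Mathlib
import Cfsg.Agent.H24.MaxExponent
import Cfsg.Agent.H87.ConjRep
import Cfsg.Agent.H87.UnitriangularRep
import Cfsg.Agent.H87.UnitriangularGenerators
import Cfsg.Agent.H87.OmegaCentralGenerators

set_option autoImplicit false
open Cfsg

namespace Cfsg.Agent.S4057

/-- Let p be an odd prime and P a finite p-group in which every normal abelian subgroup can be generated by k elements. Then every subgroup of P can be generated by at most ⌊k(k+4)/4⌋ elements. -/
theorem result {P : Type*} [Group P] [Finite P] {p : ℕ} [Fact p.Prime]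
    (hp : p ≠ 2) (hP : IsPGroup p P) (k : ℕ)
    (hab : ∀ A : Subgroup P, A.Normal → IsMulCommutative A → ∃ S : Finset P, S.card ≤ k ∧ Subgroup.closure (S : Set P) = A) :
    ∀ H : Subgroup P, ∃ S : Finset P, S.card ≤ k * (k + 4) / 4 ∧ Subgroup.closure (S : Set P) = H := by
  intro H
  classical
  -- a maximal normal elementary abelian subgroup
  obtain ⟨E, hEn, hEc, hEe, -, hmax⟩ := H24.exists_maximal_normal_exponent p
    (A₀ := (⊥ : Subgroup P)) inferInstance inferInstance
    (fun a ha => by rw [Subgroup.mem_bot.1 ha, one_pow])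
  obtain ⟨n, hn⟩ := (hP.to_subgroup E).exists_card_eq
  -- its rank is at most `k`
  have hnk : n ≤ k := by
    obtain ⟨T, hT, hTE⟩ := hab E hEn hEc
    let : CommGroup E := { (inferInstance : Group E) with mul_comm := hEc.is_comm.comm }
    have h1 : Nat.card E ∣ p ^ Group.rank E := card_dvd_exponent_pow_rank' E
      fun g => Subtype.ext (hEe g.1 g.2)
    have h2 : Group.rank E ≤ k := by
      subst hTE
      exact (Subgroup.rank_closure_finset_le_card T).trans hT
    rw [hn] at h1
    exact ((Nat.pow_dvd_pow_iff_le_right (Fact.out (p := p.Prime)).one_lt).1 h1).trans h2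
  -- the image of `H` in the automorphisms of `E`
  obtain ⟨V, _, _, _, ρ, hdim, hker⟩ := H87.exists_conj_rep hEc hEe hn
  obtain ⟨ψ, htri, hψ⟩ := H87.exists_unitriangular_matrix_rep (hP.to_subgroup H) (ρ.comp H.subtype)
  obtain ⟨S₁, hS₁, hgen₁⟩ := H87.exists_generators_of_unitriangular ψ htri
  -- the part centralizing `E`
  set K : Subgroup P := H ⊓ Subgroup.centralizer (E : Set P) with hK
  have hmem : ∀ x : K, x ^ p = 1 → (x : P) ∈ E := fun x hx =>
    H24.mem_of_maximal_normal_elementary hP hp hEc hEe hmax x.2.2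
      (by simpa using congrArg Subtype.val hx)
  have hcK : ∀ x : K, x ^ p = 1 → x ∈ Subgroup.center K := fun x hx =>
    Subgroup.mem_center_iff.2 fun y => Subtype.ext (y.2.2 x (hmem x hx)).symm
  have hcard : Nat.card (H87.omegaCentralSub hcK) ≤ p ^ n := hn ▸
    Nat.card_le_card_of_injective (fun x => (⟨(x.1 : P), hmem x.1 x.2⟩ : E))
      (fun a b h => Subtype.ext (Subtype.ext (congrArg Subtype.val h :)))
  obtain ⟨S₂, hS₂, hgen₂⟩ :=
    H87.exists_generators_of_omega_central hp (hP.to_subgroup K) hcK n hcard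
  refine ⟨S₁.image H.subtype ∪ S₂.image K.subtype, ?_, le_antisymm ?_ fun g hg => ?_⟩
  · rw [hdim] at hS₁
    have h1 := Finset.card_union_le (S₁.image H.subtype) (S₂.image K.subtype)
    have h2 := Finset.card_image_le (s := S₁) (f := H.subtype)
    have h3 := Finset.card_image_le (s := S₂) (f := K.subtype)
    rw [Nat.le_div_iff_mul_le (by norm_num)]
    have h4 : n * n + 4 * n ≤ k * (k + 4) := by nlinarith
    nlinarith
  · rw [Subgroup.closure_le]
    intro x hx
    simp only [Finset.coe_union, Finset.coe_image, Set.mem_union, Set.mem_image] at hx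
    rcases hx with ⟨y, -, rfl⟩ | ⟨y, -, rfl⟩
    · exact y.2
    · exact y.2.1
  · obtain ⟨w, hw, hweq⟩ := hgen₁ ⟨g, hg⟩
    set C := Subgroup.closure ((S₁.image H.subtype ∪ S₂.image K.subtype : Finset P) : Set P)
    have hwC : (w : P) ∈ C := by
      have h1 : (Subgroup.closure (S₁ : Set H)).map H.subtype ≤ C := by
        rw [MonoidHom.map_closure]
        exact Subgroup.closure_mono (by simp [Finset.coe_image])
      exact h1 (Subgroup.mem_map_of_mem _ hw)
    have hKC : K ≤ C := by
      have h1 := congrArg (Subgroup.map K.subtype) hgen₂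
      rw [MonoidHom.map_closure, ← MonoidHom.range_eq_map, Subgroup.range_subtype] at h1
      exact le_of_eq_of_le h1.symm (Subgroup.closure_mono (by simp [Finset.coe_image]))
    have h1 : ψ (w⁻¹ * ⟨g, hg⟩) = 1 := by
      rw [map_mul, ← hweq, ← map_mul, inv_mul_cancel, map_one]
    have h2 : (w : P)⁻¹ * g ∈ K :=
      ⟨H.mul_mem (H.inv_mem w.2) hg, (hker _).1 ((hψ _).1 h1)⟩
    have := mul_mem hwC (hKC h2)
    rwa [mul_inv_cancel_left] at this

end Cfsg.Agent.S4057
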