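import Cfsg.Statements.S4058
import Mathlib
import Cfsg.Agent.H26.CharInvolutions
import Cfsg.Agent.H19.Frattini

set_option autoImplicit false
open Cfsg

namespace Cfsg.Agent.S4058

/-- Let G be a finite 2-group with #(G/Φ(G)) ≥ 2^(2k+1). Then the number of elements x of G with x² = 1 is divisible by 2^(k+1). -/
theorem result {G : Type*} [Group G] [Finite G] (hG : IsPGroup 2 G) (k : ℕ)
    (hgen : 2 ^ (2 * k + 1) ≤ Nat.card (G ⧸ frattini G)) :
    2 ^ (k + 1) ∣ Nat.card {x : G // x ^ 2 = 1} := by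
  classical
  haveI : Fact (Nat.Prime 2) := ⟨Nat.prime_two⟩
  letI : Fintype G := Fintype.ofFinite G
  haveI : Finite (G →* ℂˣ) := Finite.of_equiv _ (H26.linearCharEquiv G).symm
  let K : Subgroup (G →* ℂˣ) := (powMonoidHom 2 : (G →* ℂˣ) →* (G →* ℂˣ)).ker
  have hK : ∀ f ∈ K, ∀ g : G, (f g : ℂ) * (f g : ℂ) = 1 := by
    intro f hf g
    have h : f ^ 2 = 1 := hf
    have h1 := congrArg (fun u : G →* ℂˣ => (u g : ℂ)) h
    simpa [pow_two] using h1
  have hK2 : IsPGroup 2 K := fun f => ⟨1, by
    apply Subtype.ext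
    have h : (f : G →* ℂˣ) ^ 2 = 1 := f.2
    simpa using h⟩
  -- many linear characters with values ±1
  have hmul : ∀ a b : G ⧸ frattini G, a * b = b * a := by
    intro a b
    obtain ⟨x, rfl⟩ := QuotientGroup.mk'_surjective _ a
    obtain ⟨y, rfl⟩ := QuotientGroup.mk'_surjective _ b
    rw [← commutatorElement_eq_one_iff_mul_comm, ← map_commutatorElement]
    exact (QuotientGroup.eq_one_iff _).2 ((H19.commutator_pow_mem_frattini hG).1
      (Subgroup.commutator_mem_commutator (Subgroup.mem_top x) (Subgroup.mem_top y)))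
  letI : CommGroup (G ⧸ frattini G) :=
    { (inferInstance : Group (G ⧸ frattini G)) with mul_comm := hmul }
  have hKcard : 2 ^ (2 * k + 1) ≤ Nat.card K := by
    haveI : NeZero (Monoid.exponent (G ⧸ frattini G)) := ⟨Monoid.exponent_ne_zero_of_finite⟩
    obtain ⟨φ⟩ := CommGroup.monoidHom_mulEquiv_of_hasEnoughRootsOfUnity (G ⧸ frattini G) ℂ
    let ι : ((G ⧸ frattini G) →* ℂˣ) → K := fun u => ⟨u.comp (QuotientGroup.mk' _), by
      show (u.comp (QuotientGroup.mk' (frattini G))) ^ 2 = 1
      ext g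
      have h0 : QuotientGroup.mk' (frattini G) (g ^ 2) = 1 :=
        (QuotientGroup.eq_one_iff _).2 ((H19.commutator_pow_mem_frattini hG).2 g)
      simp only [MonoidHom.pow_apply, MonoidHom.comp_apply, MonoidHom.one_apply]
      rw [← map_pow, ← map_pow, h0, map_one]⟩
    refine hgen.trans ((le_of_eq (Nat.card_congr φ.toEquiv).symm).trans
      (Nat.card_le_card_of_injective ι fun u v h => ?_))
    refine MonoidHom.ext fun a => ?_
    obtain ⟨x, rfl⟩ := QuotientGroup.mk'_surjective _ a
    exact DFunLike.congr_fun (congrArg Subtype.val h) x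
  obtain ⟨s, hs⟩ := IsPGroup.iff_card.1 hK2
  have hks : 2 * k + 1 ≤ s := by
    rw [hs] at hKcard
    exact (Nat.pow_le_pow_iff_right (le_refl 2)).1 hKcard
  letI : MulAction K (Cfsg.IrrCharacter G) :=
    { smul := fun f χ => H26.linearTwist f.1 χ
      one_smul := fun χ => Subtype.ext (funext fun g => one_mul _)
      mul_smul := fun f f' χ => Subtype.ext (funext fun g => mul_assoc _ _ _) }
  have hsmul : ∀ (f : K) (χ : Cfsg.IrrCharacter G) (g : G),
      (f • χ).1 g = (f.1 g : ℂ) * χ.1 g := fun _ _ _ => rfl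
  choose d hdpos hd using fun χ : Cfsg.IrrCharacter G => H26.exists_degree χ
  have hdinv : ∀ (f : K) χ, d (f • χ) = d χ := by
    intro f χ
    have h1 := hd (f • χ)
    rw [hsmul, map_one, Units.val_one, one_mul, hd] at h1
    exact_mod_cast h1.symm
  have hint : ∀ χ : Cfsg.IrrCharacter G, ∃ z : ℤ, H26.fsIndicator χ.1 = (z : ℂ) := by
    intro χ
    by_cases h : H26.conjIrr χ = χ
    · rcases (H26.fsIndicator_cases χ).2 h with e | e
      · exact ⟨1, by simp [e]⟩
      · exact ⟨-1, by simp [e]⟩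
    · exact ⟨0, by simp [(H26.fsIndicator_cases χ).1 h]⟩
  choose ν hν using hint
  have hνinv : ∀ (f : K) χ, ν (f • χ) = ν χ := by
    intro f χ
    have h : H26.fsIndicator (f • χ).1 = H26.fsIndicator χ.1 := by
      unfold H26.fsIndicator
      congr 1
      refine Finset.sum_congr rfl fun x _ => ?_
      rw [hsmul, map_mul, Units.val_mul, hK _ f.2 x, one_mul]
    rw [hν, hν] at h
    exact_mod_cast h
  have hdiv : ∀ χ : Cfsg.IrrCharacter G,
      2 ^ (k + 1) ∣ Nat.card (MulAction.orbit K χ) * d χ := by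
    intro χ
    obtain ⟨a, ha⟩ : ∃ a, d χ = 2 ^ a := by
      obtain ⟨n, ρ, hρ, e⟩ := χ.2
      obtain ⟨N, hN⟩ := IsPGroup.iff_card.1 hG
      obtain ⟨j, -, hj⟩ := (Nat.dvd_prime_pow Nat.prime_two).1 (hN ▸ H25.finrank_dvd_card ρ)
      refine ⟨j, ?_⟩
      rw [← hj]
      exact_mod_cast (hd χ).symm.trans ((congrFun e.symm 1).trans ρ.char_one)
    obtain ⟨b, hb⟩ := IsPGroup.iff_card.1 (hK2.to_subgroup (MulAction.stabilizer K χ))
    have hbound : Nat.card (MulAction.stabilizer K χ) ≤ d χ ^ 2 := by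
      letI : Fintype (MulAction.stabilizer K χ) := Fintype.ofFinite _
      let ι : MulAction.stabilizer K χ ↪ (G →* ℂˣ) :=
        ⟨fun f => f.1.1, fun f f' h => Subtype.ext (Subtype.ext h)⟩
      have h1 := H26.card_le_of_linearTwist_eq χ (Finset.univ.map ι) (fun f hf => by
        obtain ⟨f', -, rfl⟩ := Finset.mem_map.1 hf
        exact f'.2) (hd χ)
      rwa [Finset.card_map, Finset.card_univ, ← Nat.card_eq_fintype_card] at h1
    have hos : Nat.card (MulAction.orbit K χ) * 2 ^ b = 2 ^ s := by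
      rw [← hb, ← hs, ← Nat.card_prod]
      exact Nat.card_congr (MulAction.orbitProdStabilizerEquivGroup K χ)
    have hba : b ≤ 2 * a := by
      rw [hb, ha, ← pow_mul, mul_comm] at hbound
      exact (Nat.pow_le_pow_iff_right (le_refl 2)).1 hbound
    have hbs : b ≤ s := by
      refine (Nat.pow_le_pow_iff_right (le_refl 2)).1 ?_
      rw [← hb, ← hs]
      exact Nat.le_of_dvd Nat.card_pos (Subgroup.card_subgroup_dvd_card _)
    have horb : Nat.card (MulAction.orbit K χ) = 2 ^ (s - b) := by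
      refine Nat.eq_of_mul_eq_mul_right (Nat.two_pow_pos b) ?_
      rw [hos, ← pow_add, Nat.sub_add_cancel hbs]
    rw [horb, ha, ← pow_add]
    exact pow_dvd_pow 2 (by omega)
  -- sum over the orbits
  have htot : (Nat.card {x : G // x ^ 2 = 1} : ℤ) = ∑ χ : Cfsg.IrrCharacter G, ν χ * d χ := by
    have h1 := H26.card_sqrt_eq_sum (G := G) 1
    have h2 : (Finset.univ.filter fun x : G => x * x = 1).card = Nat.card {x : G // x ^ 2 = 1} := by
      rw [Nat.card_eq_fintype_card, Fintype.card_subtype]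
      simp only [pow_two]
    rw [h2] at h1
    simp only [hν, hd] at h1
    exact_mod_cast h1
  letI : Fintype (MulAction.orbitRel.Quotient K (Cfsg.IrrCharacter G)) := Fintype.ofFinite _
  have hdvd : ((2 ^ (k + 1) : ℕ) : ℤ) ∣ ∑ χ : Cfsg.IrrCharacter G, ν χ * d χ := by
    rw [← Finset.sum_fiberwise Finset.univ
      (fun χ : Cfsg.IrrCharacter G => (Quotient.mk'' χ : MulAction.orbitRel.Quotient K (Cfsg.IrrCharacter G)))]
    refine Finset.dvd_sum fun ω _ => ?_
    induction ω using Quotient.inductionOn' with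
    | h χ =>
      rw [Finset.sum_congr rfl (g := fun _ => ν χ * d χ) fun ψ hψ => ?_, Finset.sum_const,
        nsmul_eq_mul]
      · rw [← mul_assoc, mul_comm (_ : ℤ) (ν χ), mul_assoc]
        refine Dvd.dvd.mul_left ?_ _
        have hc : (Finset.univ.filter fun ψ : Cfsg.IrrCharacter G =>
            (Quotient.mk'' ψ : MulAction.orbitRel.Quotient K (Cfsg.IrrCharacter G)) = Quotient.mk'' χ).card
              = Nat.card (MulAction.orbit K χ) := by
          rw [← Fintype.card_subtype, ← Nat.card_eq_fintype_card]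
          exact Nat.card_congr (Equiv.subtypeEquivRight fun ψ => Quotient.eq'')
        rw [hc]
        exact_mod_cast hdiv χ
      · obtain ⟨f, rfl⟩ := Quotient.eq''.1 (Finset.mem_filter.1 hψ).2
        show ν (f • χ) * (d (f • χ) : ℤ) = ν χ * d χ
        rw [hνinv, hdinv]
  rw [← htot] at hdvd
  exact Int.natCast_dvd_natCast.1 hdvd

end Cfsg.Agent.S4058
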