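import Cfsg.Statements.S4067
import Mathlib
import Cfsg.Agent.H87.AutOrbits

set_option autoImplicit false
open Cfsg

namespace Cfsg.Agent.S4067

/-- Let G be a finite non-abelian group and p the least prime dividing its order. Then the automorphism group of G has at most #G/p orbits on G. -/
theorem result {G : Type*} [Group G] [Finite G] (hna : ¬ IsMulCommutative G) :
    Nat.card (MulAction.orbitRel.Quotient (MulAut G) G) ≤ Nat.card G / (Nat.card G).minFac := by
  exact (Nat.le_div_iff_mul_le (Nat.minFac_pos _)).2 (Cfsg.Agent.H87.card_autOrbits_mul_minFac_le hna)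

end Cfsg.Agent.S4067
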