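import Cfsg.Statements.S4071
import Mathlib
import Cfsg.Agent.H87.SelfNormSolv

set_option autoImplicit false
open Cfsg

namespace Cfsg.Agent.S4071

/-- Let G be a finite solvable non-nilpotent group. Every non-abelian subgroup of G is self-normalizing if and only if G is a semidirect product ⟨x⟩ ⋉ A in which ⟨x⟩ is a p-group for some prime p, A is a normal abelian subgroup of order prime to p, x^p is central in G, and x acts fixed-point-freely on A (no non-identity element of A commutes with x). -/
theorem result {G : Type*} [Group G] [Finite G]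
    [Group.IsSolvable G] (hnn : ¬ Group.IsNilpotent G) :
    (∀ H : Subgroup G, ¬ IsMulCommutative H → Subgroup.normalizer (H : Set G) = H) ↔
    ∃ (x : G) (A : Subgroup G) (p : ℕ), p.Prime ∧ A.Normal ∧ IsMulCommutative A ∧ (∃ k : ℕ, orderOf x = p ^ k) ∧
      ¬ p ∣ Nat.card A ∧ (Subgroup.zpowers x).IsComplement' A ∧ x ^ p ∈ Subgroup.center G ∧
      ∀ a : G, a ∈ A → a ≠ 1 → x * a * x⁻¹ ≠ a := by
  refine ⟨Cfsg.Agent.H87.structure_of_selfNorm hnn, ?_⟩
  rintro ⟨x, A, p, hp, hA, hab, hord, -, hcompl, hxp, hfpf⟩ H hH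
  exact Cfsg.Agent.H87.selfNorm_of_structure hp hA hab hord hcompl hxp hfpf hH

end Cfsg.Agent.S4071
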