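import Cfsg.Statements.S4072
import Mathlib
import Cfsg.Agent.H87.SelfNorm

set_option autoImplicit false
open Cfsg

namespace Cfsg.Agent.S4072

/-- A finite group in which every non-abelian subgroup is self-normalizing is solvable or simple. -/
theorem result {G : Type*} [Group G] [Finite G] (hS : ∀ H : Subgroup G, ¬ IsMulCommutative H → Subgroup.normalizer (H : Set G) = H) :
    Group.IsSolvable G ∨ IsSimpleGroup G := by
  classical
  by_contra hcon
  rw [not_or] at hcon
  obtain ⟨hns, hnsimp⟩ := hcon
  haveI : Nontrivial G := by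
    by_contra h
    rw [not_nontrivial_iff_subsingleton] at h
    exact hns inferInstance
  -- proper normal subgroups are abelian
  have hab : ∀ N : Subgroup G, N.Normal → N ≠ ⊤ → IsMulCommutative N := fun N hN hne =>
    by_contra fun h => hne ((hS N h).symm.trans (Subgroup.normalizer_eq_top (H := N)))
  -- no non-trivial abelian quotient
  have hperf : ∀ {A : Type _} [Group A], (∀ a b : A, a * b = b * a) → ∀ f : G →* A, f.ker = ⊤ := by
    intro A _ hA f
    by_contra hne
    haveI := hab _ inferInstance hne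
    haveI : Group.IsSolvable f.ker := Group.isSolvable_of_comm fun a b => mul_comm' a b
    haveI : Group.IsSolvable f.range := Group.isSolvable_of_comm fun a b => Subtype.ext (hA _ _)
    refine hns (Group.isSolvable_of_ker_le_range f.ker.subtype f.rangeRestrict (by simp))
  have hpgroup : ∀ (p : ℕ) (_ : Fact p.Prime) (N : Subgroup G) (_ : N.Normal),
      (∃ k, N.index = p ^ k) → N = ⊤ := by
    intro p _ N _ hk
    by_contra hne
    obtain ⟨k, hk⟩ := hk
    haveI := hab N inferInstance hne
    haveI : Group.IsSolvable N := Group.isSolvable_of_comm fun a b => mul_comm' a b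
    have hQ : IsPGroup p (G ⧸ N) := IsPGroup.of_card (n := k) (by rw [← Subgroup.index_eq_card, hk])
    haveI : Group.IsNilpotent (G ⧸ N) := hQ.isNilpotent
    exact hns (Group.isSolvable_of_ker_le_range N.subtype (QuotientGroup.mk' N) (by simp))
  have hsimp : ∃ N : Subgroup G, N.Normal ∧ N ≠ ⊥ ∧ N ≠ ⊤ := by
    by_contra h
    push_neg at h
    exact hnsimp ⟨fun N hN => (em (N = ⊥)).imp id (h N hN)⟩
  obtain ⟨N, hN, hN1, hN2⟩ := hsimp
  haveI := hN
  set M := Subgroup.centralizer (N : Set G) with hM
  by_cases hMtop : M = ⊤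
  · -- `N` is central
    obtain ⟨r, hr, hrd⟩ := Nat.exists_prime_and_dvd (mt (Subgroup.card_eq_one).1 hN1)
    haveI := Fact.mk hr
    obtain ⟨z, hz⟩ := exists_prime_orderOf_dvd_card' r hrd
    have hzc : ∀ g : G, g * (z : G) = z * g := fun g =>
      (Subgroup.mem_centralizer_iff.1 (hMtop ▸ Subgroup.mem_top g : g ∈ M) z z.2).symm
    obtain ⟨R, hR⟩ := (IsPGroup.of_card (n := 1) (by rw [Nat.card_zpowers, pow_one, Subgroup.orderOf_coe, hz]) :
      IsPGroup r (Subgroup.zpowers (z : G))).exists_le_sylow
    by_cases hRab : IsMulCommutative (R : Subgroup G)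
    · haveI := hRab
      let φ : (R : Subgroup G) →* (R : Subgroup G) := MonoidHom.id _
      letI : CommGroup (R : Subgroup G) :=
        { (inferInstance : Group (R : Subgroup G)) with mul_comm := fun a b => mul_comm' a b }
      let T : G →* (R : Subgroup G) := MonoidHom.transfer (MonoidHom.id (R : Subgroup G))
      have hT : T z = 1 := MonoidHom.mem_ker.1 ((hperf (fun a b => mul_comm a b) T) ▸ Subgroup.mem_top (z : G))
      have hkey : ∀ (k : ℕ) (g₀ : G), g₀⁻¹ * (z : G) ^ k * g₀ ∈ (R : Subgroup G) →
          g₀⁻¹ * (z : G) ^ k * g₀ = (z : G) ^ k := fun k g₀ _ => by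
        rw [mul_assoc, ← ((show Commute g₀ (z : G) from hzc g₀).pow_right k).eq, inv_mul_cancel_left]
      have h2 := MonoidHom.transfer_eq_pow (MonoidHom.id (R : Subgroup G)) (z : G) hkey
      have h3 : (z : G) ^ (R : Subgroup G).index = 1 := by
        have := congrArg Subtype.val (h2.symm.trans hT)
        simpa using this
      have h4 : r ∣ (R : Subgroup G).index := by
        have := orderOf_dvd_of_pow_eq_one h3
        rwa [Subgroup.orderOf_coe, hz] at this
      exact R.not_dvd_index h4
    · obtain ⟨K, hKn, hK⟩ := Cfsg.Agent.H87.exists_normal_complement_of_nonabelian_sylow hS R hRab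
      obtain ⟨k, hk⟩ := IsPGroup.iff_card.1 R.2
      have := hpgroup r inferInstance K hKn ⟨k, by rw [hK.symm.index_eq_card , hk]⟩
      have hK1 := hK.disjoint
      rw [this, top_disjoint] at hK1
      refine hRab ⟨⟨fun a b => ?_⟩⟩
      have h1 : ∀ x : (R : Subgroup G), x = 1 := fun x =>
        Subtype.ext (Subgroup.mem_bot.1 (hK1 ▸ x.2 : (x : G) ∈ (⊥ : Subgroup G)))
      rw [h1 a, h1 b]
  · -- `N` is not central
    haveI hMn : M.Normal := Subgroup.normal_centralizer
    haveI hMab := hab M hMn hMtop
    have hNM : N ≤ M := fun a ha => Subgroup.mem_centralizer_iff.2 fun b hb => by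
      haveI := hab N hN hN2
      exact congrArg Subtype.val (mul_comm' (⟨b, hb⟩ : N) ⟨a, ha⟩)
    set π := QuotientGroup.mk' M
    have hcyc : ∀ u : G ⧸ M, u ≠ 1 →
        Subgroup.normalizer (Subgroup.zpowers u : Set (G ⧸ M)) = Subgroup.zpowers u := by
      intro u hu
      obtain ⟨w, rfl⟩ := QuotientGroup.mk'_surjective M u
      have hna : ¬ IsMulCommutative ((Subgroup.zpowers (π w)).comap π) := fun h => by
        refine hu ((QuotientGroup.eq_one_iff w).2 (Subgroup.mem_centralizer_iff.2 fun a ha => ?_))
        exact congrArg Subtype.val (mul_comm'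
          (⟨a, by
            rw [Subgroup.mem_comap, show π a = 1 from (QuotientGroup.eq_one_iff a).2 (hNM ha)]
            exact one_mem _⟩ : (Subgroup.zpowers (π w)).comap π)
          ⟨w, Subgroup.mem_zpowers _⟩)
      have := hS _ hna
      rw [← Subgroup.comap_normalizer_eq_of_surjective _ (QuotientGroup.mk'_surjective M)] at this
      exact Subgroup.comap_injective (QuotientGroup.mk'_surjective M) this
    haveI : Nontrivial (G ⧸ M) := QuotientGroup.nontrivial_iff.2 hMtop
    obtain ⟨p, hp, hpd⟩ := Nat.exists_prime_and_dvd (Finite.one_lt_card (α := G ⧸ M)).ne'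
    haveI := Fact.mk hp
    obtain ⟨P⟩ : Nonempty (Sylow p (G ⧸ M)) := inferInstance
    haveI : Nontrivial (P : Subgroup (G ⧸ M)) := by
      rw [Subgroup.nontrivial_iff_ne_bot]
      exact P.ne_bot_of_dvd_card hpd
    haveI := P.2.center_nontrivial
    obtain ⟨u, hu⟩ := exists_ne (1 : Subgroup.center (P : Subgroup (G ⧸ M)))
    set u' : G ⧸ M := ((u : (P : Subgroup (G ⧸ M))) : G ⧸ M)
    have hu1 : u' ≠ 1 := fun h => hu (Subtype.ext (Subtype.ext h))
    have hPu : (P : Subgroup (G ⧸ M)) = Subgroup.zpowers u' := by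
      refine le_antisymm (fun x hx => ?_) (Subgroup.zpowers_le.2 (SetLike.coe_mem _))
      rw [← hcyc u' hu1]
      refine Subgroup.centralizer_le_normalizer _ (Subgroup.mem_centralizer_iff.2 ?_)
      rintro _ ⟨i, rfl⟩
      have hc : Commute x u' := congrArg Subtype.val (Subgroup.mem_center_iff.1 u.2 ⟨x, hx⟩)
      exact ((hc.zpow_right i).eq).symm
    have hNP : Subgroup.normalizer ((P : Subgroup (G ⧸ M)) : Set (G ⧸ M)) ≤
        Subgroup.centralizer ((P : Subgroup (G ⧸ M)) : Set (G ⧸ M)) := by
      rw [hPu, hcyc u' hu1]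
      intro x hx
      rw [Subgroup.mem_centralizer_iff]
      intro y hy
      obtain ⟨i, rfl⟩ := hx
      obtain ⟨j, rfl⟩ := hy
      exact ((Commute.refl u').zpow_zpow j i).eq
    obtain ⟨O, hOn, hdisj, hOmem⟩ := Cfsg.Agent.H87.exists_burnside_kernel P hNP
    haveI := hOn
    have htop := MonoidHom.ker_transferSylow_isComplement' P hNP
    obtain ⟨k, hk⟩ := IsPGroup.iff_card.1 P.2
    have hidx := hpgroup p inferInstance ((MonoidHom.transferSylow P hNP).ker.comap π) inferInstance
      ⟨k, by rw [Subgroup.index_comap_of_surjective _ (QuotientGroup.mk'_surjective M),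
        htop.symm.index_eq_card, hk]⟩
    have hker : (MonoidHom.transferSylow P hNP).ker = ⊤ := by
      rw [← Subgroup.map_comap_eq_self_of_surjective (QuotientGroup.mk'_surjective M)
        (MonoidHom.transferSylow P hNP).ker, hidx, Subgroup.map_top_of_surjective _ (QuotientGroup.mk'_surjective M)]
    have hd := htop.disjoint
    rw [hker, top_disjoint] at hd
    exact P.ne_bot_of_dvd_card hpd hd

end Cfsg.Agent.S4072
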