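import Cfsg.Statements.S4074
import Mathlib

set_option autoImplicit false
open Cfsg

namespace Cfsg.Agent.S4074

/-- For n > 2, every non-abelian subgroup of the dihedral group of order 2n is self-normalizing if and only if n = 4 or n is odd. -/
theorem result (n : ℕ) (hn : 2 < n) :
    (∀ H : Subgroup (DihedralGroup n), ¬ IsMulCommutative H → Subgroup.normalizer (H : Set (DihedralGroup n)) = H) ↔
    (n = 4 ∨ Odd n) := by
  haveI : NeZero n := ⟨by omega⟩
  constructor
  · intro h
    by_contra hc
    push Not at hc
    obtain ⟨hn4, hne⟩ := hc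
    have hev : 2 ∣ n := even_iff_two_dvd.1 (Nat.not_odd_iff_even.1 hne)
    let φ := ZMod.castHom hev (ZMod 2)
    let χ : DihedralGroup n →* Multiplicative (ZMod 2) :=
      { toFun := fun g => match g with
          | DihedralGroup.r i => Multiplicative.ofAdd (φ i)
          | DihedralGroup.sr i => Multiplicative.ofAdd (φ i)
        map_one' := by
          rw [DihedralGroup.one_def]
          show Multiplicative.ofAdd (φ 0) = 1
          rw [map_zero]; rfl
        map_mul' := by
          rintro (i | i) (j | j) <;>
            simp only [DihedralGroup.r_mul_r, DihedralGroup.r_mul_sr, DihedralGroup.sr_mul_r,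
              DihedralGroup.sr_mul_sr] <;> rw [← ofAdd_add] <;>
            simp only [map_add, map_sub, map_neg, sub_eq_add_neg, ZMod.neg_eq_self_mod_two, add_comm] }
    have h2 : φ 2 = 0 := by rw [map_ofNat]; decide
    have hr : DihedralGroup.r (2 : ZMod n) ∈ χ.ker := by
      show Multiplicative.ofAdd (φ 2) = 1
      rw [h2]; rfl
    have hs : DihedralGroup.sr (0 : ZMod n) ∈ χ.ker := by
      show Multiplicative.ofAdd (φ 0) = 1
      rw [map_zero]; rfl
    have hnc : ¬ IsMulCommutative χ.ker := by
      intro hcm
      have := congrArg Subtype.val (hcm.is_comm.comm ⟨_, hr⟩ ⟨_, hs⟩)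
      simp only [Subgroup.coe_mul, DihedralGroup.r_mul_sr, DihedralGroup.sr_mul_r,
        DihedralGroup.sr.injEq] at this
      have h4 : ((4 : ℕ) : ZMod n) = 0 := by
        push_cast; linear_combination -this
      have := Nat.le_of_dvd (by norm_num) ((ZMod.natCast_eq_zero_iff 4 n).1 h4 |> id)
      rw [ZMod.natCast_eq_zero_iff] at h4
      interval_cases n <;> omega
    have hnorm := h χ.ker hnc
    rw [Subgroup.normalizer_eq_top] at hnorm
    have : DihedralGroup.r (1 : ZMod n) ∈ χ.ker := hnorm ▸ Subgroup.mem_top _
    have h1 : Multiplicative.ofAdd (φ 1) = 1 := this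
    rw [map_one] at h1
    exact one_ne_zero (α := ZMod 2) (Multiplicative.ofAdd.injective h1)
  · intro hn' H hH
    refine le_antisymm (fun g hg => ?_) Subgroup.le_normalizer
    by_contra hgH
    have hHt : H ≠ ⊤ := fun e => hgH (e ▸ Subgroup.mem_top g)
    rcases hn' with rfl | hodd
    · apply hH
      have hdvd := Subgroup.card_subgroup_dvd_card H
      have h8 : Nat.card (DihedralGroup 4) = 8 := DihedralGroup.nat_card
      rw [h8] at hdvd
      have hne : Nat.card H ≠ 8 := fun e => hHt (Subgroup.eq_top_of_card_eq H (e.trans h8.symm))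
      haveI : Fact (Nat.Prime 2) := ⟨Nat.prime_two⟩
      have hle := Nat.le_of_dvd (by norm_num) hdvd
      interval_cases hc : Nat.card H <;> try omega
      · haveI := (Nat.card_eq_one_iff_unique.1 hc).1
        exact ⟨⟨fun a b => Subsingleton.elim _ _⟩⟩
      · haveI := isCyclic_of_prime_card (p := 2) hc
        exact ⟨⟨fun a b => IsCyclic.commGroup.mul_comm a b⟩⟩
      · exact ⟨⟨IsPGroup.commutative_of_card_eq_prime_sq (p := 2) (by simpa using hc)⟩⟩
    · obtain ⟨m, hm⟩ := hodd
      -- a reflection in `H`
      obtain ⟨i, hi⟩ : ∃ i, DihedralGroup.sr i ∈ H := by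
        by_contra hcon
        push Not at hcon
        apply hH
        refine ⟨⟨fun ⟨a, ha⟩ ⟨b, hb⟩ => Subtype.ext ?_⟩⟩
        rcases a with a | a
        · rcases b with b | b
          · simp [DihedralGroup.r_mul_r, add_comm]
          · exact absurd hb (hcon b)
        · exact absurd ha (hcon a)
      have hr : ∀ k, DihedralGroup.r k ∈ Subgroup.normalizer (H : Set (DihedralGroup n)) →
          DihedralGroup.r k ∈ H := by
        intro k hk
        have h1 := (Subgroup.mem_normalizer_iff.1 hk _).1 hi
        rw [DihedralGroup.inv_r, DihedralGroup.r_mul_sr, DihedralGroup.sr_mul_r] at h1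
        have h2 := H.mul_mem h1 hi
        rw [DihedralGroup.sr_mul_sr] at h2
        have h3 := H.pow_mem h2 (m + 1)
        rw [DihedralGroup.r_pow] at h3
        convert h3 using 2
        have : ((2 * m + 1 : ℕ) : ZMod n) = 0 := by rw [← hm]; exact ZMod.natCast_self n
        push_cast at this ⊢
        linear_combination -(k * this)
      apply hgH
      rcases g with k | k
      · exact hr k hg
      · have h1 := mul_mem hg (Subgroup.le_normalizer hi)
        rw [DihedralGroup.sr_mul_sr] at h1
        have h2 := mul_mem (hr _ h1) hi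
        rw [DihedralGroup.r_mul_sr] at h2
        simpa using h2

end Cfsg.Agent.S4074
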