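import Cfsg.Statements.S4075
import Mathlib

set_option autoImplicit false
open Cfsg

namespace Cfsg.Agent.S4075

/-- Let G be a finite nilpotent group. Every non-abelian subgroup of G is self-normalizing if and only if G is abelian or G is a minimal non-abelian p-group for some prime p (non-abelian of prime-power order with every proper subgroup abelian). -/
theorem result {G : Type*} [Group G] [Finite G]
    [Group.IsNilpotent G] :
    (∀ H : Subgroup G, ¬ IsMulCommutative H → Subgroup.normalizer (H : Set G) = H) ↔
    (IsMulCommutative G ∨ (IsPrimePow (Nat.card G) ∧ ¬ IsMulCommutative G ∧ ∀ H : Subgroup G, H ≠ ⊤ → IsMulCommutative H)) := by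
  constructor
  · intro h
    by_cases hab : IsMulCommutative G
    · exact Or.inl hab
    have hprop : ∀ H : Subgroup G, H ≠ ⊤ → IsMulCommutative H := by
      intro H hH
      by_contra hc
      exact (Group.normalizerCondition_of_isNilpotent H (lt_top_iff_ne_top.2 hH)).ne (h H hc).symm
    refine Or.inr ⟨?_, hab, hprop⟩
    by_contra hpp
    apply hab
    have hsyl : ∀ (p : ℕ) [Fact p.Prime] (P : Sylow p G), IsMulCommutative (P : Subgroup G) := by
      intro p _ P
      apply hprop
      intro hP
      have hc : Nat.card G = p ^ (Nat.card G).factorization p := by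
        rw [← P.card_eq_multiplicity, hP, Subgroup.card_top]
      rcases Nat.eq_zero_or_pos ((Nat.card G).factorization p) with h0 | h0
      · rw [h0, pow_zero] at hc
        haveI := (Nat.card_eq_one_iff_unique.1 hc).1
        exact hab ⟨⟨fun a b => Subsingleton.elim _ _⟩⟩
      · exact hpp ⟨p, _, (Fact.out : p.Prime).prime, h0, hc.symm⟩
    obtain ⟨e⟩ := ((Group.isNilpotent_of_finite_tfae (G := G)).out 0 4).1 ‹Group.IsNilpotent G›
    refine ⟨⟨fun a b => e.symm.injective ?_⟩⟩
    rw [map_mul, map_mul]
    funext p P
    haveI : Fact (p : ℕ).Prime := ⟨Nat.prime_of_mem_primeFactors p.2⟩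
    exact (hsyl p P).is_comm.comm _ _
  · rintro (hab | ⟨-, -, hprop⟩) H hH
    · haveI := hab
      exact absurd (inferInstance : IsMulCommutative H) hH
    · by_contra hne
      have hHt : H ≠ ⊤ := by
        rintro rfl
        exact hne (top_le_iff.1 Subgroup.le_normalizer)
      exact hH (hprop H hHt)

end Cfsg.Agent.S4075
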