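import Cfsg.Statements.S4079
import Mathlib
import Cfsg.Agent.H87.MetacyclicAutOmega

set_option autoImplicit false
open Cfsg
open scoped commutatorElement

namespace Cfsg.Agent.S4079

/-- Let p be an odd prime and L a finite metacyclic p-group with no cyclic subgroup of index p, and let a be an automorphism of L of order p. Then a moves some element of order p of L if and only if p = 3 and the semidirect product L ⋊ ⟨a⟩ (of order 3·#L) has maximal class, i.e. nilpotency class m where #L = 3^m. -/
theorem result {L : Type*} [Group L] [Finite L] {p : ℕ} [Fact p.Prime]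
    (hp : p ≠ 2) (hL : IsPGroup p L) (hmc : Cfsg.IsMetacyclic L) (hnc : ∀ C : Subgroup L, IsCyclic C → C.index ≠ p)
    (a : MulAut L) (ha : orderOf a = p) (m : ℕ) (hm : Nat.card L = p ^ m) :
    (∃ x : L, orderOf x = p ∧ a x ≠ x) ↔
    (p = 3 ∧ Group.nilpotencyClass (SemidirectProduct L ↥(Subgroup.zpowers a) (Subgroup.zpowers a).subtype) = m) := by
  have hnt : Nontrivial L := by
    by_contra h
    rw [not_nontrivial_iff_subsingleton] at h
    have h1 : a = 1 := MulEquiv.ext fun x => Subsingleton.elim _ _
    rw [h1, orderOf_one] at ha
    exact (Fact.out (p := p.Prime)).ne_one ha.symm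
  obtain ⟨E, W, hS⟩ := H87.exists_omegaLayers hp hL hmc hnc hnt
  have hm4 : 4 ≤ m := by
    have h1 : Nat.card W ≤ p ^ m := hm ▸ Subgroup.card_le_card_group W
    have h2 : (p ^ 2) * (p ^ 2) ≤ Nat.card W := by
      let f : W →* E :=
        { toFun := fun w => ⟨(w : L) ^ p, (hS.mem_W _).1 w.2⟩
          map_one' := Subtype.ext (one_pow p)
          map_mul' := fun x y => Subtype.ext (hS.comm_pow x x.2 y y.2) }
      have h3 : f.range = ⊤ := eq_top_iff.2 fun e _ => by
        obtain ⟨w, hw, hwe⟩ := hS.surj e e.2
        exact ⟨⟨w, hw⟩, Subtype.ext hwe⟩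
      have h4 : Nat.card E ≤ Nat.card f.ker :=
        Nat.card_le_card_of_injective
          (fun e => (⟨⟨(e : L), hS.E_le e.2⟩, Subtype.ext ((hS.mem_E e).1 e.2)⟩ : f.ker))
          (fun x y h => Subtype.ext (congrArg (fun t : f.ker => ((t : W) : L)) h))
      have h5 := f.ker.card_mul_index
      rw [Subgroup.index_ker, h3, Subgroup.card_top, hS.card_E] at h5
      rw [← h5]
      exact Nat.mul_le_mul_right _ (hS.card_E ▸ h4)
    rw [← pow_add] at h2
    exact (Nat.pow_le_pow_iff_right (Fact.out (p := p.Prime)).one_lt).1 (h2.trans h1)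
  have hcard : Nat.card (H87.AutExt a) = p ^ (m + 1) := H87.card_autExt ha hm
  have : Finite (H87.AutExt a) := Nat.finite_of_card_ne_zero (by
    rw [hcard]; exact pow_ne_zero _ (Fact.out (p := p.Prime)).ne_zero)
  have hX : IsPGroup p (H87.AutExt a) := IsPGroup.of_card hcard
  have : Group.IsNilpotent (H87.AutExt a) := hX.isNilpotent
  set g₀ : ↥(Subgroup.zpowers a) := ⟨a, Subgroup.mem_zpowers a⟩ with hg₀
  constructor
  · rintro ⟨x, hx, hax⟩
    obtain ⟨h3, K, hKc, hK⟩ := H87.moved_omega hp hS ha
      ⟨x, (hS.mem_E x).2 (hx ▸ pow_orderOf_eq_one x), hax⟩ hm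
    refine ⟨h3, ?_⟩
    set A := Subgroup.centralizer ({SemidirectProduct.inr g₀} : Set (H87.AutExt a)) with hA
    have hmem : ∀ y : H87.AutExt a, y ∈ A ↔ a y.left = y.left := by
      intro y
      have hr : g₀ * y.right = y.right * g₀ := mul_comm' _ _
      rw [hA, Subgroup.mem_centralizer_singleton_iff]
      constructor
      · intro h
        have := congrArg SemidirectProduct.left h
        simp only [SemidirectProduct.mul_left, SemidirectProduct.left_inr, map_one, mul_one,
          one_mul] at this
        first
          | exact this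
          | exact this.symm
      · intro h
        refine SemidirectProduct.ext ?_ ?_
        · simp only [SemidirectProduct.mul_left, SemidirectProduct.left_inr, map_one, mul_one,
            one_mul]
          first
            | exact h
            | exact h.symm
        · simp only [SemidirectProduct.mul_right, SemidirectProduct.right_inr]
          first
            | exact hr
            | exact hr.symm
    have hAc : Nat.card A = p ^ 2 := by
      let f : A ≃ K × ↥(Subgroup.zpowers a) :=
        { toFun := fun y => (⟨y.1.left, (hK _).1 ((hmem _).1 y.2)⟩, y.1.right)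
          invFun := fun y => ⟨⟨y.1.1, y.2⟩, (hmem _).2 ((hK _).2 y.1.2)⟩
          left_inv := fun y => rfl
          right_inv := fun y => rfl }
      rw [Nat.card_congr f, Nat.card_prod, hKc, Nat.card_zpowers, ha, sq]
    have hAC : Subgroup.centralizer (A : Set (H87.AutExt a)) = A := by
      refine le_antisymm (fun y hy => ?_) (Subgroup.le_centralizer_iff_isMulCommutative.mpr
        (IsPGroup.isMulCommutative_of_card_eq_prime_sq hAc))
      rw [hA, Subgroup.mem_centralizer_singleton_iff]
      exact (hy _ (by rw [SetLike.mem_coe, hA, Subgroup.mem_centralizer_singleton_iff])).symm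
    simpa using H24.class_eq_of_self_centralizing (H87.AutExt a) p (m + 1) hcard A hAc hAC
  · rintro ⟨-, hclass⟩
    by_contra hno
    push Not at hno
    have hfix : ∀ e ∈ E, a e = e := fun e he => by
      rcases eq_or_ne e 1 with rfl | h1
      · exact map_one a
      · exact hno e (orderOf_eq_prime ((hS.mem_E e).1 he) h1)
    have hc : m + 1 - 1 ≤ Group.nilpotencyClass (H87.AutExt a) := by
      change _ ≤ Group.nilpotencyClass (SemidirectProduct L ↥(Subgroup.zpowers a) _)
      rw [hclass]; omega
    set ι : L →* H87.AutExt a := SemidirectProduct.inl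
    have hinj : Function.Injective ι := SemidirectProduct.inl_injective
    have hrange : ι.range.Normal := by
      rw [SemidirectProduct.range_inl_eq_ker_rightHom]
      infer_instance
    -- characteristic subgroups of `L` stay normal
    have hnorm : ∀ H : Subgroup L, H.Characteristic → (H.map ι).Normal := by
      intro H hH
      constructor
      rintro _ ⟨l, hl, rfl⟩ y
      refine ⟨y.left * (y.right : MulAut L) l * y.left⁻¹, ?_, ?_⟩
      · have h1 := Subgroup.characteristic_iff_map_le.1 hH
          ((MulAut.conj y.left) * (y.right : MulAut L))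
        exact h1 ⟨l, hl, rfl⟩
      · have h := H87.autExt_inr_conj a y.right l
        conv_rhs => rw [← SemidirectProduct.inl_left_mul_inr_right y, mul_inv_rev]
        simp only [map_mul, map_inv, ι]
        rw [← h]
        group
    have hEchar : E.Characteristic := Subgroup.characteristic_iff_map_le.2 fun φ => by
      rintro _ ⟨e, he, rfl⟩
      rw [hS.mem_E, ← map_pow, (hS.mem_E e).1 he, map_one]
    have := hnorm E hEchar
    have hEXc : Nat.card (E.map ι) = p ^ 2 := by
      rw [Subgroup.card_map_of_injective hinj, hS.card_E]
    -- the derived group has order at most `p`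
    obtain ⟨N, hNn, hNc, hQc⟩ := hmc
    have hDN : commutator L ≤ N := by
      obtain ⟨g, hg⟩ := hQc.exists_generator
      rw [commutator_def, Subgroup.commutator_le]
      intro u _ w _
      rw [← QuotientGroup.eq_one_iff, ← QuotientGroup.mk'_apply, map_commutatorElement,
        commutatorElement_eq_one_iff_mul_comm]
      obtain ⟨i, hi⟩ := hg (QuotientGroup.mk' N u)
      obtain ⟨j, hj⟩ := hg (QuotientGroup.mk' N w)
      rw [← hi, ← hj]
      exact (Commute.zpow_zpow_self g i j).eq
    have hDc : IsCyclic (commutator L) :=
      isCyclic_of_injective (Subgroup.inclusion hDN) (Subgroup.inclusion_injective _)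
    obtain ⟨s, hs⟩ := (hL.to_subgroup (commutator L)).exists_card_eq
    have hs1 : s ≤ 1 := by
      by_contra hs2
      push Not at hs2
      obtain ⟨δ, hδ⟩ := IsCyclic.exists_generator (α := commutator L)
      have hord : orderOf δ = p ^ s := (orderOf_eq_card_of_forall_mem_zpowers hδ).trans hs
      set γ : L := ((δ ^ p ^ (s - 2) : commutator L) : L) with hγ
      have hγord : orderOf γ = p ^ 2 := by
        rw [hγ, Subgroup.orderOf_coe, orderOf_pow_of_dvd (pow_ne_zero _ (Fact.out (p := p.Prime)).ne_zero)
          (hord ▸ pow_dvd_pow p (Nat.sub_le s 2)), hord, Nat.pow_div (Nat.sub_le s 2)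
          (Fact.out (p := p.Prime)).pos, Nat.sub_sub_self hs2]
      have hCchar : (Subgroup.zpowers γ).Characteristic := Subgroup.characteristic_iff_map_le.2
        fun φ => by
          rw [MonoidHom.map_zpowers, Subgroup.zpowers_le]
          have h1 : φ (δ : L) ∈ commutator L :=
            Subgroup.characteristic_iff_map_le.1 inferInstance φ ⟨δ, δ.2, rfl⟩
          obtain ⟨i, hi⟩ := hδ ⟨φ (δ : L), h1⟩
          refine ⟨i, ?_⟩
          have hi' : (δ : L) ^ i = φ (δ : L) := by simpa using congrArg Subtype.val hi
          show γ ^ i = φ γ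
          rw [hγ, SubmonoidClass.coe_pow, map_pow, ← hi', ← zpow_natCast, ← zpow_natCast,
            ← zpow_mul, ← zpow_mul, mul_comm]
      have := hnorm _ hCchar
      have hCc : Nat.card ((Subgroup.zpowers γ).map ι) = p ^ 2 := by
        rw [Subgroup.card_map_of_injective hinj, Nat.card_zpowers, hγord]
      have heq := H87.normal_sq_eq_of_max_class hcard (by omega) hc hEXc hCc
      have heq' : E = Subgroup.zpowers γ := Subgroup.map_injective hinj heq
      exact hS.not_cyclic (heq' ▸ inferInstance)
    have hDZ : commutator L ≤ Subgroup.center L := by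
      rcases Nat.le_one_iff_eq_zero_or_eq_one.1 hs1 with rfl | rfl
      · rw [Subgroup.eq_bot_of_card_eq _ (hs.trans (pow_zero p))]
        exact bot_le
      · exact H87.le_center_of_normal_card_prime hL (hs.trans (pow_one p))
    have hDe : ∀ c ∈ commutator L, c ^ p = 1 := fun c hc => by
      have h1 : (⟨c, hc⟩ : commutator L) ^ p ^ s = 1 := by rw [← hs]; exact pow_card_eq_one'
      have h2 : c ^ p ^ s = 1 := by simpa using congrArg Subtype.val h1
      rcases Nat.le_one_iff_eq_zero_or_eq_one.1 hs1 with rfl | rfl
      · rw [pow_zero, pow_one] at h2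
        rw [h2, one_pow]
      · rwa [pow_one] at h2
    have hEZ : E.map ι ≤ Subgroup.center (H87.AutExt a) := by
      rintro _ ⟨e, he, rfl⟩
      rw [Subgroup.mem_center_iff]
      intro y
      obtain ⟨i, hi⟩ := y.right.2
      have hra : (y.right : MulAut L) e = e := by
        rw [← hi]
        exact zpow_mem (K := MulAction.stabilizer (MulAut L) e) (show a • e = e from hfix e he) i
      obtain ⟨w, hw, rfl⟩ := hS.surj e he
      have hcl : ∀ l : L, l * w ^ p = w ^ p * l := by
        intro l
        rw [← commutatorElement_eq_one_iff_mul_comm]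
        have hmem : ⁅l, w⁆ ∈ commutator L := by
          rw [commutator_def]
          exact Subgroup.commutator_mem_commutator (Subgroup.mem_top _) (Subgroup.mem_top _)
        rw [H24.comm_pow_right (hDZ hmem)]
        exact hDe _ hmem
      refine SemidirectProduct.ext ?_ (by simp [ι, -map_pow])
      simp only [ι, SemidirectProduct.mul_left, SemidirectProduct.left_inl,
        SemidirectProduct.right_inl, map_one, MulAut.one_apply]
      show y.left * (y.right : MulAut L) (w ^ p) = _
      rw [hra, hcl]
    have h9 := Subgroup.card_le_of_le hEZ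
    rw [hEXc, (H87.center_of_max_class hcard (by omega) hc).1] at h9
    exact absurd h9 (not_le.2 (by
      nlinarith [(Fact.out (p := p.Prime)).two_le]))

end Cfsg.Agent.S4079
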