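import Cfsg.Statements.S4080
import Mathlib

set_option autoImplicit false
open Cfsg

namespace Cfsg.Agent.S4080

/-- Let p > 3 be a prime and L the direct product of two cyclic groups of order p². Every automorphism of L of order p fixes every element of order p of L. -/
theorem result {p : ℕ} [Fact p.Prime] (hp : 3 < p)
    (a : MulAut (Multiplicative (ZMod (p ^ 2) × ZMod (p ^ 2)))) (ha : orderOf a = p)
    (x : Multiplicative (ZMod (p ^ 2) × ZMod (p ^ 2))) (hx : orderOf x = p) : a x = x := by
  let R := ZMod (p ^ 2)
  let V := R × R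
  have hp' : p.Prime := Fact.out
  haveI : NeZero (p ^ 2) := ⟨pow_ne_zero _ hp'.ne_zero⟩
  -- the endomorphism of the underlying module
  let F : V →+ V :=
    { toFun := fun v => (a (Multiplicative.ofAdd v)).toAdd
      map_zero' := by simp
      map_add' := fun u v => by simp [ofAdd_add] }
  let L : Module.End R V := F.toZModLinearMap (p ^ 2)
  have hLapp : ∀ v : V, L v = (a (Multiplicative.ofAdd v)).toAdd := fun v => rfl
  have hLpow : ∀ (k : ℕ) (v : V), (L ^ k) v = ((a ^ k) (Multiplicative.ofAdd v)).toAdd := by
    intro k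
    induction k with
    | zero => intro v; simp
    | succ k ih =>
      intro v
      rw [pow_succ' L, pow_succ' a, Module.End.mul_apply, hLapp, ih, MulAut.mul_apply, ofAdd_toAdd]
  have hLp : L ^ p = 1 := by
    refine LinearMap.ext fun v => ?_
    rw [hLpow, orderOf_dvd_iff_pow_eq_one.1 (dvd_of_eq ha)]
    simp
  let T : Module.End R V ≃ₐ[R] Matrix (Fin 2) (Fin 2) R :=
    LinearMap.toMatrixAlgEquiv (Module.Basis.finTwoProd R)
  set E := T L - 1 with hE
  have hTp : (1 + E) ^ p = 1 := by rw [hE, add_sub_cancel, ← map_pow, hLp, map_one]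
  -- reduction modulo `p`
  let π : R →+* ZMod p := ZMod.castHom (dvd_pow_self p two_ne_zero) _
  let Φ := π.mapMatrix (m := Fin 2)
  have hΦE : Φ E * Φ E = 0 := by
    set N := Φ E
    have hN : N ^ p = 0 := by
      have h1 : (1 + N) ^ p = 1 := by
        have := congrArg Φ hTp
        simpa [N] using this
      rw [add_pow_char_of_commute _ (Commute.one_left _), one_pow] at h1
      simpa using h1
    have hdet : N.det = 0 := by
      have := congrArg Matrix.det hN
      rw [Matrix.det_pow, Matrix.det_zero] at this
      exact eq_zero_of_pow_eq_zero this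
    have hsq : N * N = N.trace • N := by
      rw [Matrix.det_fin_two] at hdet
      ext i j
      fin_cases i <;> fin_cases j <;>
        simp [Matrix.mul_apply, Matrix.trace_fin_two] <;>
        first
          | linear_combination hdet
          | linear_combination -hdet
          | linear_combination (0 : ZMod p) * hdet
    by_cases ht : N.trace = 0
    · rw [hsq, ht, zero_smul]
    · have hk : ∀ k, N ^ (k + 1) = N.trace ^ k • N := by
        intro k
        induction k with
        | zero => simp
        | succ k ih => rw [pow_succ, ih, smul_mul_assoc, hsq, smul_smul, pow_succ]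
      have hN' : N ^ (p - 1 + 1) = 0 := by
        have e : p - 1 + 1 = p := by omega
        exact (congrArg (N ^ ·) e).trans hN
      rw [hk] at hN'
      clear hN
      rename' hN' => hN
      rcases smul_eq_zero.1 hN with h | h
      · exact absurd (eq_zero_of_pow_eq_zero h) ht
      · rw [h, mul_zero]
  have hker : ∀ r : R, π r = 0 → ∃ s : R, r = (p : R) * s := by
    intro r hr
    have : π r = ((r.val : ℕ) : ZMod p) := by rw [← map_natCast π, ZMod.natCast_zmod_val]
    rw [this, ZMod.natCast_eq_zero_iff] at hr
    obtain ⟨s, hs⟩ := hr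
    exact ⟨s, by rw [← ZMod.natCast_zmod_val r, hs, Nat.cast_mul]⟩
  have hpp : ((p : R) * (p : R)) = 0 := by
    rw [← Nat.cast_mul, ← pow_two]; exact ZMod.natCast_self _
  choose g hg using fun (ij : Fin 2 × Fin 2) => hker ((E * E) ij.1 ij.2) (by
    have := congrFun (congrFun hΦE ij.1) ij.2
    rw [← map_mul] at this
    simpa [Φ] using this)
  let G' : Matrix (Fin 2) (Fin 2) R := Matrix.of fun i j => g (i, j)
  have hG : E * E = (p : R) • G' := by
    ext i j; simp [G', hg (i, j)]
  have hpE2 : (p : R) • (E * E) = 0 := by rw [hG, smul_smul, hpp, zero_smul]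
  have hE4 : E ^ 4 = 0 := by
    rw [pow_succ E, pow_succ E, pow_succ E, pow_one E, mul_assoc, mul_assoc]
    calc E * (E * (E * E)) = (E * E) * (E * E) := by rw [mul_assoc]
      _ = 0 := by rw [hG, smul_mul_smul_comm, hpp, zero_smul]
  have hbin : ∀ k : ℕ, (1 + E) ^ k =
      1 + (k : R) • E + (k.choose 2 : R) • (E * E) + (k.choose 3 : R) • (E * E * E) := by
    intro k
    induction k with
    | zero => simp
    | succ k ih =>
      have h4 : E * E * E * E = 0 := by rw [← hE4]; simp [pow_succ, mul_assoc]
      rw [pow_succ, ih, Nat.choose_succ_succ' k 1, Nat.choose_succ_succ' k 2, Nat.choose_one_right]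
      simp only [Nat.cast_succ, Nat.cast_add, add_mul, mul_add, one_mul, mul_one, smul_mul_assoc,
        add_smul, one_smul, h4, smul_zero, Nat.reduceAdd]
      abel
  have hpE : (p : R) • E = 0 := by
    have := hbin p
    obtain ⟨c, hc⟩ := hp'.dvd_choose_self two_ne_zero (by omega : 2 < p)
    obtain ⟨d, hd⟩ := hp'.dvd_choose_self three_ne_zero (by omega : 3 < p)
    rw [hTp, hc, hd, Nat.cast_mul, Nat.cast_mul, mul_comm (p : R) (c : R), mul_comm (p : R) (d : R),
      mul_smul, mul_smul, hpE2, ← smul_mul_assoc, hpE2, zero_mul, smul_zero, smul_zero, add_zero,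
      add_zero] at this
    simpa using this.symm
  have hL : (p : R) • (L - 1) = 0 := by
    apply T.injective
    rw [map_smul, map_sub, map_one, map_zero]
    exact hpE
  -- an element of order dividing `p` is `p` times an element
  have hxp : (p : R) • (x.toAdd : V) = 0 := by
    have h1 : x ^ p = 1 := orderOf_dvd_iff_pow_eq_one.1 (dvd_of_eq hx)
    have h2 := congrArg Multiplicative.toAdd h1
    rw [toAdd_pow, toAdd_one] at h2
    rw [Nat.cast_smul_eq_nsmul]
    exact h2
  have hdiv : ∀ r : R, (p : R) * r = 0 → ∃ s : R, r = (p : R) * s := by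
    intro r hr
    have : ((p * r.val : ℕ) : R) = 0 := by rw [Nat.cast_mul, ZMod.natCast_zmod_val, hr]
    rw [ZMod.natCast_eq_zero_iff] at this
    obtain ⟨s, hs⟩ := Nat.dvd_of_mul_dvd_mul_left hp'.pos
      ((dvd_of_eq (pow_two p).symm).trans this)
    exact ⟨s, by rw [← ZMod.natCast_zmod_val r, hs, Nat.cast_mul]⟩
  obtain ⟨s1, hs1⟩ := hdiv x.toAdd.1 (congrArg Prod.fst hxp)
  obtain ⟨s2, hs2⟩ := hdiv x.toAdd.2 (congrArg Prod.snd hxp)
  have hxs : (x.toAdd : V) = (p : R) • ((s1, s2) : V) := Prod.ext hs1 hs2
  apply Multiplicative.toAdd.injective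
  have hfix : L x.toAdd - x.toAdd = 0 := by
    rw [hxs, LinearMap.map_smul, ← smul_sub]
    have := LinearMap.congr_fun hL ((s1, s2) : V)
    simpa using this
  rw [hLapp, ofAdd_toAdd] at hfix
  exact sub_eq_zero.1 hfix

end Cfsg.Agent.S4080
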