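import Cfsg.Statements.S4081
import Cfsg.Agent.H87.ThreeOrbits

set_option autoImplicit false
open Cfsg

namespace Cfsg.Agent.S4081

/-- Let G be a finite group whose order is not a prime power. Then the automorphism group of G has exactly three orbits on G if and only if there are distinct primes p, q with #G = pⁿ·q (n ≥ 1) such that G has a normal elementary abelian Sylow p-subgroup P, p is a primitive root modulo q (the multiplicative order of p mod q is q − 1), and every element of order q of G acts on P without non-identity fixed points. -/
theorem result {G : Type*} [Group G] [Finite G] (hnpp : ¬ IsPrimePow (Nat.card G)) (hnt : Nat.card G ≠ 1) :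
    Nat.card (MulAction.orbitRel.Quotient (MulAut G) G) = 3 ↔
    ∃ (p q n : ℕ) (_ : Fact p.Prime) (_ : Fact q.Prime), p ≠ q ∧ 1 ≤ n ∧ Nat.card G = p ^ n * q ∧
      (∀ P : Sylow p G, (P : Subgroup G).Normal ∧ Cfsg.IsElementaryAbelian p (P : Subgroup G)) ∧
      orderOf (p : ZMod q) = q - 1 ∧
      ∀ x y : G, orderOf x = q → orderOf y = p → x * y * x⁻¹ ≠ y := by
  exact Cfsg.Agent.H87.three_orbits_iff hnpp hnt

end Cfsg.Agent.S4081
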