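import Cfsg.Statements.S4082
import Mathlib
import Cfsg.Agent.H87.PByCyclic

set_option autoImplicit false
open Cfsg

namespace Cfsg.Agent.S4082

/-- Let p be an odd prime and G a finite group with Sylow p-subgroup P. Say that G has restricted p-by-cyclic subgroups when every subgroup H of G whose Sylow p-subgroup is normal in H with cyclic quotient is itself cyclic or dihedral of order 2pⁿ for some n. Then G has restricted p-by-cyclic subgroups if and only if P is cyclic and one of the following holds: (1) N_G(P) = C_G(P); or (2) N_G(P)/C_G(P) has order 2 and, for the subgroup Q of order p of P, the centralizer C_G(Q) is abelian and every element of N_G(Q) outside C_G(Q) is an involution inverting every element of C_G(Q). -/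
theorem result {G : Type*} [Group G] [Finite G] {p : ℕ}
    [Fact p.Prime] (hp : p ≠ 2) (P : Sylow p G) :
    (∀ H : Subgroup G, (∀ S : Sylow p ↥H, (S : Subgroup ↥H).Normal) →
        (∀ (S : Sylow p ↥H) [(S : Subgroup ↥H).Normal], IsCyclic (↥H ⧸ (S : Subgroup ↥H))) →
        IsCyclic H ∨ (∃ n : ℕ, Nonempty (H ≃* DihedralGroup (p ^ n)))) ↔
    (IsCyclic P ∧
      (Subgroup.normalizer ((P : Subgroup G) : Set G) = Subgroup.centralizer ((P : Subgroup G) : Set G) ∨
       ((Subgroup.centralizer ((P : Subgroup G) : Set G)).relIndex (Subgroup.normalizer ((P : Subgroup G) : Set G)) = 2 ∧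
        ∀ Q : Subgroup G, Q ≤ P → Nat.card Q = p →
          IsMulCommutative ↥(Subgroup.centralizer (Q : Set G)) ∧
          ∀ x : G, x ∈ Subgroup.normalizer (Q : Set G) → x ∉ Subgroup.centralizer (Q : Set G) →
            orderOf x = 2 ∧ ∀ c : G, c ∈ Subgroup.centralizer (Q : Set G) → x * c * x⁻¹ = c⁻¹))) := by
  refine ⟨fun h => Cfsg.Agent.H87.restricted_forward hp P fun H hH => h H hH.1 hH.2, ?_⟩
  rintro ⟨hPc, hcond⟩ H h1 h2
  exact Cfsg.Agent.H87.restricted_backward hp P hPc (hcond.imp id fun h => h.2) ⟨h1, h2⟩

end Cfsg.Agent.S4082
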