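import Cfsg.Statements.S4083
import Mathlib
import Cfsg.Agent.H87.PByCyclicTwo

set_option autoImplicit false
open Cfsg

namespace Cfsg.Agent.S4083

/-- Let G be a finite group with Sylow 2-subgroup P. Every subgroup H of G whose Sylow 2-subgroup is normal in H with cyclic quotient is cyclic, dihedral of 2-power order, or isomorphic to the alternating group of degree 4, if and only if either P is cyclic, or P is dihedral (of order at least 4) and every elementary abelian subgroup K of order 4 of P satisfies C_G(K) = K. -/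
theorem result {G : Type*} [Group G] [Finite G] (P : Sylow 2 G) :
    (∀ H : Subgroup G, (∀ S : Sylow 2 ↥H, (S : Subgroup ↥H).Normal) →
        (∀ (S : Sylow 2 ↥H) [(S : Subgroup ↥H).Normal], IsCyclic (↥H ⧸ (S : Subgroup ↥H))) →
        IsCyclic H ∨ (∃ n : ℕ, Nonempty (H ≃* DihedralGroup (2 ^ n))) ∨ Nonempty (H ≃* alternatingGroup (Fin 4))) ↔
    (IsCyclic P ∨
      ((∃ n : ℕ, 1 ≤ n ∧ Nonempty ((P : Subgroup G) ≃* DihedralGroup (2 ^ n))) ∧
        ∀ K : Subgroup G, K ≤ P → Nat.card K = 4 → (∀ k ∈ K, k ^ 2 = 1) → Subgroup.centralizer (K : Set G) = K)) := by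
  refine ⟨fun h => Cfsg.Agent.H87.restricted_two_forward P fun H hH => h H hH.1 hH.2, ?_⟩
  intro hcond H h1 h2
  exact Cfsg.Agent.H87.restricted_two_backward P hcond ⟨h1, h2⟩

end Cfsg.Agent.S4083
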