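import Cfsg.Statements.S4084
import Mathlib

set_option autoImplicit false
open Cfsg

namespace Cfsg.Agent.S4084

theorem aux {G H : Type*} [Group G] [Finite G] [Group H] [Finite H] {p q : ℕ} (hp : p.Prime)
    (hq : q.Prime) (hpq : p ≠ q) (e : G ≃ H) (he : ∀ x y : G, Commute x y ↔ Commute (e x) (e y))
    (hex : ∃ g : G, orderOf g = p * q) : ∃ h : H, orderOf h = p * q := by
  obtain ⟨g, hg⟩ := hex
  let A : Subgroup G := Subgroup.centralizer (Subgroup.centralizer ({g} : Set G) : Set G)
  let B : Subgroup H := Subgroup.centralizer (Subgroup.centralizer ({e g} : Set H) : Set H)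
  have memA : ∀ x, x ∈ A ↔ ∀ y, Commute y g → Commute y x := by
    intro x
    simp only [A, Subgroup.mem_centralizer_iff, SetLike.mem_coe, Set.mem_singleton_iff, forall_eq]
    exact ⟨fun h y hy => h y hy.eq.symm, fun h y hy => h y hy.symm⟩
  have memB : ∀ x, x ∈ B ↔ ∀ y, Commute y (e g) → Commute y x := by
    intro x
    simp only [B, Subgroup.mem_centralizer_iff, SetLike.mem_coe, Set.mem_singleton_iff, forall_eq]
    exact ⟨fun h y hy => h y hy.eq.symm, fun h y hy => h y hy.symm⟩
  have hAB : ∀ x, x ∈ A ↔ e x ∈ B := by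
    intro x
    rw [memA, memB]
    refine ⟨fun h y hy => ?_, fun h y hy => (he y x).2 (h _ ((he y g).1 hy))⟩
    obtain ⟨y, rfl⟩ := e.surjective y
    exact (he y x).1 (h y ((he y g).2 hy))
  have hcard : Nat.card A = Nat.card B := Nat.card_congr (e.subtypeEquiv hAB)
  have hgA : g ∈ A := (memA g).2 fun y hy => hy
  have hdvd : p * q ∣ Nat.card B := by
    rw [← hcard, ← hg, ← Subgroup.orderOf_mk g hgA]
    exact orderOf_dvd_natCard _
  haveI := Fact.mk hp
  haveI := Fact.mk hq
  obtain ⟨a, ha⟩ := exists_prime_orderOf_dvd_card' (G := B) p ((dvd_mul_right p q).trans hdvd)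
  obtain ⟨b, hb⟩ := exists_prime_orderOf_dvd_card' (G := B) q ((dvd_mul_left q p).trans hdvd)
  have hag : Commute (a : H) (e g) := ((memB a).1 a.2 (e g) (Commute.refl _)).symm
  have hab : Commute (a : H) (b : H) := (memB b).1 b.2 a hag
  refine ⟨a * b, ?_⟩
  have ha' : orderOf (a : H) = p := by rw [Subgroup.orderOf_coe, ha]
  have hb' : orderOf (b : H) = q := by rw [Subgroup.orderOf_coe, hb]
  rw [hab.orderOf_mul_eq_mul_orderOf_of_coprime, ha', hb']
  rw [ha', hb']
  exact (Nat.coprime_primes hp hq).2 hpq

/-- Let G and H be finite groups whose commuting graphs are isomorphic: there is a bijection e : G → H with x, y commuting exactly when e(x), e(y) commute. Then G and H have the same prime graph: for distinct primes p, q, G has an element of order pq if and only if H does (and #G = #H, so the prime divisors agree). -/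
theorem result {G H : Type*} [Group G] [Finite G] [Group H] [Finite H] (e : G ≃ H)
    (he : ∀ x y : G, Commute x y ↔ Commute (e x) (e y))
    {p q : ℕ} (hp : p.Prime) (hq : q.Prime) (hpq : p ≠ q) :
    (∃ g : G, orderOf g = p * q) ↔ (∃ h : H, orderOf h = p * q) := by
  refine ⟨aux hp hq hpq e he, aux hp hq hpq e.symm fun x y => ?_⟩
  rw [he (e.symm x) (e.symm y), e.apply_symm_apply, e.apply_symm_apply]

end Cfsg.Agent.S4084
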