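import Cfsg.Statements.S4086
import Mathlib

set_option autoImplicit false
open Cfsg

namespace Cfsg.Agent.S4086

/-- For a finite group G the following are equivalent: every non-identity element has prime-power order; whenever two elements generate a cyclic subgroup, one of them is a power of the other (the enhanced power graph of G coincides with its power graph). -/
theorem result {G : Type*} [Group G] [Finite G] :
    (∀ g : G, g ≠ 1 → IsPrimePow (orderOf g)) ↔
    (∀ x y : G, IsCyclic ↥(Subgroup.closure ({x, y} : Set G)) → (x ∈ Subgroup.zpowers y ∨ y ∈ Subgroup.zpowers x)) := by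
  constructor
  · intro h x y hc
    obtain ⟨g, hg⟩ := (Subgroup.isCyclic_iff_exists_zpowers_eq_top _).1 hc
    have hx : x ∈ Subgroup.zpowers g := hg ▸ Subgroup.subset_closure (by simp)
    have hy : y ∈ Subgroup.zpowers g := hg ▸ Subgroup.subset_closure (by simp)
    by_cases hg1 : g = 1
    · subst hg1
      simp only [Subgroup.zpowers_one_eq_bot, Subgroup.mem_bot] at hx
      exact Or.inl (hx ▸ one_mem _)
    obtain ⟨p, k, hp, -, hk⟩ := h g hg1
    have hp' : p.Prime := hp.nat_prime
    have key : ∀ a b : G, a ∈ Subgroup.zpowers g → b ∈ Subgroup.zpowers g →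
        orderOf a ∣ orderOf b → a ∈ Subgroup.zpowers b := by
      intro a b ha hb hab
      classical
      letI := Fintype.ofFinite (Subgroup.zpowers g)
      let a' : Subgroup.zpowers g := ⟨a, ha⟩
      let b' : Subgroup.zpowers g := ⟨b, hb⟩
      have hcount := IsCyclic.card_pow_eq_one_le (α := Subgroup.zpowers g) (orderOf_pos b')
      set S := Finset.univ.filter fun z : Subgroup.zpowers g => z ^ orderOf b' = 1
      let T := Finset.univ.filter fun z : Subgroup.zpowers g => z ∈ Subgroup.zpowers b'
      have hTS : T ⊆ S := by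
        intro z hz
        simp only [T, S, Finset.mem_filter, Finset.mem_univ, true_and] at hz ⊢
        exact orderOf_dvd_iff_pow_eq_one.1 (orderOf_dvd_of_mem_zpowers hz)
      have hTc : T.card = orderOf b' := by
        rw [← Nat.card_zpowers, Nat.card_eq_fintype_card, Fintype.card_subtype]
      have hST : T = S := Finset.eq_of_subset_of_card_le hTS (hTc ▸ hcount)
      have haS : a' ∈ S := by
        simp only [S, Finset.mem_filter, Finset.mem_univ, true_and]
        apply orderOf_dvd_iff_pow_eq_one.1
        simpa [a', b', Subgroup.orderOf_mk] using hab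
      rw [← hST] at haS
      obtain ⟨i, hi⟩ := (Finset.mem_filter.1 haS).2
      exact ⟨i, congrArg Subtype.val hi⟩
    have hox := orderOf_dvd_of_mem_zpowers hx
    have hoy := orderOf_dvd_of_mem_zpowers hy
    rw [← hk] at hox hoy
    obtain ⟨i, -, hi⟩ := (Nat.dvd_prime_pow hp').1 hox
    obtain ⟨j, -, hj⟩ := (Nat.dvd_prime_pow hp').1 hoy
    rcases le_total i j with hij | hij
    · exact Or.inl (key x y hx hy (hi ▸ hj ▸ pow_dvd_pow p hij))
    · exact Or.inr (key y x hy hx (hi ▸ hj ▸ pow_dvd_pow p hij))
  · intro h g hg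
    by_contra hpp
    have hn1 : orderOf g ≠ 1 := fun e => hg (orderOf_eq_one_iff.1 e)
    have hn0 : orderOf g ≠ 0 := (orderOf_pos g).ne'
    obtain ⟨p, hp, hpn⟩ := Nat.exists_prime_and_dvd hn1
    set k := (orderOf g).factorization p
    set m := orderOf g / p ^ k
    have hm : p ^ k * m = orderOf g := Nat.ordProj_mul_ordCompl_eq_self _ _
    have hk : 0 < k := hp.factorization_pos_of_dvd hn0 hpn
    have hpm : ¬ p ∣ m := Nat.not_dvd_ordCompl hp hn0
    have hm1 : m ≠ 1 := by
      intro e
      exact hpp ⟨p, k, hp.prime, hk, by rw [← hm, e, mul_one]⟩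
    have hox : orderOf (g ^ m) = p ^ k := by
      rw [orderOf_pow' g (by rintro e; exact hpm (e ▸ dvd_zero p)), Nat.gcd_eq_right (Dvd.intro_left _ hm)]
      rw [← hm]; exact Nat.mul_div_cancel _ (Nat.pos_of_ne_zero fun e => hpm (e ▸ dvd_zero p))
    have hoy : orderOf (g ^ p ^ k) = m := by
      rw [orderOf_pow' g (pow_pos hp.pos k).ne', Nat.gcd_eq_right (Dvd.intro _ hm)]

    haveI : IsCyclic ↥(Subgroup.closure ({g ^ m, g ^ p ^ k} : Set G)) := by
      apply Subgroup.isCyclic_of_le (H' := Subgroup.zpowers g)
      rw [Subgroup.closure_le]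
      rintro z (rfl | rfl) <;> exact Subgroup.npow_mem_zpowers _ _
    rcases h _ _ this with h' | h'
    · have := orderOf_dvd_of_mem_zpowers h'
      rw [hox, hoy] at this
      exact hpm ((dvd_pow_self p hk.ne').trans this)
    · have := orderOf_dvd_of_mem_zpowers h'
      rw [hox, hoy] at this
      obtain ⟨i, -, hi⟩ := (Nat.dvd_prime_pow hp).1 this
      rcases i with _ | i
      · exact hm1 (by simpa using hi)
      · exact hpm (hi ▸ dvd_pow_self p (Nat.succ_ne_zero i))

end Cfsg.Agent.S4086
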