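import Cfsg.Statements.S4089
import Mathlib
import Cfsg.Agent.H87.Subnormalizer

set_option autoImplicit false
open Cfsg

namespace Cfsg.Agent.S4089

/-- Let G be a finite group, p a prime and H a p-subgroup of G. Then the set of elements g of G such that H is subnormal in the subgroup generated by H and g is the union of the normalizers N_G(R) over the subgroups R of G containing H with R = O_p(N_G(R)); and this set does not change when H is replaced by the intersection of all Sylow p-subgroups of G containing H. -/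
theorem result {G : Type*} [Group G] [Finite G] (p : ℕ) [Fact p.Prime]
    (H : Subgroup G) (hH : IsPGroup p H) :
    {g : G | ((H).subgroupOf (H ⊔ Subgroup.zpowers g)).IsSubnormal} =
      {g : G | ∃ R : Subgroup G, H ≤ R ∧ (Cfsg.pCore p (Subgroup.normalizer (R : Set G))).map (Subgroup.normalizer (R : Set G)).subtype = R ∧ g ∈ Subgroup.normalizer (R : Set G)} ∧
    ∀ g : G, (((H).subgroupOf (H ⊔ Subgroup.zpowers g)).IsSubnormal ↔
      (((sInf {K : Subgroup G | ∃ Q : Sylow p G, H ≤ (Q : Subgroup G) ∧ K = (Q : Subgroup G)})).subgroupOf ((sInf {K : Subgroup G | ∃ Q : Sylow p G, H ≤ (Q : Subgroup G) ∧ K = (Q : Subgroup G)}) ⊔ Subgroup.zpowers g)).IsSubnormal) := by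
  set D := sInf {K : Subgroup G | ∃ Q : Sylow p G, H ≤ (Q : Subgroup G) ∧ K = (Q : Subgroup G)}
  have hHD : H ≤ D := le_sInf (by rintro _ ⟨Q, hQ, rfl⟩; exact hQ)
  obtain ⟨Q, hQ⟩ := hH.exists_le_sylow
  have hDp : IsPGroup p D := Q.isPGroup'.to_le (sInf_le ⟨Q, hQ, rfl⟩)
  constructor
  · ext g
    simp only [Set.mem_ofPred_eq, Cfsg.Agent.H87.isSubnormal_iff_exists_normalizer hH]
    constructor
    · rintro ⟨K, hHK, hK, hg⟩
      obtain ⟨R, h1, -, h3, h4⟩ := Cfsg.Agent.H87.exists_radical_ge hK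
      exact ⟨R, hHK.trans h1, h3, h4 hg⟩
    · rintro ⟨R, h1, h2, h3⟩
      exact ⟨R, h1, h2 ▸ (Cfsg.Agent.H19.pCore_isPGroup p).map _, h3⟩
  · intro g
    rw [Cfsg.Agent.H87.isSubnormal_iff_exists_normalizer hH,
      Cfsg.Agent.H87.isSubnormal_iff_exists_normalizer hDp]
    constructor
    · rintro ⟨K, hHK, hK, hg⟩
      obtain ⟨R, h1, h2, h3, h4⟩ := Cfsg.Agent.H87.exists_radical_ge hK
      exact ⟨R, Cfsg.Agent.H87.sInf_sylow_le_radical (hHK.trans h1) h3, h2, h4 hg⟩
    · rintro ⟨K, hDK, hK, hg⟩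
      exact ⟨K, hHD.trans hDK, hK, hg⟩

end Cfsg.Agent.S4089
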