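import Cfsg.Statements.S4090
import Mathlib
import Cfsg.Agent.H87.SubnormalizerChain

set_option autoImplicit false
open scoped BigOperators
open Cfsg

namespace Cfsg.Agent.S4090

/-- Let G be a finite p-solvable group, H a p-subgroup of G and P a Sylow p-subgroup, and fix a chain of normal subgroups 1 = M₀ ≤ M₁ ≤ ⋯ ≤ Mₙ = G of G each of whose factors is a p-group or a p'-group. Then the number of elements g of G such that H is subnormal in the subgroup generated by H and g equals the order of P times the product, over the factors Mᵢ₊₁/Mᵢ of order prime to p, of the order of the centralizer of H in Mᵢ₊₁/Mᵢ (counted as the number of u ∈ Mᵢ₊₁ with [h, u] ∈ Mᵢ for all h ∈ H, divided by the order of Mᵢ). -/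
theorem result {G : Type*} [Group G] [Finite G] (p : ℕ) [Fact p.Prime]
    (hG : Cfsg.IsPSolvable p G) (H : Subgroup G) (hH : IsPGroup p H) (P : Sylow p G)
    (n : ℕ) (M : Fin (n + 1) → Subgroup G) (h0 : M 0 = ⊥) (hn : M (Fin.last n) = ⊤) (hmono : Monotone M)
    (hnormal : ∀ i, (M i).Normal)
    (hfac : ∀ i : Fin n, (∃ m : ℕ, (M i.castSucc).relIndex (M i.succ) = p ^ m) ∨ ((M i.castSucc).relIndex (M i.succ)).Coprime p) :
    Nat.card {g : G // ((H).subgroupOf (H ⊔ Subgroup.zpowers g)).IsSubnormal} =
      Nat.card (P : Subgroup G) *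
        ∏ i : Fin n, (if ((M i.castSucc).relIndex (M i.succ)).Coprime p then
          Nat.card {u : G // u ∈ M i.succ ∧ ∀ h ∈ H, h * u * h⁻¹ * u⁻¹ ∈ M i.castSucc} / Nat.card (M i.castSucc)
          else 1) := by
  have h : Nat.card {g : G // ((H).subgroupOf (H ⊔ Subgroup.zpowers g)).IsSubnormal} =
      Nat.card (Cfsg.Agent.H87.subnormalizerSet p H) :=
    Nat.card_congr (Equiv.subtypeEquivRight fun g =>
      Cfsg.Agent.H87.isSubnormal_iff_exists_normalizer hH g)
  exact (h.trans (Cfsg.Agent.H87.card_subnormalizerSet (Nat.card G) G le_rfl H P)).trans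
    (Cfsg.Agent.H87.sylowProd_series n G H hH P M h0 hn hmono hnormal hfac)

end Cfsg.Agent.S4090
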