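import Cfsg.Statements.S4092
import Mathlib

set_option autoImplicit false
open Cfsg

namespace Cfsg.Agent.S4092

/-- Let G be a finite group, p a prime and P a Sylow p-subgroup of G that is not normal in G. Then G has at least p·#P elements of p-power order (the identity included). -/
theorem result {G : Type*} [Group G] [Finite G] (p : ℕ) [Fact p.Prime]
    (P : Sylow p G) (hP : ¬ (P : Subgroup G).Normal) :
    p * Nat.card (P : Subgroup G) ≤ Nat.card {g : G // ∃ k : ℕ, orderOf g = p ^ k} := by
  classical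
  have hp := (Fact.out : p.Prime)
  have hPne : ∃ Q : Sylow p G, Q ≠ P := by
    by_contra h
    push Not at h
    haveI : Subsingleton (Sylow p G) := ⟨fun a b => (h a).trans (h b).symm⟩
    exact hP (Sylow.normal_of_subsingleton P)
  obtain ⟨Q₀, hQ₀⟩ := hPne
  haveI : Nonempty {w : Sylow p G × Sylow p G // w.1 ≠ w.2} := ⟨⟨(Q₀, P), hQ₀⟩⟩
  obtain ⟨⟨⟨A, B⟩, hAB⟩, hmax⟩ := Finite.exists_max
    (fun w : {w : Sylow p G × Sylow p G // w.1 ≠ w.2} =>
      Nat.card ↥((w.1.1 : Subgroup G) ⊓ (w.1.2 : Subgroup G)))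
  set D := (A : Subgroup G) ⊓ (B : Subgroup G) with hD
  have heqD : ∀ R R' : Sylow p G, R ≠ R' → D ≤ (R : Subgroup G) → D ≤ (R' : Subgroup G) →
      (R : Subgroup G) ⊓ (R' : Subgroup G) = D := fun R R' hne h1 h2 =>
    (Subgroup.eq_of_le_of_card_ge (le_inf h1 h2) (hmax ⟨(R, R'), hne⟩)).symm
  have hDp : IsPGroup p D := A.isPGroup'.to_le inf_le_left
  -- normalizers grow
  have hgrow : ∀ R : Sylow p G, D ≤ (R : Subgroup G) → (R : Subgroup G) ≠ D →
      D < (R : Subgroup G) ⊓ Subgroup.normalizer (D : Set G) := by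
    intro R hDR hne
    haveI := R.isPGroup'.isNilpotent
    have hlt : D.subgroupOf (R : Subgroup G) < ⊤ := lt_of_le_of_ne le_top fun h =>
      hne (le_antisymm (Subgroup.subgroupOf_eq_top.1 h) hDR)
    obtain ⟨x, hx, hxD⟩ := SetLike.exists_of_lt (normalizerCondition_of_isNilpotent _ hlt)
    refine lt_of_le_of_ne (le_inf hDR Subgroup.le_normalizer) fun h => hxD ?_
    rw [Subgroup.mem_subgroupOf, h]
    refine ⟨x.2, ?_⟩
    show (x : G) ∈ Subgroup.normalizer (D : Set G)
    rw [Subgroup.mem_normalizer_iff]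
    intro y
    refine ⟨fun hy => ?_, fun hy => ?_⟩
    · exact (Subgroup.mem_normalizer_iff.1 hx ⟨y, hDR hy⟩).1 hy
    · have hyR : y ∈ (R : Subgroup G) := by
        have := mul_mem (mul_mem (inv_mem x.2) (hDR hy)) x.2
        simpa [mul_assoc] using this
      exact (Subgroup.mem_normalizer_iff.1 hx ⟨y, hyR⟩).2 hy
  have hAne : (A : Subgroup G) ≠ D := by
    intro h
    refine hAB (Sylow.ext (Subgroup.eq_of_le_of_card_ge (h.le.trans inf_le_right) ?_))
    rw [A.card_eq_multiplicity, B.card_eq_multiplicity]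
  have hBne : (B : Subgroup G) ≠ D := by
    intro h
    refine hAB (Sylow.ext (Subgroup.eq_of_le_of_card_ge (h.le.trans inf_le_left) ?_).symm)
    rw [A.card_eq_multiplicity, B.card_eq_multiplicity]
  set N := Subgroup.normalizer (D : Set G) with hN
  have hex : ∀ S : Sylow p N, ∃ R : Sylow p G, (S : Subgroup N).map N.subtype ≤ (R : Subgroup G) :=
    fun S => (S.isPGroup'.map _).exists_le_sylow
  choose R hR using hex
  have hDS : ∀ S : Sylow p N, D ≤ (R S : Subgroup G) := by
    intro S x hx
    have hD' : IsPGroup p (D.subgroupOf N) := hDp.comap_of_injective _ N.subtype_injective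
    haveI : (D.subgroupOf N).Normal := Subgroup.normal_in_normalizer
    have hsup := S.isPGroup'.to_sup_of_normal_right hD'
    have hxS : (⟨x, Subgroup.le_normalizer hx⟩ : N) ∈ (S : Subgroup N) := by
      rw [← S.is_maximal' hsup le_sup_left]
      exact Subgroup.mem_sup_right hx
    exact hR S ⟨_, hxS, rfl⟩
  have hRinj : Function.Injective R := by
    intro S S' h
    have hI : IsPGroup p ((R S : Subgroup G).subgroupOf N) :=
      (R S).isPGroup'.comap_of_injective _ N.subtype_injective
    have h1 := S.is_maximal' hI (fun y hy => hR S ⟨y, hy, rfl⟩)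
    have h2 := S'.is_maximal' hI (fun y hy => h ▸ hR S' ⟨y, hy, rfl⟩)
    exact Sylow.ext (h1.symm.trans h2)
  have hnn : ∀ S : Sylow p N, ¬ (S : Subgroup N).Normal := by
    intro S hS
    have key : ∀ T : Sylow p G, D ≤ (T : Subgroup G) → (T : Subgroup G) ≠ D → R S = T := by
      intro T hDT hTne
      by_contra hne
      obtain ⟨x, hx, hxD⟩ := SetLike.exists_of_lt (hgrow T hDT hTne)
      apply hxD
      rw [← heqD (R S) T hne (hDS S) hDT]
      have hT : IsPGroup p ((T : Subgroup G).subgroupOf N) :=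
        T.isPGroup'.comap_of_injective _ N.subtype_injective
      haveI := hS
      have hxS : (⟨x, hx.2⟩ : N) ∈ (S : Subgroup N) := by
        rw [← S.is_maximal' (S.isPGroup'.to_sup_of_normal_left hT) le_sup_left]
        exact Subgroup.mem_sup_right hx.1
      exact ⟨hR S ⟨_, hxS, rfl⟩, hx.1⟩
    exact hAB ((key A inf_le_left hAne).symm.trans (key B inf_le_right hBne))
  have hnum : p + 1 ≤ Nat.card (Sylow p N) := by
    obtain ⟨S⟩ : Nonempty (Sylow p N) := inferInstance
    have h1 : Nat.card (Sylow p N) ≠ 1 := fun h => by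
      haveI := (Nat.card_eq_one_iff_unique.1 h).1
      exact hnn S (Sylow.normal_of_subsingleton S)
    have hmod : Nat.card (Sylow p N) % p = 1 := by
      rw [← Nat.mod_eq_of_lt hp.one_lt]
      exact card_sylow_modEq_one p N
    have := Nat.div_add_mod (Nat.card (Sylow p N)) p
    have hpos : 1 ≤ Nat.card (Sylow p N) / p := by
      rcases Nat.eq_zero_or_pos (Nat.card (Sylow p N) / p) with h0 | h0
      · rw [h0, mul_zero, zero_add, hmod] at this
        exact absurd this.symm h1
      · exact h0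
    nlinarith
  -- count
  obtain ⟨e⟩ : Nonempty (Fin (p + 1) ↪ Sylow p N) := by
    letI := Fintype.ofFinite (Sylow p N)
    exact Function.Embedding.nonempty_of_card_le (by
      rw [Fintype.card_fin, ← Nat.card_eq_fintype_card]; exact hnum)
  set m := Nat.card (P : Subgroup G) with hm
  have hcardR : ∀ i, Nat.card {x : (R (e i) : Subgroup G) // (x : G) ∉ D} = m - Nat.card D := by
    intro i
    have hc : Nat.card (R (e i) : Subgroup G) = m := by
      rw [hm, (R (e i)).card_eq_multiplicity, P.card_eq_multiplicity]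
    letI := Fintype.ofFinite (R (e i) : Subgroup G)
    rw [← hc, Nat.card_eq_fintype_card, Fintype.card_subtype_compl, ← Nat.card_eq_fintype_card,
      ← Nat.card_eq_fintype_card]
    congr 1
    exact Nat.card_congr (Subgroup.subgroupOfEquivOfLe (hDS (e i))).toEquiv
  let f : D ⊕ (Σ i, {x : (R (e i) : Subgroup G) // (x : G) ∉ D}) →
      {g : G // ∃ k : ℕ, orderOf g = p ^ k} := fun s => s.elim
    (fun x : D => ⟨x, by
      obtain ⟨k, hk⟩ := IsPGroup.iff_orderOf.1 hDp x
      exact ⟨k, (Subgroup.orderOf_coe x).trans hk⟩⟩)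
    (fun w : Σ i, {x : (R (e i) : Subgroup G) // (x : G) ∉ D} => ⟨w.2.1, by
      obtain ⟨k, hk⟩ := IsPGroup.iff_orderOf.1 (R (e w.1)).isPGroup' w.2.1
      exact ⟨k, (Subgroup.orderOf_coe w.2.1).trans hk⟩⟩)
  have hf : Function.Injective f := by
    rintro (x | ⟨i, x, hx⟩) (y | ⟨j, y, hy⟩) h
    · exact congrArg Sum.inl (Subtype.ext (show (x : G) = y by have h2 := congrArg Subtype.val h; exact h2))
    · exact absurd ((congrArg Subtype.val h : (x : G) = y) ▸ x.2) hy
    · exact absurd ((congrArg Subtype.val h : (x : G) = y).symm ▸ y.2) hx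
    · have hxy : (x : G) = y := congrArg Subtype.val h
      have hij : i = j := by
        by_contra hne
        apply hx
        rw [← heqD _ _ (fun hh => hne (e.injective (hRinj hh))) (hDS (e i)) (hDS (e j))]
        exact ⟨x.2, hxy ▸ y.2⟩
      subst hij
      exact congrArg Sum.inr (Sigma.ext rfl (heq_of_eq (Subtype.ext (Subtype.ext hxy))))
  refine le_trans ?_ (Nat.card_le_card_of_injective f hf)
  rw [Nat.card_sum, Nat.card_sigma, Finset.sum_congr rfl (fun i _ => hcardR i), Finset.sum_const,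
    Finset.card_univ, Fintype.card_fin, smul_eq_mul]
  have hDlt : D < (A : Subgroup G) := lt_of_le_of_ne inf_le_left (Ne.symm hAne)
  have hDA : p * Nat.card D ≤ m := by
    obtain ⟨a, ha⟩ := IsPGroup.iff_card.1 hDp
    obtain ⟨b, hb⟩ := IsPGroup.iff_card.1 A.isPGroup'
    have hlt : Nat.card D < Nat.card (A : Subgroup G) := by
      refine lt_of_le_of_ne (Subgroup.card_le_of_le hDlt.le) fun h => hAne ?_
      exact (Subgroup.eq_of_le_of_card_ge hDlt.le h.ge).symm
    have hmA : m = p ^ b := by rw [hm, P.card_eq_multiplicity, ← A.card_eq_multiplicity, hb]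
    rw [ha, hb] at hlt
    rw [ha, hmA, ← pow_succ']
    exact Nat.pow_le_pow_right hp.pos ((Nat.pow_lt_pow_iff_right hp.one_lt).1 hlt)
  obtain ⟨t, ht⟩ : ∃ t, m = Nat.card D + t := Nat.exists_eq_add_of_le
    (le_trans (Nat.le_mul_of_pos_left _ hp.pos) hDA)
  rw [ht] at hDA ⊢
  rw [Nat.add_sub_cancel_left]
  nlinarith

end Cfsg.Agent.S4092
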