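import Cfsg.Statements.S4093
import Mathlib

set_option autoImplicit false
open scoped BigOperators
open Cfsg
open scoped Pointwise

namespace Cfsg.Agent.S4093

/-- Let G be a finite group with a normal subgroup N complementing a Sylow p-subgroup P (a normal p-complement). Then the number of elements of G of p-power order equals the sum over x ∈ P of the index of C_N(x) in N. -/
theorem result {G : Type*} [Group G] [Finite G] (p : ℕ) [Fact p.Prime]
    (P : Sylow p G) (N : Subgroup G) [N.Normal] (hNP : N.IsComplement' (P : Subgroup G)) :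
    Nat.card {g : G // ∃ k : ℕ, orderOf g = p ^ k} =
      ∑ᶠ x : (P : Subgroup G), Nat.card N / Nat.card ↥(N ⊓ Subgroup.centralizer ({(x : G)} : Set G)) := by
  classical
  letI := Fintype.ofFinite G
  rw [finsum_eq_sum_of_fintype]
  let O : ↥(P : Subgroup G) → Set G := fun x => Set.range fun m : N => (m : G) * x * (m : G)⁻¹
  have hdec : ∀ g : G, ∃ n ∈ N, ∃ u ∈ (P : Subgroup G), g = n * u := by
    intro g
    obtain ⟨⟨n, u⟩, h, -⟩ := hNP.existsUnique g
    exact ⟨n, n.2, u, u.2, h.symm⟩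
  let f : (Σ x : ↥(P : Subgroup G), O x) → {g : G // ∃ k : ℕ, orderOf g = p ^ k} := fun z =>
    ⟨z.2.1, by
      obtain ⟨⟨x, hx⟩, ⟨g, m, rfl⟩⟩ := z
      obtain ⟨k, hk⟩ := IsPGroup.iff_orderOf.1 P.isPGroup' ⟨x, hx⟩
      refine ⟨k, ?_⟩
      show orderOf ((m : G) * x * (m : G)⁻¹) = p ^ k
      rw [← MulAut.conj_apply, MulEquiv.orderOf_eq]
      simpa [Subgroup.orderOf_mk] using hk⟩
  have hf : Function.Bijective f := by
    constructor
    · rintro ⟨x, g, m, rfl⟩ ⟨y, g', m', rfl⟩ h
      have h : (m : G) * x * (m : G)⁻¹ = (m' : G) * y * (m' : G)⁻¹ := congrArg Subtype.val h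
      have key : ∀ (m : N) (x : ↥(P : Subgroup G)),
          QuotientGroup.mk' N ((m : G) * x * (m : G)⁻¹) = QuotientGroup.mk' N x := by
        intro m x
        have : QuotientGroup.mk' N (m : G) = 1 := (QuotientGroup.eq_one_iff _).2 m.2
        rw [map_mul, map_mul, map_inv, this, one_mul, inv_one, mul_one]
      have hxy : x = y := by
        have h' : QuotientGroup.mk' N (x : G) = QuotientGroup.mk' N (y : G) := by
          rw [← key m x, ← key m' y, h]
        have hxy' : (x : G)⁻¹ * y ∈ (P : Subgroup G) := mul_mem (inv_mem x.2) y.2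
        have h'' : (x : G)⁻¹ * y ∈ N ⊓ (P : Subgroup G) := ⟨QuotientGroup.eq.1 h', hxy'⟩
        rw [hNP.disjoint.eq_bot, Subgroup.mem_bot] at h''
        exact Subtype.ext (inv_mul_eq_one.1 h'')
      subst hxy
      exact Sigma.ext rfl (heq_of_eq (Subtype.ext h))
    · rintro ⟨g, k, hk⟩
      have hz : IsPGroup p (Subgroup.zpowers g) :=
        IsPGroup.of_card (by rw [Nat.card_zpowers, hk])
      obtain ⟨Q, hQ⟩ := hz.exists_le_sylow
      obtain ⟨c, hc⟩ := MulAction.exists_smul_eq G P Q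
      obtain ⟨n, hn, u, hu, rfl⟩ := hdec c
      have hg : g ∈ ((n * u) • P : Sylow p G) := hc ▸ hQ (Subgroup.mem_zpowers g)
      have hu' : u * ((n * u)⁻¹ * g * (n * u)) * u⁻¹ ∈ (P : Subgroup G) := by
        have hg' : (n * u)⁻¹ * g * (n * u) ∈ (P : Subgroup G) := by
          have h : g ∈ MulAut.conj (n * u) • (P : Subgroup G) := hg
          rw [Subgroup.mem_pointwise_smul_iff_inv_smul_mem] at h
          simpa [MulAut.smul_def, mul_assoc] using h
        exact mul_mem (mul_mem hu hg') (inv_mem hu)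
      exact ⟨⟨⟨_, hu'⟩, g, ⟨n, hn⟩, by group⟩, rfl⟩
  rw [← Nat.card_congr (Equiv.ofBijective f hf), Nat.card_sigma]
  refine Finset.sum_congr rfl fun x _ => ?_
  let act : N →* MulAut G := MulAut.conj.comp N.subtype
  letI : MulAction N G := MulAction.compHom G act
  have hO : O x = MulAction.orbit N (x : G) := rfl
  have hs : Nat.card (MulAction.stabilizer N (x : G)) =
      Nat.card ↥(N ⊓ Subgroup.centralizer ({(x : G)} : Set G)) := by
    refine Nat.card_congr ⟨fun m => ⟨(m : N), (m : N).2, ?_⟩, fun m => ⟨⟨m.1, m.2.1⟩, ?_⟩,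
      fun _ => rfl, fun _ => rfl⟩
    · have hm : ((m : N) : G) * x * ((m : N) : G)⁻¹ = x := m.2
      exact Subgroup.mem_centralizer_singleton_iff.2 (mul_inv_eq_iff_eq_mul.1 hm)
    · show (m : G) * x * (m : G)⁻¹ = x
      exact mul_inv_eq_iff_eq_mul.2 (Subgroup.mem_centralizer_singleton_iff.1 m.2.2)
  rw [hO, ← hs]
  apply Nat.eq_div_of_mul_eq_left Nat.card_pos.ne'
  rw [← Nat.card_prod]
  exact (Nat.card_congr (MulAction.orbitProdStabilizerEquivGroup N (x : G)))

end Cfsg.Agent.S4093
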