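import Cfsg.Statements.S4097
import Cfsg.Agent.H88.CentralInSolvableOvergroups

set_option autoImplicit false
open Cfsg

namespace Cfsg.Agent.S4097

/-- Let A be a solvable subgroup of a finite group G such that A lies in the centre of every solvable subgroup of G containing A. Then A lies in the centre of G. -/
theorem result {G : Type*} [Group G] [Finite G]
    (A : Subgroup G) (hA : Group.IsSolvable A)
    (hc : ∀ S : Subgroup G, A ≤ S → Group.IsSolvable S → ∀ a ∈ A, ∀ s ∈ S, a * s = s * a) : A ≤ Subgroup.center G := by
  exact Cfsg.Agent.H88.CentralInSolvableOvergroups.le_center A hA hc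

end Cfsg.Agent.S4097
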