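import Cfsg.Statements.S4106
import Mathlib
import Cfsg.Agent.H87.PiClasses

set_option autoImplicit false
open Cfsg

namespace Cfsg.Agent.S4106

/-- Let G be a finite group, π a set of primes and m the π-part of the order of G. Then the number of conjugacy classes of G consisting of π-elements (elements whose order is divisible only by primes in π) is at most m. -/
theorem result {G : Type*} [Group G] [Finite G]
    (π : Set ℕ) (hπ : ∀ q ∈ π, q.Prime)
    (m : ℕ) (hm : m ∣ Nat.card G) (hmπ : ∀ q : ℕ, q.Prime → q ∣ m → q ∈ π)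
    (hm' : ∀ q ∈ π, ¬ q ∣ Nat.card G / m) :
    Nat.card {C : ConjClasses G // ∀ q : ℕ, q.Prime → (∃ g : G, ConjClasses.mk g = C ∧ q ∣ orderOf g) → q ∈ π} ≤ m := by
  classical
  have hm0 : m ≠ 0 := fun e => (Nat.card_pos (α := G)).ne' (Nat.eq_zero_of_zero_dvd (e ▸ hm))
  set s := m.primeFactors
  have hs : ∀ r ∈ s, r.Prime := fun r hr => Nat.prime_of_mem_primeFactors hr
  have hdiv : m * (Nat.card G / m) = Nat.card G := Nat.mul_div_cancel' hm
  have hq0 : Nat.card G / m ≠ 0 := fun e => (Nat.card_pos (α := G)).ne' (by rw [← hdiv, e, mul_zero])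
  have key : ∀ r ∈ π, (Nat.card G).factorization r = m.factorization r := by
    intro r hr
    conv_lhs => rw [← hdiv]
    rw [Nat.factorization_mul hm0 hq0, Finsupp.coe_add, Pi.add_apply,
      Nat.factorization_eq_zero_of_not_dvd (hm' r hr), add_zero]
  refine le_trans (Nat.card_le_card_of_injective (fun C =>
    (⟨C.1, fun g hg q hq hd => ?_⟩ : {C : ConjClasses G //
      ∀ g : G, ConjClasses.mk g = C → ∀ q : ℕ, q.Prime → q ∣ orderOf g → q ∈ s})) ?_) ?_
  · have hqπ := C.2 q hq ⟨g, hg, hd⟩
    refine Nat.mem_primeFactors.2 ⟨hq, ?_, hm0⟩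
    rcases (Nat.Prime.dvd_mul hq).1 (hdiv.symm ▸ (hd.trans (orderOf_dvd_natCard g)) :
      q ∣ m * (Nat.card G / m)) with h | h
    · exact h
    · exact absurd h (hm' q hqπ)
  · intro a b h
    have h' := congrArg Subtype.val h
    exact Subtype.ext h'
  · refine (Cfsg.Agent.H87.card_supported_classes_le s hs G).trans (le_of_eq ?_)
    rw [Finset.prod_congr rfl fun r hr => by
      rw [key r (hmπ r (hs r hr) (Nat.dvd_of_mem_primeFactors hr))]]
    exact Nat.prod_factorization_pow_eq_self hm0

end Cfsg.Agent.S4106
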