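import Cfsg.Statements.S4107
import Mathlib
import Cfsg.Agent.H51.Basic

set_option autoImplicit false
open Cfsg

namespace Cfsg.Agent.S4107

/-- Let G be a finite group and N a proper non-trivial normal subgroup such that for every x outside N all elements of the coset xN have the same order as x. Then N ≤ F(G) or F(G) ≤ N, where F(G) is the Fitting subgroup; and if N is properly contained in F(G) then F(G) has prime-power order. -/
theorem result {G : Type*} [Group G] [Finite G] (N : Subgroup G) [N.Normal] (hN1 : N ≠ ⊥) (hN2 : N ≠ ⊤)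
    (heq : ∀ x : G, x ∉ N → ∀ n ∈ N, orderOf (x * n) = orderOf x) :
    (N ≤ Cfsg.fittingSubgroup G ∨ Cfsg.fittingSubgroup G ≤ N) ∧
    (N < Cfsg.fittingSubgroup G → IsPrimePow (Nat.card (Cfsg.fittingSubgroup G))) := by
  set F := Cfsg.fittingSubgroup G
  have hFeq : F = ⨆ p : (Nat.card G).primeFactors, Cfsg.pCore (p : ℕ) G :=
    Cfsg.Agent.H51.fittingSubgroup_eq_iSup_pCore G
  -- if `F` is not inside `N`, it is a `p`-group
  have hprim : ¬ F ≤ N → ∃ p : ℕ, p.Prime ∧ IsPGroup p F := by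
    intro hFN
    obtain ⟨p, hp⟩ : ∃ p : (Nat.card G).primeFactors, ¬ Cfsg.pCore (p : ℕ) G ≤ N := by
      by_contra hcon
      push Not at hcon
      exact hFN (hFeq ▸ iSup_le hcon)
    haveI hpF : Fact (p : ℕ).Prime := ⟨Nat.prime_of_mem_primeFactors p.2⟩
    obtain ⟨y, hy, hyN⟩ := SetLike.not_le_iff_exists.1 hp
    have hother : ∀ q : (Nat.card G).primeFactors, q ≠ p → Cfsg.pCore (q : ℕ) G = ⊥ := by
      intro q hqp
      haveI : Fact (q : ℕ).Prime := ⟨Nat.prime_of_mem_primeFactors q.2⟩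
      have hne : (p : ℕ) ≠ q := fun e => hqp (Subtype.ext e.symm)
      have hdisj : Disjoint (Cfsg.pCore (p : ℕ) G) (Cfsg.pCore (q : ℕ) G) :=
        IsPGroup.disjoint_of_ne (p : ℕ) (q : ℕ) hne _ _ (Cfsg.Agent.H51.pCore_isPGroup _ _)
          (Cfsg.Agent.H51.pCore_isPGroup _ _)
      have aux : ∀ (r : ℕ) (w : G), w ∈ Cfsg.pCore r G → ∀ [Fact r.Prime], w ∉ N →
          Cfsg.pCore r G ⊓ N = ⊥ → ∀ n ∈ N, ∃ k : ℕ, n ^ r ^ k = 1 := by
        intro r w hw _ hwN hinf n hn
        have hc : Commute w n := Subgroup.commute_of_normal_of_disjoint _ _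
          (Cfsg.Agent.H51.pCore_normal r G) inferInstance (disjoint_iff.2 hinf) w n hw hn
        obtain ⟨k, hk⟩ := (Cfsg.Agent.H51.pCore_isPGroup r G) ⟨w, hw⟩
        have hk' : w ^ r ^ k = 1 := congrArg Subtype.val hk
        refine ⟨k, ?_⟩
        have h1 : (w * n) ^ r ^ k = 1 := orderOf_dvd_iff_pow_eq_one.1 (by
          rw [heq w hwN n hn]; exact orderOf_dvd_of_pow_eq_one hk')
        rwa [hc.mul_pow, hk', one_mul] at h1
      have hcommute : ∀ a ∈ Cfsg.pCore (p : ℕ) G, ∀ b ∈ Cfsg.pCore (q : ℕ) G, Commute a b :=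
        fun a ha b hb => Subgroup.commute_of_normal_of_disjoint _ _
          (Cfsg.Agent.H51.pCore_normal _ G) (Cfsg.Agent.H51.pCore_normal _ G) hdisj a b ha hb
      -- an element of another core inside `N` is trivial
      have hco : ∀ (a b : ℕ) [Fact a.Prime] [Fact b.Prime], a ≠ b → ∀ u ∈ Cfsg.pCore a G, u ∉ N →
          ∀ v ∈ Cfsg.pCore b G, Commute u v → v ∈ N → v = 1 := by
        intro a b ha hb hab u hu huN v hv huv hvN
        obtain ⟨i, hi⟩ := IsPGroup.iff_orderOf.1 (Cfsg.Agent.H51.pCore_isPGroup a G) ⟨u, hu⟩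
        obtain ⟨j, hj⟩ := IsPGroup.iff_orderOf.1 (Cfsg.Agent.H51.pCore_isPGroup b G) ⟨v, hv⟩
        rw [Subgroup.orderOf_mk] at hi hj
        have := huv.orderOf_mul_eq_mul_orderOf_of_coprime (by
          rw [hi, hj]; exact Nat.Coprime.pow _ _ ((Nat.coprime_primes ha.out hb.out).2 hab))
        rw [heq u huN v hvN] at this
        refine orderOf_eq_one_iff.1 (Nat.eq_of_mul_eq_mul_left (orderOf_pos u) ?_)
        rw [mul_one]; exact this.symm
      rw [Subgroup.eq_bot_iff_forall]
      intro z hz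
      by_contra hz1
      have hzN : z ∉ N := fun h => hz1 (hco p q hne y hy hyN z hz (hcommute y hy z hz) h)
      apply hN1
      rw [Subgroup.eq_bot_iff_forall]
      intro n hn
      have hp0 : Cfsg.pCore (p : ℕ) G ⊓ N = ⊥ := by
        rw [Subgroup.eq_bot_iff_forall]
        exact fun v hv => hco q p (fun e => hne e.symm) z hz hzN v hv.1 (hcommute v hv.1 z hz).symm hv.2
      have hq0 : Cfsg.pCore (q : ℕ) G ⊓ N = ⊥ := by
        rw [Subgroup.eq_bot_iff_forall]
        exact fun v hv => hco p q hne y hy hyN v hv.1 (hcommute y hy v hv.1) hv.2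
      obtain ⟨i, hi⟩ := aux p y hy hyN hp0 n hn
      obtain ⟨j, hj⟩ := aux q z hz hzN hq0 n hn
      refine orderOf_eq_one_iff.1 (Nat.eq_one_of_dvd_coprimes ?_ (orderOf_dvd_of_pow_eq_one hi)
        (orderOf_dvd_of_pow_eq_one hj))
      exact Nat.Coprime.pow _ _ ((Nat.coprime_primes hpF.out (Nat.prime_of_mem_primeFactors q.2)).2 hne)
    have hFp : F = Cfsg.pCore (p : ℕ) G := by
      rw [hFeq]
      refine le_antisymm (iSup_le fun q => ?_) (le_iSup (fun q : (Nat.card G).primeFactors => Cfsg.pCore (q : ℕ) G) p)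
      by_cases h : q = p
      · rw [h]
      · rw [hother q h]; exact bot_le
    exact ⟨p, hpF.out, hFp ▸ Cfsg.Agent.H51.pCore_isPGroup _ _⟩
  refine ⟨?_, ?_⟩
  · by_contra hcon
    push Not at hcon
    obtain ⟨hNF, hFN⟩ := hcon
    obtain ⟨p, hp, hFp⟩ := hprim hFN
    haveI := Fact.mk hp
    obtain ⟨y, hy, hyN⟩ := SetLike.not_le_iff_exists.1 hFN
    apply hNF
    haveI hFn : F.Normal := Subgroup.sSup_normal _ fun _ h => h.1
    have hNp : IsPGroup p N := by
      rintro ⟨n, hn⟩
      set D := F ⊓ N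
      set π := QuotientGroup.mk' D
      have hcomm : Commute (π y) (π n) := by
        show π y * π n = π n * π y
        rw [← map_mul, ← map_mul, QuotientGroup.mk'_eq_mk']
        refine ⟨(y * n)⁻¹ * (n * y), ⟨?_, ?_⟩, by group⟩
        · have := mul_mem (hFn.conj_mem _ (inv_mem hy) n⁻¹) hy
          simpa [mul_assoc] using this
        · have := mul_mem (inv_mem hn) ((‹N.Normal›).conj_mem n hn y⁻¹)
          simpa [mul_assoc] using this
      obtain ⟨k, hk⟩ := hFp ⟨y, hy⟩
      have hk' : y ^ p ^ k = 1 := congrArg Subtype.val hk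
      have h1 : (y * n) ^ p ^ k = 1 := orderOf_dvd_iff_pow_eq_one.1 (by
        rw [heq y hyN n hn]; exact orderOf_dvd_of_pow_eq_one hk')
      have h2 : π n ^ p ^ k = 1 := by
        have := congrArg π h1
        rw [map_pow, map_mul, hcomm.mul_pow, ← map_pow π y, hk', map_one, one_mul] at this
        exact this
      rw [← map_pow, QuotientGroup.mk'_apply, QuotientGroup.eq_one_iff] at h2
      obtain ⟨l, hl⟩ := (hFp.to_le inf_le_left) ⟨_, h2⟩
      refine ⟨k + l, Subtype.ext ?_⟩
      rw [pow_add, pow_mul]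
      have := congrArg Subtype.val hl
      simpa using this
    haveI := hNp.isNilpotent
    exact le_sSup ⟨inferInstance, inferInstance⟩
  · intro hlt
    obtain ⟨p, hp, hFp⟩ := hprim hlt.not_ge
    haveI := Fact.mk hp
    obtain ⟨k, hk⟩ := IsPGroup.iff_card.1 hFp
    rw [hk]
    refine IsPrimePow.pow hp.isPrimePow ?_
    rintro rfl
    rw [pow_zero] at hk
    exact hlt.not_ge ((Subgroup.eq_bot_of_card_eq _ hk).symm ▸ bot_le)

end Cfsg.Agent.S4107
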