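import Cfsg.Statements.S4108
import Cfsg.Agent.H87.Frobenius

set_option autoImplicit false
open Cfsg

namespace Cfsg.Agent.S4108

/-- Let G be a finite group, p a prime and N a proper non-trivial normal p-subgroup such that for every x outside N all elements of the coset xN have the same order as x. Then every non-trivial subgroup H of G of order prime to p acts fixed-point-freely on N: NH is a Frobenius group with complement H and kernel N. -/
theorem result {G : Type*} [Group G] [Finite G] (N : Subgroup G) [N.Normal] (hN1 : N ≠ ⊥) (hN2 : N ≠ ⊤)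
    (heq : ∀ x : G, x ∉ N → ∀ n ∈ N, orderOf (x * n) = orderOf x)
    (p : ℕ) [Fact p.Prime] (hNp : IsPGroup p N) :
    ∀ H : Subgroup G, H ≠ ⊥ → (Nat.card H).Coprime p →
      Cfsg.IsFrobeniusComplement (H.subgroupOf (N ⊔ H)) ∧ Cfsg.frobeniusKernel (H.subgroupOf (N ⊔ H)) = (N.subgroupOf (N ⊔ H) : Set ↥(N ⊔ H)) := by
  intro H hH hcop
  have hdisj : N ⊓ H = ⊥ := by
    apply Subgroup.inf_eq_bot_of_coprime
    obtain ⟨k, hk⟩ := IsPGroup.iff_card.1 hNp
    rw [hk]
    exact Nat.Coprime.pow_left _ hcop.symm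
  have hfpf : ∀ h ∈ H, h ≠ 1 → ∀ n ∈ N, h * n = n * h → n = 1 := by
    intro h hh h1 n hn hcomm
    have hhN : h ∉ N := fun hx => h1 (by
      have : h ∈ N ⊓ H := ⟨hx, hh⟩
      rwa [hdisj, Subgroup.mem_bot] at this)
    obtain ⟨k, hk⟩ := IsPGroup.iff_orderOf.1 hNp ⟨n, hn⟩
    have hco : (orderOf h).Coprime (orderOf n) := by
      rw [← Subgroup.orderOf_mk n hn, hk]
      exact Nat.Coprime.pow_right _
        (Nat.Coprime.coprime_dvd_left (by
          rw [← Subgroup.orderOf_mk h hh]; exact orderOf_dvd_natCard _) hcop)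
    have h2 := Commute.orderOf_mul_eq_mul_orderOf_of_coprime (show Commute h n from hcomm) hco
    rw [heq h hhN n hn] at h2
    have : orderOf h * orderOf n = orderOf h * 1 := by rw [mul_one]; exact h2.symm
    exact orderOf_eq_one_iff.1 (Nat.eq_of_mul_eq_mul_left (orderOf_pos h) this)
  haveI : (N.subgroupOf (N ⊔ H)).Normal := inferInstance
  refine Cfsg.Agent.H87.frobenius_of_fixed_point_free (N.subgroupOf (N ⊔ H)) (H.subgroupOf (N ⊔ H))
    ?_ ?_ ?_ ?_ ?_
  · intro h
    rw [Subgroup.subgroupOf_eq_bot] at h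
    exact hN1 (disjoint_self.1 (h.mono_right le_sup_left))
  · intro h
    rw [Subgroup.subgroupOf_eq_bot] at h
    exact hH (disjoint_self.1 (h.mono_right le_sup_right))
  · show (N ⊓ H).comap _ = ⊥
    rw [hdisj]
    rw [MonoidHom.comap_bot]; exact Subgroup.ker_subtype _
  · rw [← Subgroup.subgroupOf_sup le_sup_left le_sup_right, Subgroup.subgroupOf_self]
  · intro h hh h1 n hn hc
    apply Subtype.ext
    exact hfpf h hh (fun e => h1 (Subtype.ext e)) n hn (congrArg Subtype.val hc)

end Cfsg.Agent.S4108
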