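import Cfsg.Statements.S4112
import Mathlib
import Cfsg.Agent.H24.PGroupBasic

set_option autoImplicit false
open Cfsg

namespace Cfsg.Agent.S4112

/-- Let G be a finite group and M ≤ N non-trivial proper normal subgroups such that for every g outside N the conjugacy class of g is a union of cosets of M (equivalently gm is conjugate to g for every m ∈ M). Then (1) and (2) below are equivalent, and they imply (3): (1) every g outside N acts fixed-point-freely on M, that is C_G(x) ≤ N for every x ∈ M, x ≠ 1; (2) the index of N in G is coprime to the order of M; (3) there is a subgroup H of G with HN = G and H ∩ M = 1. -/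
theorem result {G : Type*} [Group G] [Finite G] (N M : Subgroup G) [N.Normal] [M.Normal] (hMN : M ≤ N) (hM1 : M ≠ ⊥) (hN2 : N ≠ ⊤)
    (hcam : ∀ g : G, g ∉ N → ∀ m ∈ M, ∃ x : G, x * g * x⁻¹ = g * m) :
    ((∀ x ∈ M, x ≠ 1 → Subgroup.centralizer ({x} : Set G) ≤ N) ↔ N.index.Coprime (Nat.card M)) ∧
    ((∀ x ∈ M, x ≠ 1 → Subgroup.centralizer ({x} : Set G) ≤ N) → ∃ H : Subgroup G, H ⊔ N = ⊤ ∧ H ⊓ M = ⊥) := by
  classical
  have h12 : (∀ x ∈ M, x ≠ 1 → Subgroup.centralizer ({x} : Set G) ≤ N) → N.index.Coprime (Nat.card M) := by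
    intro hfpf
    refine Nat.coprime_of_dvd fun p hp hpN hpM => ?_
    haveI := Fact.mk hp
    obtain ⟨x₀, hx₀⟩ := exists_prime_orderOf_dvd_card' (G := M) p hpM
    have hx₀' : orderOf (x₀ : G) = p := (Subgroup.orderOf_coe x₀).trans hx₀
    obtain ⟨P, hP⟩ := (show IsPGroup p (Subgroup.zpowers (x₀ : G)) from
      IsPGroup.of_card (n := 1) (by rw [Nat.card_zpowers, hx₀', pow_one])).exists_le_sylow
    have hx₀P : (x₀ : G) ∈ (P : Subgroup G) := hP (Subgroup.mem_zpowers _)
    haveI : (M.subgroupOf (P : Subgroup G)).Normal := (inferInstance : M.Normal).comap _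
    haveI : Nontrivial (M.subgroupOf (P : Subgroup G)) := by
      rw [Subgroup.nontrivial_iff_exists_ne_one]
      refine ⟨⟨x₀, hx₀P⟩, x₀.2, fun h => hp.ne_one ?_⟩
      rw [← hx₀', show (x₀ : G) = 1 from congrArg Subtype.val h, orderOf_one]
    haveI : Group.IsNilpotent (P : Subgroup G) := P.isPGroup'.isNilpotent
    have hne : M.subgroupOf (P : Subgroup G) ⊓ Subgroup.center (P : Subgroup G) ≠ ⊥ :=
      Cfsg.Agent.H24.inf_center_ne_bot P.isPGroup' ((Subgroup.nontrivial_iff_ne_bot _).1 inferInstance)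
    obtain ⟨z, hz, hz1⟩ := (Subgroup.bot_or_exists_ne_one _).resolve_left hne
    have hPN : (P : Subgroup G) ≤ N := fun u hu => hfpf z hz.1 (fun e => hz1 (Subtype.ext e))
      (Subgroup.mem_centralizer_singleton_iff.2
        (congrArg Subtype.val (Subgroup.mem_center_iff.1 hz.2 ⟨u, hu⟩)))
    exact P.not_dvd_index (hpN.trans (Subgroup.index_dvd_of_le hPN))
  have h21 : N.index.Coprime (Nat.card M) → ∀ x ∈ M, x ≠ 1 → Subgroup.centralizer ({x} : Set G) ≤ N := by
    intro hco x hxM hx1 g hg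
    by_contra hgN
    have hr1 : orderOf (QuotientGroup.mk g : G ⧸ N) ≠ 1 := fun h =>
      hgN ((QuotientGroup.eq_one_iff g).1 (orderOf_eq_one_iff.1 h))
    obtain ⟨q, hq, hqr⟩ := Nat.exists_prime_and_dvd hr1
    have hqn : q ∣ orderOf g := hqr.trans (orderOf_map_dvd (QuotientGroup.mk' N) g)
    set n := orderOf g with hn
    have hn0 : n ≠ 0 := (orderOf_pos g).ne'
    set k := n / q ^ n.factorization q with hk
    have hk0 : k ≠ 0 := (Nat.ordCompl_pos q hn0).ne'
    have hgk : g ^ k ∉ N := by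
      intro h
      rw [← QuotientGroup.eq_one_iff, QuotientGroup.mk_pow, ← orderOf_dvd_iff_pow_eq_one] at h
      exact Nat.not_dvd_ordCompl hq hn0 (hqr.trans h)
    have hord : orderOf (g ^ k) = q ^ n.factorization q := by
      rw [orderOf_pow_of_dvd hk0 (Nat.ordCompl_dvd n q), ← hn, hk, Nat.div_div_self (Nat.ordProj_dvd n q) hn0]
    have hqM : ¬ q ∣ Nat.card M := fun h => hq.not_dvd_one
      (hco ▸ Nat.dvd_gcd (hqr.trans (orderOf_dvd_natCard _)) h)
    obtain ⟨y, hy⟩ := hcam _ hgk x hxM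
    have hc : Commute (g ^ k) x := (Commute.pow_left (Subgroup.mem_centralizer_singleton_iff.1 hg) k)
    have hxo : orderOf x ∣ Nat.card M := by
      rw [← Subgroup.orderOf_mk x hxM]; exact orderOf_dvd_natCard _
    have hcop : (orderOf (g ^ k)).Coprime (orderOf x) := by
      rw [hord]
      exact Nat.Coprime.pow_left _ ((Nat.Prime.coprime_iff_not_dvd hq).2 fun h => hqM (h.trans hxo))
    have h1 := hc.orderOf_mul_eq_mul_orderOf_of_coprime hcop
    rw [← hy, show y * g ^ k * y⁻¹ = MulAut.conj y (g ^ k) from rfl, MulEquiv.orderOf_eq] at h1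
    exact hx1 (orderOf_eq_one_iff.1
      ((Nat.mul_eq_left (orderOf_pos (g ^ k)).ne').1 h1.symm))
  refine ⟨⟨h12, h21⟩, fun hfpf => ?_⟩
  have hco := h12 hfpf
  obtain ⟨H, -, hH⟩ := exists_minimal_le_of_wellFoundedLT (fun H : Subgroup G => H ⊔ N = ⊤) ⊤ (by simp)
  refine ⟨H, hH.1, ?_⟩
  by_contra hne
  have hcard : Nat.card ↥(H ⊓ M) ≠ 1 := fun h => hne (Subgroup.card_eq_one.1 h)
  obtain ⟨q, hq, hqd⟩ := Nat.exists_prime_and_dvd hcard
  haveI := Fact.mk hq
  have hqI : ¬ q ∣ N.index := fun h => hq.not_dvd_one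
    (hco ▸ Nat.dvd_gcd h (hqd.trans (Subgroup.card_dvd_of_le inf_le_right)))
  obtain ⟨Q⟩ : Nonempty (Sylow q H) := inferInstance
  set N' := N.subgroupOf H with hN'
  haveI : N'.Normal := (inferInstance : N.Normal).comap _
  have hQN : (Q : Subgroup H) ≤ N' := by
    intro u hu
    obtain ⟨j, hj⟩ := IsPGroup.iff_orderOf.1 Q.isPGroup' ⟨u, hu⟩
    have h1 : orderOf (QuotientGroup.mk (u : G) : G ⧸ N) ∣ q ^ j := by
      rw [← hj, Subgroup.orderOf_mk, ← Subgroup.orderOf_coe u]
      exact orderOf_map_dvd (QuotientGroup.mk' N) (u : G)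
    have h2 : orderOf (QuotientGroup.mk (u : G) : G ⧸ N) ∣ N.index := orderOf_dvd_natCard _
    have h3 := Nat.dvd_gcd h1 h2
    rw [((Nat.Prime.coprime_iff_not_dvd hq).2 hqI).pow_left j, Nat.dvd_one, orderOf_eq_one_iff] at h3
    exact (QuotientGroup.eq_one_iff (u : G)).1 h3
  have hsupN : ∀ L : Subgroup H, L ⊔ N' = ⊤ → L = ⊤ := by
    intro L hL
    have h1 : L.map H.subtype ⊔ N = ⊤ := by
      refine top_le_iff.1 (hH.1 ▸ sup_le ?_ le_sup_right)
      calc H = (⊤ : Subgroup H).map H.subtype := by rw [← MonoidHom.range_eq_map, Subgroup.range_subtype]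
        _ = L.map H.subtype ⊔ N'.map H.subtype := by rw [← hL, Subgroup.map_sup]
        _ ≤ _ := sup_le_sup_left (by rw [Subgroup.map_le_iff_le_comap]; exact le_rfl) _
    have h2 : H ≤ L.map H.subtype := hH.2 h1 (Subgroup.map_subtype_le L)
    exact top_le_iff.1 fun u _ => by
      obtain ⟨v, hv, e⟩ := h2 u.2
      exact Subtype.ext e ▸ hv
  haveI hQn : (Q : Subgroup H).Normal := by
    rw [← Subgroup.normalizer_eq_top_iff]
    refine hsupN _ ?_
    have := Sylow.normalizer_sup_eq_top (Q.subtype hQN)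
    rwa [Sylow.coe_subtype, Subgroup.map_subgroupOf_eq_of_le hQN] at this
  obtain ⟨L, hL⟩ := Subgroup.exists_right_complement'_of_coprime (N := (Q : Subgroup H)) Q.card_coprime_index
  have hLt : L = ⊤ := hsupN L (top_le_iff.1 (hL.sup_eq_top ▸ sup_le (le_sup_of_le_right hQN) le_sup_left))
  have hQ1 : Nat.card (Q : Subgroup H) = 1 := by
    have h := hL.card_mul_card
    rw [hLt, Subgroup.card_top] at h
    exact Nat.eq_of_mul_eq_mul_right Nat.card_pos (h.trans (one_mul _).symm)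
  have hQb : q ∣ Nat.card (Q : Subgroup H) :=
    Q.dvd_card_of_dvd_card (hqd.trans (Subgroup.card_dvd_of_le inf_le_left))
  rw [hQ1, Nat.dvd_one] at hQb
  exact hq.ne_one hQb

end Cfsg.Agent.S4112
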