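import Cfsg.Statements.S4116
import Mathlib
import Cfsg.Agent.H21.FrobeniusTheorem

set_option autoImplicit false
open Cfsg
open scoped Pointwise

namespace Cfsg.Agent.S4116

/-- Let G be a finite group with a subgroup H whose order is coprime to its index (a Hall subgroup) and which meets each of its conjugates by elements outside N_G(H) trivially. Then every subgroup of G whose order is divisible only by primes dividing the order of H lies in a conjugate of H. -/
theorem result {G : Type*} [Group G] [Finite G] (H : Subgroup G)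
    (hHall : (Nat.card H).Coprime H.index) (hTI : Cfsg.IsTISubset (H : Set G))
    (K : Subgroup G) (hK : ∀ q : ℕ, q.Prime → q ∣ Nat.card K → q ∣ Nat.card H) :
    ∃ g : G, K ≤ H.map (MulAut.conj g).toMonoidHom := by
  classical
  induction hn : Nat.card K using Nat.strong_induction_on generalizing K with
  | _ n ih =>
  have hmem : ∀ (c x : G) (L : Subgroup G), x ∈ L.map (MulAut.conj c).toMonoidHom ↔ c⁻¹ * x * c ∈ L := by
    intro c x L
    rw [Subgroup.mem_map_equiv, MulAut.conj_symm_apply]
  by_cases hK1 : K = ⊥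
  · exact ⟨1, hK1 ▸ bot_le⟩
  have hcard : ∀ g : G, Nat.card (H.map (MulAut.conj g).toMonoidHom) = Nat.card H := fun g =>
    Subgroup.card_map_of_injective (MulAut.conj g).injective
  -- π-elements normalising a conjugate lie in it
  have hnorm : ∀ (g : G), ∀ x ∈ K, x ∈ Subgroup.normalizer ((H.map (MulAut.conj g).toMonoidHom) : Set G) →
      x ∈ H.map (MulAut.conj g).toMonoidHom := by
    intro g x hxK hxN
    set H' := H.map (MulAut.conj g).toMonoidHom
    set N := Subgroup.normalizer (H' : Set G)
    haveI : (H'.subgroupOf N).Normal := Subgroup.normal_in_normalizer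
    have h1 : orderOf (QuotientGroup.mk' (H'.subgroupOf N) ⟨x, hxN⟩) ∣ Nat.card K :=
      (orderOf_map_dvd _ _).trans (by
        rw [Subgroup.orderOf_mk, ← Subgroup.orderOf_mk x hxK]; exact orderOf_dvd_natCard _)
    have h2 : orderOf (QuotientGroup.mk' (H'.subgroupOf N) ⟨x, hxN⟩) ∣ H.index := by
      refine (orderOf_dvd_natCard _).trans ?_
      have he : H'.index = H.index := Subgroup.index_map_equiv H (MulAut.conj g)
      rw [← he]
      show (H'.subgroupOf N).index ∣ H'.index
      exact Subgroup.relIndex_dvd_index_of_le Subgroup.le_normalizer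
    have h3 := Nat.eq_one_of_dvd_coprimes (a := Nat.card K) (b := H.index)
      (Nat.coprime_of_dvd fun q hq ha hb => hq.not_dvd_one (hHall ▸ Nat.dvd_gcd (hK q hq ha) hb)) h1 h2
    rw [orderOf_eq_one_iff, QuotientGroup.mk'_apply, QuotientGroup.eq_one_iff, Subgroup.mem_subgroupOf] at h3
    exact h3
  -- some conjugate meets `K`
  obtain ⟨q, hq, hqd⟩ := Nat.exists_prime_and_dvd (fun h => hK1 (Subgroup.card_eq_one.1 h) : Nat.card K ≠ 1)
  haveI := Fact.mk hq
  obtain ⟨u, hu⟩ := exists_prime_orderOf_dvd_card' (G := K) q hqd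
  obtain ⟨Q⟩ : Nonempty (Sylow q H) := inferInstance
  have hQp : IsPGroup q ((Q : Subgroup H).map H.subtype) := Q.isPGroup'.map _
  have hQi : ¬ q ∣ ((Q : Subgroup H).map H.subtype).index := by
    rw [Subgroup.index_map_subtype]
    intro h
    rcases hq.dvd_mul.1 h with h | h
    · exact Q.not_dvd_index h
    · exact hq.not_dvd_one (hHall ▸ Nat.dvd_gcd (hK q hq hqd) h)
  obtain ⟨R, hR⟩ := (show IsPGroup q (Subgroup.zpowers (u : G)) from
    IsPGroup.of_card (n := 1) (by rw [Nat.card_zpowers, Subgroup.orderOf_coe, hu, pow_one])).exists_le_sylow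
  obtain ⟨g, hg⟩ := MulAction.exists_smul_eq G (hQp.toSylow hQi) R
  set H' := H.map (MulAut.conj g).toMonoidHom with hH'
  have huH : (u : G) ∈ H' := by
    have h : (u : G) ∈ (R : Subgroup G) := hR (Subgroup.mem_zpowers _)
    rw [← hg] at h
    have h' : (u : G) ∈ MulAut.conj g • ((Q : Subgroup H).map H.subtype) := h
    rw [Subgroup.mem_pointwise_smul_iff_inv_smul_mem] at h'
    rw [hH', hmem]
    simpa [MulAut.smul_def] using Subgroup.map_subtype_le _ h'
  by_cases hle : K ≤ H'
  · exact ⟨g, hle⟩
  set L := H'.subgroupOf K with hL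
  have hLne : L ≠ ⊥ := fun h => by
    have h1 : u ∈ L := huH
    rw [h, Subgroup.mem_bot] at h1
    rw [h1, orderOf_one] at hu
    exact hq.ne_one hu.symm
  have hfc : Cfsg.IsFrobeniusComplement L := by
    refine ⟨hLne, fun h => hle (Subgroup.subgroupOf_eq_top.1 h), fun a ha => ?_⟩
    rw [eq_bot_iff]
    rintro y ⟨hy1, hy2⟩
    replace hy2 : y ∈ MulAut.conj a • L := hy2
    rw [Subgroup.mem_pointwise_smul_iff_inv_smul_mem] at hy2
    have hy1 : (y : G) ∈ H' := hy1
    have hy2 : (a : G)⁻¹ * y * a ∈ H' := by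
      have h : ((MulAut.conj a)⁻¹ • y : K) ∈ L := hy2
      simpa [hL, MulAut.smul_def, Subgroup.mem_subgroupOf] using h
    rw [Subgroup.mem_bot]
    by_contra hy
    rw [hH', hmem] at hy1 hy2
    have hna : (a : G) ∈ Subgroup.normalizer (H' : Set G) := by
      by_contra hN
      apply hy
      have hc : g⁻¹ * (a : G)⁻¹ * g ∉ Subgroup.normalizer (H : Set G) := by
        intro hc
        apply hN
        have hc' := inv_mem hc
        rw [Subgroup.mem_normalizer_iff] at hc' ⊢
        intro z
        simp only [hH', hmem]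
        convert hc' (g⁻¹ * z * g) using 2
        group
      have := hTI _ hc _ hy1 (by show _ ∈ H; convert hy2 using 1; group)
      apply Subtype.ext
      calc (y : G) = g * (g⁻¹ * y * g) * g⁻¹ := by group
        _ = 1 := by rw [this]; group
    exact ha (hnorm g a a.2 hna)
  obtain ⟨M, -, hMn, hMc⟩ := Cfsg.Agent.H21.exists_kernel hfc
  have hMcard := hMc.card_mul_card
  have hLgt : 1 < Nat.card L := (Finite.one_lt_card_iff_nontrivial).2
    ((Subgroup.nontrivial_iff_ne_bot L).2 hLne)
  set M' := M.map K.subtype with hM'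
  have hM'c : Nat.card M' = Nat.card M := Subgroup.card_map_of_injective K.subtype_injective
  have hlt : Nat.card M' < n := by
    rw [hM'c, ← hn, ← hMcard]
    exact lt_mul_of_one_lt_right Nat.card_pos hLgt
  obtain ⟨x, hx⟩ := ih _ hlt M' (fun r hr h => hK r hr (h.trans
    (hM'c ▸ Subgroup.card_subgroup_dvd_card M))) rfl
  have hMne : M ≠ ⊥ := fun h => hfc.2.1 (by
    rw [h, Subgroup.card_bot, one_mul] at hMcard
    exact Subgroup.eq_top_of_card_eq L hMcard)
  obtain ⟨m, hm, hm1⟩ := (Subgroup.bot_or_exists_ne_one _).resolve_left hMne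
  refine ⟨x, fun a ha => hnorm x a ha ?_⟩
  have hma : (a : G) * m * a⁻¹ ∈ M' := ⟨_, hMn.conj_mem m hm ⟨a, ha⟩, rfl⟩
  have hmx : (m : G) ∈ M' := ⟨m, hm, rfl⟩
  have e1 := (hmem x _ H).1 (hx hmx)
  have e2 := (hmem x _ H).1 (hx hma)
  have hn2 : x⁻¹ * a * x ∈ Subgroup.normalizer (H : Set G) := by
    by_contra hN
    have := hTI _ hN _ e1 (by show _ ∈ H; convert e2 using 1; group)
    apply hm1
    apply Subtype.ext
    calc (m : G) = x * (x⁻¹ * m * x) * x⁻¹ := by group
      _ = 1 := by rw [this]; group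
  rw [Subgroup.mem_normalizer_iff] at hn2 ⊢
  intro z
  simp only [hmem]
  convert hn2 (x⁻¹ * z * x) using 2
  group

end Cfsg.Agent.S4116
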