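import Cfsg.Statements.S4115
import Cfsg.Agent.H61.TIHallComplement
import Cfsg.Agent.S0877
import Cfsg.Agent.S4116

set_option autoImplicit false
universe u
open Cfsg Cfsg.Agent

namespace Cfsg.Agent.S4115

/-- Let G be a finite group and H a subgroup that meets each of its conjugates by elements outside N_G(H) trivially and whose order is coprime to its index in N_G(H). Then H has a normal complement in N_G(H) if and only if H has a normal complement in G. Moreover, if H is not normal in G and has a normal complement in N_G(H), then H is isomorphic to a Frobenius complement of some finite Frobenius group. -/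
theorem result {G : Type u} [Group G] [Finite G] (H : Subgroup G)
    (hTI : Cfsg.IsTISubset (H : Set G)) (hHall : (Nat.card H).Coprime (H.subgroupOf (Subgroup.normalizer (H : Set G))).index) :
    ((∃ K : Subgroup (Subgroup.normalizer (H : Set G)), K.Normal ∧ K.IsComplement' (H.subgroupOf (Subgroup.normalizer (H : Set G)))) ↔
      (∃ N : Subgroup G, N.Normal ∧ N.IsComplement' H)) ∧
    (¬ H.Normal → (∃ K : Subgroup (Subgroup.normalizer (H : Set G)), K.Normal ∧ K.IsComplement' (H.subgroupOf (Subgroup.normalizer (H : Set G)))) →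
      ∃ (F : Type u) (_ : Group F) (_ : Finite F) (C : Subgroup F), Cfsg.IsFrobeniusComplement C ∧ Nonempty (H ≃* C)) := by
  classical
  set N := Subgroup.normalizer (H : Set G) with hN
  have hHN : H ≤ N := Subgroup.le_normalizer
  haveI hHn' : (H.subgroupOf N).Normal := Subgroup.normal_in_normalizer
  -- restriction of a complement
  have hdown : ∀ M : Subgroup G, M.Normal → M.IsComplement' H →
      (M.subgroupOf N).Normal ∧ (M.subgroupOf N).IsComplement' (H.subgroupOf N) := by
    intro M hMn hM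
    haveI := hMn
    refine ⟨inferInstance, ?_⟩
    refine Subgroup.isComplement'_of_disjoint_and_mul_eq_univ ?_ ?_
    · rw [Subgroup.disjoint_def]
      intro x hx hx'
      exact Subtype.ext (Subgroup.disjoint_def.1 hM.disjoint hx hx')
    · refine Set.eq_univ_of_forall fun n => ?_
      obtain ⟨⟨m, h⟩, hmh⟩ := hM.2 (n : G)
      have hmh' : (m : G) * (h : G) = n := hmh
      have hmN : (m : G) ∈ N := by
        have : (m : G) = (n : G) * (h : G)⁻¹ := by rw [← hmh']; group
        rw [this]; exact mul_mem n.2 (inv_mem (hHN h.2))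
      exact ⟨⟨m, hmN⟩, m.2, ⟨h, hHN h.2⟩, h.2, Subtype.ext hmh'⟩
  rcases eq_or_ne H ⊥ with rfl | hHne
  · refine ⟨iff_of_true ⟨⊤, inferInstance, ?_⟩ ⟨⊤, inferInstance, Subgroup.isComplement'_top_bot⟩,
      fun h => absurd (inferInstance : (⊥ : Subgroup G).Normal) h⟩
    rw [Subgroup.bot_subgroupOf]
    exact Subgroup.isComplement'_top_bot
  have hHc : 1 < Nat.card H := Finite.one_lt_card_iff_nontrivial.2 ((Subgroup.nontrivial_iff_ne_bot H).2 hHne)
  have hTI' : ∀ g x : G, x ∈ H → x ≠ 1 → g * x * g⁻¹ ∈ H → g ∈ N := fun g x hx hx1 hgx =>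
    by_contra fun hg => hx1 (hTI g hg x hx hgx)
  -- `H` is a Hall subgroup of `G`
  have hHall' : (Nat.card H).Coprime H.index := by
    refine Nat.coprime_of_dvd fun r hr hrH hri => ?_
    haveI := Fact.mk hr
    obtain ⟨R⟩ : Nonempty (Sylow r H) := inferInstance
    set R' := (R : Subgroup H).map H.subtype with hR'
    have hRp : IsPGroup r R' := R.isPGroup'.map _
    have hRH : R' ≤ H := Subgroup.map_subtype_le _
    obtain ⟨P, hRP⟩ := hRp.exists_le_sylow
    have hne : R' ≠ P := by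
      intro e
      refine P.not_dvd_index ?_
      rw [← e]
      exact hri.trans (Subgroup.index_dvd_of_le hRH)
    have hlt : R'.subgroupOf (P : Subgroup G) < ⊤ := lt_of_le_of_ne le_top fun h =>
      hne (le_antisymm hRP (Subgroup.subgroupOf_eq_top.1 h))
    haveI := P.isPGroup'.isNilpotent
    obtain ⟨g, hg, hgR⟩ := SetLike.exists_of_lt (Group.normalizerCondition_of_isNilpotent _ hlt)
    have hR1 : R' ≠ ⊥ := by
      rw [hR', Ne, Subgroup.map_eq_bot_iff_of_injective _ H.subtype_injective]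
      exact R.ne_bot_of_dvd_card hrH
    obtain ⟨⟨x, hx⟩, hx1⟩ := Subgroup.ne_bot_iff_exists_ne_one.1 hR1
    have hgx : (g : G) * x * (g : G)⁻¹ ∈ R' :=
      (Subgroup.mem_normalizer_iff.1 hg ⟨x, hRP hx⟩).1 hx
    have hgN : (g : G) ∈ N := hTI' g x (hRH hx) (fun e => hx1 (Subtype.ext e)) (hRH hgx)
    -- the image of `g` in `N / H` is trivial
    have h1 : QuotientGroup.mk' (H.subgroupOf N) ⟨g, hgN⟩ = 1 := by
      rw [← orderOf_eq_one_iff]
      obtain ⟨k, hk⟩ := P.isPGroup' g
      have h2 : orderOf (QuotientGroup.mk' (H.subgroupOf N) ⟨g, hgN⟩) ∣ r ^ k := by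
        refine (orderOf_map_dvd _ _).trans ?_
        rw [Subgroup.orderOf_mk]
        exact orderOf_dvd_of_pow_eq_one (by simpa using congrArg Subtype.val hk)
      refine Nat.eq_one_of_dvd_coprimes ?_ h2 (orderOf_dvd_natCard _)
      exact Nat.Coprime.pow_left _ ((hHall.coprime_dvd_left hrH))
    have hgH : (g : G) ∈ H := (QuotientGroup.eq_one_iff (⟨g, hgN⟩ : N)).1 h1
    have hQ : R = (H : Subgroup G).subgroupOf H ⊓ (P : Subgroup G).subgroupOf H := by
      refine (R.3 (P.isPGroup'.comap_of_injective H.subtype H.subtype_injective |>.to_le inf_le_right) ?_).symm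
      intro z hz
      exact ⟨z.2, hRP (Subgroup.mem_map_of_mem _ hz)⟩
    refine hgR ?_
    refine ⟨⟨g, hgH⟩, ?_, rfl⟩
    rw [SetLike.mem_coe, hQ]
    exact ⟨hgH, g.2⟩
  have hup : (∃ K : Subgroup N, K.Normal ∧ K.IsComplement' (H.subgroupOf N)) →
      ∃ M : Subgroup G, M.Normal ∧ M.IsComplement' H := by
    rintro ⟨K, hKn, hK⟩
    haveI := hKn
    obtain ⟨M, hMn, hsup, hinf⟩ := S0877.result H hHall' (by
      intro x hx y hy hxy
      by_cases hx1 : x = 1
      · subst hx1
        refine ⟨1, H.one_mem, ?_⟩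
        obtain ⟨c, hc⟩ := isConj_iff.1 hxy
        rw [← hc]; group
      obtain ⟨g, hg⟩ := isConj_iff.1 hxy
      have hgN : g ∈ N := hTI' g x hx hx1 (hg ▸ hy)
      obtain ⟨⟨k, h⟩, hkh⟩ := hK.2 ⟨g, hgN⟩
      refine ⟨(h : N), h.2, ?_⟩
      have hkh' : (k : G) * ((h : N) : G) = g := congrArg Subtype.val hkh
      set z : G := ((h : N) : G) * x * ((h : N) : G)⁻¹
      have hz : z ∈ H := mul_mem (mul_mem h.2 hx) (inv_mem h.2)
      have hc := Subgroup.commute_of_normal_of_disjoint K (H.subgroupOf N) hKn hHn' hK.disjoint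
        (k : N) ⟨z, hHN hz⟩ k.2 hz
      have hc' : ((k : N) : G) * z = z * ((k : N) : G) := congrArg Subtype.val hc.eq
      rw [← hg, ← hkh']
      calc z = z * ((k : N) : G) * ((k : N) : G)⁻¹ := by group
        _ = ((k : N) : G) * z * ((k : N) : G)⁻¹ := by rw [hc']
        _ = _ := by simp only [z]; group) (by
      intro E p _ _ hE
      obtain ⟨g, hg⟩ := S4116.result H hHall' hTI E (fun q _ hq => hq.trans hE)
      refine ⟨g⁻¹, ?_⟩
      rw [Subgroup.map_le_iff_le_comap]
      intro x hx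
      obtain ⟨y, hy, rfl⟩ := hg hx
      simpa [mul_assoc] using hy)
    haveI := hMn
    refine ⟨M, hMn, Subgroup.isComplement'_of_disjoint_and_mul_eq_univ (disjoint_iff.2 hinf) ?_⟩
    rw [← Subgroup.normal_mul, hsup]
    rfl
  refine ⟨⟨hup, fun ⟨M, hMn, hM⟩ => ⟨_, hdown M hMn hM⟩⟩, fun hHnn hex => ?_⟩
  obtain ⟨M, hMn, hM⟩ := hup hex
  haveI := hMn
  obtain ⟨hM'n, hM'⟩ := hdown M hMn hM
  have hcomm : ∀ k ∈ M ⊓ N, ∀ h ∈ H, h * k = k * h := by
    intro k hk h hh
    have := Subgroup.commute_of_normal_of_disjoint (M.subgroupOf N) (H.subgroupOf N) hM'n hHn'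
      hM'.disjoint ⟨k, hk.2⟩ ⟨h, hHN hh⟩ hk.1 hh
    exact (congrArg Subtype.val this.eq).symm
  have hfix : ∀ k ∈ M, ∀ h ∈ H, h ≠ 1 → h * k = k * h → k ∈ M ⊓ N := fun k hk h hh hh1 hc =>
    ⟨hk, hTI' k h hh hh1 (by rw [← hc, mul_inv_cancel_right]; exact hh)⟩
  have hcop : (Nat.card H).Coprime (Nat.card M) := by
    rw [← hM.index_eq_card]; exact hHall'
  have hMN : ¬ M ≤ N := fun hle => hHnn (Subgroup.normalizer_eq_top_iff.1 (top_le_iff.1
    (hM.sup_eq_top ▸ sup_le hle hHN)))
  have hlt : Nat.card (M ⊓ N : Subgroup G) < Nat.card M :=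
    lt_of_le_of_ne (Nat.le_of_dvd Nat.card_pos (Subgroup.card_dvd_of_le inf_le_left)) fun e =>
      hMN (inf_eq_left.1 (Subgroup.eq_of_le_of_card_ge inf_le_left e.ge))
  obtain ⟨r, hr⟩ : ∃ r, (Nat.card (M ⊓ N : Subgroup G)).factorization r < (Nat.card M).factorization r := by
    by_contra h
    push_neg at h
    exact absurd (Nat.le_of_dvd Nat.card_pos
      ((Nat.factorization_le_iff_dvd Nat.card_pos.ne' Nat.card_pos.ne').1 h)) (not_le.2 hlt)
  have hrp : r.Prime := Nat.prime_of_mem_primeFactors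
    (Nat.support_factorization (Nat.card M) ▸ Finsupp.mem_support_iff.2 (Nat.ne_of_gt (Nat.zero_le _ |>.trans_lt hr)))
  haveI := Fact.mk hrp
  obtain ⟨P, hPM, hPc, hHP⟩ := H61.TIHallComplement.exists_invariant_sylow hHne
    (by rw [Subgroup.normalizer_eq_top_iff.2 hMn]; exact le_top) hcop inf_le_left hcomm hfix r
  have hDP : P ⊓ N < P := by
    refine lt_of_le_of_ne inf_le_left fun e => ?_
    have h1 : P ≤ M ⊓ N := le_inf hPM (inf_eq_left.1 e)
    have h2 := Subgroup.card_dvd_of_le h1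
    rw [hPc, hrp.pow_dvd_iff_le_factorization Nat.card_pos.ne'] at h2
    omega
  obtain ⟨Y, Z, hZ, C, hC, hiso⟩ := H61.TIHallComplement.exists_frobenius hHne
    (IsPGroup.of_card hPc) hDP hHP (hcop.coprime_dvd_right (Subgroup.card_dvd_of_le hPM))
    (fun k hk => hcomm k ⟨hPM hk.1, hk.2⟩)
    (fun k hk h hh hh1 hc => ⟨hk, (hfix k (hPM hk) h hh hh1 hc).2⟩)
  exact ⟨Y ⧸ Z, inferInstance, inferInstance, C, hC, hiso⟩

end Cfsg.Agent.S4115
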