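import Cfsg.Statements.S4117
import Mathlib
import Cfsg.Agent.H88.TIHall
import Cfsg.Agent.H20.External

set_option autoImplicit false
open Cfsg
open scoped commutatorElement

namespace Cfsg.Agent.S4117

/-- Let A be a finite group acting on the finite group G by automorphisms with the orders of A and G coprime, and suppose every Sylow subgroup of G is cyclic. Then the fixed-point subgroup C_G(A) is a Hall subgroup of G (its order is coprime to its index), the subgroup [G, A] generated by the elements g⁻¹·a(g) is cyclic and normal with [G, A] ∩ C_G(A) = 1 and [G, A]·C_G(A) = G. -/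
theorem result {G A : Type*} [Group G] [Finite G] [Group A] [Finite A]
    [MulDistribMulAction A G] (hcop : (Nat.card A).Coprime (Nat.card G))
    (hcyc : ∀ (p : ℕ) [Fact p.Prime] (P : Sylow p G), IsCyclic (P : Subgroup G)) :
    (Nat.card (MulAction.fixedPoints A G : Set G)).Coprime (Nat.card G / Nat.card (MulAction.fixedPoints A G : Set G)) ∧
    IsCyclic (Subgroup.closure {y : G | ∃ (a : A) (g : G), y = g⁻¹ * a • g}) ∧
    (Subgroup.closure {y : G | ∃ (a : A) (g : G), y = g⁻¹ * a • g}).Normal ∧
    (Subgroup.closure {y : G | ∃ (a : A) (g : G), y = g⁻¹ * a • g} : Set G) ∩ MulAction.fixedPoints A G = {1} ∧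
    Subgroup.closure {y : G | ∃ (a : A) (g : G), y = g⁻¹ * a • g} ⊔ Subgroup.closure (MulAction.fixedPoints A G) = ⊤ := by
  classical
  haveI hZ : IsZGroup G := ⟨fun p hp P => by haveI := Fact.mk hp; exact hcyc p P⟩
  set φ : A →* MulAut G := MulDistribMulAction.toMulAut A G with hφ
  haveI := Cfsg.Agent.H20.External.finite_semidirect φ
  set H := (SemidirectProduct.inl : G →* G ⋊[φ] A).range with hH
  set Q := (SemidirectProduct.inr : A →* G ⋊[φ] A).range with hQ
  set K := Subgroup.closure {y : G | ∃ (a : A) (g : G), y = g⁻¹ * a • g} with hK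
  let C : Subgroup G :=
    { carrier := MulAction.fixedPoints A G
      one_mem' := fun a => smul_one a
      mul_mem' := fun {x y} hx hy a => by rw [smul_mul', hx a, hy a]
      inv_mem' := fun {x} hx a => by rw [smul_inv', hx a] }
  have hC : Subgroup.closure (MulAction.fixedPoints A G) = C := Subgroup.closure_eq C
  -- `K` is normal and invariant
  have hKn : K.Normal := by
    rw [← Subgroup.normalizer_eq_top_iff, eq_top_iff]
    intro h _
    have key : ∀ h : G, ∀ y ∈ K, h⁻¹ * y * h ∈ K := by
      intro h y hy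
      induction hy using Subgroup.closure_induction with
      | mem y hy =>
        obtain ⟨a, g, rfl⟩ := hy
        have e : h⁻¹ * (g⁻¹ * a • g) * h = ((g * h)⁻¹ * a • (g * h)) * (h⁻¹ * a • h)⁻¹ := by
          rw [smul_mul']; group
        rw [e]
        exact mul_mem (Subgroup.subset_closure ⟨a, _, rfl⟩) (inv_mem (Subgroup.subset_closure ⟨a, _, rfl⟩))
      | one => simp
      | mul x y _ _ hx hy =>
        rw [show h⁻¹ * (x * y) * h = (h⁻¹ * x * h) * (h⁻¹ * y * h) by group]
        exact mul_mem hx hy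
      | inv x _ hx =>
        rw [show h⁻¹ * x⁻¹ * h = (h⁻¹ * x * h)⁻¹ by group]
        exact inv_mem hx
    rw [Subgroup.mem_normalizer_iff]
    intro y
    refine ⟨fun hy => by simpa using key h⁻¹ y hy, fun hy => ?_⟩
    simpa [mul_assoc] using key h _ hy
  have hKinv : ∀ a : A, ∀ n ∈ K, φ a n ∈ K := by
    intro b n hn
    induction hn using Subgroup.closure_induction with
    | mem y hy =>
      obtain ⟨a, g, rfl⟩ := hy
      refine Subgroup.subset_closure ⟨b * a * b⁻¹, b • g, ?_⟩
      show b • (g⁻¹ * a • g) = _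
      rw [smul_mul', smul_inv', mul_smul, mul_smul, inv_smul_smul]
    | one => simp
    | mul x y _ _ hx hy => rw [map_mul]; exact mul_mem hx hy
    | inv x _ hx => rw [map_inv]; exact inv_mem hx
  -- `K` is cyclic
  have hKc : IsCyclic K := by
    have hcy := IsZGroup.isCyclic_commutator (G := G)
    obtain ⟨d, hd⟩ := hcy.exists_generator
    have hD : ∀ g : G, ∃ i : ℤ, g * (d : G) * g⁻¹ = (d : G) ^ i := by
      intro g
      obtain ⟨i, hi⟩ := hd ⟨g * (d : G) * g⁻¹, (inferInstance : (commutator G).Normal).conj_mem _ d.2 g⟩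
      exact ⟨i, (congrArg Subtype.val hi).symm⟩
    have hcent : K ≤ Subgroup.centralizer ({(d : G)} : Set G) := by
      rw [hK, Subgroup.closure_le]
      rintro _ ⟨a, g, rfl⟩
      obtain ⟨i, hi⟩ := hD g
      have hchar : φ a (d : G) ∈ commutator G :=
        (Subgroup.characteristic_iff_comap_eq.1 inferInstance (φ a)).ge d.2
      obtain ⟨j, hj⟩ := hd ⟨_, hchar⟩
      have hj : (d : G) ^ j = a • (d : G) := congrArg Subtype.val hj
      -- `a • g` acts on `⟨d⟩` as `g`
      have hag : (a • g) * (d : G) * (a • g)⁻¹ = g * (d : G) * g⁻¹ := by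
        have h1 : (a • g) * (a • (d : G)) * (a • g)⁻¹ = (a • (d : G)) ^ i := by
          rw [← smul_mul', ← smul_inv', ← smul_mul', hi, smul_zpow']
        have hgen : (d : G) ∈ Subgroup.zpowers ((d : G) ^ j) := by
          obtain ⟨e, he⟩ : ∃ e : ℤ, a⁻¹ • (d : G) = (d : G) ^ e := by
            obtain ⟨e, he⟩ := hd ⟨φ a⁻¹ (d : G),
              (Subgroup.characteristic_iff_comap_eq.1 inferInstance (φ a⁻¹)).ge d.2⟩
            exact ⟨e, (congrArg Subtype.val he).symm⟩
          refine ⟨e, ?_⟩
          show ((d : G) ^ j) ^ e = (d : G)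
          rw [hj, ← smul_zpow', ← he, smul_inv_smul]
        obtain ⟨e, he⟩ := hgen
        have he : ((d : G) ^ j) ^ e = (d : G) := he
        rw [← hj] at h1
        calc (a • g) * (d : G) * (a • g)⁻¹ = (a • g) * ((d : G) ^ j) ^ e * (a • g)⁻¹ := by rw [he]
          _ = ((a • g) * (d : G) ^ j * (a • g)⁻¹) ^ e := (conj_zpow).symm
          _ = (((d : G) ^ j) ^ i) ^ e := by rw [h1]
          _ = (((d : G) ^ j) ^ e) ^ i := by rw [← zpow_mul, mul_comm i, zpow_mul]
          _ = g * (d : G) * g⁻¹ := by rw [he, hi]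
      rw [SetLike.mem_coe, Subgroup.mem_centralizer_singleton_iff]
      calc g⁻¹ * a • g * (d : G) = g⁻¹ * ((a • g) * (d : G) * (a • g)⁻¹) * (a • g) := by group
        _ = (d : G) * (g⁻¹ * a • g) := by rw [hag]; group
    haveI hnil : Group.IsNilpotent K := by
      suffices h : Group.IsNilpotent (K ⧸ Subgroup.center K) by
        exact Subgroup.isNilpotent_of_ker_le_center (QuotientGroup.mk' (Subgroup.center K)) (le_of_eq (QuotientGroup.ker_mk' _))
      have hab : ∀ u v : K ⧸ Subgroup.center K, u * v = v * u := by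
        intro u v
        obtain ⟨x, rfl⟩ := QuotientGroup.mk'_surjective _ u
        obtain ⟨y, rfl⟩ := QuotientGroup.mk'_surjective _ v
        rw [← commutatorElement_eq_one_iff_mul_comm, ← map_commutatorElement]
        refine (QuotientGroup.eq_one_iff _).2 (Subgroup.mem_center_iff.2 fun z => Subtype.ext ?_)
        obtain ⟨i, hi⟩ := hd ⟨((⁅x, y⁆ : K) : G),
          Subgroup.commutator_mem_commutator (Subgroup.mem_top (x : G)) (Subgroup.mem_top (y : G))⟩
        have hi : (d : G) ^ i = ((⁅x, y⁆ : K) : G) := congrArg Subtype.val hi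
        show (z : G) * ((⁅x, y⁆ : K) : G) = ((⁅x, y⁆ : K) : G) * z
        rw [← hi]
        exact ((show Commute (z : G) d from
          Subgroup.mem_centralizer_singleton_iff.1 (hcent z.2)).zpow_right i).eq
      letI : CommGroup (K ⧸ Subgroup.center K) :=
        { (inferInstance : Group (K ⧸ Subgroup.center K)) with mul_comm := hab }
      infer_instance
    infer_instance
  -- translate to the semidirect product
  have hCmem : ∀ c : G, (SemidirectProduct.inl c : G ⋊[φ] A) ∈ Subgroup.centralizer (Q : Set _) ↔ c ∈ C :=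
    fun c => Cfsg.Agent.H20.External.inl_mem_centralizer_iff φ
  set L := H ⊓ Subgroup.centralizer (Q : Set (G ⋊[φ] A)) with hL
  have hLC : Nat.card L = Nat.card C := by
    have e : L = C.map (SemidirectProduct.inl : G →* G ⋊[φ] A) := by
      ext x
      constructor
      · rintro ⟨⟨c, rfl⟩, hx⟩
        exact ⟨c, (hCmem c).1 hx, rfl⟩
      · rintro ⟨c, hc, rfl⟩
        exact ⟨⟨c, rfl⟩, (hCmem c).2 hc⟩
    rw [e, Subgroup.card_map_of_injective SemidirectProduct.inl_injective]
  have hQH : Q ≤ Subgroup.normalizer (H : Set (G ⋊[φ] A)) := by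
    rw [hH, MonoidHom.range_eq_map]
    exact Cfsg.Agent.H20.External.range_le_normalizer φ ⊤ fun _ _ _ => Subgroup.mem_top _
  let eH : G ≃* H := MonoidHom.ofInjective SemidirectProduct.inl_injective
  haveI hHZ : IsZGroup H := IsZGroup.of_injective (f := eH.symm.toMonoidHom) eH.symm.injective
  have hHcard : Nat.card H = Nat.card G := Cfsg.Agent.H20.External.card_range_inl φ
  have hQcard : Nat.card Q = Nat.card A := Cfsg.Agent.H20.External.card_range_inr φ
  have hfix : ∀ p : ℕ, p.Prime → p ∣ Nat.card C →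
      p ^ (Nat.card G).factorization p ∣ Nat.card C ∧ ¬ p ∣ Nat.card K := by
    intro p hp hpC
    haveI := Fact.mk hp
    obtain ⟨h1, h2⟩ := Cfsg.Agent.H88.TIHall.fixed_hall hQH (by rw [hQcard, hHcard]; exact hcop) hHZ
      inferInstance (p := p) (by rw [← hL, hLC]; exact hpC)
    rw [← hL, hLC, hHcard] at h1
    refine ⟨h1, fun h => h2 (h.trans ?_)⟩
    rw [← Subgroup.card_map_of_injective (f := (SemidirectProduct.inl : G →* G ⋊[φ] A))
      SemidirectProduct.inl_injective]
    refine Subgroup.card_dvd_of_le ?_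
    rw [Subgroup.map_le_iff_le_comap, hK, Subgroup.closure_le]
    rintro _ ⟨a, g, rfl⟩
    show (SemidirectProduct.inl (g⁻¹ * a • g) : G ⋊[φ] A) ∈ ⁅H, Q⁆
    have e : (SemidirectProduct.inl (g⁻¹ * a • g) : G ⋊[φ] A) =
        ⁅(SemidirectProduct.inl g⁻¹ : G ⋊[φ] A), SemidirectProduct.inr a⁆ := by
      rw [commutatorElement_def, map_mul, map_inv, inv_inv,
        show a • g = φ a g from rfl, ← Cfsg.Agent.H20.External.conj_inl φ a g]
      group
    rw [e]
    exact Subgroup.commutator_mem_commutator ⟨_, rfl⟩ ⟨a, rfl⟩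
  have hCK : (C : Set G) ∩ (K : Set G) = {1} := by
    refine Set.eq_singleton_iff_unique_mem.2 ⟨⟨one_mem C, one_mem K⟩, fun x hx => ?_⟩
    refine orderOf_eq_one_iff.1 (Nat.eq_one_iff_not_exists_prime_dvd.2 fun p hp hd => ?_)
    exact (hfix p hp (hd.trans (Subgroup.orderOf_dvd_natCard C hx.1))).2
      (hd.trans (Subgroup.orderOf_dvd_natCard K hx.2))
  refine ⟨?_, hKc, hKn, by rw [Set.inter_comm]; exact hCK, ?_⟩
  · show (Nat.card C).Coprime (Nat.card G / Nat.card C)
    refine Nat.coprime_of_dvd fun p hp hpC hpi => ?_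
    have h1 := (hfix p hp hpC).1
    have hCG : Nat.card C ∣ Nat.card G := Subgroup.card_subgroup_dvd_card C
    have h2 : p ^ ((Nat.card G).factorization p + 1) ∣ Nat.card G := by
      rw [pow_succ]
      exact (mul_dvd_mul h1 hpi).trans (dvd_of_eq (Nat.mul_div_cancel' hCG))
    have := (hp.pow_dvd_iff_le_factorization Nat.card_pos.ne').1 h2
    omega
  · rw [hC, eq_top_iff]
    intro g _
    obtain ⟨c, hc1, hc2⟩ := Cfsg.Agent.H20.External.exists_fixed_mem_coset φ hcop
      (Or.inr inferInstance) K hKinv (k := g) (fun a => Subgroup.subset_closure ⟨a, g, rfl⟩)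
    have : g = c * (g⁻¹ * c)⁻¹ := by group
    rw [this]
    exact mul_mem (Subgroup.mem_sup_right hc2) (Subgroup.mem_sup_left (inv_mem hc1))

end Cfsg.Agent.S4117
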