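import Cfsg.Statements.S4118
import Cfsg.Agent.H21.TIHall.Separable
import Cfsg.Agent.H21.NonSolvable

set_option autoImplicit false
open Cfsg

namespace Cfsg.Agent.S4118

/-- Let G be a finite group and H a non-normal subgroup meeting each of its conjugates by elements outside N_G(H) trivially, with the order of H coprime to its index in N_G(H); let π be the set of primes dividing the order of H and suppose G is π-separable (it has a chain of normal subgroups from 1 to G each of whose factors has order divisible only by primes in π or coprime to the order of H). Let O be the largest normal subgroup of G of order coprime to the order of H. Then G = O·N_G(H), O·H is normal in G, and G is solvable if and only if O is solvable and H has no subgroup isomorphic to SL₂(5). -/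
theorem result {G : Type*} [Group G] [Finite G] (H : Subgroup G)
    (hTI : Cfsg.IsTISubset (H : Set G)) (hnn : ¬ H.Normal)
    (hHall : (Nat.card H).Coprime (H.subgroupOf (Subgroup.normalizer (H : Set G))).index)
    (hsep : ∃ (n : ℕ) (M : Fin (n + 1) → Subgroup G), M 0 = ⊥ ∧ M (Fin.last n) = ⊤ ∧ Monotone M ∧ (∀ i, (M i).Normal) ∧
      ∀ i : Fin n, (∀ q : ℕ, q.Prime → q ∣ (M i.castSucc).relIndex (M i.succ) → q ∣ Nat.card H) ∨
        ((M i.castSucc).relIndex (M i.succ)).Coprime (Nat.card H))
    (O : Subgroup G) (hO : O = sSup {K : Subgroup G | K.Normal ∧ (Nat.card K).Coprime (Nat.card H)}) :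
    O ⊔ Subgroup.normalizer (H : Set G) = ⊤ ∧ (O ⊔ H).Normal ∧
    (Group.IsSolvable G ↔ Group.IsSolvable O ∧
      ∀ K : Subgroup G, K ≤ H → ¬ Nonempty (K ≃* Matrix.SpecialLinearGroup (Fin 2) (ZMod 5))) := by
  classical
  have hHc := Cfsg.Agent.H21.TIHall.coprime_index hTI hHall
  obtain ⟨hOn, hOc⟩ := Cfsg.Agent.H21.TIHall.coprime_radical H
  rw [← hO] at hOn hOc
  have hOmax : ∀ K : Subgroup G, K.Normal → (Nat.card K).Coprime (Nat.card H) → K ≤ O :=
    fun K h1 h2 => hO ▸ le_sSup ⟨h1, h2⟩
  have htop := Cfsg.Agent.H21.TIHall.sup_normalizer_eq_top hTI hnn hHc hOn hOc hOmax hsep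
  refine ⟨htop, ?_, ⟨fun hG => ⟨inferInstance, fun K _ ⟨e⟩ => ?_⟩, fun ⟨hOs, hno⟩ => ?_⟩⟩
  · rw [← Subgroup.normalizer_eq_top_iff, eq_top_iff, ← htop]
    refine sup_le (le_sup_left.trans Subgroup.le_normalizer) fun g hg => ?_
    have key : ∀ g ∈ Subgroup.normalizer (H : Set G), O ⊔ H ≤ (O ⊔ H).comap (MulAut.conj g).toMonoidHom :=
      fun g hg => sup_le (fun o ho => Subgroup.mem_sup_left (hOn.conj_mem o ho g))
        fun a ha => Subgroup.mem_sup_right ((Subgroup.mem_normalizer_iff.mp hg a).mp ha)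
    refine Subgroup.mem_normalizer_iff.mpr fun a => ⟨fun ha => key g hg ha, fun ha => ?_⟩
    simpa [mul_assoc] using key g⁻¹ (inv_mem hg) ha
  · -- `SL(2,5)` is perfect
    have : Fact (Nat.Prime 5) := ⟨by norm_num⟩
    have hs : Group.IsSolvable (Matrix.SpecialLinearGroup (Fin 2) (ZMod 5)) :=
      Group.isSolvable_of_surjective (f := e.toMonoidHom) e.surjective
    have : Nontrivial (Matrix.SpecialLinearGroup (Fin 2) (ZMod 5)) :=
      ⟨⟨-1, 1, by decide +kernel⟩⟩
    exact (Group.IsSolvable.commutator_lt_top_of_nontrivial (Matrix.SpecialLinearGroup (Fin 2) (ZMod 5))).ne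
      (Cfsg.Agent.H60.sl2_perfect (by norm_num))
  · obtain ⟨K, _, _, _, ψ, hψ⟩ := Cfsg.Agent.H21.TIHall.exists_fpf hTI hnn hOn hOc htop
    have hHs : Group.IsSolvable H := by
      by_contra hns
      obtain ⟨G₀, -, -, S, M, -, -, -, -, ⟨e⟩, -⟩ := Cfsg.Agent.H21.exists_sl_times_zgroup ψ hψ hns
      exact hno (S.map H.subtype) (Subgroup.map_subtype_le S)
        ⟨(S.equivMapOfInjective H.subtype H.subtype_injective).symm.trans e⟩
    exact Cfsg.Agent.H21.TIHall.isSolvable_of_radical hHc hOn hOc hOmax htop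
      (Cfsg.Agent.H21.TIHall.isSolvable_mulAut_of_fpf hψ)

end Cfsg.Agent.S4118
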