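import Cfsg.Statements.S4125
import Cfsg.Agent.H32.QBaer
-- import your own Cfsg.Agent.* helpers here

set_option autoImplicit false
open Cfsg

namespace Cfsg.Agent.S4125

/-- Let G be a finite group and q a prime dividing its order such that every element of q-power order has a conjugacy class of prime-power size. Then G is q-solvable of q-length 1: there are normal subgroups K ≤ L of G with K of order prime to q, L/K a q-group and L of index prime to q. Moreover there is a prime p such that every element of q-power order has a class of p-power size (one prime serving for all of them), and for a Sylow q-subgroup Q: if p = q then Q is normal with a normal complement (a direct factor), while if p ≠ q then Q is abelian, the product of Q with the largest normal p-subgroup O_p(G) is normal in G, and G/O_{q'}(G) is solvable, where O_{q'}(G) is the largest normal subgroup of order prime to q. -/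
theorem result {G : Type*} [Group G] [Finite G] (q : ℕ) [Fact q.Prime] (hq : q ∣ Nat.card G)
    (hBaer : ∀ x : G, (∃ k : ℕ, orderOf x = q ^ k) → ∃ (r : ℕ) (a : ℕ), r.Prime ∧ (Subgroup.centralizer ({x} : Set G)).index = r ^ a) (Q : Sylow q G) :
    (∃ K L : Subgroup G, K.Normal ∧ L.Normal ∧ K ≤ L ∧ (Nat.card K).Coprime q ∧ (∃ m : ℕ, K.relIndex L = q ^ m) ∧ L.index.Coprime q) ∧
    ∃ p : ℕ, p.Prime ∧ (∀ x : G, (∃ k : ℕ, orderOf x = q ^ k) → ∃ a : ℕ, (Subgroup.centralizer ({x} : Set G)).index = p ^ a) ∧
      (p = q → (Q : Subgroup G).Normal ∧ ∃ N : Subgroup G, N.Normal ∧ N.IsComplement' (Q : Subgroup G)) ∧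
      (p ≠ q → IsMulCommutative (Q : Subgroup G) ∧ (Cfsg.pCore p G ⊔ (Q : Subgroup G)).Normal ∧
        ∀ _h : (Cfsg.pPrimeCore q G).Normal, Group.IsSolvable (G ⧸ Cfsg.pPrimeCore q G)) := by
  exact Cfsg.Agent.H32.QBaer.main q hBaer Q

end Cfsg.Agent.S4125
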