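import Cfsg.Statements.S4133
import Cfsg.Agent.H7.TwoComp.ClassSize
-- import your own Cfsg.Agent.* helpers here

set_option autoImplicit false
open Cfsg

namespace Cfsg.Agent.S4133

/-- Let G be a finite group all of whose Sylow subgroups are abelian, and let 2^a be the largest power of 2 dividing the size of any conjugacy class of G. If some element has a conjugacy class of size exactly 2^a, then G is solvable. -/
theorem result {G : Type*} [Group G] [Finite G]
    (hA : ∀ (p : ℕ) [Fact p.Prime] (P : Sylow p G), IsMulCommutative (P : Subgroup G))
    (a : ℕ) (hmax : ∀ y : G, ¬ 2 ^ (a + 1) ∣ (Subgroup.centralizer ({y} : Set G)).index) (hx : ∃ x : G, (Subgroup.centralizer ({x} : Set G)).index = 2 ^ a) :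
    Group.IsSolvable G := by
  exact Cfsg.Agent.H7.TwoComp.isSolvable_of_max_two_part hA a hmax hx

end Cfsg.Agent.S4133
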