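import Cfsg.Statements.S4143
import Cfsg.Agent.H24.MaxClass

set_option autoImplicit false
open Cfsg
open scoped commutatorElement

namespace Cfsg.Agent.S4143

/-- Let X be a finite p-group of order p^n containing a non-abelian subgroup B of order p³ with C_X(B) ≤ B. Then X has nilpotency class n − 1 (maximal class). -/
theorem result {X : Type*} [Group X] [Finite X] {p : ℕ} [Fact p.Prime] (n : ℕ) (hX : Nat.card X = p ^ n)
    (B : Subgroup X) (hB : Nat.card B = p ^ 3) (hBna : ¬ IsMulCommutative B) (hC : Subgroup.centralizer (B : Set X) ≤ B) :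
    Group.nilpotencyClass X = n - 1 := by
  classical
  have hp : p.Prime := Fact.out
  have hXp : IsPGroup p X := IsPGroup.of_card hX
  have : Group.IsNilpotent X := hXp.isNilpotent
  have hn3 : 3 ≤ n := by
    have h := Subgroup.card_le_card_group B
    rwa [hB, hX, Nat.pow_le_pow_iff_right hp.one_lt] at h
  have hnt : Nontrivial X := by
    rw [← Finite.one_lt_card_iff_nontrivial, hX]
    exact Nat.one_lt_pow (by omega) hp.one_lt
  set Z := Subgroup.center X with hZdef
  have hZB : Z ≤ B := (Subgroup.center_le_centralizer _).trans hC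
  have hZc : Nat.card Z = p := by
    obtain ⟨r, hr⟩ := Cfsg.Agent.H24.exists_card_pow hXp Z
    have hr0 : r ≠ 0 := fun h => Group.IsNilpotent.center_ne_bot X
      (Subgroup.eq_bot_of_card_eq Z (by rw [hr, h, pow_zero]))
    by_contra hne
    have hr2 : 2 ≤ r := by
      rcases r with - | - | r
      · exact absurd rfl hr0
      · exact absurd (hr.trans (pow_one p)) hne
      · omega
    haveI : (Z.subgroupOf B).Normal := (inferInstance : Z.Normal).subgroupOf B
    have hq : Nat.card (B ⧸ Z.subgroupOf B) * p ^ r = p ^ 3 := by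
      rw [← Subgroup.index_eq_card, ← hr, ← hB, ← (Z.subgroupOf B).card_mul_index,
        Nat.card_congr (Subgroup.subgroupOfEquivOfLe hZB).toEquiv, mul_comm]
    obtain ⟨s, hs⟩ := IsPGroup.iff_card.1 ((hXp.to_subgroup B).to_quotient (Z.subgroupOf B))
    rw [hs, ← pow_add] at hq
    have hsr := Nat.pow_right_injective hp.two_le hq
    haveI := Cfsg.Agent.H24.isCyclic_of_card_pow_le hs (by omega)
    exact hBna (Cfsg.Agent.H24.isMulCommutative_of_cyclic_quotient (N := Z.subgroupOf B)
      fun x hx => Subgroup.mem_center_iff.2 fun y =>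
        Subtype.ext (Subgroup.mem_center_iff.1 (Subgroup.mem_subgroupOf.1 hx) y))
  have hBZ : ∀ x ∈ B, ∀ y ∈ B, ⁅x, y⁆ ∈ Z := by
    haveI : (Z.subgroupOf B).Normal := (inferInstance : Z.Normal).subgroupOf B
    have hq : Nat.card (B ⧸ Z.subgroupOf B) = p ^ 2 := by
      have := (Z.subgroupOf B).card_mul_index
      rw [Nat.card_congr (Subgroup.subgroupOfEquivOfLe hZB).toEquiv, hZc, hB, pow_succ'] at this
      exact Nat.eq_of_mul_eq_mul_left hp.pos this
    haveI := IsPGroup.isMulCommutative_of_card_eq_prime_sq hq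
    intro x hx y hy
    have h : ⁅(⟨x, hx⟩ : B), ⟨y, hy⟩⁆ ∈ Z.subgroupOf B := by
      rw [← QuotientGroup.eq_one_iff, ← QuotientGroup.mk'_apply, map_commutatorElement,
        commutatorElement_eq_one_iff_mul_comm]
      exact IsMulCommutative.is_comm.comm _ _
    exact h
  obtain ⟨a, ha, b, hb, hab⟩ : ∃ a ∈ B, ∃ b ∈ B, a * b ≠ b * a := by
    by_contra hcon
    push Not at hcon
    exact hBna ⟨⟨fun x y => Subtype.ext (hcon x x.2 y y.2)⟩⟩
  set H := Subgroup.closure ({a, b} : Set X) with hH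
  have haH : a ∈ H := Subgroup.subset_closure (Set.mem_insert _ _)
  have hbH : b ∈ H := Subgroup.subset_closure (Set.mem_insert_of_mem _ rfl)
  have hHB : H = B := by
    have hle : H ≤ B := (Subgroup.closure_le _).2 (by
      intro x hx
      rcases hx with rfl | rfl <;> assumption)
    refine Subgroup.eq_of_le_of_card_ge hle ?_
    obtain ⟨s, hs⟩ := Cfsg.Agent.H24.exists_card_pow hXp H
    rw [hB, hs]
    refine Nat.pow_le_pow_right hp.pos ?_
    by_contra hlt
    apply hab
    have hcomm : IsMulCommutative H := by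
      rcases (show s ≤ 1 ∨ s = 2 by omega) with h1 | h2
      · haveI := Cfsg.Agent.H24.isCyclic_of_card_pow_le hs h1
        exact IsCyclic.isMulCommutative
      · subst h2
        exact IsPGroup.isMulCommutative_of_card_eq_prime_sq hs
    exact congrArg Subtype.val (hcomm.is_comm.comm ⟨a, haH⟩ ⟨b, hbH⟩)
  set z := ⁅a, b⁆ with hz
  have hzpow : Subgroup.zpowers z = Z := by
    refine Subgroup.eq_of_le_of_card_ge (Subgroup.zpowers_le.2 (hBZ a ha b hb)) ?_
    rw [hZc, Nat.card_zpowers]
    have hd := Subgroup.orderOf_dvd_natCard Z (hBZ a ha b hb)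
    rw [hZc] at hd
    rcases (Nat.dvd_prime hp).1 hd with h | h
    · rw [orderOf_eq_one_iff, commutatorElement_eq_one_iff_mul_comm] at h
      exact absurd h hab
    · exact h.ge
  have hmul : ∀ x y w : X, ⁅y, w⁆ ∈ Z → ⁅x * y, w⁆ = ⁅x, w⁆ * ⁅y, w⁆ := by
    intro x y w hy
    calc ⁅x * y, w⁆ = x * ⁅y, w⁆ * x⁻¹ * ⁅x, w⁆ := by simp only [commutatorElement_def]; group
      _ = ⁅y, w⁆ * ⁅x, w⁆ := by rw [Subgroup.mem_center_iff.1 hy x, mul_inv_cancel_right]
      _ = ⁅x, w⁆ * ⁅y, w⁆ := (Subgroup.mem_center_iff.1 hy _).symm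
  haveI : Nonempty (X ⧸ Z) := inferInstance
  set f := QuotientGroup.mk' Z with hf
  have hA : Nat.card (B.map f) = p ^ 2 := by
    have h1 : Z.relIndex B = Nat.card (B.map f) := by
      conv_lhs => rw [← QuotientGroup.ker_mk' Z]
      rw [Subgroup.relIndex_ker]
    have h2 := (Z.subgroupOf B).card_mul_index
    rw [Nat.card_congr (Subgroup.subgroupOfEquivOfLe hZB).toEquiv] at h2
    change Nat.card Z * Z.relIndex B = Nat.card B at h2
    rw [hZc, h1, hB, pow_succ'] at h2
    exact Nat.eq_of_mul_eq_mul_left hp.pos h2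
  have hAC : Subgroup.centralizer (B.map f : Set (X ⧸ Z)) = B.map f := by
    refine le_antisymm ?_ (Subgroup.le_centralizer_iff_isMulCommutative.mpr
      (IsPGroup.isMulCommutative_of_card_eq_prime_sq hA))
    intro q hq
    obtain ⟨g, rfl⟩ := QuotientGroup.mk'_surjective Z q
    refine Subgroup.mem_map_of_mem f ?_
    have hg : ∀ w ∈ B, ⁅g, w⁆ ∈ Z := by
      intro w hw
      have h1 := hq (f w) (Subgroup.mem_map_of_mem f hw)
      rw [← QuotientGroup.eq_one_iff, ← QuotientGroup.mk'_apply, map_commutatorElement,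
        commutatorElement_eq_one_iff_mul_comm]
      exact h1.symm
    obtain ⟨i, hi⟩ := Subgroup.mem_zpowers_iff.1 (hzpow.symm ▸ hg a ha)
    obtain ⟨j, hj⟩ := Subgroup.mem_zpowers_iff.1 (hzpow.symm ▸ hg b hb)
    have hom : ∀ w ∈ B, ∃ ψ : B →* X, ∀ x : B, ψ x = ⁅(x : X), w⁆ := fun w hw =>
      ⟨MonoidHom.mk' (fun x : B => ⁅(x : X), w⁆)
        (fun x y => hmul x y w (hBZ y y.2 w hw)), fun x => rfl⟩
    set c : B := (⟨a, ha⟩ : B) ^ j * (⟨b, hb⟩ : B) ^ (-i) with hc
    have hca : ⁅(c : X), a⁆ = ⁅g, a⁆ := by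
      obtain ⟨ψ, hψ⟩ := hom a ha
      rw [← hψ c, hc, map_mul, map_zpow, map_zpow, hψ, hψ, commutatorElement_self, one_zpow,
        one_mul, ← hi, hz, ← commutatorElement_inv a b, inv_zpow', neg_neg]
    have hcb : ⁅(c : X), b⁆ = ⁅g, b⁆ := by
      obtain ⟨ψ, hψ⟩ := hom b hb
      rw [← hψ c, hc, map_mul, map_zpow, map_zpow, hψ, hψ, commutatorElement_self, one_zpow,
        mul_one, ← hj]
    have key : ∀ w : X, ⁅(c : X), w⁆ = ⁅g, w⁆ → Commute w ((c : X)⁻¹ * g) := by
      intro w hw
      have h1 : (c : X) * w * (c : X)⁻¹ = g * w * g⁻¹ :=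
        mul_right_cancel (b := w⁻¹) (by simpa [commutatorElement_def] using hw)
      calc w * ((c : X)⁻¹ * g) = (c : X)⁻¹ * ((c : X) * w * (c : X)⁻¹) * g := by group
        _ = (c : X)⁻¹ * (g * w * g⁻¹) * g := by rw [h1]
        _ = (c : X)⁻¹ * g * w := by group
    have hmem : (c : X)⁻¹ * g ∈ Subgroup.centralizer (H : Set X) := by
      rw [hH, Subgroup.centralizer_closure, Subgroup.mem_centralizer_iff]
      intro w hw
      rcases hw with rfl | rfl
      · exact key _ hca
      · exact key _ hcb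
    rw [hHB] at hmem
    simpa using mul_mem c.2 (hC hmem)
  obtain ⟨m, hm⟩ := IsPGroup.iff_card.mp (hXp.to_quotient Z)
  have hmul' := Z.card_mul_index
  rw [Subgroup.index_eq_card, hm, hZc, hX, ← pow_succ'] at hmul'
  have hadd := Nat.pow_right_injective hp.two_le hmul'
  have hq := Cfsg.Agent.H24.class_eq_of_self_centralizing (X ⧸ Z) p m hm (B.map f) hA hAC
  rw [Group.nilpotencyClass_eq_quotient_center_plus_one, hq]
  omega

end Cfsg.Agent.S4143
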