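import Cfsg.Statements.S4144
import Cfsg.Agent.H24.MaxClassPowersIndex

set_option autoImplicit false
open Cfsg

namespace Cfsg.Agent.S4144

open Subgroup
open scoped commutatorElement
open Cfsg.Agent.H24

/-- Let X be a finite p-group of order p^n, n ≥ 2, of nilpotency class n − 1 (maximal class), and H any subgroup of X. Then the index in H of the subgroup generated by the p-th powers of elements of H is at most p^p. -/
theorem result {X : Type*} [Group X] [Finite X] {p : ℕ} [Fact p.Prime] (n : ℕ) (hn : 2 ≤ n) (hX : Nat.card X = p ^ n)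
    (hmax : Group.nilpotencyClass X = n - 1) (H : Subgroup X) :
    (Subgroup.closure {y : X | ∃ h ∈ H, y = h ^ p}).relIndex H ≤ p ^ p := by
  have hP : p.Prime := Fact.out
  have hG : IsPGroup p X := IsPGroup.of_card hX
  rcases Nat.lt_or_ge n 3 with h3 | h3
  · set P := Subgroup.closure {y : X | ∃ h ∈ H, y = h ^ p}
    have hPH : P ≤ H := (Subgroup.closure_le _).mpr fun y ⟨h, hh, e⟩ => e ▸ pow_mem hh p
    calc P.relIndex H ≤ P.relIndex H * Nat.card P := Nat.le_mul_of_pos_right _ Nat.card_pos
      _ = Nat.card H := by rw [mul_comm, card_mul_relIndex hPH]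
      _ ≤ Nat.card X := Subgroup.card_le_card_group H
      _ ≤ p ^ p := by rw [hX]; exact Nat.pow_le_pow_right hP.pos (by have := hP.two_le; omega)
  by_cases hp2 : p = 2
  · subst hp2
    obtain ⟨C, hC, hCidx⟩ := (two_group_commutator_index_four X n hX (by omega)
      ((index_commutator_of_max_class X 2 n hX (by omega) hmax).1.trans rfl)).1
    exact relIndex_squares_le C hCidx H
  have S : MaxSetting X p n := ⟨hG, hX, h3, fun hbot => by
    have := hG.isNilpotent
    have := Subgroup.lowerCentralSeries_eq_bot_iff_nilpotencyClass_le.mp hbot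
    omega⟩
  exact S.relIndex_powers_le hp2 H

end Cfsg.Agent.S4144
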