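import Cfsg.Statements.S4150
import Cfsg.Agent.S0713
import Cfsg.Agent.H81.TwoPrimes
import Cfsg.Agent.H81.TwoPrimeGen
import Cfsg.Agent.H81.TwoPrimeTwin

set_option autoImplicit false
open Cfsg

namespace Cfsg.Agent.S4150

open Equiv Equiv.Perm
open Cfsg.Agent.H81 Cfsg.Agent.H81.TPG

variable {α : Type*} [Fintype α] [DecidableEq α]

theorem iso_of_eq_alternating {G : Subgroup (Perm α)} (h : G = alternatingGroup α) :
    Nonempty (G ≃* alternatingGroup (Fin (Fintype.card α))) :=
  ⟨(MulEquiv.subgroupCongr h).trans (Equiv.altCongrHom (Fintype.equivFin α))⟩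

theorem degree_six {G : Subgroup (Perm α)} (hGA : G ≤ alternatingGroup α)
    [MulAction.IsPretransitive G α] (hn : Fintype.card α = 6) (h5 : 5 ∣ Nat.card G) :
    ∃ d : ℕ, 5 ≤ d ∧ Nonempty (G ≃* alternatingGroup (Fin d)) := by
  classical
  haveI : Nontrivial α := Fintype.one_lt_card_iff_nontrivial.1 (by omega)
  obtain ⟨a⟩ : Nonempty α := Fintype.card_pos_iff.1 (by omega)
  have h6 : 6 ∣ Nat.card G := ⟨Nat.card (MulAction.stabilizer G a), by
    rw [← (MulAction.stabilizer G a).index_mul_card, MulAction.index_stabilizer_of_transitive G a,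
      Nat.card_eq_fintype_card (α := α), hn]⟩
  obtain ⟨r, hr⟩ : 30 ∣ Nat.card G := Nat.Coprime.mul_dvd_of_dvd_of_dvd (by norm_num : Nat.Coprime 6 5) h6 h5
  have hidx := index_data hGA
  rw [hn, hr, show Nat.factorial 6 = 720 from rfl] at hidx
  set H := G.subgroupOf (alternatingGroup α) with hH
  by_cases htop : H = ⊤
  · exact ⟨Fintype.card α, by omega, iso_of_eq_alternating (le_antisymm hGA (Subgroup.subgroupOf_eq_top.1 htop))⟩
  obtain ⟨hinj, hdvd⟩ := card_dvd_factorial_index (by omega) H htop
  have hA : Nat.card (alternatingGroup α) = 360 := by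
    rw [nat_card_alternatingGroup, Nat.card_eq_fintype_card, hn]; rfl
  rw [hA] at hdvd
  have hk12 : H.index ∣ 12 := ⟨r, by
    have : H.index * (30 * r) * 2 = 60 * (H.index * r) := by ring
    omega⟩
  obtain hk | hk | hk : H.index ≤ 5 ∨ H.index = 6 ∨ H.index = 12 := by
    rcases hk12 with ⟨t, ht⟩
    rcases (show H.index ≤ 5 ∨ t ≤ 2 by
      by_contra hc
      push Not at hc
      have := Nat.mul_le_mul (show 6 ≤ H.index from hc.1) (show 3 ≤ t from hc.2)
      omega) with h | h
    · exact Or.inl h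
    · interval_cases t <;> omega
  · exfalso
    have := (Nat.le_of_dvd (Nat.factorial_pos _) hdvd).trans (Nat.factorial_le hk)
    norm_num [Nat.factorial] at this
  · -- the point stabiliser of the action on six cosets is `A₅`
    refine ⟨5, le_rfl, ?_⟩
    let Q := alternatingGroup α ⧸ H
    haveI : Fintype Q := Fintype.ofFinite Q
    have hQ : Fintype.card Q = 6 := by
      rw [← Nat.card_eq_fintype_card]; exact hk
    let z0 : Q := ((1 : alternatingGroup α) : Q)
    let β := {z : Q // z ≠ z0}
    have hfix : ∀ g : H, (g : alternatingGroup α) • z0 = z0 := by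
      intro g
      show (((g : alternatingGroup α) * 1 : alternatingGroup α) : Q) = _
      rw [QuotientGroup.eq, mul_one, mul_one]
      exact inv_mem g.2
    have hpres : ∀ (g : H) (z : Q), z ≠ z0 ↔ (g : alternatingGroup α) • z ≠ z0 := fun g z => by
      rw [not_iff_not]
      exact ⟨fun e => by rw [e, hfix], fun e => MulAction.injective _ (e.trans (hfix g).symm)⟩
    let f : H →* Perm β :=
      { toFun := fun g => (MulAction.toPermHom (alternatingGroup α) Q g.1).subtypePerm
          fun z => (hpres g z).symm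
        map_one' := by ext z; simp
        map_mul' := fun g h => by ext z; simp [mul_smul] }
    have hf : Function.Injective f := by
      intro g h e
      apply Subtype.ext
      apply hinj
      ext z
      by_cases hz : z = z0
      · subst hz
        exact (hfix g).trans (hfix h).symm
      · exact congrArg Subtype.val (DFunLike.congr_fun e (⟨z, hz⟩ : β))
    have hβ : Fintype.card β = 5 := by
      rw [Fintype.card_subtype_compl, Fintype.card_subtype_eq, hQ]
    have hHcard : Nat.card H = 60 := by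
      have := H.index_mul_card
      rw [hk, hA] at this
      omega
    have hR : f.range.index = 2 := by
      have := f.range.index_mul_card
      rw [Nat.card_congr (MonoidHom.ofInjective hf).toEquiv.symm, hHcard, Nat.card_perm,
        Nat.card_eq_fintype_card, hβ, show Nat.factorial 5 = 120 from rfl] at this
      omega
    obtain ⟨e⟩ := iso_of_eq_alternating (eq_alternatingGroup_of_index_eq_two hR)
    rw [hβ] at e
    exact ⟨(Subgroup.subgroupOfEquivOfLe hGA).symm.trans ((MonoidHom.ofInjective hf).trans e)⟩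
  · -- no subgroup of order thirty
    exfalso
    rw [hk] at hidx
    have hG : Nat.card G = 5 * (5 + 1) := by omega
    obtain ⟨t, ht⟩ : ∃ t : G, orderOf t = 2 :=
      haveI := Fact.mk Nat.prime_two
      exists_prime_orderOf_dvd_card' 2 (by rw [hG]; norm_num)
    obtain ⟨u, hu⟩ : ∃ u : G, orderOf u = 3 :=
      haveI := Fact.mk Nat.prime_three
      exists_prime_orderOf_dvd_card' 3 (by rw [hG]; norm_num)
    exact no_two_derangement_orders (β := α) Nat.prime_five hn hG (t := t) (u := u)
      (by omega) (by omega) (by omega) (by omega) (by omega)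

/-- The pairs of primes used. -/
def GoodPair (m p q : ℕ) : Prop :=
  (m < 2 * p ∧ p + 3 ≤ q) ∨ (p = 3 ∧ q = 5) ∨ (p = 5 ∧ q = 7) ∨ (p = 7 ∧ q = 11) ∨ (p = 11 ∧ q = 13)

theorem core {m p q : ℕ} (hm : 5 ≤ m) (hp : p.Prime) (hq : q.Prime) (hpq : p < q) (hqm : q ≤ m) (hm2 : m ≤ 2 * p)
    (hgood : GoodPair m p q) {x y : Perm α} (hxe : x ∈ alternatingGroup α) (hye : y ∈ alternatingGroup α)
    (hx : orderOf x = p) (hy : orderOf y = q) (hD : ∀ a, x a ≠ a ∨ y a ≠ a)
    (hcard : Fintype.card α ≤ m) :
    ∃ d : ℕ, 5 ≤ d ∧ Nonempty (Subgroup.closure ({x, y} : Set (Perm α)) ≃* alternatingGroup (Fin d)) := by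
  classical
  obtain ⟨hyc, hys⟩ := isCycle_of_big hq hy (lt_of_le_of_lt y.support.card_le_univ (by omega))
  have hqcard : q ≤ Fintype.card α := hys ▸ y.support.card_le_univ
  have hp3 : 3 ≤ p := by
    rcases hgood with ⟨h, -⟩ | ⟨rfl, -⟩ | ⟨rfl, -⟩ | ⟨rfl, -⟩ | ⟨rfl, -⟩
    · have := hp.two_le
      by_contra h3
      omega
    all_goals norm_num
  have hq5 : 5 ≤ q := by
    by_contra h
    interval_cases q <;> first | omega | exact absurd hq (by norm_num)
  set G := Subgroup.closure ({x, y} : Set (Perm α)) with hG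
  have hxG : x ∈ G := Subgroup.subset_closure (by simp)
  have hyG : y ∈ G := Subgroup.subset_closure (by simp)
  have hGA : G ≤ alternatingGroup α := (Subgroup.closure_le _).2 fun g hg => by
    rcases hg with rfl | rfl
    · exact hxe
    · exact hye
  have htr := closure_isPretransitive hp hq hx hy hD (by omega) hyc hys
  have hprim := closure_isPreprimitive hq htr (by omega) hyc hys
  have done : G = alternatingGroup α →
      ∃ d : ℕ, 5 ≤ d ∧ Nonempty (G ≃* alternatingGroup (Fin d)) :=
    fun h => ⟨Fintype.card α, by omega, iso_of_eq_alternating h⟩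
  have viaJordan : ∀ (r : ℕ) (g : Perm α), r.Prime → r + 3 ≤ Fintype.card α → g.IsCycle →
      g.support.card = r → g ∈ G → G = alternatingGroup α :=
    fun r g hr h3 hc hs hg => le_antisymm hGA (Cfsg.Agent.S0713.result G hprim hr (by omega) h3 hc hs hg)
  by_cases hxc : x.support.card < 2 * p
  · obtain ⟨hc, hs⟩ := isCycle_of_big hp hx hxc
    by_cases h3 : p + 3 ≤ Fintype.card α
    · exact done (viaJordan p x hp h3 hc hs hxG)
    rcases hgood with ⟨h, h'⟩ | ⟨rfl, rfl⟩ | ⟨rfl, rfl⟩ | ⟨rfl, rfl⟩ | ⟨rfl, rfl⟩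
    · omega
    · exact done (le_antisymm hGA (alternatingGroup_le_of_isPreprimitive_of_isThreeCycle_mem hprim
        (card_support_eq_three_iff.1 hs) hxG))
    · exact done (five_seven hGA hprim (by omega) hc hs hxG)
    · omega
    · exact done (eleven_thirteen hGA hprim (by omega) hc hs hxG)
  · have hdouble : Fintype.card α = 2 * p := by
      have := x.support.card_le_univ
      omega
    by_cases h3 : q + 3 ≤ Fintype.card α
    · exact done (viaJordan q y hq h3 hyc hys hyG)
    rcases hgood with ⟨h, h'⟩ | ⟨rfl, rfl⟩ | ⟨rfl, rfl⟩ | ⟨rfl, rfl⟩ | ⟨rfl, rfl⟩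
    · omega
    · haveI := htr
      exact degree_six hGA hdouble (hy ▸ Subgroup.orderOf_dvd_natCard G hyG)
    all_goals omega

/-- Let m ≥ 5. Then there are primes p < q with m/2 ≤ p and q ≤ m such that any two elements x, y of the alternating group of degree m with x of order p and y of order q generate a subgroup isomorphic to an alternating group of some degree d ≥ 5. -/
theorem result (m : ℕ) (hm : 5 ≤ m) :
    ∃ p q : ℕ, p.Prime ∧ q.Prime ∧ m ≤ 2 * p ∧ p < q ∧ q ≤ m ∧
      ∀ x y : alternatingGroup (Fin m), orderOf x = p → orderOf y = q →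
        ∃ d : ℕ, 5 ≤ d ∧ Nonempty (Subgroup.closure ({x, y} : Set (alternatingGroup (Fin m))) ≃* alternatingGroup (Fin d)) := by
  classical
  obtain ⟨p, q, hp, hq, hm2, hpq, hqm, hgood⟩ : ∃ p q : ℕ, p.Prime ∧ q.Prime ∧ m ≤ 2 * p ∧ p < q ∧
      q ≤ m ∧ GoodPair m p q := by
    rcases (show m ≤ 6 ∨ (7 ≤ m ∧ m ≤ 10) ∨ (11 ≤ m ∧ m ≤ 14) ∨ (15 ≤ m ∧ m ≤ 16) ∨ 17 ≤ m by omega) with
      h | h | h | h | h
    · exact ⟨3, 5, by norm_num, by norm_num, by omega, by omega, by omega, Or.inr (Or.inl ⟨rfl, rfl⟩)⟩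
    · exact ⟨5, 7, by norm_num, by norm_num, by omega, by omega, by omega,
        Or.inr (Or.inr (Or.inl ⟨rfl, rfl⟩))⟩
    · exact ⟨7, 11, by norm_num, by norm_num, by omega, by omega, by omega,
        Or.inr (Or.inr (Or.inr (Or.inl ⟨rfl, rfl⟩)))⟩
    · exact ⟨11, 13, by norm_num, by norm_num, by omega, by omega, by omega,
        Or.inr (Or.inr (Or.inr (Or.inr ⟨rfl, rfl⟩)))⟩
    · obtain ⟨p, q, hp, hq, h1, h2, h3⟩ := exists_two_primes m h
      exact ⟨p, q, hp, hq, by omega, by omega, h3, Or.inl ⟨h1, h2⟩⟩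
  refine ⟨p, q, hp, hq, hm2, hpq, hqm, fun x y hx hy => ?_⟩
  set x0 : Perm (Fin m) := x.1 with hx0
  set y0 : Perm (Fin m) := y.1 with hy0
  let P : Fin m → Prop := fun a => a ∈ x0.support ∪ y0.support
  have hinv : ∀ (g : Perm (Fin m)), (∀ a, g a ≠ a → P a) → ∀ a, P (g a) ↔ P a := by
    intro g hg a
    by_cases h : g a = a
    · rw [h]
    · exact iff_of_true (hg _ fun e => h (g.injective e)) (hg a h)
  have hxP : ∀ a, x0 a ≠ a → P a := fun a h => Finset.mem_union_left _ (mem_support.2 h)
  have hyP : ∀ a, y0 a ≠ a → P a := fun a h => Finset.mem_union_right _ (mem_support.2 h)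
  set x' : Perm {a // P a} := x0.subtypePerm (hinv x0 hxP) with hx'
  set y' : Perm {a // P a} := y0.subtypePerm (hinv y0 hyP) with hy'
  have hxx : Perm.ofSubtype x' = x0 := ofSubtype_subtypePerm _ hxP
  have hyy : Perm.ofSubtype y' = y0 := ofSubtype_subtypePerm _ hyP
  have horder : ∀ g : Perm {a // P a}, orderOf (Perm.ofSubtype g) = orderOf g := fun g =>
    orderOf_injective Perm.ofSubtype ofSubtype_injective g
  obtain ⟨d, hd, ⟨e⟩⟩ := core (α := {a // P a}) hm hp hq hpq hqm hm2 hgood (x := x') (y := y')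
    (mem_alternatingGroup.2 (by rw [← sign_ofSubtype, hxx]; exact mem_alternatingGroup.1 x.2))
    (mem_alternatingGroup.2 (by rw [← sign_ofSubtype, hyy]; exact mem_alternatingGroup.1 y.2))
    (by rw [← horder, hxx, hx0, Subgroup.orderOf_coe, hx])
    (by rw [← horder, hyy, hy0, Subgroup.orderOf_coe, hy])
    (fun a => by
      rcases Finset.mem_union.1 a.2 with h | h
      · exact Or.inl fun e => mem_support.1 h (congrArg Subtype.val e)
      · exact Or.inr fun e => mem_support.1 h (congrArg Subtype.val e))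
    ((Fintype.card_subtype_le _).trans (le_of_eq (Fintype.card_fin m)))
  refine ⟨d, hd, ⟨?_⟩⟩
  have himg : (Subgroup.closure ({x, y} : Set (alternatingGroup (Fin m)))).map (alternatingGroup (Fin m)).subtype
      = (Subgroup.closure ({x', y'} : Set (Perm {a // P a}))).map Perm.ofSubtype := by
    rw [MonoidHom.map_closure, MonoidHom.map_closure, Set.image_pair, Set.image_pair, hxx, hyy]
    rfl
  exact (Subgroup.equivMapOfInjective _ _ (alternatingGroup (Fin m)).subtype_injective).trans
    ((MulEquiv.subgroupCongr himg).trans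
      ((Subgroup.equivMapOfInjective _ _ ofSubtype_injective).symm.trans e))

end Cfsg.Agent.S4150
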