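import Cfsg.Statements.S4151
import Cfsg.Agent.H88.TIHall

set_option autoImplicit false
open Cfsg

namespace Cfsg.Agent.S4151

/-- Let G be a finite group and H a non-normal subgroup meeting each of its conjugates by elements outside N_G(H) trivially, with the order of H coprime to its index in N_G(H), such that G is π-separable for π the set of primes dividing the order of H (G has a chain of normal subgroups from 1 to G each of whose factors has order divisible only by primes dividing the order of H or coprime to it). Suppose a Sylow 2-subgroup of H is abelian and Q is a complement of H in N_G(H). Then C_H(Q), the subgroup of elements of H commuting with Q, has order coprime to its index in G and has a normal complement in G. -/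
theorem result {G : Type*} [Group G] [Finite G] (H : Subgroup G)
    (hTI : Cfsg.IsTISubset (H : Set G)) (hnn : ¬ H.Normal)
    (hHall : (Nat.card H).Coprime (H.subgroupOf (Subgroup.normalizer (H : Set G))).index)
    (hsep : ∃ (n : ℕ) (M : Fin (n + 1) → Subgroup G), M 0 = ⊥ ∧ M (Fin.last n) = ⊤ ∧ Monotone M ∧ (∀ i, (M i).Normal) ∧
      ∀ i : Fin n, (∀ q : ℕ, q.Prime → q ∣ (M i.castSucc).relIndex (M i.succ) → q ∣ Nat.card H) ∨
        ((M i.castSucc).relIndex (M i.succ)).Coprime (Nat.card H))
    (h2 : ∀ P : Sylow 2 H, IsMulCommutative (P : Subgroup H))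
    (Q : Subgroup G) (hQ : Q ≤ Subgroup.normalizer (H : Set G)) (hQH : Q ⊓ H = ⊥) (hQH' : Q ⊔ H = Subgroup.normalizer (H : Set G)) :
    (Nat.card ↥(H ⊓ Subgroup.centralizer (Q : Set G))).Coprime (H ⊓ Subgroup.centralizer (Q : Set G)).index ∧
    ∃ N : Subgroup G, N.Normal ∧ N.IsComplement' (H ⊓ Subgroup.centralizer (Q : Set G)) := by
  exact Cfsg.Agent.H88.TIHall.main H hTI hnn hHall hsep h2 Q hQ hQH hQH'

end Cfsg.Agent.S4151
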