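import Cfsg.Statements.S4153
import Cfsg.Agent.H86.Basic

set_option autoImplicit false
open Cfsg

namespace Cfsg.Agent.S4153

/-- Let G be a finite group, p a prime, N a normal subgroup, P a Sylow p-subgroup of G and P̄ a Sylow p-subgroup of G/N. Count the elements of p-power order, the identity included. Then (number of such elements of G/N)/#P̄ ≤ (number of such elements of G)/#P, stated as a cross-multiplied inequality, with equality when N is central. -/
theorem result {G : Type*} [Group G] [Finite G] (p : ℕ) [Fact p.Prime] (N : Subgroup G) [N.Normal]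
    (P : Sylow p G) (Pbar : Sylow p (G ⧸ N)) :
    Nat.card {g : (G ⧸ N) // ∃ k : ℕ, orderOf g = p ^ k} * Nat.card (P : Subgroup G) ≤ Nat.card {g : G // ∃ k : ℕ, orderOf g = p ^ k} * Nat.card (Pbar : Subgroup (G ⧸ N)) ∧
    (N ≤ Subgroup.center G → Nat.card {g : (G ⧸ N) // ∃ k : ℕ, orderOf g = p ^ k} * Nat.card (P : Subgroup G) = Nat.card {g : G // ∃ k : ℕ, orderOf g = p ^ k} * Nat.card (Pbar : Subgroup (G ⧸ N))) := by
  classical
  haveI := Fintype.ofFinite {g : G ⧸ N // ∃ k : ℕ, orderOf g = p ^ k}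
  have hp : p.Prime := Fact.out
  let π := QuotientGroup.mk' N
  have hπ : Function.Surjective π := QuotientGroup.mk'_surjective N
  have hPd : ∀ R : Sylow p G,
      Nat.card (P : Subgroup G) = Nat.card (N ⊓ (R : Subgroup G) : Subgroup G) *
        Nat.card (Pbar : Subgroup (G ⧸ N)) := by
    intro R
    have h1 : Nat.card (Pbar : Subgroup (G ⧸ N)) = Nat.card ((R : Subgroup G).map π) := by
      rw [← Sylow.coe_mapSurjective hπ R, Sylow.card_eq_multiplicity, Sylow.card_eq_multiplicity]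
    have h2 : Nat.card (P : Subgroup G) = Nat.card (R : Subgroup G) := by
      rw [Sylow.card_eq_multiplicity, Sylow.card_eq_multiplicity]
    have h3 : Nat.card (π.domRestrict (R : Subgroup G)).ker =
        Nat.card (N ⊓ (R : Subgroup G) : Subgroup G) := by
      refine Nat.card_congr
        { toFun := fun x => ⟨x.1.1, Subgroup.mem_inf.2 ⟨(QuotientGroup.eq_one_iff _).1 x.2, x.1.2⟩⟩
          invFun := fun x => ⟨⟨x.1, (Subgroup.mem_inf.1 x.2).2⟩,
            (QuotientGroup.eq_one_iff _).2 (Subgroup.mem_inf.1 x.2).1⟩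
          left_inv := fun x => rfl
          right_inv := fun x => rfl }
    have h4 := (π.domRestrict (R : Subgroup G)).ker.card_mul_index
    rw [Subgroup.index_ker, h3, MonoidHom.domRestrict_range, ← h1, ← h2] at h4
    exact h4.symm
  -- a p-element lift and a Sylow subgroup containing it
  have hlift : ∀ q : {g : G ⧸ N // ∃ k : ℕ, orderOf g = p ^ k},
      ∃ (g : G) (R : Sylow p G), π g = q ∧ g ∈ (R : Subgroup G) := by
    rintro ⟨q, k, hk⟩
    obtain ⟨x, rfl⟩ := hπ q
    obtain ⟨y, z, hy, hz, hyz, ⟨j, hj⟩, hzc⟩ :=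
      H86.exists_pPart_mul_pPrimePart x (isOfFinOrder_of_finite x) hp
    have hz1 : π z = 1 := by
      obtain ⟨i, rfl⟩ := Subgroup.mem_zpowers_iff.1 hz
      rw [← orderOf_eq_one_iff]
      refine Nat.eq_one_of_dvd_coprimes (hzc.pow_right k) (orderOf_map_dvd _ _) (hk ▸ ?_)
      rw [map_zpow]
      exact orderOf_dvd_of_mem_zpowers (Subgroup.zpow_mem_zpowers _ i)
    obtain ⟨R, hR⟩ := (IsPGroup.of_card (p := p) (n := j) (G := Subgroup.zpowers y)
      (by rw [Nat.card_zpowers, hj])).exists_le_sylow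
    refine ⟨y, R, ?_, hR (Subgroup.mem_zpowers y)⟩
    show π y = π x
    rw [← hyz, map_mul, hz1, mul_one]
  choose lg lR hlg hlR using hlift
  have hpel : ∀ (R : Sylow p G) (x : G), x ∈ (R : Subgroup G) → ∃ k, orderOf x = p ^ k := by
    intro R x hx
    obtain ⟨n, hn⟩ := R.isPGroup'.exists_card_eq
    obtain ⟨i, -, hi⟩ := (Nat.dvd_prime_pow hp).1 (hn ▸ Subgroup.orderOf_dvd_natCard _ hx)
    exact ⟨i, hi⟩
  let F : (Σ q : {g : G ⧸ N // ∃ k : ℕ, orderOf g = p ^ k},
      (N ⊓ (lR q : Subgroup G) : Subgroup G)) → {g : G // ∃ k : ℕ, orderOf g = p ^ k} :=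
    fun s => ⟨lg s.1 * s.2, hpel (lR s.1) _
      ((lR s.1 : Subgroup G).mul_mem (hlR s.1) (Subgroup.mem_inf.1 s.2.2).2)⟩
  have hF : Function.Injective F := by
    rintro ⟨q, n⟩ ⟨q', n'⟩ h
    have h' : lg q * n = lg q' * n' := congrArg Subtype.val h
    have hq : q = q' := by
      apply Subtype.ext
      have e : ∀ (q : {g : G ⧸ N // ∃ k : ℕ, orderOf g = p ^ k}) (n : (N ⊓ (lR q : Subgroup G) : Subgroup G)),
          π (lg q * n) = q := fun q n => by
        rw [map_mul, hlg, show π (n : G) = 1 from (QuotientGroup.eq_one_iff _).2 (Subgroup.mem_inf.1 n.2).1, mul_one]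
      rw [← e q n, h', e q' n']
    subst hq
    exact congrArg (Sigma.mk q) (Subtype.ext (mul_left_cancel h'))
  have hcount : Nat.card {g : G ⧸ N // ∃ k : ℕ, orderOf g = p ^ k} * Nat.card (P : Subgroup G) =
      Nat.card (Σ q : {g : G ⧸ N // ∃ k : ℕ, orderOf g = p ^ k},
        (N ⊓ (lR q : Subgroup G) : Subgroup G)) * Nat.card (Pbar : Subgroup (G ⧸ N)) := by
    rw [Nat.card_sigma, Finset.sum_mul, Finset.sum_congr rfl fun q _ => (hPd (lR q)).symm,
      Finset.sum_const, smul_eq_mul, Finset.card_univ, Nat.card_eq_fintype_card]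
  refine ⟨?_, fun hcen => ?_⟩
  · rw [hcount]
    exact Nat.mul_le_mul_right _ (Nat.card_le_card_of_injective F hF)
  · rw [hcount, Nat.card_eq_of_bijective F ⟨hF, ?_⟩]
    rintro ⟨x, j, hj⟩
    have hqx : ∃ k : ℕ, orderOf (π x) = p ^ k := by
      obtain ⟨i, -, hi⟩ := (Nat.dvd_prime_pow hp).1 (hj ▸ orderOf_map_dvd π x)
      exact ⟨i, hi⟩
    set q : {g : G ⧸ N // ∃ k : ℕ, orderOf g = p ^ k} := ⟨π x, hqx⟩
    have hmem : (lg q)⁻¹ * x ∈ N := QuotientGroup.eq.1 (hlg q)
    have hc := Subgroup.mem_center_iff.1 (hcen hmem)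
    obtain ⟨i, hi⟩ := hpel _ _ (hlR q)
    have hcom : Commute (lg q) x := by
      show lg q * x = x * lg q
      calc lg q * x = lg q * (lg q * ((lg q)⁻¹ * x)) := by group
        _ = lg q * (((lg q)⁻¹ * x) * lg q) := by rw [hc]
        _ = x * lg q := by group
    obtain ⟨r, -, hr⟩ := (Nat.dvd_prime_pow hp).1 (show orderOf ((lg q)⁻¹ * x) ∣ p ^ (i + j) by
      rw [pow_add]
      refine (hcom.inv_left.orderOf_mul_dvd_mul_orderOf).trans ?_
      rw [orderOf_inv, hi, hj])
    have hsup : Subgroup.zpowers ((lg q)⁻¹ * x) ≤ (lR q : Subgroup G) := by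
      have hz : IsPGroup p (Subgroup.zpowers ((lg q)⁻¹ * x)) :=
        IsPGroup.of_card (n := r) (by rw [Nat.card_zpowers, hr])
      haveI : (Subgroup.zpowers ((lg q)⁻¹ * x)).Normal := ⟨fun a ha g => by
        have : a ∈ Subgroup.center G := (Subgroup.zpowers_le.2 (hcen hmem)) ha
        rwa [Subgroup.mem_center_iff.1 this g, mul_inv_cancel_right]⟩
      exact le_sup_right.trans (le_of_eq ((lR q).is_maximal'
        ((lR q).isPGroup'.to_sup_of_normal_right hz) le_sup_left))
    exact ⟨⟨q, ⟨_, Subgroup.mem_inf.2 ⟨hmem, hsup (Subgroup.mem_zpowers _)⟩⟩⟩,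
      Subtype.ext (mul_inv_cancel_left _ _)⟩

end Cfsg.Agent.S4153
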