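import Cfsg.Statements.S4154
-- no helpers

set_option autoImplicit false
open Cfsg

namespace Cfsg.Agent.S4154

/-- Let G be a finite group and α an automorphism of G such that every element of G is the product of an element fixed by α and an element of the form g⁻¹α(g). If N is a normal α-invariant subgroup, then the automorphism ᾱ induced on G/N has the same property, and every coset fixed by ᾱ contains an element fixed by α (so the fixed points of ᾱ are the images of the fixed points of α). -/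
theorem result {G : Type*} [Group G] [Finite G] (α : MulAut G)
    (hccp : ∀ x : G, ∃ c g : G, α c = c ∧ x = c * (g⁻¹ * α g))
    (N : Subgroup G) [N.Normal] (hN : ∀ n ∈ N, α n ∈ N) :
    (∀ x : G, ∃ c g : G, c⁻¹ * α c ∈ N ∧ x⁻¹ * (c * (g⁻¹ * α g)) ∈ N) ∧
    (∀ x : G, x⁻¹ * α x ∈ N → ∃ c : G, α c = c ∧ c⁻¹ * x ∈ N) := by
  refine ⟨fun x => ?_, fun x hx => ?_⟩
  · obtain ⟨c, g, hc, rfl⟩ := hccp x
    exact ⟨c, g, by rw [hc, inv_mul_cancel]; exact N.one_mem,
      by rw [inv_mul_cancel]; exact N.one_mem⟩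
  classical
  let β : G ⧸ N →* G ⧸ N := QuotientGroup.map N N α.toMonoidHom (fun n hn => hN n hn)
  have hβ : ∀ g : G, β (QuotientGroup.mk g) = QuotientGroup.mk (α g) := fun g => rfl
  let C' : Subgroup (G ⧸ N) := β.eqLocus (MonoidHom.id _)
  let I : Set (G ⧸ N) := {q | ∃ c : G, α c = c ∧ (QuotientGroup.mk c : G ⧸ N) = q}
  let f : G ⧸ N → G ⧸ N := fun q => q⁻¹ * β q
  have hIC : I ⊆ (C' : Set (G ⧸ N)) := by
    rintro q ⟨c, hc, rfl⟩
    show β (QuotientGroup.mk c) = QuotientGroup.mk c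
    rw [hβ, hc]
  have hle1 : Nat.card (Set.range f × C') ≤ Nat.card (G ⧸ N) := by
    refine Nat.card_le_card_of_injective (fun yc => (yc.2 : G ⧸ N) * yc.1.2.choose) ?_
    have hf : ∀ yc : Set.range f × C', f ((yc.2 : G ⧸ N) * yc.1.2.choose) = yc.1 := by
      intro yc
      have h1 : β (yc.2 : G ⧸ N) = yc.2 := yc.2.2
      refine Eq.trans ?_ yc.1.2.choose_spec
      simp only [f, map_mul, h1]; group
    intro a b hab
    have h1 : a.1 = b.1 := Subtype.ext ((hf a).symm.trans ((congrArg f hab).trans (hf b)))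
    refine Prod.ext h1 (Subtype.ext ?_)
    simpa [h1] using hab
  have hle2 : Nat.card (G ⧸ N) ≤ Nat.card (I × Set.range f) := by
    refine Nat.card_le_card_of_surjective (fun ab => (ab.1 : G ⧸ N) * ab.2) ?_
    intro q
    obtain ⟨y, rfl⟩ := QuotientGroup.mk_surjective q
    obtain ⟨c, g, hc, rfl⟩ := hccp y
    exact ⟨(⟨_, c, hc, rfl⟩, ⟨f (QuotientGroup.mk g), _, rfl⟩), by simp [f, hβ]⟩
  rw [Nat.card_prod] at hle1 hle2
  have hpos : 0 < Nat.card (Set.range f) := by
    haveI : Nonempty (Set.range f) := ⟨⟨f 1, 1, rfl⟩⟩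
    exact Nat.card_pos
  have hcard : Nat.card C' ≤ Nat.card I :=
    Nat.le_of_mul_le_mul_left (hle1.trans (hle2.trans (le_of_eq (mul_comm _ _)))) hpos
  have hEq : I = (C' : Set (G ⧸ N)) :=
    Set.eq_of_subset_of_ncard_le hIC (by rw [← Nat.card_coe_set_eq, ← Nat.card_coe_set_eq]; exact hcard)
  have hm : (QuotientGroup.mk x : G ⧸ N) ∈ (C' : Set (G ⧸ N)) := by
    show β (QuotientGroup.mk x) = QuotientGroup.mk x
    rw [hβ]
    exact (QuotientGroup.eq.2 hx).symm
  rw [← hEq] at hm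
  obtain ⟨c, hc, hcx⟩ := hm
  exact ⟨c, hc, QuotientGroup.eq.1 hcx⟩

end Cfsg.Agent.S4154
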