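import Cfsg.Statements.S4155
import Cfsg.Agent.H51.Basic
import Cfsg.Agent.H89.PrimaryParts
import Cfsg.Agent.H89.Nilpotent
import Cfsg.Agent.H21.UniqueSubgroup

set_option autoImplicit false
open Cfsg

namespace Cfsg.Agent.S4155

/-- Let G be a finite group and N a proper non-trivial normal nilpotent subgroup whose order is not a prime power, such that for every x outside N all elements of the coset xN have the same order as x. Then N is the Fitting subgroup of G, and for every prime q every Sylow q-subgroup of G/N is cyclic or generalized quaternion. -/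
theorem result {G : Type*} [Group G] [Finite G] (N : Subgroup G) [N.Normal] (hN1 : N ≠ ⊥) (hN2 : N ≠ ⊤)
    (heq : ∀ x : G, x ∉ N → ∀ n ∈ N, orderOf (x * n) = orderOf x)
    (hnil : Group.IsNilpotent N) (hnpp : ¬ IsPrimePow (Nat.card N)) :
    N = Cfsg.fittingSubgroup G ∧
    ∀ (q : ℕ) [Fact q.Prime] (Q : Sylow q (G ⧸ N)), IsCyclic (Q : Subgroup (G ⧸ N)) ∨ ∃ n : ℕ, Nonempty ((Q : Subgroup (G ⧸ N)) ≃* QuaternionGroup (2 ^ n)) := by
  classical
  have keyA : ∀ g : G, g ∉ N → ∀ n ∈ N, Commute g n → (orderOf g).Coprime (orderOf n) → n = 1 := by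
    intro g hg n hn hc hco
    have h2 := hc.orderOf_mul_eq_mul_orderOf_of_coprime hco
    rw [heq g hg n hn] at h2
    exact orderOf_eq_one_iff.1 (Nat.eq_of_mul_eq_mul_left (orderOf_pos g)
      (show orderOf g * orderOf n = orderOf g * 1 by rw [mul_one]; exact h2.symm))
  have hother : ∀ q : ℕ, q.Prime → ∃ r : ℕ, r.Prime ∧ r ≠ q ∧ r ∣ Nat.card N := by
    intro q hq
    by_contra hcon
    push Not at hcon
    apply hnpp
    have hc1 : Nat.card N ≠ 1 := fun h => hN1 (Subgroup.eq_bot_of_card_eq N h)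
    have hpow : Nat.card N = q ^ (Nat.card N).primeFactorsList.length := by
      apply Nat.eq_prime_pow_of_unique_prime_dvd Nat.card_pos.ne'
      intro r hr hrd
      by_contra hne
      exact hcon r hr hne hrd
    refine (isPrimePow_nat_iff _).2 ⟨q, _, hq, Nat.pos_of_ne_zero fun h0 => hc1 ?_, hpow.symm⟩
    rw [hpow, h0, pow_zero]
  have hqpow : ∀ {q r : ℕ}, q.Prime → r.Prime → r ≠ q → ∀ {g n : G}, (∃ a, orderOf g ∣ q ^ a) →
      (∃ b, orderOf n ∣ r ^ b) → (orderOf g).Coprime (orderOf n) := by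
    intro q r hq hr hrq g n ⟨a, ha⟩ ⟨b, hb⟩
    exact ((Nat.Coprime.pow a b ((Nat.coprime_primes hq hr).2 hrq.symm)).of_dvd ha hb)
  refine ⟨le_antisymm (Cfsg.Agent.H51.le_fittingSubgroup inferInstance hnil) ?_, ?_⟩
  · intro g hg
    by_contra hgN
    obtain ⟨q, hq, hgq⟩ := Cfsg.Agent.H89.exists_primaryPart_notMem N hgN
    obtain ⟨r, hr, hrq, hrd⟩ := hother q hq
    haveI := Fact.mk hr
    obtain ⟨⟨n, hn⟩, hno⟩ := exists_prime_orderOf_dvd_card' r hrd
    rw [Subgroup.orderOf_mk] at hno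
    have hco := hqpow hq hr hrq ⟨_, Cfsg.Agent.H89.orderOf_primaryPart_dvd q g⟩
      ⟨1, by rw [hno, pow_one]⟩
    have hc := Cfsg.Agent.H89.commute_of_nilpotent_coprime
      (Cfsg.Agent.H51.fittingSubgroup_isNilpotent G) (pow_mem hg _)
      (Cfsg.Agent.H51.le_fittingSubgroup inferInstance hnil hn) hco
    have := keyA _ hgq n hn hc hco
    rw [this, orderOf_one] at hno
    exact hr.one_lt.ne hno
  intro q hqF Qb
  have hq : q.Prime := hqF.out
  obtain ⟨r, hr, hrq, hrd⟩ := hother q hq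
  haveI := Fact.mk hr
  obtain ⟨Q, hQ⟩ := Sylow.mapSurjective_surjective (QuotientGroup.mk'_surjective N) q Qb
  obtain ⟨R⟩ : Nonempty (Sylow r N) := inferInstance
  haveI := hnil
  haveI hRn : (R : Subgroup N).Normal := R.normal_of_normalizerCondition Group.normalizerCondition_of_isNilpotent
  haveI : (R : Subgroup N).Characteristic := Sylow.characteristic_of_normal R hRn
  set V := (R : Subgroup N).map N.subtype with hV
  haveI hVn : V.Normal := ConjAct.normal_of_characteristic_of_normal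
  haveI : Nontrivial V := by
    rw [Subgroup.nontrivial_iff_ne_bot]
    intro h
    exact Sylow.ne_bot_of_dvd_card R hrd
      ((Subgroup.map_eq_bot_iff_of_injective _ N.subtype_injective).1 h)
  have hVord : ∀ v ∈ V, ∃ b, orderOf v ∣ r ^ b := by
    rintro _ ⟨v, hv, rfl⟩
    obtain ⟨b, hb⟩ := IsPGroup.iff_orderOf.1 R.isPGroup' ⟨v, hv⟩
    rw [Subgroup.orderOf_mk] at hb
    exact ⟨b, dvd_of_eq ((orderOf_injective N.subtype N.subtype_injective v).trans hb)⟩
  have hQord : ∀ g ∈ (Q : Subgroup G), ∃ a, orderOf g ∣ q ^ a := by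
    intro g hg
    obtain ⟨a, ha⟩ := IsPGroup.iff_orderOf.1 Q.isPGroup' ⟨g, hg⟩
    rw [Subgroup.orderOf_mk] at ha
    exact ⟨a, dvd_of_eq ha⟩
  let φ : (Q : Subgroup G) →* MulAut V := (MulAut.conjNormal (H := V)).comp (Q : Subgroup G).subtype
  let π : (Q : Subgroup G) →* (Qb : Subgroup (G ⧸ N)) :=
    ((QuotientGroup.mk' N).comp (Q : Subgroup G).subtype).codRestrict _ fun x => by
      rw [← hQ, Sylow.coe_mapSurjective]
      exact Subgroup.mem_map_of_mem _ x.2
  have hπ : Function.Surjective π := by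
    rintro ⟨y, hy⟩
    rw [← hQ, Sylow.coe_mapSurjective] at hy
    obtain ⟨x, hx, rfl⟩ := hy
    exact ⟨⟨x, hx⟩, rfl⟩
  have hπker : ∀ x : (Q : Subgroup G), π x = 1 ↔ (x : G) ∈ N := fun x => by
    rw [Subtype.ext_iff]
    exact QuotientGroup.eq_one_iff (x : G)
  have hker : π.ker ≤ φ.ker := by
    intro x hx
    rw [MonoidHom.mem_ker] at hx ⊢
    refine MulEquiv.ext fun v => Subtype.ext ?_
    have hc := Cfsg.Agent.H89.commute_of_nilpotent_coprime hnil ((hπker x).1 hx)
      (Subgroup.map_subtype_le _ v.2)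
      (hqpow hq hr hrq (hQord _ x.2) (hVord _ v.2))
    show (x : G) * (v : G) * (x : G)⁻¹ = v
    rw [hc.eq, mul_inv_cancel_right]
  set ψ : (Qb : Subgroup (G ⧸ N)) →* MulAut V := π.liftOfSurjective hπ ⟨φ, hker⟩ with hψ
  have hψπ : ∀ x, ψ (π x) = φ x := fun x =>
    MonoidHom.liftOfRightInverse_comp_apply _ _ (Function.rightInverse_surjInv hπ) ⟨φ, hker⟩ x
  have hfpf : ∀ e, e ≠ 1 → ∀ v : V, ψ e v = v → v = 1 := by
    intro e he v hv
    obtain ⟨x, rfl⟩ := hπ e
    rw [hψπ] at hv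
    have hc : Commute (x : G) (v : G) := mul_inv_eq_iff_eq_mul.1 (congrArg Subtype.val hv)
    exact Subtype.ext (keyA _ (fun h => he ((hπker x).2 h)) _ (Subgroup.map_subtype_le _ v.2) hc
      (hqpow hq hr hrq (hQord _ x.2) (hVord _ v.2)))
  rcases Cfsg.Agent.H21.cyclic_or_quaternion q Qb.isPGroup'
      (Cfsg.Agent.H21.unique_subgroup_of_fpf Qb.isPGroup' ψ hfpf) with h | ⟨-, n, hn⟩
  · exact Or.inl h
  · exact Or.inr ⟨n, hn⟩

end Cfsg.Agent.S4155
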