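import Cfsg.Statements.S4156
-- no helpers

set_option autoImplicit false
open Cfsg

namespace Cfsg.Agent.S4156

/-- Extension of a vector to a sum-zero vector. -/
noncomputable def ext0 (F : Type*) [Field F] (n : ℕ) : (Fin n → F) →ₗ[F] (Fin (n + 1) → F) where
  toFun v := Fin.snoc v (-∑ i, v i)
  map_add' v w := by
    funext i
    refine Fin.lastCases ?_ ?_ i
    · simp [Finset.sum_add_distrib]; ring
    · intro j; simp
  map_smul' c v := by
    funext i
    refine Fin.lastCases ?_ ?_ i
    · simp [Finset.mul_sum]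
    · intro j; simp

theorem sum_ext0 (F : Type*) [Field F] (n : ℕ) (v : Fin n → F) : ∑ i, ext0 F n v i = 0 := by
  simp [ext0, Fin.sum_univ_castSucc]

/-- The deleted permutation representation. -/
noncomputable def deleted (F : Type*) [Field F] (n : ℕ) :
    Equiv.Perm (Fin (n + 1)) →* Module.End F (Fin n → F) where
  toFun σ := (LinearMap.funLeft F F Fin.castSucc).comp
    ((LinearMap.funLeft F F σ.symm).comp (ext0 F n))
  map_one' := by
    refine LinearMap.ext fun v => funext fun i => ?_
    show ext0 F n v (Fin.castSucc i) = v i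
    simp [ext0]
  map_mul' a b := by
    refine LinearMap.ext fun v => funext fun i => ?_
    have : ext0 F n (fun j => ext0 F n v (b.symm (Fin.castSucc j))) =
        fun j => ext0 F n v (b.symm j) := by
      funext j
      refine Fin.lastCases ?_ ?_ j
      · have h := Equiv.sum_comp b.symm (ext0 F n v)
        rw [sum_ext0, Fin.sum_univ_castSucc] at h
        simp only [ext0, LinearMap.coe_mk, AddHom.coe_mk, Fin.snoc_last]
        simp only [ext0, LinearMap.coe_mk, AddHom.coe_mk] at h
        linear_combination -h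
      · intro j; simp [ext0]
    show ext0 F n v ((a * b).symm i.castSucc) =
      ext0 F n (fun j => ext0 F n v (b.symm (Fin.castSucc j))) (a.symm i.castSucc)
    rw [this]; rfl

theorem deleted_ne_one (F : Type*) [Field F] (n : ℕ) (hn : 2 ≤ n) (σ : Equiv.Perm (Fin (n + 1)))
    (h0 : σ ⟨0, by omega⟩ = ⟨1, by omega⟩) (hlast : σ (Fin.last n) = Fin.last n) :
    deleted F n σ ≠ 1 := by
  intro h
  have h2 := congrFun (LinearMap.congr_fun h (Pi.single ⟨0, by omega⟩ 1)) ⟨1, by omega⟩
  change ext0 F n _ (σ.symm (Fin.castSucc ⟨1, by omega⟩)) = _ at h2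
  have e : σ.symm (Fin.castSucc (⟨1, by omega⟩ : Fin n)) = Fin.castSucc (⟨0, by omega⟩ : Fin n) := by
    rw [Equiv.symm_apply_eq]
    exact h0.symm
  rw [e] at h2
  simp only [ext0, LinearMap.coe_mk, AddHom.coe_mk, Fin.snoc_castSucc, Module.End.one_apply,
    Pi.single_eq_same] at h2
  rw [Pi.single_eq_of_ne (by simp [Fin.ext_iff])] at h2
  exact one_ne_zero h2

theorem exists_moving (n : ℕ) (hn : 5 ≤ n) : ∃ σ : alternatingGroup (Fin (n + 1)),
    (σ : Equiv.Perm (Fin (n + 1))) ⟨0, by omega⟩ = ⟨1, by omega⟩ ∧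
    (σ : Equiv.Perm (Fin (n + 1))) (Fin.last n) = Fin.last n := by
  let a : Fin (n + 1) := ⟨0, by omega⟩
  let b : Fin (n + 1) := ⟨1, by omega⟩
  let c : Fin (n + 1) := ⟨2, by omega⟩
  refine ⟨⟨Equiv.swap a b * Equiv.swap a c * (Equiv.swap a b * Equiv.swap a c), ?_⟩, ?_, ?_⟩
  · rw [Equiv.Perm.mem_alternatingGroup]
    simp [a, b, c, Fin.ext_iff]
  · simp [a, b, c, Equiv.swap_apply_def, Fin.ext_iff]
  · simp only [a, b, c, Equiv.Perm.mul_apply, Equiv.swap_apply_def, Fin.ext_iff, Fin.val_last]
    repeat' split_ifs <;> simp_all <;> omega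


/-- Let n ≥ 5 and F a finite field. Then the projective special linear group PSL_n(F) contains a subgroup isomorphic to the alternating group of degree n + 1. -/
theorem result (n : ℕ) (hn : 5 ≤ n) (F : Type*) [Field F] [Finite F] :
    ∃ f : alternatingGroup (Fin (n + 1)) →* Matrix.ProjectiveSpecialLinearGroup (Fin n) F, Function.Injective f := by
  classical
  haveI : IsSimpleGroup (alternatingGroup (Fin (n + 1))) :=
    alternatingGroup.isSimpleGroup (by rw [Nat.card_fin]; omega)
  have hnc : ¬ IsMulCommutative (alternatingGroup (Fin (n + 1))) := by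
    rw [alternatingGroup.isMulCommutative_iff_card_le_three, Nat.card_fin]; omega
  have hperf : commutator (alternatingGroup (Fin (n + 1))) = ⊤ :=
    ((Subgroup.commutator_normal ⊤ ⊤).eq_bot_or_eq_top).resolve_left
      (fun h => hnc ((commutator_eq_bot_iff _).1 h))
  let M : alternatingGroup (Fin (n + 1)) →* Matrix (Fin n) (Fin n) F :=
    (LinearMap.toMatrixAlgEquiv' (R := F)).toMonoidHom.comp
      ((deleted F n).comp (alternatingGroup (Fin (n + 1))).subtype)
  have hdet : ∀ σ, (M σ).det = 1 := by
    intro σ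
    let d : alternatingGroup (Fin (n + 1)) →* Fˣ :=
      ((Matrix.detMonoidHom (R := F)).comp M).toHomUnits
    have hle : commutator (alternatingGroup (Fin (n + 1))) ≤ d.ker := by
      rw [commutator_def, Subgroup.commutator_le]
      intro a _ b _
      rw [MonoidHom.mem_ker, map_commutatorElement, commutatorElement_eq_one_iff_mul_comm, mul_comm]
    have : d σ = 1 := hle (hperf ▸ Subgroup.mem_top σ)
    exact congrArg Units.val this
  let φ : alternatingGroup (Fin (n + 1)) →* Matrix.SpecialLinearGroup (Fin n) F :=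
    { toFun := fun σ => ⟨M σ, hdet σ⟩
      map_one' := Subtype.ext (map_one M)
      map_mul' := fun a b => Subtype.ext (map_mul M a b) }
  have hφ : Function.Injective φ := by
    rw [← MonoidHom.ker_eq_bot_iff]
    refine φ.normal_ker.eq_bot_or_eq_top.resolve_right fun htop => ?_
    obtain ⟨σ, h0, hlast⟩ := exists_moving n hn
    have hσ : σ ∈ φ.ker := by rw [htop]; exact Subgroup.mem_top σ
    have h1 : M σ = 1 := congrArg (fun (x : Matrix.SpecialLinearGroup (Fin n) F) => (x : Matrix (Fin n) (Fin n) F)) (MonoidHom.mem_ker.1 hσ)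
    refine deleted_ne_one F n (by omega) (σ : Equiv.Perm (Fin (n + 1))) h0 hlast ?_
    apply (LinearMap.toMatrixAlgEquiv' (R := F) (n := Fin n)).injective
    rw [map_one]
    exact h1
  let f : alternatingGroup (Fin (n + 1)) →* Matrix.ProjectiveSpecialLinearGroup (Fin n) F :=
    (QuotientGroup.mk' (Subgroup.center (Matrix.SpecialLinearGroup (Fin n) F))).comp φ
  refine ⟨f, ?_⟩
  rw [← MonoidHom.ker_eq_bot_iff]
  refine f.normal_ker.eq_bot_or_eq_top.resolve_right fun htop => hnc ⟨⟨fun a b => hφ ?_⟩⟩
  have hker : a ∈ f.ker := by rw [htop]; exact Subgroup.mem_top a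
  have ha : φ a ∈ Subgroup.center (Matrix.SpecialLinearGroup (Fin n) F) :=
    (QuotientGroup.eq_one_iff _).1 (MonoidHom.mem_ker.1 hker)
  rw [map_mul, map_mul]
  exact (Subgroup.mem_center_iff.1 ha (φ b)).symm

end Cfsg.Agent.S4156
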