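import Cfsg.Statements.S4161
import Cfsg.Agent.H56.ClassSizePrimes

set_option autoImplicit false
open Cfsg

namespace Cfsg.Agent.S4161

/-- Let G be a finite non-solvable group and p ≠ q primes each dividing the size of some conjugacy class of G. Then either some class size is divisible by pq, or there is a prime r, different from p and q, such that some class size is divisible by pr and some class size is divisible by rq. -/
theorem result {G : Type*} [Group G] [Finite G] (hG : ¬ Group.IsSolvable G)
    (p q : ℕ) (hp : p.Prime) (hq : q.Prime) (hpq : p ≠ q) (hp' : ∃ x : G, p ∣ (Subgroup.centralizer ({x} : Set G)).index) (hq' : ∃ x : G, q ∣ (Subgroup.centralizer ({x} : Set G)).index) :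
    (∃ x : G, p * q ∣ (Subgroup.centralizer ({x} : Set G)).index) ∨ ∃ r : ℕ, r.Prime ∧ r ≠ p ∧ r ≠ q ∧ (∃ x : G, p * r ∣ (Subgroup.centralizer ({x} : Set G)).index) ∧ (∃ y : G, r * q ∣ (Subgroup.centralizer ({y} : Set G)).index) := by
  exact Cfsg.Agent.H56.ClassSizePrimes.main hG hp hq hpq hp' hq'

end Cfsg.Agent.S4161
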