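import Cfsg.Statements.S4168
-- no helpers

set_option autoImplicit false
open Cfsg

namespace Cfsg.Agent.S4168

/-- Let L be a finite quasisimple group (perfect with L/Z(L) simple). Then every prime dividing the order of the centre Z(L) also divides the order of L/Z(L). -/
theorem result {L : Type*} [Group L] [Finite L] (hL : Cfsg.IsQuasisimple L)
    (p : ℕ) (hp : p.Prime) (hdiv : p ∣ Nat.card (Subgroup.center L)) : p ∣ (Subgroup.center L).index := by
  haveI : Fact p.Prime := ⟨hp⟩
  obtain ⟨z, hz⟩ := exists_prime_orderOf_dvd_card' p hdiv
  have h1 : MonoidHom.transferCenterPow L = 1 := by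
    have hker : commutator L ≤ (MonoidHom.transferCenterPow L).ker := by
      rw [commutator_def, Subgroup.commutator_le]
      intro a _ b _
      rw [MonoidHom.mem_ker, map_commutatorElement, commutatorElement_eq_one_iff_mul_comm]
      exact Subtype.ext ((MonoidHom.transferCenterPow L b).2.comm _).symm
    ext g
    have hg : g ∈ commutator L := by
      have := hL.1.commutator_eq_top
      rw [this]; trivial
    exact congrArg Subtype.val (MonoidHom.mem_ker.1 (hker hg))
  have h2 : z ^ (Subgroup.center L).index = 1 := by
    apply Subtype.ext
    have := congrArg (fun f : L →* Subgroup.center L => ((f (z : L)) : L)) h1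
    simpa using this
  rw [← hz]
  exact orderOf_dvd_of_pow_eq_one h2

end Cfsg.Agent.S4168
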