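import Cfsg.Statements.S4169
import Cfsg.Agent.H88.SmallClasses
import Cfsg.Agent.H24.PGroupBasic

set_option autoImplicit false
open Cfsg

namespace Cfsg.Agent.S4169

/-- Let P be a finite p-group whose conjugacy classes have exactly two sizes (1 and one other value). Then P has nilpotency class at most 3. -/
theorem result {P : Type*} [Group P] [Finite P] {p : ℕ} [Fact p.Prime] (hP : IsPGroup p P)
    (m : ℕ) (hm : 1 < m) (h : ∀ x : P, (Subgroup.centralizer ({x} : Set P)).index = 1 ∨ (Subgroup.centralizer ({x} : Set P)).index = m) :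
    upperCentralSeries P 3 = ⊤ := by
  obtain ⟨A, hAn, hA, hmax⟩ := H24.exists_maximal_normal_abelian P
  have hCA := H24.centralizer_eq_of_maximal_normal_abelian hP hA hmax
  have h3 := H88.upperCentralSeries_three_small_classes A hA hCA m (fun x hx =>
    ((h x).resolve_left hx.ne').ge)
  have htop : Subgroup.closure {x : P | (Subgroup.centralizer ({x} : Set P)).index = 1 ∨
      (Subgroup.centralizer ({x} : Set P)).index = m} = ⊤ := by
    rw [show {x : P | (Subgroup.centralizer ({x} : Set P)).index = 1 ∨
      (Subgroup.centralizer ({x} : Set P)).index = m} = Set.univ from Set.eq_univ_of_forall h,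
      Subgroup.closure_univ]
  rw [htop] at h3
  have h4 := Subgroup.lowerCentralSeries_eq_bot_iff_upperCentralSeries_eq_top.2 h3
  show Subgroup.upperCentralSeries P 3 = ⊤
  rw [← Subgroup.lowerCentralSeries_eq_bot_iff_upperCentralSeries_eq_top]
  have e := Subgroup.map_lowerCentralSeries (⊤ : Subgroup (⊤ : Subgroup P))
    (⊤ : Subgroup P).subtype 3
  rw [h4, Subgroup.map_bot, ← MonoidHom.range_eq_map, Subgroup.range_subtype] at e
  exact e.symm

end Cfsg.Agent.S4169
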