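import Cfsg.Statements.S4170
import Mathlib.Data.ZMod.QuotientGroup
-- import your own Cfsg.Agent.* helpers here

set_option autoImplicit false
open scoped Pointwise
open Cfsg

namespace Cfsg.Agent.S4170

/-- Let p be an odd prime and G a nontrivial group of permutations of a finite set Ω that is generated by its elements of p-power order. Then Ω has two disjoint nonempty subsets Δ₁ and Δ₂ such that the index in G of the subgroup of elements mapping Δ₁ onto Δ₁ and Δ₂ onto Δ₂ (and hence also the complement of their union onto itself) is divisible by p. -/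
theorem result {Ω : Type*} [Fintype Ω] (p : ℕ) [Fact p.Prime] (hp : p ≠ 2) (G : Subgroup (Equiv.Perm Ω)) (hG : G ≠ ⊥) (hgen : Subgroup.closure {g : G | ∃ k : ℕ, orderOf g = p ^ k} = ⊤) :
    ∃ Δ₁ Δ₂ : Set Ω, Δ₁.Nonempty ∧ Δ₂.Nonempty ∧ Disjoint Δ₁ Δ₂ ∧ p ∣ (MulAction.stabilizer G Δ₁ ⊓ MulAction.stabilizer G Δ₂).index := by
  classical
  have hex : ∃ x : G, orderOf x = p := by
    by_contra hne
    push Not at hne
    apply hG
    have hall : ∀ g : G, g = 1 := by
      intro g
      have hg : g ∈ (⊤ : Subgroup G) := Subgroup.mem_top g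
      rw [← hgen] at hg
      induction hg using Subgroup.closure_induction with
      | mem y hy =>
        obtain ⟨k, hk⟩ := hy
        rcases k with _ | k
        · exact orderOf_eq_one_iff.mp (by simpa using hk)
        · exact absurd (orderOf_pow_orderOf_div (n := p) (x := y)
            (by rw [hk]; exact pow_ne_zero _ (Fact.out : p.Prime).ne_zero)
            (hk ▸ dvd_pow_self p k.succ_ne_zero)) (hne _)
      | one => rfl
      | mul a b _ _ ha hb => simp [ha, hb]
      | inv a _ ha => simp [ha]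
    exact (Subgroup.eq_bot_iff_forall _).mpr fun g hg => congrArg Subtype.val (hall ⟨g, hg⟩)
  obtain ⟨x, hx⟩ := hex
  have hx1 : x ≠ 1 := fun h => (Fact.out : p.Prime).ne_one (by rw [← hx, h, orderOf_one])
  obtain ⟨a, ha⟩ : ∃ a : Ω, x • a ≠ a := by
    by_contra hcon
    push Not at hcon
    exact hx1 (Subtype.ext (Equiv.ext fun a => hcon a))
  set Z := Subgroup.zpowers x with hZ
  set Δ : Set Ω := MulAction.orbit Z a with hΔ
  have haΔ : a ∈ Δ := MulAction.mem_orbit_self a
  have hxaΔ : x • a ∈ Δ := ⟨⟨x, Subgroup.mem_zpowers x⟩, rfl⟩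
  have hcardZ : Nat.card Z = p := by rw [hZ, Nat.card_zpowers, hx]
  have hcard : Nat.card Δ = p := by
    have h1 : (MulAction.stabilizer Z a).index = Nat.card Δ := by
      rw [MulAction.index_stabilizer, hΔ]; exact (Nat.card_coe_set_eq _).symm
    have h2 : Nat.card Δ ∣ p := h1 ▸ hcardZ ▸ Subgroup.index_dvd_card _
    rcases (Fact.out : p.Prime).eq_one_or_self_of_dvd _ h2 with h | h
    · exfalso
      have := (Nat.card_eq_one_iff_unique.mp h).1
      exact ha (congrArg Subtype.val (Subsingleton.elim (⟨_, hxaΔ⟩ : Δ) ⟨a, haΔ⟩))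
    · exact h
  refine ⟨{a}, Δ \ {a}, Set.singleton_nonempty a, ⟨x • a, hxaΔ, ha⟩,
    Set.disjoint_sdiff_right, ?_⟩
  set K := MulAction.stabilizer G Δ with hK
  set L := MulAction.stabilizer G ({a} : Set Ω) ⊓ MulAction.stabilizer G (Δ \ {a}) with hL
  have hLK : L ≤ K := fun g hg => by
    obtain ⟨h1, h2⟩ := hg
    have h1' : g • ({a} : Set Ω) = {a} := h1
    have h2' : g • (Δ \ {a}) = Δ \ {a} := h2
    have hu : {a} ∪ (Δ \ {a}) = Δ := Set.union_sdiff_cancel (Set.singleton_subset_iff.mpr haΔ)
    show g • Δ = Δ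
    conv_lhs => rw [← hu, Set.smul_set_union, h1', h2', hu]
  have hsub : L.subgroupOf K = MulAction.stabilizer K a := by
    ext g
    constructor
    · intro hg
      have h1 : (g : G) • ({a} : Set Ω) = {a} := (Subgroup.mem_subgroupOf.mp hg).1
      rw [Set.smul_set_singleton, Set.singleton_eq_singleton_iff] at h1
      exact h1
    · intro hg
      have hga : (g : G) • a = a := hg
      have hgΔ : (g : G) • Δ = Δ := g.2
      refine Subgroup.mem_subgroupOf.mpr ⟨?_, ?_⟩
      · show (g : G) • ({a} : Set Ω) = {a}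
        rw [Set.smul_set_singleton, hga]
      · show (g : G) • (Δ \ {a}) = Δ \ {a}
        rw [Set.smul_set_sdiff, Set.smul_set_singleton, hga, hgΔ]
  have horb : MulAction.orbit K a = Δ := by
    ext b
    constructor
    · rintro ⟨g, rfl⟩
      have hgΔ : (g : G) • Δ = Δ := g.2
      exact hgΔ ▸ Set.smul_mem_smul_set haΔ
    · rintro ⟨⟨z, hz⟩, rfl⟩
      have hzK : z ∈ K := by
        show z • Δ = Δ
        rw [hΔ]
        exact MulAction.smul_orbit (⟨z, hz⟩ : Z) a
      exact ⟨⟨z, hzK⟩, rfl⟩
  rw [← Subgroup.relIndex_mul_index hLK]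
  refine Dvd.dvd.mul_right (Eq.dvd ?_) _
  show p = (L.subgroupOf K).index
  rw [hsub, MulAction.index_stabilizer, horb, ← Nat.card_coe_set_eq, hcard]

end Cfsg.Agent.S4170
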