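import Cfsg.Statements.S4176
import Cfsg.Agent.H88.OrbitFixed

set_option autoImplicit false
open Cfsg

namespace Cfsg.Agent.S4176

/-- Let k be a field of prime characteristic p, H a finite p-soluble group and ρ a k-linear representation of H on V. Let a be a vector that is fixed by some Sylow p-subgroup of H and whose H-orbit spans V. Then the space of H-fixed vectors has dimension at most 1, and every vector b whose H-orbit has size coprime to the size of the orbit of a is fixed by H. -/
theorem result {k V H : Type*} [Field k] (p : ℕ) [Fact p.Prime] [CharP k p] [AddCommGroup V] [Module k V]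
    [Group H] [Finite H] (hsol : Cfsg.IsPSolvable p H) (ρ : Representation k H V) (a : V)
    (hfix : ∃ P : Sylow p H, ∀ x : H, x ∈ (P : Subgroup H) → ρ x a = a)
    (hspan : Submodule.span k {u : V | ∃ h : H, ρ h a = u} = ⊤) :
    Module.finrank k ρ.invariants ≤ 1 ∧
    ∀ b : V, (Nat.card {u : V | ∃ h : H, ρ h a = u}).Coprime (Nat.card {u : V | ∃ h : H, ρ h b = u}) → ∀ h : H, ρ h b = b := by
  exact H88.spanning_orbit_psoluble p hsol ρ a hfix hspan

end Cfsg.Agent.S4176
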