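import Cfsg.Statements.S4177
import Cfsg.Agent.H88.CommPairs

set_option autoImplicit false
open Cfsg

namespace Cfsg.Agent.S4177

/-- Let k be a field whose characteristic does not divide the order of the finite group H (for instance a field of characteristic zero), and ρ a k-linear representation of H on V. Let a be a vector whose H-orbit spans V. Then the space of H-fixed vectors has dimension at most 1, and every vector b whose H-orbit has size coprime to the size of the orbit of a is fixed by H. -/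
theorem result {k V H : Type*} [Field k] [AddCommGroup V] [Module k V] [Group H] [Finite H]
    (hchar : ¬ ringChar k ∣ Nat.card H) (ρ : Representation k H V) (a : V)
    (hspan : Submodule.span k {u : V | ∃ h : H, ρ h a = u} = ⊤) :
    Module.finrank k ρ.invariants ≤ 1 ∧
    ∀ b : V, (Nat.card {u : V | ∃ h : H, ρ h a = u}).Coprime (Nat.card {u : V | ∃ h : H, ρ h b = u}) → ∀ h : H, ρ h b = b := by
  classical
  haveI := Fintype.ofFinite H
  have hmul : ∀ (g h : H) (v : V), ρ (g * h) v = ρ g (ρ h v) := fun g h v => by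
    rw [map_mul]; rfl
  have hone : ∀ v : V, ρ 1 v = v := fun v => by rw [map_one]; rfl
  letI act : MulAction H V :=
    { smul := fun h v => ρ h v, one_smul := hone, mul_smul := hmul }
  let O : Finset V := Finset.univ.image (fun h : H => ρ h a)
  have hO : ∀ u, u ∈ O ↔ ∃ h : H, ρ h a = u := fun u => by simp [O]
  -- the key lemma
  have key : ∀ b : V, (∀ u ∈ O, ∃ g : H, ρ g b = b ∧ ρ g a = u) →
      ∃ c : k, b = c • ∑ u ∈ O, u := by
    intro b hb
    have hsurj : ∀ v : V, ∃ f : O → k, ∑ u, f u • (u : V) = v := fun v => by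
      have hv : v ∈ Submodule.span k (Set.range (fun u : O => (u : V))) := by
        rw [Subtype.range_coe_subtype, show {u | u ∈ O} = {u : V | ∃ h : H, ρ h a = u} from
          Set.ext hO, hspan]
        trivial
      exact (Submodule.mem_span_range_iff_exists_fun k).1 hv
    choose σ hσ using hsurj
    let act' : H → O → O := fun h u => ⟨ρ h u, by
      obtain ⟨x, hx⟩ := (hO _).1 u.2
      exact (hO _).2 ⟨h * x, by rw [hmul, hx]⟩⟩
    let f : O → k := fun u => (Fintype.card H : k)⁻¹ * ∑ h : H, σ (ρ h⁻¹ b) (act' h⁻¹ u)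
    have hne : (Fintype.card H : k) ≠ 0 := by
      rw [Ne, ringChar.spec, ← Nat.card_eq_fintype_card]; exact hchar
    have hinv : ∀ (h : H) (v : V), ρ h⁻¹ (ρ h v) = v := fun h v => by
      rw [← hmul, inv_mul_cancel, hone]
    have hb' : ∑ u, f u • (u : V) = b := by
      have hh : ∀ h : H, ∑ u : O, σ (ρ h⁻¹ b) (act' h⁻¹ u) • (u : V) = b := by
        intro h
        let e : O ≃ O :=
          { toFun := act' h, invFun := act' h⁻¹
            left_inv := fun u => Subtype.ext (hinv h u)
            right_inv := fun u => Subtype.ext (by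
              show ρ h (ρ h⁻¹ u) = _
              rw [← hmul, mul_inv_cancel, hone]) }
        rw [← e.sum_comp]
        have : ∀ u : O, σ (ρ h⁻¹ b) (act' h⁻¹ (e u)) • ((e u : O) : V) =
            ρ h (σ (ρ h⁻¹ b) u • (u : V)) := fun u => by
          rw [map_smul, show act' h⁻¹ (e u) = u from e.left_inv u]; rfl
        rw [Finset.sum_congr rfl (fun u _ => this u), ← map_sum, hσ, ← hmul, mul_inv_cancel, hone]
      calc ∑ u, f u • (u : V)
          = (Fintype.card H : k)⁻¹ • ∑ h : H, ∑ u : O, σ (ρ h⁻¹ b) (act' h⁻¹ u) • (u : V) := by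
            rw [Finset.sum_comm, Finset.smul_sum]
            simp only [f, mul_smul, Finset.sum_smul, Finset.smul_sum]
        _ = b := by
            simp only [hh, Finset.sum_const, Finset.card_univ]
            rw [← Nat.cast_smul_eq_nsmul k, smul_smul, inv_mul_cancel₀ hne, one_smul]
    have haO : a ∈ O := (hO a).2 ⟨1, hone a⟩
    refine ⟨f ⟨a, haO⟩, ?_⟩
    have hconst : ∀ u : O, f u = f ⟨a, haO⟩ := by
      intro u
      obtain ⟨g, hgb, hga⟩ := hb u u.2
      simp only [f]
      apply congrArg (fun z => (Fintype.card H : k)⁻¹ * z)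
      rw [← Equiv.sum_comp (Equiv.mulLeft g)]
      refine Finset.sum_congr rfl fun h _ => ?_
      simp only [Equiv.coe_mulLeft, mul_inv_rev]
      have e1 : ρ (h⁻¹ * g⁻¹) b = ρ h⁻¹ b := by
        rw [hmul]; nth_rewrite 1 [← hgb]; rw [hinv]
      have e2 : act' (h⁻¹ * g⁻¹) u = act' h⁻¹ ⟨a, haO⟩ := Subtype.ext (by
        show ρ (h⁻¹ * g⁻¹) (u : V) = ρ h⁻¹ a
        rw [hmul, ← hga, hinv])
      rw [e1, e2]
    conv_lhs => rw [← hb']
    rw [Finset.smul_sum, Finset.sum_congr rfl (fun u _ => by rw [hconst u] :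
      ∀ u ∈ (Finset.univ : Finset O), f u • (u : V) = f ⟨a, haO⟩ • (u : V))]
    exact Finset.sum_coe_sort O (fun v => f ⟨a, haO⟩ • v)
  have hfixsum : ∀ g : H, ρ g (∑ u ∈ O, u) = ∑ u ∈ O, u := by
    intro g
    rw [map_sum]
    refine Finset.sum_nbij' (fun u => ρ g u) (fun u => ρ g⁻¹ u) ?_ ?_ ?_ ?_ ?_
    · intro u hu
      obtain ⟨x, hx⟩ := (hO _).1 hu
      exact (hO _).2 ⟨g * x, by rw [hmul, hx]⟩
    · intro u hu
      obtain ⟨x, hx⟩ := (hO _).1 hu
      exact (hO _).2 ⟨g⁻¹ * x, by rw [hmul, hx]⟩
    · intro u _; show ρ g⁻¹ (ρ g u) = u; rw [← hmul, inv_mul_cancel, hone]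
    · intro u _; show ρ g (ρ g⁻¹ u) = u; rw [← hmul, mul_inv_cancel, hone]
    · intro u _; rfl
  constructor
  · have hle : ρ.invariants ≤ k ∙ (∑ u ∈ O, u) := by
      intro b hb
      obtain ⟨c, hc⟩ := key b (fun u hu => by
        obtain ⟨g, hg⟩ := (hO u).1 hu
        exact ⟨g, hb g, hg⟩)
      exact Submodule.mem_span_singleton.2 ⟨c, hc.symm⟩
    refine (Submodule.finrank_mono hle).trans ?_
    rcases eq_or_ne (∑ u ∈ O, u) (0 : V) with h0 | h0
    · rw [h0, Submodule.span_zero_singleton, finrank_bot]; exact zero_le_one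
    · rw [finrank_span_singleton h0]
  · intro b hcop h
    let A := MulAction.stabilizer H a
    let B := MulAction.stabilizer H b
    have hA : Nat.card {u : V | ∃ h : H, ρ h a = u} = A.index := by
      rw [MulAction.index_stabilizer, ← Nat.card_coe_set_eq]; rfl
    have hB : Nat.card {u : V | ∃ h : H, ρ h b = u} = B.index := by
      rw [MulAction.index_stabilizer, ← Nat.card_coe_set_eq]; rfl
    rw [hA, hB] at hcop
    have hidx : (A ⊓ B).index = A.index * B.index :=
      le_antisymm Subgroup.index_inf_le (Nat.le_of_dvd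
        (Nat.pos_of_ne_zero Subgroup.index_ne_zero_of_finite)
        (hcop.mul_dvd_of_dvd_of_dvd (Subgroup.index_dvd_of_le inf_le_left)
          (Subgroup.index_dvd_of_le inf_le_right)))
    have hBcard : Nat.card B = A.index * Nat.card (A ⊓ B : Subgroup H) := by
      have h1 := B.card_mul_index
      have h2 := (A ⊓ B).card_mul_index
      rw [hidx] at h2
      exact Nat.eq_of_mul_eq_mul_right (Nat.pos_of_ne_zero Subgroup.index_ne_zero_of_finite)
        (h1.trans (h2.symm.trans (by ring)))
    obtain ⟨c, hc⟩ := key b (fun u hu => by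
      obtain ⟨g, hg⟩ := (hO u).1 hu
      obtain ⟨x, hx, y, hy, rfl⟩ := H88.exists_mul_of_card_eq B A hBcard g
      refine ⟨x, hx, ?_⟩
      rw [← hg, hmul, show ρ y a = a from hy])
    rw [hc, map_smul, hfixsum]

end Cfsg.Agent.S4177
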