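import Cfsg.Statements.S4178
-- no helpers

set_option autoImplicit false
open Cfsg

namespace Cfsg.Agent.S4178

/-- Let F be a finite field with q elements, V a non-zero finite-dimensional F-space of dimension d, H a group of invertible linear maps of V, and R the subgroup of H generated by the elements of H that fix some non-zero vector (have eigenvalue 1). Then the index of R in H is at most q^d − 1; and if H leaves invariant some proper non-zero subspace, the index is at most q^(d/2) − 1. -/
theorem result {F V : Type*} [Field F] [Fintype F] [AddCommGroup V] [Module F V] [FiniteDimensional F V] [Nontrivial V]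
    (H : Subgroup (V ≃ₗ[F] V)) :
    (Subgroup.closure {h : ↥H | ∃ v : V, v ≠ 0 ∧ (h : V ≃ₗ[F] V) v = v}).index ≤ Fintype.card F ^ Module.finrank F V - 1 ∧
    ((∃ W : Submodule F V, W ≠ ⊥ ∧ W ≠ ⊤ ∧ ∀ h ∈ H, ∀ w ∈ W, h w ∈ W) →
      ((Subgroup.closure {h : ↥H | ∃ v : V, v ≠ 0 ∧ (h : V ≃ₗ[F] V) v = v}).index : ℝ) ≤ Real.sqrt ((Fintype.card F : ℝ) ^ Module.finrank F V) - 1) := by
  classical
  haveI : Finite V := Module.finite_of_finite F
  haveI := Fintype.ofFinite V
  set R := Subgroup.closure {h : ↥H | ∃ v : V, v ≠ 0 ∧ (h : V ≃ₗ[F] V) v = v} with hR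
  refine ⟨?_, fun ⟨W, hW0, hW1, hW⟩ => ?_⟩
  · obtain ⟨v, hv⟩ := exists_ne (0 : V)
    have hinj : Function.Injective (fun q : H ⧸ R =>
        (⟨(q.out : V ≃ₗ[F] V) v, by simpa using hv⟩ : {w : V // w ≠ 0})) := by
      intro a b hab
      have hab' : (a.out : V ≃ₗ[F] V) v = (b.out : V ≃ₗ[F] V) v := congrArg Subtype.val hab
      rw [← a.out_eq, ← b.out_eq]
      refine QuotientGroup.eq.2 (Subgroup.subset_closure ⟨v, hv, ?_⟩)
      show (a.out : V ≃ₗ[F] V).symm ((b.out : V ≃ₗ[F] V) v) = v
      rw [← hab', LinearEquiv.symm_apply_apply]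
    refine (Nat.card_le_card_of_injective _ hinj).trans (le_of_eq ?_)
    rw [Nat.card_eq_fintype_card, Fintype.card_subtype_compl, Fintype.card_subtype_eq,
      Module.card_eq_pow_finrank (K := F)]
  · obtain ⟨w, hwW, hw⟩ := Submodule.exists_mem_ne_zero_of_ne_bot hW0
    obtain ⟨v, hv⟩ := SetLike.exists_not_mem_of_ne_top W hW1
    have h1 : R.index + 1 ≤ Nat.card W := by
      have : R.index ≤ Nat.card {u : W // u ≠ 0} := by
        refine Nat.card_le_card_of_injective (fun q : H ⧸ R =>
          (⟨⟨(q.out : V ≃ₗ[F] V) w, hW _ q.out.2 w hwW⟩, by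
            simpa [Subtype.ext_iff] using hw⟩ : {u : W // u ≠ 0})) ?_
        intro a b hab
        have hab' : (a.out : V ≃ₗ[F] V) w = (b.out : V ≃ₗ[F] V) w :=
          congrArg (fun u : {u : W // u ≠ 0} => (u.1 : V)) hab
        rw [← a.out_eq, ← b.out_eq]
        refine QuotientGroup.eq.2 (Subgroup.subset_closure ⟨w, hw, ?_⟩)
        show (a.out : V ≃ₗ[F] V).symm ((b.out : V ≃ₗ[F] V) w) = w
        rw [← hab', LinearEquiv.symm_apply_apply]
      rw [Nat.card_eq_fintype_card, Fintype.card_subtype_compl, Fintype.card_subtype_eq] at this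
      rw [Nat.card_eq_fintype_card]
      have := Fintype.card_pos (α := W)
      omega
    have h2 : R.index + 1 ≤ Nat.card (V ⧸ W) := by
      have : R.index ≤ Nat.card {u : V ⧸ W // u ≠ 0} := by
        refine Nat.card_le_card_of_injective (fun q : H ⧸ R =>
          (⟨Submodule.Quotient.mk ((q.out : V ≃ₗ[F] V) v), fun h0 => hv (by
            have := hW _ (H.inv_mem q.out.2) _ ((Submodule.Quotient.mk_eq_zero W).1 h0)
            rwa [show ((q.out : V ≃ₗ[F] V)⁻¹) ((q.out : V ≃ₗ[F] V) v) = v from
              LinearEquiv.symm_apply_apply _ v] at this)⟩ : {u : V ⧸ W // u ≠ 0})) ?_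
        intro a b hab
        have hab' := (Submodule.Quotient.eq W).1 (congrArg Subtype.val hab)
        rw [← a.out_eq, ← b.out_eq]
        refine QuotientGroup.eq.2 (Subgroup.subset_closure ?_)
        set g := ((a.out⁻¹ * b.out : H) : V ≃ₗ[F] V) with hg
        have hgv : g v - v ∈ W := by
          have := W.neg_mem (hW _ (H.inv_mem a.out.2) _ hab')
          rw [map_sub, neg_sub, show ((a.out : V ≃ₗ[F] V)⁻¹) ((a.out : V ≃ₗ[F] V) v) = v from
              LinearEquiv.symm_apply_apply _ v] at this
          exact this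
        by_contra hne
        simp only [Set.mem_setOf_eq, not_exists, not_and] at hne
        let T : W → W := fun u => ⟨g u - u, W.sub_mem (hW g (a.out⁻¹ * b.out).2 u u.2) u.2⟩
        have hT : Function.Injective T := by
          intro u u' huu
          have e : g u - u = g u' - u' := congrArg Subtype.val huu
          by_contra hd
          refine hne ((u : V) - u') (fun h0 => hd (Subtype.ext (sub_eq_zero.1 h0))) ?_
          rw [← sub_eq_zero]
          show g (u - u') - (u - u') = 0
          rw [map_sub, sub_sub_sub_comm, e, sub_self]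
        obtain ⟨u, hu⟩ := Finite.injective_iff_surjective.1 hT ⟨_, hgv⟩
        have e : g u - u = g v - v := congrArg Subtype.val hu
        refine hne (v - u) (fun h0 => hv (by rw [sub_eq_zero.1 h0]; exact u.2)) ?_
        rw [← sub_eq_zero]
        show g (v - u) - (v - u) = 0
        rw [map_sub, sub_sub_sub_comm, e, sub_self]
      rw [Nat.card_eq_fintype_card, Fintype.card_subtype_compl, Fintype.card_subtype_eq] at this
      rw [Nat.card_eq_fintype_card]
      have := Fintype.card_pos (α := V ⧸ W)
      omega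
    have hprod : (R.index + 1) * (R.index + 1) ≤ Fintype.card F ^ Module.finrank F V := by
      rw [← Module.card_eq_pow_finrank, ← Nat.card_eq_fintype_card (α := V), W.card_eq_card_quotient_mul_card]
      exact (Nat.mul_le_mul h1 h2).trans (le_of_eq (by ring))
    rw [le_sub_iff_add_le, Real.le_sqrt (by positivity) (by positivity)]
    calc ((R.index : ℝ) + 1) ^ 2 = (((R.index + 1) * (R.index + 1) : ℕ) : ℝ) := by push_cast; ring
      _ ≤ ((Fintype.card F ^ Module.finrank F V : ℕ) : ℝ) := by exact_mod_cast hprod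
      _ = _ := by push_cast; rfl

end Cfsg.Agent.S4178
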