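import Cfsg.Statements.S4182

set_option autoImplicit false
open Cfsg

namespace Cfsg.Agent.S4182

open scoped Classical in
theorem exists_le_of_cover {G : Type*} [Group G] [Finite G] (p : ℕ) [Fact p.Prime]
    {ι : Type*} [Fintype ι] (K : ι → Subgroup G) (hι : Fintype.card ι ≤ p) :
    ∀ N : ℕ, ∀ H : Subgroup G, Nat.card H ≤ N →
      Subgroup.closure {g : G | g ∈ H ∧ ∃ k : ℕ, orderOf g = p ^ k} = H →
      (∀ g ∈ H, (∃ k : ℕ, orderOf g = p ^ k) → ∃ i, g ∈ K i) → ∃ i, H ≤ K i := by
  intro N
  induction N with
  | zero =>
    intro H hc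
    have := Nat.card_pos (α := H)
    omega
  | succ N ih =>
    intro H hcard hgen hcov
    by_contra hne
    push Not at hne
    have hp : p.Prime := Fact.out
    let E : Set G := {g | ∃ k : ℕ, orderOf g = p ^ k}
    let P : Subgroup G → Prop := fun M => M < H ∧ Subgroup.closure {g : G | g ∈ M ∧ g ∈ E} = M
    let f : ι → Subgroup G := fun i => Subgroup.closure {g : G | g ∈ K i ⊓ H ∧ g ∈ E}
    have hfle : ∀ i, f i ≤ K i ⊓ H := fun i => (Subgroup.closure_le _).2 fun g hg => hg.1
    have hfP : ∀ i, P (f i) := by
      intro i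
      refine ⟨lt_of_le_of_ne ((hfle i).trans inf_le_right) fun h => hne i ?_, ?_⟩
      · calc H = f i := h.symm
          _ ≤ K i := (hfle i).trans inf_le_left
      · refine le_antisymm ((Subgroup.closure_le _).2 fun g hg => hg.1)
          ((Subgroup.closure_le _).2 fun g hg => ?_)
        exact Subgroup.subset_closure ⟨Subgroup.subset_closure hg, hg.2⟩
    have hPf : ∀ M, P M → ∃ i, M ≤ f i := by
      intro M hM
      have hlt : Nat.card M < Nat.card H := by
        rcases Nat.lt_or_ge (Nat.card M) (Nat.card H) with h | h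
        · exact h
        · exact absurd (Subgroup.eq_of_le_of_card_ge hM.1.le h) hM.1.ne
      obtain ⟨i, hi⟩ := ih M (by omega) hM.2 fun g hg he => hcov g (hM.1.le hg) he
      refine ⟨i, ?_⟩
      rw [← hM.2]
      exact Subgroup.closure_mono fun g hg => ⟨⟨hi hg.1, hM.1.le hg.1⟩, hg.2⟩
    let S : Finset (Subgroup G) := (Finset.univ.image f).filter (fun M => Maximal P M)
    have hScard : S.card ≤ p :=
      (Finset.card_filter_le _ _).trans (Finset.card_image_le.trans (by simpa using hι))
    have hmax : ∀ M, Maximal P M → M ∈ S := by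
      intro M hM
      obtain ⟨i, hi⟩ := hPf M hM.1
      refine Finset.mem_filter.2 ⟨Finset.mem_image.2 ⟨i, Finset.mem_univ _, ?_⟩, hM⟩
      exact le_antisymm (hM.2 (hfP i) hi) hi
    have hSM : ∀ M ∈ S, Maximal P M := fun M hM => (Finset.mem_filter.1 hM).2
    have hcovS : ∀ g ∈ H, g ∈ E → ∃ M ∈ S, g ∈ M := by
      intro g hg he
      obtain ⟨i, hi⟩ := hcov g hg he
      obtain ⟨M, hle, hM⟩ := Finite.exists_le_maximal (p := P) (hfP i)
      exact ⟨M, hmax M hM, hle (Subgroup.subset_closure ⟨⟨hi, hg⟩, he⟩)⟩
    let C : G → Subgroup G → Subgroup G := fun x M => M.map (MulAut.conj x).toMonoidHom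
    have hCmem : ∀ (x g : G) (M : Subgroup G), g ∈ C x M ↔ x⁻¹ * g * x ∈ M := by
      intro x g M
      constructor
      · rintro ⟨m, hm, rfl⟩
        simpa [mul_assoc] using hm
      · exact fun h => ⟨x⁻¹ * g * x, h, by simp [mul_assoc]⟩
    have hCmul : ∀ (x y : G) (M : Subgroup G), C (x * y) M = C x (C y M) := by
      intro x y M
      ext g
      simp [hCmem, mul_assoc]
    have hC1 : ∀ M : Subgroup G, C 1 M = M := by
      intro M
      ext g
      simp [hCmem]
    have hCE : ∀ (x g : G), g ∈ E → x * g * x⁻¹ ∈ E := by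
      rintro x g ⟨k, hk⟩
      refine ⟨k, ?_⟩
      have := orderOf_injective (MulAut.conj x).toMonoidHom (MulAut.conj x).injective g
      simpa [hk] using this
    have hCle : ∀ x ∈ H, ∀ M : Subgroup G, M ≤ H → C x M ≤ H := by
      intro x hx M hM g hg
      have := hM ((hCmem x g M).1 hg)
      simpa [mul_assoc] using H.mul_mem (H.mul_mem hx this) (H.inv_mem hx)
    have hCP : ∀ x ∈ H, ∀ M, P M → P (C x M) := by
      intro x hx M hM
      refine ⟨lt_of_le_of_ne (hCle x hx M hM.1.le) fun h => ?_, ?_⟩
      · have : Nat.card M = Nat.card H := by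
          rw [← h]
          exact (Subgroup.card_map_of_injective (MulAut.conj x).injective).symm
        exact hM.1.ne (Subgroup.eq_of_le_of_card_ge hM.1.le this.ge)
      · refine le_antisymm ((Subgroup.closure_le _).2 fun g hg => hg.1) ?_
        conv_lhs => rw [show C x M = M.map (MulAut.conj x).toMonoidHom from rfl, ← hM.2,
          MonoidHom.map_closure]
        refine Subgroup.closure_mono ?_
        rintro _ ⟨g, hg, rfl⟩
        exact ⟨(hCmem x _ M).2 (by simpa [mul_assoc] using hg.1), hCE x g hg.2⟩
    have hCmax : ∀ x ∈ H, ∀ M, Maximal P M → Maximal P (C x M) := by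
      intro x hx M hM
      refine ⟨hCP x hx M hM.1, fun L hL hle => ?_⟩
      have h1 : C x⁻¹ L ≤ M := by
        refine hM.2 (hCP _ (H.inv_mem hx) L hL) fun g hg => ?_
        rw [hCmem]
        refine hle ((hCmem _ _ _).2 ?_)
        simpa [mul_assoc] using hg
      intro g hg
      rw [hCmem]
      apply h1
      rw [hCmem]
      simpa [mul_assoc] using hg
    by_cases hnorm : ∀ M ∈ S, ∀ x ∈ H, C x M = M
    · -- every maximal member has index p and the members cover H
      have hidx : ∀ M ∈ S, Nat.card M * p = Nat.card H ∧ ∀ g ∈ H, g ^ p ∈ M := by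
        intro M hM
        have hMH : M < H := (hSM M hM).1.1
        have hex : ∃ x ∈ H, x ∈ E ∧ x ∉ M := by
          by_contra h
          push Not at h
          apply hMH.not_ge
          rw [← hgen]
          exact (Subgroup.closure_le _).2 fun g hg => h g hg.1 hg.2
        obtain ⟨x, hxH, ⟨k, hk⟩, hxM⟩ := hex
        have hj : ∃ j, x ^ p ^ j ∈ M := ⟨k, by rw [← hk, pow_orderOf_eq_one]; exact M.one_mem⟩
        have hj0 : Nat.find hj ≠ 0 := fun h0 => hxM (by simpa [h0] using Nat.find_spec hj)
        let y := x ^ p ^ (Nat.find hj - 1)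
        have hyM : y ∉ M := Nat.find_min hj (by omega)
        have hyp : y ^ p ∈ M := by
          show (x ^ p ^ (Nat.find hj - 1)) ^ p ∈ M
          rw [← pow_mul, ← pow_succ, show Nat.find hj - 1 + 1 = Nat.find hj by omega]
          exact Nat.find_spec hj
        have hyH : y ∈ H := H.pow_mem hxH _
        have hyE : y ∈ E := by
          obtain ⟨l, _, hl⟩ := (Nat.dvd_prime_pow hp).1 (hk ▸ orderOf_pow_dvd (p ^ (Nat.find hj - 1)))
          exact ⟨l, hl⟩
        have hMle : M ≤ Subgroup.normalizer (M : Set G) := Subgroup.le_normalizer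
        have htop : M ⊔ Subgroup.zpowers y = H := by
          by_contra hne'
          have hlt : M ⊔ Subgroup.zpowers y < H :=
            lt_of_le_of_ne (sup_le hMH.le (Subgroup.zpowers_le.2 hyH)) hne'
          have hP : P (M ⊔ Subgroup.zpowers y) := by
            refine ⟨hlt, le_antisymm ((Subgroup.closure_le _).2 fun g hg => hg.1)
              (sup_le ?_ (Subgroup.zpowers_le.2 (Subgroup.subset_closure
                ⟨Subgroup.mem_sup_right (Subgroup.mem_zpowers y), hyE⟩)))⟩
            conv_lhs => rw [← (hSM M hM).1.2]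
            exact Subgroup.closure_mono fun g hg => ⟨Subgroup.mem_sup_left hg.1, hg.2⟩
          exact hyM ((hSM M hM).2 hP le_sup_left (Subgroup.mem_sup_right (Subgroup.mem_zpowers y)))
        have hMn : (M.subgroupOf H).Normal := by
          refine ⟨fun n hn g => ?_⟩
          rw [Subgroup.mem_subgroupOf] at hn ⊢
          have h1 : (g : G) * n * (g : G)⁻¹ ∈ C g M := (hCmem _ _ _).2 (by simpa [mul_assoc] using hn)
          rw [hnorm M hM g g.2] at h1
          simpa using h1
        let Y : ↥H ⧸ M.subgroupOf H := (⟨y, hyH⟩ : ↥H)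
        have hYp : Y ^ p = 1 := by
          rw [← QuotientGroup.mk_pow, QuotientGroup.eq_one_iff, Subgroup.mem_subgroupOf]
          simpa using hyp
        have hY1 : Y ≠ 1 := by
          rw [Ne, QuotientGroup.eq_one_iff, Subgroup.mem_subgroupOf]
          simpa using hyM
        have hYo : orderOf Y = p := orderOf_eq_prime hYp hY1
        have hgenY : ∀ q : ↥H ⧸ M.subgroupOf H, q ∈ Subgroup.zpowers Y := by
          intro q
          induction q using QuotientGroup.induction_on with
          | H g =>
            have hle : H ≤ ((Subgroup.zpowers Y).comap (QuotientGroup.mk' _)).map H.subtype := by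
              conv_lhs => rw [← htop]
              refine sup_le (fun m hm => ?_) (Subgroup.zpowers_le.2 ?_)
              · refine ⟨⟨m, hMH.le hm⟩, ?_, rfl⟩
                show ((⟨m, hMH.le hm⟩ : ↥H) : ↥H ⧸ M.subgroupOf H) ∈ Subgroup.zpowers Y
                rw [(QuotientGroup.eq_one_iff _).2 (by simpa [Subgroup.mem_subgroupOf] using hm)]
                exact Subgroup.one_mem _
              · exact ⟨⟨y, hyH⟩, Subgroup.mem_zpowers Y, rfl⟩
            obtain ⟨g', hg', hgg⟩ := hle g.2
            obtain rfl : g' = g := Subtype.ext hgg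
            exact hg'
        have hcq : Nat.card (↥H ⧸ M.subgroupOf H) = p := by
          rw [← hYo]
          exact (orderOf_eq_card_of_forall_mem_zpowers hgenY).symm
        refine ⟨?_, fun g hg => ?_⟩
        · rw [Subgroup.card_eq_card_quotient_mul_card_subgroup (M.subgroupOf H), hcq,
            Nat.card_congr (Subgroup.subgroupOfEquivOfLe hMH.le).toEquiv, mul_comm]
        · have h1 : ((⟨g, hg⟩ : ↥H) : ↥H ⧸ M.subgroupOf H) ^ p = 1 := by
            rw [← hcq]; exact pow_card_eq_one'
          rw [← QuotientGroup.mk_pow, QuotientGroup.eq_one_iff, Subgroup.mem_subgroupOf] at h1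
          simpa using h1
      have hall : ∀ g ∈ H, ∃ M ∈ S, g ∈ M := by
        intro g hg
        obtain ⟨a, m, hm, hnm⟩ :=
          Nat.exists_eq_pow_mul_and_not_dvd (orderOf_pos g).ne' p hp.ne_one
        have hgm : g ^ m ∈ E := by
          refine ⟨a, ?_⟩
          have hm0 : m ≠ 0 := fun h => hm (by simp [h])
          rw [orderOf_pow' _ hm0, hnm, Nat.gcd_mul_left_left, Nat.mul_div_cancel _ (by omega)]
        obtain ⟨M, hM, hgM⟩ := hcovS _ (H.pow_mem hg m) hgm
        refine ⟨M, hM, ?_⟩
        have hcop : Nat.gcd p m = 1 := (hp.coprime_iff_not_dvd.2 hm)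
        have := Nat.gcd_eq_gcd_ab p m
        rw [hcop] at this
        rw [← zpow_one g, show (1 : ℤ) = (p : ℤ) * p.gcdA m + (m : ℤ) * p.gcdB m by exact_mod_cast this,
          zpow_add, zpow_mul, zpow_mul, zpow_natCast, zpow_natCast]
        exact M.mul_mem (M.zpow_mem ((hidx M hM).2 g hg) _) (M.zpow_mem hgM _)
      haveI : Fintype G := Fintype.ofFinite G
      let T : Subgroup G → Finset G := fun M => Finset.univ.filter (fun g => g ∈ M ∧ g ≠ 1)
      have hT : ∀ M : Subgroup G, (T M).card + 1 = Nat.card M := by
        intro M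
        have h1 : T M = (Finset.univ.filter (fun g => g ∈ M)).erase 1 := by
          ext g; simp [T, and_comm]
        rw [h1, Finset.card_erase_add_one (by simp), Nat.card_eq_fintype_card,
          Fintype.card_subtype]
      have hsub : T H ⊆ S.biUnion T := by
        intro g hg
        simp only [T, Finset.mem_filter, Finset.mem_univ, true_and] at hg
        obtain ⟨M, hM, hgM⟩ := hall g hg.1
        exact Finset.mem_biUnion.2 ⟨M, hM, by simp [T, hgM, hg.2]⟩
      have h1 := (Finset.card_le_card hsub).trans Finset.card_biUnion_le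
      have h2 : p * ((S.sum fun M => (T M).card) + S.card) = S.card * Nat.card H := by
        have : ∀ M ∈ S, p * ((T M).card + 1) = Nat.card H := fun M hM => by
          rw [hT, mul_comm]; exact (hidx M hM).1
        rw [show (S.sum fun M => (T M).card) + S.card = S.sum (fun M => (T M).card + 1) by
          simp [Finset.sum_add_distrib], Finset.mul_sum, Finset.sum_congr rfl this]
        simp
      have h3 := hT H
      obtain ⟨M0, hM0, -⟩ := hcovS 1 H.one_mem ⟨0, by simp⟩
      have hS1 : 1 ≤ S.card := Finset.card_pos.2 ⟨M0, hM0⟩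
      rcases Nat.lt_or_ge 1 S.card with hS2 | hS2
      · have hH : 0 < Nat.card H := Nat.card_pos
        nlinarith [Nat.mul_le_mul_right (Nat.card H) hScard, Nat.mul_le_mul_left p h1]
      · have hS : S.card = 1 := by omega
        rw [hS] at h2
        have hp2 := hp.two_le
        have hM2 : 2 ≤ Nat.card H := by
          have := (hidx M0 hM0).1
          have : 0 < Nat.card M0 := Nat.card_pos
          nlinarith
        nlinarith [Nat.mul_le_mul_left p h1]
    · push Not at hnorm
      obtain ⟨M, hM, x, hxH, hxne⟩ := hnorm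
      have hex : ∃ y ∈ H, y ∈ E ∧ C y M ≠ M := by
        by_contra h
        push Not at h
        apply hxne
        let St : Subgroup G :=
          { carrier := {g | C g M = M}
            one_mem' := hC1 M
            mul_mem' := fun {a b} ha hb => by
              show C (a * b) M = M
              rw [hCmul]
              exact (congrArg (C a) hb).trans ha
            inv_mem' := fun {a} ha => by
              show C a⁻¹ M = M
              have h1 : C a⁻¹ (C a M) = C a⁻¹ M := congrArg (C a⁻¹) ha
              rw [← hCmul, inv_mul_cancel, hC1] at h1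
              exact h1.symm }
        have : H ≤ St := by
          rw [← hgen]
          exact (Subgroup.closure_le _).2 fun g hg => h g hg.1 hg.2
        exact this hxH
      obtain ⟨y, hyH, hyE, hy⟩ := hex
      obtain ⟨k, hk⟩ := hyE
      let φ : Subgroup G → Subgroup G := C y
      have hiter : ∀ j, φ^[j] M = C (y ^ j) M := by
        intro j
        induction j with
        | zero => simp [hC1]
        | succ j ihj => rw [Function.iterate_succ_apply', ihj, pow_succ', hCmul]
      have hper : Function.IsPeriodicPt φ (p ^ k) M := by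
        show φ^[p ^ k] M = M
        rw [hiter, ← hk, pow_orderOf_eq_one, hC1]
      have hper0 : 0 < Function.minimalPeriod φ M :=
        hper.minimalPeriod_pos (pow_pos hp.pos _)
      obtain ⟨l, -, hl⟩ := (Nat.dvd_prime_pow hp).1 hper.minimalPeriod_dvd
      have hl1 : p ≤ Function.minimalPeriod φ M := by
        rw [hl]
        refine Nat.le_self_pow (fun h0 => hy ?_) p
        have h1 : Function.IsPeriodicPt φ 1 M := by
          have := Function.isPeriodicPt_minimalPeriod φ M
          rwa [hl, h0, pow_zero] at this
        exact h1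
      let O : Finset (Subgroup G) := (Finset.range p).image fun j => φ^[j] M
      have hOc : O.card = p := by
        rw [Finset.card_image_of_injOn, Finset.card_range]
        intro a ha b hb hab
        have ha' : a < Function.minimalPeriod φ M := lt_of_lt_of_le (Finset.mem_range.1 ha) hl1
        have hb' : b < Function.minimalPeriod φ M := lt_of_lt_of_le (Finset.mem_range.1 hb) hl1
        exact Function.iterate_injOn_Iio_minimalPeriod ha' hb' hab
      have hOS : O ⊆ S := by
        intro L hL
        obtain ⟨j, -, rfl⟩ := Finset.mem_image.1 hL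
        rw [hiter]
        exact hmax _ (hCmax _ (H.pow_mem hyH j) M (hSM M hM))
      have hOeq : O = S := Finset.eq_of_subset_of_card_le hOS (by omega)
      obtain ⟨L, hL, hyL⟩ := hcovS y hyH ⟨k, hk⟩
      rw [← hOeq] at hL
      obtain ⟨j, -, rfl⟩ := Finset.mem_image.1 hL
      have hfix : C y (φ^[j] M) = φ^[j] M := by
        ext g
        rw [hCmem]
        constructor
        · intro h
          simpa [mul_assoc] using mul_mem (mul_mem hyL h) (inv_mem hyL)
        · intro h
          exact mul_mem (mul_mem (inv_mem hyL) h) hyL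
      apply hy
      rw [hiter, ← hCmul, ← pow_succ'] at hfix
      have h2 : C (y ^ j)⁻¹ (C (y ^ (j + 1)) M) = C (y ^ j)⁻¹ (C (y ^ j) M) := congrArg _ hfix
      rw [← hCmul, ← hCmul, inv_mul_cancel, hC1, pow_succ, inv_mul_cancel_left] at h2
      exact h2

/-- Let p be a prime and G a finite group generated by its p-elements. If a finite family of proper subgroups of G covers the set of p-elements of G (every element of p-power order lies in one of them), then the family has at least p + 1 members. -/
theorem result {G : Type*} [Group G] [Finite G] (p : ℕ) [Fact p.Prime] (hgen : Subgroup.closure {g : G | ∃ k : ℕ, orderOf g = p ^ k} = ⊤)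
    {ι : Type*} [Fintype ι] (K : ι → Subgroup G) (hK : ∀ i, K i ≠ ⊤)
    (hcov : ∀ g : G, (∃ k : ℕ, orderOf g = p ^ k) → ∃ i, g ∈ K i) :
    p + 1 ≤ Fintype.card ι := by
  by_contra hlt
  obtain ⟨i, hi⟩ := exists_le_of_cover p K (by omega) (Nat.card (⊤ : Subgroup G)) ⊤ le_rfl
    (by simpa using hgen) (fun g _ hg => hcov g hg)
  exact hK i (top_le_iff.1 hi)

end Cfsg.Agent.S4182
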