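import Cfsg.Statements.S4184
import Mathlib

set_option autoImplicit false
open Cfsg

namespace Cfsg.Agent.S4184

/-- The class size of `g`. -/
noncomputable abbrev sz {G : Type*} [Group G] (g : G) : ℕ := (Subgroup.centralizer ({g} : Set G)).index

/-- `n` has the full `M`-part at every prime of `A`. -/
def Full (m : ℕ) (A : Set ℕ) (n : ℕ) : Prop :=
  ∀ p : ℕ, p.Prime → p ∈ A → n.factorization p = m.factorization p

variable {G : Type*} [Group G] [Finite G]

theorem sz_ne_zero (g : G) : sz g ≠ 0 := Subgroup.index_ne_zero_of_finite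

theorem sz_conj (k g : G) : sz (k * g * k⁻¹) = sz g := by
  have h : (Subgroup.centralizer ({g} : Set G)).map (MulAut.conj k).toMonoidHom =
      Subgroup.centralizer ({k * g * k⁻¹} : Set G) := by
    ext t
    simp only [Subgroup.mem_map_equiv, Subgroup.mem_centralizer_singleton_iff,
      MulAut.conj_symm_apply]
    constructor <;> intro ht
    · calc t * (k * g * k⁻¹) = k * (k⁻¹ * t * k * g) * k⁻¹ := by group
        _ = k * (g * (k⁻¹ * t * k)) * k⁻¹ := by rw [ht]
        _ = k * g * k⁻¹ * t := by group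
    · calc k⁻¹ * t * k * g = k⁻¹ * (t * (k * g * k⁻¹)) * k := by group
        _ = k⁻¹ * (k * g * k⁻¹ * t) * k := by rw [ht]
        _ = g * (k⁻¹ * t * k) := by group
  rw [sz, ← h]
  exact Subgroup.index_map_equiv _ (MulAut.conj k)

theorem cent_pow_le (g : G) (k : ℕ) :
    Subgroup.centralizer ({g} : Set G) ≤ Subgroup.centralizer ({g ^ k} : Set G) := fun t ht =>
  Subgroup.mem_centralizer_singleton_iff.mpr
    ((show Commute t g from Subgroup.mem_centralizer_singleton_iff.mp ht).pow_right k).eq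

theorem sz_dvd_mul {x w : G} (hc : Commute x w) (hco : (orderOf x).Coprime (orderOf w)) :
    sz x ∣ sz (x * w) := by
  refine Subgroup.index_dvd_of_le fun t ht => ?_
  rw [Subgroup.mem_centralizer_singleton_iff] at ht ⊢
  have h1 : Commute t ((x * w) ^ orderOf w) := (show Commute t (x * w) from ht).pow_right _
  rw [hc.mul_pow, pow_orderOf_eq_one, mul_one] at h1
  obtain ⟨m, hm⟩ := exists_pow_eq_self_of_coprime (n := orderOf w) hco.symm
  have h2 := h1.pow_right m
  rw [hm] at h2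
  exact h2.eq

theorem fact_cent_add (g : G) (p : ℕ) :
    (Nat.card ↥(Subgroup.centralizer ({g} : Set G))).factorization p + (sz g).factorization p =
      (Nat.card G).factorization p := by
  rw [← (Subgroup.centralizer ({g} : Set G)).card_mul_index,
    Nat.factorization_mul Nat.card_pos.ne' (sz_ne_zero g), Finsupp.coe_add, Pi.add_apply]

theorem exists_prime_order_pow {g : G} (hg : g ≠ 1) :
    ∃ k : ℕ, (orderOf (g ^ k)).Prime := by
  obtain ⟨r, hr, hrd⟩ := Nat.exists_prime_and_dvd (n := orderOf g) (mt orderOf_eq_one_iff.mp hg)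
  exact ⟨orderOf g / r, by rwa [orderOf_pow_orderOf_div (orderOf_pos g).ne' hrd]⟩

/-- Class size data of a centreless group imitating a group with disconnected prime graph. -/
structure Data (G : Type*) [Group G] (m : ℕ) (A : Set ℕ) : Prop where
  ne_one : ∀ g : G, g ≠ 1 → sz g ≠ 1
  le : ∀ g : G, ∀ p, (sz g).factorization p ≤ m.factorization p
  total : ∀ g : G, g ≠ 1 → Full m A (sz g) ∨ Full m Aᶜ (sz g)
  excl : ∀ g : G, g ≠ 1 → Full m A (sz g) → ¬ Full m Aᶜ (sz g)
  left : ∃ g : G, g ≠ 1 ∧ Full m A (sz g)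
  right : ∃ g : G, g ≠ 1 ∧ Full m Aᶜ (sz g)
  primeB : ∃ q : ℕ, q.Prime ∧ q ∉ A ∧ q ∣ m

variable {m : ℕ} {A : Set ℕ}

theorem Data.symm (d : Data G m A) (hA : ∃ q : ℕ, q.Prime ∧ q ∈ A ∧ q ∣ m) : Data G m Aᶜ where
  ne_one := d.ne_one
  le := d.le
  total g hg := by rw [compl_compl]; exact (d.total g hg).symm
  excl g hg h1 h2 := by rw [compl_compl] at h2; exact d.excl g hg h2 h1
  left := d.right
  right := by rw [compl_compl]; exact d.left
  primeB := let ⟨q, h1, h2, h3⟩ := hA; ⟨q, h1, fun e => e h2, h3⟩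

theorem Data.mono (d : Data G m A) {g h : G} (hdvd : sz g ∣ sz h) (hg : Full m A (sz g)) :
    Full m A (sz h) := fun p hp hpA => le_antisymm (d.le h p)
  ((hg p hp hpA) ▸ (Nat.factorization_le_iff_dvd (sz_ne_zero g) (sz_ne_zero h)).mpr hdvd p)

theorem Data.mono' (d : Data G m A) {g h : G} (hdvd : sz g ∣ sz h) (hg : Full m Aᶜ (sz g)) :
    Full m Aᶜ (sz h) := fun p hp hpA => le_antisymm (d.le h p)
  ((hg p hp hpA) ▸ (Nat.factorization_le_iff_dvd (sz_ne_zero g) (sz_ne_zero h)).mpr hdvd p)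

/-- Commuting nontrivial elements of coprime orders have the same type. -/
theorem Data.same (d : Data G m A) {x w : G} (hc : Commute x w)
    (hco : (orderOf x).Coprime (orderOf w)) (hx : x ≠ 1) (hw : w ≠ 1) (h : Full m A (sz w)) :
    Full m A (sz x) := by
  rcases d.total x hx with e | e
  · exact e
  exfalso
  have hne : x * w ≠ 1 := fun e1 => by
    rw [eq_inv_of_mul_eq_one_left e1, orderOf_inv, Nat.coprime_self] at hco
    exact hw (orderOf_eq_one_iff.mp hco)
  have h1 : sz w ∣ sz (x * w) := by rw [hc.eq]; exact sz_dvd_mul hc.symm hco.symm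
  exact d.excl _ hne (d.mono h1 h) (d.mono' (sz_dvd_mul hc hco) e)

/-- A nontrivial central element of a Sylow subgroup. -/
theorem exists_central {p : ℕ} [Fact p.Prime] (P : Sylow p G) (hP : (P : Subgroup G) ≠ ⊥) :
    ∃ z ∈ (P : Subgroup G), z ≠ 1 ∧ ∀ t ∈ (P : Subgroup G), Commute t z := by
  have : Nontrivial ↥(P : Subgroup G) := (Subgroup.nontrivial_iff_ne_bot _).mpr hP
  have := P.isPGroup'.center_nontrivial
  obtain ⟨z, hz1⟩ := exists_ne (1 : Subgroup.center ↥(P : Subgroup G))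
  exact ⟨((z : ↥(P : Subgroup G)) : G), (z : ↥(P : Subgroup G)).2,
    fun e => hz1 (Subtype.ext (Subtype.ext e)),
    fun t ht => congrArg Subtype.val (Subgroup.mem_center_iff.mp z.2 ⟨t, ht⟩)⟩

theorem fact_central {p : ℕ} [Fact p.Prime] (P : Sylow p G) {z : G}
    (hz : ∀ t ∈ (P : Subgroup G), Commute t z) : (sz z).factorization p = 0 := by
  refine Nat.factorization_eq_zero_of_not_dvd fun hd => P.not_dvd_index ?_
  exact hd.trans (Subgroup.index_dvd_of_le fun t ht =>
    Subgroup.mem_centralizer_singleton_iff.mpr (hz t ht).eq)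

theorem sylow_ne_bot {p : ℕ} [Fact p.Prime] (P : Sylow p G)
    (h : (Nat.card G).factorization p ≠ 0) : (P : Subgroup G) ≠ ⊥ := fun e => by
  have h1 := P.card_eq_multiplicity
  rw [e, Subgroup.card_bot] at h1
  exact h (by
    rcases Nat.pow_eq_one.mp h1.symm with h2 | h2
    · exact absurd h2 (Fact.out : p.Prime).one_lt.ne'
    · exact h2)

/-- A Sylow subgroup of a centraliser, inside a Sylow subgroup of the group. -/
theorem exists_sylow_cent (p : ℕ) [Fact p.Prime] (w : G) :
    ∃ T : Subgroup G, ∃ P : Sylow p G, T ≤ P ∧ T ≤ Subgroup.centralizer ({w} : Set G) ∧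
      Nat.card T = p ^ ((Nat.card ↥(Subgroup.centralizer ({w} : Set G))).factorization p) := by
  obtain ⟨T₀⟩ : Nonempty (Sylow p ↥(Subgroup.centralizer ({w} : Set G))) := inferInstance
  have hc : Nat.card ↥((T₀ : Subgroup _).map (Subgroup.centralizer ({w} : Set G)).subtype) =
      p ^ ((Nat.card ↥(Subgroup.centralizer ({w} : Set G))).factorization p) :=
    (Subgroup.card_map_of_injective (Subgroup.subtype_injective _)).trans T₀.card_eq_multiplicity
  obtain ⟨P, hP⟩ := (IsPGroup.of_card (p := p) hc).exists_le_sylow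
  exact ⟨_, P, hP, Subgroup.map_subtype_le _, hc⟩

theorem Data.le_of_mem (d : Data G m A) {p : ℕ} (hp : p.Prime) (hpA : p ∈ A)
    (hpm : p ∣ m) (hm : m ≠ 0) : (Nat.card G).factorization p ≤ m.factorization p := by
  by_contra hlt
  rw [not_le] at hlt
  have := Fact.mk hp
  have hmp : 0 < m.factorization p := hp.factorization_pos_of_dvd hm hpm
  obtain ⟨q, hq, hqA, hqm⟩ := d.primeB
  have := Fact.mk hq
  have hqG : (Nat.card G).factorization q ≠ 0 := by
    obtain ⟨g, -, hg⟩ := d.right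
    have h1 := fact_cent_add g q
    have h2 := hg q hq hqA
    have h3 := hq.factorization_pos_of_dvd hm hqm
    omega
  obtain ⟨Q⟩ : Nonempty (Sylow q G) := inferInstance
  obtain ⟨w, hwQ, hw1, hwc⟩ := exists_central Q (sylow_ne_bot Q hqG)
  have hwA : Full m A (sz w) := (d.total w hw1).resolve_right fun e => by
    have h1 := e q hq hqA
    have h2 := fact_central Q hwc
    have h3 := hq.factorization_pos_of_dvd hm hqm
    omega
  obtain ⟨T, P, hTP, hTC, hTcard⟩ := exists_sylow_cent p w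
  have hco : ∀ t ∈ T, (orderOf t).Coprime (orderOf w) := fun t ht => by
    obtain ⟨i, hi⟩ := IsPGroup.iff_orderOf.mp P.isPGroup' ⟨t, hTP ht⟩
    obtain ⟨j, hj⟩ := IsPGroup.iff_orderOf.mp Q.isPGroup' ⟨w, hwQ⟩
    rw [Subgroup.orderOf_mk] at hi hj
    rw [hi, hj]
    exact Nat.coprime_pow_primes i j hp hq fun e => hqA (e ▸ hpA)
  have htype : ∀ t ∈ T, t ≠ 1 → Full m A (sz t) := fun t ht ht1 =>
    d.same (Subgroup.mem_centralizer_singleton_iff.mp (hTC ht)) (hco t ht) ht1 hw1 hwA
  have hTb : T ≠ ⊥ := fun e => by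
    rw [e, Subgroup.card_bot] at hTcard
    have h1 := fact_cent_add w p
    have h2 := hwA p hp hpA
    rcases Nat.pow_eq_one.mp hTcard.symm with h3 | h3
    · exact hp.one_lt.ne' h3
    · omega
  have : Nontrivial ↥T := (Subgroup.nontrivial_iff_ne_bot _).mpr hTb
  have := (IsPGroup.of_card (p := p) hTcard).center_nontrivial
  obtain ⟨x₀, hx₀⟩ := exists_ne (1 : Subgroup.center ↥T)
  obtain ⟨x, hxd⟩ : ∃ x : G, x = ((x₀ : ↥T) : G) := ⟨_, rfl⟩
  have hxT : x ∈ T := hxd ▸ (x₀ : ↥T).2
  have hx1 : x ≠ 1 := fun e => hx₀ (Subtype.ext (Subtype.ext (hxd ▸ e)))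
  have hTx : T ≤ Subgroup.centralizer ({x} : Set G) := fun t ht =>
    Subgroup.mem_centralizer_singleton_iff.mpr
      (hxd ▸ congrArg Subtype.val (Subgroup.mem_center_iff.mp x₀.2 ⟨t, ht⟩))
  obtain ⟨z, hzP, hz1, hzc⟩ := exists_central P (sylow_ne_bot P (by omega))
  have hzA : ¬ Full m A (sz z) := fun e => by
    have h1 := e p hp hpA
    have h2 := fact_central P hzc
    omega
  have hD : (P : Subgroup G) ⊓ Subgroup.centralizer ({x} : Set G) = T := by
    refine (Subgroup.eq_of_le_of_card_ge (le_inf hTP hTx) ?_).symm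
    obtain ⟨i, hi⟩ := (P.isPGroup'.to_le (inf_le_left :
      (P : Subgroup G) ⊓ Subgroup.centralizer ({x} : Set G) ≤ P)).exists_card_eq
    have hd := Subgroup.card_dvd_of_le (inf_le_right :
      (P : Subgroup G) ⊓ Subgroup.centralizer ({x} : Set G) ≤ Subgroup.centralizer ({x} : Set G))
    rw [hi] at hd ⊢
    rw [hTcard]
    refine Nat.pow_le_pow_right hp.pos (le_trans
      ((hp.pow_dvd_iff_le_factorization Nat.card_pos.ne').mp hd) ?_)
    have h1 := fact_cent_add x p
    have h2 := htype x hxT hx1 p hp hpA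
    have h3 := fact_cent_add w p
    have h4 := hwA p hp hpA
    omega
  refine hzA (htype z (hD ▸ Subgroup.mem_inf.mpr ⟨hzP, ?_⟩) hz1)
  exact Subgroup.mem_centralizer_singleton_iff.mpr (hzc x (hTP hxT)).eq.symm

theorem Data.not_dvd (d : Data G m A) {p : ℕ} (hp : p.Prime) (hpm : m.factorization p = 0)
    (hq : ∃ q : ℕ, q.Prime ∧ q ≠ p ∧ q ∣ Nat.card G) : (Nat.card G).factorization p = 0 := by
  by_contra hpG
  have := Fact.mk hp
  have hfull : ∀ (P : Sylow p G) (g : G),
      ∃ k : G, ∀ t ∈ (P : Subgroup G), Commute t (k * g * k⁻¹) := by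
    intro P g
    obtain ⟨T, R, hTR, hTC, hTcard⟩ := exists_sylow_cent p g
    have h1 := fact_cent_add g p
    have h2 := d.le g p
    have hRT : (R : Subgroup G) ≤ T := by
      refine (Subgroup.eq_of_le_of_card_ge hTR ?_).ge
      rw [R.card_eq_multiplicity, hTcard]
      exact Nat.pow_le_pow_right hp.pos (by omega)
    obtain ⟨k, hk⟩ := MulAction.exists_smul_eq G R P
    refine ⟨k, fun t ht => ?_⟩
    rw [← hk] at ht
    obtain ⟨s, hs, rfl⟩ := ht
    have hsg : Commute s g := Subgroup.mem_centralizer_singleton_iff.mp (hTC (hRT hs))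
    show Commute (k * s * k⁻¹) (k * g * k⁻¹)
    exact hsg.map (MulAut.conj k).toMonoidHom
  obtain ⟨P⟩ : Nonempty (Sylow p G) := inferInstance
  obtain ⟨q, hq, hqp, hqG⟩ := hq
  have := Fact.mk hq
  obtain ⟨w₀, hw₀⟩ := exists_prime_orderOf_dvd_card' (G := G) q hqG
  obtain ⟨k, hk⟩ := hfull P w₀
  obtain ⟨w, hwd⟩ : ∃ w, w = k * w₀ * k⁻¹ := ⟨_, rfl⟩
  rw [← hwd] at hk
  have hwo : orderOf w = q := by
    rw [hwd, ← MulAut.conj_apply]
    exact (orderOf_injective (MulAut.conj k).toMonoidHom (MulEquiv.injective _) w₀).trans hw₀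
  have hw1 : w ≠ 1 := fun e => by rw [e, orderOf_one] at hwo; exact hq.one_lt.ne hwo
  -- every element of prime order has the type of `w`
  have htype : ∀ g : G, g ≠ 1 → (Full m A (sz g) ↔ Full m A (sz w)) := by
    intro g hg
    obtain ⟨j, hj⟩ := exists_prime_order_pow hg
    obtain ⟨u, hud⟩ : ∃ u, u = g ^ j := ⟨_, rfl⟩
    rw [← hud] at hj
    have hu1 : u ≠ 1 := fun e => by rw [e, orderOf_one] at hj; exact Nat.not_prime_one hj
    have hgu : sz u ∣ sz g := hud ▸ Subgroup.index_dvd_of_le (cent_pow_le g j)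
    have e1 : Full m A (sz g) ↔ Full m A (sz u) :=
      ⟨fun e => (d.total u hu1).resolve_right fun e' => d.excl g hg e (d.mono' hgu e'),
        d.mono hgu⟩
    refine e1.trans ?_
    have iffc : ∀ x y : G, Commute x y → (orderOf x).Coprime (orderOf y) → x ≠ 1 → y ≠ 1 →
        (Full m A (sz x) ↔ Full m A (sz y)) := fun x y hc hco hx hy =>
      ⟨d.same hc.symm hco.symm hy hx, d.same hc hco hx hy⟩
    have hPw : ∀ t ∈ (P : Subgroup G), t ≠ 1 → (Full m A (sz t) ↔ Full m A (sz w)) := by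
      intro t ht ht1
      obtain ⟨i, hi⟩ := IsPGroup.iff_orderOf.mp P.isPGroup' ⟨t, ht⟩
      rw [Subgroup.orderOf_mk] at hi
      refine iffc t w (hk t ht) ?_ ht1 hw1
      rw [hi, hwo]
      exact Nat.Coprime.pow_left i ((Nat.coprime_primes hp hq).mpr hqp.symm)
    by_cases hup : orderOf u = p
    · obtain ⟨R, hR⟩ := (IsPGroup.of_card (p := p) (n := 1)
        (by rw [Nat.card_zpowers, hup, pow_one]) :
          IsPGroup p ↥(Subgroup.zpowers u)).exists_le_sylow
      obtain ⟨l, hl⟩ := MulAction.exists_smul_eq G R P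
      have hm : l * u * l⁻¹ ∈ (P : Subgroup G) := by
        rw [← hl]; exact ⟨_, hR (Subgroup.mem_zpowers _), rfl⟩
      rw [← sz_conj l u]
      exact hPw _ hm fun e => hu1 (conj_eq_one_iff.mp e)
    · obtain ⟨z, hzP, hz1, -⟩ := exists_central P (sylow_ne_bot P hpG)
      obtain ⟨l, hl⟩ := hfull P u
      rw [← sz_conj l u, ← hPw z hzP hz1]
      obtain ⟨i, hi⟩ := IsPGroup.iff_orderOf.mp P.isPGroup' ⟨z, hzP⟩
      rw [Subgroup.orderOf_mk] at hi
      refine iffc _ z (hl z hzP).symm ?_ (fun e => hu1 (conj_eq_one_iff.mp e)) hz1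
      rw [hi, show orderOf (l * u * l⁻¹) = orderOf u from
        orderOf_injective (MulAut.conj l).toMonoidHom (MulEquiv.injective _) u]
      exact Nat.Coprime.pow_right i ((Nat.coprime_primes hj hp).mpr hup)
  obtain ⟨g, hg, hgA⟩ := d.left
  obtain ⟨g', hg', hgB⟩ := d.right
  exact d.excl g' hg' ((htype g' hg').mpr ((htype g hg).mp hgA)) hgB

variable {M : Type*} [Group M] [Finite M]

theorem dvd_cent_of_not_full {y : M} {B : Set ℕ} (h : ¬ Full (Nat.card M) B (sz y)) :
    ∃ b : ℕ, b.Prime ∧ b ∈ B ∧ b ∣ Nat.card ↥(Subgroup.centralizer ({y} : Set M)) := by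
  simp only [Full, not_forall] at h
  obtain ⟨b, hb, hbB, hne⟩ := h
  have h1 := fact_cent_add y b
  exact ⟨b, hb, hbB, Nat.dvd_of_factorization_pos (by omega)⟩

theorem mul_order {r b : ℕ} (hr : r.Prime) (hb : b.Prime) (hne : r ≠ b) {x : M}
    (hx : orderOf x = r) (hd : b ∣ Nat.card ↥(Subgroup.centralizer ({x} : Set M))) :
    ∃ u : M, orderOf u = r * b := by
  have := Fact.mk hb
  obtain ⟨w, hw⟩ := exists_prime_orderOf_dvd_card' _ hd
  rw [← Subgroup.orderOf_coe] at hw
  refine ⟨x * w, ?_⟩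
  rw [(show Commute x w from (Subgroup.mem_centralizer_singleton_iff.mp w.2).symm).orderOf_mul_eq_mul_orderOf_of_coprime
    (by rw [hx, hw]; exact (Nat.coprime_primes hr hb).mpr hne), hx, hw]

theorem sz_eq_one_iff {g : M} (hZ : Subgroup.center M = ⊥) : sz g = 1 ↔ g = 1 := by
  refine ⟨fun e => ?_, fun e => ?_⟩
  · have h1 : g ∈ Subgroup.center M := Subgroup.mem_center_iff.mpr fun t =>
      Subgroup.mem_centralizer_singleton_iff.mp ((Subgroup.index_eq_one.mp e).symm ▸ Subgroup.mem_top t)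
    rwa [hZ, Subgroup.mem_bot] at h1
  · refine Subgroup.index_eq_one.mpr (eq_top_iff.mpr fun t _ => ?_)
    rw [Subgroup.mem_centralizer_singleton_iff, e, one_mul, mul_one]

/-- Let G and M be finite groups with trivial centres and the same set of conjugacy class sizes, and suppose the prime graph of M is disconnected: the prime divisors of #M split into two non-empty parts such that M has no element of order pq with p in one part and q in the other. Then #G = #M. -/
theorem result {G M : Type*}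
    [Group G] [Finite G] [Group M] [Finite M] (hZG : Subgroup.center G = ⊥) (hZM : Subgroup.center M = ⊥)
    (h : Set.range (fun g : G => (Subgroup.centralizer ({g} : Set G)).index) = Set.range (fun g : M => (Subgroup.centralizer ({g} : Set M)).index))
    (hdisc : ∃ A : Set ℕ, (∃ a ∈ A, a.Prime ∧ a ∣ Nat.card M) ∧ (∃ b ∉ A, b.Prime ∧ b ∣ Nat.card M) ∧
      ∀ a ∈ A, ∀ b ∉ A, a.Prime → b.Prime → a ∣ Nat.card M → b ∣ Nat.card M → ¬ ∃ x : M, orderOf x = a * b) :
    Nat.card G = Nat.card M := by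
  obtain ⟨A, ⟨a₀, ha₀A, ha₀, ha₀d⟩, ⟨b₀, hb₀A, hb₀, hb₀d⟩, hno⟩ := hdisc
  have hm0 : Nat.card M ≠ 0 := Nat.card_pos.ne'
  have hno' : ∀ a b : ℕ, a.Prime → b.Prime → a ∈ A → b ∉ A → ∀ x : M, orderOf x = a →
      ¬ b ∣ Nat.card ↥(Subgroup.centralizer ({x} : Set M)) := by
    intro a b ha hb haA hbA x hx hd
    exact hno a haA b hbA ha hb (hx ▸ orderOf_dvd_natCard x)
      (hd.trans (Subgroup.card_subgroup_dvd_card _))
      (mul_order ha hb (fun e => hbA (e ▸ haA)) hx hd)
  have hno'' : ∀ a b : ℕ, a.Prime → b.Prime → a ∈ A → b ∉ A → ∀ x : M, orderOf x = b →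
      ¬ a ∣ Nat.card ↥(Subgroup.centralizer ({x} : Set M)) := by
    intro a b ha hb haA hbA x hx hd
    obtain ⟨u, hu⟩ := mul_order hb ha (fun e => hbA (e ▸ haA)) hx hd
    exact hno a haA b hbA ha hb (hd.trans (Subgroup.card_subgroup_dvd_card _))
      (hx ▸ orderOf_dvd_natCard x) ⟨u, by rw [hu, mul_comm]⟩
  -- facts in `M`
  have Mtotal : ∀ y : M, y ≠ 1 → Full (Nat.card M) A (sz y) ∨ Full (Nat.card M) Aᶜ (sz y) := by
    intro y hy
    by_contra hcon
    rw [not_or] at hcon
    obtain ⟨a, ha, haA, had⟩ := dvd_cent_of_not_full hcon.1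
    obtain ⟨b, hb, hbA, hbd⟩ := dvd_cent_of_not_full hcon.2
    obtain ⟨k, hk⟩ := exists_prime_order_pow hy
    have hle := Subgroup.card_dvd_of_le (cent_pow_le y k)
    by_cases hr : orderOf (y ^ k) ∈ A
    · exact hno' _ b hk hb hr hbA _ rfl (hbd.trans hle)
    · exact hno'' a _ ha hk haA hr _ rfl (had.trans hle)
  have Mexcl : ∀ y : M, y ≠ 1 → Full (Nat.card M) A (sz y) → ¬ Full (Nat.card M) Aᶜ (sz y) := by
    intro y hy h1 h2
    have he : sz y = Nat.card M := Nat.eq_of_factorization_eq (sz_ne_zero y) hm0 fun p => by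
      by_cases hp : p.Prime
      · by_cases hpA : p ∈ A
        · exact h1 p hp hpA
        · exact h2 p hp hpA
      · rw [Nat.factorization_eq_zero_of_not_prime _ hp, Nat.factorization_eq_zero_of_not_prime _ hp]
    have h3 := (Subgroup.centralizer ({y} : Set M)).card_mul_index
    have h4 : Nat.card ↥(Subgroup.centralizer ({y} : Set M)) = 1 := by
      rw [show (Subgroup.centralizer ({y} : Set M)).index = Nat.card M from he] at h3
      exact (mul_eq_right₀ hm0).mp h3
    have h5 : y ∈ Subgroup.centralizer ({y} : Set M) := Subgroup.mem_centralizer_singleton_iff.mpr rfl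
    rw [Subgroup.card_eq_one.mp h4, Subgroup.mem_bot] at h5
    exact hy h5
  have hlift : ∀ g : G, g ≠ 1 → ∃ y : M, y ≠ 1 ∧ sz y = sz g := by
    intro g hg
    obtain ⟨y, hy⟩ : sz g ∈ Set.range (fun g : M => (Subgroup.centralizer ({g} : Set M)).index) :=
      h ▸ Set.mem_range_self g
    refine ⟨y, fun e => hg ((sz_eq_one_iff hZG).mp ?_), hy⟩
    rw [← show sz y = sz g from hy]
    exact (sz_eq_one_iff hZM).mpr e
  have hdown : ∀ y : M, y ≠ 1 → ∃ g : G, g ≠ 1 ∧ sz g = sz y := by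
    intro y hy
    obtain ⟨g, hg⟩ : sz y ∈ Set.range (fun g : G => (Subgroup.centralizer ({g} : Set G)).index) :=
      h.symm ▸ Set.mem_range_self y
    refine ⟨g, fun e => hy ((sz_eq_one_iff hZM).mp ?_), hg⟩
    rw [← show sz g = sz y from hg]
    exact (sz_eq_one_iff hZG).mpr e
  have := Fact.mk ha₀
  have := Fact.mk hb₀
  obtain ⟨ya, hya⟩ := exists_prime_orderOf_dvd_card' (G := M) a₀ ha₀d
  obtain ⟨yb, hyb⟩ := exists_prime_orderOf_dvd_card' (G := M) b₀ hb₀d
  have d : Data G (Nat.card M) A := by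
    refine ⟨fun g hg e => hg ((sz_eq_one_iff hZG).mp e), fun g p => ?_, fun g hg => ?_, fun g hg => ?_, ?_, ?_,
      ⟨b₀, hb₀, hb₀A, hb₀d⟩⟩
    · by_cases hg : g = 1
      · rw [(sz_eq_one_iff hZG).mpr hg, Nat.factorization_one]; exact Nat.zero_le _
      obtain ⟨y, -, hy⟩ := hlift g hg
      rw [← hy]
      exact (Nat.factorization_le_iff_dvd (sz_ne_zero y) hm0).mpr (Subgroup.index_dvd_card _) p
    · obtain ⟨y, hy1, hy⟩ := hlift g hg
      exact hy ▸ Mtotal y hy1
    · obtain ⟨y, hy1, hy⟩ := hlift g hg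
      exact hy ▸ Mexcl y hy1
    · have hy1 : yb ≠ 1 := fun e => by rw [e, orderOf_one] at hyb; exact hb₀.one_lt.ne hyb
      obtain ⟨g, hg1, hg⟩ := hdown yb hy1
      refine ⟨g, hg1, hg ▸ fun a ha haA => ?_⟩
      have h1 := fact_cent_add yb a
      rw [Nat.factorization_eq_zero_of_not_dvd (hno'' a b₀ ha hb₀ haA hb₀A yb hyb)] at h1
      omega
    · have hy1 : ya ≠ 1 := fun e => by rw [e, orderOf_one] at hya; exact ha₀.one_lt.ne hya
      obtain ⟨g, hg1, hg⟩ := hdown ya hy1
      refine ⟨g, hg1, hg ▸ fun b hb hbA => ?_⟩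
      have h1 := fact_cent_add ya b
      rw [Nat.factorization_eq_zero_of_not_dvd (hno' a₀ b ha₀ hb ha₀A hbA ya hya)] at h1
      omega
  have d' : Data G (Nat.card M) Aᶜ := d.symm ⟨a₀, ha₀, ha₀A, ha₀d⟩
  have hge : ∀ p : ℕ, p.Prime → (Nat.card M).factorization p ≤ (Nat.card G).factorization p := by
    intro p hp
    by_cases hpA : p ∈ A
    · obtain ⟨g, -, hg⟩ := d.left
      have := hg p hp hpA
      have := fact_cent_add g p
      omega
    · obtain ⟨g, -, hg⟩ := d.right
      have := hg p hp hpA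
      have := fact_cent_add g p
      omega
  refine Nat.eq_of_factorization_eq Nat.card_pos.ne' hm0 fun p => ?_
  by_cases hp : p.Prime
  swap
  · rw [Nat.factorization_eq_zero_of_not_prime _ hp, Nat.factorization_eq_zero_of_not_prime _ hp]
  refine le_antisymm ?_ (hge p hp)
  by_cases hpm : p ∣ Nat.card M
  · by_cases hpA : p ∈ A
    · exact d.le_of_mem hp hpA hpm hm0
    · exact d'.le_of_mem hp hpA hpm hm0
  · rw [d.not_dvd hp (Nat.factorization_eq_zero_of_not_dvd hpm)
      ⟨a₀, ha₀, fun e => hpm (e ▸ ha₀d), ?_⟩]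
    · exact Nat.zero_le _
    · exact Nat.dvd_of_factorization_pos (by
        have := hge a₀ ha₀
        have := ha₀.factorization_pos_of_dvd hm0 ha₀d
        omega)

end Cfsg.Agent.S4184
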