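import Cfsg.Statements.S4186
-- no helpers

set_option autoImplicit false
open Cfsg

namespace Cfsg.Agent.S4186

/-- Let T and X be subgroups of a group with T a finite 2-group normalizing X but not centralizing it. Then some element of T inverts some non-identity element of X under conjugation. -/
theorem result {G : Type*} [Group G] (T X : Subgroup G) [Finite ↥T] (hT : IsPGroup 2 ↥T) (hTN : T ≤ Subgroup.normalizer (X : Set G)) (hTC : ¬ T ≤ Subgroup.centralizer (X : Set G)) : ∃ t ∈ T, ∃ x ∈ X, x ≠ 1 ∧ t * x * t⁻¹ = x⁻¹ := by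
  classical
  obtain ⟨t₀, ht₀, hn⟩ := SetLike.not_le_iff_exists.1 hTC
  have hex : ∃ n : ℕ, ∃ t ∈ T, t ∉ Subgroup.centralizer (X : Set G) ∧ orderOf t = n :=
    ⟨_, t₀, ht₀, hn, rfl⟩
  obtain ⟨t, ht, htn, hto⟩ := Nat.find_spec hex
  have hmin : t ^ 2 ∈ Subgroup.centralizer (X : Set G) := by
    by_contra hc
    have := Nat.find_min' hex ⟨t ^ 2, T.pow_mem ht 2, hc, rfl⟩
    obtain ⟨k, hk⟩ := hT.exists_card_eq
    obtain ⟨j, -, hj⟩ := (Nat.dvd_prime_pow Nat.prime_two).1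
      (hk ▸ Subgroup.orderOf_dvd_natCard _ ht)
    rcases j with _ | j
    · rw [pow_zero, orderOf_eq_one_iff] at hj
      exact htn (hj ▸ one_mem _)
    · rw [← hto, orderOf_pow_of_dvd (by norm_num) (hj ▸ dvd_pow_self 2 (Nat.succ_ne_zero j))] at this
      have : 0 < orderOf t := by rw [hj]; positivity
      omega
  rw [Subgroup.mem_centralizer_iff] at htn hmin
  simp only [not_forall] at htn
  obtain ⟨x, hx, hxt⟩ := htn
  have hconj : t * x * t⁻¹ ∈ X := (Subgroup.mem_normalizer_iff.1 (hTN ht) x).1 hx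
  refine ⟨t, ht, x⁻¹ * (t * x * t⁻¹), X.mul_mem (X.inv_mem hx) hconj, ?_, ?_⟩
  · rw [ne_eq, inv_mul_eq_one]
    intro h
    exact hxt (eq_mul_inv_iff_mul_eq.1 h)
  · have h2 : t ^ 2 * x * (t ^ 2)⁻¹ = x := by
      rw [← hmin x hx, mul_inv_cancel_right]
    calc t * (x⁻¹ * (t * x * t⁻¹)) * t⁻¹ = t * x⁻¹ * t⁻¹ * (t ^ 2 * x * (t ^ 2)⁻¹) := by group
      _ = t * x⁻¹ * t⁻¹ * x := by rw [h2]
      _ = _ := by group

end Cfsg.Agent.S4186
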