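import Cfsg.Statements.S4188
import Cfsg.Agent.H88.TwoGroupOdd

set_option autoImplicit false
open Cfsg

namespace Cfsg.Agent.S4188

/-- Let G be a finite group that is the semidirect product of a normal abelian subgroup N of odd order by a 2-subgroup P, and suppose N is the unique minimal normal subgroup of G. Then the index of the Frattini subgroup of P in P is at most #N − 1. -/
theorem result {G : Type*} [Group G] [Finite G] (N P : Subgroup G) (hN : N.Normal) (hNab : IsMulCommutative ↥N) (hNodd : Odd (Nat.card ↥N)) (hP : IsPGroup 2 ↥P) (hdisj : N ⊓ P = ⊥) (hprod : N ⊔ P = ⊤) (hmin : N ≠ ⊥ ∧ ∀ M : Subgroup G, M.Normal → M ≠ ⊥ → N ≤ M) : (frattini ↥P).index ≤ Nat.card ↥N - 1 := by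
  classical
  haveI : Fact (Nat.Prime 2) := ⟨Nat.prime_two⟩
  haveI := hN
  letI : CommGroup ↥N := { (inferInstance : Group ↥N) with mul_comm := hNab.is_comm.comm }
  let φ : ↥P →* MulAut ↥N := (MulAut.conjNormal (H := N)).comp P.subtype
  have hφ : Function.Injective φ := by
    rw [← MonoidHom.ker_eq_bot_iff]
    by_contra hne
    set K : Subgroup G := φ.ker.map P.subtype with hK
    have hcent : ∀ k ∈ K, ∀ x ∈ N, k * x = x * k := by
      rintro _ ⟨k, hk, rfl⟩ x hx
      have := congrArg Subtype.val (DFunLike.congr_fun (MonoidHom.mem_ker.1 hk) ⟨x, hx⟩)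
      rw [MulAut.one_apply] at this
      change (k : G) * x * (k : G)⁻¹ = x at this
      exact mul_inv_eq_iff_eq_mul.1 this
    have hKn : K.Normal := by
      rw [← Subgroup.normalizer_eq_top_iff, eq_top_iff, ← hprod]
      refine sup_le (fun x hx => Subgroup.mem_normalizer_iff.2 fun k => ⟨fun hk => ?_, fun hk => ?_⟩)
        (fun x hx => Subgroup.mem_normalizer_iff.2 fun k => ⟨fun hk => ?_, fun hk => ?_⟩)
      · rw [← hcent k hk x hx, mul_inv_cancel_right]; exact hk
      · have h := hcent _ hk x hx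
        have hkx : x * k * x⁻¹ = k := by
          calc x * k * x⁻¹ = x⁻¹ * (x * (x * k * x⁻¹)) := by group
            _ = x⁻¹ * ((x * k * x⁻¹) * x) := by rw [h]
            _ = k := by group
        rwa [hkx] at hk
      · obtain ⟨a, ha, rfl⟩ := hk
        exact ⟨⟨x, hx⟩ * a * ⟨x, hx⟩⁻¹,
          (MonoidHom.normal_ker φ).conj_mem a ha ⟨x, hx⟩, rfl⟩
      · obtain ⟨a, ha, hax⟩ := hk
        refine ⟨⟨x, hx⟩⁻¹ * a * ⟨x, hx⟩, ?_, ?_⟩
        · simpa using (MonoidHom.normal_ker φ).conj_mem a ha (⟨x, hx⟩⁻¹)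
        · show x⁻¹ * (a : G) * x = k
          rw [show (a : G) = x * k * x⁻¹ from hax]
          group
    have hKne : K ≠ ⊥ := fun h => hne
      ((Subgroup.map_eq_bot_iff_of_injective _ P.subtype_injective).1 h)
    have hNP : N ≤ P := (hmin.2 K hKn hKne).trans (Subgroup.map_subtype_le _)
    exact hmin.1 (by rwa [inf_eq_left.2 hNP] at hdisj)
  obtain ⟨k, hk, h1, h2⟩ := Cfsg.Agent.H88.oddBound hP hNodd φ hφ
  refine (Cfsg.Agent.H88.index_frattini_le hP hk).trans ?_
  have hN1 : Nat.card ↥N ≠ 1 := fun h => hmin.1 (Subgroup.eq_bot_of_card_eq _ h)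
  obtain ⟨c, hc⟩ := hNodd
  rw [pow_succ] at h1 h2
  rcases Nat.lt_or_ge (Nat.card ↥N) 5 with h | h
  · omega
  · have := h2 h
    omega

end Cfsg.Agent.S4188
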