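import Cfsg.Statements.S4189
import Cfsg.Agent.H24.MaxClass
import Cfsg.Agent.H23.QuaternionAut

set_option autoImplicit false
open Cfsg

namespace Cfsg.Agent.S4189

/-- Let P be a finite non-abelian 2-group whose commutator subgroup has index 4 and whose automorphism group is not a 2-group (some automorphism has order that is not a power of 2). Then P is isomorphic to the quaternion group of order 8. -/
theorem result {P : Type*} [Group P] [Finite P] (hP : IsPGroup 2 P) (hna : ¬ IsMulCommutative P) (h4 : (commutator P).index = 4) (haut : ¬ IsPGroup 2 (MulAut P)) : Nonempty (P ≃* QuaternionGroup 2) := by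
  classical
  haveI : Fact (Nat.Prime 2) := ⟨Nat.prime_two⟩
  obtain ⟨k, hk⟩ := IsPGroup.iff_card.mp hP
  have hk2 : 2 ≤ k := by
    have h := (commutator P).card_mul_index
    rw [h4, hk] at h
    have h1 : 2 ^ 2 ≤ 2 ^ k := by
      have : 0 < Nat.card (commutator P) := Nat.card_pos
      omega
    exact (Nat.pow_le_pow_iff_right (by norm_num)).1 h1
  have hk3 : 3 ≤ k := by
    by_contra hlt
    obtain rfl : k = 2 := by omega
    exact hna (IsPGroup.isMulCommutative_of_card_eq_prime_sq hk)
  obtain ⟨⟨C, hCc, hCi⟩, -, hcen⟩ := Cfsg.Agent.H24.two_group_commutator_index_four P k hk hk2 h4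
  have hZ := hcen hk3
  have hCn : C.Normal := Subgroup.normal_of_index_eq_two hCi
  -- an automorphism of odd order
  obtain ⟨β, r, hr, hβr, hβ⟩ : ∃ (β : MulAut P) (r : ℕ), Odd r ∧ β ^ r = 1 ∧ β ≠ 1 := by
    rw [IsPGroup] at haut
    push Not at haut
    obtain ⟨α, hα⟩ := haut
    obtain ⟨e, m, hm, he⟩ :=
      Nat.exists_eq_pow_mul_and_not_dvd (orderOf_pos α).ne' 2 (by norm_num)
    refine ⟨α ^ 2 ^ e, m, Nat.odd_iff.2 (by omega), ?_, hα e⟩
    rw [← pow_mul, ← he, pow_orderOf_eq_one]
  have hcomm : ∀ a ∈ C, ∀ b ∈ C, a * b = b * a := fun a ha b hb =>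
    congrArg Subtype.val ((IsCyclic.isMulCommutative (α := C)).is_comm.comm ⟨a, ha⟩ ⟨b, hb⟩)
  -- it moves the cyclic subgroup of index two
  have hmove : C.map β.toMonoidHom ≠ C := by
    intro hfix
    apply hβ
    let σ : MulAut C := (β.subgroupMap C).trans (MulEquiv.subgroupCongr hfix)
    have hσ : ∀ (j : ℕ) (c : C), ((σ ^ j) c : P) = (β ^ j) (c : P) := by
      intro j
      induction j with
      | zero => intro c; rfl
      | succ j ih =>
        intro c
        rw [pow_succ', pow_succ', MulAut.mul_apply, MulAut.mul_apply, ← ih c]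
        rfl
    have hσ1 : σ = 1 := Cfsg.Agent.H23.mulAut_eq_one_of_isCyclic (hP.to_subgroup C) σ hr
      (MulEquiv.ext fun c => Subtype.ext (by rw [hσ r c, hβr]; rfl))
    have hC1 : ∀ c ∈ C, β c = c := by
      intro c hc
      have := hσ 1 ⟨c, hc⟩
      rw [pow_one, pow_one, hσ1] at this
      exact this.symm
    refine MulEquiv.ext fun x => ?_
    by_cases hx : x ∈ C
    · exact hC1 x hx
    have hbx : β x ∉ C := by
      intro h
      have h1 : β.toMonoidHom x ∈ C.map β.toMonoidHom := by rw [hfix]; exact h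
      obtain ⟨y, hy, hxy⟩ := h1
      exact hx (β.injective hxy ▸ hy)
    have hd : β x * x⁻¹ ∈ C := by
      rw [Subgroup.mul_mem_iff_of_index_two hCi, inv_mem_iff]
      simp [hx, hbx]
    have hpow : ∀ j : ℕ, (β ^ j) x = (β x * x⁻¹) ^ j * x := by
      intro j
      induction j with
      | zero => simp
      | succ j ih =>
        rw [pow_succ', MulAut.mul_apply, ih, map_mul, map_pow, hC1 _ hd, pow_succ, mul_assoc,
          inv_mul_cancel_right]
    have h1 : (β x * x⁻¹) ^ r = 1 := by
      have := hpow r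
      rw [hβr] at this
      simpa using this.symm
    obtain ⟨e, he⟩ := hP (β x * x⁻¹)
    have h2 := pow_gcd_eq_one.2 ⟨h1, he⟩
    rw [Nat.Coprime.pow_right _ (Nat.coprime_two_right.2 hr), pow_one, mul_inv_eq_one] at h2
    rw [h2]; rfl
  set D := C.map β.toMonoidHom with hD
  have hDc : IsCyclic D := by
    haveI := hCc
    exact isCyclic_of_surjective _ (β.subgroupMap C).surjective
  have hDi : D.index = 2 := by
    rw [hD, Subgroup.index_map_eq _ β.surjective]
    · exact hCi
    · intro x hx
      rw [MonoidHom.mem_ker] at hx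
      rw [show x = 1 from β.injective (by simpa using hx)]
      exact one_mem _
  have hcommD : ∀ a ∈ D, ∀ b ∈ D, a * b = b * a := fun a ha b hb =>
    congrArg Subtype.val ((IsCyclic.isMulCommutative (α := D)).is_comm.comm ⟨a, ha⟩ ⟨b, hb⟩)
  have htop : C ⊔ D = ⊤ := by
    rw [← Subgroup.index_eq_one]
    have hd := Subgroup.index_dvd_of_le (le_sup_left : C ≤ C ⊔ D)
    rw [hCi] at hd
    rcases (Nat.dvd_prime Nat.prime_two).1 hd with h | h
    · exact h
    · exfalso
      apply hmove
      have h1 : C = C ⊔ D := by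
        refine Subgroup.eq_of_le_of_card_ge le_sup_left ?_
        have a := C.card_mul_index
        have b := (C ⊔ D).card_mul_index
        rw [hCi] at a
        rw [h] at b
        omega
      refine Subgroup.eq_of_le_of_card_ge (h1.symm ▸ le_sup_right) ?_
      have a := C.card_mul_index
      have b := D.card_mul_index
      rw [hCi] at a
      rw [hDi] at b
      omega
  have hinf : C ⊓ D ≤ Subgroup.center P := by
    intro z hz
    rw [Subgroup.mem_center_iff]
    have hle : C ⊔ D ≤ Subgroup.centralizer {z} := sup_le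
      (fun g hg => Subgroup.mem_centralizer_iff.2 fun y hy => by
        rw [Set.mem_singleton_iff.1 hy]; exact hcomm z hz.1 g hg)
      (fun g hg => Subgroup.mem_centralizer_iff.2 fun y hy => by
        rw [Set.mem_singleton_iff.1 hy]; exact hcommD z hz.2 g hg)
    intro g
    have hg : g ∈ C ⊔ D := htop ▸ Subgroup.mem_top g
    exact (Subgroup.mem_centralizer_iff.1 (hle hg) z rfl).symm
  have hcard : Nat.card P = 8 := by
    have h1 := Subgroup.card_le_of_le hinf
    rw [hZ] at h1
    have h2 : (C ⊓ D).index ≤ 2 * 2 := (Subgroup.index_inf_le (H := C) (K := D)).trans (by rw [hCi, hDi])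
    have h3 := (C ⊓ D).card_mul_index
    have h4' : Nat.card P ≤ 8 := by
      rw [← h3]
      exact (Nat.mul_le_mul h1 h2).trans (by norm_num)
    rw [hk] at h4' ⊢
    have : k ≤ 3 := (Nat.pow_le_pow_iff_right (by norm_num)).1 (h4'.trans (by norm_num))
    rw [show k = 3 by omega]; norm_num
  have hCcard : Nat.card C = 4 := by have := C.card_mul_index; rw [hCi, hcard] at this; omega
  have hDcard : Nat.card D = 4 := by have := D.card_mul_index; rw [hDi, hcard] at this; omega
  obtain ⟨c, hc⟩ := (Subgroup.isCyclic_iff_exists_zpowers_eq_top _).1 hCc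
  obtain ⟨x, hx⟩ := (Subgroup.isCyclic_iff_exists_zpowers_eq_top _).1 hDc
  have hcC : c ∈ C := hc ▸ Subgroup.mem_zpowers c
  have hxD : x ∈ D := hx ▸ Subgroup.mem_zpowers x
  have hco : orderOf c = 4 := by rw [← Nat.card_zpowers, hc, hCcard]
  have hxo : orderOf x = 4 := by rw [← Nat.card_zpowers, hx, hDcard]
  have hne2 : ∀ y : P, orderOf y = 4 → y ^ 2 ≠ 1 := fun y hy h => by
    have := orderOf_dvd_of_pow_eq_one h
    rw [hy] at this
    norm_num at this
  have hx2 : x ^ 2 = c ^ 2 := by
    haveI hDn : D.Normal := Subgroup.normal_of_index_eq_two hDi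
    have hxm : x ^ 2 ∈ C ⊓ D := ⟨by rw [pow_two]; exact Subgroup.mul_self_mem_of_index_two hCi x, pow_mem hxD 2⟩
    have hcm : c ^ 2 ∈ C ⊓ D := ⟨pow_mem hcC 2, by rw [pow_two]; exact Subgroup.mul_self_mem_of_index_two hDi c⟩
    by_contra hne
    haveI : Fintype ↥(Subgroup.center P) := Fintype.ofFinite _
    have : 2 < Fintype.card ↥(Subgroup.center P) :=
      Fintype.two_lt_card_iff.2 ⟨⟨x ^ 2, hinf hxm⟩, ⟨c ^ 2, hinf hcm⟩, 1,
        fun h => hne (congrArg Subtype.val h), fun h => hne2 x hxo (congrArg Subtype.val h),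
        fun h => hne2 c hco (congrArg Subtype.val h)⟩
    rw [← Nat.card_eq_fintype_card, hZ] at this
    omega
  have hc4 : c ^ 4 = 1 := hco ▸ pow_orderOf_eq_one c
  have hxc : x * c = c⁻¹ * x := by
    have hm : x * c * x⁻¹ ∈ Subgroup.zpowers c := hc.symm ▸ hCn.conj_mem c hcC x
    obtain ⟨i, hi, hic⟩ : ∃ i < 4, c ^ i = x * c * x⁻¹ := by
      obtain ⟨i, hi⟩ := mem_powers_iff_mem_zpowers.2 hm
      exact ⟨i % 4, Nat.mod_lt _ (by norm_num), by rw [← hco, pow_mod_orderOf]; exact hi⟩
    have ho : orderOf (c ^ i) = 4 := by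
      rw [hic, show x * c * x⁻¹ = MulAut.conj x c from rfl, MulEquiv.orderOf_eq, hco]
    have key : i = 3 := by
      interval_cases i
      · simp at ho
      · exfalso
        rw [pow_one] at hic
        refine hna ⟨⟨fun a b => ?_⟩⟩
        have hcz : c ∈ Subgroup.center P := by
          rw [Subgroup.mem_center_iff]
          have hle : C ⊔ D ≤ Subgroup.centralizer {c} := sup_le
            (fun g hg => Subgroup.mem_centralizer_iff.2 fun y hy => by
              rw [Set.mem_singleton_iff.1 hy]; exact hcomm c hcC g hg)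
            (hx ▸ Subgroup.zpowers_le.2 (Subgroup.mem_centralizer_iff.2 fun y hy => by
              rw [Set.mem_singleton_iff.1 hy]; exact (mul_inv_eq_iff_eq_mul.1 hic.symm).symm))
          intro g
          have hg : g ∈ C ⊔ D := htop ▸ Subgroup.mem_top g
          exact (Subgroup.mem_centralizer_iff.1 (hle hg) c rfl).symm
        have := Subgroup.card_le_of_le (Subgroup.zpowers_le.2 hcz)
        rw [Nat.card_zpowers, hco, hZ] at this
        omega
      · rw [orderOf_pow' c (by norm_num), hco] at ho; norm_num at ho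
      · rfl
    subst key
    have h3 : c ^ 3 = c⁻¹ := by rw [eq_inv_iff_mul_eq_one, ← pow_succ, hc4]
    rw [← h3, hic, inv_mul_cancel_right]
  obtain ⟨f, hf⟩ := Cfsg.Agent.H23.exists_q8Hom c x hc4 hx2 hxc
  have hsurj : Function.Surjective f := by
    rw [← MonoidHom.range_eq_top, eq_top_iff, ← htop]
    refine sup_le (hc ▸ Subgroup.zpowers_le.2 ⟨QuaternionGroup.a 1, ?_⟩)
      (hx ▸ Subgroup.zpowers_le.2 ⟨QuaternionGroup.xa 0, ?_⟩)
    · rw [(hf 1).1]
      exact pow_one c
    · rw [(hf 0).2, ZMod.val_zero, pow_zero, mul_one]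
  refine ⟨(MulEquiv.ofBijective f ((Nat.bijective_iff_surjective_and_card f).2 ⟨hsurj, ?_⟩)).symm⟩
  rw [hcard, Nat.card_eq_fintype_card, QuaternionGroup.card]

end Cfsg.Agent.S4189
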