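import Cfsg.Statements.S4195
import Cfsg.Agent.H88.ClassBasic

set_option autoImplicit false
open Cfsg

namespace Cfsg.Agent.S4195

/-- Let x be a non-identity element of a finite group G whose centralizer contains a Sylow 2-subgroup of G. If x is conjugate to its inverse, then x has order 2. -/
theorem result {G : Type*} [Group G] [Finite G] (x : G) (hx : x ≠ 1) (P : Sylow 2 G) (hP : (P : Subgroup G) ≤ Subgroup.centralizer ({x} : Set G)) (hreal : IsConj x x⁻¹) : orderOf x = 2 := by
  obtain ⟨c, hc⟩ := isConj_iff.1 hreal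
  have hPC : ∀ y ∈ (P : Subgroup G), y * x = x * y := fun y hy =>
    H88.mem_centralizer_singleton.1 (hP hy)
  -- the centralizer has odd index
  have hCodd : ¬ 2 ∣ (Subgroup.centralizer ({x} : Set G)).index :=
    fun h => P.not_dvd_index (h.trans (Subgroup.index_dvd_of_le hP))
  -- c normalises the centralizer and c^2 lies in it
  by_contra hne
  have hcm : c ∉ Subgroup.centralizer ({x} : Set G) := by
    intro hm
    have := H88.mem_centralizer_singleton.1 hm
    rw [this, mul_inv_cancel_right] at hc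
    exact hne (orderOf_eq_prime (by rw [pow_two]; nth_rewrite 2 [hc]; exact mul_inv_cancel x) hx)
  obtain ⟨m, k, hk, hm⟩ : ∃ m k : ℕ, ¬ 2 ∣ k ∧ orderOf c = 2 ^ m * k :=
    Nat.exists_eq_pow_mul_and_not_dvd (orderOf_pos c).ne' 2 (by norm_num)
  -- odd powers of c invert x, even powers centralize x
  have hpar : ∀ j : ℕ, c ^ j * x * (c ^ j)⁻¹ = if Even j then x else x⁻¹ := by
    intro j
    induction j with
    | zero => simp
    | succ j ih =>
      have : c ^ (j + 1) * x * (c ^ (j + 1))⁻¹ = c * (c ^ j * x * (c ^ j)⁻¹) * c⁻¹ := by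
        rw [pow_succ']; group
      rw [this, ih]
      by_cases hj : Even j
      · rw [if_pos hj, if_neg (by simp [hj, parity_simps]), hc]
      · rw [if_neg hj, if_pos (by simp [hj, parity_simps])]
        calc c * x⁻¹ * c⁻¹ = (c * x * c⁻¹)⁻¹ := by group
          _ = x := by rw [hc, inv_inv]
  set d := c ^ k with hd
  have hdinv : d * x * d⁻¹ = x⁻¹ := by
    rw [hd, hpar, if_neg]
    rw [even_iff_two_dvd]; exact hk
  have hd2 : d ^ 2 ^ m = 1 := by
    rw [hd, ← pow_mul, mul_comm, ← hm, pow_orderOf_eq_one]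
  -- the extended centralizer has a Sylow 2-subgroup contained in the centralizer
  let E : Subgroup G :=
    { carrier := {g | g * x * g⁻¹ = x ∨ g * x * g⁻¹ = x⁻¹}
      one_mem' := by simp
      mul_mem' := by
        intro a b ha hb
        have e : a * b * x * (a * b)⁻¹ = a * (b * x * b⁻¹) * a⁻¹ := by group
        rcases hb with hb | hb <;> rcases ha with ha | ha
        · left; rw [e, hb, ha]
        · right; rw [e, hb, ha]
        · right; rw [e, hb]
          calc a * x⁻¹ * a⁻¹ = (a * x * a⁻¹)⁻¹ := by group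
            _ = x⁻¹ := by rw [ha]
        · left; rw [e, hb]
          calc a * x⁻¹ * a⁻¹ = (a * x * a⁻¹)⁻¹ := by group
            _ = x := by rw [ha, inv_inv]
      inv_mem' := by
        intro a ha
        rcases ha with ha | ha
        · left; nth_rewrite 1 [← ha]; group
        · right
          calc a⁻¹ * x * a⁻¹⁻¹ = (a⁻¹ * x⁻¹ * a⁻¹⁻¹)⁻¹ := by group
            _ = (a⁻¹ * (a * x * a⁻¹) * a⁻¹⁻¹)⁻¹ := by rw [ha]
            _ = x⁻¹ := by group }
  have hCE : Subgroup.centralizer ({x} : Set G) ≤ E := by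
    intro g hg
    left
    rw [H88.mem_centralizer_singleton.1 hg, mul_inv_cancel_right]
  have hCN : ((Subgroup.centralizer ({x} : Set G)).subgroupOf E).Normal := by
    refine ⟨fun a ha g => ?_⟩
    rw [Subgroup.mem_subgroupOf, H88.mem_centralizer_singleton] at ha ⊢
    push_cast
    have ha' : (a : G) * x * (a : G)⁻¹ = x := by rw [ha, mul_inv_cancel_right]
    have ha'' : (a : G) * x⁻¹ * (a : G)⁻¹ = x⁻¹ := by
      calc (a : G) * x⁻¹ * (a : G)⁻¹ = ((a : G) * x * (a : G)⁻¹)⁻¹ := by group
        _ = x⁻¹ := by rw [ha']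
    rw [← mul_inv_eq_iff_eq_mul]
    have e : (g : G) * a * (g : G)⁻¹ * x * ((g : G) * a * (g : G)⁻¹)⁻¹ =
        g * (a * ((g : G)⁻¹ * x * g) * (a : G)⁻¹) * (g : G)⁻¹ := by group
    rw [e]
    rcases E.inv_mem g.2 with h | h <;> rw [inv_inv] at h
    · rw [h, ha']; nth_rewrite 1 [← h]; group
    · rw [h, ha'']; rw [← h]; group
  let q := QuotientGroup.mk' ((Subgroup.centralizer ({x} : Set G)).subgroupOf E)
  have hdE : d ∈ E := Or.inr hdinv
  have h1 : orderOf (q ⟨d, hdE⟩) ∣ 2 ^ m := by
    apply orderOf_dvd_of_pow_eq_one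
    rw [← map_pow, show (⟨d, hdE⟩ : E) ^ 2 ^ m = 1 from Subtype.ext hd2, map_one]
  have h2 : orderOf (q ⟨d, hdE⟩) ∣ (Subgroup.centralizer ({x} : Set G)).index := by
    refine (orderOf_dvd_natCard _).trans ?_
    rw [← Subgroup.index_eq_card]
    exact Dvd.intro _ (Subgroup.relIndex_mul_index hCE)
  obtain ⟨i, -, hi⟩ := (Nat.dvd_prime_pow Nat.prime_two).1 h1
  have hi0 : i = 0 := by
    by_contra hi0
    exact hCodd ((dvd_pow_self 2 hi0).trans (hi ▸ h2))
  rw [hi0, pow_zero, orderOf_eq_one_iff] at hi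
  have : d ∈ Subgroup.centralizer ({x} : Set G) := by
    simpa [q, Subgroup.mem_subgroupOf] using hi
  rw [H88.mem_centralizer_singleton] at this
  rw [this, mul_inv_cancel_right] at hdinv
  exact hne (orderOf_eq_prime (by rw [pow_two]; nth_rewrite 2 [hdinv]; exact mul_inv_cancel x) hx)

end Cfsg.Agent.S4195
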