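import Cfsg.Statements.S4196
import Cfsg.Agent.H88.ClassBasic
import Cfsg.Agent.S4195

set_option autoImplicit false
open Cfsg

namespace Cfsg.Agent.S4196

/-- A finite group G has elementary abelian Sylow 2-subgroups (commutative with every element squaring to the identity) if and only if every 2-element of G has a Sylow 2-subgroup in its centralizer and is conjugate to its inverse. -/
theorem result {G : Type*} [Group G] [Finite G] (P : Sylow 2 G) :
    (IsMulCommutative (P : Subgroup G) ∧ ∀ x ∈ (P : Subgroup G), x ^ 2 = 1) ↔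
      ∀ x : G, (∃ k : ℕ, orderOf x = 2 ^ k) → (∃ Q : Sylow 2 G, (Q : Subgroup G) ≤ Subgroup.centralizer ({x} : Set G)) ∧ IsConj x x⁻¹ := by
  constructor
  · rintro ⟨hc, h2⟩ x ⟨k, hk⟩
    have hp : IsPGroup 2 (Subgroup.zpowers x) :=
      IsPGroup.of_card (n := k) (by rw [Nat.card_zpowers, hk])
    obtain ⟨Q, hQ⟩ := hp.exists_le_sylow
    obtain ⟨g, hg⟩ := MulAction.exists_smul_eq G P Q
    have hx : x ∈ (Q : Subgroup G) := hQ (Subgroup.mem_zpowers x)
    have hmem : ∀ y ∈ (Q : Subgroup G), ∃ z ∈ (P : Subgroup G), g * z * g⁻¹ = y := by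
      intro y hy
      rw [← hg] at hy
      rw [Sylow.coe_subgroup_smul] at hy
      exact Subgroup.mem_map.1 hy
    refine ⟨⟨Q, fun y hy => ?_⟩, ?_⟩
    · obtain ⟨z, hz, rfl⟩ := hmem y hy
      obtain ⟨w, hw, rfl⟩ := hmem x hx
      rw [H88.mem_centralizer_singleton]
      have : z * w = w * z := congrArg Subtype.val
        (hc.is_comm.comm (⟨z, hz⟩ : (P : Subgroup G)) ⟨w, hw⟩)
      calc g * z * g⁻¹ * (g * w * g⁻¹) = g * (z * w) * g⁻¹ := by group
        _ = g * (w * z) * g⁻¹ := by rw [this]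
        _ = _ := by group
    · obtain ⟨w, hw, rfl⟩ := hmem x hx
      have : (g * w * g⁻¹)⁻¹ = g * w * g⁻¹ := by
        rw [inv_eq_iff_mul_eq_one]
        calc g * w * g⁻¹ * (g * w * g⁻¹) = g * w ^ 2 * g⁻¹ := by rw [pow_two]; group
          _ = 1 := by rw [h2 w hw]; simp
      rw [this]
  · intro h
    have hsq : ∀ x ∈ (P : Subgroup G), x ^ 2 = 1 := by
      intro x hx
      rcases eq_or_ne x 1 with rfl | hx1
      · simp
      obtain ⟨k, hk⟩ := (P.isPGroup').exists_card_eq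
      obtain ⟨j, -, hj⟩ := (Nat.dvd_prime_pow Nat.prime_two).1 (hk ▸ Subgroup.orderOf_dvd_natCard _ hx)
      obtain ⟨⟨Q, hQ⟩, hr⟩ := h x ⟨j, hj⟩
      rw [← S4195.result x hx1 Q hQ hr]
      exact pow_orderOf_eq_one x
    refine ⟨⟨⟨fun a b => ?_⟩⟩, hsq⟩
    have e : ∀ a : (P : Subgroup G), a⁻¹ = a := fun a => by
      rw [inv_eq_iff_mul_eq_one, ← pow_two]; exact Subtype.ext (hsq _ a.2)
    calc a * b = (a * b)⁻¹ := (e _).symm
      _ = b * a := by rw [mul_inv_rev, e, e]

end Cfsg.Agent.S4196
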