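import Cfsg.Statements.S4201
import Cfsg.Agent.H88.CommPairs

set_option autoImplicit false
open Cfsg

namespace Cfsg.Agent.S4201

/-- If N is a normal subgroup of the finite group X then k(X) ≤ k(N)·k(X ⧸ N), where k denotes the number of conjugacy classes. -/
theorem result {X : Type*} [Group X] [Finite X] (N : Subgroup X) [N.Normal] : Nat.card (ConjClasses X) ≤ Nat.card (ConjClasses N) * Nat.card (ConjClasses (X ⧸ N)) := by
  classical
  have hpos : 0 < Nat.card X := Nat.card_pos
  apply Nat.le_of_mul_le_mul_right _ hpos
  have h1 := card_comm_eq_card_conjClasses_mul_card X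
  have h2 := card_comm_eq_card_conjClasses_mul_card N
  have h3 := card_comm_eq_card_conjClasses_mul_card (X ⧸ N)
  have h4 : Nat.card N * Nat.card (X ⧸ N) = Nat.card X := by
    rw [← Subgroup.index_eq_card]; exact N.card_mul_index
  calc Nat.card (ConjClasses X) * Nat.card X = Nat.card { p : X × X // Commute p.1 p.2 } := h1.symm
    _ ≤ Nat.card { p : (X ⧸ N) × (X ⧸ N) // Commute p.1 p.2 } *
        Nat.card { p : N × N // Commute p.1 p.2 } := H88.card_comm_le_quotient_mul N
    _ = _ := by rw [h2, h3, ← h4]; ring

end Cfsg.Agent.S4201
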