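import Cfsg.Statements.S4234
import Cfsg.Agent.H89.PSLThirteen

set_option autoImplicit false
open Cfsg

namespace Cfsg.Agent.S4234
open Subgroup

/-- Transfer of maximality of normalizers along a central extension with a unique involution. -/
theorem coatom_of_cover {K G : Type*} [Group K] [Finite K] [Group G] [Finite G]
    (hG : ∀ H : Subgroup G, ¬ H.Normal → IsCoatom (normalizer (H : Set G)))
    (f : K →* G) (hf : Function.Surjective f) (hker : f.ker ≤ center K)
    (hinv : Nat.card f.ker = 2 → ∀ x : K, x ^ 2 = 1 → x ∈ f.ker) (h2 : Nat.card f.ker = 1 ∨ Nat.card f.ker = 2)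
    (H : Subgroup K) (hH : ¬ H.Normal) : IsCoatom (normalizer (H : Set K)) := by
  haveI : f.ker.Normal := inferInstance
  -- the normalizer is that of `H ⊔ ker f`
  have hN : normalizer (H : Set K) = (normalizer (H.map f : Set G)).comap f := by
    rw [comap_normalizer_eq_of_surjective _ hf, comap_map_eq]
    refine le_antisymm (le_normalizer_iff.2 fun g hg x hx => ?_) (le_normalizer_iff.2 fun g hg x hx => ?_)
    · obtain ⟨a, ha, z, hz, rfl⟩ := mem_sup_of_normal_right.1 hx
      rw [show g * (a * z) * g⁻¹ = (g * a * g⁻¹) * (g * z * g⁻¹) by group]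
      exact mul_mem (mem_sup_left ((mem_normalizer_iff.1 hg a).1 ha))
        (mem_sup_right (Normal.conj_mem inferInstance z hz g))
    · by_cases hle : f.ker ≤ H
      · rw [sup_eq_left.2 hle] at hg
        exact (mem_normalizer_iff.1 hg x).1 hx
      · have hk2 : Nat.card f.ker = 2 := h2.resolve_left fun h => hle (by
          rw [eq_bot_of_card_eq _ h]; exact bot_le)
        have hdisj : ∀ y ∈ f.ker, y ∈ H → y = 1 := fun y hy hyH => by
          by_contra hne
          apply hle
          have hz : zpowers y = f.ker := by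
            refine eq_of_le_of_card_ge (zpowers_le.2 hy) ?_
            rw [hk2, Nat.card_zpowers]
            have h1 := orderOf_pos y
            have h2' : orderOf y ≠ 1 := fun h => hne (orderOf_eq_one_iff.1 h)
            omega
          exact hz ▸ zpowers_le.2 hyH
        have hodd : Odd (Nat.card H) := by
          rw [← Nat.not_even_iff_odd, even_iff_two_dvd]
          intro hd
          haveI : Fact (Nat.Prime 2) := ⟨Nat.prime_two⟩
          obtain ⟨y, hy⟩ := exists_prime_orderOf_dvd_card' (G := H) 2 hd
          have h1 : (y : K) ^ 2 = 1 := by rw [← SubmonoidClass.coe_pow, ← hy, pow_orderOf_eq_one]; rfl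
          have h3 : y = 1 := Subtype.ext (hdisj _ (hinv hk2 _ h1) y.2)
          rw [h3, orderOf_one] at hy; omega
        obtain ⟨a, ha, z, hz, haz⟩ :=
          mem_sup_of_normal_right.1 ((mem_normalizer_iff.1 hg x).1 (mem_sup_left hx))
        have hcomm : Commute a z := mem_center_iff.1 (hker hz) a
        have hpow : ∀ y ∈ H, y ^ Nat.card H = 1 := fun y hy =>
          congrArg Subtype.val (pow_card_eq_one' (x := (⟨y, hy⟩ : H)))
        have h4 : z ^ Nat.card H = 1 := by
          have := congrArg (· ^ Nat.card H) haz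
          simp only [hcomm.mul_pow, hpow a ha, one_mul, conj_pow, hpow x hx, mul_one,
            mul_inv_cancel] at this
          exact this
        have h5 : z ^ 2 = 1 := hk2 ▸ congrArg Subtype.val (pow_card_eq_one' (x := (⟨z, hz⟩ : f.ker)))
        have hz1 : z = 1 := by
          obtain ⟨k, hk⟩ := hodd
          rw [hk, pow_add, pow_mul, h5, one_pow, one_mul, pow_one] at h4
          exact h4
        rw [← haz, hz1, mul_one]; exact ha
  have hH' : ¬ (H.map f).Normal := fun h => hH (normalizer_eq_top_iff.1 (by
    rw [hN, normalizer_eq_top, comap_top]))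
  rw [hN]
  obtain ⟨h1, h3⟩ := hG _ hH'
  refine ⟨fun h => h1 ?_, fun M hM => ?_⟩
  · rw [← map_comap_eq_self_of_surjective hf (normalizer _), h, map_top_of_surjective f hf]
  · have hk : f.ker ≤ M := (MonoidHom.ker_le_comap f _).trans hM.le
    rw [← comap_map_eq_self hk] at hM ⊢
    rw [h3 _ ((comap_lt_comap_of_surjective hf).1 hM), comap_top]

theorem coatom_K {K : Type*} [Group K] [Finite K]
    (hK : Nonempty (K ≃* Matrix.ProjectiveSpecialLinearGroup (Fin 2) (ZMod 13)) ∨
      Nonempty (K ≃* Matrix.SpecialLinearGroup (Fin 2) (ZMod 13)))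
    (H : Subgroup K) (hH : ¬ H.Normal) : IsCoatom (normalizer (H : Set K)) := by
  haveI : Fact (Nat.Prime 13) := ⟨by norm_num⟩
  have hG := H89.PSLThirteen.isCoatom_normalizer (H89.PSLThirteen.facts)
  rcases hK with hK | hK
  · let e := hK.some
    have hker : e.toMonoidHom.ker = ⊥ := (MonoidHom.ker_eq_bot_iff _).2 e.injective
    exact coatom_of_cover hG e.toMonoidHom e.surjective (by rw [hker]; exact bot_le)
      (fun h2 => absurd h2 (by rw [hker, card_bot]; decide)) (Or.inl (by rw [hker, card_bot])) H hH
  · let e := hK.some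
    let f := (H6.π (F := ZMod 13)).comp e.toMonoidHom
    have hq : Fintype.card (ZMod 13) = 13 := ZMod.card 13
    have hmem : ∀ x : K, x ∈ f.ker ↔ e x ∈ center (Matrix.SpecialLinearGroup (Fin 2) (ZMod 13)) := fun x => by
      show H6.π (e x) = 1 ↔ _
      exact QuotientGroup.eq_one_iff _
    refine coatom_of_cover hG f (H6.π_surjective.comp e.surjective) (fun x hx => ?_) (fun _ x hx => ?_)
      (Or.inr ?_) H hH
    · refine mem_center_iff.2 fun g => e.injective ?_
      rw [map_mul, map_mul, mem_center_iff.1 ((hmem x).1 hx) (e g)]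
    · rw [hmem, H6.mem_center_sl2]
      by_cases h1 : e x = 1
      · exact Or.inl h1
      · refine Or.inr (Subtype.ext ((H1.SL2_involution_eq_neg_one ?_ _ h1 ?_).trans (by simp)))
        · intro e'
          have : ((2 : ℕ) : ZMod 13) = 0 := by exact_mod_cast e'
          rw [ZMod.natCast_eq_zero_iff] at this
          norm_num at this
        · rw [← map_mul, ← sq, hx, map_one]
    · rw [show Nat.card f.ker = Nat.card (center (Matrix.SpecialLinearGroup (Fin 2) (ZMod 13))) from
        Nat.card_congr (e.toEquiv.subtypeEquiv hmem), H6.card_center_sl2 hq]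
      rfl

/-- Let K be isomorphic to PSL(2, 13) or to SL(2, 13) and let S be a finite abelian group of order coprime to the order of K. Then in the direct product K × S every subgroup that is not normal has a normalizer that is a maximal subgroup. -/
theorem result {K S : Type*} [Group K] [CommGroup S] [Finite K] [Finite S]
    (hK : Nonempty (K ≃* Matrix.ProjectiveSpecialLinearGroup (Fin 2) (ZMod 13)) ∨
      Nonempty (K ≃* Matrix.SpecialLinearGroup (Fin 2) (ZMod 13)))
    (hKS : (Nat.card K).Coprime (Nat.card S)) (H : Subgroup (K × S)) (hH : ¬ H.Normal) :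
    IsCoatom (Subgroup.normalizer (H : Set (K × S))) := by
  have hsplit : ∀ x : K × S, x ∈ H → ((x.1, 1) : K × S) ∈ H := by
    intro x hx
    obtain ⟨k, hk⟩ := exists_pow_eq_self_of_coprime (x := x.1)
      ((hKS.coprime_dvd_left (orderOf_dvd_natCard x.1)).symm)
    have h1 : (x ^ Nat.card S) ^ k = ((x.1, 1) : K × S) := Prod.ext (by simpa using hk)
      (by simp [pow_card_eq_one'])
    rw [← h1]; exact pow_mem (pow_mem hx _) k
  let H1 : Subgroup K := H.map (MonoidHom.fst K S)
  have hH1 : ∀ k : K, k ∈ H1 ↔ ((k, 1) : K × S) ∈ H := fun k =>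
    ⟨fun ⟨x, hx, e⟩ => by subst e; exact hsplit x hx, fun h => ⟨(k, 1), h, rfl⟩⟩
  have hN : Subgroup.normalizer (H : Set (K × S)) =
      (Subgroup.normalizer (H1 : Set K)).comap (MonoidHom.fst K S) := by
    refine le_antisymm (fun g hg => ?_) (Subgroup.le_normalizer_iff.2 fun g hg x hx => ?_)
    · refine Subgroup.mem_normalizer_iff.2 fun k => ?_
      rw [hH1, hH1]
      convert Subgroup.mem_normalizer_iff.1 hg (k, 1) using 2
      ext <;> simp
    · have h2 : ((1, x.2) : K × S) ∈ H := by
        have := mul_mem (inv_mem (hsplit x hx)) hx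
        convert this using 1; ext <;> simp
      have h3 := (hH1 _).1 ((Subgroup.mem_normalizer_iff.1 hg x.1).1 ((hH1 _).2 (hsplit x hx)))
      convert mul_mem h3 h2 using 1
      ext <;> simp
  have hH1n : ¬ H1.Normal := fun h => hH (Subgroup.normalizer_eq_top_iff.1 (by
    rw [hN, Subgroup.normalizer_eq_top, Subgroup.comap_top]))
  obtain ⟨h1, h3⟩ := coatom_K hK H1 hH1n
  have hf : Function.Surjective (MonoidHom.fst K S) := Prod.fst_surjective
  rw [hN]
  refine ⟨fun h => h1 ?_, fun M hM => ?_⟩
  · rw [← Subgroup.map_comap_eq_self_of_surjective hf (Subgroup.normalizer _), h,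
      Subgroup.map_top_of_surjective _ hf]
  · have hk : (MonoidHom.fst K S).ker ≤ M := (MonoidHom.ker_le_comap _ _).trans hM.le
    rw [← Subgroup.comap_map_eq_self hk] at hM ⊢
    rw [h3 _ ((Subgroup.comap_lt_comap_of_surjective hf).1 hM), Subgroup.comap_top]

end Cfsg.Agent.S4234
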