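import Cfsg.Statements.S4235
import Cfsg.Agent.H7.FrobSystem
-- import your own Cfsg.Agent.* helpers here

set_option autoImplicit false
open scoped Pointwise
open Cfsg

namespace Cfsg.Agent.S4235

/-- Let G be a finite group. Call a subgroup maximal solvable if it is solvable and not properly contained in a solvable subgroup. Suppose F assigns to each maximal solvable subgroup M a normal subgroup F(M) of M such that: every element of M outside F(M) centralizes no non-identity element of F(M); F(M) meets each conjugate g F(M) g⁻¹ with g outside M trivially; and F(M) is nontrivial unless M is abelian. Then G is solvable, or G is isomorphic to SL(2, K) for a finite field K of characteristic 2 with at least 4 elements, or G is isomorphic to a Suzuki group. -/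
theorem result {G : Type*} [Group G] [Finite G] (F : Subgroup G → Subgroup G)
    (h : ∀ M : Subgroup G, (Group.IsSolvable M ∧ ∀ M' : Subgroup G, M < M' → ¬ Group.IsSolvable M') →
      F M ≤ M ∧ M ≤ Subgroup.normalizer (F M : Set G) ∧
      (∀ a ∈ M, a ∉ F M → ∀ x ∈ F M, x * a = a * x → x = 1) ∧
      (∀ g : G, g ∉ M → F M ⊓ (MulAut.conj g • F M) = ⊥) ∧
      (F M ≠ ⊥ ∨ IsMulCommutative M)) :
    Group.IsSolvable G ∨
      (∃ (K : Type) (_ : Field K) (_ : Fintype K), (∃ n : ℕ, 2 ≤ n ∧ Fintype.card K = 2 ^ n) ∧
        Nonempty (G ≃* Matrix.SpecialLinearGroup (Fin 2) K)) ∨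
      Cfsg.Lie.IsoSuzuki G := by
  exact H7.FrobSys.main h

end Cfsg.Agent.S4235
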