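import Cfsg.Statements.S4242
import Cfsg.Agent.H89.MaximalOfOrderDivisible

set_option autoImplicit false
open Cfsg

namespace Cfsg.Agent.S4242

/-- Let G be a finite group and p a prime dividing its order. Every maximal subgroup of G of order divisible by p is nilpotent if and only if G is nilpotent, or G is a minimal non-nilpotent group, or G is the internal direct product of a normal subgroup of order p and a normal minimal non-nilpotent subgroup of order prime to p. -/
theorem result {G : Type*} [Group G] [Finite G] (p : ℕ) (hp : p.Prime) (hpG : p ∣ Nat.card G) :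
    (∀ M : Subgroup G, IsCoatom M → p ∣ Nat.card M → Group.IsNilpotent M) ↔
      (Group.IsNilpotent G ∨ Cfsg.IsMinimalNonNilpotent G ∨
        ∃ Z K : Subgroup G, Z.Normal ∧ K.Normal ∧ Z ⊓ K = ⊥ ∧ Z ⊔ K = ⊤ ∧ Nat.card Z = p ∧
          Cfsg.IsMinimalNonNilpotent K ∧ ¬ p ∣ Nat.card K) := by
  haveI : Fact p.Prime := ⟨hp⟩
  constructor
  · intro h
    by_cases hall : ∀ M : Subgroup G, IsCoatom M → Group.IsNilpotent M
    · by_cases hn : Group.IsNilpotent G
      · exact Or.inl hn
      · refine Or.inr (Or.inl ⟨hn, fun H hH => ?_⟩)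
        obtain ⟨M, hM, hHM⟩ := (eq_top_or_exists_le_coatom H).resolve_left hH
        haveI := hall M hM
        exact Group.nilpotent_of_mulEquiv (Subgroup.subgroupOfEquivOfLe hHM)
    · push Not at hall
      obtain ⟨M, hM, hMn⟩ := hall
      exact Or.inr (Or.inr (H89.exists_product_of_maximal_nilpotent hpG h hM hMn))
  · rintro (hn | hm | ⟨Z, K, hZ, hK, hinf, hsup, hZp, hKm, hpK⟩) M hM hpM
    · infer_instance
    · exact hm.2 M hM.1
    · exact H89.isNilpotent_of_product hp hZ hK hinf hsup hZp hKm hpK hM hpM

end Cfsg.Agent.S4242
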