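import Cfsg.Statements.S4245
import Cfsg.Agent.H89.PrimePowerIndex

set_option autoImplicit false
open Cfsg

namespace Cfsg.Agent.S4245

/-- Let G be a finite group with a subgroup A of prime-power index. Suppose A has a normal cyclic subgroup B such that A/B is cyclic of order a power of 2. Then G is solvable. -/
theorem result {G : Type*} [Group G] [Finite G] (A : Subgroup G) (p s : ℕ) (hp : p.Prime) (hA : A.index = p ^ s)
    (B : Subgroup A) [B.Normal] (hB : IsCyclic B) (hAB : IsCyclic (A ⧸ B)) (r : ℕ) (hr : Nat.card (A ⧸ B) = 2 ^ r) :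
    Group.IsSolvable G := by
  exact H89.isSolvable_of_cyclicByTwoPower_aux p s hp _ G le_rfl
    ⟨A, B, inferInstance, dvd_of_eq hA, hB, hAB, r, hr⟩

end Cfsg.Agent.S4245
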