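import Cfsg.Statements.S4249
import Cfsg.Agent.H89.Hughes

set_option autoImplicit false
open Cfsg

namespace Cfsg.Agent.S4249

/-- Let G be a finite group and p a prime such that G is not a p-group, and suppose the Hughes subgroup H_p(G), generated by all elements g with g^p ≠ 1, is a proper subgroup. Then H_p(G) is nilpotent and has index p in G. -/
theorem result {G : Type*} [Group G] [Finite G] (p : ℕ) (hp : p.Prime) (hG : ¬ IsPGroup p G)
    (hH : Subgroup.closure {g : G | g ^ p ≠ 1} ≠ ⊤) :
    Group.IsNilpotent (Subgroup.closure {g : G | g ^ p ≠ 1}) ∧ (Subgroup.closure {g : G | g ^ p ≠ 1}).index = p := by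
  haveI : Fact p.Prime := ⟨hp⟩
  set H := Subgroup.closure {g : G | g ^ p ≠ 1}
  have hidx : H.index = p := H89.hughes_index hG hH
  refine ⟨?_, hidx⟩
  haveI hn : H.Normal := H89.hughes_normal p
  obtain ⟨x, -, hx⟩ := SetLike.exists_of_lt (lt_top_iff_ne_top.mpr hH)
  refine H89.isNilpotent_of_splitting hp (p := p) (x := x) ⟨hn, ?_, fun k hk =>
    H89.pow_eq_one_of_notMem fun h => hx (by simpa using H.mul_mem (H.inv_mem hk) h)⟩
  have h1 : (H ⊔ Subgroup.zpowers x).index ∣ p := hidx ▸ Subgroup.index_dvd_of_le le_sup_left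
  rcases (Nat.dvd_prime hp).mp h1 with h2 | h2
  · exact Subgroup.index_eq_one.mp h2
  · exfalso
    have h3 := Subgroup.relIndex_mul_index (le_sup_left : H ≤ H ⊔ Subgroup.zpowers x)
    rw [h2, hidx] at h3
    have h4 : H.relIndex (H ⊔ Subgroup.zpowers x) = 1 :=
      Nat.eq_of_mul_eq_mul_right hp.pos (h3.trans (one_mul p).symm)
    exact hx (Subgroup.relIndex_eq_one.mp h4 (Subgroup.mem_sup_right (Subgroup.mem_zpowers x)))

end Cfsg.Agent.S4249
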