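import Cfsg.Statements.S4250
import Cfsg.Agent.H89.FocalTame

set_option autoImplicit false
open Cfsg

namespace Cfsg.Agent.S4250

open scoped commutatorElement

/-- Let P be a Sylow p-subgroup of a finite group G. Call an intersection H = P ∩ Q with a Sylow p-subgroup Q tame when N_P(H) and N_Q(H) are Sylow p-subgroups of N_G(H). Then P ∩ G′ is generated by [P, N_G(P)] together with the commutator subgroups [P ∩ Q, ⟨x⟩] for all tame intersections P ∩ Q and all p-elements x of N_G(P ∩ Q). -/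
theorem result {G : Type*} [Group G] [Finite G] (p : ℕ) [Fact p.Prime] (P : Sylow p G) :
    (P : Subgroup G) ⊓ commutator G =
      ⁅(P : Subgroup G), Subgroup.normalizer ((P : Subgroup G) : Set G)⁆ ⊔
        ⨆ (Q : Sylow p G) (_ : (¬ p ∣ ((P : Subgroup G) ⊓ Subgroup.normalizer (((P : Subgroup G) ⊓ (Q : Subgroup G) : Subgroup G) : Set G)).relIndex (Subgroup.normalizer (((P : Subgroup G) ⊓ (Q : Subgroup G) : Subgroup G) : Set G)) ∧ ¬ p ∣ ((Q : Subgroup G) ⊓ Subgroup.normalizer (((P : Subgroup G) ⊓ (Q : Subgroup G) : Subgroup G) : Set G)).relIndex (Subgroup.normalizer (((P : Subgroup G) ⊓ (Q : Subgroup G) : Subgroup G) : Set G))))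
          (x : G) (_ : x ∈ Subgroup.normalizer (((P : Subgroup G) ⊓ (Q : Subgroup G) : Subgroup G) : Set G) ∧ ∃ k : ℕ, orderOf x = p ^ k),
          ⁅(P : Subgroup G) ⊓ (Q : Subgroup G), Subgroup.zpowers x⁆ := by
  apply le_antisymm
  · rw [inf_comm, Subgroup.commutator_inf_eq_focalSubgroup, Subgroup.focalSubgroup_def, Subgroup.closure_le]
    rintro _ ⟨hz, x, hx, u, rfl⟩
    have e1 : ⁅x, u⁆ = x⁻¹⁻¹ * (u⁻¹⁻¹ * x⁻¹ * u⁻¹) := by rw [commutatorElement_def]; group
    rw [SetLike.mem_coe, e1]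
    refine H89.fusion_diff_mem P _ le_sup_left (fun Q hQ y hy hyk => ?_) (A := Subgroup.zpowers x⁻¹)
      (g := u⁻¹) (Subgroup.zpowers_le.mpr ((P : Subgroup G).inv_mem hx)) ?_ x⁻¹ (Subgroup.mem_zpowers _)
    · refine le_sup_of_le_right ?_
      refine le_iSup_of_le Q ?_
      refine le_iSup_of_le hQ ?_
      refine le_iSup_of_le y ?_
      exact le_iSup_of_le (And.intro hy hyk) le_rfl
    · rw [H23.rconj, MonoidHom.map_zpowers, Subgroup.zpowers_le]
      have e : u * x⁻¹ * u⁻¹ = x⁻¹ * ⁅x, u⁆ := by rw [commutatorElement_def]; group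
      simpa [e] using (P : Subgroup G).mul_mem ((P : Subgroup G).inv_mem hx) hz
  · refine le_inf (sup_le ?_ ?_) (sup_le ?_ ?_)
    · exact Subgroup.commutator_le.mpr fun a ha b hb => by
        have h1 : b * a⁻¹ * b⁻¹ ∈ (P : Subgroup G) :=
          (Subgroup.mem_normalizer_iff.mp hb a⁻¹).mp ((P : Subgroup G).inv_mem ha)
        simpa [commutatorElement_def, mul_assoc] using (P : Subgroup G).mul_mem ha h1
    · refine iSup_le fun Q => iSup_le fun _ => iSup_le fun x => iSup_le fun hx => ?_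
      refine le_trans ?_ (inf_le_left : (P : Subgroup G) ⊓ (Q : Subgroup G) ≤ _)
      refine Subgroup.commutator_le.mpr fun a ha b hb => ?_
      have hbN := Subgroup.zpowers_le.mpr hx.1 hb
      have h1 := (Subgroup.mem_normalizer_iff.mp hbN a⁻¹).mp (Subgroup.inv_mem _ ha)
      simpa [commutatorElement_def, mul_assoc] using Subgroup.mul_mem _ ha h1
    · exact Subgroup.commutator_mono le_top le_top
    · exact iSup_le fun Q => iSup_le fun _ => iSup_le fun x => iSup_le fun _ =>
        Subgroup.commutator_mono le_top le_top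

end Cfsg.Agent.S4250
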