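import Cfsg.Statements.S4251
import Cfsg.Agent.H89.FocalTame

set_option autoImplicit false
open Cfsg

namespace Cfsg.Agent.S4251

/-- Let P be a Sylow p-subgroup of a finite group G. Call an intersection H = P ∩ Q with a Sylow p-subgroup Q tame when N_P(H) and N_Q(H) are Sylow p-subgroups of N_G(H). If N_G(H)/C_G(H) is a p-group for every nontrivial tame intersection H = P ∩ Q, then G has a normal p-complement. -/
theorem result {G : Type*} [Group G] [Finite G] (p : ℕ) [Fact p.Prime] (P : Sylow p G)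
    (h : ∀ Q : Sylow p G, (P : Subgroup G) ⊓ (Q : Subgroup G) ≠ ⊥ → (¬ p ∣ ((P : Subgroup G) ⊓ Subgroup.normalizer (((P : Subgroup G) ⊓ (Q : Subgroup G) : Subgroup G) : Set G)).relIndex (Subgroup.normalizer (((P : Subgroup G) ⊓ (Q : Subgroup G) : Subgroup G) : Set G)) ∧ ¬ p ∣ ((Q : Subgroup G) ⊓ Subgroup.normalizer (((P : Subgroup G) ⊓ (Q : Subgroup G) : Subgroup G) : Set G)).relIndex (Subgroup.normalizer (((P : Subgroup G) ⊓ (Q : Subgroup G) : Subgroup G) : Set G))) →
      IsPGroup p (Subgroup.normalizer (((P : Subgroup G) ⊓ (Q : Subgroup G) : Subgroup G) : Set G) ⧸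
        (Subgroup.centralizer (((P : Subgroup G) ⊓ (Q : Subgroup G) : Subgroup G) : Set G)).subgroupOf
          (Subgroup.normalizer (((P : Subgroup G) ⊓ (Q : Subgroup G) : Subgroup G) : Set G)))) :
    Cfsg.HasNormalPComplement p G := by
  refine H22.hasNormalPComplement_of_no_fusion P fun x hx g hgx => ?_
  have hR := H23.alperin_induction P
    (fun A n => ∃ z ∈ (P : Subgroup G), ∀ a ∈ A, n⁻¹ * a * n = z⁻¹ * a * z) ?_ ?_ ?_
    (A := Subgroup.zpowers x) (g := g⁻¹) (Subgroup.zpowers_le.mpr hx) ?_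
  · obtain ⟨z, hz, he⟩ := hR
    refine ⟨z⁻¹, (P : Subgroup G).inv_mem hz, ?_⟩
    have := he x (Subgroup.mem_zpowers x)
    simpa using this.symm
  · rintro A B n hBA ⟨z, hz, he⟩
    exact ⟨z, hz, fun a ha => he a (hBA ha)⟩
  · rintro A n m ⟨z, hz, he⟩ ⟨w, hw, hf⟩
    refine ⟨z * w, (P : Subgroup G).mul_mem hz hw, fun a ha => ?_⟩
    calc (n * m)⁻¹ * a * (n * m) = m⁻¹ * (n⁻¹ * a * n) * m := by group
      _ = w⁻¹ * (n⁻¹ * a * n) * w := hf _ (H23.mem_rconj.mpr (by simpa [mul_assoc] using ha))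
      _ = w⁻¹ * (z⁻¹ * a * z) * w := by rw [he a ha]
      _ = (z * w)⁻¹ * a * (z * w) := by group
  · intro Q n hn t1 t2
    set H := (P : Subgroup G) ⊓ (Q : Subgroup G)
    by_cases hH : H = ⊥
    · refine ⟨1, (P : Subgroup G).one_mem, fun a ha => ?_⟩
      rw [hH, Subgroup.mem_bot] at ha
      simp [ha]
    set N := Subgroup.normalizer (H : Set G)
    set C := Subgroup.centralizer (H : Set G)
    have hp := h Q hH ⟨t1, t2⟩
    set S := ((P : Subgroup G) ⊓ N).subgroupOf N
    have htop : C.subgroupOf N ⊔ S = ⊤ := by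
      rw [← Subgroup.index_eq_one]
      by_contra hne
      obtain ⟨e, he⟩ := hp.exists_card_eq
      obtain ⟨r, hr, hrd⟩ := Nat.exists_prime_and_dvd hne
      have h1 : r ∣ (C.subgroupOf N).index := hrd.trans (Subgroup.index_dvd_of_le le_sup_left)
      have h2 : r ∣ S.index := hrd.trans (Subgroup.index_dvd_of_le le_sup_right)
      have h3 : r ∣ p ^ e := h1.trans he.dvd
      have : r = p := (Nat.prime_dvd_prime_iff_eq hr Fact.out).mp (hr.dvd_of_dvd_pow h3)
      exact t1 (this ▸ h2)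
    have hmem : (⟨n, hn⟩ : N) ∈ C.subgroupOf N ⊔ S := htop ▸ Subgroup.mem_top _
    obtain ⟨c, hc, s, hs, e⟩ := Subgroup.mem_sup_of_normal_left.mp hmem
    refine ⟨s, hs.1, fun a ha => ?_⟩
    have e' : (c : G) * (s : G) = n := congrArg Subtype.val e
    have hca : a * (c : G) = c * a := Subgroup.mem_centralizer_iff.mp hc a ha
    rw [← e', mul_inv_rev]
    calc (s : G)⁻¹ * (c : G)⁻¹ * a * ((c : G) * s)
        = (s : G)⁻¹ * ((c : G)⁻¹ * (a * c)) * s := by group
      _ = (s : G)⁻¹ * a * s := by rw [hca, inv_mul_cancel_left]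
  · rw [H23.rconj, MonoidHom.map_zpowers, Subgroup.zpowers_le]
    simpa using hgx

end Cfsg.Agent.S4251
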