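import Cfsg.Statements.S4252

set_option autoImplicit false
open Cfsg

namespace Cfsg.Agent.S4252

open scoped Pointwise

/-- Let a finite group G act on a finite set Ω with more than one point, transitively but not regularly, so that no non-identity element of G fixes two distinct points. Then the stabilizer H of any point is a Frobenius complement in G (nontrivial, proper, meeting its other conjugates trivially), and the Frobenius kernel of G with respect to H (the identity together with the elements lying in no conjugate of H) is exactly the set consisting of the identity and the elements fixing no point. -/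
theorem result {G Ω : Type*} [Group G] [Finite G] [Fintype Ω] [MulAction G Ω] (hΩ : 1 < Fintype.card Ω)
    (htrans : ∀ α β : Ω, ∃ g : G, g • α = β) (hnreg : ∃ g : G, g ≠ 1 ∧ ∃ α : Ω, g • α = α)
    (hfix : ∀ g : G, g ≠ 1 → ∀ α β : Ω, g • α = α → g • β = β → α = β) (α : Ω) :
    Cfsg.IsFrobeniusComplement (MulAction.stabilizer G α) ∧
      Cfsg.frobeniusKernel (MulAction.stabilizer G α) = {g : G | g = 1 ∨ ∀ ω : Ω, g • ω ≠ ω} := by
  classical
  have hsm : ∀ g : G, MulAut.conj g • MulAction.stabilizer G α = MulAction.stabilizer G (g • α) :=
    fun g => (MulAction.stabilizer_smul_eq_stabilizer_map_conj g α).symm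
  refine ⟨⟨?_, ?_, ?_⟩, ?_⟩
  · obtain ⟨g, hg, β, hβ⟩ := hnreg
    obtain ⟨k, rfl⟩ := htrans α β
    intro hbot
    have : g ∈ MulAut.conj k • MulAction.stabilizer G α := by
      rw [hsm]; exact hβ
    rw [hbot, Subgroup.smul_bot, Subgroup.mem_bot] at this
    exact hg this
  · intro htop
    obtain ⟨β, hβ⟩ := Fintype.exists_ne_of_one_lt_card hΩ α
    obtain ⟨k, rfl⟩ := htrans α β
    exact hβ (show k ∈ MulAction.stabilizer G α by rw [htop]; trivial)
  · intro g hg
    rw [eq_bot_iff]
    rintro x ⟨hx, hx'⟩
    rw [hsm] at hx'
    rw [Subgroup.mem_bot]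
    by_contra hx1
    exact hg (MulAction.mem_stabilizer_iff.mpr (hfix x hx1 α (g • α) hx hx').symm)
  · ext x
    simp only [Cfsg.frobeniusKernel, Set.mem_setOf_eq, hsm, MulAction.mem_stabilizer_iff]
    constructor
    · rintro (h | h)
      · exact Or.inl h
      · refine Or.inr fun ω => ?_
        obtain ⟨g, rfl⟩ := htrans α ω
        exact h g
    · rintro (h | h)
      · exact Or.inl h
      · exact Or.inr fun g => h _

end Cfsg.Agent.S4252
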