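import Cfsg.Statements.S4253

set_option autoImplicit false
open Cfsg

namespace Cfsg.Agent.S4253

open scoped Pointwise

/-- Let H be a Frobenius complement in a finite group G (a nontrivial proper subgroup meeting each conjugate gHg⁻¹ with g outside H trivially). Then in the action of G on the left cosets of H by left multiplication, no non-identity element of G fixes two distinct cosets. -/
theorem result {G : Type*} [Group G] [Finite G] (H : Subgroup G) (hH : Cfsg.IsFrobeniusComplement H)
    (g : G) (hg : g ≠ 1) (a b : G ⧸ H) (ha : g • a = a) (hb : g • b = b) : a = b := by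
  induction a using QuotientGroup.induction_on with
  | _ x =>
    induction b using QuotientGroup.induction_on with
    | _ y =>
      simp only [MulAction.Quotient.smul_mk, smul_eq_mul, QuotientGroup.eq] at ha hb
      rw [QuotientGroup.eq]
      by_contra hxy
      have hbot := hH.2.2 (x⁻¹ * y) hxy
      have hx : x⁻¹ * g * x ∈ H := by
        have := H.inv_mem ha
        simpa [mul_assoc] using this
      have hy : y⁻¹ * g * y ∈ H := by
        have := H.inv_mem hb
        simpa [mul_assoc] using this
      have hmem : x⁻¹ * g * x ∈ H ⊓ MulAut.conj (x⁻¹ * y) • H := by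
        refine ⟨hx, ?_⟩
        refine Subgroup.mem_pointwise_smul_iff_inv_smul_mem.mpr ?_
        simpa [MulAut.smul_def, MulAut.conj_symm_apply, mul_assoc] using hy
      rw [hbot, Subgroup.mem_bot] at hmem
      exact hg ((conj_eq_one_iff (a := x⁻¹) (b := g)).mp (by rwa [inv_inv]))

end Cfsg.Agent.S4253
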