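import Cfsg.Statements.S4261

set_option autoImplicit false
open Cfsg

namespace Cfsg.Agent.S4261

universe u

/-- Induction on the order of the group. -/
theorem aux (n : ℕ) : ∀ (G : Type u) [Group G] [Finite G], Nat.card G ≤ n → Group.IsSolvable G →
    ∀ M : Subgroup G, IsCoatom M → (∀ x : G, x ^ M.index ∈ M) → M.Normal := by
  induction n with
  | zero =>
    intro G _ _ hn
    exact absurd (Nat.le_zero.mp hn) Nat.card_pos.ne'
  | succ n ih =>
    intro G _ _ hn hG M hM hexp
    haveI := hG
    by_cases hN : ∃ N : Subgroup G, N.Normal ∧ N ≠ ⊥ ∧ N ≤ M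
    · obtain ⟨N, hNn, hNb, hNM⟩ := hN
      have hsurj := QuotientGroup.mk'_surjective N
      have hker : (QuotientGroup.mk' N).ker ≤ M := by rwa [QuotientGroup.ker_mk']
      have hlt : Nat.card (G ⧸ N) < Nat.card G := by
        have h1 : 1 < Nat.card N := (Subgroup.one_lt_card_iff_ne_bot N).mpr hNb
        have h2 := Subgroup.card_eq_card_quotient_mul_card_subgroup N
        have h3 : 0 < Nat.card (G ⧸ N) := Nat.card_pos
        nlinarith
      have hM' : IsCoatom (M.map (QuotientGroup.mk' N)) := by
        refine ⟨fun h => hM.1 ?_, fun K hK => ?_⟩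
        · have := congrArg (Subgroup.comap (QuotientGroup.mk' N)) h
          rwa [Subgroup.comap_map_eq_self hker, Subgroup.comap_top] at this
        · have h1 : M < K.comap (QuotientGroup.mk' N) := by
            rw [← Subgroup.comap_map_eq_self hker]
            exact (Subgroup.comap_lt_comap_of_surjective hsurj).mpr hK
          rw [← Subgroup.map_comap_eq_self_of_surjective hsurj K, hM.2 _ h1,
            Subgroup.map_top_of_surjective _ hsurj]
      have := ih (G ⧸ N) (by omega) inferInstance _ hM' (fun q => by
        obtain ⟨x, rfl⟩ := hsurj q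
        rw [Subgroup.index_map_eq M hsurj hker, ← map_pow]
        exact Subgroup.mem_map_of_mem _ (hexp x))
      rw [← Subgroup.comap_map_eq_self hker]
      exact this.comap _
    · push Not at hN
      -- a nontrivial abelian normal subgroup
      obtain ⟨A, hAn, hAb, hAc⟩ : ∃ A : Subgroup G, A.Normal ∧ A ≠ ⊥ ∧ ∀ a ∈ A, ∀ b ∈ A, a * b = b * a := by
        classical
        obtain ⟨k, hk⟩ := Group.IsSolvable.solvable (G := G)
        let k0 := Nat.find (p := fun k => derivedSeries G k = ⊥) ⟨k, hk⟩
        have hk0 : derivedSeries G k0 = ⊥ := Nat.find_spec (p := fun k => derivedSeries G k = ⊥) ⟨k, hk⟩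
        rcases Nat.eq_zero_or_pos k0 with h0 | h0
        · exfalso
          rw [h0, derivedSeries_zero] at hk0
          have : Subsingleton (Subgroup G) := subsingleton_of_bot_eq_top hk0.symm
          exact hM.1 (Subsingleton.elim _ _)
        obtain ⟨m, hm⟩ := Nat.exists_eq_succ_of_ne_zero h0.ne'
        refine ⟨derivedSeries G m, derivedSeries_normal G m,
          Nat.find_min (p := fun k => derivedSeries G k = ⊥) ⟨k, hk⟩ (show m < k0 by omega), ?_⟩
        rw [hm, derivedSeries_succ, Subgroup.commutator_eq_bot_iff_le_centralizer] at hk0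
        exact fun a ha b hb => Subgroup.mem_centralizer_iff.mp (hk0 hb) a ha
      haveI := hAn
      -- every nontrivial normal subgroup below `A` together with `M` generates `G`
      have htop : ∀ B : Subgroup G, B.Normal → B ≠ ⊥ → M ⊔ B = ⊤ := fun B hB hBb =>
        hM.2 _ (lt_of_le_of_ne le_sup_left fun h => hN B hB hBb (sup_eq_left.mp h.symm))
      have hsup := htop A hAn hAb
      have hdec : ∀ g : G, ∃ m ∈ M, ∃ a ∈ A, g = m * a := fun g => by
        have : g ∈ M ⊔ A := hsup ▸ Subgroup.mem_top g
        obtain ⟨m, hm, a, ha, e⟩ := Subgroup.mem_sup_of_normal_right.mp this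
        exact ⟨m, hm, a, ha, e.symm⟩
      have hint : M ⊓ A = ⊥ := by
        by_contra hb
        refine hN (M ⊓ A) ⟨fun z hz g => ?_⟩ hb inf_le_left
        obtain ⟨m, hm, a, ha, rfl⟩ := hdec g
        have e : a * z * a⁻¹ = z := by rw [hAc a ha z hz.2]; group
        refine ⟨?_, hAn.conj_mem z hz.2 _⟩
        rw [show m * a * z * (m * a)⁻¹ = m * (a * z * a⁻¹) * m⁻¹ by group, e]
        exact M.mul_mem (M.mul_mem hm hz.1) (M.inv_mem hm)
      have hidx : M.index = Nat.card A := by
        have hc : Subgroup.IsComplement' M A := Subgroup.isComplement'_of_disjoint_and_mul_eq_univ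
          (disjoint_iff.mpr hint) (Set.eq_univ_of_forall fun g => by
            obtain ⟨m, hm, a, ha, rfl⟩ := hdec g
            exact Set.mul_mem_mul hm ha)
        exact Subgroup.IsComplement'.index_eq_card (Subgroup.IsComplement'.symm hc)
      have hgexp : ∀ g : G, g ^ M.index = 1 := by
        have hP : (Subgroup.normalClosure (Set.range fun g : G => g ^ M.index)) ≤ M := by
          refine (Subgroup.closure_le _).mpr fun z hz => ?_
          obtain ⟨w, ⟨g, rfl⟩, hw⟩ := Group.mem_conjugatesOfSet_iff.mp hz
          obtain ⟨c, rfl⟩ := isConj_iff.mp hw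
          have := hexp (c * g * c⁻¹)
          rwa [conj_pow] at this
        intro g
        by_contra hg
        refine hN _ Subgroup.normalClosure_normal (fun h => hg ?_) hP
        have := Subgroup.subset_normalClosure (s := Set.range fun g : G => g ^ M.index) ⟨g, rfl⟩
        rw [h] at this
        exact Subgroup.mem_bot.mp this
      obtain ⟨q, hq, hqd⟩ := Nat.exists_prime_and_dvd
        (fun h => hM.1 (Subgroup.index_eq_one.mp h) : M.index ≠ 1)
      haveI : Fact q.Prime := ⟨hq⟩
      -- `A` is a `q`-group
      have hAq : IsPGroup q A := by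
        obtain ⟨S⟩ := (inferInstance : Nonempty (Sylow q A))
        haveI hAab : IsMulCommutative A := ⟨⟨fun a b => Subtype.ext (hAc a a.2 b b.2)⟩⟩
        have hSn : (S : Subgroup A).Normal := ⟨fun z hz g => by
          rw [show g * z * g⁻¹ = z by rw [Subtype.ext (hAc g g.2 z z.2) (a1 := g * z) (a2 := z * g)]; group]
          exact hz⟩
        haveI := Sylow.characteristic_of_normal S hSn
        set B := (S : Subgroup A).map A.subtype
        have hBb : B ≠ ⊥ := by
          rw [Ne, Subgroup.map_eq_bot_iff_of_injective _ A.subtype_injective]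
          exact S.ne_bot_of_dvd_card (hidx ▸ hqd)
        have hBA : B ≤ A := Subgroup.map_subtype_le _
        have hB : B = A := by
          refine le_antisymm hBA fun a ha => ?_
          haveI : B.Normal := inferInstance
          have : a ∈ M ⊔ B := htop B inferInstance hBb ▸ Subgroup.mem_top a
          obtain ⟨m, hm, b, hb, e⟩ := Subgroup.mem_sup_of_normal_right.mp this
          have : m ∈ M ⊓ A := ⟨hm, by
            rw [show m = a * b⁻¹ by rw [← e]; group]; exact A.mul_mem ha (A.inv_mem (hBA hb))⟩
          rw [hint, Subgroup.mem_bot] at this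
          rw [this, one_mul] at e
          rwa [← e]
        rw [← hB]
        exact S.isPGroup'.map _
      obtain ⟨e, he⟩ := IsPGroup.iff_card.mp hAq
      have hGq : IsPGroup q G := fun g => ⟨e, by rw [← he, ← hidx]; exact hgexp g⟩
      haveI := hGq.isNilpotent
      exact Subgroup.NormalizerCondition.normal_of_coatom M Group.normalizerCondition_of_isNilpotent hM

/-- Let M be a maximal subgroup of a finite solvable group G such that x^[G : M] lies in M for every x in G. Then M is normal in G. -/
theorem result {G : Type*} [Group G] [Finite G] (hG : Group.IsSolvable G) (M : Subgroup G) (hM : IsCoatom M)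
    (hexp : ∀ x : G, x ^ M.index ∈ M) : M.Normal := by
  exact aux (Nat.card G) G le_rfl hG M hM hexp

end Cfsg.Agent.S4261
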