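import Cfsg.Statements.S4263
import Cfsg.Agent.H89.IndexPowers

set_option autoImplicit false
open Cfsg

namespace Cfsg.Agent.S4263

variable {G : Type*} [Group G]

/-- A normal `p`-subgroup lies in every Sylow `p`-subgroup. -/
theorem le_sylow_of_normal [Finite G] {p : ℕ} [Fact p.Prime] {N : Subgroup G} (hN : N.Normal)
    (hp : IsPGroup p N) (P : Sylow p G) : N ≤ P := by
  obtain ⟨Q, hQ⟩ := hp.exists_le_sylow
  obtain ⟨g, hg⟩ := MulAction.exists_smul_eq G Q P
  rw [← hg]
  intro n hn
  rw [Sylow.coe_subgroup_smul, Subgroup.mem_pointwise_smul_iff_inv_smul_mem]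
  apply hQ
  simpa [MulAut.smul_def, MulAut.conj_symm_apply] using hN.conj_mem' n hn g

/-- `O_p` is the intersection of the Sylow `p`-subgroups. -/
theorem pCore_eq_iInf [Finite G] (p : ℕ) [Fact p.Prime] :
    Cfsg.pCore p G = ⨅ P : Sylow p G, (P : Subgroup G) := by
  apply le_antisymm
  · exact sSup_le fun N hN => le_iInf fun P => le_sylow_of_normal hN.1 hN.2 P
  · refine le_sSup ⟨⟨fun n hn g => ?_⟩, ?_⟩
    · rw [Subgroup.mem_iInf] at hn ⊢
      intro P
      have h := hn (g⁻¹ • P)
      rw [Sylow.coe_subgroup_smul, Subgroup.mem_pointwise_smul_iff_inv_smul_mem] at h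
      simpa [MulAut.smul_def] using h
    · obtain ⟨P⟩ := (inferInstance : Nonempty (Sylow p G))
      exact P.isPGroup'.to_le (iInf_le (fun Q : Sylow p G => (Q : Subgroup G)) P)

theorem pCore_normal (p : ℕ) : (Cfsg.pCore p G).Normal :=
  Subgroup.sSup_normal _ fun _ h => h.1

theorem pCore_isPGroup [Finite G] (p : ℕ) [Fact p.Prime] : IsPGroup p (Cfsg.pCore p G) := by
  obtain ⟨P⟩ := (inferInstance : Nonempty (Sylow p G))
  refine P.isPGroup'.to_le ?_
  rw [pCore_eq_iInf]
  exact iInf_le (fun Q : Sylow p G => (Q : Subgroup G)) P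

/-- The Fitting subgroup is contained in the join of the `p`-cores. -/
theorem fitting_le_iSup [Finite G] :
    Cfsg.fittingSubgroup G ≤ ⨆ p : (Nat.card G).primeFactors, Cfsg.pCore (p : ℕ) G := by
  set T := ⨆ p : (Nat.card G).primeFactors, Cfsg.pCore (p : ℕ) G
  refine sSup_le fun N ⟨hN, hnil⟩ => ?_
  rw [← Subgroup.relIndex_eq_one]
  by_contra hne
  obtain ⟨p, hp, hdvd⟩ := Nat.exists_prime_and_dvd hne
  haveI : Fact p.Prime := ⟨hp⟩
  haveI := hN
  obtain ⟨P⟩ := (inferInstance : Nonempty (Sylow p N))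
  have hPn : (P : Subgroup N).Normal :=
    Sylow.normal_of_normalizerCondition (by haveI := hnil; exact Group.normalizerCondition_of_isNilpotent) P
  haveI := Sylow.characteristic_of_normal P hPn
  have hle : (P : Subgroup N).map N.subtype ≤ Cfsg.pCore p G :=
    le_sSup ⟨inferInstance, P.isPGroup'.map N.subtype⟩
  have hpG : p ∈ (Nat.card G).primeFactors := Nat.mem_primeFactors.mpr ⟨hp, hdvd.trans
    ((Subgroup.relIndex_dvd_card T N).trans (Subgroup.card_subgroup_dvd_card N)), Nat.card_pos.ne'⟩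
  have hle' : (P : Subgroup N) ≤ T.subgroupOf N :=
    Subgroup.map_le_iff_le_comap.mp (hle.trans (le_iSup (fun q : (Nat.card G).primeFactors => Cfsg.pCore (q : ℕ) G) ⟨p, hpG⟩))
  exact P.not_dvd_index (hdvd.trans (Subgroup.index_dvd_of_le hle'))

theorem pow_index_mem_of_mem_pCore [Finite G] {p : ℕ} [Fact p.Prime] {y : G}
    (hy : y ∈ Cfsg.pCore p G) (H : Subgroup G) : y ^ H.index ∈ H := by
  set K := Cfsg.pCore p G
  haveI := pCore_normal (G := G) p
  haveI : Group.IsNilpotent K := (pCore_isPGroup p).isNilpotent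
  have hsn := H89.isSubnormal_of_normalizerCondition
    (Group.normalizerCondition_of_isNilpotent) (H.subgroupOf K)
  have := H89.pow_index_mem_of_isSubnormal hsn ⟨y, hy⟩
  rw [Subgroup.mem_subgroupOf] at this
  obtain ⟨c, hc⟩ := H89.relIndex_dvd_index_left (H := H) K
  rw [hc, pow_mul]
  exact H.pow_mem (by simpa [Subgroup.relIndex] using this) c

/-- The forward direction. -/
theorem forward [Finite G] {x : G} (hx : x ∈ Cfsg.fittingSubgroup G) (H : Subgroup G) :
    x ^ H.index ∈ H := by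
  have hcomm : Pairwise fun p q : (Nat.card G).primeFactors =>
      ∀ a b : G, a ∈ Cfsg.pCore (p : ℕ) G → b ∈ Cfsg.pCore (q : ℕ) G → Commute a b := by
    intro p q hne
    haveI : Fact (p : ℕ).Prime := ⟨Nat.prime_of_mem_primeFactors p.2⟩
    haveI : Fact (q : ℕ).Prime := ⟨Nat.prime_of_mem_primeFactors q.2⟩
    exact Subgroup.commute_of_normal_of_disjoint _ _ (pCore_normal _) (pCore_normal _)
      (IsPGroup.disjoint_of_ne (p : ℕ) q (fun h => hne (Subtype.ext h)) _ _ (pCore_isPGroup _) (pCore_isPGroup _))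
  have hx' := fitting_le_iSup hx
  rw [← Subgroup.noncommPiCoprod_range (hcomm := hcomm)] at hx'
  obtain ⟨u, rfl⟩ := hx'
  rw [← map_pow, Subgroup.noncommPiCoprod_apply]
  refine Subgroup.noncommProd_mem H _ fun p _ => ?_
  haveI : Fact (p : ℕ).Prime := ⟨Nat.prime_of_mem_primeFactors p.2⟩
  simpa using pow_index_mem_of_mem_pCore (u p).2 H

/-- The converse direction. -/
theorem backward [Finite G] {x : G} (h : ∀ H : Subgroup G, x ^ H.index ∈ H) :
    x ∈ Cfsg.fittingSubgroup G := by
  set F := Cfsg.fittingSubgroup G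
  haveI hFn : F.Normal := Subgroup.sSup_normal _ fun _ h => h.1
  rw [← QuotientGroup.eq_one_iff, ← orderOf_eq_one_iff]
  by_contra hne
  obtain ⟨p, hp, hpd⟩ := Nat.exists_prime_and_dvd hne
  haveI : Fact p.Prime := ⟨hp⟩
  set n := orderOf x
  have hn : n ≠ 0 := (orderOf_pos x).ne'
  set m := n / p ^ n.factorization p
  have hpm : ¬ p ∣ m := Nat.not_dvd_ordCompl hp hn
  have hmem : x ^ m ∈ Cfsg.pCore p G := by
    rw [pCore_eq_iInf, Subgroup.mem_iInf]
    intro P
    have hco : (orderOf (x ^ m)).Coprime (P : Subgroup G).index := by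
      refine Nat.Coprime.coprime_dvd_left (orderOf_dvd_of_pow_eq_one ?_)
        ((hp.coprime_iff_not_dvd.mpr P.not_dvd_index).pow_left (n.factorization p))
      rw [← pow_mul, Nat.div_mul_cancel (Nat.ordProj_dvd n p)]
      exact pow_orderOf_eq_one x
    have hk : (x ^ m) ^ (P : Subgroup G).index ∈ (P : Subgroup G) := by
      rw [← pow_mul, mul_comm, pow_mul]
      exact (P : Subgroup G).pow_mem (h _) m
    obtain ⟨k, hk'⟩ := exists_pow_eq_self_of_coprime hco.symm
    rw [← hk']
    exact (P : Subgroup G).pow_mem hk k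
  have hF : x ^ m ∈ F := by
    have : Cfsg.pCore p G ≤ F := le_sSup ⟨pCore_normal p, (pCore_isPGroup p).isNilpotent⟩
    exact this hmem
  refine hpm (hpd.trans (orderOf_dvd_of_pow_eq_one ?_))
  rw [← QuotientGroup.mk_pow, QuotientGroup.eq_one_iff]
  exact hF

/-- Let G be a finite group. An element x lies in the Fitting subgroup F(G) if and only if, for every subgroup H of G, the power x^[G : H] lies in H. -/
theorem result {G : Type*} [Group G] [Finite G] (x : G) :
    x ∈ Cfsg.fittingSubgroup G ↔ ∀ H : Subgroup G, x ^ H.index ∈ H := by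
  exact ⟨fun hx H => forward hx H, backward⟩

end Cfsg.Agent.S4263
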