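import Cfsg.Statements.S4269
import Cfsg.Agent.H89.Pronormal

set_option autoImplicit false
open Cfsg

namespace Cfsg.Agent.S4269

/-- Let G be a finite group, V an abelian normal subgroup and H a subgroup with HV = G. Then H is pronormal in G (H and gHg⁻¹ are conjugate inside the subgroup they generate, for every g) if and only if every H-invariant subgroup U of V satisfies U = N_U(H)·[H, U], that is, U is the join of U ∩ N_G(H) and the commutator subgroup [H, U]. -/
theorem result {G : Type*} [Group G] [Finite G]
    (V : Subgroup G) [V.Normal] (hV : IsMulCommutative ↥V) (H : Subgroup G) (hHV : H ⊔ V = ⊤) :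
    Cfsg.IsPronormal H ↔
      ∀ U : Subgroup G, U ≤ V → (∀ h ∈ H, U.map (MulAut.conj h).toMonoidHom = U) →
        U = (U ⊓ Subgroup.normalizer (H : Set G)) ⊔ ⁅H, U⁆ := by
  exact Cfsg.Agent.H89.pronormal_supplement_iff V hV H hHV

end Cfsg.Agent.S4269
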