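import Cfsg.Statements.S4270
import Cfsg.Agent.H89.PronormalOvergroups

set_option autoImplicit false
open Cfsg

namespace Cfsg.Agent.S4270

/-- Let p be a prime and G a finite group with a normal subgroup A such that, both in A and in G/A, every subgroup containing a Sylow p-subgroup of that group is pronormal in that group. Let T be a Sylow p-subgroup of A. Then every subgroup of G containing a Sylow p-subgroup of G is pronormal in G if and only if (i) every subgroup of N_G(T)/T containing a Sylow p-subgroup of N_G(T)/T is pronormal there, and (ii) for every subgroup H of G containing a Sylow p-subgroup of G, the image of N_G(H) in G/A is the full normalizer of the image of H. (Pronormal: H and gHg⁻¹ are conjugate inside the subgroup they generate, for every g.) -/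
theorem result {G : Type*} [Group G] [Finite G] {p : ℕ} [Fact p.Prime]
    (A : Subgroup G) [A.Normal] (hA : (∀ K : Subgroup ↥A, (∃ P : Sylow p ↥A, (P : Subgroup ↥A) ≤ K) → Cfsg.IsPronormal K)) (hQ : (∀ K : Subgroup (G ⧸ A), (∃ P : Sylow p (G ⧸ A), (P : Subgroup (G ⧸ A)) ≤ K) → Cfsg.IsPronormal K))
    (T : Subgroup G) (hT : ∃ P : Sylow p ↥A, (P : Subgroup ↥A).map A.subtype = T) [(T.subgroupOf (Subgroup.normalizer (T : Set G))).Normal] :
    (∀ K : Subgroup G, (∃ P : Sylow p G, (P : Subgroup G) ≤ K) → Cfsg.IsPronormal K) ↔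
      ((∀ K : Subgroup (↥(Subgroup.normalizer (T : Set G)) ⧸ T.subgroupOf (Subgroup.normalizer (T : Set G))), (∃ P : Sylow p (↥(Subgroup.normalizer (T : Set G)) ⧸ T.subgroupOf (Subgroup.normalizer (T : Set G))), (P : Subgroup (↥(Subgroup.normalizer (T : Set G)) ⧸ T.subgroupOf (Subgroup.normalizer (T : Set G)))) ≤ K) → Cfsg.IsPronormal K) ∧
        ∀ K : Subgroup G, (∃ P : Sylow p G, (P : Subgroup G) ≤ K) →
          (Subgroup.normalizer (K : Set G)).map (QuotientGroup.mk' A) = Subgroup.normalizer ((K.map (QuotientGroup.mk' A) : Subgroup (G ⧸ A)) : Set (G ⧸ A))) := by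
  obtain ⟨S, hS⟩ := hT
  have hmax : Cfsg.Agent.H89.IsMaxPIn p A T := hS ▸ Cfsg.Agent.H89.isMaxPIn_of_sylow S
  refine ⟨fun h => ⟨Cfsg.Agent.H89.sylowOverPronormal_normalizer_quotient A hmax h,
    fun K hK => Cfsg.Agent.H89.map_normalizer_eq_of_pronormal A (h K hK)⟩,
    fun h => Cfsg.Agent.H89.sylowOverPronormal_of_conditions A hmax hA hQ h.1 h.2⟩

end Cfsg.Agent.S4270
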