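import Cfsg.Statements.S4303
import Cfsg.Agent.H90.SylowFormula

set_option autoImplicit false
universe u
open Cfsg

namespace Cfsg.Agent.S4303

/-- Induction step: the number of Sylow subgroups splits over a nontrivial proper normal subgroup
into three factors. -/
theorem split {G : Type u} [Group G] [Finite G] (p : ℕ) [Fact p.Prime] (K : Subgroup G) [K.Normal]
    (hb : K ≠ ⊥) (ht : K ≠ ⊤) :
    Nat.card (G ⧸ K) < Nat.card G ∧ Nat.card K < Nat.card G ∧
    ∃ c : ℕ, Nat.card (Sylow p G) = Nat.card (Sylow p (G ⧸ K)) * Nat.card (Sylow p K) * c ∧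
      ∀ l : ℕ, l.Prime → l ^ c.factorization l ≡ 1 [MOD p] := by
  have h1 := K.card_mul_index
  have h2 := (Subgroup.one_lt_card_iff_ne_bot K).2 hb
  have h3 : 1 < K.index := Subgroup.one_lt_index_of_ne_top ht
  refine ⟨by rw [← Subgroup.index_eq_card]; nlinarith, by nlinarith, ?_⟩
  obtain ⟨P⟩ := Sylow.nonempty (p := p) (G := G)
  set N := ((P : Subgroup G) ⊔ K) ⊓
    Subgroup.normalizer (((P : Subgroup G) ⊓ K : Subgroup G) : Set G) with hN
  haveI : (((P : Subgroup G) ⊓ K).subgroupOf N).Normal := by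
    rw [Subgroup.normal_subgroupOf_iff_le_normalizer]
    · exact inf_le_right
    · exact le_inf (inf_le_left.trans le_sup_left) Subgroup.le_normalizer
  exact ⟨_, Cfsg.Agent.H90.card_sylow_formula K P N hN,
    fun l hl => Cfsg.Agent.H90.sylow_number_part_local K P N hN l hl⟩


/-- For a finite group `G` and a prime `p`, the number of Sylow `p`-subgroups of `G` is a product of natural numbers each of which is either a prime power congruent to 1 modulo `p` or the number of Sylow `p`-subgroups of some finite simple group. -/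
theorem result {G : Type u} [Group G] [Finite G]
    (p : ℕ) [Fact p.Prime] :
    ∃ l : List ℕ, l.prod = Nat.card (Sylow p G) ∧
      ∀ m ∈ l, (IsPrimePow m ∧ m % p = 1) ∨
        ∃ (S : Type u) (_ : Group S) (_ : Finite S), IsSimpleGroup S ∧ m = Nat.card (Sylow p S) := by
  obtain ⟨n, hn⟩ : ∃ n, Nat.card G = n := ⟨_, rfl⟩
  induction n using Nat.strong_induction_on generalizing G with
  | _ n ih =>
  by_cases hs : IsSimpleGroup G
  · exact ⟨[Nat.card (Sylow p G)], by simp, fun m hm =>
      Or.inr ⟨G, inferInstance, inferInstance, hs, by simpa using hm⟩⟩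
  rcases subsingleton_or_nontrivial G with hsub | hnt
  · haveI : Subsingleton (Sylow p G) := ⟨fun a b => Sylow.ext (Subsingleton.elim _ _)⟩
    obtain ⟨P⟩ := Sylow.nonempty (p := p) (G := G)
    exact ⟨[], by rw [List.prod_nil, Nat.card_eq_one_iff_unique.2 ⟨inferInstance, ⟨P⟩⟩],
      by simp⟩
  obtain ⟨K, hK, hb, ht⟩ : ∃ K : Subgroup G, K.Normal ∧ K ≠ ⊥ ∧ K ≠ ⊤ := by
    by_contra hcon
    simp only [not_exists, not_and] at hcon
    exact hs ⟨fun H hH => (em (H = ⊥)).imp_right fun hb => not_not.1 (hcon H hH hb)⟩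
  haveI := hK
  obtain ⟨h1, h2, c, hc, hcl⟩ := split p K hb ht
  obtain ⟨l1, e1, p1⟩ := ih _ (hn ▸ h1) (G := G ⧸ K) rfl
  obtain ⟨l2, e2, p2⟩ := ih _ (hn ▸ h2) (G := K) rfl
  have hc0 : c ≠ 0 := by
    rintro rfl
    rw [mul_zero] at hc
    exact Nat.card_pos.ne' hc
  refine ⟨l1 ++ l2 ++ c.primeFactors.toList.map (fun q => q ^ c.factorization q), ?_, ?_⟩
  · rw [List.prod_append, List.prod_append, e1, e2, hc, Finset.prod_map_toList,
      ← Nat.prod_primeFactors_pow_factorization hc0]
  · intro m hm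
    rcases List.mem_append.1 hm with hm | hm
    · rcases List.mem_append.1 hm with hm | hm
      · exact p1 m hm
      · exact p2 m hm
    · obtain ⟨q, hq, rfl⟩ := List.mem_map.1 hm
      rw [Finset.mem_toList, Nat.mem_primeFactors] at hq
      refine Or.inl ⟨hq.1.isPrimePow.pow (hq.1.factorization_pos_of_dvd hc0 hq.2.1).ne', ?_⟩
      have := hcl q hq.1
      rwa [Nat.ModEq, Nat.one_mod_eq_one.2 (Fact.out : p.Prime).ne_one] at this


end Cfsg.Agent.S4303
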