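import Cfsg.Statements.S4331
import Cfsg.Agent.H90.SubnormalExample
import Cfsg.Agent.H90.Brodkey

set_option autoImplicit false
open Cfsg

namespace Cfsg.Agent.S4331

/-- The example group. -/
abbrev Ex : Type := Multiplicative (ZMod 3 × ZMod 3) ⋊[Cfsg.Agent.H90.sdHom] Cfsg.Agent.H90.SemiDih

/-- There is a finite solvable group G with a subgroup A of order 2 such that every conjugacy class of G contains an element g for which A is subnormal in the subgroup generated by A and g, and yet A is not contained in O_2(G). (So the corresponding criteria for odd primes fail at the prime 2, even for solvable groups.) -/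
theorem result :
    ∃ (G : Type) (_ : Group G) (_ : Finite G) (A : Subgroup G), Group.IsSolvable G ∧ Nat.card A = 2 ∧
      (∀ c : G, ∃ g : G, IsConj c g ∧ (A.subgroupOf (A ⊔ Subgroup.zpowers g)).IsSubnormal) ∧
      ¬ A ≤ Cfsg.pCore 2 G := by
  classical
  haveI : Fact (Nat.Prime 2) := ⟨Nat.prime_two⟩
  haveI hfin : Finite Ex := Finite.of_equiv _ SemidirectProduct.equivProd.symm
  let a : Ex := SemidirectProduct.inr ⟨0, true⟩
  let H : Subgroup Ex := (SemidirectProduct.inr : Cfsg.Agent.H90.SemiDih →* Ex).range
  have hH2 : IsPGroup 2 H := IsPGroup.of_card (n := 4) (by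
    rw [← Nat.card_congr (MonoidHom.ofInjective SemidirectProduct.inr_injective).toEquiv,
      Nat.card_eq_fintype_card]
    decide +kernel)
  refine ⟨Ex, inferInstance, hfin, Subgroup.zpowers a, ?_, ?_, fun c => ?_, fun hle => ?_⟩
  · haveI : Group.IsSolvable Cfsg.Agent.H90.SemiDih := by
      haveI := (IsPGroup.of_card (p := 2) (G := Cfsg.Agent.H90.SemiDih) (n := 4) (by
        rw [Nat.card_eq_fintype_card]; decide +kernel)).isNilpotent
      infer_instance
    exact Group.isSolvable_of_ker_le_range
      (SemidirectProduct.inl : Multiplicative (ZMod 3 × ZMod 3) →* Ex)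
      (SemidirectProduct.rightHom : Ex →* Cfsg.Agent.H90.SemiDih)
      SemidirectProduct.range_inl_eq_ker_rightHom.ge
  · rw [Nat.card_zpowers, orderOf_injective _ SemidirectProduct.inr_injective]
    exact orderOf_eq_prime (by decide +kernel) (by decide +kernel)
  · obtain ⟨w, k, hwk⟩ := Cfsg.Agent.H90.sd_classes c.left.toAdd c.right
    let W : Ex := ⟨Multiplicative.ofAdd w, k⟩
    refine ⟨W * c * W⁻¹, isConj_iff.2 ⟨W, rfl⟩, ?_⟩
    have hleft : (W * c * W⁻¹).left =
        Multiplicative.ofAdd (w + Cfsg.Agent.H90.sdAct k c.left.toAdd -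
          Cfsg.Agent.H90.sdAct (k * c.right * k⁻¹) w) := by
      simp only [SemidirectProduct.mul_left, SemidirectProduct.inv_left, SemidirectProduct.mul_right, W]
      rw [sub_eq_add_neg, ofAdd_add, ofAdd_add, ofAdd_neg, ← MulAut.mul_apply, ← map_mul, map_inv]
      rfl
    have hright : (W * c * W⁻¹).right = k * c.right * k⁻¹ := by
      simp [W, SemidirectProduct.mul_right, SemidirectProduct.inv_right]
    rcases hwk with h0 | ⟨h1, h2⟩
    · have hmem : W * c * W⁻¹ ∈ H := ⟨(W * c * W⁻¹).right, by
        refine SemidirectProduct.ext ?_ ?_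
        · rw [SemidirectProduct.left_inr, hleft, h0]; rfl
        · rw [SemidirectProduct.right_inr]⟩
      haveI : Group.IsNilpotent (Subgroup.zpowers a ⊔ Subgroup.zpowers (W * c * W⁻¹) : Subgroup Ex) :=
        (hH2.to_le (sup_le (Subgroup.zpowers_le.2 ⟨_, rfl⟩) (Subgroup.zpowers_le.2 hmem))).isNilpotent
      exact Cfsg.Agent.H90.isSubnormal_of_isNilpotent _
    · refine Subgroup.Normal.isSubnormal ?_
      rw [Subgroup.normal_subgroupOf_iff_le_normalizer le_sup_left]
      refine sup_le Subgroup.le_normalizer
        (le_trans ?_ (Subgroup.centralizer_le_normalizer _))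
      rw [Subgroup.zpowers_le, Subgroup.mem_centralizer_iff]
      intro z hz
      obtain ⟨i, rfl⟩ := Subgroup.mem_zpowers_iff.1 hz
      refine (Commute.zpow_left ?_ i).eq
      generalize hg : W * c * W⁻¹ = g at hleft hright
      change a * g = g * a
      refine SemidirectProduct.ext ?_ ?_
      · simp only [SemidirectProduct.mul_left, a, SemidirectProduct.left_inr,
          SemidirectProduct.right_inr, map_one, one_mul, mul_one, hleft]
        exact congrArg Multiplicative.ofAdd h2
      · simp only [SemidirectProduct.mul_right, a, SemidirectProduct.right_inr, hright]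
        exact h1.symm
  · obtain ⟨P, hP⟩ := hH2.exists_le_sylow
    have hPH : (P : Subgroup Ex) ≤ H := by
      refine (Subgroup.eq_of_le_of_card_ge hP ?_).ge
      obtain ⟨n, hn⟩ := IsPGroup.iff_card.1 P.isPGroup'
      have hG : Nat.card Ex = 144 := by
        rw [Nat.card_congr SemidirectProduct.equivProd, Nat.card_prod, Nat.card_eq_fintype_card,
          Nat.card_eq_fintype_card]
        decide +kernel
      have hH : Nat.card H = 16 := by
        rw [← Nat.card_congr (MonoidHom.ofInjective SemidirectProduct.inr_injective).toEquiv,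
          Nat.card_eq_fintype_card]
        decide +kernel
      have hd := Subgroup.card_subgroup_dvd_card (P : Subgroup Ex)
      rw [hn, hG] at hd
      have : n ≤ 4 := by
        by_contra hcon
        exact absurd ((pow_dvd_pow 2 (show 5 ≤ n by omega)).trans hd) (by norm_num)
      rw [hn, hH, show 16 = 2 ^ 4 from rfl]
      exact Nat.pow_le_pow_right two_pos this
    let t : Ex := SemidirectProduct.inl (Multiplicative.ofAdd (0, 1))
    have h1 : a ∈ Cfsg.pCore 2 Ex := hle (Subgroup.mem_zpowers a)
    haveI : (Cfsg.pCore 2 Ex).Normal := Subgroup.sSup_normal _ (fun _ h => h.1)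
    obtain ⟨x, hx⟩ := hPH (Cfsg.Agent.H90.pCore_le_sylow P
      (Subgroup.Normal.conj_mem inferInstance a h1 t))
    have h2 := congrArg SemidirectProduct.left hx
    simp only [SemidirectProduct.left_inr, SemidirectProduct.mul_left, SemidirectProduct.inv_left,
      SemidirectProduct.right_inl, SemidirectProduct.mul_right, SemidirectProduct.right_inr, a, t,
      SemidirectProduct.left_inl, map_one, one_mul, mul_one, inv_one, MulAut.one_apply] at h2
    revert h2
    decide +kernel

end Cfsg.Agent.S4331
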