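import Cfsg.Statements.S4332


set_option autoImplicit false
open Pointwise
open Cfsg

namespace Cfsg.Agent.S4332

/-- Every permutation of eight points has a three-cycle commuting with its conjugate. -/
theorem exists_commuting_threeCycle (c : Equiv.Perm (Fin 8)) :
    ∃ τ : Equiv.Perm (Fin 8), τ.IsThreeCycle ∧ Commute τ (c * τ * c⁻¹) := by
  have himg : ∀ a b d, c * (Equiv.swap a b * Equiv.swap a d) * c⁻¹ =
      Equiv.swap (c a) (c b) * Equiv.swap (c a) (c d) := by
    intro a b d
    rw [Equiv.swap_apply_apply, Equiv.swap_apply_apply]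
    group
  have key : ∀ a b d, a ≠ b → a ≠ d → b ≠ d →
      Commute (Equiv.swap a b * Equiv.swap a d) (Equiv.swap (c a) (c b) * Equiv.swap (c a) (c d)) →
      ∃ τ : Equiv.Perm (Fin 8), τ.IsThreeCycle ∧ Commute τ (c * τ * c⁻¹) := fun a b d h1 h2 h3 h =>
    ⟨_, Equiv.Perm.isThreeCycle_swap_mul_swap_same h1 h2 h3, by rw [himg]; exact h⟩
  have hdisj : ∀ a b d, a ≠ b → a ≠ d → b ≠ d → (∀ x ∈ ({a, b, d} : Finset (Fin 8)),
      ∀ y ∈ ({a, b, d} : Finset (Fin 8)), c x ≠ y) →
      ∃ τ : Equiv.Perm (Fin 8), τ.IsThreeCycle ∧ Commute τ (c * τ * c⁻¹) := by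
    intro a b d h1 h2 h3 h
    refine key a b d h1 h2 h3 (Equiv.Perm.Disjoint.commute fun y => ?_)
    by_cases hy : y ∈ ({a, b, d} : Finset (Fin 8))
    · right
      have ha := h a (by simp) y hy
      have hb := h b (by simp) y hy
      have hd := h d (by simp) y hy
      simp [Equiv.swap_apply_of_ne_of_ne, Ne.symm ha, Ne.symm hb, Ne.symm hd]
    · left
      simp only [Finset.mem_insert, Finset.mem_singleton, not_or] at hy
      simp [Equiv.swap_apply_of_ne_of_ne, hy.1, hy.2.1, hy.2.2]
  have hmem : ∀ x, c x ≠ x → x ∈ c.support := fun x => Equiv.Perm.mem_support.2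
  rcases Nat.lt_or_ge c.support.card 6 with hlt | hge
  · -- three fixed points
    obtain ⟨T, hT, hT3⟩ := Finset.exists_subset_card_eq (show 3 ≤ c.supportᶜ.card by
      rw [Finset.card_compl, Fintype.card_fin]; omega)
    obtain ⟨a, b, d, h1, h2, h3, rfl⟩ := Finset.card_eq_three.1 hT3
    refine key a b d h1 h2 h3 ?_
    have hf : ∀ x ∈ ({a, b, d} : Finset (Fin 8)), c x = x := fun x hx =>
      Equiv.Perm.notMem_support.1 (Finset.mem_compl.1 (hT hx))
    rw [hf a (by simp), hf b (by simp), hf d (by simp)]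
  have greedy : ∀ a b, a ≠ b → a ∈ c.support → b ∈ c.support → c a ≠ b → c b ≠ a →
      (({a, c a, c.symm a, b, c b, c.symm b} : Finset (Fin 8)).card < c.support.card) →
      ∃ τ : Equiv.Perm (Fin 8), τ.IsThreeCycle ∧ Commute τ (c * τ * c⁻¹) := by
    intro a b hab ha hb hcab hcba hlt
    obtain ⟨d, hd, hdn⟩ := Finset.exists_mem_notMem_of_card_lt_card hlt
    simp only [Finset.mem_insert, Finset.mem_singleton, not_or] at hdn
    obtain ⟨n1, n2, n3, n4, n5, n6⟩ := hdn
    rw [Equiv.Perm.mem_support] at ha hb hd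
    refine hdisj a b d hab (Ne.symm n1) (Ne.symm n4) ?_
    simp only [Finset.mem_insert, Finset.mem_singleton]
    rintro x (rfl | rfl | rfl) y (rfl | rfl | rfl) <;>
      first
        | assumption
        | exact Ne.symm n2
        | exact Ne.symm n5
        | exact fun h => n3 (c.eq_symm_apply.2 h)
        | exact fun h => n6 (c.eq_symm_apply.2 h)
  obtain ⟨a, ha⟩ := Finset.card_pos.1 (show 0 < c.support.card by omega)
  have ha' : c a ≠ a := Equiv.Perm.mem_support.1 ha
  rcases Nat.lt_or_ge c.support.card 7 with h6 | h7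
  · by_cases h2 : c (c a) = a
    · -- a transposition and a fixed point
      obtain ⟨d, hd⟩ := Finset.card_pos.1 (show 0 < c.supportᶜ.card by
        rw [Finset.card_compl, Fintype.card_fin]; omega)
      rw [Finset.mem_compl, Equiv.Perm.notMem_support] at hd
      have hda : d ≠ a := fun e => ha' (e ▸ hd)
      have hdc : d ≠ c a := fun e => ha' (by
        have : c d = c (c a) := congrArg c e
        rw [hd, h2] at this
        rw [← e, this])
      refine key a (c a) d (Ne.symm ha') hda.symm hdc.symm ?_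
      rw [h2, hd]
      generalize c a = b at ha' hdc
      refine Equiv.ext fun x => ?_
      simp only [Equiv.Perm.mul_apply, Equiv.swap_apply_def]
      grind
    by_cases h3 : c (c (c a)) = a
    · refine key a (c a) (c (c a)) (Ne.symm ha') (fun e => h2 e.symm)
        (fun e => ha' (c.injective e.symm)) ?_
      rw [h3]
      have hb : c (c a) ≠ c a := fun e => ha' (c.injective e)
      generalize c (c a) = d at h2 hb
      generalize c a = b at ha' hb
      refine Equiv.ext fun x => ?_
      simp only [Equiv.Perm.mul_apply, Equiv.swap_apply_def]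
      grind
    · refine greedy a (c (c a)) (fun e => h2 e.symm) ha
        (Equiv.Perm.apply_mem_support.2 (Equiv.Perm.apply_mem_support.2 ha))
        (fun e => ha' (c.injective e.symm)) h3 ?_
      rw [Equiv.symm_apply_apply]
      refine lt_of_le_of_lt (b := 5) ?_ (by omega)
      have : ({a, c a, c.symm a, c (c a), c (c (c a)), c a} : Finset (Fin 8)) =
          {a, c a, c.symm a, c (c a), c (c (c a))} := by
        ext; simp only [Finset.mem_insert, Finset.mem_singleton]; tauto
      rw [this]
      exact Finset.card_le_five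
  · obtain ⟨b, hb, hbn⟩ := Finset.exists_mem_notMem_of_card_lt_card
      (show ({a, c a, c.symm a} : Finset (Fin 8)).card < c.support.card from
        lt_of_le_of_lt Finset.card_le_three (by omega))
    simp only [Finset.mem_insert, Finset.mem_singleton, not_or] at hbn
    exact greedy a b (Ne.symm hbn.1) ha hb (Ne.symm hbn.2.1)
      (fun h => hbn.2.2 (c.eq_symm_apply.2 h))
      (lt_of_le_of_lt Finset.card_le_six (by omega))


/-- In the symmetric group of degree 8, let A be the subgroup generated by a 3-cycle. Then every conjugacy class contains an element g for which A is subnormal in the subgroup generated by A and its conjugate by g, although O_3 of the symmetric group of degree 8 is trivial. -/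
theorem result
    (σ : Equiv.Perm (Fin 8)) (hσ : σ.IsThreeCycle) :
    (∀ c : Equiv.Perm (Fin 8), ∃ g : Equiv.Perm (Fin 8), IsConj c g ∧
      ((Subgroup.zpowers σ).subgroupOf (Subgroup.zpowers σ ⊔ MulAut.conj g • Subgroup.zpowers σ)).IsSubnormal) ∧
    Cfsg.pCore 3 (Equiv.Perm (Fin 8)) = ⊥ := by
  refine ⟨fun c => ?_, ?_⟩
  · obtain ⟨τ, hτ, hcomm⟩ := exists_commuting_threeCycle c
    obtain ⟨h, hh⟩ := isConj_iff.1 (Equiv.Perm.isConj_iff_cycleType_eq.2 (hτ.trans hσ.symm))
    refine ⟨h * c * h⁻¹, isConj_iff.2 ⟨h, rfl⟩, ?_⟩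
    refine Subgroup.Normal.isSubnormal ?_
    rw [Subgroup.normal_subgroupOf_iff_le_normalizer le_sup_left]
    refine sup_le Subgroup.le_normalizer ?_
    refine le_trans ?_ (Subgroup.centralizer_le_normalizer _)
    rintro _ ⟨y, hy, rfl⟩
    rw [Subgroup.mem_centralizer_iff]
    intro z hz
    obtain ⟨i, rfl⟩ := Subgroup.mem_zpowers_iff.1 hz
    obtain ⟨j, rfl⟩ := Subgroup.mem_zpowers_iff.1 hy
    have h1 : Commute σ (MulAut.conj (h * c * h⁻¹) σ) := by
      have h2 := hcomm.map (MulAut.conj h).toMonoidHom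
      have e : MulAut.conj (h * c * h⁻¹) σ = MulAut.conj h (c * τ * c⁻¹) := by
        simp only [MulAut.conj_apply, ← hh]; group
      rw [e, ← hh]
      exact h2
    change σ ^ i * MulAut.conj (h * c * h⁻¹) (σ ^ j) = MulAut.conj (h * c * h⁻¹) (σ ^ j) * σ ^ i
    rw [map_zpow]
    exact (h1.zpow_zpow i j).eq
  · set N := Cfsg.pCore 3 (Equiv.Perm (Fin 8)) with hN
    haveI : N.Normal := Subgroup.sSup_normal _ (fun _ h => h.1)
    haveI : Fact (Nat.Prime 3) := ⟨Nat.prime_three⟩
    obtain ⟨P⟩ := Sylow.nonempty (p := 3) (G := Equiv.Perm (Fin 8))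
    have hp : IsPGroup 3 N := P.isPGroup'.to_le (sSup_le fun M hM => by
      haveI := hM.1
      exact hM.2.le_sylow_of_normal P)
    haveI : IsSimpleGroup (alternatingGroup (Fin 8)) := alternatingGroup.isSimpleGroup (by simp)
    rcases IsSimpleGroup.eq_bot_or_eq_top_of_normal (N.subgroupOf (alternatingGroup (Fin 8)))
      inferInstance with h | h
    · rw [← Subgroup.card_eq_one]
      have hinj : Function.Injective (Equiv.Perm.sign.comp N.subtype) := by
        rw [injective_iff_map_eq_one]
        intro x hx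
        have : (⟨(x : Equiv.Perm (Fin 8)), Equiv.Perm.mem_alternatingGroup.2 hx⟩ :
            alternatingGroup (Fin 8)) ∈ N.subgroupOf (alternatingGroup (Fin 8)) := x.2
        rw [h, Subgroup.mem_bot] at this
        exact Subtype.ext (congrArg Subtype.val this :)
      obtain ⟨k, hk⟩ := IsPGroup.iff_card.1 hp
      have h2 : Nat.card N ≤ 2 :=
        (Nat.card_le_card_of_injective _ hinj).trans (by simp)
      rw [hk] at h2 ⊢
      rcases k with _ | k
      · rfl
      · have : 3 ≤ 3 ^ (k + 1) := Nat.le_self_pow (by omega) 3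
        omega
    · exfalso
      have hmem : (Equiv.swap 0 1 * Equiv.swap 2 3 : Equiv.Perm (Fin 8)) ∈ N := by
        have : (⟨Equiv.swap 0 1 * Equiv.swap 2 3, Equiv.Perm.mem_alternatingGroup.2 (by decide)⟩ : alternatingGroup (Fin 8)) ∈
            N.subgroupOf (alternatingGroup (Fin 8)) := h ▸ Subgroup.mem_top _
        exact this
      obtain ⟨k, hk⟩ := IsPGroup.iff_orderOf.1 hp ⟨_, hmem⟩
      have h2 : orderOf (⟨_, hmem⟩ : N) = 2 := by
        rw [Subgroup.orderOf_mk]
        exact orderOf_eq_prime (by decide) (by decide)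
      rw [h2] at hk
      rcases k with _ | k
      · simp at hk
      · exact absurd ((dvd_pow_self 3 (Nat.succ_ne_zero k)).trans (dvd_of_eq hk.symm)) (by norm_num)


end Cfsg.Agent.S4332
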