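import Cfsg.Statements.S4333
import Cfsg.Agent.H21.Wielandt

set_option autoImplicit false
open Pointwise
open Cfsg

namespace Cfsg.Agent.S4333

variable {H : Type*} [Group H]

theorem relative {A L J : Subgroup H} (hAL : A ≤ L) (hJL : J ≤ L) (hAJ : A ≤ J)
    (h : (A.subgroupOf J).IsSubnormal) (J' : Subgroup L) (hJ' : J' = J.subgroupOf L) :
    ((A.subgroupOf L).subgroupOf J').IsSubnormal := by
  subst hJ'
  exact h.comap ((L.subtype).subgroupComap J)

theorem smul_subgroupOf {A L : Subgroup H} (hAL : A ≤ L) (x : L) :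
    MulAut.conj x • A.subgroupOf L = (MulAut.conj (x : H) • A).subgroupOf L := by
  ext y
  rw [Subgroup.mem_pointwise_smul_iff_inv_smul_mem, Subgroup.mem_subgroupOf,
    Subgroup.mem_subgroupOf, Subgroup.mem_pointwise_smul_iff_inv_smul_mem]
  simp

theorem pull {A L : Subgroup H} {L' : Subgroup L} (hAL : A ≤ L) (hA : A ≤ L'.map L.subtype)
    (h : (A.subgroupOf (L'.map L.subtype)).IsSubnormal) :
    ((A.subgroupOf L).subgroupOf L').IsSubnormal :=
  h.comap ((L.subtype).subgroupMap L')

theorem step [Finite H] (A : Subgroup H)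
    (h : ∀ a ∈ A, ∀ g : H, (A.subgroupOf (A ⊔ MulAut.conj (g⁻¹ * a * g) • A)).IsSubnormal)
    (hsub : ∀ L : Subgroup H, A ≤ L → L ≠ ⊤ → (A.subgroupOf L).IsSubnormal) : A.IsSubnormal := by
  by_contra hA
  obtain ⟨M, hM, hAM, huniq⟩ := Cfsg.Agent.H21.zipper hsub hA
  have hnorm : ∀ a ∈ A, ∀ g : H, MulAut.conj (g⁻¹ * a * g)⁻¹ • M = M := by
    intro a ha g
    set x := g⁻¹ * a * g
    have hne : A ⊔ MulAut.conj x • A ≠ ⊤ := by
      intro he
      have h1 := h a ha g
      change (A.subgroupOf (A ⊔ MulAut.conj x • A)).IsSubnormal at h1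
      rw [he] at h1
      exact hA (Subgroup.IsSubnormal.trans le_top h1 Subgroup.IsSubnormal.top)
    obtain ⟨K, hK, hJK⟩ := (eq_top_or_exists_le_coatom _).resolve_left hne
    obtain rfl := huniq K hK (le_sup_left.trans hJK)
    have hxA : MulAut.conj x • A ≤ K := le_sup_right.trans hJK
    refine huniq _ ?_ ?_
    · refine ⟨fun he => hK.1 ?_, fun b hb => ?_⟩
      · rwa [← eq_inv_smul_iff, show (MulAut.conj x⁻¹)⁻¹ • (⊤ : Subgroup H) = ⊤ from
          Subgroup.map_top_of_surjective _ (MulEquiv.surjective _)] at he
      · have := hK.2 ((MulAut.conj x⁻¹)⁻¹ • b) (by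
          have := (Subgroup.pointwise_smul_le_pointwise_smul_iff
            (a := (MulAut.conj x⁻¹)⁻¹)).mpr hb.le
          rw [inv_smul_smul] at this
          refine lt_of_le_of_ne this fun he => hb.ne ?_
          rw [he, smul_inv_smul])
        rw [inv_smul_eq_iff] at this
        rw [this]
        exact Subgroup.map_top_of_surjective _ (MulEquiv.surjective _)
    · rwa [map_inv, Subgroup.subset_pointwise_smul_iff, inv_inv]
  have hle : Subgroup.normalClosure (A : Set H) ≤ M := by
    by_cases hn : Subgroup.normalizer (M : Set H) = ⊤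
    · have := Subgroup.normalizer_eq_top_iff.mp hn
      exact Subgroup.normalClosure_le_normal hAM
    · have hNM : Subgroup.normalizer (M : Set H) = M :=
        ((hM.le_iff.mp Subgroup.le_normalizer).resolve_left hn)
      refine (Subgroup.closure_le _).mpr fun y hy => ?_
      obtain ⟨a, ha, hay⟩ := Group.mem_conjugatesOfSet_iff.mp hy
      obtain ⟨c, rfl⟩ := isConj_iff.mp hay
      have h1 := hnorm a ha c⁻¹
      rw [inv_inv] at h1
      rw [SetLike.mem_coe, ← inv_mem_iff]
      refine (SetLike.ext_iff.mp hNM _).mp ?_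
      exact Subgroup.mem_normalizer_iff_map_conj_eq.mpr h1
  exact hA (Subgroup.IsSubnormal.trans Subgroup.le_normalClosure
    (hsub _ Subgroup.le_normalClosure fun he => hM.1 (top_le_iff.mp (he ▸ hle)))
    Subgroup.normalClosure_normal.isSubnormal)

/-- Let A be a subgroup of a finite group G. If A is subnormal in the subgroup generated by A and its conjugate by g⁻¹ a g, for every a ∈ A and every g ∈ G, then A is subnormal in G. (A sharpening of Wielandt's subnormality criterion: only conjugates of A by conjugates of elements of A are needed.) -/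
theorem result {G : Type*} [Group G] [Finite G]
    (A : Subgroup G)
    (h : ∀ a ∈ A, ∀ g : G, (A.subgroupOf (A ⊔ MulAut.conj (g⁻¹ * a * g) • A)).IsSubnormal) :
    A.IsSubnormal := by
  classical
  have main : ∀ L : Subgroup G, A ≤ L → (A.subgroupOf L).IsSubnormal := by
    intro L
    induction L using WellFoundedLT.induction with
    | _ L ih =>
      intro hAL
      refine step (A.subgroupOf L) ?_ ?_
      · intro a ha g
        have h1 := h (a : G) ha (g : G)
        have hle : A ⊔ MulAut.conj ((g : G)⁻¹ * a * g) • A ≤ L := by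
          refine sup_le hAL ?_
          rintro _ ⟨b, hb, rfl⟩
          have hx : (g : G)⁻¹ * a * g ∈ L := mul_mem (mul_mem (inv_mem g.2) a.2) g.2
          exact mul_mem (mul_mem hx (hAL hb)) (inv_mem hx)
        refine relative hAL hle le_sup_left h1 _ ?_
        rw [Subgroup.subgroupOf_sup hAL (le_sup_right.trans hle)]
        congr 1
        exact smul_subgroupOf hAL _
      · intro L' hL' hne
        have hlt : L'.map L.subtype < L := by
          refine lt_of_le_of_ne (Subgroup.map_subtype_le _) fun he => hne ?_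
          apply Subgroup.map_injective L.subtype_injective
          rw [he, ← MonoidHom.range_eq_map, Subgroup.range_subtype]
        have hA' : A ≤ L'.map L.subtype := fun b hb => ⟨⟨b, hAL hb⟩, hL' hb, rfl⟩
        have h2 := ih _ hlt hA'
        exact pull hAL hA' h2
  have := main ⊤ le_top
  exact Subgroup.IsSubnormal.trans le_top this Subgroup.IsSubnormal.top

end Cfsg.Agent.S4333
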