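import Cfsg.Statements.S4337


set_option autoImplicit false
open Cfsg

namespace Cfsg.Agent.S4337

/-- Permutations supported on at most four points form a solvable group. -/
theorem isSolvable_of_support_le {n : ℕ} (U : Finset (Fin n)) (hU : U.card ≤ 4)
    (H : Subgroup (Equiv.Perm (Fin n))) (hH : ∀ f ∈ H, f.support ⊆ U) : Group.IsSolvable H := by
  classical
  haveI hsol4 : Group.IsSolvable (Equiv.Perm (Fin 4)) := by
    refine ⟨⟨3, ?_⟩⟩
    have h1 : derivedSeries (Equiv.Perm (Fin 4)) 1 ≤ (Equiv.Perm.sign).ker := by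
      rw [derivedSeries_one]
      exact Abelianization.commutator_subset_ker _
    have hmul : ∀ a b : Equiv.Perm (Fin 4), a * a = 1 ∧ Equiv.Perm.sign a = 1 →
        b * b = 1 ∧ Equiv.Perm.sign b = 1 → a * b * (a * b) = 1 ∧ Equiv.Perm.sign (a * b) = 1 := by
      decide +kernel
    have hinv : ∀ a : Equiv.Perm (Fin 4), a * a = 1 ∧ Equiv.Perm.sign a = 1 →
        a⁻¹ * a⁻¹ = 1 ∧ Equiv.Perm.sign a⁻¹ = 1 := by
      decide +kernel
    let V : Subgroup (Equiv.Perm (Fin 4)) :=
      { carrier := {f | f * f = 1 ∧ Equiv.Perm.sign f = 1}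
        one_mem' := ⟨by simp, by simp⟩
        mul_mem' := fun {a b} => hmul a b
        inv_mem' := fun {a} => hinv a }
    have key : ∀ a b : Equiv.Perm (Fin 4), Equiv.Perm.sign a = 1 → Equiv.Perm.sign b = 1 →
        a * b * a⁻¹ * b⁻¹ * (a * b * a⁻¹ * b⁻¹) = 1 ∧ Equiv.Perm.sign (a * b * a⁻¹ * b⁻¹) = 1 := by
      decide +kernel
    have hV : ∀ a b : Equiv.Perm (Fin 4), a * a = 1 ∧ Equiv.Perm.sign a = 1 →
        b * b = 1 ∧ Equiv.Perm.sign b = 1 → a * b * a⁻¹ * b⁻¹ = 1 := by
      decide +kernel
    have h2 : derivedSeries (Equiv.Perm (Fin 4)) 2 ≤ V := by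
      rw [derivedSeries_succ, Subgroup.commutator_le]
      exact fun a ha b hb => key a b (h1 ha) (h1 hb)
    rw [derivedSeries_succ, eq_bot_iff, Subgroup.commutator_le]
    exact fun a ha b hb => Subgroup.mem_bot.2 (hV a b (h2 ha) (h2 hb))
  obtain ⟨e⟩ : Nonempty (U ↪ Fin 4) := Function.Embedding.nonempty_of_card_le (by simpa using hU)
  have hsup : ∀ f : H, ∀ x, (f : Equiv.Perm (Fin n)) x ∈ U ↔ x ∈ U := by
    intro f x
    by_cases hx : (f : Equiv.Perm (Fin n)) x = x
    · rw [hx]
    · exact iff_of_true (hH f.1 f.2 (Equiv.Perm.apply_mem_support.2 (Equiv.Perm.mem_support.2 hx)))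
        (hH f.1 f.2 (Equiv.Perm.mem_support.2 hx))
  let φ : H →* Equiv.Perm (Fin 4) :=
    { toFun := fun f => ((f : Equiv.Perm (Fin n)).subtypePerm (fun x => (hsup f x))).viaEmbedding e
      map_one' := by
        change Equiv.Perm.viaEmbeddingHom e _ = 1
        convert map_one (Equiv.Perm.viaEmbeddingHom e)
        exact Equiv.ext fun x => rfl
      map_mul' := fun f g => by
        change Equiv.Perm.viaEmbeddingHom e _ =
          Equiv.Perm.viaEmbeddingHom e _ * Equiv.Perm.viaEmbeddingHom e _
        rw [← map_mul]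
        rfl }
  refine Group.isSolvable_of_isSolvable_injective (f := φ) ?_
  intro f g hfg
  have h' := Equiv.Perm.viaEmbeddingHom_injective e hfg
  refine Subtype.ext (Equiv.ext fun x => ?_)
  by_cases hx : x ∈ U
  · exact congrArg Subtype.val (Equiv.congr_fun h' ⟨x, hx⟩)
  · rw [Equiv.Perm.notMem_support.1 fun h => hx (hH f.1 f.2 h),
      Equiv.Perm.notMem_support.1 fun h => hx (hH g.1 g.2 h)]

/-- A group generated by elements supported in `U` is supported in `U`. -/
theorem support_subset_of_mem_closure {n : ℕ} (U : Finset (Fin n)) (s : Set (Equiv.Perm (Fin n)))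
    (hs : ∀ f ∈ s, f.support ⊆ U) : ∀ f ∈ Subgroup.closure s, f.support ⊆ U := by
  intro f hf
  induction hf using Subgroup.closure_induction with
  | mem f hf => exact hs f hf
  | one => simp
  | mul f g _ _ h h' => exact (Equiv.Perm.support_mul_le f g).trans (Finset.union_subset h h')
  | inv f _ h => simpa using h

/-- A transposition disjoint from two others centralizes the group they generate. -/
theorem solvable_of_disjoint {n : ℕ} (a b c : Equiv.Perm (Fin n))
    (hb : b.IsSwap) (hc : c.IsSwap) (hab : Disjoint a.support b.support)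
    (hac : Disjoint a.support c.support) :
    Group.IsSolvable (Subgroup.closure ({a, b, c} : Set (Equiv.Perm (Fin n)))) := by
  set H := Subgroup.closure ({b, c} : Set (Equiv.Perm (Fin n))) with hH
  haveI : Group.IsSolvable H := isSolvable_of_support_le (b.support ∪ c.support)
    ((Finset.card_union_le _ _).trans (by
      rw [Equiv.Perm.card_support_eq_two.2 hb, Equiv.Perm.card_support_eq_two.2 hc]))
    H (support_subset_of_mem_closure _ _ (by
      rintro f (rfl | rfl)
      · exact Finset.subset_union_left
      · exact Finset.subset_union_right))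
  haveI : Group.IsSolvable (Subgroup.zpowers a) := Group.isSolvable_of_comm fun x y => by
    obtain ⟨i, hi⟩ := Subgroup.mem_zpowers_iff.1 x.2
    obtain ⟨j, hj⟩ := Subgroup.mem_zpowers_iff.1 y.2
    exact Subtype.ext (by push_cast; rw [← hi, ← hj, ← zpow_add, ← zpow_add, add_comm])
  have hle : H ≤ Subgroup.centralizer (Subgroup.zpowers a : Set (Equiv.Perm (Fin n))) := by
    rw [hH, Subgroup.closure_le]
    intro f hf
    rw [SetLike.mem_coe, Subgroup.mem_centralizer_iff]
    intro z hz
    obtain ⟨i, rfl⟩ := Subgroup.mem_zpowers_iff.1 hz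
    rcases hf with rfl | rfl
    · exact ((Equiv.Perm.disjoint_iff_disjoint_support.2 hab).commute.zpow_left i).eq
    · exact ((Equiv.Perm.disjoint_iff_disjoint_support.2 hac).commute.zpow_left i).eq
  let ψ := (Subgroup.zpowers a).subtype.noncommCoprod H.subtype
    (fun x y => show Commute ((Subgroup.zpowers a).subtype x) (H.subtype y) from
      (Subgroup.mem_centralizer_iff.1 (hle y.2) x x.2))
  have hsub : Subgroup.closure ({a, b, c} : Set (Equiv.Perm (Fin n))) ≤ ψ.range := by
    simp only [ψ]
    rw [Subgroup.closure_le, MonoidHom.noncommCoprod_range, Subgroup.range_subtype,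
      Subgroup.range_subtype]
    rintro f (rfl | rfl | rfl)
    · exact Subgroup.mem_sup_left (Subgroup.mem_zpowers _)
    · exact Subgroup.mem_sup_right (Subgroup.subset_closure (Or.inl rfl))
    · exact Subgroup.mem_sup_right (Subgroup.subset_closure (Or.inr rfl))
  haveI : Group.IsSolvable ψ.range := Group.isSolvable_of_surjective ψ.rangeRestrict_surjective
  exact Group.isSolvable_of_isSolvable_injective (Subgroup.inclusion_injective hsub)


/-- In a finite symmetric group, any three transpositions generate a solvable subgroup. -/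
theorem result (n : ℕ) (a b c : Equiv.Perm (Fin n))
    (ha : a.IsSwap) (hb : b.IsSwap) (hc : c.IsSwap) :
    Group.IsSolvable (Subgroup.closure ({a, b, c} : Set (Equiv.Perm (Fin n)))) := by
  set A := a.support
  set B := b.support
  set C := c.support
  have cA : A.card = 2 := Equiv.Perm.card_support_eq_two.2 ha
  have cB : B.card = 2 := Equiv.Perm.card_support_eq_two.2 hb
  have cC : C.card = 2 := Equiv.Perm.card_support_eq_two.2 hc
  by_cases h4 : (A ∪ B ∪ C).card ≤ 4
  · refine isSolvable_of_support_le (A ∪ B ∪ C) h4 _ (support_subset_of_mem_closure _ _ ?_)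
    rintro f (rfl | rfl | rfl) x hx <;> simp only [A, B, C, Finset.mem_union] <;> tauto
  have e1 : (A ∪ B).card + (A ∩ B).card = A.card + B.card := Finset.card_union_add_card_inter _ _
  have e2 : (A ∪ C).card + (A ∩ C).card = A.card + C.card := Finset.card_union_add_card_inter _ _
  have e3 : (B ∪ C).card + (B ∩ C).card = B.card + C.card := Finset.card_union_add_card_inter _ _
  have f1 : (A ∪ B ∪ C).card + ((A ∪ B) ∩ C).card = (A ∪ B).card + C.card :=
    Finset.card_union_add_card_inter _ _
  have g1 : (A ∩ C).card ≤ ((A ∪ B) ∩ C).card :=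
    Finset.card_le_card (Finset.inter_subset_inter_right Finset.subset_union_left)
  have g2 : (B ∩ C).card ≤ ((A ∪ B) ∩ C).card :=
    Finset.card_le_card (Finset.inter_subset_inter_right Finset.subset_union_right)
  have dd : ∀ X Y : Finset (Fin n), (X ∩ Y).card = 0 → Disjoint X Y := fun X Y h =>
    Finset.disjoint_iff_inter_eq_empty.2 (Finset.card_eq_zero.1 h)
  by_cases hab : (A ∩ B).card = 0
  · by_cases hac : (A ∩ C).card = 0
    · exact solvable_of_disjoint a b c hb hc (dd _ _ hab) (dd _ _ hac)
    · have hbc : (B ∩ C).card = 0 := by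
        by_contra hbc
        have hdis : Disjoint (A ∩ C) (B ∩ C) :=
          Disjoint.mono Finset.inter_subset_left Finset.inter_subset_left (dd _ _ hab)
        have := Finset.card_union_of_disjoint hdis
        rw [← Finset.union_inter_distrib_right] at this
        omega
      have := solvable_of_disjoint b a c ha hc (dd _ _ hab).symm (dd _ _ hbc)
      rwa [Set.insert_comm] at this
  · have hc' : (A ∩ C).card = 0 ∧ (B ∩ C).card = 0 := by omega
    have := solvable_of_disjoint c a b ha hb (dd _ _ hc'.1).symm (dd _ _ hc'.2).symm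
    rwa [show ({c, a, b} : Set (Equiv.Perm (Fin n))) = {a, b, c} by
      ext; simp only [Set.mem_insert_iff, Set.mem_singleton_iff]; tauto] at this


end Cfsg.Agent.S4337
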