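import Cfsg.Statements.S4343
import Cfsg.Agent.H90.SylowSmall

set_option autoImplicit false
open Cfsg

namespace Cfsg.Agent.S4343

/-- Let S be a finite non-abelian simple group and p a prime dividing its order. If S has fewer than p² Sylow p-subgroups, then its Sylow p-subgroups have order p. -/
theorem result {S : Type*} [Group S] [Finite S]
    [IsSimpleGroup S] (hS : ¬ IsMulCommutative S) (p : ℕ) [Fact p.Prime] (hp : p ∣ Nat.card S)
    (hn : Nat.card (Sylow p S) < p ^ 2) (P : Sylow p S) : Nat.card P = p := by
  have hnp : ¬ IsPGroup p S := by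
    intro h
    haveI : Nontrivial S := IsSimpleGroup.toNontrivial
    have hz := h.center_nontrivial
    have : Subgroup.center S = ⊤ :=
      (IsSimpleGroup.eq_bot_or_eq_top_of_normal (Subgroup.center S) inferInstance).resolve_left
        ((Subgroup.nontrivial_iff_ne_bot _).1 hz)
    exact hS ⟨⟨fun a b => ((Subgroup.mem_center_iff.1 (this ▸ Subgroup.mem_top b)) a)⟩⟩
  exact (Cfsg.Agent.H90.card_sylow_le_of_card_lt_sq hn
    (Cfsg.Agent.H90.pCore_eq_bot_of_simple hnp) P).resolve_left
    fun h => P.ne_bot_of_dvd_card hp (Subgroup.card_eq_one.1 h)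


end Cfsg.Agent.S4343
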