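import Cfsg.Statements.S4344


set_option autoImplicit false
open Cfsg

namespace Cfsg.Agent.S4344

/-- Every subgroup of a finite cyclic group is characteristic. -/
theorem cyclic_subgroup_characteristic {C : Type*} [Group C] [Finite C] [IsCyclic C] (K : Subgroup C) :
    K.Characteristic := by
  let _ := IsCyclic.commGroup (α := C)
  have key : K = (powMonoidHom (Nat.card K) : C →* C).ker := by
    refine Subgroup.eq_of_le_of_card_ge (fun x hx => ?_) ?_
    · rw [MonoidHom.mem_ker, powMonoidHom_apply]
      exact congrArg Subtype.val (pow_card_eq_one' (x := (⟨x, hx⟩ : K)))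
    · rw [IsCyclic.card_powMonoidHom_ker, Nat.gcd_eq_right K.card_subgroup_dvd_card]
  rw [key]
  refine Subgroup.characteristic_iff_comap_eq.2 fun φ => ?_
  ext x
  simp only [Subgroup.mem_comap, MonoidHom.mem_ker, MulEquiv.coe_toMonoidHom, powMonoidHom_apply,
    ← map_pow]
  exact map_eq_one_iff φ φ.injective

/-- Let S be a finite non-abelian simple group, M a maximal subgroup of S and C a cyclic normal subgroup of M. If a Sylow p-subgroup P of S (for a prime p dividing the order of S) is contained in C, then the number of Sylow p-subgroups of S equals the index of M. -/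
theorem result {S : Type*} [Group S] [Finite S]
    [IsSimpleGroup S] (hS : ¬ IsMulCommutative S) (p : ℕ) [Fact p.Prime] (hp : p ∣ Nat.card S)
    (M : Subgroup S) (hM : IsCoatom M) (C : Subgroup S) (hCM : C ≤ M) (hCn : (C.subgroupOf M).Normal)
    (hC : IsCyclic C) (P : Sylow p S) (hP : (P : Subgroup S) ≤ C) :
    Nat.card (Sylow p S) = M.index := by
  haveI : IsCyclic C := hC
  have hMN : M ≤ Subgroup.normalizer ((P : Subgroup S) : Set S) := by
    haveI : (C.subgroupOf M).Normal := hCn
    haveI : IsCyclic (C.subgroupOf M) :=
      isCyclic_of_surjective _ (Subgroup.subgroupOfEquivOfLe hCM).symm.surjective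
    haveI : (((P : Subgroup S).subgroupOf M).subgroupOf (C.subgroupOf M)).Characteristic :=
      cyclic_subgroup_characteristic _
    have hn := ConjAct.normal_of_characteristic_of_normal
      (H := C.subgroupOf M) (K := ((P : Subgroup S).subgroupOf M).subgroupOf (C.subgroupOf M))
    have e : (((P : Subgroup S).subgroupOf M).subgroupOf (C.subgroupOf M)).map
        (C.subgroupOf M).subtype = (P : Subgroup S).subgroupOf M := by
      rw [Subgroup.subgroupOf_map_subtype]
      exact inf_eq_left.2 (Subgroup.comap_mono hP)
    rw [e] at hn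
    exact (Subgroup.normal_subgroupOf_iff_le_normalizer (hP.trans hCM)).1 hn
  have hN : Subgroup.normalizer ((P : Subgroup S) : Set S) ≠ ⊤ := by
    intro h
    have hnor : (P : Subgroup S).Normal := Subgroup.normalizer_eq_top_iff.1 h
    rcases IsSimpleGroup.eq_bot_or_eq_top_of_normal _ hnor with h' | h'
    · exact P.ne_bot_of_dvd_card hp h'
    · exact hM.1 (top_le_iff.1 (h' ▸ hP.trans hCM))
  rw [P.card_eq_index_normalizer]
  exact congrArg Subgroup.index ((hM.le_iff.1 hMN).resolve_left hN)


end Cfsg.Agent.S4344
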