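import Cfsg.Statements.S4345
import Cfsg.Agent.S4303

set_option autoImplicit false
open Cfsg

namespace Cfsg.Agent.S4345

/-- Let G be a finite solvable group and p, ℓ primes. Then the largest power of ℓ dividing the number of Sylow p-subgroups of G is congruent to 1 modulo p. -/
theorem result {G : Type*} [Group G] [Finite G]
    (hG : Group.IsSolvable G) (p ℓ : ℕ) [Fact p.Prime] (hℓ : ℓ.Prime) :
    ℓ ^ (Nat.card (Sylow p G)).factorization ℓ ≡ 1 [MOD p] := by
  obtain ⟨n, hn⟩ : ∃ n, Nat.card G = n := ⟨_, rfl⟩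
  induction n using Nat.strong_induction_on generalizing G with
  | _ n ih =>
  by_cases hex : ∃ K : Subgroup G, K.Normal ∧ K ≠ ⊥ ∧ K ≠ ⊤
  · obtain ⟨K, hK, hb, ht⟩ := hex
    haveI := hK
    haveI := hG
    obtain ⟨h1, h2, c, hc, hcl⟩ := Cfsg.Agent.S4303.split p K hb ht
    have e1 := ih _ (hn ▸ h1) (G := G ⧸ K) inferInstance rfl
    have e2 := ih _ (hn ▸ h2) (G := K) inferInstance rfl
    have hc0 : c ≠ 0 := by
      rintro rfl
      rw [mul_zero] at hc
      exact Nat.card_pos.ne' hc
    rw [hc, Nat.factorization_mul (mul_ne_zero Nat.card_pos.ne' Nat.card_pos.ne') hc0,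
      Nat.factorization_mul Nat.card_pos.ne' Nat.card_pos.ne']
    simp only [Finsupp.coe_add, Pi.add_apply, pow_add]
    simpa using (e1.mul e2).mul (hcl ℓ hℓ)
  · -- no proper normal subgroup: abelian
    obtain ⟨P⟩ := Sylow.nonempty (p := p) (G := G)
    suffices Nat.card (Sylow p G) = 1 by rw [this]; simp [Nat.ModEq.refl]
    haveI : (P : Subgroup G).Normal := by
      simp only [not_exists, not_and] at hex
      rcases subsingleton_or_nontrivial G with hsub | hnt
      · rw [Subsingleton.elim (P : Subgroup G) ⊥]; infer_instance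
      haveI : IsSimpleGroup G :=
        ⟨fun H hH => (em (H = ⊥)).imp_right fun hb => not_not.1 (hex H hH hb)⟩
      have hcomm := IsSimpleGroup.comm_iff_isSolvable.2 hG
      exact ⟨fun x hx g => by rw [hcomm g x, mul_inv_cancel_right]; exact hx⟩
    rw [Cfsg.Agent.H90.card_sylow_eq_index P, Subgroup.index_eq_one]
    exact Subgroup.normalizer_eq_top ..


end Cfsg.Agent.S4345
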