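import Cfsg.Statements.S4354
import Cfsg.Agent.H32.Basic
import Cfsg.Agent.H19.Basic

set_option autoImplicit false
open Pointwise
open Cfsg

namespace Cfsg.Agent.S4354

/-- Let G be a finite group and p a prime such that the Sylow p-subgroups of G are non-abelian while every element of p-power order has conjugacy class size prime to p, and suppose no nontrivial proper normal subgroup N of G has this property and no quotient G/N by such an N has it. Then G is simple. -/
theorem result {G : Type*} [Group G] [Finite G]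
    (p : ℕ) [Fact p.Prime] (h : ((∃ P : Sylow p G, ¬ IsMulCommutative P) ∧ ∀ x : G, (∃ k : ℕ, orderOf x = p ^ k) → ¬ p ∣ (Subgroup.centralizer ({x} : Set G)).index))
    (hmin : ∀ (N : Subgroup G) [N.Normal], N ≠ ⊥ → N ≠ ⊤ →
      ¬ ((∃ P : Sylow p N, ¬ IsMulCommutative P) ∧ ∀ x : N, (∃ k : ℕ, orderOf x = p ^ k) → ¬ p ∣ (Subgroup.centralizer ({x} : Set N)).index) ∧
      ¬ ((∃ P : Sylow p (G ⧸ N), ¬ IsMulCommutative P) ∧ ∀ x : (G ⧸ N), (∃ k : ℕ, orderOf x = p ^ k) → ¬ p ∣ (Subgroup.centralizer ({x} : Set (G ⧸ N))).index)) :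
    IsSimpleGroup G := by
  obtain ⟨⟨P, hPna⟩, hcls⟩ := h
  have : Nontrivial G := by
    rcases subsingleton_or_nontrivial G with hG | hG
    · exact absurd ⟨⟨fun a b => Subsingleton.elim _ _⟩⟩ hPna
    · exact hG
  refine ⟨fun N hN => ?_⟩
  by_contra hc
  push Not at hc
  obtain ⟨h1, h2⟩ := hmin N hc.1 hc.2
  have hπ := QuotientGroup.mk'_surjective N
  let π := QuotientGroup.mk' N
  -- the Sylow subgroups of `N` are commutative
  have hNc : ∀ R : Sylow p N, IsMulCommutative R := by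
    intro R
    by_contra hR
    refine h1 ⟨⟨R, hR⟩, fun x hx hd => hcls (x : G) ?_ (hd.trans ?_)⟩
    · obtain ⟨k, hk⟩ := hx
      exact ⟨k, by rwa [Subgroup.orderOf_coe]⟩
    · have e : Subgroup.centralizer ({x} : Set N) =
          (Subgroup.centralizer ({(x : G)} : Set G)).subgroupOf N := by
        ext y
        simp [Subgroup.mem_subgroupOf, Subgroup.mem_centralizer_singleton_iff, Subtype.ext_iff]
      rw [e]
      exact Cfsg.Agent.H32.relIndex_dvd_index' _ N
  have hsyl : ¬ p ∣ (P : Subgroup G).relIndex N := fun hd =>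
    P.not_dvd_index (hd.trans (Cfsg.Agent.H32.relIndex_dvd_index' _ N))
  have hS : IsMulCommutative ((P : Subgroup G).subgroupOf N) :=
    hNc ((P.isPGroup'.comap_of_injective N.subtype N.subtype_injective).toSylow hsyl)
  -- the Sylow subgroups of the quotient are commutative
  have hQc : ∀ R : Sylow p (G ⧸ N), IsMulCommutative R := by
    intro R
    by_contra hR
    refine h2 ⟨⟨R, hR⟩, ?_⟩
    rintro y ⟨k, hk⟩ hd
    have hy : IsPGroup p (Subgroup.zpowers y) :=
      IsPGroup.of_card (n := k) (by rw [Nat.card_zpowers, hk])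
    obtain ⟨T, hT⟩ := hy.exists_le_sylow
    obtain ⟨T', hT'⟩ := Sylow.mapSurjective_surjective hπ p T
    rw [← hT', Sylow.coe_mapSurjective] at hT
    obtain ⟨x, hx, rfl⟩ := hT (Subgroup.mem_zpowers y)
    have hxp : ∃ j : ℕ, orderOf x = p ^ j := by
      obtain ⟨j, hj⟩ := IsPGroup.iff_orderOf.mp T'.isPGroup' ⟨x, hx⟩
      exact ⟨j, by rwa [← Subgroup.orderOf_coe] at hj⟩
    refine hcls x hxp (hd.trans ?_)
    refine (Subgroup.index_dvd_of_le ?_).trans (Subgroup.index_map_dvd (f := π) _ hπ)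
    rintro _ ⟨c, hc, rfl⟩
    rw [Subgroup.mem_centralizer_singleton_iff, ← map_mul, ← map_mul,
      Subgroup.mem_centralizer_singleton_iff.mp hc]
  have hPb := hQc (P.mapSurjective hπ)
  -- every element of `P` is a central element times an element of `P ⊓ N`
  have key : ∀ x ∈ (P : Subgroup G), ∃ z s : G, z ∈ (P : Subgroup G) ∧
      (∀ a ∈ (P : Subgroup G), a * z = z * a) ∧ s ∈ (P : Subgroup G) ∧ s ∈ N ∧ x = z * s := by
    intro x hx
    let C := Subgroup.centralizer ({x} : Set G)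
    have hxp : ∃ k : ℕ, orderOf x = p ^ k := by
      obtain ⟨j, hj⟩ := IsPGroup.iff_orderOf.mp P.isPGroup' ⟨x, hx⟩
      exact ⟨j, by rwa [← Subgroup.orderOf_coe] at hj⟩
    obtain ⟨R⟩ := (inferInstance : Nonempty (Sylow p C))
    have hnd : ¬ p ∣ ((R : Subgroup C).map C.subtype).index := by
      rw [Subgroup.index_map_subtype, Nat.Prime.dvd_mul Fact.out]
      exact not_or.mpr ⟨R.not_dvd_index, hcls x hxp⟩
    let Q : Sylow p G := (R.isPGroup'.map C.subtype).toSylow hnd
    have hQC : (Q : Subgroup G) ≤ C := Subgroup.map_subtype_le _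
    have hzn : Subgroup.zpowers x ≤ Subgroup.normalizer ((Q : Subgroup G) : Set G) := by
      rw [Subgroup.zpowers_le]
      apply Subgroup.centralizer_le_normalizer
      rw [Subgroup.mem_centralizer_iff]
      exact fun a ha => Subgroup.mem_centralizer_singleton_iff.mp (hQC ha)
    have hxQ : x ∈ (Q : Subgroup G) := by
      have hz : IsPGroup p (Subgroup.zpowers x) := P.isPGroup'.to_le (Subgroup.zpowers_le.mpr hx)
      have := Q.is_maximal' (Q.isPGroup'.to_sup_of_normal_left' hz hzn) le_sup_left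
      rw [← this]
      exact Subgroup.mem_sup_right (Subgroup.mem_zpowers x)
    obtain ⟨g, hg⟩ := MulAction.exists_smul_eq G P Q
    have hg' : MulAut.conj g • (P : Subgroup G) = (Q : Subgroup G) := by rw [← hg]; rfl
    have hwP : g⁻¹ * x * g ∈ (P : Subgroup G) := by
      rw [← Cfsg.Agent.H19.mem_conj_smul, hg']; exact hxQ
    have hwc : ∀ a ∈ (P : Subgroup G), a * (g⁻¹ * x * g) = (g⁻¹ * x * g) * a := by
      intro a ha
      have hQ : g * a * g⁻¹ ∈ (Q : Subgroup G) := by
        rw [← hg', Cfsg.Agent.H19.mem_conj_smul]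
        simpa [mul_assoc] using ha
      have hc : g * a * g⁻¹ * x = x * (g * a * g⁻¹) :=
        Subgroup.mem_centralizer_singleton_iff.mp (hQC hQ)
      calc a * (g⁻¹ * x * g) = g⁻¹ * (g * a * g⁻¹ * x) * g := by group
        _ = g⁻¹ * (x * (g * a * g⁻¹)) * g := by rw [hc]
        _ = g⁻¹ * x * g * a := by group
    -- fusion in the quotient
    have hmem : ∀ y ∈ (P : Subgroup G), π y ∈ (P.mapSurjective hπ : Subgroup (G ⧸ N)) := fun y hy => by
      rw [Sylow.coe_mapSurjective]; exact ⟨y, hy, rfl⟩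
    obtain ⟨nb, hnb, hconj⟩ := (P.mapSurjective hπ).conj_eq_normalizer_conj_of_mem (π x) (π g)
      (hmem x hx) (by rw [← map_inv, ← map_mul, ← map_mul]; exact hmem _ hwP)
    obtain ⟨n, rfl⟩ := hπ nb
    let L := (P : Subgroup G) ⊔ N
    have hnP : ((n • P : Sylow p G) : Subgroup G) ≤ L := by
      intro y hy
      rw [Sylow.coe_subgroup_smul, Cfsg.Agent.H19.mem_conj_smul] at hy
      have h3 := hmem _ hy
      rw [Sylow.coe_mapSurjective] at h3
      have hnb' : π n ∈ Subgroup.normalizer (((P : Subgroup G).map π : Subgroup (G ⧸ N)) : Set (G ⧸ N)) := hnb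
      have h4 : π y ∈ (P : Subgroup G).map π := by
        have h5 := (Subgroup.mem_normalizer_iff.mp hnb' (π (n⁻¹ * y * n))).mp h3
        rw [← map_inv, ← map_mul, ← map_mul] at h5
        simpa [mul_assoc] using h5
      show y ∈ L
      have h6 : y ∈ ((P : Subgroup G).map π).comap π := h4
      rwa [Subgroup.comap_map_eq, QuotientGroup.ker_mk'] at h6
    obtain ⟨l, hl⟩ := MulAction.exists_smul_eq L (P.subtype (le_sup_left : (P : Subgroup G) ≤ L))
      ((n • P).subtype hnP)
    rw [Sylow.smul_subtype] at hl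
    have hl' := Sylow.subtype_injective hl
    have hm : (l : G)⁻¹ * n ∈ Subgroup.normalizer ((P : Subgroup G) : Set G) := by
      apply Sylow.smul_eq_iff_mem_normalizer.mp
      rw [mul_smul, ← hl', Subgroup.smul_def, inv_smul_smul]
    have hlP : π (l : G) ∈ (P.mapSurjective hπ : Subgroup (G ⧸ N)) := by
      rw [Sylow.coe_mapSurjective]
      have h7 : π (l : G) ∈ L.map π := ⟨_, l.2, rfl⟩
      rwa [Subgroup.map_sup, QuotientGroup.map_mk'_self, sup_bot_eq] at h7
    have hcl : π (l : G) * π x = π x * π (l : G) :=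
      congrArg Subtype.val (hPb.is_comm.comm ⟨_, hlP⟩ ⟨_, hmem x hx⟩)
    let m := (l : G)⁻¹ * n
    have hwm : π (g⁻¹ * x * g) = π (m⁻¹ * x * m) := by
      simp only [m, map_mul, map_inv, mul_inv_rev, inv_inv]
      rw [hconj]
      calc (π n)⁻¹ * π x * π n
          = (π n)⁻¹ * (π x * π (l : G)) * ((π (l : G))⁻¹ * π n) := by group
        _ = (π n)⁻¹ * (π (l : G) * π x) * ((π (l : G))⁻¹ * π n) := by rw [hcl]
        _ = _ := by group
    have hm' := Subgroup.mem_normalizer_iff.mp hm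
    have hmi := Subgroup.mem_normalizer_iff.mp (Subgroup.inv_mem _ hm)
    have hs : (g⁻¹ * x * g)⁻¹ * (m⁻¹ * x * m) ∈ N := by
      rw [← QuotientGroup.eq_one_iff]
      show π _ = 1
      rw [map_mul, map_inv, ← hwm, inv_mul_cancel]
    refine ⟨m * (g⁻¹ * x * g) * m⁻¹, m * ((g⁻¹ * x * g)⁻¹ * (m⁻¹ * x * m)) * m⁻¹, (hm' _).mp hwP,
      fun a ha => ?_, (hm' _).mp (mul_mem (inv_mem hwP) ?_), hN.conj_mem _ hs m, by group⟩
    · have ha' : m⁻¹ * a * m ∈ (P : Subgroup G) := by
        have := (hmi a).mp ha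
        rwa [inv_inv] at this
      have := hwc _ ha'
      calc a * (m * (g⁻¹ * x * g) * m⁻¹) = m * (m⁻¹ * a * m * (g⁻¹ * x * g)) * m⁻¹ := by group
        _ = m * (g⁻¹ * x * g * (m⁻¹ * a * m)) * m⁻¹ := by rw [this]
        _ = m * (g⁻¹ * x * g) * m⁻¹ * a := by group
    · have := (hmi x).mp hx
      rwa [inv_inv] at this
  apply hPna
  refine ⟨⟨fun a b => Subtype.ext ?_⟩⟩
  show (a : G) * b = b * a
  obtain ⟨z, s, hz, hzc, hsP, hsN, ha⟩ := key a a.2
  obtain ⟨z', s', hz', hzc', hsP', hsN', hb⟩ := key b b.2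
  have hss : s * s' = s' * s := congrArg (fun x : (P : Subgroup G).subgroupOf N => ((x : N) : G))
    (hS.is_comm.comm ⟨⟨s, hsN⟩, hsP⟩ ⟨⟨s', hsN'⟩, hsP'⟩)
  rw [ha, hb]
  have c1 : Commute z z' := (hzc' z hz)
  have c2 : Commute s z' := hzc' s hsP
  have c3 : Commute z s' := (hzc s' hsP').symm
  exact ((c1.mul_right c3).mul_left (c2.mul_right hss))

end Cfsg.Agent.S4354
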