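import Cfsg.Statements.S4359
import Cfsg.Agent.H91.Sims.Chain

set_option autoImplicit false
open Pointwise
open Cfsg

namespace Cfsg.Agent.S4359

/-- Let P be a subgroup of a finite group G and g an element such that P ∩ g⁻¹Pg is a normal subgroup of prime index p in g⁻¹Pg. Let n ≥ 1 and let K be the subgroup generated by P and its conjugates g⁻ⁱPgⁱ for i ≤ n. Suppose that g normalizes no non-identity normal subgroup of P and that P meets the center of K trivially. Then the order of P is pᵗ for some t with 1 ≤ t ≤ 3n and t ≠ 3n - 1. -/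
theorem result {G : Type*} [Group G] [Finite G]
    (P : Subgroup G) (g : G) (p : ℕ) (hp : p.Prime)
    (hN : ((P ⊓ MulAut.conj g⁻¹ • P).subgroupOf (MulAut.conj g⁻¹ • P)).Normal)
    (hidx : (P ⊓ MulAut.conj g⁻¹ • P).relIndex (MulAut.conj g⁻¹ • P) = p)
    (n : ℕ) (hn : 1 ≤ n) (K : Subgroup G) (hK : K = ⨆ i ∈ Finset.range (n + 1), MulAut.conj (g ^ i)⁻¹ • P)
    (h1 : ∀ Q : Subgroup G, Q ≤ P → (Q.subgroupOf P).Normal → MulAut.conj g • Q = Q → Q = ⊥)
    (h2 : P ⊓ (Subgroup.center K).map K.subtype = ⊥) :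
    ∃ t : ℕ, Nat.card P = p ^ t ∧ 1 ≤ t ∧ t ≤ 3 * n ∧ t ≠ 3 * n - 1 := by
  classical
  have hg : MulAut.conj g⁻¹ = (MulAut.conj g)⁻¹ := map_inv _ g
  rw [hg] at hN hidx
  obtain ⟨t, x, ht, hW, hx, hP⟩ := H91.Sims.exists_windowed P (MulAut.conj g) hp hN hidx h1
  refine ⟨t, ?_, ht, ?_⟩
  · have := hW.card 0 t le_rfl
    rwa [zero_add, hP] at this
  -- `s` is the least distance at which two terms fail to commute, or `t`
  have hex : ∃ s, 1 ≤ s ∧ (t ≤ s ∨ ¬ Commute (x 0) (x s)) := ⟨t, ht, Or.inl le_rfl⟩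
  set s := Nat.find hex with hsdef
  obtain ⟨hs1, hsne⟩ : 1 ≤ s ∧ (t ≤ s ∨ ¬ Commute (x 0) (x s)) := Nat.find_spec hex
  have hst : s ≤ t := Nat.find_min' hex ⟨ht, Or.inl le_rfl⟩
  have hcomm0 : ∀ d : ℕ, d < s → Commute (x 0) (x d) := by
    intro d hd
    rcases Nat.eq_zero_or_pos d with rfl | hd0
    · exact Commute.refl _
    · by_contra h
      exact Nat.find_min hex hd ⟨hd0, Or.inr h⟩
  have hmin : ∀ i j : ℤ, i - s < j → j < i + s → Commute (x i) (x j) := by
    intro i j hi hj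
    rcases le_total i j with hij | hij
    · obtain ⟨d, rfl⟩ : ∃ d : ℕ, j = i + d := ⟨(j - i).toNat, by omega⟩
      have := hW.shift 0 d i (hcomm0 d (by omega))
      rwa [zero_add, add_comm (d : ℤ) i] at this
    · obtain ⟨d, rfl⟩ : ∃ d : ℕ, i = j + d := ⟨(i - j).toNat, by omega⟩
      have := hW.shift 0 d j (hcomm0 d (by omega))
      rw [zero_add, add_comm (d : ℤ) j] at this
      exact this.symm
  have h2s : 2 * s ≤ t + n := by
    by_contra hcon
    let r : ℤ := max 0 ((t : ℤ) - s)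
    have hrP : x r ∈ P := hP ▸ H91.Sims.mem_win (by omega) (by omega)
    have hrK : x r ∈ (Subgroup.center K).map K.subtype := by
      have hKle : K ≤ H91.Sims.win x (-(n : ℤ)) t := by
        rw [hK]
        refine iSup₂_le fun i hi => ?_
        rw [Finset.mem_range] at hi
        rw [map_inv, map_pow, ← zpow_natCast, ← zpow_neg, ← hP, H91.Sims.smul_win hx]
        exact H91.Sims.win_mono (by omega) (by omega)
      have hPK : P ≤ K := by
        rw [hK]
        refine le_trans ?_ (le_iSup₂_of_le 0 (Finset.mem_range.2 (Nat.succ_pos n)) le_rfl)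
        simp
      refine ⟨⟨x r, hPK hrP⟩, Subgroup.mem_center_iff.2 fun z => Subtype.ext ?_, rfl⟩
      exact (H91.Sims.commute_win (fun i _ _ => hmin r i (by omega) (by omega)) (hKle z.2)).eq.symm
    have h1' : x r = 1 := Subgroup.mem_bot.1 (h2 ▸ ⟨hrP, hrK⟩)
    have := hW.orderOf_eq ht r
    rw [h1', orderOf_one] at this
    exact hp.one_lt.ne this
  rcases Nat.eq_or_lt_of_le hst with h | h
  · omega
  · have := hW.two_mul_le hp hs1 h hmin (hsne.resolve_left (by omega))
    omega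

end Cfsg.Agent.S4359
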