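import Cfsg.Statements.S4365
import Mathlib

set_option autoImplicit false
open Cfsg
set_option maxHeartbeats 400000
open scoped IsMulCommutative Pointwise

namespace Cfsg.Agent.S4365

/-- Let P be a finite p-group whose conjugacy class sizes are exactly 1 and pᵃ for some a ≥ 1. Then every element of P has its p-th power in the center of P (P/Z(P) has exponent p). -/
theorem result {P : Type*} [Group P] [Finite P] (p : ℕ) [Fact p.Prime]
    (hP : IsPGroup p P) (a : ℕ) (ha : 1 ≤ a)
    (hcs : {k : ℕ | ∃ x : P, (Subgroup.centralizer ({x} : Set P)).index = k} = {1, p ^ a}) (x : P) :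
    x ^ p ∈ Subgroup.center P := by
  classical
  by_contra hx
  have hp : p.Prime := Fact.out
  set Z := Subgroup.center P with hZ
  have hmemC : ∀ u v : P, v ∈ Subgroup.centralizer ({u} : Set P) ↔ Commute v u := by
    intro u v
    rw [Subgroup.mem_centralizer_iff]
    exact ⟨fun h => (h u rfl).symm, fun h w hw => by rw [Set.mem_singleton_iff.1 hw]; exact h.symm.eq⟩
  have hidx : ∀ u : P, u ∉ Z → (Subgroup.centralizer ({u} : Set P)).index = p ^ a := by
    intro u hu
    have h : (Subgroup.centralizer ({u} : Set P)).index ∈ ({1, p ^ a} : Set ℕ) := hcs ▸ ⟨u, rfl⟩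
    rcases h with h | h
    · refine absurd (Subgroup.mem_center_iff.2 fun v => ?_) hu
      exact ((hmemC u v).1 ((Subgroup.index_eq_one.1 h).symm ▸ Subgroup.mem_top v)).eq
    · exact h
  -- centralisers that are contained in one another coincide
  have heqC : ∀ u v : P, u ∉ Z → v ∉ Z →
      Subgroup.centralizer ({u} : Set P) ≤ Subgroup.centralizer ({v} : Set P) →
      Subgroup.centralizer ({u} : Set P) = Subgroup.centralizer ({v} : Set P) := by
    intro u v hu hv hle
    refine Subgroup.eq_of_le_of_card_ge hle (le_of_eq ?_)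
    have h1 := Subgroup.card_mul_index (Subgroup.centralizer ({u} : Set P))
    have h2 := Subgroup.card_mul_index (Subgroup.centralizer ({v} : Set P))
    rw [hidx u hu, ← h2, hidx v hv] at h1
    exact (Nat.eq_of_mul_eq_mul_right (pow_pos hp.pos a) h1).symm
  have hpow : ∀ (u : P) (j : ℕ), u ^ j ∉ Z →
      Subgroup.centralizer ({u} : Set P) = Subgroup.centralizer ({u ^ j} : Set P) := by
    intro u j hj
    exact heqC u _ (fun h => hj (Z.pow_mem h j)) hj fun v hv => (hmemC _ v).2 (((hmemC u v).1 hv).pow_right j)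
  -- descend to elements whose `p`-th power is central
  have hdesc : ∀ u : P, u ∉ Z → ∃ j : ℕ, u ^ j ∉ Z ∧ (u ^ j) ^ p ∈ Z := by
    intro u hu
    obtain ⟨k, hk⟩ := hP u
    have hex : ∃ k, u ^ p ^ k ∈ Z := ⟨k, hk ▸ Z.one_mem⟩
    obtain ⟨m, hm⟩ : ∃ m, Nat.find hex = m + 1 := by
      refine Nat.exists_eq_succ_of_ne_zero fun h0 => hu ?_
      simpa [h0] using Nat.find_spec hex
    refine ⟨p ^ m, Nat.find_min hex (by omega), ?_⟩
    rw [← pow_mul, ← pow_succ, ← hm]
    exact Nat.find_spec hex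
  have hx0 : x ∉ Z := fun h => hx (Z.pow_mem h p)
  set C := Subgroup.centralizer ({x} : Set P) with hC
  have hCxp : Subgroup.centralizer ({x ^ p} : Set P) = C := (hpow x p hx).symm
  -- every noncentral element of `C` has centraliser `C`
  have hall : ∀ y ∈ C, y ∉ Z → Subgroup.centralizer ({y} : Set P) = C := by
    have key : ∀ y ∈ C, y ∉ Z → y ^ p ∈ Z → Subgroup.centralizer ({y} : Set P) = C := by
      intro y hy hy0 hyp
      have hxy : Commute x y := ((hmemC x y).1 hy).symm
      have hxy0 : x * y ∉ Z := by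
        intro h
        apply hx
        have h1 := Z.pow_mem h p
        rw [hxy.mul_pow] at h1
        simpa using Z.mul_mem h1 (Z.inv_mem hyp)
      have h2 : Subgroup.centralizer ({x * y} : Set P) = C := by
        rw [← hCxp]
        refine heqC _ _ hxy0 hx fun v hv => (hmemC _ v).2 ?_
        have h3 := ((hmemC _ v).1 hv).pow_right p
        rw [hxy.mul_pow] at h3
        have h4 : Commute v (y ^ p) := Subgroup.mem_center_iff.1 hyp v
        simpa using h3.mul_right h4.inv_right
      refine (heqC x y hx0 hy0 fun v hv => (hmemC _ v).2 ?_).symm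
      have h3 : v ∈ Subgroup.centralizer ({x * y} : Set P) := h2.symm ▸ hv
      simpa [← mul_assoc] using ((hmemC x v).1 hv).inv_right.mul_right ((hmemC _ v).1 h3)
    intro y hy hy0
    obtain ⟨j, hj, hjp⟩ := hdesc y hy0
    exact (hpow y j hj).trans (key _ (C.pow_mem hy j) hj hjp)
  have hab : ∀ u ∈ C, ∀ v ∈ C, u * v = v * u := by
    intro u hu v hv
    by_cases hu0 : u ∈ Z
    · exact (Subgroup.mem_center_iff.1 hu0 v).symm
    · exact (((hmemC u v).1 ((hall u hu hu0).symm ▸ hv)).eq).symm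
  -- an element of the second centre
  haveI hnil : Group.IsNilpotent P := hP.isNilpotent
  obtain ⟨z₀, hz₀0, hz₀⟩ : ∃ z₀ : P, z₀ ∉ Z ∧ ∀ g, z₀ * g * z₀⁻¹ * g⁻¹ ∈ Z := by
    haveI : Nontrivial (P ⧸ Z) := QuotientGroup.nontrivial_iff.2 fun h => hx0 (h.symm ▸ Subgroup.mem_top x)
    obtain ⟨q, hq, hq1⟩ := (Subgroup.nontrivial_iff_exists_ne_one _).1
      ((Subgroup.nontrivial_iff_ne_bot _).2 (Group.IsNilpotent.center_ne_bot (G := P ⧸ Z)))
    obtain ⟨w, rfl⟩ := QuotientGroup.mk_surjective q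
    refine ⟨w, fun h => hq1 ((QuotientGroup.eq_one_iff w).2 h), fun g => (QuotientGroup.eq_one_iff _).1 ?_⟩
    simp only [QuotientGroup.mk_mul, QuotientGroup.mk_inv]
    rw [← Subgroup.mem_center_iff.1 hq (g : P ⧸ Z)]
    group
  obtain ⟨j, hz0, hzp⟩ := hdesc z₀ hz₀0
  set z := z₀ ^ j with hz
  have hz2 : ∀ g, z * g * z⁻¹ * g⁻¹ ∈ Z := by
    intro g
    apply (QuotientGroup.eq_one_iff _).1
    have h1 : Commute (z₀ : P ⧸ Z) (g : P ⧸ Z) := by
      have := (QuotientGroup.eq_one_iff _).2 (hz₀ g)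
      simp only [QuotientGroup.mk_mul, QuotientGroup.mk_inv] at this
      exact commutatorElement_eq_one_iff_commute.1 this
    simp only [hz, QuotientGroup.mk_mul, QuotientGroup.mk_inv, QuotientGroup.mk_pow]
    exact commutatorElement_eq_one_iff_commute.2 (h1.pow_left j)
  let χ : P →* P :=
    { toFun := fun g => z * g * z⁻¹ * g⁻¹
      map_one' := by group
      map_mul' := fun g k => by
        show z * (g * k) * z⁻¹ * (g * k)⁻¹ = z * g * z⁻¹ * g⁻¹ * (z * k * z⁻¹ * k⁻¹)
        rw [mul_assoc (z * g * z⁻¹), Subgroup.mem_center_iff.1 (hz2 k) g⁻¹]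
        group }
  have hχ : ∀ g, χ g = 1 ↔ g ∈ Subgroup.centralizer ({z} : Set P) := by
    intro g
    rw [hmemC]
    exact ⟨fun h => (commutatorElement_eq_one_iff_commute.1 h).symm,
      fun h => commutatorElement_eq_one_iff_commute.2 h.symm⟩
  have hχp : ∀ g, χ g ^ p = 1 := by
    intro g
    have h1 : Commute (g * z⁻¹ * g⁻¹) z := by
      have := Subgroup.mem_center_iff.1 (hz2 g) z
      have e : g * z⁻¹ * g⁻¹ = z⁻¹ * (z * g * z⁻¹ * g⁻¹) := by group
      rw [e]
      exact ((Commute.refl z).inv_left).mul_left this.symm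
    show (z * g * z⁻¹ * g⁻¹) ^ p = 1
    rw [show z * g * z⁻¹ * g⁻¹ = z * (g * z⁻¹ * g⁻¹) by group, h1.symm.mul_pow, conj_pow, inv_pow,
      Subgroup.mem_center_iff.1 (Z.inv_mem hzp) g]
    group
  have hCz : Subgroup.centralizer ({z} : Set P) = C := by
    refine hall z ?_ hz0
    rw [← hCxp, hmemC]
    exact ((hmemC z (x ^ p)).1 ((hχ _).1 (by rw [map_pow, hχp]))).symm
  have hkerχ : χ.ker = C := by
    ext g; rw [MonoidHom.mem_ker, hχ, hCz]
  haveI hCn : C.Normal := hkerχ ▸ MonoidHom.normal_ker χ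
  have hgp : ∀ g : P, g ∉ C → g ^ p ∈ Z := by
    intro g hg
    by_contra h
    refine hg ?_
    have h1 : g ^ p ∈ C := hkerχ ▸ MonoidHom.mem_ker.2 (by rw [map_pow, hχp])
    rw [← hall _ h1 h, hmemC]
    exact Commute.self_pow g p
  have hCinter : ∀ g : P, g ∉ C → ∀ u ∈ C, Commute u g → u ∈ Z := by
    intro g hg u hu hug
    by_contra h
    exact hg (hall u hu h ▸ (hmemC u g).2 hug.symm)
  obtain ⟨g, hg⟩ : ∃ g, g ∉ C := by
    by_contra h
    push Not at h
    exact hx0 (Subgroup.mem_center_iff.2 fun v => ((hmemC x v).1 (h v)).eq)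
  have hg0 : g ∉ Z := fun h => hg ((hmemC x g).2 (Subgroup.mem_center_iff.1 h x).symm)
  have hgpZ := hgp g hg
  have hmod : ∀ n, ∃ w ∈ Z, g ^ n = g ^ (n % p) * w := fun n =>
    ⟨(g ^ p) ^ (n / p), Z.pow_mem hgpZ _, by rw [← pow_mul, ← pow_add, Nat.mod_add_div]⟩
  -- a second element of `C(g)` independent modulo `C`
  obtain ⟨h, hgh, hh⟩ : ∃ h, Commute h g ∧ ∀ i : ℕ, h * g ^ i ∉ C := by
    by_contra hcon
    push Not at hcon
    let Cg := Subgroup.centralizer ({g} : Set P)
    have hsub : ∀ u ∈ Cg, ∃ i < p, u * g ^ i ∈ Z := by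
      intro u hu
      obtain ⟨i, hi⟩ := hcon u ((hmemC g u).1 hu)
      refine ⟨i % p, Nat.mod_lt _ hp.pos, ?_⟩
      have h1 : u * g ^ i ∈ Z :=
        hCinter g hg _ hi (((hmemC g u).1 hu).mul_left ((Commute.refl g).pow_left i))
      obtain ⟨w, hw, e⟩ := hmod i
      rw [e, ← mul_assoc] at h1
      simpa using Z.mul_mem h1 (Z.inv_mem hw)
    have h1 : Nat.card Cg ≤ p * Nat.card Z := by
      choose i hi hiZ using hsub
      let F : Cg → Fin p × Z := fun u => (⟨i u u.2, hi u u.2⟩, ⟨_, hiZ u u.2⟩)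
      have hF : Function.Injective F := by
        intro u v e
        have e1 : i u u.2 = i v v.2 := congrArg (fun q => (q.1 : ℕ)) e
        have e2 : (u : P) * g ^ i u u.2 = v * g ^ i v v.2 := congrArg (fun q => (q.2 : P)) e
        rw [e1] at e2
        exact Subtype.ext (mul_right_cancel e2)
      have := Nat.card_le_card_of_injective F hF
      rwa [Nat.card_prod, Nat.card_fin] at this
    have h2 : Nat.card Cg = Nat.card C := by
      have e1 := Subgroup.card_mul_index Cg
      have e2 := Subgroup.card_mul_index C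
      rw [hidx g hg0, ← e2, hidx x hx0] at e1
      exact Nat.eq_of_mul_eq_mul_right (pow_pos hp.pos a) e1
    let K : Subgroup P := Z ⊔ Subgroup.zpowers (x ^ p)
    have hKC : K ≤ C := sup_le (Subgroup.center_le_centralizer _)
      (Subgroup.zpowers_le.2 ((hmemC x _).2 (Commute.pow_self x p)))
    have hZK : Z < K := lt_of_le_of_ne le_sup_left fun e =>
      hx (e.symm ▸ Subgroup.mem_sup_right (Subgroup.mem_zpowers _))
    have hxK : x ∉ K := by
      intro hxK
      obtain ⟨w, hw, v, hv, e⟩ : x ∈ (Z : Set P) * (Subgroup.zpowers (x ^ p) : Set P) := by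
        rw [← Subgroup.normal_mul]; exact hxK
      obtain ⟨n, rfl⟩ := Subgroup.mem_zpowers_iff.1 hv
      -- `x ^ (1 - p n)` is central, hence so is `x`
      apply hx0
      have hw' : x ^ (1 - (p : ℤ) * n) ∈ Z := by
        have : w = x ^ (1 - (p : ℤ) * n) := by
          rw [zpow_sub, zpow_one, zpow_mul, zpow_natCast, eq_mul_inv_iff_mul_eq]; exact e
        exact this ▸ hw
      obtain ⟨k, hk⟩ := hP x
      obtain ⟨b, c, hbc⟩ : IsCoprime (1 - (p : ℤ) * n) ((p : ℤ) ^ k) :=
        IsCoprime.pow_right ⟨1, n, by ring⟩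
      have e' : x = (x ^ (1 - (p : ℤ) * n)) ^ b := by
        have h1 : x ^ ((p : ℤ) ^ k) = 1 := by rw [← Nat.cast_pow, zpow_natCast, hk]
        conv_lhs => rw [← zpow_one x, ← hbc, zpow_add, zpow_mul', zpow_mul' x c, h1, one_zpow, mul_one]
      rw [e']
      exact Z.zpow_mem hw' b
    have hKC' : K < C := lt_of_le_of_ne hKC fun e => hxK (e ▸ (hmemC x x).2 (Commute.refl x))
    have hcardlt : ∀ A B : Subgroup P, A < B → p * Nat.card A ≤ Nat.card B := by
      intro A B hAB
      obtain ⟨m, hm⟩ := (hP.to_subgroup B).exists_card_eq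
      obtain ⟨n, hn⟩ := (hP.to_subgroup A).exists_card_eq
      have hlt : Nat.card A < Nat.card B := lt_of_le_of_ne
        (Subgroup.card_le_of_le hAB.le) (fun e => hAB.ne (Subgroup.eq_of_le_of_card_ge hAB.le e.ge))
      rw [hm, hn] at hlt ⊢
      rw [← pow_succ']
      exact Nat.pow_le_pow_right hp.pos ((Nat.pow_lt_pow_iff_right hp.one_lt).1 hlt)
    have h3 := hcardlt Z K hZK
    have h4 := hcardlt K C hKC'
    have h5 : p * (p * Nat.card Z) ≤ p * Nat.card Z :=
      (Nat.mul_le_mul_left p h3).trans (h4.trans (h2.symm.le.trans h1))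
    nlinarith [Nat.card_pos (α := Z), hp.two_le]
  -- norms
  haveI : IsMulCommutative C := ⟨⟨fun u v => Subtype.ext (hab u u.2 v v.2)⟩⟩
  let σ : P →* MulAut C := MulAut.conjNormal
  have hσZ : ∀ w ∈ Z, σ w = 1 := by
    intro w hw
    refine MulEquiv.ext fun u => Subtype.ext ?_
    rw [MulAut.conjNormal_apply, MulAut.one_apply, ← Subgroup.mem_center_iff.1 hw (u : P)]
    group
  let ZC : Subgroup C := Z.subgroupOf C
  let c : C := ⟨x, (hmemC x x).2 (Commute.refl x)⟩
  have hnorm : ∀ t : P, t ∉ C → (∏ i ∈ Finset.range p, σ (t ^ i) c) ∈ ZC := by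
    intro t ht
    have key : ∀ n, ((c : P) * t) ^ n = ((∏ i ∈ Finset.range n, σ (t ^ i) c : C) : P) * t ^ n := by
      intro n
      induction n with
      | zero => simp
      | succ n ih =>
        rw [pow_succ, ih, Finset.prod_range_succ, Subgroup.coe_mul, MulAut.conjNormal_apply, pow_succ]
        group
    have h1 := hgp ((c : P) * t) fun h => ht (by simpa using C.mul_mem (C.inv_mem c.2) h)
    rw [key p] at h1
    rw [Subgroup.mem_subgroupOf]
    simpa using Z.mul_mem h1 (Z.inv_mem (hgp t ht))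
  set Ng := ∏ i ∈ Finset.range p, σ (g ^ i) c with hNg
  have hNgZ : Ng ∈ ZC := hnorm g hg
  have hrow : ∀ i ∈ Finset.range p, i ≠ 0 →
      (∏ j ∈ Finset.range p, σ ((h * g ^ j) ^ i) c) = Ng := by
    intro i hi hi0
    rw [Finset.mem_range] at hi
    have hcop : Nat.Coprime p i := hp.coprime_iff_not_dvd.2 (Nat.not_dvd_of_pos_of_lt (by omega) hi)
    have hinj : Set.InjOn (fun j => j * i % p) (Finset.range p : Set ℕ) := by
      intro u hu v hv e
      have e' : u ≡ v [MOD p] := Nat.ModEq.cancel_right_of_coprime hcop e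
      rw [Finset.coe_range, Set.mem_Iio] at hu hv
      exact Nat.ModEq.eq_of_lt_of_lt e' hu hv
    have himg : (Finset.range p).image (fun j => j * i % p) = Finset.range p :=
      Finset.eq_of_subset_of_card_le (fun u hu => by
        obtain ⟨v, -, rfl⟩ := Finset.mem_image.1 hu
        exact Finset.mem_range.2 (Nat.mod_lt _ hp.pos))
        (by rw [Finset.card_image_of_injOn hinj])
    calc (∏ j ∈ Finset.range p, σ ((h * g ^ j) ^ i) c)
        = ∏ j ∈ Finset.range p, σ (h ^ i) (σ (g ^ (j * i % p)) c) := by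
          refine Finset.prod_congr rfl fun j _ => ?_
          obtain ⟨w, hw, e⟩ := hmod (j * i)
          rw [(hgh.pow_right j).mul_pow, ← pow_mul, e, map_mul, map_mul, hσZ w hw, mul_one,
            MulAut.mul_apply]
      _ = σ (h ^ i) (∏ j ∈ Finset.range p, σ (g ^ (j * i % p)) c) := (map_prod (σ (h ^ i)) _ _).symm
      _ = σ (h ^ i) Ng := by
          rw [hNg]
          conv_rhs => rw [← himg, Finset.prod_image hinj]
      _ = Ng := by
          refine Subtype.ext ?_
          have e : h ^ i * (Ng : P) = (Ng : P) * h ^ i := Subgroup.mem_center_iff.1 hNgZ (h ^ i)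
          rw [MulAut.conjNormal_apply, e, mul_inv_cancel_right]
  have hfin : c ^ p ∈ ZC := by
    have hall' : (∏ j ∈ Finset.range p, ∏ i ∈ Finset.range p, σ ((h * g ^ j) ^ i) c) ∈ ZC :=
      Subgroup.prod_mem _ fun j _ => hnorm _ (hh j)
    rw [Finset.prod_comm, ← Finset.mul_prod_erase _ _ (Finset.mem_range.2 hp.pos),
      Finset.prod_congr rfl (fun i hi => hrow i (Finset.mem_of_mem_erase hi) (Finset.ne_of_mem_erase hi))] at hall'
    simp only [pow_zero, map_one, MulAut.one_apply, Finset.prod_const, Finset.card_range] at hall'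
    exact (Subgroup.mul_mem_cancel_right _ (ZC.pow_mem hNgZ _)).1 hall'
  exact hx (by simpa [ZC, c, Subgroup.mem_subgroupOf] using hfin)

end Cfsg.Agent.S4365
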