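import Cfsg.Statements.S4373
import Cfsg.Agent.H86.BaseTwo.Final
import Cfsg.Agent.H20.BaseTwo.Reduce
import Cfsg.Agent.H76.BaseTwo.Hall

set_option autoImplicit false
open Pointwise
open Cfsg

namespace Cfsg.Agent.S4373

/-- Let π be a set of primes and G a finite π-solvable group: G has a chain of normal subgroups from 1 to G in which each successive index is a power of a prime in π or is divisible by no prime in π. Let H be a Hall π-subgroup of G. Then there are x, y ∈ G with H ∩ xHx⁻¹ ∩ yHy⁻¹ = O_π(G), the largest normal π-subgroup. -/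
theorem result {G : Type*} [Group G] [Finite G] (π : Set ℕ)
    (hsolv : (∃ (n : ℕ) (N : Fin (n + 1) → Subgroup G), N 0 = ⊥ ∧ N (Fin.last n) = ⊤ ∧ Monotone N ∧ (∀ i, (N i).Normal) ∧
      ∀ i : Fin n, (∃ p ∈ π, p.Prime ∧ ∃ k : ℕ, (N i.castSucc).relIndex (N i.succ) = p ^ k) ∨
        (∀ q : ℕ, q.Prime → q ∣ (N i.castSucc).relIndex (N i.succ) → q ∉ π))) (H : Subgroup G) (hH : Cfsg.IsPiHall π H) :
    ∃ x y : G, H ⊓ MulAut.conj x • H ⊓ MulAut.conj y • H = Cfsg.piCore π G := by
  exact Cfsg.Agent.H76.BaseTwo.three_conjugates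
    (fun A K _ _ _ _ _ _ hA hc => Cfsg.Agent.H20.BaseTwo.exists_pair Cfsg.Agent.H86.BaseTwo.main hA hc)
    hsolv hH

end Cfsg.Agent.S4373
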