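import Cfsg.Statements.S4374
import Cfsg.Agent.H67.Base3.Main

set_option autoImplicit false
open Cfsg

namespace Cfsg.Agent.S4374

/-- Let the finite solvable group A act faithfully on the finite additive group V by group automorphisms, completely reducibly (every A-invariant subgroup has an A-invariant complement). Then there are v₁, v₂, v₃ ∈ V such that only the identity of A fixes all three. -/
theorem result {A V : Type*} [Group A] [Finite A]
    [AddCommGroup V] [Finite V] [DistribMulAction A V] [FaithfulSMul A V] (hA : Group.IsSolvable A)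
    (hcr : (∀ U : AddSubgroup V, (∀ a : A, ∀ v ∈ U, a • v ∈ U) → ∃ W : AddSubgroup V, (∀ a : A, ∀ w ∈ W, a • w ∈ W) ∧ U ⊓ W = ⊥ ∧ U ⊔ W = ⊤)) :
    ∃ v₁ v₂ v₃ : V, ∀ a : A, a • v₁ = v₁ → a • v₂ = v₂ → a • v₃ = v₃ → a = 1 := by
  have key : ∀ {G X : Type (max u_1 u_2)} [Group G] [Finite G] [AddCommGroup X] [Finite X]
      [DistribMulAction G X], Group.IsSolvable G → H52.RegPair.CR G X →
      ∃ a b c : X, H67.Base3.RegTriple G X a b c := fun {G X} _ _ _ _ _ hG hX =>
    H67.Base3.exists_regTriple G X hG hX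
  letI : DistribMulAction (ULift.{u_2} A) (ULift.{u_1} V) :=
    { smul := fun a x => ⟨a.down • x.down⟩
      one_smul := fun x => ULift.ext _ _ (one_smul A x.down)
      mul_smul := fun a b x => ULift.ext _ _ (mul_smul a.down b.down x.down)
      smul_zero := fun a => ULift.ext _ _ (smul_zero a.down)
      smul_add := fun a x y => ULift.ext _ _ (smul_add a.down x.down y.down) }
  let e : ULift.{u_1} V ≃+ V := AddEquiv.ulift
  obtain ⟨v, w, z, h⟩ := key (G := ULift.{u_2} A) (X := ULift.{u_1} V)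
    (haveI := hA; Group.isSolvable_of_isSolvable_injective (f := (MulEquiv.ulift : ULift.{u_2} A ≃* A).toMonoidHom) MulEquiv.ulift.injective) (fun U hU => by
      obtain ⟨W, hW, hdis, hsup⟩ := hcr (U.map e.toAddMonoidHom) (by
        rintro a _ ⟨x, hx, rfl⟩
        exact ⟨_, hU ⟨a⟩ x hx, rfl⟩)
      refine ⟨W.comap e.toAddMonoidHom, fun a x hx => hW a.down _ hx, ?_, ?_⟩
      · refine (AddSubgroup.eq_bot_iff_forall _).2 fun x hx => e.injective ?_
        have : e x ∈ U.map e.toAddMonoidHom ⊓ W := ⟨⟨x, hx.1, rfl⟩, hx.2⟩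
        rw [hdis, AddSubgroup.mem_bot] at this
        rw [this, map_zero]
      · refine eq_top_iff.2 fun x _ => ?_
        have hx : e x ∈ U.map e.toAddMonoidHom ⊔ W := hsup ▸ AddSubgroup.mem_top _
        obtain ⟨_, ⟨y, hy, rfl⟩, c, hc, hyc⟩ := AddSubgroup.mem_sup.1 hx
        exact AddSubgroup.mem_sup.2 ⟨y, hy, ⟨c⟩, hc, e.injective hyc⟩)
  exact ⟨v.down, w.down, z.down, fun a h1 h2 h3 => eq_of_smul_eq_smul (α := V) fun x => by
    rw [one_smul]
    exact congrArg ULift.down (h ⟨a⟩ (ULift.ext _ _ h1) (ULift.ext _ _ h2) (ULift.ext _ _ h3) ⟨x⟩)⟩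

end Cfsg.Agent.S4374
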