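import Cfsg.Statements.S4377

set_option autoImplicit false
open Cfsg

namespace Cfsg.Agent.S4377

private theorem key (K : Type*) [Group K] [Finite K] (n : ℕ) (hn : n ≠ 0) :
    Nat.card {g : K // g ^ n = 1} = ∑ d ∈ n.divisors, Nat.card {g : K // orderOf g = d} := by
  classical
  haveI := Fintype.ofFinite K
  simp only [Nat.card_eq_fintype_card, Fintype.card_subtype]
  rw [← sum_card_orderOf_eq_card_pow_eq_one (G := K) hn]

private theorem card_orderOf_zero (K : Type*) [Group K] [Finite K] :
    Nat.card {g : K // orderOf g = 0} = 0 := by
  have : IsEmpty {g : K // orderOf g = 0} := ⟨fun g => (orderOf_pos g.1).ne' g.2⟩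
  exact Nat.card_of_isEmpty

/-- Two finite groups have the same number of elements of each order if and only if, for every n, they have the same number of elements g with gⁿ = 1. -/
theorem result {G H : Type*} [Group G] [Finite G] [Group H] [Finite H] :
    (∀ n : ℕ, Nat.card {g : G // orderOf g = n} = Nat.card {h : H // orderOf h = n}) ↔
      ∀ n : ℕ, Nat.card {g : G // g ^ n = 1} = Nat.card {h : H // h ^ n = 1} := by
  classical
  constructor
  · intro h n
    rcases eq_or_ne n 0 with rfl | hn
    · have hN : Nat.card G * Nat.card H ≠ 0 := mul_ne_zero Nat.card_pos.ne' Nat.card_pos.ne'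
      have e : Nat.card {g : G // g ^ (Nat.card G * Nat.card H) = 1} =
          Nat.card {g : H // g ^ (Nat.card G * Nat.card H) = 1} := by
        rw [key G _ hN, key H _ hN]
        exact Finset.sum_congr rfl fun d _ => h d
      convert e using 1
      · exact Nat.card_congr (Equiv.subtypeEquivRight fun g => by
          simp [pow_mul, pow_card_eq_one'])
      · exact Nat.card_congr (Equiv.subtypeEquivRight fun g => by
          simp [mul_comm (Nat.card G), pow_mul, pow_card_eq_one'])
    · rw [key G n hn, key H n hn]
      exact Finset.sum_congr rfl fun d _ => h d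
  · intro h n
    induction n using Nat.strong_induction_on with
    | _ n ih =>
    rcases eq_or_ne n 0 with rfl | hn
    · rw [card_orderOf_zero G, card_orderOf_zero H]
    · have e := h n
      rw [key G n hn, key H n hn, ← Nat.cons_self_properDivisors hn, Finset.sum_cons,
        Finset.sum_cons] at e
      have e2 : ∑ d ∈ n.properDivisors, Nat.card {g : G // orderOf g = d} =
          ∑ d ∈ n.properDivisors, Nat.card {g : H // orderOf g = d} :=
        Finset.sum_congr rfl fun d hd => ih d (Nat.mem_properDivisors.1 hd).2
      omega

end Cfsg.Agent.S4377
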