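import Cfsg.Statements.S4376
import Cfsg.Agent.S4377
import Cfsg.Agent.H91.OrderType.Example

set_option autoImplicit false
open Cfsg
set_option synthInstance.maxSize 100000
set_option synthInstance.maxHeartbeats 4000000

namespace Cfsg.Agent.S4376

/-- There are finite groups G and H having the same number of elements of each order (the same order type) with G solvable and H not solvable. -/
theorem result :
    ∃ (G : Type) (_ : Group G) (_ : Finite G) (H : Type) (_ : Group H) (_ : Finite H),
      Group.IsSolvable G ∧ ¬ Group.IsSolvable H ∧ ∀ n : ℕ, Nat.card {g : G // orderOf g = n} = Nat.card {h : H // orderOf h = n} := by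
  refine ⟨Cfsg.Agent.H91.SolvSide, inferInstance, ?_, Cfsg.Agent.H91.NonsolvSide, inferInstance, ?_,
    Cfsg.Agent.H91.solvSide_solvable, Cfsg.Agent.H91.nonsolvSide_not_solvable, ?_⟩
  · infer_instance
  · infer_instance
  · intro n
    exact (S4377.result.2 fun m => Cfsg.Agent.H91.Profile.powCount_eq
      Cfsg.Agent.H91.solvSide_profile Cfsg.Agent.H91.nonsolvSide_profile m) n

end Cfsg.Agent.S4376
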