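import Cfsg.Statements.S4381
import Cfsg.Agent.H20.External
import Cfsg.Agent.H20.AbelianAction
import Cfsg.Agent.H24.PGroupBasic
import Mathlib

set_option autoImplicit false
open Pointwise
open Cfsg
open scoped commutatorElement
set_option maxHeartbeats 400000

namespace Cfsg.Agent.S4381

/-- Let the finite group A act by automorphisms on the finite group G with the orders of A and G coprime, and assume that A or G is solvable. Call a proper A-invariant subgroup of G maximal A-invariant when no A-invariant subgroup lies strictly between it and G. Then all maximal A-invariant subgroups of G are conjugate under elements of the fixed-point subgroup C_G(A) if and only if G is a p-group for some prime p and A leaves invariant no subgroup strictly between the Frattini subgroup of G and G. In that case, if G is nontrivial, the Frattini subgroup is the only maximal A-invariant subgroup (a trivial G has none). -/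
theorem result {A G : Type*} [Group A] [Finite A]
    [Group G] [Finite G] [MulDistribMulAction A G] (hcop : (Nat.card A).Coprime (Nat.card G)) (hsol : Group.IsSolvable A ∨ Group.IsSolvable G) :
    ((∀ M N : Subgroup G, (M ≠ ⊤ ∧ (∀ a : A, ∀ x ∈ M, a • x ∈ M) ∧ ∀ L : Subgroup G, M < L → (∀ a : A, ∀ x ∈ L, a • x ∈ L) → L = ⊤) → (N ≠ ⊤ ∧ (∀ a : A, ∀ x ∈ N, a • x ∈ N) ∧ ∀ L : Subgroup G, N < L → (∀ a : A, ∀ x ∈ L, a • x ∈ L) → L = ⊤) →
        ∃ c : G, (∀ a : A, a • c = c) ∧ N = MulAut.conj c • M) ↔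
      ((∃ p : ℕ, p.Prime ∧ IsPGroup p G) ∧ ∀ L : Subgroup G, frattini G < L → (∀ a : A, ∀ x ∈ L, a • x ∈ L) → L = ⊤)) ∧
    (((∃ p : ℕ, p.Prime ∧ IsPGroup p G) ∧ ∀ L : Subgroup G, frattini G < L → (∀ a : A, ∀ x ∈ L, a • x ∈ L) → L = ⊤) →
      ∀ M : Subgroup G, (M ≠ ⊤ ∧ (∀ a : A, ∀ x ∈ M, a • x ∈ M) ∧ ∀ L : Subgroup G, M < L → (∀ a : A, ∀ x ∈ L, a • x ∈ L) → L = ⊤) ↔ (M = frattini G ∧ M ≠ ⊤)) := by
  classical
  let φ : A →* MulAut G := MulDistribMulAction.toMulAut A G
  have hmul : ∀ (a : A) (x : G), φ a x = a • x := fun a x => rfl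
  -- a proper invariant subgroup lies in a maximal one
  have hext : ∀ K : Subgroup G, K ≠ ⊤ → (∀ a : A, ∀ x ∈ K, a • x ∈ K) →
      ∃ M : Subgroup G, K ≤ M ∧ (M ≠ ⊤ ∧ (∀ a : A, ∀ x ∈ M, a • x ∈ M) ∧
        ∀ L : Subgroup G, M < L → (∀ a : A, ∀ x ∈ L, a • x ∈ L) → L = ⊤) := by
    intro K hK hKA
    obtain ⟨M, hM, hmax⟩ := Finite.exists_le_maximal
      (p := fun M : Subgroup G => M ≠ ⊤ ∧ ∀ a : A, ∀ x ∈ M, a • x ∈ M) (a := K) ⟨hK, hKA⟩
    refine ⟨M, hM, hmax.1.1, hmax.1.2, fun L hML hL => ?_⟩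
    by_contra hne
    exact absurd (hmax.2 ⟨hne, hL⟩ hML.le) (not_le_of_gt hML)
  have hΦA : ∀ a : A, ∀ x ∈ frattini G, a • x ∈ frattini G := by
    intro a x hx
    have h := Subgroup.characteristic_iff_map_eq.1 (inferInstance : (frattini G).Characteristic) (φ a)
    exact h ▸ Subgroup.mem_map_of_mem _ hx
  have hback : ((∃ p : ℕ, p.Prime ∧ IsPGroup p G) ∧
      ∀ L : Subgroup G, frattini G < L → (∀ a : A, ∀ x ∈ L, a • x ∈ L) → L = ⊤) →
      ∀ M : Subgroup G, (M ≠ ⊤ ∧ (∀ a : A, ∀ x ∈ M, a • x ∈ M) ∧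
        ∀ L : Subgroup G, M < L → (∀ a : A, ∀ x ∈ L, a • x ∈ L) → L = ⊤) ↔ (M = frattini G ∧ M ≠ ⊤) := by
    rintro ⟨-, hΦ⟩ M
    constructor
    · rintro ⟨hM, hMA, hmax⟩
      have h1 : M ⊔ frattini G ≠ ⊤ := fun e => hM (frattini_nongenerating e)
      have hinv : ∀ a : A, ∀ x ∈ M ⊔ frattini G, a • x ∈ M ⊔ frattini G := by
        intro a
        suffices M ⊔ frattini G ≤ (M ⊔ frattini G).comap (φ a).toMonoidHom from fun x hx => this hx
        exact sup_le (fun x hx => Subgroup.mem_sup_left (hMA a x hx))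
          (fun x hx => Subgroup.mem_sup_right (hΦA a x hx))
      have hle : frattini G ≤ M := by
        by_contra hle
        exact h1 (hmax _ (lt_of_le_of_ne le_sup_left fun e => hle (e.symm ▸ le_sup_right)) hinv)
      rcases hle.eq_or_lt with e | e
      · exact ⟨e.symm, hM⟩
      · exact absurd (hΦ M e hMA) hM
    · rintro ⟨rfl, hM⟩
      exact ⟨hM, hΦA, hΦ⟩
  refine ⟨⟨?_, fun h M N hM hN => ⟨1, fun a => smul_one a, ?_⟩⟩, hback⟩
  swap
  · rw [((hback h M).1 hM).1, ((hback h N).1 hN).1, map_one, one_smul]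
  intro hconj
  by_cases htriv : Nat.card G = 1
  · refine ⟨⟨2, Nat.prime_two, IsPGroup.of_card (n := 0) (by simpa using htriv)⟩, fun L _ _ => ?_⟩
    haveI := (Nat.card_eq_one_iff_unique.1 htriv).1
    exact Subsingleton.elim _ _
  -- `G` is a `p`-group
  have hpg : ∃ p : ℕ, p.Prime ∧ IsPGroup p G := by
    obtain ⟨p, hp, hpd⟩ := Nat.exists_prime_and_dvd htriv
    refine ⟨p, hp, ?_⟩
    haveI := Fact.mk hp
    by_contra hnot
    obtain ⟨P, hPA⟩ := H20.External.exists_invariant_sylow φ hcop hsol p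
    have hP : (P : Subgroup G) ≠ ⊤ := fun e => hnot ((IsPGroup.iff_card).2 (by
      obtain ⟨k, hk⟩ := IsPGroup.iff_card.1 P.2
      exact ⟨k, by rw [← Subgroup.card_top, ← e, hk]⟩))
    obtain ⟨M, hPM, hM⟩ := hext _ hP fun a x hx => hPA a x hx
    refine hM.1 (Subgroup.eq_top_of_le_card _ (Nat.le_of_dvd Nat.card_pos ?_))
    rw [← Nat.factorization_le_iff_dvd Nat.card_pos.ne' Nat.card_pos.ne']
    intro r
    by_cases hr : r.Prime
    swap
    · simp [Nat.factorization_eq_zero_of_not_prime _ hr]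
    haveI := Fact.mk hr
    obtain ⟨Q, hQA⟩ := H20.External.exists_invariant_sylow φ hcop hsol r
    by_cases hQ : (Q : Subgroup G) = ⊤
    · -- then `r = p`
      exfalso
      obtain ⟨k, hk⟩ := IsPGroup.iff_card.1 Q.2
      rw [hQ, Subgroup.card_top] at hk
      rw [hk] at hpd
      have := (Nat.prime_dvd_prime_iff_eq hp hr).1 (hp.dvd_of_dvd_pow hpd)
      subst this
      exact hnot (IsPGroup.of_card hk)
    obtain ⟨N, hQN, hN⟩ := hext _ hQ fun a x hx => hQA a x hx
    obtain ⟨c, -, hc⟩ := hconj N M hN hM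
    have hcard : Nat.card M = Nat.card N := by
      rw [hc]; exact (Nat.card_congr (Subgroup.equivSMul _ _).toEquiv).symm
    have h1 := (Nat.factorization_le_iff_dvd Nat.card_pos.ne' Nat.card_pos.ne').2
      (Subgroup.card_dvd_of_le hQN) r
    rw [Q.card_eq_multiplicity, hr.factorization_pow, Finsupp.single_eq_same, ← hcard] at h1
    exact h1
  refine ⟨hpg, ?_⟩
  obtain ⟨p, hp, hG⟩ := hpg
  haveI := Fact.mk hp
  intro L hL hLA
  by_contra hLtop
  obtain ⟨M, hLM, hM⟩ := hext L hLtop hLA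
  -- the quotient by the Frattini subgroup
  let Q := G ⧸ frattini G
  letI : CommGroup Q :=
    { (inferInstance : Group (G ⧸ frattini G)) with
      mul_comm := fun x y => by
        obtain ⟨x, rfl⟩ := QuotientGroup.mk_surjective x
        obtain ⟨y, rfl⟩ := QuotientGroup.mk_surjective y
        refine (QuotientGroup.eq).2 (H24.commutator_le_frattini hG ?_)
        rw [commutator_def]
        have e : (x * y)⁻¹ * (y * x) = ⁅y⁻¹, x⁻¹⁆ := by rw [commutatorElement_def]; group
        rw [e]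
        exact Subgroup.commutator_mem_commutator (Subgroup.mem_top _) (Subgroup.mem_top _) }
  let π : G →* Q := QuotientGroup.mk' (frattini G)
  have hπ : Function.Surjective π := QuotientGroup.mk'_surjective _
  have hkerπ : π.ker = frattini G := QuotientGroup.ker_mk' _
  have hexp : ∀ x : Q, x ^ p = 1 := by
    intro x
    obtain ⟨x, rfl⟩ := hπ x
    rw [← map_pow]
    exact MonoidHom.mem_ker.1 (hkerπ.symm ▸ H24.pow_mem_frattini hG x)
  let ψ : A →* MulAut Q :=
    { toFun := fun a => QuotientGroup.congr _ _ (φ a)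
        (Subgroup.characteristic_iff_map_eq.1 inferInstance (φ a))
      map_one' := MulEquiv.ext fun q => by
        obtain ⟨x, rfl⟩ := hπ q
        show π (φ 1 x) = π x
        rw [map_one]; rfl
      map_mul' := fun a b => MulEquiv.ext fun q => by
        obtain ⟨x, rfl⟩ := hπ q
        show π (φ (a * b) x) = π (φ a (φ b x))
        rw [map_mul]; rfl }
  have hψ : ∀ a x, ψ a (π x) = π (a • x) := fun a x => rfl
  -- a complement of the image of `L`
  set U := L.map π with hU
  obtain ⟨W, hWU, hWmax⟩ := exists_maximal_of_wellFoundedGT (fun W : Subgroup Q => U ⊓ W = ⊥)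
    ⟨⊥, inf_bot_eq U⟩
  have hUW : U ⊔ W = ⊤ := by
    refine top_le_iff.1 fun x _ => ?_
    by_contra hx
    have hx1 : x ≠ 1 := fun e => hx (e ▸ Subgroup.one_mem _)
    have hord : orderOf x = p := orderOf_eq_prime (hexp x) hx1
    have h1 : U ⊓ (W ⊔ Subgroup.zpowers x) = ⊥ := by
      rw [eq_bot_iff]
      rintro u ⟨hu, hu'⟩
      obtain ⟨w, hw, v, hv, rfl⟩ := Subgroup.mem_sup.1 hu'
      obtain ⟨i, rfl⟩ := Subgroup.mem_zpowers_iff.1 hv
      have hxi : x ^ i ∈ U ⊔ W := by
        have := Subgroup.mul_mem _ (Subgroup.mem_sup_right (S := U) (W.inv_mem hw)) (Subgroup.mem_sup_left (T := W) hu)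
        simpa using this
      have : x ^ i = 1 := by
        by_contra hne
        apply hx
        have h2 : Subgroup.zpowers (x ^ i) = Subgroup.zpowers x :=
          Subgroup.eq_of_le_of_card_ge (Subgroup.zpowers_le.2 (Subgroup.zpow_mem _ (Subgroup.mem_zpowers x) i))
            (by rw [Nat.card_zpowers, Nat.card_zpowers, hord, orderOf_eq_prime (hexp _) hne])
        exact Subgroup.zpowers_le.2 hxi (h2 ▸ Subgroup.mem_zpowers x)
      rw [this, mul_one] at hu ⊢
      exact hWU ▸ ⟨hu, hw⟩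
    exact hx (Subgroup.mem_sup_right (hWmax h1 le_sup_left (Subgroup.mem_sup_right (Subgroup.mem_zpowers x))))
  have hcopX : (Nat.card ψ.range).Coprime (Nat.card Q) :=
    (hcop.coprime_dvd_left (Subgroup.card_range_dvd ψ)).coprime_dvd_right
      (Subgroup.card_quotient_dvd_card _)
  have hUinv : H20.AbAction.Invariant ψ.range U := by
    rintro _ ⟨a, rfl⟩ _ ⟨x, hx, rfl⟩
    exact ⟨a • x, hLA a x hx, (hψ a x).symm⟩
  obtain ⟨W', -, hW', hUW'0, hUW'⟩ := H20.AbAction.maschke hcopX (H20.AbAction.invariant_top _) hUinv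
    le_top le_top hWU hUW
  set K := W'.comap π with hK
  have hKA : ∀ a : A, ∀ x ∈ K, a • x ∈ K := fun a x hx => by
    show π (a • x) ∈ W'
    rw [← hψ]; exact hW' _ ⟨a, rfl⟩ _ hx
  have hLK : L ⊔ K = ⊤ := by
    refine top_le_iff.1 fun g _ => ?_
    obtain ⟨u, ⟨l, hl, rfl⟩, w, hw, e⟩ := Subgroup.mem_sup.1 (hUW'.symm ▸ Subgroup.mem_top (π g))
    have : l⁻¹ * g ∈ K := by
      show π (l⁻¹ * g) ∈ W'
      rw [map_mul, map_inv, ← e, inv_mul_cancel_left]; exact hw
    simpa using Subgroup.mul_mem _ (Subgroup.mem_sup_left (T := K) hl) (Subgroup.mem_sup_right (S := L) this)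
  have hKtop : K ≠ ⊤ := by
    intro e
    obtain ⟨x, hxL, hx⟩ := SetLike.exists_of_lt hL
    have h1 : π x ∈ U ⊓ W' := ⟨⟨x, hxL, rfl⟩, (e ▸ Subgroup.mem_top x : x ∈ K)⟩
    rw [hUW'0, Subgroup.mem_bot] at h1
    exact hx (hkerπ ▸ MonoidHom.mem_ker.2 h1)
  obtain ⟨N, hKN, hN⟩ := hext K hKtop hKA
  obtain ⟨c, -, hc⟩ := hconj M N hM hN
  -- maximal invariant subgroups contain the Frattini subgroup, hence are normal
  have hΦM : frattini G ≤ M := hL.le.trans hLM
  have hMn : M.Normal := Subgroup.Normal.of_commutator_le G ((H24.commutator_le_frattini hG).trans hΦM)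
  have hNM : N = M := by
    haveI := hMn
    rw [hc]; exact Subgroup.Normal.conjAct hMn c
  exact hM.1 (top_le_iff.1 (hLK ▸ sup_le hLM (hNM ▸ hKN)))

end Cfsg.Agent.S4381
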