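import Cfsg.Statements.S4387
import Cfsg.Agent.H80.PrimitiveNormal

set_option autoImplicit false
open Pointwise
open Cfsg

namespace Cfsg.Agent.S4387

/-- Let G be a non-trivial finite group in which any two maximal subgroups are conjugate. Then G is cyclic of prime-power order. -/
theorem result {G : Type*} [Group G] [Finite G] [Nontrivial G]
    (h : ∀ M N : Subgroup G, IsCoatom M → IsCoatom N → ∃ g : G, N = MulAut.conj g • M) :
    IsCyclic G ∧ IsPrimePow (Nat.card G) := by
  classical
  obtain ⟨M, hM, -⟩ := (eq_top_or_exists_le_coatom (⊥ : Subgroup G)).resolve_left bot_ne_top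
  obtain ⟨x, hx⟩ := Cfsg.Agent.H80.exists_forall_conj_notMem M hM.1
  have hgen : Subgroup.zpowers x = ⊤ := by
    by_contra hne
    obtain ⟨N, hN, hle⟩ := (eq_top_or_exists_le_coatom (Subgroup.zpowers x)).resolve_left hne
    obtain ⟨g, rfl⟩ := h M N hM hN
    have hxN := hle (Subgroup.mem_zpowers x)
    rw [Subgroup.mem_pointwise_smul_iff_inv_smul_mem] at hxN
    exact hx g (by simpa [MulAut.smul_def, mul_assoc] using hxN)
  haveI hcyc : IsCyclic G := ⟨⟨x, fun y => by
    have := hgen ▸ Subgroup.mem_top y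
    exact this⟩⟩
  refine ⟨hcyc, ?_⟩
  have hcomm : ∀ a b : G, a * b = b * a := fun a b =>
    (IsCyclic.commGroup (α := G)).mul_comm a b
  have hn : Nat.card G ≠ 1 := Finite.one_lt_card.ne'
  rw [isPrimePow_iff_unique_prime_dvd]
  refine ⟨(Nat.card G).minFac, ⟨Nat.minFac_prime hn, Nat.minFac_dvd _⟩, ?_⟩
  rintro q ⟨hq, hqd⟩
  set p := (Nat.card G).minFac
  by_contra hne
  -- a subgroup of order `q`-free part and one of order `p`-free part lie in the unique maximal subgroup
  have hall : ∀ r : ℕ, r.Prime → r ∣ Nat.card G → Subgroup.zpowers (x ^ r) ≤ M := by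
    intro r hr hrd
    have hox : orderOf x = Nat.card G := orderOf_eq_card_of_zpowers_eq_top hgen
    have hne' : Subgroup.zpowers (x ^ r) ≠ ⊤ := by
      intro h'
      have e : orderOf (x ^ r) = Nat.card G := orderOf_eq_card_of_zpowers_eq_top h'
      rw [orderOf_pow' x hr.ne_zero, hox, Nat.gcd_eq_right hrd] at e
      exact (Nat.div_lt_self Nat.card_pos hr.one_lt).ne e
    obtain ⟨N, hN, hle⟩ := (eq_top_or_exists_le_coatom _).resolve_left hne'
    obtain ⟨g, rfl⟩ := h M N hM hN
    intro y hy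
    have hy' := hle hy
    rw [Subgroup.mem_pointwise_smul_iff_inv_smul_mem] at hy'
    simp only [MulAut.smul_def, map_inv, MulAut.conj_inv_apply] at hy'
    rwa [hcomm g⁻¹ y, inv_mul_cancel_right] at hy'
  have hp := hall p (Nat.minFac_prime hn) (Nat.minFac_dvd _) (Subgroup.mem_zpowers _)
  have hq' := hall q hq hqd (Subgroup.mem_zpowers _)
  have hxM : x ∈ M := by
    have hco : (p : ℤ).gcd (q : ℤ) = 1 := by
      simpa using (Nat.coprime_primes (Nat.minFac_prime hn) hq).2 (fun e => hne e.symm)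
    obtain ⟨a, b, hab⟩ : ∃ a b : ℤ, (p : ℤ) * a + (q : ℤ) * b = 1 :=
      ⟨_, _, by rw [← Int.gcd_eq_gcd_ab, hco]; rfl⟩
    have e : x = (x ^ p) ^ a * (x ^ q) ^ b := by
      rw [← zpow_natCast x p, ← zpow_natCast x q, ← zpow_mul, ← zpow_mul, ← zpow_add, hab, zpow_one]
    rw [e]
    exact M.mul_mem (M.zpow_mem hp a) (M.zpow_mem hq' b)
  exact hx 1 (by rwa [inv_one, one_mul, mul_one])

end Cfsg.Agent.S4387
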