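import Cfsg.Statements.S4396
import Cfsg.Agent.H91.Small.FreeFrobenius
import Cfsg.Agent.H21.FrobeniusBasic

set_option autoImplicit false
open Cfsg

namespace Cfsg.Agent.S4396

/-- Let the finite group A act faithfully and linearly on a finite-dimensional vector space V over a field k, and suppose A is a Frobenius group with nilpotent kernel F (every Frobenius kernel is nilpotent) and complement H such that F fixes no nonzero vector. Then V is free as a module for H: there is a subspace W with V the direct sum of the translates hW, h ∈ H. (No assumption on the characteristic of k.) -/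
theorem result {k V A : Type*} [Field k] [AddCommGroup V] [Module k V] [FiniteDimensional k V] [Group A] [Finite A] [DecidableEq A]
    (ρ : Representation k A V) (hρ : Function.Injective ρ)
    (Fk Hc : Subgroup A) [Fk.Normal] (hHc : Cfsg.IsFrobeniusComplement Hc) (hker : Cfsg.frobeniusKernel Hc = (Fk : Set A)) (hnil : Group.IsNilpotent ↥Fk)
    (hCF : ∀ v : V, (∀ f ∈ Fk, ρ f v = v) → v = 0) :
    ∃ W : Submodule k V, DirectSum.IsInternal (fun h : ↥Hc => W.map (ρ (h : A))) := by
  classical
  refine H91.FreeModule.card_group_le_or_isInternal (σ := ρ.comp Hc.subtype)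
    (H91.FreeModule.isFree_main Hc Fk hnil ?_ _ V ρ rfl hCF)
  intro h hh h1 x hx hc
  have hd : Disjoint Fk Hc := by
    rw [Subgroup.disjoint_def]
    intro y hy hy'
    have : y ∈ Cfsg.frobeniusKernel Hc := by rw [hker]; exact hy
    rcases this with h0 | h0
    · exact h0
    · exact absurd (by simpa using hy') (h0 1)
  exact Subgroup.mem_bot.1 (le_of_eq (H21.fpf_of_fc hHc hd hh h1)
    ⟨hx, Subgroup.mem_centralizer_singleton_iff.2 hc.symm⟩)

end Cfsg.Agent.S4396
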