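import Cfsg.Statements.S4397
import Cfsg.Agent.H91.Small.MetacyclicRank

set_option autoImplicit false
open Cfsg

namespace Cfsg.Agent.S4397

/-- A finite 2-group of sectional 2-rank at most 2 (every section has no elementary abelian subgroup of order 8) is metacyclic: it has a cyclic normal subgroup with cyclic quotient. -/
theorem result {S : Type*} [Group S] [Finite S] (h2 : IsPGroup 2 S) (hr : Cfsg.SectionalPRankLE 2 2 S) : Cfsg.IsMetacyclic S := by
  exact H91.MetacyclicRank.isMetacyclic_of_rank_two _ S rfl h2 hr

end Cfsg.Agent.S4397
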