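import Cfsg.Statements.S4401
import Cfsg.Agent.H29.RankFourPair

set_option autoImplicit false
open Cfsg
open scoped commutatorElement

namespace Cfsg.Agent.S4401

/-- Let S be a finite 2-group of sectional 2-rank at most 4 and P a proper non-abelian subgroup whose centre has order 2. Let S₀ be the centralizer in S of Z(P) and suppose P is normal in S₀. Then either S₀ = S, or P has sectional 2-rank at most 2 and S₀ has index 2 in S. -/
theorem result {S : Type*} [Group S] [Finite S] (h2 : IsPGroup 2 S) (hr : Cfsg.SectionalPRankLE 2 4 S)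
    (P : Subgroup S) (hPlt : P ≠ ⊤) (hP : ¬ IsMulCommutative ↥P) (hZP : Nat.card ↥(Subgroup.center ↥P) = 2)
    (S₀ : Subgroup S) (hS₀ : S₀ = Subgroup.centralizer (((Subgroup.center ↥P).map P.subtype : Subgroup S) : Set S))
    (hPn : ∀ s ∈ S₀, ∀ x ∈ P, s * x * s⁻¹ ∈ P) :
    S₀ = ⊤ ∨ (Cfsg.SectionalPRankLE 2 2 ↥P ∧ S₀.index = 2) := by
  have : Fact (Nat.Prime 2) := ⟨Nat.prime_two⟩
  by_cases htop : S₀ = ⊤
  · exact Or.inl htop
  right
  have := h2.isNilpotent
  obtain ⟨z, hz, hz1⟩ := (Subgroup.nontrivial_iff_exists_ne_one _).1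
    (Finite.one_lt_card_iff_nontrivial.1 (by rw [hZP]; norm_num) : Nontrivial (Subgroup.center P))
  set Z := (Subgroup.center P).map P.subtype with hZdef
  have hzZ : (z : S) ∈ Z := ⟨z, hz, rfl⟩
  have hzne : (z : S) ≠ 1 := fun h => hz1 (Subtype.ext h)
  have hZmem : ∀ w ∈ Z, w = 1 ∨ w = (z : S) := by
    rintro _ ⟨w, hw, rfl⟩
    obtain ⟨y, -, huniq⟩ := (Nat.card_eq_two_iff' (1 : Subgroup.center P)).1 hZP
    by_cases h : (⟨w, hw⟩ : Subgroup.center P) = 1
    · exact Or.inl (congrArg (fun x : Subgroup.center P => ((x : P) : S)) h)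
    · refine Or.inr (congrArg (fun x : Subgroup.center P => ((x : P) : S)) ((huniq _ h).trans
        (huniq ⟨z, hz⟩ fun h' => hz1 (congrArg Subtype.val h')).symm))
  have hS₀mem : ∀ s, s ∈ S₀ ↔ s * (z : S) = (z : S) * s := fun s => by
    rw [hS₀, Subgroup.mem_centralizer_iff]
    refine ⟨fun h => (h _ hzZ).symm, fun h w hw => ?_⟩
    rcases hZmem w hw with rfl | rfl
    · rw [one_mul, mul_one]
    · exact h.symm
  have hPS₀ : P ≤ S₀ := fun x hx => (hS₀mem x).2
    (congrArg Subtype.val (Subgroup.mem_center_iff.1 hz ⟨x, hx⟩))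
  set S₁ := Subgroup.normalizer (S₀ : Set S) with hS₁
  have hlt : S₀ < S₁ := normalizerCondition_of_isNilpotent S₀ (lt_top_iff_ne_top.2 htop)
  have hS₀n : ∀ t ∈ S₁, ∀ s ∈ S₀, t * s * t⁻¹ ∈ S₀ := fun t ht s hs =>
    (Subgroup.mem_normalizer_iff.1 ht s).1 hs
  -- conjugates by elements of `S₁` are normal in `S₀`
  let cp : S → Subgroup S := fun t => P.map (MulAut.conj t).toMonoidHom
  have hcp : ∀ t ∈ S₁, ∀ s ∈ S₀, ∀ x ∈ cp t, s * x * s⁻¹ ∈ cp t := by
    rintro t ht s hs _ ⟨x, hx, rfl⟩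
    refine ⟨(t⁻¹ * s * t) * x * (t⁻¹ * s * t)⁻¹, hPn _ ?_ x hx, ?_⟩
    · simpa using hS₀n t⁻¹ (inv_mem ht) s hs
    · simp [mul_assoc]
  have hcpS₀ : ∀ t ∈ S₁, cp t ≤ S₀ := by
    rintro t ht _ ⟨x, hx, rfl⟩
    exact hS₀n t ht x (hPS₀ hx)
  have hzc : ∀ t, t * (z : S) * t⁻¹ = (z : S) ↔ t ∈ S₀ := fun t => by
    rw [hS₀mem, mul_inv_eq_iff_eq_mul]
  have hpair : ∀ t ∈ S₁, ∀ t' ∈ S₁, t * (z : S) * t⁻¹ ≠ t' * (z : S) * t'⁻¹ →
      Agent.H29.RankFour.Pair (cp t) (cp t') := by
    intro t ht t' ht' hne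
    obtain ⟨a1, a2, a3⟩ := Agent.H29.RankFour.conj_data t P hP hZP
    obtain ⟨b1, b2, b3⟩ := Agent.H29.RankFour.conj_data t' P hP hZP
    refine ⟨h2, hr, a1, b1, a2, b2, fun y hy x hx => hcp t ht y (hcpS₀ t' ht' hy) x hx,
      fun x hx y hy => hcp t' ht' x (hcpS₀ t ht hx) y hy, fun heq => hne ?_⟩
    rw [a3, b3] at heq
    have hm : t * (z : S) * t⁻¹ ∈ Z.map (MulAut.conj t).toMonoidHom := ⟨z, hzZ, rfl⟩
    rw [heq] at hm
    obtain ⟨w, hw, hwe⟩ := hm
    rcases hZmem w hw with rfl | rfl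
    · exfalso
      simp at hwe
      exact hzne (conj_eq_one_iff.1 hwe.symm)
    · exact hwe.symm
  have hcp1 : cp 1 = P := by
    ext x
    simp [cp]
  obtain ⟨g, hg, hgn⟩ := SetLike.exists_of_lt hlt
  set z' := g * (z : S) * g⁻¹ with hz'
  have hne' : (z : S) ≠ z' := fun h => hgn ((hzc g).1 h.symm)
  have hPQ : Agent.H29.RankFour.Pair P (cp g) := hcp1 ▸ hpair 1 (one_mem _) g hg (by simpa using hne')
  set Q := cp g with hQ
  -- two conjugates only
  have htwo : ∀ t ∈ S₁, t * (z : S) * t⁻¹ = (z : S) ∨ t * (z : S) * t⁻¹ = z' := by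
    intro t ht
    by_contra hcon
    push Not at hcon
    have hA : Agent.H29.RankFour.Pair P (cp t) := hcp1 ▸ hpair 1 (one_mem _) t ht (by simpa using hcon.1.symm)
    have hB : Agent.H29.RankFour.Pair Q (cp t) := hpair g hg t ht hcon.2.symm
    have hcen : ∀ y ∈ cp t, y ∈ Subgroup.centralizer ((P ⊔ Q : Subgroup S) : Set S) := by
      intro y hy
      refine Subgroup.mem_centralizer_iff.2 fun m hm => ?_
      obtain ⟨a, ha, b, hb, rfl⟩ := hPQ.exists_prod hm
      exact ((show Commute a y from hA.commute ha hy).mul_left (hB.commute hb hy)).eq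
    exact hA.naQ ⟨⟨fun u v => Subtype.ext
      (Subgroup.mem_centralizer_iff.1 (hcen v v.2) (u : S) (hPQ.centralizer_le (hcen u u.2)))⟩⟩
  have hS₁top : S₁ = ⊤ := by
    by_contra hne
    obtain ⟨h, hh, hhn⟩ := SetLike.exists_of_lt (normalizerCondition_of_isNilpotent S₁ (lt_top_iff_ne_top.2 hne))
    have hconj : ∀ t ∈ S₁, h * t * h⁻¹ ∈ S₁ := fun t ht => (Subgroup.mem_normalizer_iff.1 hh t).1 ht
    set u := (z : S) * z' with hu
    have hzz' : (z : S) * z' = z' * z := hPQ.commute z.2 ⟨z, z.2, rfl⟩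
    have hg2 : g * z' * g⁻¹ = (z : S) := by
      rcases htwo (g * g) (mul_mem hg hg) with he | he
      · calc g * z' * g⁻¹ = (g * g) * (z : S) * (g * g)⁻¹ := by rw [hz']; group
          _ = _ := he
      · exfalso
        apply hne'
        have he' : g * (g * (z : S) * g⁻¹) * g⁻¹ = g * (z : S) * g⁻¹ := by
          calc _ = (g * g) * (z : S) * (g * g)⁻¹ := by group
            _ = _ := he
        exact (mul_left_cancel (mul_right_cancel he')).symm
    have hperm : ∀ t ∈ S₁, t * u * t⁻¹ = u := by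
      intro t ht
      have e : t * u * t⁻¹ = (t * (z : S) * t⁻¹) * ((t * g) * (z : S) * (t * g)⁻¹) := by
        rw [hu, hz']; group
      have hne2 : t * (z : S) * t⁻¹ ≠ (t * g) * (z : S) * (t * g)⁻¹ := fun h' => hne' (by
        have h'' : t * (z : S) * t⁻¹ = t * z' * t⁻¹ := by rw [h', hz']; group
        exact mul_left_cancel (mul_right_cancel h''))
      rcases htwo t ht with h3 | h3 <;> rcases htwo (t * g) (mul_mem ht hg) with h4 | h4
      · exact absurd (h3.trans h4.symm) hne2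
      · rw [e, h3, h4]
      · rw [e, h3, h4, ← hzz']
      · exact absurd (h3.trans h4.symm) hne2
    have hz2 : (z : S) * z = 1 := by
      rcases hZmem _ (mul_mem hzZ hzZ) with h' | h'
      · exact h'
      · exact absurd (mul_left_cancel (h'.trans (mul_one _).symm)) hzne
    have hu1 : u ≠ 1 := fun h' => hne' (mul_left_cancel (hz2.trans h'.symm))
    -- the central element is fixed
    have hcentr : ∀ v : S, (∀ t ∈ S₁, t * v * t⁻¹ = v) → v = 1 ∨ v = u := by
      intro v hv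
      have hPle : P ⊔ Q ≤ S₁ := (sup_le hPS₀ (hcpS₀ g hg)).trans hlt.le
      have hvc : v ∈ Subgroup.centralizer ((P ⊔ Q : Subgroup S) : Set S) :=
        Subgroup.mem_centralizer_iff.2 fun m hm => mul_inv_eq_iff_eq_mul.1 (hv m (hPle hm))
      obtain ⟨x, hx, y, hy, rfl⟩ := hPQ.exists_prod (hPQ.centralizer_le hvc)
      obtain ⟨hcx, hcy⟩ := hPQ.center_coords hx hy fun m hm => Subgroup.mem_centralizer_iff.1 hvc m hm
      have hy' : y = 1 ∨ y = z' := by
        have : y ∈ Z.map (MulAut.conj g).toMonoidHom := by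
          rw [hZdef, ← (Agent.H29.RankFour.conj_data g P hP hZP).2.2]
          exact ⟨_, hcy, rfl⟩
        obtain ⟨w, hw, rfl⟩ := this
        rcases hZmem w hw with rfl | rfl
        · exact Or.inl (by simp)
        · exact Or.inr rfl
      rcases hZmem x ⟨_, hcx, rfl⟩ with rfl | rfl <;> rcases hy' with rfl | rfl
      · exact Or.inl (one_mul _)
      · exfalso
        have := hv g hg
        rw [one_mul, hg2] at this
        exact hne' this
      · exfalso
        have := hv g hg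
        rw [mul_one] at this
        exact hne' this.symm
      · exact Or.inr hu.symm
    have hwu : h * u * h⁻¹ = u := by
      refine (hcentr _ fun t ht => ?_).resolve_left fun h' => hu1 (conj_eq_one_iff.1 h')
      have ht' : h⁻¹ * t * h ∈ S₁ := by
        have := (Subgroup.mem_normalizer_iff.1 (inv_mem hh) t).1 ht
        simpa using this
      calc t * (h * u * h⁻¹) * t⁻¹ = h * ((h⁻¹ * t * h) * u * (h⁻¹ * t * h)⁻¹) * h⁻¹ := by group
        _ = _ := by rw [hperm _ ht']
    set w := h * (z : S) * h⁻¹ with hw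
    have hwS₁ : w ∈ S₁ := hconj _ (hlt.le (hPS₀ z.2))
    have hworb : ∀ t ∈ S₁, t * w * t⁻¹ = w ∨ t * w * t⁻¹ = w * u := by
      intro t ht
      have ht' : h⁻¹ * t * h ∈ S₁ := by
        have := (Subgroup.mem_normalizer_iff.1 (inv_mem hh) t).1 ht
        simpa using this
      have e : t * w * t⁻¹ = h * ((h⁻¹ * t * h) * (z : S) * (h⁻¹ * t * h)⁻¹) * h⁻¹ := by rw [hw]; group
      rcases htwo _ ht' with h3 | h3
      · exact Or.inl (by rw [e, h3])
      · refine Or.inr ?_
        rw [e, h3, ← hwu, hw]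
        have : z' = (z : S) * u := by rw [hu, ← mul_assoc, hz2, one_mul]
        rw [this]; group
    have hucomm : ∀ t ∈ S₁, t * u = u * t := fun t ht => mul_inv_eq_iff_eq_mul.1 (hperm t ht)
    have hmove : ∀ m ∈ S₁, w * m * w⁻¹ = m ∨ w * m * w⁻¹ = m * u := by
      intro m hm
      rcases hworb m⁻¹ (inv_mem hm) with h3 | h3
      · left
        rw [inv_inv, mul_assoc, inv_mul_eq_iff_eq_mul] at h3
        rw [h3]; group
      · right
        rw [inv_inv, mul_assoc, inv_mul_eq_iff_eq_mul] at h3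
        rw [h3, hucomm w hwS₁]
        group
    -- `w` fixes the commutators of `P`, hence lies in `S₀`
    have hwS₀ : w ∈ S₀ := by
      rw [← hzc]
      have hcom : ∀ a ∈ P, ∀ b ∈ P, w * ⁅a, b⁆ * w⁻¹ = ⁅a, b⁆ := by
        intro a ha b hb
        have e : w * ⁅a, b⁆ * w⁻¹ = ⁅w * a * w⁻¹, w * b * w⁻¹⁆ := by
          simp only [commutatorElement_def]; group
        rw [e]
        have hua : ∀ a ∈ P, u * a = a * u := fun a ha => (hucomm a (hlt.le (hPS₀ ha))).symm
        have hua' : ∀ a ∈ P, u⁻¹ * a = a * u⁻¹ := fun a ha =>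
          (show Commute u a from hua a ha).inv_left.eq
        have k1 : ∀ a ∈ P, ∀ b ∈ P, ⁅a * u, b⁆ = ⁅a, b⁆ := fun a _ b hb => by
          calc ⁅a * u, b⁆ = a * (u * b) * u⁻¹ * a⁻¹ * b⁻¹ := by simp only [commutatorElement_def]; group
            _ = a * (b * u) * u⁻¹ * a⁻¹ * b⁻¹ := by rw [hua b hb]
            _ = _ := by simp only [commutatorElement_def]; group
        have k2 : ∀ a ∈ P, ∀ b ∈ P, ⁅a, b * u⁆ = ⁅a, b⁆ := fun a ha b hb => by
          rw [← commutatorElement_inv, k1 b hb a ha, commutatorElement_inv]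
        rcases hmove a (hlt.le (hPS₀ ha)) with h3 | h3 <;> rcases hmove b (hlt.le (hPS₀ hb)) with h4 | h4 <;>
          rw [h3, h4]
        · exact k2 a ha b hb
        · exact k1 a ha b hb
        · calc ⁅a * u, b * u⁆ = a * (u * b) * (u * u⁻¹) * a⁻¹ * u⁻¹ * b⁻¹ := by
                simp only [commutatorElement_def]; group
            _ = a * b * (u * a⁻¹) * u⁻¹ * b⁻¹ := by rw [hua b hb]; group
            _ = _ := by rw [hua _ (inv_mem ha)]; simp only [commutatorElement_def]; group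
      have hle : (commutator P).map P.subtype ≤ Subgroup.centralizer ({w} : Set S) := by
        rw [commutator_def, Subgroup.map_commutator, Subgroup.commutator_le]
        rintro _ ⟨a, -, rfl⟩ _ ⟨b, -, rfl⟩
        exact Subgroup.mem_centralizer_singleton_iff.2 (mul_inv_eq_iff_eq_mul.1 (hcom a a.2 b b.2)).symm
      exact mul_inv_eq_iff_eq_mul.2 (Subgroup.mem_centralizer_singleton_iff.1
        (hle ⟨z, Agent.H29.RankFour.center_le_commutator h2 P hP hZP hz, rfl⟩)).symm
    have huP : u ∉ P := fun hmem => by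
      have h1 : z' ∈ P := by
        have := mul_mem (inv_mem z.2) hmem
        rwa [hu, inv_mul_cancel_left] at this
      exact hne' ((mul_left_cancel (a := (z : S)⁻¹) (by
        have h2' : z' = 1 := Subgroup.mem_bot.1 (hPQ.inf_eq_bot ▸ Subgroup.mem_inf.2 ⟨h1, ⟨z, z.2, rfl⟩⟩)
        exact absurd (conj_eq_one_iff.1 h2') hzne)))
    have huQ : u ∉ Q := fun hmem => by
      have h1 : (z : S) ∈ Q := by
        have := mul_mem hmem (inv_mem (show z' ∈ Q from ⟨z, z.2, rfl⟩))
        rwa [hu, mul_inv_cancel_right] at this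
      exact hzne (Subgroup.mem_bot.1 (hPQ.inf_eq_bot ▸ Subgroup.mem_inf.2 ⟨z.2, h1⟩))
    have hwc : ∀ R : Subgroup S, R ≤ S₀ → (∀ s ∈ S₀, ∀ x ∈ R, s * x * s⁻¹ ∈ R) → u ∉ R →
        ∀ x ∈ R, x * w = w * x := by
      intro R hR hRn huR x hx
      rcases hmove x (hlt.le (hR hx)) with h3 | h3
      · exact (mul_inv_eq_iff_eq_mul.1 h3).symm
      · exfalso
        have := mul_mem (inv_mem hx) (hRn w hwS₀ x hx)
        rw [h3, inv_mul_cancel_left] at this
        exact huR this
    have hwcent : w ∈ Subgroup.centralizer ((P ⊔ Q : Subgroup S) : Set S) := by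
      refine Subgroup.mem_centralizer_iff.2 fun m hm => ?_
      obtain ⟨a, ha, b, hb, rfl⟩ := hPQ.exists_prod hm
      exact ((show Commute a w from hwc P hPS₀ hPn huP a ha).mul_left
        (hwc Q (hcpS₀ g hg) (hcp g hg) huQ b hb)).eq
    obtain ⟨x, hx, y, hy, hxy⟩ := hPQ.exists_prod (hPQ.centralizer_le hwcent)
    obtain ⟨hcx, hcy⟩ := hPQ.center_coords hx hy fun m hm => hxy.symm ▸ Subgroup.mem_centralizer_iff.1 hwcent m hm
    have hy' : y = 1 ∨ y = z' := by
      have : y ∈ Z.map (MulAut.conj g).toMonoidHom := by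
        rw [hZdef, ← (Agent.H29.RankFour.conj_data g P hP hZP).2.2]
        exact ⟨_, hcy, rfl⟩
      obtain ⟨w, hw, rfl⟩ := this
      rcases hZmem w hw with rfl | rfl
      · exact Or.inl (by simp)
      · exact Or.inr rfl
    have hw1 : w ≠ 1 := fun h' => hzne (conj_eq_one_iff.1 h')
    rcases hZmem x ⟨_, hcx, rfl⟩ with rfl | rfl <;> rcases hy' with rfl | rfl
    · exact hw1 (hxy.symm.trans (one_mul _))
    · -- `w = z'`
      apply hhn
      have h3 : (g⁻¹ * h) * (z : S) * (g⁻¹ * h)⁻¹ = (z : S) := by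
        rw [one_mul] at hxy
        calc (g⁻¹ * h) * (z : S) * (g⁻¹ * h)⁻¹ = g⁻¹ * w * g := by rw [hw]; group
          _ = _ := by rw [← hxy, hz']; group
      have := mul_mem hg (hlt.le ((hzc _).1 h3))
      rwa [mul_inv_cancel_left] at this
    · apply hhn
      rw [mul_one] at hxy
      exact hlt.le ((hzc h).1 hxy.symm)
    · have : w = u := by rw [← hxy, hu]
      rw [← hwu, hw] at this
      have h3 : (z : S) = u := mul_left_cancel (mul_right_cancel this)
      rw [hu] at h3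
      have h4 : z' = 1 := mul_left_cancel (a := (z : S)) (h3.symm.trans (mul_one _).symm)
      exact hzne (conj_eq_one_iff.1 h4)
  refine ⟨hPQ.rank_two, ?_⟩
  rw [Subgroup.index_eq_two_iff]
  refine ⟨g⁻¹, fun b => ?_⟩
  have hb : b ∈ S₁ := hS₁top ▸ Subgroup.mem_top b
  rcases htwo b hb with h3 | h3
  · refine Or.inr ⟨(hzc b).1 h3, fun h4 => hgn ?_⟩
    have := mul_mem (inv_mem ((hzc b).1 h3)) h4
    rw [inv_mul_cancel_left] at this
    exact inv_mem_iff.1 this
  · refine Or.inl ⟨?_, fun h4 => hne' (((hzc b).2 h4).symm.trans h3)⟩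
    have h5 : g⁻¹ * b ∈ S₀ := by
      rw [← hzc]
      calc g⁻¹ * b * (z : S) * (g⁻¹ * b)⁻¹ = g⁻¹ * (b * (z : S) * b⁻¹) * g := by group
        _ = _ := by rw [h3, hz']; group
    have h6 : b * g⁻¹ = g * (g⁻¹ * b) * g⁻¹ := by group
    rw [h6]
    exact hS₀n g hg _ h5

end Cfsg.Agent.S4401
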