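import Cfsg.Statements.S4402
import Cfsg.Agent.H61.D8WreathQuotient

set_option autoImplicit false
open Cfsg Cfsg.Agent Cfsg.Agent.H61

namespace Cfsg.Agent.S4402

/-- Let S be a finite 2-group of sectional 2-rank at most 4 and P a proper subgroup isomorphic to the wreath product of the dihedral group of order 8 by a group of order 2 (equivalently, to a Sylow 2-subgroup of the symmetric group of degree 8; order 128). Then Z(S) = Z(P) has order 2, P has index 2 in its normalizer N_S(P), N_S(P)/Z(S) is again isomorphic to that wreath product, and every elementary abelian subgroup V of order 16 that is normal in P satisfies N_S(V) = P. -/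
theorem result {S : Type*} [Group S] [Finite S] (h2 : IsPGroup 2 S) (hr : Cfsg.SectionalPRankLE 2 4 S)
    (P : Subgroup S) (hPlt : P ≠ ⊤) (hP : ∃ T : Sylow 2 (Equiv.Perm (Fin 8)), Nonempty (↥P ≃* ↥(T : Subgroup (Equiv.Perm (Fin 8))))) :
    Subgroup.center S = (Subgroup.center ↥P).map P.subtype ∧ Nat.card ↥(Subgroup.center S) = 2 ∧
    P.relIndex (Subgroup.normalizer (P : Set S)) = 2 ∧
    (∃ (_ : ((Subgroup.center S).subgroupOf (Subgroup.normalizer (P : Set S))).Normal) (T : Sylow 2 (Equiv.Perm (Fin 8))),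
      Nonempty (↥(Subgroup.normalizer (P : Set S)) ⧸ (Subgroup.center S).subgroupOf (Subgroup.normalizer (P : Set S)) ≃*
        ↥(T : Subgroup (Equiv.Perm (Fin 8))))) ∧
    ∀ V : Subgroup S, V ≤ P → (∀ g ∈ P, ∀ v ∈ V, g * v * g⁻¹ ∈ V) → Cfsg.IsElementaryAbelian 2 V → Nat.card ↥V = 16 →
      Subgroup.normalizer (V : Set S) = P := by
  classical
  haveI : Fact (Nat.Prime 2) := ⟨Nat.prime_two⟩
  obtain ⟨T8, ⟨eP⟩⟩ := hP
  obtain ⟨f8, hf8⟩ := DEightWr.exists_perm_embedding
  have hfac : (Nat.card (Equiv.Perm (Fin 8))).factorization 2 = 7 := by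
    rw [Nat.card_perm, Nat.card_eq_fintype_card, Fintype.card_fin]
    have h : (8 : ℕ).factorial = 2 ^ 7 * 315 := by decide +kernel
    rw [h, Nat.factorization_mul (by norm_num) (by norm_num), Finsupp.add_apply,
      Nat.Prime.factorization_pow Nat.prime_two, Finsupp.single_eq_same,
      Nat.factorization_eq_zero_of_not_dvd (by norm_num)]
  have hT8 : Nat.card (T8 : Subgroup (Equiv.Perm (Fin 8))) = 128 := by
    rw [T8.card_eq_multiplicity, hfac]; norm_num
  let Q8 : Sylow 2 (Equiv.Perm (Fin 8)) := Sylow.ofCard f8.range (by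
    rw [← Nat.card_congr (MonoidHom.ofInjective hf8).toEquiv, DEightWr.natCard_eq, hfac]; norm_num)
  have eT : DEightWr ≃* ↥(T8 : Subgroup (Equiv.Perm (Fin 8))) := (MonoidHom.ofInjective hf8).trans (Q8.equiv T8)
  let e := eT.trans eP.symm
  let ι : DEightWr →* S := P.subtype.comp e.toMonoidHom
  have hι : Function.Injective ι := P.subtype_injective.comp e.injective
  have hrange : ι.range = P := by
    rw [MonoidHom.range_comp, MonoidHom.range_eq_top.2 e.surjective, ← MonoidHom.range_eq_map,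
      Subgroup.range_subtype]
  have hcen := DEightWr.centralizer_mem h2 hr ι hι
  haveI : Nontrivial S := ⟨⟨ι DEightWr.gz, 1, fun h => DEightWr.gz_facts.2.1 (hι (h.trans (map_one ι).symm))⟩⟩
  haveI := h2.center_nontrivial
  have hz1 : ι DEightWr.gz ≠ 1 := fun h => DEightWr.gz_facts.2.1 (hι (h.trans (map_one ι).symm))
  have hZle : ∀ c ∈ Subgroup.center S, c = 1 ∨ c = ι DEightWr.gz := fun c hc =>
    hcen c fun q => (Subgroup.mem_center_iff.1 hc (ι q)).symm
  have hzZ : ι DEightWr.gz ∈ Subgroup.center S := by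
    obtain ⟨⟨c, hc⟩, hc1⟩ := exists_ne (1 : Subgroup.center S)
    exact ((hZle c hc).resolve_left fun h => hc1 (Subtype.ext h)) ▸ hc
  have hcenter : Subgroup.center S = (Subgroup.center ↥P).map P.subtype := by
    ext c
    constructor
    · intro hc
      have hcP : c ∈ P := by
        rw [← hrange]
        rcases hZle c hc with rfl | rfl
        exacts [one_mem _, ⟨_, rfl⟩]
      exact ⟨⟨c, hcP⟩, Subgroup.mem_center_iff.2 fun y => Subtype.ext (Subgroup.mem_center_iff.1 hc y), rfl⟩
    · rintro ⟨⟨x, hx⟩, hxc, rfl⟩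
      rcases hcen x (fun q => (congrArg Subtype.val (Subgroup.mem_center_iff.1 hxc (e q))).symm) with h | h
      · show x ∈ _; rw [h]; exact one_mem _
      · show x ∈ _; rw [h]; exact hzZ
  have hcardZ : Nat.card ↥(Subgroup.center S) = 2 := by
    have hset : (Subgroup.center S : Set S) = {1, ι DEightWr.gz} := by
      ext c
      exact ⟨fun hc => hZle c hc, fun hc => by rcases hc with rfl | rfl; exacts [one_mem _, hzZ]⟩
    show Nat.card ((Subgroup.center S : Set S) : Type _) = 2
    rw [Nat.card_coe_set_eq, hset, Set.ncard_pair hz1.symm]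
  set N := Subgroup.normalizer (P : Set S) with hNdef
  have hNr : N = Subgroup.normalizer (ι.range : Set S) := by rw [hrange]
  haveI : Group.IsNilpotent S := h2.isNilpotent
  obtain ⟨g, hg, hgn⟩ := SetLike.exists_of_lt (normalizerCondition_of_isNilpotent P (lt_top_iff_ne_top.2 hPlt))
  have hprod : ∀ a ∈ N, a ∉ P → ∀ b ∈ N, b ∉ P → a * b ∈ P := fun a ha ha' b hb hb' => by
    rw [← hrange] at ha' hb' ⊢
    exact DEightWr.mul_mem_range h2 hr ι hι (hNr ▸ ha) ha' (hNr ▸ hb) hb'
  have hrel : P.relIndex N = 2 := by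
    refine Subgroup.index_eq_two_iff.2 ⟨⟨g, hg⟩, fun b => ?_⟩
    by_cases hb : (b : S) ∈ P
    · refine Or.inr ⟨hb, fun hbg => hgn ?_⟩
      have := mul_mem (inv_mem hb) hbg
      rwa [Subgroup.coe_subtype, Subgroup.coe_mul, inv_mul_cancel_left] at this
    · exact Or.inl ⟨hprod _ b.2 hb _ hg hgn, hb⟩
  refine ⟨hcenter, hcardZ, hrel, ?_, ?_⟩
  · obtain ⟨p, hw, ⟨x, hx, hax⟩, y, hy, hby⟩ := DEightWr.exists_swapper h2 hr ι hι (hNr ▸ hg) (hrange ▸ hgn)
    set h := ι p * g with hhdef
    have hPN : P ≤ N := Subgroup.le_normalizer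
    have hιN : ∀ q, ι q ∈ N := fun q => hPN (hrange.le ⟨q, rfl⟩)
    have hhN : h ∈ N := mul_mem (hιN p) hg
    have hhP : h ∉ P := fun hh => hgn (by
      have := mul_mem (inv_mem (hrange.le ⟨p, rfl⟩ : ι p ∈ P)) hh
      rwa [hhdef, inv_mul_cancel_left] at this)
    obtain ⟨r, hr'⟩ : h * h ∈ ι.range := hrange.symm ▸ hprod h hhN hhP h hhN hhP
    have hzh : ∀ q, h * ι (q * DEightWr.gz) * h⁻¹ = h * ι q * h⁻¹ * ι DEightWr.gz := fun q => by
      rw [map_mul]
      have := Subgroup.mem_center_iff.1 hzZ h⁻¹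
      simp only [mul_assoc]
      rw [this]
    have hcomb : ∀ q, ι (r * q * r⁻¹) = h * (h * ι q * h⁻¹) * h⁻¹ := fun q => by
      rw [map_mul, map_mul, map_inv, hr']; group
    have hnr : ∀ (u v u₁ v₁ : DEightWr), DEightWr.near v u₁ → DEightWr.near u v₁ →
        h * ι u * h⁻¹ = ι u₁ → h * ι v * h⁻¹ = ι v₁ → DEightWr.near u (r * u * r⁻¹) := by
      intro u v u₁ v₁ h1 h1' e1 e2
      have e := hcomb u
      rw [e1] at e
      rcases h1 with rfl | rfl
      · rw [e2] at e
        rw [hι e]
        exact h1'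
      · rw [hzh, e2, ← map_mul] at e
        rw [hι e]
        rcases h1' with rfl | rfl
        exacts [Or.inr rfl, Or.inl (by rw [mul_assoc, DEightWr.gz_facts.1, mul_one])]
    have hrw : r * DEightWr.gw = DEightWr.gw * r := mul_inv_eq_iff_eq_mul.1 (hι (by rw [hcomb, hw, hw]))
    have hrz := DEightWr.eq_center_of_fix r hrw (hnr _ _ x y hx hy hax hby) (hnr _ _ y x hy hx hby hax)
    set ZN := (Subgroup.center S).subgroupOf N with hZNdef
    haveI hZNn : ZN.Normal := ⟨fun n hn g => by
      have hn' : (n : S) ∈ Subgroup.center S := hn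
      show (g : S) * n * (g : S)⁻¹ ∈ Subgroup.center S
      rw [Subgroup.mem_center_iff.1 hn' (g : S), mul_inv_cancel_right]
      exact hn'⟩
    let π := QuotientGroup.mk' ZN
    let fQ : DEightWr →* ↥N ⧸ ZN := π.comp (ι.codRestrict N hιN)
    have hπ : ∀ n : ↥N, (n : S) ∈ Subgroup.center S → π n = 1 := fun n hn => (QuotientGroup.eq_one_iff n).2 hn
    have hfz : fQ DEightWr.gz = 1 := hπ _ hzZ
    have hnear : ∀ u v, DEightWr.near u v → fQ v = fQ u := by
      rintro u v (rfl | rfl)
      · rfl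
      · rw [map_mul, hfz, mul_one]
    set hb : ↥N ⧸ ZN := π ⟨h, hhN⟩ with hbdef
    have hhh : hb * hb = 1 := by
      rw [hbdef, ← map_mul]
      refine hπ _ ?_
      show h * h ∈ _
      rw [← hr']
      rcases hrz with rfl | rfl
      · rw [map_one]; exact one_mem _
      · exact hzZ
    have hcq : ∀ u v, h * ι u * h⁻¹ = ι v → hb * fQ u * hb⁻¹ = fQ v := fun u v e => by
      show π _ * π _ * (π _)⁻¹ = π _
      rw [← map_inv, ← map_mul, ← map_mul]
      exact congrArg π (Subtype.ext e)
    have hbi : hb⁻¹ = hb := inv_eq_of_mul_eq_one_right hhh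
    have e1 : hb * fQ DEightWr.gw = fQ DEightWr.gw * hb := mul_inv_eq_iff_eq_mul.1 (hcq _ _ hw)
    have e2 : hb * fQ DEightWr.ga * hb = fQ DEightWr.gb := by
      have := hcq _ _ hax
      rwa [hbi, hnear _ _ hx] at this
    obtain ⟨hrelQ, hgen⟩ := DEightWr.quotient_rel fQ hfz hhh e1 e2
    obtain ⟨F, hFa, hFb, hFw⟩ := DEightWr.exists_hom hrelQ
    have hsurj : Function.Surjective F := by
      rw [← MonoidHom.range_eq_top, eq_top_iff]
      have hle : fQ.range ⊔ Subgroup.zpowers hb ≤ F.range := by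
        refine le_trans hgen (sup_le ?_ bot_le)
        rw [Subgroup.closure_le]
        rintro _ (rfl | rfl | rfl)
        exacts [⟨_, hFa⟩, ⟨_, hFb⟩, ⟨_, hFw⟩]
      intro z _
      refine hle ?_
      obtain ⟨⟨n, hn⟩, rfl⟩ := QuotientGroup.mk'_surjective _ z
      by_cases hnP : n ∈ P
      · obtain ⟨q, rfl⟩ := hrange.symm ▸ hnP
        exact Subgroup.mem_sup_left ⟨q, rfl⟩
      · obtain ⟨q, hq⟩ := hrange.symm ▸ hprod n hn hnP h hhN hhP
        have e3 : π ⟨n, hn⟩ = fQ q * hb⁻¹ := by
          show π _ = π _ * (π _)⁻¹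
          rw [← map_inv, ← map_mul]
          refine congrArg π (Subtype.ext ?_)
          show n = ι q * h⁻¹
          rw [hq, mul_inv_cancel_right]
        show π ⟨n, hn⟩ ∈ _
        rw [e3]
        exact mul_mem (Subgroup.mem_sup_left ⟨q, rfl⟩) (inv_mem (Subgroup.mem_sup_right (Subgroup.mem_zpowers hb)))
    have hcardP : Nat.card P = 128 := by rw [← Nat.card_congr e.toEquiv, DEightWr.natCard_eq]
    have hcard : Nat.card (↥N ⧸ ZN) = 128 := by
      have h1 := Subgroup.card_mul_index (P.subgroupOf N)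
      rw [Nat.card_congr (Subgroup.subgroupOfEquivOfLe hPN).toEquiv, hcardP,
        show (P.subgroupOf N).index = 2 from hrel] at h1
      have h3 := Subgroup.card_mul_index ZN
      have hle : Subgroup.center S ≤ N := Subgroup.center_le_normalizer _
      rw [Nat.card_congr (Subgroup.subgroupOfEquivOfLe hle).toEquiv, hcardZ, ← h1, Subgroup.index_eq_card] at h3
      omega
    refine ⟨hZNn, T8, ⟨(MulEquiv.ofBijective F ?_).symm.trans eT⟩⟩
    exact (Nat.bijective_iff_surjective_and_card F).2 ⟨hsurj, by rw [hcard, DEightWr.natCard_eq]⟩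
  · intro V hVP hVn hVe hV16
    have hle : P ≤ Subgroup.normalizer (V : Set S) := fun g hg => Subgroup.mem_normalizer_iff.2 fun v => by
      refine ⟨hVn g hg v, fun hv => ?_⟩
      have := hVn g⁻¹ (inv_mem hg) _ hv
      simpa [mul_assoc] using this
    refine le_antisymm ?_ hle
    by_contra hne
    set M := Subgroup.normalizer (V : Set S) with hM
    have hlt : P.subgroupOf M < ⊤ := lt_top_iff_ne_top.2 fun h => hne (Subgroup.subgroupOf_eq_top.1 h)
    haveI : Group.IsNilpotent ↥M := (h2.to_subgroup M).isNilpotent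
    obtain ⟨⟨m, hm⟩, hmN, hmn⟩ := SetLike.exists_of_lt (normalizerCondition_of_isNilpotent _ hlt)
    have hmn' : m ∉ P := hmn
    have hmN' : m ∈ Subgroup.normalizer (P : Set S) := by
      refine Subgroup.mem_normalizer_iff.2 fun y => ?_
      have hit : ∀ y (hy : y ∈ M), (y ∈ P ↔ m * y * m⁻¹ ∈ P) := fun y hy =>
        (Subgroup.mem_normalizer_iff.1 hmN ⟨y, hy⟩)
      constructor
      · exact fun hy => (hit y (hle hy)).1 hy
      · intro hy
        have hyM : y ∈ M := by
          have := mul_mem (mul_mem (inv_mem hm) (hle hy)) hm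
          simpa [mul_assoc] using this
        exact (hit y hyM).2 hy
    have hVr : V ≤ ι.range := hrange.symm ▸ hVP
    have hU : V.comap ι = DEightWr.subA ∨ V.comap ι = DEightWr.subB := by
      refine DEightWr.elementary_normal ?_ ?_ ?_
      · rw [← hV16, ← Subgroup.card_map_of_injective hι, Subgroup.map_comap_eq_self hVr]
      · intro u hu
        refine hι ?_
        rw [map_mul, map_one, ← sq]
        exact hVe.2 _ hu
      · intro q u hu
        show ι (q * u * q⁻¹) ∈ V
        rw [map_mul, map_mul, map_inv]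
        exact hVn _ (hrange.le ⟨q, rfl⟩) _ hu
    refine DEightWr.not_stabilize h2 hr ι hι (g := m) (hNr ▸ hmN') (hrange.symm ▸ hmn') hU ?_
    rw [Subgroup.map_comap_eq_self hVr]
    exact hm

end Cfsg.Agent.S4402
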