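import Cfsg.Statements.S4403
import Cfsg.Agent.H91.Small.CyclicSylow
import Cfsg.Agent.H51.FStar

set_option autoImplicit false
set_option maxHeartbeats 400000
open Cfsg
open scoped Pointwise

namespace Cfsg.Agent.S4403

/-- Two elements of prime order, one a power of the other, generate the same subgroup. -/
theorem zpowers_eq_of_orderOf_eq {G : Type*} [Group G] [Finite G] {a b : G}
    (hab : orderOf a = orderOf b) (h : a ∈ Subgroup.zpowers b) :
    Subgroup.zpowers a = Subgroup.zpowers b :=
  Subgroup.eq_of_le_of_card_ge (Subgroup.zpowers_le.2 h)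
    (by rw [Nat.card_zpowers, Nat.card_zpowers, hab])

/-- Let K be a finite group, p a prime dividing its order with O_{p'}(K) = 1 (no nontrivial normal subgroup of order prime to p), and P a cyclic Sylow p-subgroup of K. Then either P is normal and self-centralizing in K with K/P cyclic of order dividing p − 1 (so K is the semidirect product of P by a group of automorphisms of P of order dividing p − 1), or the generalized Fitting subgroup F*(K) is a non-abelian simple group and p does not divide the index of F*(K) in K. -/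
theorem result {K : Type*} [Group K] [Finite K] (p : ℕ) [Fact p.Prime] (hp : p ∣ Nat.card K) (hO : Cfsg.pPrimeCore p K = ⊥)
    (P : Sylow p K) (hP : IsCyclic ↥(P : Subgroup K)) :
    ((P : Subgroup K).Normal ∧ Subgroup.centralizer ((P : Subgroup K) : Set K) = (P : Subgroup K) ∧
      (∀ (_ : (P : Subgroup K).Normal), IsCyclic (K ⧸ (P : Subgroup K))) ∧ (P : Subgroup K).index ∣ p - 1) ∨
    (IsSimpleGroup ↥(Cfsg.generalizedFittingSubgroup K) ∧ ¬ IsMulCommutative ↥(Cfsg.generalizedFittingSubgroup K) ∧
      ¬ p ∣ (Cfsg.generalizedFittingSubgroup K).index) := by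
  classical
  haveI := Fintype.ofFinite K
  have hp' : p.Prime := Fact.out
  obtain ⟨g, hg⟩ := (Subgroup.isCyclic_iff_exists_zpowers_eq_top _).1 hP
  obtain ⟨k, hk⟩ := IsPGroup.iff_card.1 P.2
  have hog : orderOf g = p ^ k := by rw [← Nat.card_zpowers, hg, hk]
  have hk1 : 1 ≤ k := by
    by_contra h0
    have h1 := P.dvd_card_of_dvd_card hp
    rw [hk, show k = 0 by omega, pow_zero] at h1
    exact hp'.one_lt.ne' (Nat.dvd_one.1 h1)
  -- the subgroup of order `p` in `P`
  set z := g ^ p ^ (k - 1) with hz
  have hoz : orderOf z = p := by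
    rw [hz, orderOf_pow_of_dvd (pow_ne_zero _ hp'.ne_zero) (hog ▸ pow_dvd_pow p (by omega)), hog,
      Nat.pow_div (by omega) hp'.pos, show k - (k - 1) = 1 by omega, pow_one]
  have hzP : z ∈ (P : Subgroup K) := hg ▸ Subgroup.pow_mem _ (Subgroup.mem_zpowers g) _
  -- elements of order `p` of `P` are powers of `z`
  have hunique : ∀ u ∈ (P : Subgroup K), u ^ p = 1 → u ∈ Subgroup.zpowers z := by
    intro u hu hup
    obtain ⟨j, rfl⟩ := Subgroup.mem_zpowers_iff.1 (hg.symm ▸ hu : u ∈ Subgroup.zpowers g)
    rw [← zpow_natCast, ← zpow_mul] at hup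
    have h1 := orderOf_dvd_iff_zpow_eq_one.2 hup
    rw [hog, Nat.cast_pow] at h1
    have h2 : (p : ℤ) ^ (k - 1) ∣ j := by
      rw [show k = (k - 1) + 1 by omega, pow_succ] at h1
      exact (mul_dvd_mul_iff_right (by exact_mod_cast hp'.ne_zero)).1 h1
    obtain ⟨c, rfl⟩ := h2
    exact ⟨c, by rw [hz]; simp [← zpow_natCast, ← zpow_mul]⟩
  -- every nontrivial normal subgroup contains `z`
  have hnormal : ∀ N : Subgroup K, N.Normal → N ≠ ⊥ → z ∈ N := by
    intro N hN hN0
    have hdvd : p ∣ Nat.card N := by
      by_contra h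
      exact hN0 (le_bot_iff.1 (hO ▸ H19.le_pPrimeCore hN (hp'.coprime_iff_not_dvd.2 h).symm))
    obtain ⟨⟨u, huN⟩, hu⟩ := exists_prime_orderOf_dvd_card' p hdvd
    rw [Subgroup.orderOf_mk] at hu
    obtain ⟨Q, hQ⟩ := IsPGroup.exists_le_sylow (p := p) (P := Subgroup.zpowers u)
      (IsPGroup.of_card (n := 1) (by rw [Nat.card_zpowers, hu, pow_one]))
    obtain ⟨c, hc⟩ := MulAction.exists_smul_eq K Q P
    have hmem : c * u * c⁻¹ ∈ (P : Subgroup K) := by
      rw [← hc, Sylow.smul_def, Sylow.pointwise_smul_def]
      exact Subgroup.smul_mem_pointwise_smul u (MulAut.conj c) _ (hQ (Subgroup.mem_zpowers u))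
    have h1 : (c * u * c⁻¹) ^ p = 1 := by
      rw [conj_pow, ← hu, pow_orderOf_eq_one]; simp
    obtain ⟨i, hi⟩ := Subgroup.mem_zpowers_iff.1 (hunique _ hmem h1)
    have h2 : z ^ i ≠ 1 := by
      rw [hi]; intro e
      rw [conj_eq_one_iff] at e
      rw [e, orderOf_one] at hu
      exact hp'.one_lt.ne hu
    have h3 : z ∈ Subgroup.zpowers (z ^ i) := by
      have hord : orderOf (z ^ i) = orderOf z := by
        rw [hoz]; exact orderOf_eq_prime (by rw [hi]; exact h1) h2
      rw [zpowers_eq_of_orderOf_eq hord (Subgroup.zpow_mem _ (Subgroup.mem_zpowers z) i)]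
      exact Subgroup.mem_zpowers z
    have h6 : c * u * c⁻¹ ∈ N := hN.conj_mem u huN c
    exact Subgroup.zpowers_le.2 (hi ▸ h6) h3
  by_cases hZn : (Subgroup.zpowers z).Normal
  · -- `Ω₁(P)` is normal
    left
    haveI := hZn
    set C := Subgroup.centralizer (Subgroup.zpowers z : Set K) with hC
    have hCn : C.Normal := Subgroup.normal_centralizer
    haveI := hCn
    have hPC : (P : Subgroup K) ≤ C := by
      intro u hu
      refine Subgroup.mem_centralizer_iff.2 fun v hv => ?_
      obtain ⟨i, rfl⟩ := Subgroup.mem_zpowers_iff.1 (hg.symm ▸ hu : u ∈ Subgroup.zpowers g)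
      obtain ⟨j, rfl⟩ := Subgroup.mem_zpowers_iff.1 hv
      rw [hz]
      exact ((((Commute.refl g).pow_left _).zpow_left j).zpow_right i).eq
    have hNC : ∀ m ∈ C, m ∈ Subgroup.normalizer ((P : Subgroup K) : Set K) →
        m ∈ Subgroup.centralizer ((P : Subgroup K) : Set K) := by
      intro m hmC hmN
      obtain ⟨r, hr⟩ := Subgroup.mem_zpowers_iff.1 (hg.symm ▸
        (Subgroup.mem_normalizer_iff.1 hmN g).1 (hg ▸ Subgroup.mem_zpowers g) :
          m * g * m⁻¹ ∈ Subgroup.zpowers g)
      refine H91.CyclicSylow.mem_centralizer_of_modEq P hg hmN hr.symm ?_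
      have h1 : m * z * m⁻¹ = z := mul_inv_eq_iff_eq_mul.2
        (Subgroup.mem_centralizer_iff.1 hmC z (Subgroup.mem_zpowers z)).symm
      have h2 : g ^ ((r - 1) * (p ^ (k - 1) : ℕ)) = 1 := by
        rw [sub_mul, one_mul, zpow_sub, zpow_mul, zpow_natCast, zpow_natCast, hr, conj_pow, ← hz, h1,
          mul_inv_cancel]
      have h3 := orderOf_dvd_iff_zpow_eq_one.2 h2
      rw [hog, Nat.cast_pow, Nat.cast_pow, show k = 1 + (k - 1) by omega, pow_add, pow_one,
        show 1 + (k - 1) - 1 = k - 1 by omega] at h3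
      exact (mul_dvd_mul_iff_right (pow_ne_zero _ (by exact_mod_cast hp'.ne_zero))).1 h3
    -- Burnside in `C`
    let PC : Sylow p C := P.subtype hPC
    obtain ⟨Q, M, hM, hMc⟩ := H22.burnside_normal_complement PC (by
      intro m hm
      have hmN : (m : K) ∈ Subgroup.normalizer ((P : Subgroup K) : Set K) := by
        refine Subgroup.mem_normalizer_iff.2 fun u => ?_
        by_cases hu : u ∈ C
        · have := Subgroup.mem_normalizer_iff.1 hm ⟨u, hu⟩
          simpa [PC, Subgroup.mem_subgroupOf] using this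
        · refine iff_of_false (fun h => hu (hPC h)) fun h => hu ?_
          have := C.mul_mem (C.mul_mem (C.inv_mem m.2) (hPC h)) m.2
          simpa [mul_assoc] using this
      refine Subgroup.mem_centralizer_iff.2 fun u hu => Subtype.ext ?_
      exact Subgroup.mem_centralizer_iff.1 (hNC m m.2 hmN) u hu)
    haveI := hM
    have hMp : (Nat.card M).Coprime p := by
      have h1 := hMc.index_eq_card
      have h2 := Q.not_dvd_index
      rw [hMc.index_eq_card] at h2
      exact (hp'.coprime_iff_not_dvd.2 h2).symm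
    have hMeq : ∀ N : Subgroup C, N.Normal → (Nat.card N).Coprime p → N ≤ M := by
      intro N hN hcop u hu
      have h1 := Subgroup.pow_index_mem M u
      obtain ⟨j, hj⟩ := IsPGroup.iff_card.1 Q.2
      rw [hMc.symm.index_eq_card, hj] at h1
      have hco : (orderOf u).Coprime (p ^ j) :=
        ((hcop.coprime_dvd_left (Subgroup.orderOf_dvd_natCard N hu))).pow_right j
      obtain ⟨i, hi⟩ := exists_pow_eq_self_of_coprime hco.symm
      rw [← hi]; exact M.pow_mem h1 i
    haveI hMn : (M.map C.subtype).Normal := by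
      refine ⟨fun a ha c => ?_⟩
      obtain ⟨u, hu, rfl⟩ := ha
      let e : C ≃* C := MulAut.conjNormal c
      have h1 : M.map e.toMonoidHom ≤ M := hMeq _ (hM.map _ e.surjective)
        ((Subgroup.card_map_of_injective (f := e.toMonoidHom) e.injective).symm ▸ hMp)
      refine ⟨e u, h1 (Subgroup.mem_map_of_mem _ hu), ?_⟩
      simp [e, MulAut.conjNormal_apply]
    have hM0 : M = ⊥ := (Subgroup.map_eq_bot_iff_of_injective M C.subtype_injective).1
      (le_bot_iff.1 (hO ▸ H19.le_pPrimeCore hMn (by rwa [Subgroup.card_map_of_injective C.subtype_injective])))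
    have hCP : C = (P : Subgroup K) := by
      refine (Subgroup.eq_of_le_of_card_ge hPC ?_).symm
      have h1 := hMc.card_mul
      rw [hM0, Subgroup.card_bot, one_mul] at h1
      rw [← h1, Q.card_eq_multiplicity, P.card_eq_multiplicity]
      refine Nat.pow_le_pow_right hp'.pos ?_
      exact (Nat.factorization_le_iff_dvd Nat.card_pos.ne' Nat.card_pos.ne').2
        (Subgroup.card_subgroup_dvd_card C) p
    have hPn : (P : Subgroup K).Normal := hCP ▸ hCn
    refine ⟨hPn, le_antisymm (fun u hu => ?_) (fun u hu => ?_), ?_, ?_⟩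
    · rw [← hCP]
      exact Subgroup.mem_centralizer_iff.2 fun v hv => Subgroup.mem_centralizer_iff.1 hu v
        ((Subgroup.zpowers_le.2 hzP) hv)
    · refine Subgroup.mem_centralizer_iff.2 fun v hv => ?_
      obtain ⟨i, rfl⟩ := Subgroup.mem_zpowers_iff.1 (hg.symm ▸ hu : u ∈ Subgroup.zpowers g)
      obtain ⟨j, rfl⟩ := Subgroup.mem_zpowers_iff.1 (hg.symm ▸ hv : v ∈ Subgroup.zpowers g)
      exact ((Commute.refl g).zpow_zpow j i).eq
    all_goals
      let A : K →* MulAut (Subgroup.zpowers z) := MulAut.conjNormal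
      have hker : A.ker = (P : Subgroup K) := by
        rw [← hCP]
        ext u
        rw [MonoidHom.mem_ker, hC, Subgroup.mem_centralizer_iff, MulEquiv.ext_iff]
        constructor
        · intro h v hv
          have := congrArg Subtype.val (h ⟨v, hv⟩)
          rw [MulAut.conjNormal_apply] at this
          exact (mul_inv_eq_iff_eq_mul.1 this).symm
        · exact fun h v => Subtype.ext (by
            rw [MulAut.conjNormal_apply]; exact mul_inv_eq_iff_eq_mul.2 (h v v.2).symm)
      haveI : IsCyclic (Subgroup.zpowers z) := inferInstance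
      have hcard : Nat.card (Subgroup.zpowers z) = p := by rw [Nat.card_zpowers, hoz]
      let e := IsCyclic.mulAutMulEquiv (Subgroup.zpowers z)
      haveI : IsCyclic (ZMod (Nat.card (Subgroup.zpowers z)))ˣ := by
        rw [hcard]; infer_instance
      haveI : IsCyclic (MulAut (Subgroup.zpowers z)) := e.isCyclic.2 inferInstance
    · intro hn
      haveI : IsCyclic A.range := Subgroup.isCyclic_of_le le_top
      have e1 : K ⧸ (P : Subgroup K) ≃* A.range :=
        (QuotientGroup.quotientMulEquivOfEq hker.symm).trans (QuotientGroup.quotientKerEquivRange A)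
      exact e1.isCyclic.2 inferInstance
    · rw [← hker, Subgroup.index_ker]
      have := Subgroup.card_subgroup_dvd_card A.range
      rwa [IsCyclic.card_mulAut, hcard, Nat.totient_prime hp'] at this
  · right
    -- the unique minimal normal subgroup
    set N := Subgroup.normalClosure ({z} : Set K) with hNdef
    haveI hN : N.Normal := Subgroup.normalClosure_normal
    have hzN : z ∈ N := Subgroup.subset_normalClosure rfl
    have hmin : ∀ M : Subgroup K, M.Normal → M ≠ ⊥ → N ≤ M := fun M hM hM0 =>
      haveI := hM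
      Subgroup.normalClosure_le_normal (Set.singleton_subset_iff.2 (hnormal M hM hM0))
    have hz1 : z ≠ 1 := fun e => by
      rw [e, orderOf_one] at hoz; exact hp'.one_lt.ne hoz
    have hN0 : N ≠ ⊥ := fun e => hz1 (Subgroup.mem_bot.1 (e ▸ hzN))
    -- `N` is not abelian
    have hNna : ¬ ∀ a ∈ N, ∀ b ∈ N, a * b = b * a := by
      intro hcomm
      -- the elements of `N` of exponent `p` form a normal subgroup
      let M : Subgroup K :=
        { carrier := {u | u ∈ N ∧ u ^ p = 1}
          one_mem' := ⟨N.one_mem, one_pow p⟩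
          mul_mem' := fun {a b} ha hb => ⟨N.mul_mem ha.1 hb.1, by
            rw [(show Commute a b from hcomm a ha.1 b hb.1).mul_pow, ha.2, hb.2, one_mul]⟩
          inv_mem' := fun {a} ha => ⟨N.inv_mem ha.1, by rw [inv_pow, ha.2, inv_one]⟩ }
      have hMn : M.Normal := ⟨fun a ha c => ⟨hN.conj_mem a ha.1 c, by rw [conj_pow, ha.2]; simp⟩⟩
      have hMp : IsPGroup p M := fun u => ⟨1, Subtype.ext (by simpa using u.2.2)⟩
      have hle : M ≤ (P : Subgroup K) := by
        haveI := hMn
        exact (P.3 (P.2.to_sup_of_normal_right hMp) le_sup_left) ▸ le_sup_right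
      apply hZn
      have e : M = Subgroup.zpowers z := by
        refine le_antisymm (fun u hu => hunique u (hle hu) hu.2) (Subgroup.zpowers_le.2 ⟨hzN, ?_⟩)
        rw [← hoz, pow_orderOf_eq_one]
      exact e ▸ hMn
    have hsimple : ∀ T : Subgroup N, T.Normal → T = ⊥ ∨ T = ⊤ := by
      intro T hT
      rcases eq_or_ne T ⊥ with h | h
      · exact Or.inl h
      right
      obtain ⟨T₀, ⟨hT₀n, hT₀0, hT₀T⟩, hT₀min⟩ := exists_minimal_of_wellFoundedLT
        (fun S : Subgroup N => S.Normal ∧ S ≠ ⊥ ∧ S ≤ T) ⟨T, hT, h, le_rfl⟩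
      -- `O_p'(N) = 1`
      have hOp : ∀ S : Subgroup N, S.Normal → S ≠ ⊥ → p ∣ Nat.card S := by
        intro S hS hS0
        by_contra hd
        haveI := H19.pPrimeCore_characteristic p N
        have h1 : S ≤ Cfsg.pPrimeCore p N := H19.le_pPrimeCore hS (hp'.coprime_iff_not_dvd.2 hd).symm
        have h2 : ((Cfsg.pPrimeCore p N).map N.subtype) ≤ Cfsg.pPrimeCore p K :=
          H19.le_pPrimeCore ConjAct.normal_of_characteristic_of_normal
            (by rw [Subgroup.card_map_of_injective N.subtype_injective]; exact H19.pPrimeCore_coprime p)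
        rw [hO, le_bot_iff, Subgroup.map_eq_bot_iff_of_injective _ N.subtype_injective] at h2
        exact hS0 (le_bot_iff.1 (h2 ▸ h1))
      -- every such subgroup contains `z`
      have hzmem : ∀ S : Subgroup N, S.Normal → S ≠ ⊥ → (⟨z, hzN⟩ : N) ∈ S := by
        intro S hS hS0
        obtain ⟨⟨u, huS⟩, hu⟩ := exists_prime_orderOf_dvd_card' p (hOp S hS hS0)
        rw [Subgroup.orderOf_mk] at hu
        obtain ⟨Q, hQ⟩ := IsPGroup.exists_le_sylow (p := p) (P := Subgroup.zpowers u)
          (IsPGroup.of_card (n := 1) (by rw [Nat.card_zpowers, hu, pow_one]))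
        obtain ⟨Q', hQ'⟩ := IsPGroup.exists_le_sylow (p := p) (P := Subgroup.zpowers (⟨z, hzN⟩ : N))
          (IsPGroup.of_card (n := 1) (by rw [Nat.card_zpowers, Subgroup.orderOf_mk, hoz, pow_one]))
        obtain ⟨c, hc⟩ := MulAction.exists_smul_eq N Q Q'
        have hcu : c * u * c⁻¹ ∈ (Q' : Subgroup N) := by
          rw [← hc, Sylow.smul_def, Sylow.pointwise_smul_def]
          exact Subgroup.smul_mem_pointwise_smul u (MulAut.conj c) _ (hQ (Subgroup.mem_zpowers u))
        -- the cyclic group `Q'` has only one subgroup of order `p`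
        obtain ⟨R, hR⟩ := IsPGroup.exists_le_sylow (p := p) (Q'.2.map N.subtype)
        obtain ⟨d, hd⟩ := MulAction.exists_smul_eq K R P
        have hle : Subgroup.zpowers (⟨z, hzN⟩ : N) = Subgroup.zpowers (c * u * c⁻¹) := by
          have ho1 : orderOf (⟨z, hzN⟩ : N) = p := by rw [Subgroup.orderOf_mk, hoz]
          have ho2 : orderOf (c * u * c⁻¹) = p :=
            (orderOf_injective (MulAut.conj c).toMonoidHom (MulAut.conj c).injective u).trans
              (by simpa using hu)
          have hfP : ∀ v : N, v ∈ (Q' : Subgroup N) → orderOf v = p →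
              d * v * d⁻¹ ∈ Subgroup.zpowers z ∧ orderOf (d * (v : K) * d⁻¹) = p := by
            intro v hv hvo
            have h1 : d * (v : K) * d⁻¹ ∈ (P : Subgroup K) := by
              rw [← hd, Sylow.smul_def, Sylow.pointwise_smul_def]
              exact Subgroup.smul_mem_pointwise_smul (v : K) (MulAut.conj d) _
                (hR (Subgroup.mem_map_of_mem _ hv))
            have h2 : orderOf (d * (v : K) * d⁻¹) = p := by
              rw [← hvo, ← Subgroup.orderOf_coe v]
              exact orderOf_injective (MulAut.conj d).toMonoidHom (MulAut.conj d).injective (v : K)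
            exact ⟨hunique _ h1 (by rw [← h2]; exact pow_orderOf_eq_one _), h2⟩
          obtain ⟨ha, hao⟩ := hfP _ (hQ' (Subgroup.mem_zpowers _)) ho1
          obtain ⟨hb, hbo⟩ := hfP _ hcu ho2
          rw [← zpowers_eq_of_orderOf_eq (hao.trans hoz.symm) ha] at hb
          obtain ⟨j, hj⟩ := Subgroup.mem_zpowers_iff.1 hb
          rw [conj_zpow, mul_left_inj, mul_right_inj] at hj
          refine (zpowers_eq_of_orderOf_eq (ho2.trans ho1.symm) ⟨j, Subtype.ext ?_⟩).symm
          simpa using hj
        exact Subgroup.zpowers_le.2 (hS.conj_mem u huS c) (hle ▸ Subgroup.mem_zpowers _)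
      have hTn : (T₀.map N.subtype).Normal := by
        refine ⟨fun a ha c => ?_⟩
        obtain ⟨u, hu, rfl⟩ := ha
        let e : N ≃* N := MulAut.conjNormal c
        have hT' : (T₀.map e.toMonoidHom).Normal := hT₀n.map _ e.surjective
        have hT'0 : T₀.map e.toMonoidHom ≠ ⊥ :=
          mt (Subgroup.map_eq_bot_iff_of_injective _ e.injective).1 hT₀0
        have hI : T₀ ⊓ T₀.map e.toMonoidHom ≠ ⊥ := fun h0 => by
          have : (⟨z, hzN⟩ : N) ∈ T₀ ⊓ T₀.map e.toMonoidHom :=
            ⟨hzmem _ hT₀n hT₀0, hzmem _ hT' hT'0⟩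
          rw [h0, Subgroup.mem_bot] at this
          exact hz1 (congrArg Subtype.val this)
        haveI := hT₀n
        haveI := hT'
        have hle : T₀ ≤ T₀ ⊓ T₀.map e.toMonoidHom :=
          hT₀min ⟨inferInstance, hI, inf_le_left.trans hT₀T⟩ inf_le_left
        have heq : T₀ = T₀.map e.toMonoidHom := Subgroup.eq_of_le_of_card_ge (hle.trans inf_le_right)
          (le_of_eq (Subgroup.card_map_of_injective (f := e.toMonoidHom) e.injective))
        refine ⟨e u, ?_, ?_⟩
        · rw [SetLike.mem_coe, heq]; exact Subgroup.mem_map_of_mem _ hu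
        · simp [e, MulAut.conjNormal_apply]
      have hT0' : T₀.map N.subtype ≠ ⊥ :=
        mt (Subgroup.map_eq_bot_iff_of_injective _ N.subtype_injective).1 hT₀0
      refine top_le_iff.1 fun u _ => hT₀T ?_
      obtain ⟨v, hv, hvu⟩ := hmin _ hTn hT0' u.2
      rwa [← Subtype.ext hvu]
    haveI : Nontrivial N := (Subgroup.nontrivial_iff_ne_bot N).2 hN0
    haveI hNs : IsSimpleGroup N := ⟨hsimple⟩
    -- the centralizer of `N` is trivial
    have hCN : Subgroup.centralizer (N : Set K) = ⊥ := by
      by_contra h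
      refine hNna fun a ha b hb => ?_
      exact (Subgroup.mem_centralizer_iff.1 (hmin _ Subgroup.normal_centralizer h hb) a ha)
    have hFN : Cfsg.generalizedFittingSubgroup K = N := by
      refine le_antisymm (sup_le (sSup_le fun L hL => ?_) ?_) (hmin _ (H51.generalizedFittingSubgroup_normal K) ?_)
      · rcases H51.component_le_or_commute_of_subnormal hL hN.isSubnormal with h | h
        · exact h
        · exact ((Subgroup.commutator_eq_bot_iff_le_centralizer.1 h).trans hCN.le).trans bot_le
      · haveI := H19.fitting_normal (G := K)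
        by_cases hF : Cfsg.fittingSubgroup K = ⊥
        · rw [hF]; exact bot_le
        exfalso
        have hnil : Group.IsNilpotent N := by
          haveI := H19.fitting_isNilpotent (G := K)
          exact Group.nilpotent_of_mulEquiv
            (Subgroup.subgroupOfEquivOfLe (hmin _ inferInstance hF))
        haveI := hnil
        refine hNna fun a ha b hb => ?_
        have hc := (hsimple (Subgroup.center N) inferInstance).resolve_left
          (fun h0 => Group.IsNilpotent.center_ne_bot (G := N) h0)
        exact congrArg Subtype.val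
          ((Subgroup.mem_center_iff.1 (hc ▸ Subgroup.mem_top (⟨b, hb⟩ : N)) ⟨a, ha⟩))
      · intro h
        have h1 := H51.centralizer_generalizedFitting_le K
        rw [h] at h1
        have h2 : z ∈ Subgroup.centralizer ((⊥ : Subgroup K) : Set K) := by
          simp [Subgroup.mem_centralizer_iff]
        exact hz1 (Subgroup.mem_bot.1 (h1 h2))
    rw [hFN]
    refine ⟨hNs, fun hc => hNna fun a ha b hb => ?_, ?_⟩
    · exact congrArg Subtype.val (hc.1.1 ⟨a, ha⟩ ⟨b, hb⟩)
    -- `P ≤ N`
    suffices hPN : (P : Subgroup K) ≤ N from fun hd =>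
      P.not_dvd_index (hd.trans (Subgroup.index_dvd_of_le hPN))
    by_contra hPN
    -- the Sylow subgroup `P ∩ N` of `N` is central in its normaliser
    set D := (P : Subgroup K) ⊓ N with hD
    obtain ⟨Q, hQ⟩ := IsPGroup.exists_le_sylow (p := p) (P := D.subgroupOf N)
      ((P.2.to_le inf_le_left).of_equiv (Subgroup.subgroupOfEquivOfLe inf_le_right).symm)
    have hQD : (Q : Subgroup N).map N.subtype = D := by
      refine (Subgroup.eq_of_le_of_card_ge ?_ ?_).symm
      · intro u hu
        exact ⟨⟨u, hu.2⟩, hQ (Subgroup.mem_subgroupOf.2 hu), rfl⟩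
      · rw [Subgroup.card_map_of_injective N.subtype_injective]
        obtain ⟨R, hR⟩ := IsPGroup.exists_le_sylow (p := p) (Q.2.map N.subtype)
        obtain ⟨d, hd⟩ := MulAction.exists_smul_eq K R P
        have hle : MulAut.conj d • ((Q : Subgroup N).map N.subtype) ≤ D := by
          refine le_inf ?_ ?_
          · rw [← hd, Sylow.smul_def, Sylow.pointwise_smul_def]
            exact Subgroup.pointwise_smul_le_pointwise_smul_iff.2 hR
          · rintro _ ⟨u, ⟨v, -, rfl⟩, rfl⟩
            exact hN.conj_mem v v.2 d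
        have := Nat.le_of_dvd Nat.card_pos (Subgroup.card_dvd_of_le hle)
        rwa [← Nat.card_congr (Subgroup.equivSMul _ _).toEquiv,
          Subgroup.card_map_of_injective N.subtype_injective] at this
    obtain ⟨Q₀, M, hM, hMc⟩ := H22.burnside_normal_complement Q (by
      intro x hx
      refine Subgroup.mem_centralizer_iff.2 fun q hq => Subtype.ext ?_
      have hqD : (q : K) ∈ D := hQD ▸ Subgroup.mem_map_of_mem _ hq
      have hxD : (x : K) ∈ Subgroup.normalizer (D : Set K) := by
        rw [← hQD]
        refine Subgroup.mem_normalizer_iff.2 fun u => ?_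
        by_cases hu : u ∈ N
        · have := Subgroup.mem_normalizer_iff.1 hx ⟨u, hu⟩
          constructor
          · rintro ⟨v, hv, hvu⟩
            exact ⟨x * v * x⁻¹, (Subgroup.mem_normalizer_iff.1 hx v).1 hv, by simp [← hvu]⟩
          · rintro ⟨v, hv, hvu⟩
            refine ⟨⟨u, hu⟩, this.2 ?_, rfl⟩
            rwa [show x * ⟨u, hu⟩ * x⁻¹ = v from Subtype.ext (by simpa using hvu.symm)]
        · refine iff_of_false ?_ ?_
          · rintro ⟨v, -, rfl⟩; exact hu v.2
          · rintro ⟨v, -, hv⟩
            refine hu ?_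
            have h2 := N.mul_mem (N.mul_mem (N.inv_mem x.2) v.2) x.2
            rw [show ((v : N) : K) = (x : K) * u * (x : K)⁻¹ from hv] at h2
            simpa [mul_assoc] using h2
      show (q : K) * x = x * q
      -- inside `X = N_K(D) ∩ N P`, `C_X(D)` is normal, so `x` may be corrected into `N_X(P)`
      set X := Subgroup.normalizer (D : Set K) ⊓ (N ⊔ (P : Subgroup K)) with hX
      have hPX : (P : Subgroup K) ≤ X := by
        refine le_inf (fun u hu => ?_) le_sup_right
        refine Subgroup.mem_normalizer_iff.2 fun v => ?_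
        constructor
        · exact fun hv => ⟨(P : Subgroup K).mul_mem ((P : Subgroup K).mul_mem hu hv.1)
            ((P : Subgroup K).inv_mem hu), hN.conj_mem v hv.2 u⟩
        · intro hv
          have h1 := (P : Subgroup K).mul_mem ((P : Subgroup K).mul_mem ((P : Subgroup K).inv_mem hu) hv.1) hu
          have h2 := hN.conj_mem _ hv.2 u⁻¹
          exact ⟨(by simpa [mul_assoc] using h1 : v ∈ (P : Subgroup K)), by simpa [mul_assoc] using h2⟩
      have hDP : ∀ u ∈ (P : Subgroup K), ∀ v ∈ D, v * u = u * v := by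
        intro u hu v hv
        obtain ⟨i, rfl⟩ := Subgroup.mem_zpowers_iff.1 (hg.symm ▸ hu : u ∈ Subgroup.zpowers g)
        obtain ⟨j, rfl⟩ := Subgroup.mem_zpowers_iff.1 (hg.symm ▸ hv.1 : v ∈ Subgroup.zpowers g)
        exact ((Commute.refl g).zpow_zpow j i).eq
      let C₀ : Subgroup X := (Subgroup.centralizer (D : Set K)).subgroupOf X
      haveI : C₀.Normal := by
        refine ⟨fun c hc m => Subgroup.mem_centralizer_iff.2 fun v hv => ?_⟩
        have hm : (m : K) ∈ Subgroup.normalizer (D : Set K) := m.2.1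
        have hv' : (m : K)⁻¹ * v * m ∈ D := by
          have := (Subgroup.mem_normalizer_iff.1 hm ((m : K)⁻¹ * v * m)).2 (by simpa [mul_assoc] using hv)
          exact this
        have e := Subgroup.mem_centralizer_iff.1 hc _ hv'
        show v * ((m : K) * c * (m : K)⁻¹) = (m : K) * c * (m : K)⁻¹ * v
        have e' : (m : K)⁻¹ * v * m * c = c * ((m : K)⁻¹ * v * m) := e
        calc v * ((m : K) * c * (m : K)⁻¹) = m * (((m : K)⁻¹ * v * m) * c) * (m : K)⁻¹ := by group
          _ = _ := by rw [e']; simp [mul_assoc]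
      let PX : Sylow p X := P.subtype hPX
      have hPC₀ : (PX : Subgroup X) ≤ C₀ := fun u hu =>
        Subgroup.mem_centralizer_iff.2 fun v hv => hDP u hu v hv
      have htop := Sylow.normalizer_sup_eq_top' PX hPC₀
      obtain ⟨n₁, hn₁, c₁, hc₁, hnc⟩ :
          (⟨(x : K), hxD, Subgroup.mem_sup_left x.2⟩ : X) ∈
            (Subgroup.normalizer ((PX : Subgroup X) : Set X) : Set X) * (C₀ : Set X) := by
        rw [← Subgroup.mul_normal]
        exact SetLike.mem_coe.2 (htop.ge (Subgroup.mem_top _))
      have hn₁P : (n₁ : K) ∈ Subgroup.normalizer ((P : Subgroup K) : Set K) := by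
        refine Subgroup.mem_normalizer_iff.2 fun u => ?_
        by_cases hu : u ∈ X
        · have := Subgroup.mem_normalizer_iff.1 hn₁ ⟨u, hu⟩
          simpa [PX, Subgroup.mem_subgroupOf] using this
        · refine iff_of_false (fun h => hu (hPX h)) fun h => hu ?_
          have := X.mul_mem (X.mul_mem (X.inv_mem n₁.2) (hPX h)) n₁.2
          simpa [mul_assoc] using this
      -- split `n₁ = m * u` with `m ∈ N`, `u ∈ P`
      obtain ⟨m, hm, u, hu, hmu⟩ : (n₁ : K) ∈ (N : Set K) * ((P : Subgroup K) : Set K) := by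
        rw [← Subgroup.normal_mul]; exact n₁.2.2
      have hmP : m ∈ Subgroup.normalizer ((P : Subgroup K) : Set K) := by
        have : m = (n₁ : K) * u⁻¹ := by rw [← hmu]; simp
        rw [this]
        exact (Subgroup.normalizer _).mul_mem hn₁P ((Subgroup.normalizer _).inv_mem (Subgroup.le_normalizer hu))
      obtain ⟨r, hr⟩ := Subgroup.mem_zpowers_iff.1 (hg.symm ▸
        (Subgroup.mem_normalizer_iff.1 hmP g).1 (hg ▸ Subgroup.mem_zpowers g) :
          m * g * m⁻¹ ∈ Subgroup.zpowers g)
      have hmC := H91.CyclicSylow.mem_centralizer_of_modEq P hg hmP hr.symm (by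
        have hgr : g ^ (r - 1) ∈ D := by
          refine ⟨hg ▸ Subgroup.zpow_mem _ (Subgroup.mem_zpowers g) _, ?_⟩
          rw [zpow_sub, hr, zpow_one, show m * g * m⁻¹ * g⁻¹ = m * (g * m⁻¹ * g⁻¹) by group]
          exact N.mul_mem hm (hN.conj_mem _ (N.inv_mem hm) g)
        by_contra hnd
        refine hPN ?_
        rw [← hg, Subgroup.zpowers_le]
        obtain ⟨a, b, hab⟩ : IsCoprime ((p : ℤ) ^ k) (r - 1) :=
          ((Nat.prime_iff_prime_int.1 hp').coprime_iff_not_dvd.2 hnd).pow_left
        have e : g = (g ^ (r - 1)) ^ b := by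
          have h1 : g ^ ((p : ℤ) ^ k) = 1 := by
            rw [← Nat.cast_pow, zpow_natCast, ← hog, pow_orderOf_eq_one]
          conv_lhs => rw [← zpow_one g, ← hab, zpow_add, zpow_mul', h1, one_zpow, one_mul, zpow_mul']
        rw [e]
        exact N.zpow_mem hgr.2 b)
      have hx' : (x : K) = m * u * c₁ := by
        have := congrArg Subtype.val hnc
        change (n₁ : K) * c₁ = x at this
        rw [← this, ← hmu]
      have hqm : Commute (q : K) m := Subgroup.mem_centralizer_iff.1 hmC q hqD.1
      have hqu : Commute (q : K) u := hDP u hu q hqD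
      have hqc : Commute (q : K) c₁ := Subgroup.mem_centralizer_iff.1 hc₁ q hqD
      rw [hx']
      exact ((hqm.mul_right hqu).mul_right hqc).eq)
    haveI := hM
    rcases hsimple M hM with h | h
    · -- `N` is a cyclic `p`-group
      have hpn : IsPGroup p N := by
        have h1 := hMc.card_mul
        rw [h, Subgroup.card_bot, one_mul] at h1
        obtain ⟨j, hj⟩ := IsPGroup.iff_card.1 Q₀.2
        exact IsPGroup.of_card (n := j) (h1.symm.trans hj)
      have hle : N ≤ (P : Subgroup K) := (P.3 (P.2.to_sup_of_normal_right hpn) le_sup_left) ▸ le_sup_right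
      refine hNna fun a ha b hb => ?_
      obtain ⟨i, rfl⟩ := Subgroup.mem_zpowers_iff.1 (hg.symm ▸ hle ha : a ∈ Subgroup.zpowers g)
      obtain ⟨j, rfl⟩ := Subgroup.mem_zpowers_iff.1 (hg.symm ▸ hle hb : b ∈ Subgroup.zpowers g)
      exact ((Commute.refl g).zpow_zpow i j).eq
    · have h2 := Q₀.not_dvd_index
      rw [hMc.index_eq_card, h, Subgroup.card_top] at h2
      exact h2 ((hoz ▸ Subgroup.orderOf_dvd_natCard N hzN))

end Cfsg.Agent.S4403
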