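import Cfsg.Statements.S4405
import Cfsg.Agent.H91.Small.MinusFive
import Cfsg.Agent.H19.Cores

set_option autoImplicit false
open Cfsg
open scoped commutatorElement
set_option maxHeartbeats 800000

namespace Cfsg.Agent.S4405

/-- Let G be a finite group of order 320 = 64·5 whose largest normal 2-subgroup H = O₂(G) equals the Fitting subgroup F(G) and is extraspecial of order 32 containing no elementary abelian subgroup of order 8 (so H is the central product of a quaternion group and a dihedral group of order 8). If T is an involution of G outside H whose centralizer in H contains an elementary abelian subgroup of order 4, then C_H(T) itself is elementary abelian of order 4. -/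
theorem result {G : Type*} [Group G] [Finite G]
    (hG : Nat.card G = 320) (hHF : Cfsg.pCore 2 G = Cfsg.fittingSubgroup G)
    (hex : Cfsg.IsExtraspecial 2 ↥(Cfsg.pCore 2 G)) (h32 : Nat.card ↥(Cfsg.pCore 2 G) = 32)
    (hminus : ∀ A : Subgroup G, A ≤ Cfsg.pCore 2 G → Cfsg.IsElementaryAbelian 2 A → Nat.card ↥A ≤ 4)
    (T : G) (hT : orderOf T = 2) (hTH : T ∉ Cfsg.pCore 2 G)
    (V : Subgroup G) (hV : V ≤ Cfsg.pCore 2 G ⊓ Subgroup.centralizer ({T} : Set G)) (hV4 : Nat.card ↥V = 4) (hVe : Cfsg.IsElementaryAbelian 2 V) :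
    Nat.card ↥(Cfsg.pCore 2 G ⊓ Subgroup.centralizer ({T} : Set G)) = 4 ∧
      Cfsg.IsElementaryAbelian 2 (Cfsg.pCore 2 G ⊓ Subgroup.centralizer ({T} : Set G)) := by
  classical
  set H := Cfsg.pCore 2 G with hHdef
  haveI hHn : H.Normal := H19.pCore_normal 2 G
  have hminus' : ∀ A : Subgroup H, Cfsg.IsElementaryAbelian 2 A → Nat.card ↥A ≤ 4 := by
    intro A hA
    rw [← Subgroup.card_map_of_injective H.subtype_injective]
    refine hminus _ (Subgroup.map_subtype_le A) ⟨⟨⟨?_⟩⟩, ?_⟩
    · rintro ⟨_, x, hx, rfl⟩ ⟨_, y, hy, rfl⟩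
      exact Subtype.ext (congrArg (fun w : A => ((w : H) : G)) (hA.1.1.1 ⟨x, hx⟩ ⟨y, hy⟩))
    · rintro _ ⟨x, hx, rfl⟩
      rw [← map_pow, hA.2 x hx, map_one]
  have hS : H91.MinusFive.Setting H := ⟨hex, h32, hminus'⟩
  haveI : Fact (Nat.Prime 5) := ⟨by norm_num⟩
  -- the centraliser of `H` lies in `H`
  set C := Subgroup.centralizer (H : Set G) with hC
  haveI hCn : C.Normal := Subgroup.normal_centralizer
  have hCH : C ≤ H := by
    have hinter : Nat.card (H.subgroupOf C) = 2 := by
      have e : (H.subgroupOf C).map C.subtype = (Subgroup.center H).map H.subtype := by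
        ext x
        constructor
        · rintro ⟨⟨y, hyC⟩, hy, rfl⟩
          exact ⟨⟨y, hy⟩, Subgroup.mem_center_iff.2 fun w => Subtype.ext
            (Subgroup.mem_centralizer_iff.1 hyC w w.2), rfl⟩
        · rintro ⟨y, hy, rfl⟩
          exact ⟨⟨y, Subgroup.mem_centralizer_iff.2 fun w hw =>
            congrArg Subtype.val (Subgroup.mem_center_iff.1 hy ⟨w, hw⟩)⟩, y.2, rfl⟩
      have := congrArg (fun K : Subgroup G => Nat.card K) e
      rw [Subgroup.card_map_of_injective C.subtype_injective,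
        Subgroup.card_map_of_injective H.subtype_injective] at this
      exact this.trans hex.2
    have hd : Nat.card C ∣ 20 := by
      have h1 : H.relIndex C ∣ H.index := Subgroup.relIndex_dvd_index_of_normal H C
      have h2 := H.card_mul_index
      rw [h32, hG] at h2
      have h3 := (H.subgroupOf C).card_mul_index
      rw [hinter] at h3
      rw [show H.index = 10 by omega] at h1
      rw [← h3]
      exact Nat.mul_dvd_mul_left 2 h1
    by_cases h5 : 5 ∣ Nat.card C
    · exfalso
      obtain ⟨Q⟩ := (inferInstance : Nonempty (Sylow 5 C))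
      have hn : Nat.card (Sylow 5 C) = 1 := by
        have h1 := (Q.card_dvd_index).trans (Subgroup.index_dvd_card _) |>.trans hd
        have h2 := card_sylow_modEq_one 5 C
        have h3 : Nat.card (Sylow 5 C) ≤ 20 := Nat.le_of_dvd (by norm_num) h1
        rw [Nat.ModEq] at h2
        generalize Nat.card (Sylow 5 C) = k at h1 h2 h3
        interval_cases k <;> omega
      haveI : Subsingleton (Sylow 5 C) := (Nat.card_eq_one_iff_unique.1 hn).1
      haveI : (Q : Subgroup C).Characteristic := Q.characteristic_of_subsingleton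
      have hQ5 : IsPGroup 5 ((Q : Subgroup C).map C.subtype) := Q.2.map _
      have hle : (Q : Subgroup C).map C.subtype ≤ H :=
        hHF.symm ▸ H19.le_fitting ConjAct.normal_of_characteristic_of_normal hQ5.isNilpotent
      have h1 := Subgroup.card_dvd_of_le hle
      rw [Subgroup.card_map_of_injective C.subtype_injective, h32] at h1
      have h2 := Q.dvd_card_of_dvd_card h5
      have := h2.trans h1
      omega
    · refine H19.le_pCore hCn ?_
      obtain ⟨c, hc⟩ := hd
      have h4 : Nat.card C ∣ 4 := by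
        refine (Nat.Coprime.dvd_of_dvd_mul_right ?_ (show Nat.card C ∣ 4 * 5 from ⟨c, hc⟩))
        exact ((by norm_num : Nat.Prime 5).coprime_iff_not_dvd.2 h5).symm
      obtain ⟨k, -, hk⟩ := (Nat.dvd_prime_pow Nat.prime_two).1 (show Nat.card C ∣ 2 ^ 2 from h4)
      exact IsPGroup.of_card hk
  -- the action on five points
  let Φ : G →* Equiv.Perm (H91.MinusFive.Pt H) := (H91.MinusFive.perm H).comp MulAut.conjNormal
  have hker : Φ.ker = H := by
    ext g
    rw [MonoidHom.mem_ker]
    change H91.MinusFive.perm H (MulAut.conjNormal g) = 1 ↔ g ∈ H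
    rw [← MonoidHom.mem_ker, H91.MinusFive.ker_perm hS]
    constructor
    · rintro ⟨x, hx⟩
      have h1 : (x : G)⁻¹ * g ∈ C := by
        refine Subgroup.mem_centralizer_iff.2 fun w hw => ?_
        have := congrArg (fun φ : MulAut H => ((φ ⟨w, hw⟩ : H) : G)) hx
        simp only [MulAut.conj_apply, MulAut.conjNormal_apply, Subgroup.coe_mul, Subgroup.coe_inv] at this
        calc w * ((x : G)⁻¹ * g) = (x : G)⁻¹ * (x * w * (x : G)⁻¹) * g := by group
          _ = (x : G)⁻¹ * g * w := by rw [this]; group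
      simpa using H.mul_mem x.2 (hCH h1)
    · intro hg
      exact ⟨⟨g, hg⟩, MulEquiv.ext fun w => Subtype.ext (by simp [MulAut.conjNormal_apply])⟩
  have hR : Nat.card Φ.range = 10 := by
    have := H.card_mul_index
    rw [h32, hG, ← hker, Subgroup.index_ker] at this
    omega
  set R := Φ.range
  obtain ⟨c, hc⟩ := exists_prime_orderOf_dvd_card' (G := R) 5 (by rw [hR]; norm_num)
  set σ : Equiv.Perm (H91.MinusFive.Pt H) := Φ T with hσ
  have hσ1 : σ ≠ 1 := fun h => hTH (hker ▸ MonoidHom.mem_ker.2 h)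
  have hcn : (Subgroup.zpowers c).Normal := by
    refine Subgroup.normal_of_index_eq_two ?_
    have := (Subgroup.zpowers c).card_mul_index
    rw [Nat.card_zpowers, hc, hR] at this
    omega
  obtain ⟨j, hj⟩ := Subgroup.mem_zpowers_iff.1
    (hcn.conj_mem c (Subgroup.mem_zpowers c) (⟨σ, T, rfl⟩ : R))
  haveI := Fintype.ofFinite (H91.MinusFive.Pt H)
  have hpt : Fintype.card (H91.MinusFive.Pt H) = 5 := by
    rw [← Nat.card_eq_fintype_card]; exact H91.MinusFive.card_pt hS
  set c' : Equiv.Perm (H91.MinusFive.Pt H) := c.1 with hc'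
  have hco : orderOf c' = 5 := by rw [hc', Subgroup.orderOf_coe, hc]
  have hjc : σ * c' * σ⁻¹ = c' ^ j := (congrArg Subtype.val hj).symm
  have hcyc : c'.IsCycle := Equiv.Perm.isCycle_of_prime_order'' (hpt ▸ (by norm_num)) (hco.trans hpt.symm)
  have hsupp : ∀ x, c' x ≠ x := by
    intro x hx
    have h1 := hcyc.orderOf
    rw [hco] at h1
    have h2 : c'.support = Finset.univ := Finset.eq_univ_of_card _ (by rw [← h1, hpt])
    exact (Equiv.Perm.mem_support.1 (h2 ▸ Finset.mem_univ x)) hx
  have hfix : ∀ a b, σ a = a → σ b = b → a = b := by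
    intro a b ha hb
    by_contra hab
    apply hσ1
    obtain ⟨i, hi⟩ := hcyc.sameCycle (hsupp a) (hsupp b)
    have hai : σ⁻¹ a = a := by rw [Equiv.Perm.inv_eq_iff_eq, ha]
    have h1 : (σ * c' * σ⁻¹) ^ i = c' ^ (j * i) := by rw [hjc, zpow_mul]
    have h2 : (c' ^ (j * i)) a = b := by
      rw [← h1, conj_zpow, Equiv.Perm.mul_apply, Equiv.Perm.mul_apply, hai, hi, hb]
    have h3 : (c' ^ ((j - 1) * i)) a = a := by
      have e : c' ^ ((j - 1) * i) = (c' ^ i)⁻¹ * c' ^ (j * i) := by rw [← zpow_neg, ← zpow_add]; ring_nf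
      rw [e, Equiv.Perm.mul_apply, h2, ← hi]
      simp
    have h4 : (5 : ℤ) ∣ (j - 1) * i := by
      have h5 := (hcyc.pow_eq_one_iff' (hsupp a) (n := ((j - 1) * i % 5).toNat)).2
      have hmod : c' ^ ((j - 1) * i) = c' ^ ((j - 1) * i % 5).toNat := by
        rw [← zpow_natCast, Int.toNat_of_nonneg (Int.emod_nonneg _ (by norm_num)),
          ← zpow_mod_orderOf, hco]
        rfl
      rw [hmod] at h3
      have h6 := orderOf_dvd_of_pow_eq_one (h5 h3)
      rw [hco] at h6
      omega
    have h7 : ¬ (5 : ℤ) ∣ i := by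
      rintro ⟨k, rfl⟩
      apply hab
      have e5 : c' ^ (5 : ℤ) = 1 := by
        rw [show (5 : ℤ) = ((orderOf c' : ℕ) : ℤ) by rw [hco]; rfl, zpow_natCast, pow_orderOf_eq_one]
      rw [← hi, zpow_mul, e5, one_zpow, Equiv.Perm.one_apply]
    have h8 : c' ^ j = c' := by
      obtain ⟨k, hk⟩ := ((Int.prime_iff_natAbs_prime.2 (by norm_num)).dvd_or_dvd h4).resolve_right h7
      have e5 : c' ^ (5 : ℤ) = 1 := by
        rw [show (5 : ℤ) = ((orderOf c' : ℕ) : ℤ) by rw [hco]; rfl, zpow_natCast, pow_orderOf_eq_one]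
      rw [show j = 5 * k + 1 by omega, zpow_add, zpow_mul, e5, one_zpow, one_mul, zpow_one]
    have hcomm : Commute σ c' := by
      rw [h8] at hjc
      exact mul_inv_eq_iff_eq_mul.1 hjc
    refine Equiv.ext fun x => ?_
    obtain ⟨k, rfl⟩ := hcyc.sameCycle (hsupp a) (hsupp x)
    rw [Equiv.Perm.one_apply, ← Equiv.Perm.mul_apply, (hcomm.zpow_right k).eq, Equiv.Perm.mul_apply, ha]
  -- two moved pairs
  obtain ⟨a, ha⟩ : ∃ a, σ a ≠ a := by
    by_contra h; push Not at h; exact hσ1 (Equiv.ext h)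
  obtain ⟨b, hba, hbσ, hb⟩ : ∃ b, b ≠ a ∧ b ≠ σ a ∧ σ b ≠ b := by
    by_contra h
    push Not at h
    have hsub : (Finset.univ \ {a, σ a} : Finset (H91.MinusFive.Pt H)).card ≤ 1 := by
      refine Finset.card_le_one.2 fun x hx y hy => ?_
      simp only [Finset.mem_sdiff, Finset.mem_insert, Finset.mem_singleton, not_or] at hx hy
      exact hfix x y (h x hx.2.1 hx.2.2) (h y hy.2.1 hy.2.2)
    have h3 := Finset.le_card_sdiff ({a, σ a} : Finset (H91.MinusFive.Pt H)) Finset.univ
    rw [Finset.card_univ, hpt] at h3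
    have := Finset.card_le_two (a := a) (b := σ a)
    omega
  set α : MulAut H := MulAut.conjNormal T with hα
  have hT2 : T * T = 1 := by rw [← pow_two, ← hT]; exact pow_orderOf_eq_one T
  have hαα : ∀ x, α (α x) = x := fun x => by
    rw [← MulAut.mul_apply, hα, ← map_mul, hT2, map_one, MulAut.one_apply]
  obtain ⟨z, hz, hz1⟩ := H24.espec_exists_center hex
  have hσσ : ∀ q, σ (σ q) = q := fun q => by
    rw [← Equiv.Perm.mul_apply, hσ, ← map_mul, hT2, map_one, Equiv.Perm.one_apply]
  have hmk : ∀ q : H91.MinusFive.Pt H,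
      ((α (H91.MinusFive.lift q) : H) : H ⧸ Subgroup.center H) = (σ q).1 := by
    intro q
    show _ = H91.MinusFive.act H α q.1
    rw [← H91.MinusFive.mk_lift q, H91.MinusFive.act_mk]
  have hαq : ∀ q : H91.MinusFive.Pt H, α (H91.MinusFive.lift q) ^ 2 = 1 := fun q => by
    rw [← map_pow, H91.MinusFive.lift_sq, map_one]
  have hαnc : ∀ q : H91.MinusFive.Pt H, α (H91.MinusFive.lift q) ∉ Subgroup.center H := fun q h =>
    (σ q).2.1 ((hmk q) ▸ (QuotientGroup.eq_one_iff _).2 h)
  have hcm : ∀ q r : H91.MinusFive.Pt H, σ q ≠ r →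
      ⁅α (H91.MinusFive.lift q), H91.MinusFive.lift r⁆ = z := fun q r h =>
    H91.MinusFive.comm_lift hS hz hz1 (hαnc q) (H91.MinusFive.lift_notMem r) (hαq q)
      (H91.MinusFive.lift_sq r) (fun e => h (Subtype.ext (by rw [← hmk, e, H91.MinusFive.mk_lift])))
  -- the map `x ↦ x⁻¹ α x` modulo the centre
  have hab' : ∀ x y : H ⧸ Subgroup.center H, x * y = y * x := by
    intro x y
    obtain ⟨x, rfl⟩ := QuotientGroup.mk_surjective x
    obtain ⟨y, rfl⟩ := QuotientGroup.mk_surjective y
    rw [← QuotientGroup.mk_mul, ← QuotientGroup.mk_mul, QuotientGroup.eq]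
    have e : (x * y)⁻¹ * (y * x) = ⁅y⁻¹, x⁻¹⁆ := by rw [commutatorElement_def]; group
    rw [e]; exact H24.espec_comm_mem hex _ _
  let χ : H →* H ⧸ Subgroup.center H :=
    { toFun := fun x => ((x⁻¹ * α x : H) : H ⧸ Subgroup.center H)
      map_one' := by simp
      map_mul' := fun x y => by
        simp only [map_mul, mul_inv_rev, QuotientGroup.mk_mul, QuotientGroup.mk_inv]
        rw [hab' (y : H ⧸ Subgroup.center H)⁻¹ (x : H ⧸ Subgroup.center H)⁻¹]
        simp only [mul_assoc]
        congr 1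
        rw [← mul_assoc, hab' ((y : H ⧸ Subgroup.center H)⁻¹), mul_assoc] }
  set u := H91.MinusFive.lift a with hu
  set w := H91.MinusFive.lift b with hw
  have hui : u⁻¹ = u := inv_eq_of_mul_eq_one_right (by rw [← pow_two, hu, H91.MinusFive.lift_sq])
  have hwi : w⁻¹ = w := inv_eq_of_mul_eq_one_right (by rw [← pow_two, hw, H91.MinusFive.lift_sq])
  have hχu : χ u = ((u * α u : H) : H ⧸ Subgroup.center H) := by
    show ((u⁻¹ * α u : H) : H ⧸ Subgroup.center H) = _; rw [hui]
  have hχw : χ w = ((w * α w : H) : H ⧸ Subgroup.center H) := by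
    show ((w⁻¹ * α w : H) : H ⧸ Subgroup.center H) = _; rw [hwi]
  have hz2 := H91.MinusFive.sq_central hS hz
  have hne1 : ∀ q : H91.MinusFive.Pt H, σ q ≠ q →
      χ (H91.MinusFive.lift q) ≠ 1 := by
    intro q hq e
    have h1 := (QuotientGroup.eq (s := Subgroup.center H)).2 ((QuotientGroup.eq_one_iff _).1 e)
    rw [H91.MinusFive.mk_lift, hmk] at h1
    exact hq (Subtype.ext h1).symm
  have hne2 : χ u ≠ χ w := by
    intro e
    rw [hχu, hχw, QuotientGroup.eq] at e
    have h1 : ⁅u, (u * α u)⁻¹ * (w * α w)⁆ = 1 :=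
      commutatorElement_eq_one_iff_mul_comm.2 (Subgroup.mem_center_iff.1 e u)
    rw [H24.comm_mul_right (H24.espec_comm_mem hex _ _), H24.comm_mul_right (H24.espec_comm_mem hex _ _)] at h1
    have e1 : ⁅u, (u * α u)⁻¹⁆ = z := by
      have h2 : (u * α u)⁻¹ = α u * u := by
        rw [mul_inv_rev, hui, inv_eq_of_mul_eq_one_right (by rw [← pow_two, hu]; exact hαq a)]
      rw [h2, H24.comm_mul_right (H24.espec_comm_mem hex _ _), commutatorElement_self, mul_one,
        ← commutatorElement_inv, hu, hcm a a ha, inv_eq_of_mul_eq_one_right (by rw [← pow_two, hz2])]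
    have e2 : ⁅u, w⁆ = z := H91.MinusFive.comm_lift hS hz hz1 (H91.MinusFive.lift_notMem a)
      (H91.MinusFive.lift_notMem b) (H91.MinusFive.lift_sq a) (H91.MinusFive.lift_sq b)
      (fun e => hba (Subtype.ext (by rw [H91.MinusFive.mk_lift, H91.MinusFive.mk_lift] at e; exact e.symm)))
    have e3 : ⁅u, α w⁆ = z := by
      rw [← commutatorElement_inv, hw, hu, hcm b a (fun e => hbσ (by rw [← e, hσσ])),
        inv_eq_of_mul_eq_one_right (by rw [← pow_two, hz2])]
    rw [e1, e2, e3, ← pow_two, hz2, mul_one] at h1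
    exact hz1 h1
  have hr : 3 ≤ Nat.card χ.range := by
    have h1 : ({1, χ u, χ w} : Finset (H ⧸ Subgroup.center H)).card = 3 := by
      exact Finset.card_eq_three.2 ⟨1, χ u, χ w, (hne1 a ha).symm, (hne1 b hb).symm, hne2, rfl⟩
    have h2 : ((({1, χ u, χ w} : Finset (H ⧸ Subgroup.center H))) : Set (H ⧸ Subgroup.center H)) ⊆
        (χ.range : Set (H ⧸ Subgroup.center H)) := by
      intro y hy
      simp only [Finset.coe_insert, Finset.coe_singleton, Set.mem_insert_iff, Set.mem_singleton_iff] at hy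
      rcases hy with rfl | rfl | rfl
      · exact χ.range.one_mem
      · exact ⟨u, rfl⟩
      · exact ⟨w, rfl⟩
    have h3 := Set.ncard_le_ncard h2 (Set.toFinite _)
    rw [Set.ncard_coe_finset, h1, ← Nat.card_coe_set_eq] at h3
    exact h3
  have hW : Nat.card χ.ker ≤ 8 := by
    have h1 := χ.ker.card_mul_index
    rw [Subgroup.index_ker, h32] at h1
    obtain ⟨k, -, hk⟩ := (Nat.dvd_prime_pow Nat.prime_two).1
      (show Nat.card χ.range ∣ 2 ^ 5 from ⟨Nat.card χ.ker, by rw [mul_comm, h1]; norm_num⟩)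
    rw [hk] at hr h1
    have : 4 ≤ 2 ^ k := by
      rcases k with _ | _ | k
      · simp at hr
      · simp at hr
      · rw [pow_succ, pow_succ]; have := Nat.one_le_two_pow (n := k); omega
    nlinarith
  set D := (H ⊓ Subgroup.centralizer ({T} : Set G)).subgroupOf H with hD
  have hDmem : ∀ x : H, x ∈ D ↔ α x = x := by
    intro x
    rw [hD, Subgroup.mem_subgroupOf, Subgroup.mem_inf, hα, Subtype.ext_iff, MulAut.conjNormal_apply,
      mul_inv_eq_iff_eq_mul]
    refine ⟨fun h => Subgroup.mem_centralizer_iff.1 h.2 T rfl, fun h => ⟨x.2, Subgroup.mem_centralizer_iff.2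
      fun y hy => by rw [Set.mem_singleton_iff.1 hy]; exact h⟩⟩
  have hDlt : D < χ.ker := by
    refine lt_of_le_of_ne (fun x hx => ?_) fun e => ?_
    · rw [MonoidHom.mem_ker]
      show ((x⁻¹ * α x : H) : H ⧸ Subgroup.center H) = 1
      rw [(hDmem x).1 hx, inv_mul_cancel]; rfl
    · have h1 : u * α u ∈ χ.ker := by
        rw [MonoidHom.mem_ker]
        show (((u * α u)⁻¹ * α (u * α u) : H) : H ⧸ Subgroup.center H) = 1
        rw [map_mul, hαα, mul_inv_rev, QuotientGroup.eq_one_iff,
          show (α u)⁻¹ * u⁻¹ * (α u * u) = ⁅(α u)⁻¹, u⁻¹⁆ by rw [commutatorElement_def]; group]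
        exact H24.espec_comm_mem hex _ _
      rw [← e, hDmem, map_mul, hαα] at h1
      have h2 : ⁅α u, u⁆ = 1 := commutatorElement_eq_one_iff_mul_comm.2 h1
      rw [hu, hcm a a ha] at h2
      exact hz1 h2
  have hD4 : Nat.card D ≤ 4 := by
    obtain ⟨k, hk⟩ := Subgroup.card_dvd_of_le hDlt.le
    have hlt : Nat.card D < Nat.card χ.ker := lt_of_le_of_ne (Subgroup.card_le_of_le hDlt.le)
      fun e => hDlt.ne (Subgroup.eq_of_le_of_card_ge hDlt.le e.ge)
    rcases k with _ | _ | k
    · simp only [mul_zero] at hk; omega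
    · simp only [zero_add, mul_one] at hk; omega
    · nlinarith
  rw [hD, Nat.card_congr (Subgroup.subgroupOfEquivOfLe inf_le_left).toEquiv] at hD4
  have heq : V = H ⊓ Subgroup.centralizer ({T} : Set G) :=
    Subgroup.eq_of_le_of_card_ge hV (by rw [hV4]; exact hD4)
  exact ⟨heq ▸ hV4, heq ▸ hVe⟩

end Cfsg.Agent.S4405
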