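import Cfsg.Statements.S4406


set_option autoImplicit false
open Cfsg

namespace Cfsg.Agent.S4406

set_option synthInstance.maxSize 2000 in
set_option synthInstance.maxHeartbeats 200000 in
/-- In `A₄`: an element of order three moves one involution to any other one, up to inversion. -/
theorem A4_dichotomy : ∀ b w : ↥(alternatingGroup (Fin 4)), b * b * b = 1 → b ≠ 1 → w * w = 1 → w ≠ 1 →
    ∀ w' : ↥(alternatingGroup (Fin 4)), w' * w' = 1 → w' ≠ 1 → w' ≠ w →
      b * w * b⁻¹ = w' ∨ b⁻¹ * w * b = w' := by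
  decide

theorem A4_conj_ne : ∀ a v : ↥(alternatingGroup (Fin 4)), a * a * a = 1 → a ≠ 1 → v * v = 1 → v ≠ 1 →
    a * v * a⁻¹ ≠ v := by
  decide

set_option maxRecDepth 100000 in
theorem A4_orbit : ∀ a v : ↥(alternatingGroup (Fin 4)), a * a * a = 1 → a ≠ 1 → v * v = 1 →
    a * (a * v * a⁻¹) * a⁻¹ = (v * (a * v * a⁻¹))⁻¹ := by
  decide +kernel

theorem A4_sq : ∀ x : ↥(alternatingGroup (Fin 4)), x * x * x * x = 1 → x * x = 1 := by
  decide

theorem A4_two : Nat.card {x : ↥(alternatingGroup (Fin 4)) // x * x = 1} = 4 := by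
  rw [Nat.card_eq_fintype_card]
  decide


/-- In the direct product P = A₄ × A₄, let X be the Sylow 2-subgroup, X₁ and X₂ its intersections with the two direct factors, Q a Sylow 3-subgroup and Q₁, Q₂ its intersections with the two factors. Then every subgroup B of X of order 4 either meets X₁ or X₂ nontrivially, or is normalized by one of the two subgroups of Q of order 3 other than Q₁ and Q₂. -/
theorem result
    (X : Sylow 2 (↥(alternatingGroup (Fin 4)) × ↥(alternatingGroup (Fin 4))))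
    (Q : Sylow 3 (↥(alternatingGroup (Fin 4)) × ↥(alternatingGroup (Fin 4))))
    (B : Subgroup (↥(alternatingGroup (Fin 4)) × ↥(alternatingGroup (Fin 4)))) (hBX : B ≤ (X : Subgroup _)) (hB4 : Nat.card ↥B = 4) :
    B ⊓ ((X : Subgroup _) ⊓ Subgroup.prod ⊤ ⊥) ≠ ⊥ ∨ B ⊓ ((X : Subgroup _) ⊓ Subgroup.prod ⊥ ⊤) ≠ ⊥ ∨
      ∃ R : Subgroup (↥(alternatingGroup (Fin 4)) × ↥(alternatingGroup (Fin 4))), R ≤ (Q : Subgroup _) ∧ Nat.card ↥R = 3 ∧
        R ≠ (Q : Subgroup _) ⊓ Subgroup.prod ⊤ ⊥ ∧ R ≠ (Q : Subgroup _) ⊓ Subgroup.prod ⊥ ⊤ ∧ R ≤ Subgroup.normalizer (B : Set _) := by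
  have : Fact (Nat.Prime 2) := ⟨Nat.prime_two⟩
  have : Fact (Nat.Prime 3) := ⟨Nat.prime_three⟩
  have hA : Nat.card ↥(alternatingGroup (Fin 4)) = 12 := by
    rw [Nat.card_eq_fintype_card]; decide
  -- elements of `B` have square one in both coordinates
  have hsq : ∀ x ∈ B, x.1 * x.1 = 1 ∧ x.2 * x.2 = 1 := by
    intro x hx
    have h4 : x ^ 4 = 1 := by
      have := congrArg Subtype.val (pow_card_eq_one' (x := (⟨x, hx⟩ : B)))
      rw [hB4] at this
      simpa using this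
    exact ⟨A4_sq _ (by simpa [pow_succ, mul_assoc] using congrArg Prod.fst h4),
      A4_sq _ (by simpa [pow_succ, mul_assoc] using congrArg Prod.snd h4)⟩
  by_cases hb1 : B ⊓ ((X : Subgroup _) ⊓ Subgroup.prod ⊤ ⊥) ≠ ⊥
  · exact Or.inl hb1
  by_cases hb2 : B ⊓ ((X : Subgroup _) ⊓ Subgroup.prod ⊥ ⊤) ≠ ⊥
  · exact Or.inr (Or.inl hb2)
  push Not at hb1 hb2
  refine Or.inr (Or.inr ?_)
  have hk1 : ∀ x ∈ B, x.2 = 1 → x = 1 := fun x hx h => Subgroup.mem_bot.1 (hb1 ▸
    ⟨hx, hBX hx, Subgroup.mem_prod.2 ⟨Subgroup.mem_top _, Subgroup.mem_bot.2 h⟩⟩)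
  have hk2 : ∀ x ∈ B, x.1 = 1 → x = 1 := fun x hx h => Subgroup.mem_bot.1 (hb2 ▸
    ⟨hx, hBX hx, Subgroup.mem_prod.2 ⟨Subgroup.mem_bot.2 h, Subgroup.mem_top _⟩⟩)
  have hinj : ∀ x ∈ B, ∀ y ∈ B, x.1 = y.1 → x = y := fun x hx y hy h =>
    mul_inv_eq_one.1 (hk2 (x * y⁻¹) (mul_mem hx (inv_mem hy)) (by simp [h]))
  -- the projection of `B` is onto the four group
  have hsur : ∀ v : ↥(alternatingGroup (Fin 4)), v * v = 1 → ∃ x ∈ B, x.1 = v := by
    intro v hv
    let π : B → {v : ↥(alternatingGroup (Fin 4)) // v * v = 1} := fun x => ⟨x.1.1, (hsq x.1 x.2).1⟩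
    have hπ : Function.Injective π := fun x y h =>
      Subtype.ext (hinj x.1 x.2 y.1 y.2 (congrArg Subtype.val h))
    obtain ⟨x, hx⟩ := (hπ.bijective_of_nat_card_le (by rw [hB4, A4_two])).2 ⟨v, hv⟩
    exact ⟨x.1, x.2, congrArg Subtype.val hx⟩
  -- generators of the Sylow 3-subgroup in the two factors
  have hQ : Nat.card Q = 9 := by
    rw [Q.card_eq_multiplicity, Nat.card_prod, hA]
    rw [show (12 * 12 : ℕ) = 3 ^ 2 * 16 by norm_num, Nat.factorization_mul (by norm_num) (by norm_num),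
      Finsupp.add_apply, Nat.prime_three.factorization_pow, Finsupp.single_eq_same,
      Nat.factorization_eq_zero_of_not_dvd (by norm_num : ¬ 3 ∣ 16)]
    norm_num
  have hker : ∀ φ : ↥(alternatingGroup (Fin 4)) × ↥(alternatingGroup (Fin 4)) →* ↥(alternatingGroup (Fin 4)),
      ∃ x ∈ (Q : Subgroup (↥(alternatingGroup (Fin 4)) × ↥(alternatingGroup (Fin 4)))), φ x = 1 ∧ x ≠ 1 := by
    intro φ
    by_contra hcon
    push Not at hcon
    let ψ : (Q : Subgroup _) →* ↥(alternatingGroup (Fin 4)) := φ.comp (Subgroup.subtype _)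
    have hψ : Function.Injective ψ := (injective_iff_map_eq_one ψ).2 fun x hx =>
      Subtype.ext (hcon x.1 x.2 hx)
    have h := Subgroup.card_subgroup_dvd_card ψ.range
    rw [← Nat.card_congr (MonoidHom.ofInjective hψ).toEquiv, hA] at h
    change Nat.card Q ∣ 12 at h
    rw [hQ] at h
    norm_num at h
  have h3 : ∀ x ∈ (Q : Subgroup (↥(alternatingGroup (Fin 4)) × ↥(alternatingGroup (Fin 4)))), x.1 * x.1 * x.1 = 1 ∧ x.2 * x.2 * x.2 = 1 := by
    intro x hx
    have h9 : orderOf x ∣ 9 := by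
      have := orderOf_dvd_natCard (⟨x, hx⟩ : (Q : Subgroup _))
      rw [Subgroup.orderOf_mk] at this
      exact this.trans (dvd_of_eq hQ)
    have key : ∀ y : ↥(alternatingGroup (Fin 4)), orderOf y ∣ 9 → y * y * y = 1 := by
      intro y hy
      have h1 : orderOf y ∣ 12 := hA ▸ orderOf_dvd_natCard y
      have h2 : orderOf y ∣ 3 := (Nat.dvd_gcd hy h1).trans (by norm_num)
      rw [← pow_three', ← orderOf_dvd_iff_pow_eq_one]
      exact h2
    exact ⟨key _ ((orderOf_map_dvd (MonoidHom.fst _ _) x).trans h9),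
      key _ ((orderOf_map_dvd (MonoidHom.snd _ _) x).trans h9)⟩
  obtain ⟨⟨a, a'⟩, haQ, ha', ha1⟩ := hker (MonoidHom.snd _ _)
  obtain ⟨⟨b', b⟩, hbQ, hb', hb1'⟩ := hker (MonoidHom.fst _ _)
  replace ha' : a' = 1 := ha'
  replace hb' : b' = 1 := hb'
  subst ha' hb'
  have ha : a ≠ 1 := fun h => ha1 (by rw [h]; rfl)
  have hb : b ≠ 1 := fun h => hb1' (by rw [h]; rfl)
  have ha3 : a * a * a = 1 := (h3 _ haQ).1
  have hb3 : b * b * b = 1 := (h3 _ hbQ).2
  have hb3' : b⁻¹ * b⁻¹ * b⁻¹ = 1 := by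
    rw [← mul_inv_rev, ← mul_inv_rev, inv_eq_one, ← mul_assoc, hb3]
  -- pick a non-identity element of `B` and see where the second coordinate goes
  obtain ⟨v, hv2, hv⟩ : ∃ v : ↥(alternatingGroup (Fin 4)), v * v = 1 ∧ v ≠ 1 := by decide
  obtain ⟨⟨v0, w⟩, hxB, hx1⟩ := hsur v hv2
  replace hx1 : v0 = v := hx1
  subst hx1
  have hv'2 : a * v0 * a⁻¹ * (a * v0 * a⁻¹) = 1 := by
    rw [show a * v0 * a⁻¹ * (a * v0 * a⁻¹) = a * (v0 * v0) * a⁻¹ by group, hv2, mul_one, mul_inv_cancel]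
  obtain ⟨⟨v1, w'⟩, hyB, hy1⟩ := hsur (a * v0 * a⁻¹) hv'2
  replace hy1 : v1 = a * v0 * a⁻¹ := hy1
  subst hy1
  have hne : a * v0 * a⁻¹ ≠ v0 := A4_conj_ne a v0 ha3 ha hv2 hv
  have hw : w ≠ 1 := fun h => hv (congrArg Prod.fst (hk1 _ hxB h))
  have hw' : w' ≠ 1 := fun h => hv (conj_eq_one_iff.1 (congrArg Prod.fst (hk1 _ hyB h)))
  have hww : w' ≠ w := fun h => hne (by
    have := congrArg Prod.fst (mul_inv_eq_one.1 (hk1 _ (mul_mem hyB (inv_mem hxB)) (by
      show w' * w⁻¹ = 1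
      rw [h, mul_inv_cancel])))
    exact this)
  have hd := A4_dichotomy b w hb3 hb (hsq _ hxB).2 hw w' (hsq _ hyB).2 hw' hww
  -- an element carrying the generators of `B` back into `B` normalizes it
  have hgen : ∀ c : ↥(alternatingGroup (Fin 4)), c * c * c = 1 → c ≠ 1 → c * w * c⁻¹ = w' →
      ((1 : ↥(alternatingGroup (Fin 4))), c) ∈ (Q : Subgroup _) →
      ∃ R : Subgroup (↥(alternatingGroup (Fin 4)) × ↥(alternatingGroup (Fin 4))), R ≤ (Q : Subgroup _) ∧ Nat.card ↥R = 3 ∧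
        R ≠ (Q : Subgroup _) ⊓ Subgroup.prod ⊤ ⊥ ∧ R ≠ (Q : Subgroup _) ⊓ Subgroup.prod ⊥ ⊤ ∧ R ≤ Subgroup.normalizer (B : Set _) := by
    intro c hc3 hc hcw hcQ
    set r : ↥(alternatingGroup (Fin 4)) × ↥(alternatingGroup (Fin 4)) := (a, c) with hr
    have hrQ : r ∈ (Q : Subgroup _) := by
      have := mul_mem haQ hcQ
      simpa [hr] using this
    have hr3 : orderOf r = 3 := orderOf_eq_prime (Prod.ext (by rw [pow_three']; exact ha3)
      (by rw [pow_three']; exact hc3)) (fun h => ha (congrArg Prod.fst h))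
    refine ⟨Subgroup.zpowers r, Subgroup.zpowers_le.2 hrQ, by rw [Nat.card_zpowers, hr3], ?_, ?_, ?_⟩
    · intro h
      exact hc (Subgroup.mem_bot.1 (Subgroup.mem_prod.1 ((h ▸ Subgroup.mem_zpowers r :
        r ∈ (Q : Subgroup _) ⊓ Subgroup.prod ⊤ ⊥)).2).2)
    · intro h
      exact ha (Subgroup.mem_bot.1 (Subgroup.mem_prod.1 ((h ▸ Subgroup.mem_zpowers r :
        r ∈ (Q : Subgroup _) ⊓ Subgroup.prod ⊥ ⊤)).2).1)
    · set x : ↥(alternatingGroup (Fin 4)) × ↥(alternatingGroup (Fin 4)) := (v0, w) with hx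
      set y : ↥(alternatingGroup (Fin 4)) × ↥(alternatingGroup (Fin 4)) := (a * v0 * a⁻¹, w') with hy
      have hxy : r * x * r⁻¹ = y := Prod.ext rfl hcw
      -- the second conjugate
      have hyB' : r * y * r⁻¹ ∈ B := by
        have hr33 : r * r * r = 1 := Prod.ext ha3 hc3
        have : r * y * r⁻¹ = (x * y)⁻¹ := Prod.ext (A4_orbit a v0 ha3 ha hv2) (by
          show c * w' * c⁻¹ = (w * w')⁻¹
          rw [← hcw]
          exact A4_orbit c w hc3 hc (hsq _ hxB).2)
        rw [this]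
        exact inv_mem (mul_mem hxB hyB)
      have hB : B = Subgroup.closure {x, y} := by
        refine (Subgroup.eq_of_le_of_card_ge ((Subgroup.closure_le _).2 ?_) ?_).symm
        · rintro z (h | h)
          · rw [h]; exact hxB
          · rw [Set.mem_singleton_iff] at h; rw [h]; exact hyB
        · rw [hB4]
          have hx' : x ≠ 1 := fun h => hv (congrArg Prod.fst h)
          have hy' : y ≠ 1 := fun h => hv (conj_eq_one_iff.1 (congrArg Prod.fst h))
          have hxy' : y ≠ x := fun h => hne (congrArg Prod.fst h)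
          have hp : y * x ≠ 1 ∧ y * x ≠ x ∧ y * x ≠ y := by
            refine ⟨fun h => hxy' ?_, fun h => hy' (mul_eq_right.1 h), fun h => hx' (mul_eq_left.1 h)⟩
            have : x * x = 1 := Prod.ext hv2 (hsq _ hxB).2
            rw [← mul_one y, ← this, ← mul_assoc, h, one_mul]
          have hs : ({1, x, y, y * x} : Set _) ⊆ (Subgroup.closure {x, y} : Set _) := by
            have hx'' : x ∈ Subgroup.closure {x, y} := Subgroup.subset_closure (Or.inl rfl)
            have hy'' : y ∈ Subgroup.closure {x, y} := Subgroup.subset_closure (Or.inr rfl)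
            rintro z (h | h | h | h)
            · rw [h]; exact one_mem _
            · rw [h]; exact hx''
            · rw [h]; exact hy''
            · rw [Set.mem_singleton_iff] at h; rw [h]; exact mul_mem hy'' hx''
          have h4 := Set.ncard_le_ncard hs (Set.toFinite _)
          rw [Set.ncard_insert_of_notMem, Set.ncard_insert_of_notMem, Set.ncard_pair hp.2.2.symm] at h4
          · rw [← Nat.card_coe_set_eq] at h4; exact h4
          · simp [hxy'.symm, hp.2.1.symm]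
          · simp [hx'.symm, hy'.symm, hp.1.symm]
      rw [Subgroup.zpowers_le]
      have hmap : B.map (MulAut.conj r).toMonoidHom ≤ B := by
        conv_lhs => rw [hB]
        rw [MonoidHom.map_closure, Subgroup.closure_le]
        rintro _ ⟨z, (h | h), rfl⟩
        · rw [h]; show r * x * r⁻¹ ∈ B; rw [hxy]; exact hyB
        · rw [Set.mem_singleton_iff] at h; rw [h]; exact hyB'
      have heq : B.map (MulAut.conj r).toMonoidHom = B := Subgroup.eq_of_le_of_card_ge hmap
        (le_of_eq (Subgroup.card_map_of_injective (MulAut.conj r).injective).symm)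
      rw [Subgroup.mem_normalizer_iff]
      intro z
      conv_rhs => rw [← heq]
      exact (Subgroup.mem_map_iff_mem (MulAut.conj r).injective).symm
  rcases hd with h | h
  · exact hgen b hb3 hb h hbQ
  · refine hgen b⁻¹ hb3' (fun e => hb (inv_eq_one.1 e)) (by rwa [inv_inv]) ?_
    have := inv_mem hbQ
    simpa using this

end Cfsg.Agent.S4406
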