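import Cfsg.Statements.S4407
import Mathlib

set_option autoImplicit false
open Cfsg
open scoped Pointwise
set_option maxHeartbeats 2000000

namespace Cfsg.Agent.S4407

/-- Closure of a four-group list. -/
theorem four_mul : ∀ g : DihedralGroup 4, g * g = 1 →
    ∀ y ∈ [1, DihedralGroup.r 2, g, DihedralGroup.r 2 * g], ∀ z ∈ [1, DihedralGroup.r 2, g, DihedralGroup.r 2 * g],
      y * z ∈ [1, DihedralGroup.r 2, g, DihedralGroup.r 2 * g] := by decide

theorem four_sq : ∀ g : DihedralGroup 4, g * g = 1 →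
    ∀ y ∈ [1, DihedralGroup.r 2, g, DihedralGroup.r 2 * g], y * y = 1 := by decide

theorem four_card : ∀ d d' g : DihedralGroup 4, d' = DihedralGroup.r 2 * d → g * d * g = d' → g * g = 1 →
    Fintype.card {x : DihedralGroup 4 // x ∈ [1, DihedralGroup.r 2, g, DihedralGroup.r 2 * g]} = 4 := by decide

theorem four_cases : ∀ d g : DihedralGroup 4, d * d = 1 → g * g = 1 → g * d * g = DihedralGroup.r 2 * d →
    ∀ x y : DihedralGroup 4, x * y = y * x → x ^ 2 = 1 → y ^ 2 = 1 →
      x ∈ [1, DihedralGroup.r 2, d, DihedralGroup.r 2 * d] ∨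
      y ∈ [1, DihedralGroup.r 2, g, DihedralGroup.r 2 * g] := by decide +kernel

/-- Let S be a finite group with a normal elementary abelian subgroup A of order 9 that is self-centralizing (C_S(A) = A), and a dihedral subgroup X of order 8 with S = AX. Let M be a finite-dimensional module for S over the field with two elements that is faithful and irreducible. Then M has 16 elements, and X contains exactly one subgroup B of order 4 and exponent 2 whose fixed points on M form a subspace with exactly 2 elements (equivalently, M is free of rank one over the group algebra of B). -/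
theorem result {S : Type*} [Group S] [Finite S]
    (A : Subgroup S) [A.Normal] (hA : Cfsg.IsElementaryAbelian 3 A) (hA9 : Nat.card ↥A = 9)
    (hAC : Subgroup.centralizer (A : Set S) = A) (X : Subgroup S) (hX : Nonempty (↥X ≃* DihedralGroup 4)) (hAX : A ⊔ X = ⊤)
    {M : Type*} [AddCommGroup M] [Module (ZMod 2) M] [Finite M] (ρ : Representation (ZMod 2) S M)
    (hfaith : Function.Injective ρ)
    (hirr : ∀ N : Submodule (ZMod 2) M, (∀ s : S, ∀ m ∈ N, ρ s m ∈ N) → N = ⊥ ∨ N = ⊤) (hM : Nontrivial M) :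
    Nat.card M = 16 ∧
      ∃! B : Subgroup S, B ≤ X ∧ Nat.card ↥B = 4 ∧ (∀ b ∈ B, b ^ 2 = 1) ∧
        Nat.card {m : M // ∀ b ∈ B, ρ b m = m} = 2 := by
  classical
  obtain ⟨e⟩ := hX
  -- elements of the dihedral group
  set emb : DihedralGroup 4 →* S := X.subtype.comp e.symm.toMonoidHom with hemb
  have hembX : ∀ d, emb d ∈ X := fun d => (e.symm d).2
  have hembS : ∀ x ∈ X, ∃ d, emb d = x := fun x hx => ⟨e ⟨x, hx⟩, by simp [hemb]⟩
  have hembI : Function.Injective emb := fun a b h => e.symm.injective (Subtype.ext h)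
  set c := emb (DihedralGroup.r 2) with hcdef
  have hAmem : ∀ a ∈ A, ∀ b ∈ A, a * b = b * a := fun a ha b hb =>
    congrArg Subtype.val (hA.1.1.1 ⟨a, ha⟩ ⟨b, hb⟩)
  have hdis : ∀ x ∈ X, x ∈ A → x = 1 := by
    intro x hx hxA
    have h8 : orderOf x ∣ 8 := by
      have := Subgroup.orderOf_dvd_natCard X hx
      rwa [Nat.card_congr e.toEquiv, DihedralGroup.nat_card] at this
    have h3 : orderOf x ∣ 3 := orderOf_dvd_of_pow_eq_one (hA.2 x hxA)
    exact orderOf_eq_one_iff.1 (Nat.dvd_one.1 ((Nat.dvd_gcd h8 h3).trans (by norm_num)))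
  have hconjA : ∀ (x : S), ∀ a ∈ A, x * a * x⁻¹ ∈ A := fun x a ha => Subgroup.Normal.conj_mem ‹_› a ha x
  have hfaithA : ∀ d, (∀ a ∈ A, emb d * a = a * emb d) → d = 1 := by
    intro d h
    refine hembI ?_
    rw [map_one]
    refine hdis _ (hembX d) (hAC ▸ Subgroup.mem_centralizer_iff.2 fun a ha => ?_)
    exact (h a ha).symm
  have hc1 : ∀ d, Commute c (emb d) := by
    intro d
    show c * emb d = emb d * c
    rw [hcdef, ← map_mul, ← map_mul]
    exact congrArg emb (by revert d; decide)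
  have hinvol : ∀ d : DihedralGroup 4, d * d = 1 → ∀ a ∈ A,
      emb d * (emb d * a * (emb d)⁻¹) * (emb d)⁻¹ = a := by
    intro d hd a _
    have h1 : emb d * emb d = 1 := by rw [← map_mul, hd, map_one]
    calc emb d * (emb d * a * (emb d)⁻¹) * (emb d)⁻¹ = (emb d * emb d) * a * (emb d * emb d)⁻¹ := by group
      _ = a := by rw [h1]; simp
  -- `c` inverts `A`
  have hcinv : ∀ a ∈ A, c * a * c⁻¹ = a⁻¹ := by
    by_contra hcon
    push Not at hcon
    obtain ⟨a, ha, hne⟩ := hcon
    -- `C_A(c)` and the inverted elements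
    let f : A →* A :=
      { toFun := fun x => ⟨c * x * c⁻¹, hconjA c x x.2⟩
        map_one' := Subtype.ext (by simp)
        map_mul' := fun x y => Subtype.ext (by simp [mul_assoc]) }
    have hcc : ∀ x ∈ A, c * (c * x * c⁻¹) * c⁻¹ = x := hinvol _ (by decide)
    set l := a * (c * a * c⁻¹) with hl
    have hlA : l ∈ A := A.mul_mem ha (hconjA c a ha)
    have hlc : c * l * c⁻¹ = l := by
      calc c * l * c⁻¹ = (c * a * c⁻¹) * (c * (c * a * c⁻¹) * c⁻¹) := by rw [hl]; group
        _ = l := by rw [hcc a ha, hl, hAmem _ (hconjA c a ha) a ha]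
    have hl1 : l ≠ 1 := fun h => hne (eq_inv_of_mul_eq_one_right h)
    obtain ⟨a', ha', hca'⟩ : ∃ a' ∈ A, c * a' * c⁻¹ ≠ a' := by
      by_contra h
      push Not at h
      have := hfaithA (DihedralGroup.r 2) fun x hx => mul_inv_eq_iff_eq_mul.1 (h x hx)
      exact absurd this (by decide)
    set m := a'⁻¹ * (c * a' * c⁻¹) with hm
    have hmA : m ∈ A := A.mul_mem (A.inv_mem ha') (hconjA c a' ha')
    have hm1 : m ≠ 1 := fun h => hca' (inv_mul_eq_one.1 h).symm
    have hmc : c * m * c⁻¹ = m⁻¹ := by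
      calc c * m * c⁻¹ = (c * a' * c⁻¹)⁻¹ * (c * (c * a' * c⁻¹) * c⁻¹) := by rw [hm]; group
        _ = m⁻¹ := by rw [hcc a' ha', hm]; group
    have hgen : ∀ x ∈ A, ∃ i j : ℤ, x = l ^ i * m ^ j := by
      intro x hx
      have hlm : l ∉ Subgroup.zpowers m := by
        intro h
        obtain ⟨j, hj⟩ := Subgroup.mem_zpowers_iff.1 h
        have h1 : c * l * c⁻¹ = l⁻¹ := by rw [← hj, ← conj_zpow, hmc, inv_zpow]
        rw [hlc] at h1
        have h2 : l * l = 1 := by nth_rewrite 2 [h1]; exact mul_inv_cancel l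
        exact hl1 (by
          calc l = l ^ 3 * (l * l)⁻¹ := by group
            _ = 1 := by rw [hA.2 l hlA, h2]; simp)
      let T : Subgroup S := Subgroup.zpowers l ⊔ Subgroup.zpowers m
      have hTA : T ≤ A := sup_le (Subgroup.zpowers_le.2 hlA) (Subgroup.zpowers_le.2 hmA)
      have hlt : Subgroup.zpowers m < T := lt_of_le_of_ne le_sup_right fun h =>
        hlm (h.symm ▸ Subgroup.mem_sup_left (Subgroup.mem_zpowers l))
      have hTeq : T = A := by
        refine Subgroup.eq_of_le_of_card_ge hTA ?_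
        have hd := Subgroup.card_dvd_of_le hTA
        have hd' := Subgroup.card_dvd_of_le hlt.le
        have hlt' : Nat.card (Subgroup.zpowers m) < Nat.card T := lt_of_le_of_ne (Subgroup.card_le_of_le hlt.le)
          fun e => hlt.ne (Subgroup.eq_of_le_of_card_ge hlt.le e.ge)
        have hom : Nat.card (Subgroup.zpowers m) = 3 := by
          rw [Nat.card_zpowers]
          haveI : Fact (Nat.Prime 3) := ⟨Nat.prime_three⟩
          exact orderOf_eq_prime (hA.2 m hmA) hm1
        rw [hA9] at hd ⊢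
        rw [hom] at hlt'
        obtain ⟨k, hk1, hk⟩ := (Nat.dvd_prime_pow Nat.prime_three).1 (show Nat.card T ∣ 3 ^ 2 by simpa using hd)
        interval_cases k <;> omega
      have hxT : x ∈ T := hTeq.symm ▸ hx
      have hnorm : Subgroup.zpowers l ≤ Subgroup.normalizer (Subgroup.zpowers m : Set S) := by
        refine Subgroup.zpowers_le.2 (Subgroup.mem_normalizer_iff.2 fun y => ?_)
        constructor
        · intro hy
          rwa [hAmem l hlA y ((Subgroup.zpowers_le.2 hmA) hy), mul_inv_cancel_right]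
        · intro hy
          have := (Subgroup.zpowers_le.2 hmA) hy
          have hyA : y ∈ A := by simpa [mul_assoc] using A.mul_mem (A.mul_mem (A.inv_mem hlA) this) hlA
          rwa [hAmem l hlA y hyA, mul_inv_cancel_right] at hy
      rw [← SetLike.mem_coe, Subgroup.coe_mul_of_left_le_normalizer_right _ _ hnorm] at hxT
      obtain ⟨_, ⟨i, rfl⟩, _, ⟨j, rfl⟩, h⟩ := hxT
      exact ⟨i, j, h.symm⟩
    -- every element of `X` preserves both lines, so `X` acts by commuting maps
    have key : ∀ d, ∀ a, (a = l ∨ a = m) → emb d * a * (emb d)⁻¹ = a ∨ emb d * a * (emb d)⁻¹ = a⁻¹ := by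
      intro d a h
      have haA : a ∈ A := by rcases h with rfl | rfl <;> assumption
      have hca : c * a * c⁻¹ = a ∨ c * a * c⁻¹ = a⁻¹ := by rcases h with rfl | rfl <;> simp [hlc, hmc]
      set b := emb d * a * (emb d)⁻¹ with hb
      have hcb : c * b * c⁻¹ = emb d * (c * a * c⁻¹) * (emb d)⁻¹ := by
        calc c * b * c⁻¹ = (c * emb d) * a * (c * emb d)⁻¹ := by rw [hb]; group
          _ = _ := by rw [(hc1 d).eq]; group
      obtain ⟨i, j, hij⟩ := hgen b (hconjA _ a haA)
      have hcb' : c * b * c⁻¹ = l ^ i * (m ^ j)⁻¹ := by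
        calc c * b * c⁻¹ = (c * l * c⁻¹) ^ i * (c * m * c⁻¹) ^ j := by rw [hij, conj_zpow, conj_zpow]; group
          _ = _ := by rw [hlc, hmc, inv_zpow]
      have hpow : ∀ (x : S), x ∈ A → ∀ k : ℤ, x ^ k = 1 ∨ x ^ k = x ∨ x ^ k = x⁻¹ := by
        intro x hx k
        have h3 : x ^ (3 : ℤ) = 1 := by
          rw [show (3 : ℤ) = ((3 : ℕ) : ℤ) from rfl, zpow_natCast]; exact hA.2 x hx
        have e : x ^ k = x ^ (k % 3) := by
          conv_lhs => rw [show k = k % 3 + 3 * (k / 3) by omega, zpow_add, zpow_mul, h3, one_zpow, mul_one]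
        have h0 := Int.emod_nonneg k (by norm_num : (3 : ℤ) ≠ 0)
        have h1 := Int.emod_lt_of_pos k (by norm_num : (0 : ℤ) < 3)
        rcases (by omega : k % 3 = 0 ∨ k % 3 = 1 ∨ k % 3 = 2) with h | h | h <;> rw [e, h]
        · simp
        · simp
        · refine Or.inr (Or.inr ?_)
          rw [show (2 : ℤ) = 3 + -1 by norm_num, zpow_add, h3, one_mul, zpow_neg_one]
      have hsq : ∀ x ∈ A, x * x = 1 → x = 1 := fun x hx h => by
        calc x = x ^ 3 * (x * x)⁻¹ := by group
          _ = 1 := by rw [hA.2 x hx, h]; simp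
      have hb1 : b ≠ 1 := by
        rw [hb, Ne, conj_eq_one_iff]
        rcases h with rfl | rfl <;> assumption
      rcases h with h | h <;> rw [h] at hcb hb hca ⊢
      · rw [hlc, ← hb, hcb', hij] at hcb
        have hmj : m ^ j = 1 := hsq _ (A.zpow_mem hmA j) (by
          have := mul_left_cancel hcb
          nth_rewrite 2 [← this]; exact mul_inv_cancel _)
        rw [hmj, mul_one] at hij
        rcases hpow l hlA i with h' | h' | h' <;> rw [h'] at hij
        · exact absurd hij hb1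
        · exact Or.inl hij
        · exact Or.inr hij
      · rw [hmc, ← conj_inv, ← hb, hcb', hij, hAmem _ (A.zpow_mem hlA i) _ (A.zpow_mem hmA j), mul_inv_rev,
          hAmem _ (A.inv_mem (A.zpow_mem hlA i)) _ (A.inv_mem (A.zpow_mem hmA j)),
          hAmem _ (A.zpow_mem hlA i) _ (A.inv_mem (A.zpow_mem hmA j))] at hcb
        have hli : l ^ i = 1 := hsq _ (A.zpow_mem hlA i) (by
          have := mul_left_cancel hcb
          nth_rewrite 2 [this]; exact mul_inv_cancel _)
        rw [hli, one_mul] at hij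
        rcases hpow m hmA j with h' | h' | h' <;> rw [h'] at hij
        · exact absurd hij hb1
        · exact Or.inl hij
        · exact Or.inr hij
    have hcommgen : ∀ d₁ d₂, ∀ a, (a = l ∨ a = m) →
        emb (d₁ * d₂) * a * (emb (d₁ * d₂))⁻¹ = emb (d₂ * d₁) * a * (emb (d₂ * d₁))⁻¹ := by
      intro d₁ d₂ a h
      have e : ∀ u v : S, u * v * a * (u * v)⁻¹ = u * (v * a * v⁻¹) * u⁻¹ := fun u v => by group
      rw [map_mul, map_mul, e, e]
      rcases key d₁ a h with h1 | h1 <;> rcases key d₂ a h with h2 | h2 <;> rw [h1, h2] <;>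
        (try rw [← conj_inv, ← conj_inv]) <;> simp [h1, h2, conj_inv.symm]
    have := hfaithA ((DihedralGroup.sr (1 : ZMod 4) * DihedralGroup.sr 0)⁻¹ * (DihedralGroup.sr 0 * DihedralGroup.sr 1))
      (fun x hx => by
        obtain ⟨i, j, rfl⟩ := hgen x hx
        rw [map_mul, map_inv]
        set P := emb (DihedralGroup.sr (0 : ZMod 4) * DihedralGroup.sr 1)
        set Q := emb (DihedralGroup.sr (1 : ZMod 4) * DihedralGroup.sr 0)
        have e : ∀ a, (a = l ∨ a = m) → Commute (Q⁻¹ * P) a := by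
          intro a h
          have h1 : P * a * P⁻¹ = Q * a * Q⁻¹ := hcommgen _ _ a h
          show Q⁻¹ * P * a = a * (Q⁻¹ * P)
          calc Q⁻¹ * P * a = Q⁻¹ * (P * a * P⁻¹) * P := by group
            _ = a * (Q⁻¹ * P) := by rw [h1]; group
        exact (((e l (Or.inl rfl)).zpow_right i).mul_right ((e m (Or.inr rfl)).zpow_right j)).eq)
    exact absurd this (by decide)
  -- a noncentral involution fixes a line and inverts a complementary one
  have hlines : ∀ d : DihedralGroup 4, d * d = 1 → d ≠ 1 → d ≠ DihedralGroup.r 2 →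
      ∃ l ∈ A, l ≠ 1 ∧ emb d * l * (emb d)⁻¹ = l ∧ ∀ x ∈ A, emb d * x * (emb d)⁻¹ = x →
        x ∈ Subgroup.zpowers l := by
    intro d hd hd1 hd2
    have hinv' := hinvol d hd
    obtain ⟨a, ha, hne⟩ : ∃ a ∈ A, emb d * a * (emb d)⁻¹ ≠ a⁻¹ := by
      by_contra h
      push Not at h
      have := hfaithA (DihedralGroup.r 2 * d) fun x hx => by
        rw [map_mul, ← hcdef]
        have e : c * emb d * x * (c * emb d)⁻¹ = x := by
          calc c * emb d * x * (c * emb d)⁻¹ = c * (emb d * x * (emb d)⁻¹) * c⁻¹ := by group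
            _ = x := by rw [h x hx, ← conj_inv, hcinv x hx, inv_inv]
        exact mul_inv_eq_iff_eq_mul.1 e
      have key : ∀ g : DihedralGroup 4, DihedralGroup.r 2 * g = 1 → g = DihedralGroup.r 2 := by decide
      exact hd2 (key d this)
    set l := a * (emb d * a * (emb d)⁻¹) with hl
    have hlA : l ∈ A := A.mul_mem ha (hconjA _ a ha)
    have hld : emb d * l * (emb d)⁻¹ = l := by
      calc emb d * l * (emb d)⁻¹ = (emb d * a * (emb d)⁻¹) * (emb d * (emb d * a * (emb d)⁻¹) * (emb d)⁻¹) := by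
            rw [hl]; group
        _ = l := by rw [hinv' a ha, hl, hAmem _ (hconjA _ a ha) a ha]
    have hl1 : l ≠ 1 := fun h => hne (eq_inv_of_mul_eq_one_right h)
    refine ⟨l, hlA, hl1, hld, fun x hx hfx => ?_⟩
    by_contra hxl
    let F : Subgroup S := A ⊓ Subgroup.centralizer ({emb d} : Set S)
    have hlF : l ∈ F := ⟨hlA, Subgroup.mem_centralizer_iff.2 fun y hy => by
      rw [Set.mem_singleton_iff.1 hy]; exact mul_inv_eq_iff_eq_mul.1 hld⟩
    have hxF : x ∈ F := ⟨hx, Subgroup.mem_centralizer_iff.2 fun y hy => by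
      rw [Set.mem_singleton_iff.1 hy]; exact mul_inv_eq_iff_eq_mul.1 hfx⟩
    have hFA : F = A := by
      refine Subgroup.eq_of_le_of_card_ge inf_le_left ?_
      obtain ⟨k, hk1, hk⟩ := (Nat.dvd_prime_pow Nat.prime_three).1
        (show Nat.card F ∣ 3 ^ 2 by rw [show (3 : ℕ) ^ 2 = 9 from rfl, ← hA9]; exact Subgroup.card_dvd_of_le inf_le_left)
      haveI : Fact (Nat.Prime 3) := ⟨Nat.prime_three⟩
      have ho : orderOf l = 3 := orderOf_eq_prime (hA.2 l hlA) hl1
      have h3 : 3 < Nat.card F := by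
        by_contra h
        have heq := Subgroup.eq_of_le_of_card_ge (Subgroup.zpowers_le.2 hlF)
          (by rw [Nat.card_zpowers, ho]; omega)
        exact hxl (heq.symm ▸ hxF)
      rw [hA9]
      interval_cases k <;> omega
    refine hd1 (hfaithA d fun y hy => ?_)
    rw [← hFA] at hy
    exact Subgroup.mem_centralizer_iff.1 hy.2 _ rfl
  -- the idempotents
  haveI : Finite (Module.End (ZMod 2) M) := Finite.of_injective (fun f => (f : M → M)) DFunLike.coe_injective
  have hadd : ∀ x : M, x + x = 0 := fun x => by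
    rw [← two_smul (ZMod 2) x, show (2 : ZMod 2) = 0 from rfl, zero_smul]
  have hρ : ∀ s t v, ρ (s * t) v = ρ s (ρ t v) := fun s t v => by rw [map_mul]; rfl
  have hρ1 : ∀ v, ρ 1 v = v := fun v => by rw [map_one]; rfl
  let fixedBy : S → M → Prop := fun s v => ρ s v = v
  have hfixA : ∀ v, (∀ a ∈ A, ρ a v = v) → v = 0 := by
    let N : Submodule (ZMod 2) M :=
      { carrier := {v | ∀ a ∈ A, ρ a v = v}
        add_mem' := fun hu hv a ha => by rw [map_add, hu a ha, hv a ha]
        zero_mem' := fun a _ => map_zero _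
        smul_mem' := fun r v hv a ha => by rw [map_smul, hv a ha] }
    have hN : ∀ s, ∀ v ∈ N, ρ s v ∈ N := by
      intro s v hv a ha
      have h1 := hv _ (hconjA s⁻¹ a ha)
      calc ρ a (ρ s v) = ρ s (ρ (s⁻¹ * a * s⁻¹⁻¹) v) := by
            rw [← hρ, ← hρ]; congr 2; group
        _ = ρ s v := by rw [h1]
    rcases hirr N hN with h | h
    · intro v hv
      have : v ∈ N := hv
      rwa [h, Submodule.mem_bot] at this
    · exfalso
      have hA1 : ∀ a ∈ A, a = 1 := fun a ha => hfaith (LinearMap.ext fun v => by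
        rw [map_one]; exact (h ▸ Submodule.mem_top : v ∈ N) a ha)
      have : A = ⊥ := (Subgroup.eq_bot_iff_forall A).2 hA1
      rw [this, Subgroup.card_bot] at hA9
      norm_num at hA9
  have h3 : ∀ a ∈ A, a * a * a = 1 := fun a ha => by
    have := hA.2 a ha
    rwa [pow_succ, pow_two] at this
  have hfpf : ∀ a ∈ A, ∀ b ∈ A, a ≠ 1 → b ∉ Subgroup.zpowers a → ∀ v, ρ a v = v → ρ b v = v → v = 0 := by
    intro a ha b hb ha1 hba v h1 h2
    refine hfixA v fun x hx => ?_
    let T : Subgroup S :=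
      { carrier := {x | x ∈ A ∧ ρ x v = v}
        one_mem' := ⟨A.one_mem, hρ1 v⟩
        mul_mem' := fun {x y} hx hy => ⟨A.mul_mem hx.1 hy.1, by rw [hρ, hy.2, hx.2]⟩
        inv_mem' := fun {x} hx => ⟨A.inv_mem hx.1, by
          conv_lhs => rw [← hx.2]
          rw [← hρ, inv_mul_cancel, hρ1]⟩ }
    have hT : T = A := by
      refine Subgroup.eq_of_le_of_card_ge (fun y hy => hy.1) ?_
      obtain ⟨k, hk1, hk⟩ := (Nat.dvd_prime_pow Nat.prime_three).1
        (show Nat.card T ∣ 3 ^ 2 by simpa [hA9] using Subgroup.card_dvd_of_le (show T ≤ A from fun y hy => hy.1))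
      haveI : Fact (Nat.Prime 3) := ⟨Nat.prime_three⟩
      have ho : orderOf a = 3 := orderOf_eq_prime (hA.2 a ha) ha1
      have h3' : 3 < Nat.card T := by
        by_contra h
        have heq := Subgroup.eq_of_le_of_card_ge (Subgroup.zpowers_le.2 (show a ∈ T from ⟨ha, h1⟩))
          (by rw [Nat.card_zpowers, ho]; omega)
        exact hba (heq.symm ▸ (show b ∈ T from ⟨hb, h2⟩))
      rw [hA9]
      interval_cases k <;> omega
    exact (hT.symm ▸ hx : x ∈ T).2
  -- two noncentral involutions in different classes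
  obtain ⟨l₁, hl₁, hl₁1, hl₁w, hl₁u⟩ := hlines (DihedralGroup.sr 0) (by decide) (by decide) (by decide)
  obtain ⟨l₂, hl₂, hl₂1, hl₂w, hl₂u⟩ := hlines (DihedralGroup.sr 2) (by decide) (by decide) (by decide)
  obtain ⟨l₃, hl₃, hl₃1, hl₃w, hl₃u⟩ := hlines (DihedralGroup.sr 1) (by decide) (by decide) (by decide)
  obtain ⟨l₄, hl₄, hl₄1, hl₄w, hl₄u⟩ := hlines (DihedralGroup.sr 3) (by decide) (by decide) (by decide)
  have hcl : ∀ a ∈ A, c * a * c⁻¹ = a → a = 1 := by
    intro a ha h
    rw [hcinv a ha] at h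
    calc a = a * a * a * (a * a)⁻¹ := by group
      _ = a * a * a * (a⁻¹ * a)⁻¹ := by rw [h]
      _ = 1 := by rw [h3 a ha]; simp
  -- the other noncentral involution of the class inverts what the first one fixes
  have hpair : ∀ d d', emb d' = c * emb d → ∀ l ∈ A, emb d * l * (emb d)⁻¹ = l →
      emb d' * l * (emb d')⁻¹ = l⁻¹ := by
    intro d d' hdd l hl h
    calc emb d' * l * (emb d')⁻¹ = c * (emb d * l * (emb d)⁻¹) * c⁻¹ := by rw [hdd]; group
      _ = l⁻¹ := by rw [h, hcinv l hl]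
  have hsr : emb (DihedralGroup.sr 2) = c * emb (DihedralGroup.sr 0) := by
    rw [hcdef, ← map_mul]; exact congrArg emb (by decide)
  have hsr' : emb (DihedralGroup.sr 3) = c * emb (DihedralGroup.sr 1) := by
    rw [hcdef, ← map_mul]; exact congrArg emb (by decide)
  have hne12 : l₂ ∉ Subgroup.zpowers l₁ := by
    intro h
    obtain ⟨i, hi⟩ := Subgroup.mem_zpowers_iff.1 h
    have h1 : emb (DihedralGroup.sr 0) * l₂ * (emb (DihedralGroup.sr 0))⁻¹ = l₂ := by
      rw [← hi, ← conj_zpow, hl₁w]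
    have h2 := hpair _ _ hsr l₂ hl₂ h1
    rw [hl₂w] at h2
    exact hl₂1 (hcl l₂ hl₂ (by rw [hcinv l₂ hl₂]; exact h2.symm))
  -- choose the pair with a common fixed vector
  have hex : ∃ l ∈ [l₁, l₂, l₃, l₄], ∃ v : M, v ≠ 0 ∧ ρ l v = v := by
    by_contra hcon
    push Not at hcon
    obtain ⟨v, hv⟩ := exists_ne (0 : M)
    let E : S → M → M := fun l v => v + (ρ l v + ρ (l * l) v)
    have hE : ∀ l ∈ A, ∀ v, ρ l (E l v) = E l v := by
      intro l hl v
      simp only [E, map_add, ← hρ]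
      rw [show l * (l * l) = 1 by rw [← mul_assoc]; exact h3 l hl, hρ1]
      abel
    have hlne : ∀ a ∈ A, a ≠ 1 → ∃ l ∈ [l₁, l₂, l₃, l₄], a ∈ Subgroup.zpowers l := by
      intro a ha ha1
      have hne13 : l₃ ∉ Subgroup.zpowers l₁ ∧ l₃ ∉ Subgroup.zpowers l₂ ∧ l₄ ∉ Subgroup.zpowers l₁ ∧
          l₄ ∉ Subgroup.zpowers l₂ ∧ l₄ ∉ Subgroup.zpowers l₃ := by
        -- a line fixed by an involution of each class would give a central involution fixing it
        have aux : ∀ d d' : DihedralGroup 4, (DihedralGroup.r 2 = d * d' * (d * d')) →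
            ∀ l ∈ A, l ≠ 1 → emb d * l * (emb d)⁻¹ = l →
            ∀ k, k ∈ Subgroup.zpowers l → emb d' * k * (emb d')⁻¹ = k → k = 1 := by
          intro d d' h l hl hl1 hdl k hk hdk
          obtain ⟨i, rfl⟩ := Subgroup.mem_zpowers_iff.1 hk
          have h1 : emb d * l ^ i * (emb d)⁻¹ = l ^ i := by rw [← conj_zpow, hdl]
          refine hcl _ (A.zpow_mem hl i) ?_
          rw [hcdef, h]
          simp only [map_mul]
          have e : ∀ u : S, u * l ^ i * u⁻¹ = l ^ i → Commute u (l ^ i) := fun u hu => mul_inv_eq_iff_eq_mul.1 hu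
          have := (((e _ h1).mul_left (e _ hdk)).mul_left ((e _ h1).mul_left (e _ hdk))).eq
          rw [this, mul_inv_cancel_right]
        refine ⟨fun h => hl₃1 (aux _ _ (by decide) l₁ hl₁ hl₁1 hl₁w l₃ h hl₃w),
          fun h => hl₃1 (aux _ _ (by decide) l₂ hl₂ hl₂1 hl₂w l₃ h hl₃w),
          fun h => hl₄1 (aux _ _ (by decide) l₁ hl₁ hl₁1 hl₁w l₄ h hl₄w),
          fun h => hl₄1 (aux _ _ (by decide) l₂ hl₂ hl₂1 hl₂w l₄ h hl₄w), fun h => ?_⟩
        obtain ⟨i, hi⟩ := Subgroup.mem_zpowers_iff.1 h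
        have h1 : emb (DihedralGroup.sr 1) * l₄ * (emb (DihedralGroup.sr 1))⁻¹ = l₄ := by
          rw [← hi, ← conj_zpow, hl₃w]
        have h2 := hpair _ _ hsr' l₄ hl₄ h1
        rw [hl₄w] at h2
        exact hl₄1 (hcl l₄ hl₄ (by rw [hcinv l₄ hl₄]; exact h2.symm))
      by_contra h
      push Not at h
      -- five lines do not fit into nine elements
      haveI : Fact (Nat.Prime 3) := ⟨Nat.prime_three⟩
      let L : Fin 5 → S := ![l₁, l₂, l₃, l₄, a]
      have hLA : ∀ i, L i ∈ A := by intro i; fin_cases i <;> simp [L, hl₁, hl₂, hl₃, hl₄, ha]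
      have hL1 : ∀ i, L i ≠ 1 := by intro i; fin_cases i <;> simp [L, hl₁1, hl₂1, hl₃1, hl₄1, ha1]
      have hsym : ∀ x y, x ∈ A → x ≠ 1 → y ∈ A → y ≠ 1 → x ∈ Subgroup.zpowers y → y ∈ Subgroup.zpowers x := by
        intro x y hx hx1 hy hy1 hxy
        have := Subgroup.eq_of_le_of_card_ge (Subgroup.zpowers_le.2 hxy)
          (by rw [Nat.card_zpowers, Nat.card_zpowers, orderOf_eq_prime (hA.2 x hx) hx1, orderOf_eq_prime (hA.2 y hy) hy1])
        rw [this]; exact Subgroup.mem_zpowers y
      have hLne : ∀ i j : Fin 5, i < j → L j ∉ Subgroup.zpowers (L i) := by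
        intro i j hij
        obtain ⟨n1, n2, n3, n4, n5⟩ := hne13
        fin_cases i <;> fin_cases j <;> simp only [L] at hij ⊢ <;>
          first
          | exact absurd hij (by decide)
          | exact hne12 | exact n1 | exact n2 | exact n3 | exact n4 | exact n5
          | exact h l₁ (by simp) | exact h l₂ (by simp) | exact h l₃ (by simp) | exact h l₄ (by simp)
      let F : Fin 5 × Bool → A := fun q => ⟨if q.2 then L q.1 else (L q.1)⁻¹, by
        split_ifs
        · exact hLA _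
        · exact A.inv_mem (hLA _)⟩
      have hF : Function.Injective F := by
        rintro ⟨i, s⟩ ⟨j, t⟩ he
        have he' : (if s then L i else (L i)⁻¹) = (if t then L j else (L j)⁻¹) := congrArg Subtype.val he
        have hij : i = j := by
          by_contra hne
          rcases lt_or_gt_of_ne hne with hlt | hlt
          · refine hLne i j hlt ?_
            have hm : (if t then L j else (L j)⁻¹) ∈ Subgroup.zpowers (L i) := by
              rw [← he']; split_ifs
              · exact Subgroup.mem_zpowers _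
              · exact Subgroup.inv_mem _ (Subgroup.mem_zpowers _)
            cases t <;> simp at hm <;> exact hm
          · refine hLne j i hlt ?_
            have hm : (if s then L i else (L i)⁻¹) ∈ Subgroup.zpowers (L j) := by
              rw [he']; split_ifs
              · exact Subgroup.mem_zpowers _
              · exact Subgroup.inv_mem _ (Subgroup.mem_zpowers _)
            cases s <;> simp at hm <;> exact hm
        subst hij
        have hsq : L i ≠ (L i)⁻¹ := fun e => by
          have := h3 _ (hLA i)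
          nth_rewrite 2 [e] at this
          rw [mul_inv_cancel, one_mul] at this
          exact hL1 i this
        cases s <;> cases t <;> simp at he' ⊢
        · exact hsq he'.symm
        · exact hsq he'
      have := Nat.card_le_card_of_injective F hF
      rw [hA9, Nat.card_prod, Nat.card_fin, Nat.card_eq_fintype_card, Fintype.card_bool] at this
      omega
    have hz : ∀ a ∈ A, a ≠ 1 → E a v = 0 := by
      intro a ha ha1
      by_contra hne
      obtain ⟨l, hl, hal⟩ := hlne a ha ha1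
      haveI : Fact (Nat.Prime 3) := ⟨Nat.prime_three⟩
      have hlA : l ∈ A ∧ l ≠ 1 := by
        simp only [List.mem_cons, List.not_mem_nil, or_false] at hl
        rcases hl with rfl | rfl | rfl | rfl <;> exact ⟨‹_›, ‹_›⟩
      have heq := Subgroup.eq_of_le_of_card_ge (Subgroup.zpowers_le.2 hal)
        (by rw [Nat.card_zpowers, Nat.card_zpowers, orderOf_eq_prime (hA.2 a ha) ha1,
          orderOf_eq_prime (hA.2 l hlA.1) hlA.2])
      obtain ⟨i, hi⟩ := Subgroup.mem_zpowers_iff.1 (heq.symm ▸ Subgroup.mem_zpowers l : l ∈ Subgroup.zpowers a)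
      apply hcon l hl (E a v) hne
      rw [← hi]
      have hfix := hE a ha v
      have : ∀ k : ℕ, ρ (a ^ k) (E a v) = E a v := by
        intro k
        induction k with
        | zero => rw [pow_zero, hρ1]
        | succ k ih => rw [pow_succ, hρ, hfix, ih]
      obtain ⟨k, hk⟩ : ∃ k : ℕ, a ^ i = a ^ k := ⟨(i % (orderOf a : ℤ)).toNat, by
        rw [← zpow_natCast, Int.toNat_of_nonneg (Int.emod_nonneg _ (by simp [(orderOf_pos a).ne'])),
          zpow_mod_orderOf]⟩
      rw [hk]; exact this k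
    -- `v + ρ a v + ρ a² v = 0` for two independent lines and their products is impossible
    have e1 := hz l₁ hl₁ hl₁1
    have e2 := hz l₂ hl₂ hl₂1
    have hp1 : l₁ * l₂ ≠ 1 := fun h => hne12 (by rw [eq_inv_of_mul_eq_one_right h]; exact Subgroup.inv_mem _ (Subgroup.mem_zpowers _))
    have hp2 : l₁ * l₁ * l₂ ≠ 1 := fun h => hne12 (by rw [eq_inv_of_mul_eq_one_right h]; exact Subgroup.inv_mem _ (Subgroup.mul_mem _ (Subgroup.mem_zpowers _) (Subgroup.mem_zpowers _)))
    have e3 := hz _ (A.mul_mem hl₁ hl₂) hp1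
    have e4 := hz _ (A.mul_mem (A.mul_mem hl₁ hl₁) hl₂) hp2
    have e5 : ∀ u, ρ l₂ u + ρ (l₂ * l₂) u = u → ρ l₁ u + ρ (l₁ * l₁) u = u →
        ρ (l₁ * l₂) u + ρ (l₁ * l₂ * (l₁ * l₂)) u + (ρ (l₁ * l₁ * l₂) u + ρ (l₁ * l₁ * l₂ * (l₁ * l₁ * l₂)) u) = u := by
      intro u h2 h1
      have c1 : l₁ * l₂ * (l₁ * l₂) = l₁ * l₁ * (l₂ * l₂) := by
        rw [mul_assoc, ← mul_assoc l₂, hAmem l₂ hl₂ l₁ hl₁]; group
      have c2 : l₁ * l₁ * l₂ * (l₁ * l₁ * l₂) = l₁ * (l₂ * l₂) := by
        rw [mul_assoc (l₁ * l₁), ← mul_assoc l₂, hAmem l₂ hl₂ _ (A.mul_mem hl₁ hl₁)]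
        calc l₁ * l₁ * (l₁ * l₁ * l₂ * l₂) = (l₁ * l₁ * l₁) * l₁ * (l₂ * l₂) := by group
          _ = l₁ * (l₂ * l₂) := by rw [h3 l₁ hl₁, one_mul]
      rw [c1, c2, hρ l₁ l₂, hρ (l₁ * l₁) (l₂ * l₂), hρ (l₁ * l₁) l₂, hρ l₁ (l₂ * l₂)]
      calc ρ l₁ (ρ l₂ u) + ρ (l₁ * l₁) (ρ (l₂ * l₂) u) + (ρ (l₁ * l₁) (ρ l₂ u) + ρ l₁ (ρ (l₂ * l₂) u))
          = ρ l₁ (ρ l₂ u + ρ (l₂ * l₂) u) + ρ (l₁ * l₁) (ρ l₂ u + ρ (l₂ * l₂) u) := by
            rw [map_add, map_add]; abel
        _ = u := by rw [h2, h1]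
    have hneg : ∀ x y : M, x + y = 0 → y = x := fun x y h => by
      calc y = (x + x) + y := by rw [hadd, zero_add]
        _ = x := by rw [add_assoc, h, add_zero]
    have f1 := hneg _ _ e1
    have f2 := hneg _ _ e2
    have f3 := hneg _ _ e3
    have f4 := hneg _ _ e4
    have := e5 v f2 f1
    rw [f3, f4, hadd] at this
    exact hv this.symm
  -- reduce to the pair `w`, `wc`, with `t` swapping
  obtain ⟨d, d', g, hdd, hd, hg, hgen, la, lb, hla, hla1, hlaw, hlb, hlb1, hlbw, v₀, hv₀, hv₀fix⟩ :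
      ∃ d d' g : DihedralGroup 4, d' = DihedralGroup.r 2 * d ∧ (d * d = 1 ∧ d' * d' = 1 ∧ g * g = 1) ∧
        (g * d * g = d' ∧ g * d' * g = d) ∧
        (∀ x : DihedralGroup 4, x ∈ [1, DihedralGroup.r 2, d, d', g, DihedralGroup.r 2 * g, g * d, g * d']) ∧
        ∃ la lb, la ∈ A ∧ la ≠ 1 ∧ emb d * la * (emb d)⁻¹ = la ∧ lb ∈ A ∧ lb ≠ 1 ∧
          emb d' * lb * (emb d')⁻¹ = lb ∧ ∃ v : M, v ≠ 0 ∧ ρ la v = v := by
    obtain ⟨l, hl, v, hv, hfix⟩ := hex
    simp only [List.mem_cons, List.not_mem_nil, or_false] at hl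
    rcases hl with rfl | rfl | rfl | rfl
    · exact ⟨DihedralGroup.sr 0, DihedralGroup.sr 2, DihedralGroup.sr 1, by decide, by decide, by decide,
        by decide, _, _, hl₁, hl₁1, hl₁w, hl₂, hl₂1, hl₂w, v, hv, hfix⟩
    · exact ⟨DihedralGroup.sr 2, DihedralGroup.sr 0, DihedralGroup.sr 1, by decide, by decide, by decide,
        by decide, _, _, hl₂, hl₂1, hl₂w, hl₁, hl₁1, hl₁w, v, hv, hfix⟩
    · exact ⟨DihedralGroup.sr 1, DihedralGroup.sr 3, DihedralGroup.sr 0, by decide, by decide, by decide,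
        by decide, _, _, hl₃, hl₃1, hl₃w, hl₄, hl₄1, hl₄w, v, hv, hfix⟩
    · exact ⟨DihedralGroup.sr 3, DihedralGroup.sr 1, DihedralGroup.sr 0, by decide, by decide, by decide,
        by decide, _, _, hl₄, hl₄1, hl₄w, hl₃, hl₃1, hl₃w, v, hv, hfix⟩
  obtain ⟨hd, hd', hgg⟩ := hd
  obtain ⟨hg, hg'⟩ := hg
  set w := emb d with hw
  set w' := emb d' with hw'
  set t := emb g with ht
  have hww : w * w = 1 := by rw [hw, ← map_mul, hd, map_one]
  have hww' : w' * w' = 1 := by rw [hw', ← map_mul, hd', map_one]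
  have htt : t * t = 1 := by rw [ht, ← map_mul, hgg, map_one]
  have hinvs : ∀ x : S, x * x = 1 → x⁻¹ = x := fun x h => inv_eq_of_mul_eq_one_right h
  have hw'w : w' = c * w := by rw [hw', hdd, map_mul]
  have htw : t * w * t = w' := by rw [ht, hw, hw', ← map_mul, ← map_mul, hg]
  have hlab : lb ∉ Subgroup.zpowers la := by
    intro h
    obtain ⟨i, hi⟩ := Subgroup.mem_zpowers_iff.1 h
    have h1 : w * lb * w⁻¹ = lb := by rw [← hi, ← conj_zpow, hlaw]
    have h2 := hpair d d' (hw'w) lb hlb h1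
    rw [hlbw] at h2
    exact hlb1 (hcl lb hlb (by rw [hcinv lb hlb]; exact h2.symm))
  have hlaw' : w' * la * w'⁻¹ = la⁻¹ := hpair d d' hw'w la hla hlaw
  have hwlb : w * lb * w⁻¹ = lb⁻¹ := by
    have hcc : c * c = 1 := by
      rw [hcdef, ← map_mul, show DihedralGroup.r (2 : ZMod 4) * DihedralGroup.r 2 = 1 by decide, map_one]
    have hwc : w = c * w' := by rw [hw'w, ← mul_assoc, hcc, one_mul]
    calc w * lb * w⁻¹ = c * (w' * lb * w'⁻¹) * c⁻¹ := by rw [hwc]; group
      _ = lb⁻¹ := by rw [hlbw, hcinv lb hlb]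
  have htla : ∀ v, ρ la v = v → ρ lb (ρ t v) = ρ t v := by
    intro v hv
    set k := t * lb * t⁻¹ with hk
    have hkA : k ∈ A := hconjA t lb hlb
    have htw' : t * w' * t = w := by rw [ht, hw, hw', ← map_mul, ← map_mul, hg']
    have hkw : w * k * w⁻¹ = k := by
      have : w * t = t * w' := by
        calc w * t = (t * w' * t) * t := by rw [htw']
          _ = t * w' := by rw [mul_assoc _ t t, htt, mul_one]
      calc w * k * w⁻¹ = (w * t) * lb * (w * t)⁻¹ := by rw [hk]; group
        _ = t * (w' * lb * w'⁻¹) * t⁻¹ := by rw [this]; group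
        _ = k := by rw [hlbw, hk]
    have hmem : k ∈ Subgroup.zpowers la := by
      by_contra hkl
      -- `w` would fix all of `A`
      let F : Subgroup S := A ⊓ Subgroup.centralizer ({w} : Set S)
      have hlF : la ∈ F := ⟨hla, Subgroup.mem_centralizer_iff.2 fun y hy => by
        rw [Set.mem_singleton_iff.1 hy]; exact mul_inv_eq_iff_eq_mul.1 hlaw⟩
      have hkF : k ∈ F := ⟨hkA, Subgroup.mem_centralizer_iff.2 fun y hy => by
        rw [Set.mem_singleton_iff.1 hy]; exact mul_inv_eq_iff_eq_mul.1 hkw⟩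
      have hFA : F = A := by
        refine Subgroup.eq_of_le_of_card_ge inf_le_left ?_
        obtain ⟨j, hj1, hj⟩ := (Nat.dvd_prime_pow Nat.prime_three).1
          (show Nat.card F ∣ 3 ^ 2 by rw [show (3 : ℕ) ^ 2 = 9 from rfl, ← hA9]; exact Subgroup.card_dvd_of_le inf_le_left)
        haveI : Fact (Nat.Prime 3) := ⟨Nat.prime_three⟩
        have ho : orderOf la = 3 := orderOf_eq_prime (hA.2 la hla) hla1
        have h3' : 3 < Nat.card F := by
          by_contra h
          have heq := Subgroup.eq_of_le_of_card_ge (Subgroup.zpowers_le.2 hlF)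
            (by rw [Nat.card_zpowers, ho]; omega)
          exact hkl (heq.symm ▸ hkF)
        rw [hA9]
        interval_cases j <;> omega
      have h1 := Subgroup.mem_centralizer_iff.1 ((hFA ▸ hlb : lb ∈ F)).2 w rfl
      rw [mul_inv_eq_iff_eq_mul] at hwlb
      rw [h1] at hwlb
      have h2 : lb = lb⁻¹ := mul_right_cancel hwlb
      exact hlb1 (by
        calc lb = lb * lb * lb * (lb * lb)⁻¹ := by group
          _ = lb * lb * lb * (lb⁻¹ * lb)⁻¹ := by rw [← h2]
          _ = 1 := by rw [h3 lb hlb]; simp)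
    obtain ⟨i, hi⟩ := Subgroup.mem_zpowers_iff.1 hmem
    have hfix : ρ k v = v := by
      obtain ⟨j, hj⟩ : ∃ j : ℕ, la ^ i = la ^ j := ⟨(i % (orderOf la : ℤ)).toNat, by
        rw [← zpow_natCast, Int.toNat_of_nonneg (Int.emod_nonneg _ (by simp [(orderOf_pos la).ne'])),
          zpow_mod_orderOf]⟩
      rw [← hi, hj]
      clear hj
      induction j with
      | zero => rw [pow_zero, hρ1]
      | succ j ih => rw [pow_succ, hρ, hv, ih]
    calc ρ lb (ρ t v) = ρ t (ρ k v) := by
          rw [← hρ, ← hρ]; congr 2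
          rw [hk, hinvs t htt, ← mul_assoc, ← mul_assoc, htt, one_mul]
      _ = ρ t v := by rw [hfix]
  -- `A = ⟨la, lb⟩` and the generators
  have hAgen : A ≤ Subgroup.closure ({la, lb} : Set S) := by
    have hle : Subgroup.closure ({la, lb} : Set S) ≤ A := by
      rw [Subgroup.closure_le]
      intro y hy
      simp only [Set.mem_insert_iff, Set.mem_singleton_iff] at hy
      rcases hy with rfl | rfl <;> assumption
    refine (Subgroup.eq_of_le_of_card_ge hle ?_).ge
    obtain ⟨j, hj1, hj⟩ := (Nat.dvd_prime_pow Nat.prime_three).1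
      (show Nat.card (Subgroup.closure ({la, lb} : Set S)) ∣ 3 ^ 2 by simpa [hA9] using Subgroup.card_dvd_of_le hle)
    haveI : Fact (Nat.Prime 3) := ⟨Nat.prime_three⟩
    have ho : orderOf la = 3 := orderOf_eq_prime (hA.2 la hla) hla1
    have h3' : 3 < Nat.card (Subgroup.closure ({la, lb} : Set S)) := by
      by_contra h
      have heq := Subgroup.eq_of_le_of_card_ge
        (Subgroup.zpowers_le.2 (Subgroup.subset_closure (k := ({la, lb} : Set S)) (by simp : la ∈ ({la, lb} : Set S))))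
        (by rw [Nat.card_zpowers, ho]; omega)
      exact hlab (heq.symm ▸ Subgroup.subset_closure (by simp))
    rw [hA9]
    interval_cases j <;> omega
  have hcw : c = w' * w := by rw [hw'w, mul_assoc, hww, mul_one]
  have hSgen : ∀ N : Submodule (ZMod 2) M, (∀ x ∈ [la, lb, w, w', t], ∀ v ∈ N, ρ x v ∈ N) →
      ∀ s : S, ∀ v ∈ N, ρ s v ∈ N := by
    intro N hN
    let St : Submonoid S :=
      { carrier := {x | ∀ v ∈ N, ρ x v ∈ N}
        one_mem' := fun v hv => by rw [hρ1]; exact hv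
        mul_mem' := fun {x y} hx hy v hv => by rw [hρ]; exact hx _ (hy v hv) }
    have hle : ∀ T : Set S, (∀ x ∈ T, x ∈ St) → ∀ x ∈ Subgroup.closure T, x ∈ St := by
      intro T hT x hx
      rw [← Subgroup.mem_toSubmonoid, Subgroup.closure_toSubmonoid_of_finite] at hx
      exact Submonoid.closure_le.2 hT hx
    intro s
    have hs : s ∈ Subgroup.closure ({la, lb, w, w', t} : Set S) := by
      have : A ⊔ X ≤ Subgroup.closure ({la, lb, w, w', t} : Set S) := by
        refine sup_le (hAgen.trans (Subgroup.closure_mono fun y hy => ?_)) fun x hx => ?_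
        · simp only [Set.mem_insert_iff, Set.mem_singleton_iff] at hy ⊢
          rcases hy with rfl | rfl <;> simp
        obtain ⟨q, rfl⟩ := hembS x hx
        have m1 : ∀ y ∈ ({w, w', t} : Set S), y ∈ Subgroup.closure ({la, lb, w, w', t} : Set S) := fun y hy =>
          Subgroup.subset_closure (by simp only [Set.mem_insert_iff, Set.mem_singleton_iff] at hy ⊢; rcases hy with rfl | rfl | rfl <;> simp)
        have hcm : c ∈ Subgroup.closure ({la, lb, w, w', t} : Set S) := by
          rw [hcw]; exact Subgroup.mul_mem _ (m1 w' (by simp)) (m1 w (by simp))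
        have := hgen q
        simp only [List.mem_cons, List.not_mem_nil, or_false] at this
        rcases this with rfl | rfl | rfl | rfl | rfl | rfl | rfl | rfl
        · rw [map_one]; exact Subgroup.one_mem _
        · exact hcm
        · exact m1 _ (by simp [hw])
        · exact m1 _ (by simp [hw'])
        · exact m1 _ (by simp [ht])
        · rw [map_mul]; exact Subgroup.mul_mem _ hcm (m1 t (by simp))
        · rw [map_mul]; exact Subgroup.mul_mem _ (m1 t (by simp)) (m1 w (by simp))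
        · rw [map_mul]; exact Subgroup.mul_mem _ (m1 t (by simp)) (m1 w' (by simp))
      exact this (hAX.symm ▸ Subgroup.mem_top s)
    refine hle _ ?_ s hs
    intro x hx v hv
    refine hN x ?_ v hv
    simp only [Set.mem_insert_iff, Set.mem_singleton_iff] at hx
    simp only [List.mem_cons, List.not_mem_nil, or_false]
    exact hx
  -- inside the fixed space of `la`
  have hconjv : ∀ x a : S, x * x = 1 → ∀ v, ρ a (ρ x v) = ρ x (ρ (x * a * x⁻¹) v) := by
    intro x a hx v
    rw [← hρ, ← hρ, hinvs x hx, ← mul_assoc, ← mul_assoc, hx, one_mul]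
  have hinvfix : ∀ a v, ρ a v = v → ρ a⁻¹ v = v := fun a v h => by
    conv_lhs => rw [← h]
    rw [← hρ, inv_mul_cancel, hρ1]
  have hb3 : ∀ v, ρ la v = v → v + ρ lb v + ρ lb (ρ lb v) = 0 := by
    intro v hv
    refine hfpf la hla lb hlb hla1 hlab _ ?_ ?_
    · have e1 : ρ la (ρ lb v) = ρ lb v := by rw [← hρ, hAmem la hla lb hlb, hρ, hv]
      have e2 : ρ la (ρ lb (ρ lb v)) = ρ lb (ρ lb v) := by rw [← hρ, hAmem la hla lb hlb, hρ, e1]
      rw [map_add, map_add, hv, e1, e2]
    · rw [map_add, map_add, ← hρ lb lb (ρ lb v), ← hρ (lb * lb) lb v, h3 lb hlb, hρ1]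
      abel
  -- common fixed vectors
  have hfixed : ∀ x : S, x * x = 1 → ∀ v, v ≠ 0 → ∀ P : M → Prop, P v → P (ρ x v) →
      (∀ u u', P u → P u' → P (u + u')) →
      ∃ u, u ≠ 0 ∧ P u ∧ ρ x u = u := by
    intro x hx v hv P hP hPx hPadd
    by_cases h : v + ρ x v = 0
    · refine ⟨v, hv, hP, ?_⟩
      calc ρ x v = (v + v) + ρ x v := by rw [hadd, zero_add]
        _ = v := by rw [add_assoc, h, add_zero]
    · refine ⟨_, h, hPadd _ _ hP hPx, ?_⟩
      rw [map_add, ← hρ, hx, hρ1, add_comm]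
  have hcomm_ww : w * w' = w' * w := by rw [hw'w, (hc1 d).eq]; rw [mul_assoc, ← (hc1 d).eq]
  obtain ⟨v₁, hv₁, hv₁a, hv₁w'⟩ := hfixed w' hww' v₀ hv₀ (fun v => ρ la v = v) hv₀fix
    (by rw [hconjv w' la hww', hlaw', hinvfix _ _ hv₀fix])
    (fun u u' hu hu' => by rw [map_add, hu, hu'])
  obtain ⟨v, hv, ⟨hva, hvw'⟩, hvw⟩ := hfixed w hww v₁ hv₁ (fun v => ρ la v = v ∧ ρ w' v = v) ⟨hv₁a, hv₁w'⟩
    ⟨by rw [hconjv w la hww, hlaw, hv₁a], by rw [← hρ, ← hcomm_ww, hρ, hv₁w']⟩
    (fun u u' hu hu' => ⟨by rw [map_add, hu.1, hu'.1], by rw [map_add, hu.2, hu'.2]⟩)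
  set u := ρ lb v with hu
  set v' := ρ t v with hv'
  set u' := ρ t u with hu'
  have hua : ρ la u = u := by rw [hu, ← hρ, hAmem la hla lb hlb, hρ, hva]
  have hlbu : ρ lb u = v + u := by
    have := hb3 v hva
    rw [← hu] at this
    calc ρ lb u = ((v + u) + (v + u)) + ρ lb u := by rw [hadd, zero_add]
      _ = v + u := by rw [add_assoc, this, add_zero]
  have hwu : ρ w u = v + u := by
    rw [hu, ← hρ, mul_inv_eq_iff_eq_mul.1 hwlb, hρ, hvw]
    have h1 : ρ lb (v + u) = v := by rw [map_add, ← hu, hlbu, add_comm u, add_assoc, hadd, add_zero]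
    calc ρ lb⁻¹ v = ρ lb⁻¹ (ρ lb (v + u)) := by rw [h1]
      _ = v + u := by rw [← hρ, inv_mul_cancel, hρ1]
  have hw'u : ρ w' u = u := by
    rw [hu, ← hρ, mul_inv_eq_iff_eq_mul.1 hlbw, hρ, hvw']
  have htt' : ∀ x, ρ t (ρ t x) = x := fun x => by rw [← hρ, htt, hρ1]
  have hvb' : ρ lb v' = v' := htla v hva
  have hub' : ρ lb u' = u' := htla u hua
  have hlav' : ∀ x, ρ la x = x → ρ la (ρ t x) = ρ t (ρ (t * la * t⁻¹) x) := fun x _ => hconjv t la htt x
  have htlat : t * la * t⁻¹ = lb ∨ t * la * t⁻¹ = lb⁻¹ := by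
    set k := t * la * t⁻¹ with hk
    have hkA : k ∈ A := hconjA t la hla
    -- `w'` fixes it
    have hkw : w' * k * w'⁻¹ = k := by
      have : w' * t = t * w := by
        calc w' * t = (t * w * t) * t := by rw [htw]
          _ = t * w := by rw [mul_assoc _ t t, htt, mul_one]
      calc w' * k * w'⁻¹ = (w' * t) * la * (w' * t)⁻¹ := by rw [hk]; group
        _ = t * (w * la * w⁻¹) * t⁻¹ := by rw [this]; group
        _ = k := by rw [hlaw, hk]
    have hk1 : k ≠ 1 := fun h => hla1 (conj_eq_one_iff.1 h)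
    have hmem : k ∈ Subgroup.closure ({la, lb} : Set S) := hAgen hkA
    have hnorm : Subgroup.closure ({la, lb} : Set S) ≤
        Subgroup.zpowers la ⊔ Subgroup.zpowers lb := by
      rw [Subgroup.closure_le]
      intro y hy
      simp only [Set.mem_insert_iff, Set.mem_singleton_iff] at hy
      rcases hy with rfl | rfl
      · exact Subgroup.mem_sup_left (Subgroup.mem_zpowers _)
      · exact Subgroup.mem_sup_right (Subgroup.mem_zpowers _)
    have hn : Subgroup.zpowers la ≤ Subgroup.normalizer (Subgroup.zpowers lb : Set S) := by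
      refine Subgroup.zpowers_le.2 (Subgroup.mem_normalizer_iff.2 fun y => ?_)
      constructor
      · intro hy
        rwa [hAmem la hla y ((Subgroup.zpowers_le.2 hlb) hy), mul_inv_cancel_right]
      · intro hy
        have := (Subgroup.zpowers_le.2 hlb) hy
        have hyA : y ∈ A := by simpa [mul_assoc] using A.mul_mem (A.mul_mem (A.inv_mem hla) this) hla
        rwa [hAmem la hla y hyA, mul_inv_cancel_right] at hy
    have hk2 := hnorm hmem
    rw [← SetLike.mem_coe, Subgroup.coe_mul_of_left_le_normalizer_right _ _ hn] at hk2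
    obtain ⟨_, ⟨i, rfl⟩, _, ⟨j, rfl⟩, hij⟩ := hk2
    simp only at hij
    have h1 : w' * k * w'⁻¹ = (la ^ i)⁻¹ * lb ^ j := by
      calc w' * k * w'⁻¹ = (w' * la * w'⁻¹) ^ i * (w' * lb * w'⁻¹) ^ j := by
            rw [← hij, conj_zpow, conj_zpow]; group
        _ = (la ^ i)⁻¹ * lb ^ j := by rw [hlaw', hlbw, inv_zpow]
    rw [hkw, ← hij] at h1
    have h2 : la ^ i = (la ^ i)⁻¹ := mul_right_cancel h1
    have h2' : la ^ i = 1 := by
      calc la ^ i = la ^ i * la ^ i * la ^ i * (la ^ i * la ^ i)⁻¹ := by group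
        _ = la ^ i * la ^ i * la ^ i * ((la ^ i)⁻¹ * la ^ i)⁻¹ := by rw [← h2]
        _ = 1 := by rw [h3 _ (A.zpow_mem hla i)]; simp
    rw [h2', one_mul] at hij
    have hz : lb ^ (3 : ℤ) = 1 := by rw [show (3 : ℤ) = ((3 : ℕ) : ℤ) from rfl, zpow_natCast]; exact hA.2 lb hlb
    have e : lb ^ j = lb ^ (j % 3) := by
      conv_lhs => rw [show j = j % 3 + 3 * (j / 3) by omega, zpow_add, zpow_mul, hz, one_zpow, mul_one]
    rcases (by omega : j % 3 = 0 ∨ j % 3 = 1 ∨ j % 3 = 2) with h | h | h <;> rw [e, h] at hij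
    · exact absurd hij.symm (by simpa using hk1)
    · exact Or.inl (by simpa using hij.symm)
    · refine Or.inr ?_
      rw [← hij, show (2 : ℤ) = 3 + -1 by norm_num, zpow_add, hz, one_mul, zpow_neg_one]
  have hnegadd : ∀ x y : M, x + y + y = x := fun x y => by rw [add_assoc, hadd, add_zero]
  have hlbv : ρ lb v = u := rfl
  have hlbinv : ρ lb⁻¹ v = v + u ∧ ρ lb⁻¹ u = v := by
    constructor
    · have h1 : ρ lb (v + u) = v := by rw [map_add, hlbv, hlbu, add_comm u, hnegadd]
      calc ρ lb⁻¹ v = ρ lb⁻¹ (ρ lb (v + u)) := by rw [h1]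
        _ = v + u := by rw [← hρ, inv_mul_cancel, hρ1]
    · rw [hu, ← hρ, inv_mul_cancel, hρ1]
  let N : Submodule (ZMod 2) M := Submodule.span (ZMod 2) {v, u, v', u'}
  have hgenN : ∀ x ∈ ({v, u, v', u'} : Set M), x ∈ N := fun x hx => Submodule.subset_span hx
  have hvN : v ∈ N := hgenN v (by simp)
  have huN : u ∈ N := hgenN u (by simp)
  have hv'N : v' ∈ N := hgenN v' (by simp)
  have hu'N : u' ∈ N := hgenN u' (by simp)
  have hNtop : N = ⊤ := by
    refine (hirr N (hSgen N ?_)).resolve_left fun h => hv ((Submodule.mem_bot (ZMod 2)).1 (h ▸ hvN))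
    intro x hx
    suffices ρ x v ∈ N ∧ ρ x u ∈ N ∧ ρ x v' ∈ N ∧ ρ x u' ∈ N by
      intro y hy
      have hmap : N ≤ N.comap (ρ x) := by
        refine Submodule.span_le.2 fun z hz => ?_
        simp only [Set.mem_insert_iff, Set.mem_singleton_iff] at hz
        rcases hz with rfl | rfl | rfl | rfl
        exacts [this.1, this.2.1, this.2.2.1, this.2.2.2]
      exact hmap hy
    have hwt : w * t = t * w' := by
      calc w * t = (t * w' * t) * t := by rw [ht, hw, hw', ← map_mul, ← map_mul, ← map_mul, ← map_mul, hg']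
        _ = t * w' := by rw [mul_assoc _ t t, htt, mul_one]
    have hw't : w' * t = t * w := by
      calc w' * t = (t * w * t) * t := by rw [htw]
        _ = t * w := by rw [mul_assoc _ t t, htt, mul_one]
    simp only [List.mem_cons, List.not_mem_nil, or_false] at hx
    rcases hx with rfl | rfl | rfl | rfl | rfl
    · refine ⟨by rw [hva]; exact hvN, by rw [hua]; exact huN, ?_, ?_⟩
      · rw [hlav' v hva]
        rcases htlat with h | h <;> rw [h]
        · exact hu'N
        · rw [hlbinv.1, map_add]; exact N.add_mem hv'N hu'N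
      · rw [hu', hlav' u hua]
        rcases htlat with h | h <;> rw [h]
        · rw [hlbu, map_add]; exact N.add_mem hv'N hu'N
        · rw [hlbinv.2]; exact hv'N
    · exact ⟨huN, by rw [hlbu]; exact N.add_mem hvN huN, by rw [hvb']; exact hv'N, by rw [hub']; exact hu'N⟩
    · refine ⟨by rw [hvw]; exact hvN, by rw [hwu]; exact N.add_mem hvN huN, ?_, ?_⟩
      · rw [hv', ← hρ, hwt, hρ, hvw']; exact hv'N
      · rw [hu', ← hρ, hwt, hρ, hw'u]; exact hu'N
    · refine ⟨by rw [hvw']; exact hvN, by rw [hw'u]; exact huN, ?_, ?_⟩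
      · rw [hv', ← hρ, hw't, hρ, hvw]; exact hv'N
      · rw [hu', ← hρ, hw't, hρ, hwu, map_add]; exact N.add_mem hv'N hu'N
    · exact ⟨hv'N, hu'N, by rw [hv', htt']; exact hvN, by rw [hu', htt']; exact huN⟩
  -- the four vectors are a basis
  have hdir : ∀ x y : M, ρ la x = x → ρ lb y = y → x + y = 0 → x = 0 ∧ y = 0 := by
    intro x y hx hy h
    have hxy : y = x := by
      calc y = (x + x) + y := by rw [hadd, zero_add]
        _ = x := by rw [add_assoc, h, add_zero]
    subst hxy
    have := hfpf la hla lb hlb hla1 hlab y hx hy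
    exact ⟨this, this⟩
  have hind : ∀ a b : ZMod 2, a • v + b • u = 0 → a = 0 ∧ b = 0 := by
    intro a b h
    have key : ∀ z : ZMod 2, z = 0 ∨ z = 1 := by decide
    have hu0 : u ≠ 0 := fun h0 => hv (by
      have := hb3 v hva
      rwa [← hu, h0, map_zero, add_zero, add_zero] at this)
    have huv : v + u ≠ 0 := by
      intro h0
      have h2 := hlbinv.1
      rw [h0] at h2
      have h3' := congrArg (ρ lb) h2
      rw [← hρ, mul_inv_cancel, hρ1, map_zero] at h3'
      exact hv h3'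
    rcases key a with rfl | rfl <;> rcases key b with rfl | rfl <;> simp at h ⊢
    · exact hu0 h
    · exact hv h
    · exact huv h
  let Φ : (ZMod 2 × ZMod 2) × (ZMod 2 × ZMod 2) → M :=
    fun q => (q.1.1 • v + q.1.2 • u) + (q.2.1 • v' + q.2.2 • u')
  have hfixla : ∀ a b : ZMod 2, ρ la (a • v + b • u) = a • v + b • u := fun a b => by
    rw [map_add, map_smul, map_smul, hva, hua]
  have hfixlb : ∀ a b : ZMod 2, ρ lb (a • v' + b • u') = a • v' + b • u' := fun a b => by
    rw [map_add, map_smul, map_smul, hvb', hub']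
  have hΦinj : Function.Injective Φ := by
    rintro ⟨⟨a, b⟩, ⟨p, q⟩⟩ ⟨⟨a', b'⟩, ⟨p', q'⟩⟩ h
    have h0 : ((a - a') • v + (b - b') • u) + ((p - p') • v' + (q - q') • u') = 0 := by
      rw [← sub_self (Φ ((a', b'), (p', q')))]
      nth_rewrite 1 [← h]
      simp only [Φ, sub_smul]; abel
    obtain ⟨h1, h2⟩ := hdir _ _ (hfixla _ _) (hfixlb _ _) h0
    obtain ⟨e1, e2⟩ := hind _ _ h1
    have h2' := congrArg (ρ t) h2
    rw [map_add, map_smul, map_smul, hv', hu', htt', htt', map_zero] at h2'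
    obtain ⟨e3, e4⟩ := hind _ _ h2'
    simp [sub_eq_zero.1 e1, sub_eq_zero.1 e2, sub_eq_zero.1 e3, sub_eq_zero.1 e4]
  have hΦsurj : Function.Surjective Φ := by
    intro x
    have hx : x ∈ N := hNtop ▸ Submodule.mem_top
    simp only [N, Submodule.mem_span_insert, Submodule.mem_span_singleton] at hx
    obtain ⟨a, z, ⟨b, z', ⟨p, z'', ⟨q, rfl⟩, rfl⟩, rfl⟩, rfl⟩ := hx
    exact ⟨((a, b), (p, q)), by simp only [Φ]; abel⟩
  refine ⟨?_, ?_⟩
  · rw [← Nat.card_congr (Equiv.ofBijective Φ ⟨hΦinj, hΦsurj⟩), Nat.card_prod, Nat.card_prod, Nat.card_zmod]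
  -- the two four-groups
  have hcv : ρ c v = v := by rw [hcw, hρ, hvw, hvw']
  have hcu : ρ c u = v + u := by rw [hcw, hρ, hwu, map_add, hvw', hw'u]
  have hcv' : ρ c v' = v' := by rw [hv', ← hρ, ht, (hc1 g).eq, hρ, ← ht, hcv]
  have hcu' : ρ c u' = v' + u' := by rw [hu', ← hρ, ht, (hc1 g).eq, hρ, ← ht, hcu, map_add]
  have hw1 : w ≠ 1 := fun h => hlb1 (by
    rw [h] at hwlb
    simp only [one_mul, inv_one, mul_one] at hwlb
    calc lb = lb * lb * lb * (lb * lb)⁻¹ := by group
      _ = lb * lb * lb * (lb⁻¹ * lb)⁻¹ := by rw [← hwlb]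
      _ = 1 := by rw [h3 lb hlb]; simp)
  have hcount : Nat.card {m : M // ρ c m = m ∧ ρ t m = m} = 2 := by
    have hiff : ∀ q, (ρ c (Φ q) = Φ q ∧ ρ t (Φ q) = Φ q) ↔ q = ((0, 0), (0, 0)) ∨ q = ((1, 0), (1, 0)) := by
      intro q
      obtain ⟨⟨a, b⟩, ⟨p, q⟩⟩ := q
      have e1 : ρ c (Φ ((a, b), (p, q))) = Φ ((a + b, b), (p + q, q)) := by
        simp only [Φ, map_add, map_smul, hcv, hcu, hcv', hcu', add_smul, smul_add]; abel
      have e2 : ρ t (Φ ((a, b), (p, q))) = Φ ((p, q), (a, b)) := by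
        simp only [Φ, map_add, map_smul, hv', hu', htt']; abel
      rw [e1, e2, hΦinj.eq_iff, hΦinj.eq_iff]
      clear e1 e2
      revert a b p q
      decide
    have e : {q : (ZMod 2 × ZMod 2) × (ZMod 2 × ZMod 2) // q = ((0, 0), (0, 0)) ∨ q = ((1, 0), (1, 0))} ≃
        {m : M // ρ c m = m ∧ ρ t m = m} :=
      (Equiv.ofBijective Φ ⟨hΦinj, hΦsurj⟩).subtypeEquiv fun q => (hiff q).symm
    rw [← Nat.card_congr e, Nat.card_eq_fintype_card]
    decide
  let B : Subgroup S := Subgroup.map emb (Subgroup.closure ({DihedralGroup.r 2, g} : Set (DihedralGroup 4)))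
  have hclo : ∀ x, x ∈ Subgroup.closure ({DihedralGroup.r 2, g} : Set (DihedralGroup 4)) ↔
      x ∈ [1, DihedralGroup.r 2, g, DihedralGroup.r 2 * g] := by
    intro x
    constructor
    · intro hx
      induction hx using Subgroup.closure_induction with
      | mem y hy => rcases hy with rfl | rfl <;> simp
      | one => simp
      | mul y z _ _ hy hz => exact four_mul g hgg y hy z hz
      | inv y _ hy => rwa [inv_eq_of_mul_eq_one_right (four_sq g hgg y hy)]
    · intro hx
      have m1 := Subgroup.subset_closure (k := ({DihedralGroup.r 2, g} : Set (DihedralGroup 4)))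
        (Set.mem_insert _ _)
      have m2 := Subgroup.subset_closure (k := ({DihedralGroup.r 2, g} : Set (DihedralGroup 4)))
        (Set.mem_insert_of_mem _ rfl)
      simp only [List.mem_cons, List.not_mem_nil, or_false] at hx
      rcases hx with rfl | rfl | rfl | rfl
      exacts [Subgroup.one_mem _, m1, m2, Subgroup.mul_mem _ m1 m2]
  have hBmem : ∀ x, x ∈ B ↔ x = 1 ∨ x = c ∨ x = t ∨ x = c * t := by
    intro x
    simp only [B, Subgroup.mem_map, hclo, List.mem_cons, List.not_mem_nil, or_false]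
    constructor
    · rintro ⟨y, (rfl | rfl | rfl | rfl), rfl⟩ <;> simp [hcdef, ht, map_mul]
    · rintro (rfl | rfl | rfl | rfl)
      · exact ⟨1, Or.inl rfl, map_one _⟩
      · exact ⟨_, Or.inr (Or.inl rfl), rfl⟩
      · exact ⟨_, Or.inr (Or.inr (Or.inl rfl)), rfl⟩
      · exact ⟨_, Or.inr (Or.inr (Or.inr rfl)), map_mul _ _ _⟩
  have hBfix : Nat.card {m : M // ∀ b ∈ B, ρ b m = m} = 2 := by
    refine (Nat.card_congr (Equiv.subtypeEquivRight fun m => ?_)).trans hcount
    constructor
    · exact fun h => ⟨h c ((hBmem c).2 (by simp)), h t ((hBmem t).2 (by simp))⟩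
    · intro h b hb
      rcases (hBmem b).1 hb with rfl | rfl | rfl | rfl
      · exact hρ1 m
      · exact h.1
      · exact h.2
      · rw [hρ, h.2, h.1]
  have hB4 : Nat.card B = 4 := by
    rw [Subgroup.card_map_of_injective hembI,
      Nat.card_congr (Equiv.subtypeEquivRight hclo), Nat.card_eq_fintype_card]
    convert four_card d d' g hdd hg hgg
  refine ⟨B, ⟨?_, hB4, ?_, hBfix⟩, ?_⟩
  · rintro _ ⟨y, -, rfl⟩; exact hembX y
  · rintro _ ⟨y, hy, rfl⟩
    rw [← map_pow, pow_two, four_sq g hgg y ((hclo y).1 hy), map_one]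
  intro B' hB'
  obtain ⟨hB'X, hB'4, hB'sq, hB'fix⟩ := hB'
  -- a four-group lies in one of the two
  have hBcomm : ∀ x ∈ B', ∀ y ∈ B', x * y = y * x := by
    intro x hx y hy
    have e : ∀ z ∈ B', z⁻¹ = z := fun z hz => inv_eq_of_mul_eq_one_right (by rw [← pow_two]; exact hB'sq z hz)
    calc x * y = (x * y)⁻¹ := (e _ (B'.mul_mem hx hy)).symm
      _ = y * x := by rw [mul_inv_rev, e x hx, e y hy]
  have hcase : (∀ x ∈ B', x = 1 ∨ x = c ∨ x = w ∨ x = w') ∨ B' ≤ B := by
    by_contra hh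
    push Not at hh
    obtain ⟨⟨x, hx, hx1, hxc, hxw, hxw'⟩, hh2⟩ := hh
    obtain ⟨y, hy, hyB⟩ := SetLike.not_le_iff_exists.1 hh2
    obtain ⟨qx, rfl⟩ := hembS x (hB'X hx)
    obtain ⟨qy, rfl⟩ := hembS y (hB'X hy)
    have c1 : qx * qy = qy * qx := hembI (by rw [map_mul, map_mul]; exact hBcomm _ hx _ hy)
    have c2 : qx ^ 2 = 1 := hembI (by rw [map_pow, map_one]; exact hB'sq _ hx)
    have c3 : qy ^ 2 = 1 := hembI (by rw [map_pow, map_one]; exact hB'sq _ hy)
    have c4 : qx ∉ [1, DihedralGroup.r 2, d, d'] := by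
      simp only [List.mem_cons, List.not_mem_nil, or_false]
      rintro (rfl | rfl | rfl | rfl)
      · exact hx1 (map_one _)
      · exact hxc rfl
      · exact hxw rfl
      · exact hxw' rfl
    have c5 : qy ∉ [1, DihedralGroup.r 2, g, DihedralGroup.r 2 * g] := fun h => hyB
      (Subgroup.mem_map_of_mem emb ((hclo qy).2 h))
    exact (four_cases d g hd hgg (hg.trans hdd) qx qy c1 c2 c3).elim (fun h => c4 (hdd ▸ h)) c5
  rcases hcase with h | h
  · exfalso
    let F : ZMod 2 × ZMod 2 → {m : M // ∀ b ∈ B', ρ b m = m} := fun q => ⟨q.1 • v + q.2 • v', fun b hb => by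
      have hwv' : ρ w v' = v' ∧ ρ w' v' = v' := by
        constructor
        · rw [hv', ← hρ, show w * t = t * w' by
            calc w * t = (t * w' * t) * t := by rw [ht, hw, hw', ← map_mul, ← map_mul, ← map_mul, ← map_mul, hg']
              _ = t * w' := by rw [mul_assoc _ t t, htt, mul_one], hρ, hvw']
        · rw [hv', ← hρ, show w' * t = t * w by
            calc w' * t = (t * w * t) * t := by rw [htw]
              _ = t * w := by rw [mul_assoc _ t t, htt, mul_one], hρ, hvw]
      rcases h b hb with rfl | rfl | rfl | rfl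
      · exact hρ1 _
      · rw [map_add, map_smul, map_smul, hcv, hcv']
      · rw [map_add, map_smul, map_smul, hvw, hwv'.1]
      · rw [map_add, map_smul, map_smul, hvw', hwv'.2]⟩
    have hF : Function.Injective F := by
      rintro ⟨a, p⟩ ⟨a', p'⟩ e
      have e' : a • v + p • v' = a' • v + p' • v' := congrArg Subtype.val e
      have := hΦinj (a₁ := ((a, 0), (p, 0))) (a₂ := ((a', 0), (p', 0))) (by simpa [Φ] using e')
      simpa using this
    have := Nat.card_le_card_of_injective F hF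
    rw [hB'fix, Nat.card_prod, Nat.card_zmod] at this
    omega
  · exact Subgroup.eq_of_le_of_card_ge h (by rw [hB4, hB'4])

end Cfsg.Agent.S4407
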