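import Cfsg.Statements.S4408
import Cfsg.Agent.H19.Fitting
import Cfsg.Agent.H91.Small.OddInvolutions
import Mathlib

set_option autoImplicit false
open Cfsg
set_option maxHeartbeats 400000

namespace Cfsg.Agent.S4408

/-- Let S be a finite solvable group whose Fitting subgroup F(S) has odd order, and let I be an elementary abelian 2-subgroup of S of order 2ⁿ with n ≥ 1. Then F(S) contains subgroups A₁, …, Aₙ of prime order, each normalized by I, pairwise commuting and generating a subgroup A of order |A₁|⋯|Aₙ| (their internal direct product), such that no non-identity element of I centralizes A. -/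
theorem result {S : Type*} [Group S] [Finite S]
    [Group.IsSolvable S] (hF : Odd (Nat.card ↥(Cfsg.fittingSubgroup S)))
    (I : Subgroup S) (hI : Cfsg.IsElementaryAbelian 2 I) (n : ℕ) (hn : 1 ≤ n) (hIn : Nat.card ↥I = 2 ^ n) :
    ∃ f : Fin n → Subgroup S, (∀ i, (Nat.card ↥(f i)).Prime) ∧ (∀ i, f i ≤ Cfsg.fittingSubgroup S) ∧
      (∀ i, I ≤ Subgroup.normalizer ((f i) : Set S)) ∧ (∀ i j, i ≠ j → ∀ a ∈ f i, ∀ b ∈ f j, a * b = b * a) ∧
      Nat.card ↥(⨆ i, f i) = ∏ i, Nat.card ↥(f i) ∧ I ⊓ Subgroup.centralizer ((⨆ i, f i : Subgroup S) : Set S) = ⊥ := by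
  classical
  haveI hIc : IsMulCommutative I := hI.1
  set F := Cfsg.fittingSubgroup S with hFdef
  haveI hFn : F.Normal := H19.fitting_normal _
  haveI hFnil : Group.IsNilpotent F := H19.fitting_isNilpotent
  have hsq : ∀ s ∈ I, s * s = 1 := fun s hs => by rw [← pow_two]; exact hI.2 s hs
  have hinv : ∀ s ∈ I, s⁻¹ = s := fun s hs => inv_eq_of_mul_eq_one_right (hsq s hs)
  have hcomm : ∀ s ∈ I, ∀ t ∈ I, Commute s t := fun s hs t ht =>
    congrArg Subtype.val (hIc.1.1 ⟨s, hs⟩ ⟨t, ht⟩)
  have main : ∀ k ≤ n, ∃ f : Fin k → Subgroup S, (∀ i, (Nat.card (f i)).Prime) ∧ (∀ i, f i ≤ F) ∧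
      (∀ i, I ≤ Subgroup.normalizer (f i : Set S)) ∧
      (∀ a ∈ (⨆ i, f i), ∀ b ∈ (⨆ i, f i), a * b = b * a) ∧
      Nat.card ↥(⨆ i, f i) = ∏ i, Nat.card (f i) ∧
      Nat.card ↥(I ⊓ Subgroup.centralizer ((⨆ i, f i : Subgroup S) : Set S)) * 2 ^ k = 2 ^ n := by
    intro k
    induction k with
    | zero =>
      intro _
      refine ⟨Fin.elim0, fun i => i.elim0, fun i => i.elim0, fun i => i.elim0, ?_, ?_, ?_⟩
      · intro a ha b hb
        rw [iSup_of_empty, Subgroup.mem_bot] at ha
        subst ha; simp
      · rw [iSup_of_empty]; simp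
      · rw [iSup_of_empty, pow_zero, mul_one, ← hIn]
        refine congrArg (fun J : Subgroup S => Nat.card J) (inf_eq_left.2 fun s _ => ?_)
        simp [Subgroup.mem_centralizer_iff]
    | succ k ih =>
      intro hk
      obtain ⟨f, hfp, hfF, hfn, hfc, hfcard, hK⟩ := ih (by omega)
      set A := ⨆ i, f i with hA
      have hAF : A ≤ F := iSup_le hfF
      have hAn : I ≤ Subgroup.normalizer (A : Set S) := by
        intro s hs
        refine Subgroup.mem_normalizer_iff.2 fun x => ?_
        have key : ∀ s ∈ I, ∀ x ∈ A, s * x * s⁻¹ ∈ A := by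
          intro s hs
          suffices A ≤ A.comap (MulAut.conj s).toMonoidHom from fun x hx => this hx
          refine iSup_le fun i x hx => ?_
          exact Subgroup.mem_iSup_of_mem i ((Subgroup.mem_normalizer_iff.1 (hfn i hs) x).1 hx)
        refine ⟨key s hs x, fun hx => ?_⟩
        have := key _ (I.inv_mem hs) _ hx
        simpa [mul_assoc] using this
      set K := I ⊓ Subgroup.centralizer (A : Set S) with hKdef
      obtain ⟨t, htK, ht1⟩ : ∃ t ∈ K, t ≠ 1 := by
        by_contra h
        push Not at h
        have h1 : Nat.card K = 1 := by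
          rw [(Subgroup.eq_bot_iff_forall K).2 h, Subgroup.card_bot]
        rw [h1, one_mul] at hK
        have := Nat.pow_right_injective le_rfl hK
        omega
      have htI : t ∈ I := htK.1
      have ht2 := hsq t htI
      have hconjF : ∀ s : S, s * s = 1 → ∀ x ∈ F, s * x * s ∈ F := by
        intro s hs x hx
        simpa [inv_eq_of_mul_eq_one_right hs] using hFn.conj_mem x hx s
      -- the centraliser of `A` in `F`
      set H := F ⊓ Subgroup.centralizer (A : Set S) with hH
      have hHodd : Odd (Nat.card H) := hF.of_dvd_nat (Subgroup.card_dvd_of_le inf_le_left)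
      have hHinv : ∀ s ∈ I, ∀ x ∈ H, s * x * s ∈ H := by
        intro s hs x hx
        refine ⟨hconjF s (hsq s hs) x hx.1, Subgroup.mem_centralizer_iff.2 fun a ha => ?_⟩
        have ha' : s * a * s ∈ A := by
          simpa [hinv s hs] using (Subgroup.mem_normalizer_iff.1 (hAn hs) a).1 ha
        have e := Subgroup.mem_centralizer_iff.1 hx.2 _ ha'
        calc a * (s * x * s) = s * ((s * a * s) * x) * s := by
              simp only [← mul_assoc, hsq s hs, one_mul]
          _ = s * (x * (s * a * s)) * s := by rw [e]
          _ = s * x * s * a := by simp only [mul_assoc, hsq s hs, mul_one]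
      have hAH : A ≤ H := fun a ha => ⟨hAF ha, Subgroup.mem_centralizer_iff.2 fun b hb => hfc b hb a ha⟩
      have htH : ¬ ∀ x ∈ H, Commute t x := by
        intro hall
        have h1 := H91.OddInvolutions.fix_of_fix_selfcentralizing (F := F) (H := H) hF ht2
          (hconjF t ht2) inf_le_left hall (fun x hx hxH => ⟨hx, Subgroup.mem_centralizer_iff.2
            fun a ha => (hxH a (hAH ha)).eq.symm⟩)
        have htF : t ∈ F := H19.centralizer_fitting_le
          (Subgroup.mem_centralizer_iff.2 fun x hx => (h1 x hx).eq.symm)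
        exact ht1 (H91.OddInvolutions.eq_one_of_sq hF htF ht2)
      -- a minimal invariant subgroup on which `t` acts nontrivially
      obtain ⟨H₁, ⟨hH₁le, hH₁inv, hH₁t⟩, hmin⟩ := exists_minimal_of_wellFoundedLT
        (fun J : Subgroup S => J ≤ H ∧ (∀ s ∈ I, ∀ x ∈ J, s * x * s ∈ J) ∧ ¬ ∀ x ∈ J, Commute t x)
        ⟨H, le_rfl, hHinv, htH⟩
      have hsmall : ∀ J : Subgroup S, J ≤ H₁ → (∀ s ∈ I, ∀ x ∈ J, s * x * s ∈ J) → J ≠ H₁ →
          ∀ x ∈ J, Commute t x := by
        intro J hJ hJinv hJne
        by_contra h
        exact hJne (le_antisymm hJ (hmin ⟨hJ.trans hH₁le, hJinv, h⟩ hJ))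
      have hodd1 : Odd (Nat.card H₁) := hHodd.of_dvd_nat (Subgroup.card_dvd_of_le hH₁le)
      have hD : ∀ d : H₁, d ∈ commutator H₁ → Commute t (d : S) := by
        haveI : Nontrivial H₁ := (Subgroup.nontrivial_iff_ne_bot H₁).2 fun h => hH₁t fun x hx => by
          rw [h, Subgroup.mem_bot] at hx; rw [hx]; exact Commute.one_right t
        haveI : Group.IsSolvable H₁ := inferInstance
        intro d hd
        refine hsmall ((commutator H₁).map H₁.subtype) (Subgroup.map_subtype_le _) ?_ ?_ d
          ⟨d, hd, rfl⟩
        · rintro s hs _ ⟨x, hx, rfl⟩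
          let e : H₁ →* H₁ :=
            { toFun := fun x => ⟨s * x * s, hH₁inv s hs x x.2⟩
              map_one' := Subtype.ext (by simpa using hsq s hs)
              map_mul' := fun x y => Subtype.ext (by
                show s * ((x : S) * y) * s = s * x * s * (s * y * s)
                simp only [mul_assoc]
                rw [← mul_assoc s s, hsq s hs, one_mul]) }
          refine ⟨e x, ?_, rfl⟩
          have h1 : (commutator H₁).map e ≤ commutator H₁ := by
            rw [commutator_def, Subgroup.map_commutator]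
            exact Subgroup.commutator_mono le_top le_top
          exact h1 ⟨x, hx, rfl⟩
        · intro e
          refine (Group.IsSolvable.commutator_lt_top_of_nontrivial (G := H₁)).ne ?_
          refine Subgroup.map_injective H₁.subtype_injective (e.trans ?_)
          rw [← MonoidHom.range_eq_map, Subgroup.range_subtype]
      have hfixJ : ∀ s ∈ I, ¬ (∀ x ∈ H₁, Commute s x) →
          ∀ x ∈ H₁, Commute s x → Commute t x := by
        intro s hs hne x hx hsx
        let J : Subgroup S := H₁ ⊓ Subgroup.centralizer ({s} : Set S)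
        refine hsmall J inf_le_left ?_ (fun e => hne fun y hy => ?_) x
          ⟨hx, Subgroup.mem_centralizer_iff.2 fun z hz => by rw [Set.mem_singleton_iff.1 hz]; exact hsx⟩
        · intro r hr y hy
          refine ⟨hH₁inv r hr y hy.1, Subgroup.mem_centralizer_iff.2 fun z hz => ?_⟩
          rw [Set.mem_singleton_iff.1 hz]
          have h1 : Commute s y := Subgroup.mem_centralizer_iff.1 hy.2 s rfl
          exact ((hcomm s hs r hr).mul_right h1).mul_right (hcomm s hs r hr)
        · exact (Subgroup.mem_centralizer_iff.1 (e.ge hy).2 s rfl : s * y = y * s)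
      have halt : ∀ s ∈ I, (∀ x ∈ H₁, Commute s x) ∨ ∀ x ∈ H₁, Commute (s * t) x := by
        intro s hs
        by_contra h
        push Not at h
        obtain ⟨h1, h2⟩ := h
        refine hH₁t (H91.OddInvolutions.fix_of_fix_fixedPoints hodd1 (hsq s hs) ht2 (hcomm s hs t htI)
          (hH₁inv s hs) (hH₁inv t htI) hD (hfixJ s hs ?_) (hfixJ _ (I.mul_mem hs htI) ?_))
        · intro hall; obtain ⟨z, hz, hz'⟩ := h1; exact hz' (hall z hz)
        · intro hall; obtain ⟨z, hz, hz'⟩ := h2; exact hz' (hall z hz)
      -- an element of prime order inverted by `t`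
      obtain ⟨h₀, hh₀, hh₀'⟩ : ∃ h ∈ H₁, ¬ Commute t h := by
        by_contra h; push Not at h; exact hH₁t h
      set z := h₀⁻¹ * (t * h₀ * t) with hz
      have hzH : z ∈ H₁ := H₁.mul_mem (H₁.inv_mem hh₀) (hH₁inv t htI h₀ hh₀)
      have hz1 : z ≠ 1 := by
        intro h
        apply hh₀'
        rw [hz, inv_mul_eq_one] at h
        show t * h₀ = h₀ * t
        conv_rhs => rw [h]
        simp [mul_assoc, ht2]
      have hzt : t * z * t⁻¹ = z⁻¹ := by
        rw [hinv t htI, hz, mul_inv_rev, inv_inv, mul_inv_rev, mul_inv_rev, hinv t htI]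
        simp [mul_assoc, ht2]
      obtain ⟨p, hp, hpdvd⟩ := Nat.exists_prime_and_dvd (fun h => hz1 (orderOf_eq_one_iff.1 h))
      set x := z ^ (orderOf z / p) with hx
      have hxo : orderOf x = p := by
        rw [hx, orderOf_pow_orderOf_div (orderOf_pos z).ne' hpdvd]
      have hxH : x ∈ H₁ := H₁.pow_mem hzH _
      have hxt : t * x * t⁻¹ = x⁻¹ := by rw [hx, ← conj_pow, hzt, inv_pow]
      have hxpm : ∀ s ∈ I, Commute s x ∨ s * x * s⁻¹ = x⁻¹ := by
        intro s hs
        rcases halt s hs with h | h
        · exact Or.inl (h x hxH)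
        · refine Or.inr ?_
          have h1 := (h x hxH).eq
          rw [← hxt, hinv s hs, hinv t htI]
          have h2 : s * (t * x * t) * s = x := by
            calc s * (t * x * t) * s = (s * t * x) * (t * s) := by simp [mul_assoc]
              _ = x * ((s * t) * (t * s)) := by rw [h1]; simp [mul_assoc]
              _ = x := by simp [← mul_assoc, mul_assoc s t t, ht2, hsq s hs]
          conv_lhs => rw [← h2]
          simp only [← mul_assoc, hsq s hs, one_mul]
          rw [mul_assoc _ s s, hsq s hs, mul_one]
      set X := Subgroup.zpowers x with hX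
      have hXcard : Nat.card X = p := by rw [hX, Nat.card_zpowers, hxo]
      have hXn : I ≤ Subgroup.normalizer (X : Set S) := by
        intro s hs
        have key : ∀ s ∈ I, ∀ y ∈ X, s * y * s⁻¹ ∈ X := by
          intro s hs y hy
          obtain ⟨j, rfl⟩ := Subgroup.mem_zpowers_iff.1 hy
          rw [← conj_zpow]
          refine X.zpow_mem ?_ j
          rcases hxpm s hs with h | h
          · rw [h.eq, mul_inv_cancel_right]; exact Subgroup.mem_zpowers x
          · rw [h]; exact X.inv_mem (Subgroup.mem_zpowers x)
        refine Subgroup.mem_normalizer_iff.2 fun y => ⟨key s hs y, fun hy => ?_⟩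
        simpa [mul_assoc] using key _ (I.inv_mem hs) _ hy
      have hXA : ∀ a ∈ A, ∀ y ∈ X, Commute a y := by
        intro a ha y hy
        obtain ⟨j, rfl⟩ := Subgroup.mem_zpowers_iff.1 hy
        exact Commute.zpow_right (Subgroup.mem_centralizer_iff.1 (hH₁le hxH).2 a ha) j
      have hxodd : Odd p := hxo ▸ hodd1.of_dvd_nat (Subgroup.orderOf_dvd_natCard H₁ hxH)
      have htx : ¬ Commute t x := by
        intro h
        rw [h.eq, mul_inv_cancel_right] at hxt
        have : x * x = 1 := by nth_rewrite 2 [hxt]; exact mul_inv_cancel x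
        have h1 : x = 1 := H91.OddInvolutions.eq_one_of_sq hodd1 hxH this
        rw [h1, orderOf_one] at hxo
        exact hp.one_lt.ne hxo
      have hdisj : A ⊓ X = ⊥ := by
        haveI : Fact (Nat.card X).Prime := ⟨hXcard ▸ hp⟩
        rcases ((A.subgroupOf X).eq_bot_or_eq_top_of_prime_card) with h | h
        · exact disjoint_iff.1 (Subgroup.subgroupOf_eq_bot.1 h)
        · exfalso
          have hxA : x ∈ A := Subgroup.subgroupOf_eq_top.1 h (Subgroup.mem_zpowers x)
          exact htx (Subgroup.mem_centralizer_iff.1 htK.2 x hxA).symm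
      refine ⟨Fin.cons X f, ?_⟩
      have hsup : (⨆ i, (Fin.cons X f : Fin (k + 1) → Subgroup S) i) = A ⊔ X := by
        refine le_antisymm (iSup_le fun i => ?_) (sup_le (iSup_le fun i => ?_) ?_)
        · induction i using Fin.cases with
          | zero => simp
          | succ i => simpa using le_sup_of_le_left (le_iSup f i)
        · exact le_iSup_of_le i.succ (by simp)
        · exact le_iSup_of_le 0 (by simp)
      have hcomm' : ∀ (a : A) (y : X), Commute (A.subtype a) (X.subtype y) := fun a y => hXA a a.2 y y.2
      let φ := MonoidHom.noncommCoprod A.subtype X.subtype hcomm'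
      have hrange : φ.range = A ⊔ X := by
        rw [MonoidHom.noncommCoprod_range, Subgroup.range_subtype, Subgroup.range_subtype]
      have hinj : Function.Injective φ := (MonoidHom.noncommCoprod_injective _ _ _).2
        ⟨A.subtype_injective, X.subtype_injective, by
          rw [Subgroup.range_subtype, Subgroup.range_subtype]; exact disjoint_iff.2 hdisj⟩
      refine ⟨?_, ?_, ?_, ?_, ?_, ?_⟩
      · exact Fin.forall_fin_succ.2 ⟨by simpa [hXcard] using hp, by simpa using hfp⟩
      · exact Fin.forall_fin_succ.2
          ⟨by simpa [hX] using (hH₁le hxH).1, by simpa using hfF⟩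
      · exact Fin.forall_fin_succ.2 ⟨by simpa using hXn, by simpa using hfn⟩
      · rw [hsup, ← hrange]
        rintro _ ⟨⟨a, y⟩, rfl⟩ _ ⟨⟨b, w⟩, rfl⟩
        rw [← map_mul, ← map_mul]
        refine congrArg φ (Prod.ext ?_ ?_)
        · exact Subtype.ext (hfc a a.2 b b.2)
        · haveI : IsMulCommutative X := inferInstance
          exact (inferInstance : IsMulCommutative X).1.1 y w
      · rw [hsup, Fin.prod_univ_succ, Fin.cons_zero]
        simp only [Fin.cons_succ]
        rw [← hfcard, ← hrange, ← Nat.card_congr (MonoidHom.ofInjective hinj).toEquiv, Nat.card_prod,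
          mul_comm]
      · rw [hsup]
        set K' := I ⊓ Subgroup.centralizer ((A ⊔ X : Subgroup S) : Set S) with hK'
        have hK'le : K' ≤ K := inf_le_inf_left I (Subgroup.centralizer_le (SetLike.coe_subset_coe.2 le_sup_left))
        have hmem : ∀ s ∈ K, s ∈ K' ↔ Commute s x := by
          intro s hs
          constructor
          · exact fun h => (Subgroup.mem_centralizer_iff.1 h.2 x
              (Subgroup.mem_sup_right (Subgroup.mem_zpowers x))).symm
          · intro h
            refine ⟨hs.1, ?_⟩
            have h1 : A ⊔ X ≤ Subgroup.centralizer ({s} : Set S) := by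
              refine sup_le (fun a ha => ?_) (Subgroup.zpowers_le.2 ?_)
              · refine Subgroup.mem_centralizer_iff.2 fun w hw => ?_
                rw [Set.mem_singleton_iff.1 hw]
                exact (Subgroup.mem_centralizer_iff.1 hs.2 a ha).symm
              · refine Subgroup.mem_centralizer_iff.2 fun w hw => ?_
                rw [Set.mem_singleton_iff.1 hw]; exact h.eq
            exact Subgroup.mem_centralizer_iff.2 fun w hw =>
              (Subgroup.mem_centralizer_iff.1 (h1 hw) s rfl).symm
        have hidx : (K'.subgroupOf K).index = 2 := by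
          refine Subgroup.index_eq_two_iff.2 ⟨⟨t, htK⟩, fun s => ?_⟩
          rw [Subgroup.mem_subgroupOf, Subgroup.mem_subgroupOf, Subgroup.coe_mul, hmem _ s.2,
            hmem _ (K.mul_mem s.2 htK)]
          have hst : ∀ s : S, Commute s x → Commute (s * t) x → False := by
            intro s h1 h2
            apply htx
            have := h1.inv_left.mul_left h2
            simpa using this
          rcases hxpm s s.2.1 with h | h
          · exact Or.inr ⟨h, fun h' => hst _ h h'⟩
          · refine Or.inl ⟨?_, fun h' => htx ?_⟩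
            · show (s : S) * t * x = x * (s * t)
              rw [hinv _ s.2.1] at h
              calc (s : S) * t * x = s * (t * x * t⁻¹) * t := by simp [mul_assoc]
                _ = s * x⁻¹ * t := by rw [hxt]
                _ = s * (s * x * s) * t := by rw [h]
                _ = x * (s * t) := by simp only [← mul_assoc, hsq _ s.2.1, one_mul]
            · rw [h'.eq, mul_inv_cancel_right] at h
              show t * x = x * t
              have hxx : x * x = 1 := by nth_rewrite 2 [h]; exact mul_inv_cancel x
              rw [H91.OddInvolutions.eq_one_of_sq hodd1 hxH hxx]; simp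
        have h1 := Subgroup.card_mul_index (K'.subgroupOf K)
        rw [hidx, Nat.card_congr (Subgroup.subgroupOfEquivOfLe hK'le).toEquiv] at h1
        rw [pow_succ, ← hK, ← h1]; ring
  obtain ⟨f, hfp, hfF, hfn, hfc, hfcard, hK⟩ := main n le_rfl
  refine ⟨f, hfp, hfF, hfn, fun i j _ a ha b hb => hfc a (Subgroup.mem_iSup_of_mem i ha) b
    (Subgroup.mem_iSup_of_mem j hb), hfcard, ?_⟩
  exact Subgroup.eq_bot_of_card_eq _ ((mul_eq_right₀ (pow_ne_zero _ two_ne_zero)).1 hK)

end Cfsg.Agent.S4408
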