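import Cfsg.Statements.S4409
import Cfsg.Agent.H60.MinimalAbelianEight
import Cfsg.Agent.H20.Hall

set_option autoImplicit false
open Cfsg

namespace Cfsg.Agent.S4409

/-- Let S be a finite solvable group with O_{2'}(S) = 1 that contains a non-cyclic abelian subgroup of order 8, while no proper subgroup of S of 2-power index contains one. Then a Sylow 2-subgroup X of S is normal in S, and one of the following holds: X is abelian; X is extraspecial of order at least 32; X has a generalized quaternion subgroup X₀ of index 2 with X = X₀·C_X(X₀); or X is special with centre of order 4. -/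
theorem result {S : Type*} [Group S] [Finite S]
    [Group.IsSolvable S] (hO : Cfsg.pPrimeCore 2 S = ⊥)
    (h8 : ∃ A : Subgroup S, IsMulCommutative ↥A ∧ ¬ IsCyclic ↥A ∧ Nat.card ↥A = 8)
    (hmin : ∀ R : Subgroup S, R ≠ ⊤ → (∃ k : ℕ, R.index = 2 ^ k) →
      ¬ ∃ A : Subgroup S, A ≤ R ∧ IsMulCommutative ↥A ∧ ¬ IsCyclic ↥A ∧ Nat.card ↥A = 8)
    (X : Sylow 2 S) :
    (X : Subgroup S).Normal ∧
      (IsMulCommutative ↥X ∨
        (Cfsg.IsExtraspecial 2 ↥X ∧ 32 ≤ Nat.card ↥X) ∨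
        (∃ (X₀ : Subgroup S) (k : ℕ), X₀ ≤ (X : Subgroup S) ∧ X₀.relIndex (X : Subgroup S) = 2 ∧
          Nonempty (↥X₀ ≃* QuaternionGroup (2 ^ (k + 1))) ∧ X₀ ⊔ ((X : Subgroup S) ⊓ Subgroup.centralizer (X₀ : Set S)) = (X : Subgroup S)) ∨
        (Cfsg.IsSpecial 2 ↥X ∧ Nat.card ↥(Subgroup.center ↥X) = 4)) := by
  classical
  haveI : Fact (Nat.Prime 2) := ⟨Nat.prime_two⟩
  set k := (Nat.card S).factorization 2 with hk
  have hXc : Nat.card X = 2 ^ k := X.card_eq_multiplicity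
  have hmul : Nat.card S = Nat.card S / 2 ^ k * 2 ^ k :=
    (Nat.div_mul_cancel (Nat.ordProj_dvd _ _)).symm
  have hmo : (Nat.card S / 2 ^ k).Coprime (2 ^ k) :=
    ((Nat.coprime_ordCompl Nat.prime_two Nat.card_pos.ne').symm).pow_right k
  obtain ⟨K, -, hKc, -, -⟩ := Cfsg.Agent.H20.exists_invariant_hall_ge (A := (⊥ : Subgroup S)) (K := ⊤) (U := ⊥)
    bot_le (by rw [Subgroup.card_bot]; exact Nat.coprime_one_left _)
    (solvable_of_solvable_injective (f := (⊤ : Subgroup S).subtype) Subtype.val_injective)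
    (by rw [Subgroup.card_top]; exact hmul) hmo bot_le bot_le
    (by rw [Subgroup.card_bot]; exact Nat.coprime_one_left _)
  have hKo : Odd (Nat.card K) := by
    rw [hKc, ← Nat.coprime_two_right]
    exact (Nat.coprime_ordCompl Nat.prime_two Nat.card_pos.ne').symm
  have hKi : K.index = 2 ^ k := by
    have h := Subgroup.card_mul_index K
    rw [hKc] at h
    have h2 := h.trans hmul
    exact Nat.eq_of_mul_eq_mul_left (hKc ▸ Nat.card_pos) h2
  have hXn := Cfsg.Agent.H60.EightFree.sylow_normal hO h8 hmin X hKi hKo hXc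
  refine ⟨hXn, ?_⟩
  obtain ⟨A, hAc, hAn, hA8⟩ := h8
  have hA2 : IsPGroup 2 ↥A := IsPGroup.of_card (n := 3) (by rw [hA8]; norm_num)
  have hAX : A ≤ (X : Subgroup S) := by
    obtain ⟨P, hP⟩ := hA2.exists_le_sylow
    haveI := Sylow.unique_of_normal X hXn
    rwa [Subsingleton.elim P X] at hP
  have hbad : Cfsg.Agent.H60.EightFree.Bad (X : Subgroup S) := ⟨A, hAX, hAc, hAn, hA8⟩
  have hKX : K ≤ Subgroup.normalizer ((X : Subgroup S) : Set S) := fun g _ => by
    haveI := hXn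
    rw [Subgroup.normalizer_eq_top]; exact Subgroup.mem_top g
  have hsmall : ∀ R : Subgroup S, R < (X : Subgroup S) → K ≤ Subgroup.normalizer (R : Set S) →
      ¬ Cfsg.Agent.H60.EightFree.Bad R := fun R hR hKR =>
    Cfsg.Agent.H60.EightFree.not_bad_of_small hKi hKR (by
      rw [← hXc]
      rcases (Subgroup.card_le_of_le hR.le).lt_or_eq with h | h
      · exact h
      · exact absurd (Subgroup.eq_of_le_of_card_ge hR.le h.ge) hR.ne) hmin
  by_cases hKc' : K ≤ Subgroup.centralizer ((X : Subgroup S) : Set S)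
  · -- then `S` is a 2-group
    left
    have hXY : (X : Subgroup S) ≤ Cfsg.pCore 2 S := le_sSup ⟨hXn, X.2⟩
    have hKY : K ≤ Cfsg.pCore 2 S := fun g hg =>
      Cfsg.Agent.H77.centralizer_pCore_le (G := S) 2 hO (Subgroup.mem_centralizer_iff.2 fun y hy => by
        have hle : Cfsg.pCore 2 S ≤ (X : Subgroup S) := by
          obtain ⟨P, hP⟩ := (Cfsg.Agent.H40.isPGroup_pCore 2 S).exists_le_sylow
          haveI := Sylow.unique_of_normal X hXn
          rwa [Subsingleton.elim P X] at hP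
        exact Subgroup.mem_centralizer_iff.1 (hKc' hg) y (hle hy))
    have hK1 : K = ⊥ := by
      rw [eq_bot_iff]
      intro x hx
      obtain ⟨j, hj⟩ := Cfsg.Agent.H40.isPGroup_pCore 2 S ⟨x, hKY hx⟩
      have d1 : orderOf x ∣ 2 ^ j := orderOf_dvd_of_pow_eq_one (congrArg Subtype.val hj)
      have d2 : orderOf x ∣ Nat.card K := Subgroup.orderOf_dvd_natCard (s := K) hx
      exact Subgroup.mem_bot.2 (orderOf_eq_one_iff.1
        (Nat.eq_one_of_dvd_coprimes ((Nat.coprime_two_left.2 hKo).pow_left j) d1 d2))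
    by_cases hA : A = ⊤
    · subst hA
      exact Cfsg.Agent.H60.EightFree.isMulCommutative_of_forall fun a _ b _ =>
        Cfsg.Agent.H60.EightFree.comm_of hAc (Subgroup.mem_top a) (Subgroup.mem_top b)
    · exfalso
      refine hmin A hA ?_ ⟨A, le_rfl, hAc, hAn, hA8⟩
      rw [hK1, Subgroup.index_bot] at hKi
      have hd := A.index_dvd_card
      rw [hKi] at hd
      obtain ⟨j, -, hj⟩ := (Nat.dvd_prime_pow Nat.prime_two).1 hd
      exact ⟨j, hj⟩
  · rcases Cfsg.Agent.H60.EightFree.classify _ ⟨X.2, hKo, hKX, hKc', hsmall⟩ with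
      h | ⟨h, -, h32⟩ | ⟨X₀, h1, h2, ⟨e⟩, h4, -⟩ | ⟨h, h', -⟩ | ⟨⟨e⟩⟩
    · exact Or.inl h
    · exact Or.inr (Or.inl ⟨h, h32⟩)
    · exact Or.inr (Or.inr (Or.inl ⟨X₀, 0, h1, h2, ⟨e⟩, h4⟩))
    · exact Or.inr (Or.inr (Or.inr ⟨h, h'⟩))
    · exfalso
      obtain ⟨-, ⟨a, ha, b, hb, hab⟩, -, hcyc⟩ := Cfsg.Agent.H60.EightFree.q8_facts e
      by_cases hA : A = (X : Subgroup S)
      · exact hab (Cfsg.Agent.H60.EightFree.comm_of hAc (hA.ge ha) (hA.ge hb))
      · exact hAn (hcyc A hAX hA)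

end Cfsg.Agent.S4409
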