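import Cfsg.Statements.S4410
import Cfsg.Agent.H19.Fitting
import Mathlib

set_option autoImplicit false
open Cfsg
set_option maxHeartbeats 400000

namespace Cfsg.Agent.S4410

/-- Let V be a finite-dimensional vector space over the field with two elements and S a solvable group of linear automorphisms of V with O₂(S) = 1. If P ∈ S has order 4 and (P − 1)³ = 0 on V, then the image of (P − 1)² has at least 4 elements; equivalently, in the decomposition of V into indecomposable modules for the cyclic group generated by P, at least two summands have dimension 3. -/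
theorem result
    {V : Type*} [AddCommGroup V] [Module (ZMod 2) V] [Finite V]
    (S : Subgroup (V ≃ₗ[ZMod 2] V)) (hS : Group.IsSolvable ↥S) (hO2 : Cfsg.pCore 2 ↥S = ⊥)
    (P : V ≃ₗ[ZMod 2] V) (hPS : P ∈ S) (hP4 : orderOf P = 4)
    (hcub : ((P : V →ₗ[ZMod 2] V) - LinearMap.id) ^ 3 = 0) :
    4 ≤ Nat.card ↥(LinearMap.range (((P : V →ₗ[ZMod 2] V) - LinearMap.id) ^ 2)) := by
  classical
  haveI := hS
  haveI : Finite (V ≃ₗ[ZMod 2] V) := Finite.of_injective (fun e => (e : V → V)) DFunLike.coe_injective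
  set N := ((P : V →ₗ[ZMod 2] V) - LinearMap.id) ^ 2 with hN
  by_contra hcard
  rw [not_le] at hcard
  have hadd : ∀ x : V, x + x = 0 := fun x => by
    rw [← two_smul (ZMod 2) x, show (2 : ZMod 2) = 0 from rfl, zero_smul]
  have hneg : ∀ x : V, -x = x := fun x => neg_eq_of_add_eq_zero_left (hadd x)
  have hsub : ∀ x y : V, x - y = x + y := fun x y => by rw [sub_eq_add_neg, hneg]
  set t := P ^ 2 with ht
  have hNv : ∀ v, N v = t v - v := by
    intro v
    simp only [hN, ht, pow_two, Module.End.mul_apply, LinearMap.sub_apply, LinearMap.id_apply,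
      LinearEquiv.coe_coe, LinearEquiv.mul_apply, map_sub, hsub, map_add]
    rw [add_assoc, ← add_assoc (P v), hadd, zero_add]
  have ht1 : t ≠ 1 := pow_ne_one_of_lt_orderOf (by norm_num) (by omega)
  have ht2 : t * t = 1 := by
    rw [ht, ← pow_add, show 2 + 2 = 4 from rfl, ← hP4, pow_orderOf_eq_one]
  obtain ⟨v₀, hv₀⟩ : ∃ v, t v ≠ v := by
    by_contra h; push Not at h; exact ht1 (LinearEquiv.ext h)
  set w := t v₀ - v₀ with hw
  have hw0 : w ≠ 0 := sub_ne_zero.2 hv₀
  have hR : ∀ x ∈ LinearMap.range N, x = 0 ∨ x = w := by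
    intro x hx
    by_contra h
    push Not at h
    have hwR : w ∈ LinearMap.range N := ⟨v₀, hNv v₀⟩
    have h4 : ({0, w, x, x + w} : Finset V).card = 4 := by
      have e1 : x + w ≠ 0 := fun e => h.2 ((eq_neg_of_add_eq_zero_left e).trans (hneg w))
      have e2 : x + w ≠ w := fun e => h.1 (by simpa using e)
      have e3 : x + w ≠ x := fun e => hw0 (by simpa using e)
      simp [Finset.card_insert_of_notMem, hw0.symm, h.1.symm, h.2.symm, e1.symm, e2.symm, e3.symm]
    have h5 : ({0, w, x, x + w} : Finset V).card ≤ Nat.card (LinearMap.range N) := by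
      have h6 : ((({0, w, x, x + w} : Finset V)) : Set V) ⊆ (LinearMap.range N : Set V) := by
        intro y hy
        simp only [Finset.coe_insert, Finset.coe_singleton, Set.mem_insert_iff, Set.mem_singleton_iff] at hy
        rcases hy with rfl | rfl | rfl | rfl
        · exact Submodule.zero_mem _
        · exact hwR
        · exact hx
        · exact Submodule.add_mem _ hx hwR
      have h7 := Set.ncard_le_ncard h6 (Set.toFinite _)
      rw [Set.ncard_coe_finset, ← Nat.card_coe_set_eq] at h7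
      exact h7
    omega
  have htv : ∀ v, t v = v ∨ t v = v + w := by
    intro v
    rcases hR _ ⟨v, hNv v⟩ with h | h
    · exact Or.inl (sub_eq_zero.1 h)
    · exact Or.inr (eq_add_of_sub_eq' h)
  -- the Fitting subgroup
  set F := Cfsg.fittingSubgroup ↥S with hFdef
  haveI hFn : F.Normal := H19.fitting_normal _
  haveI hFnil : Group.IsNilpotent F := H19.fitting_isNilpotent
  have hodd : Odd (Nat.card F) := by
    rw [← Nat.not_even_iff_odd, even_iff_two_dvd]
    intro h2
    obtain ⟨Q⟩ := (inferInstance : Nonempty (Sylow 2 F))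
    have hQn : (Q : Subgroup F).Normal := Sylow.normal_of_normalizerCondition Group.normalizerCondition_of_isNilpotent Q
    haveI := Q.characteristic_of_normal hQn
    have h1 : (Q : Subgroup F).map F.subtype ≤ Cfsg.pCore 2 ↥S :=
      H19.le_pCore ConjAct.normal_of_characteristic_of_normal (Q.2.map _)
    rw [hO2, le_bot_iff, Subgroup.map_eq_bot_iff_of_injective _ F.subtype_injective] at h1
    exact Q.ne_bot_of_dvd_card h2 h1
  let ts : ↥S := ⟨P, hPS⟩ ^ 2
  have hts : (ts : V ≃ₗ[ZMod 2] V) = t := rfl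
  have hts2 : ts * ts = 1 := Subtype.ext ht2
  have htsinv : ts⁻¹ = ts := inv_eq_of_mul_eq_one_right hts2
  obtain ⟨r₀, hr₀F, hr₀⟩ : ∃ r ∈ F, ts * r * ts ≠ r := by
    by_contra h
    push Not at h
    have htF : ts ∈ F := H19.centralizer_fitting_le (Subgroup.mem_centralizer_iff.2 fun r hr => by
      have := h r hr
      calc r * ts = ts * r * ts * ts := by rw [this]
        _ = ts * r := by rw [mul_assoc, hts2, mul_one])
    have h1 : ts = 1 := by
      obtain ⟨m, hm⟩ := hodd
      have h2 : (⟨ts, htF⟩ : F) ^ Nat.card F = 1 := pow_card_eq_one'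
      have h3 : (⟨ts, htF⟩ : F) ^ 2 = 1 := Subtype.ext (by simpa [pow_two] using hts2)
      rw [hm, pow_add, pow_mul, h3, one_pow, pow_one, one_mul] at h2
      exact congrArg Subtype.val h2
    exact ht1 (by rw [← hts, h1]; rfl)
  -- elements inverted by the involution
  have key : ∀ u ∈ F, u ≠ 1 → ts * u * ts = u⁻¹ → u ^ 3 = 1 ∧
      ∃ a : V, ∀ v, (u : V ≃ₗ[ZMod 2] V) v = v ∨ (u : V ≃ₗ[ZMod 2] V) v = v + w ∨
        (u : V ≃ₗ[ZMod 2] V) v = v + a ∨ (u : V ≃ₗ[ZMod 2] V) v = v + (a + w) := by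
    intro u huF hu1 hinv
    obtain ⟨m, hm⟩ : Odd (orderOf u) := hodd.of_dvd_nat (Subgroup.orderOf_dvd_natCard F huF)
    set r := u ^ (m + 1) with hr
    have hrr : r * r = u := by
      rw [hr, ← pow_add, show m + 1 + (m + 1) = (2 * m + 1) + 1 by omega, ← hm, pow_succ,
        pow_orderOf_eq_one, one_mul]
    have hrinv : ts * r * ts = r⁻¹ := by
      have h1 := congrArg (· ^ (m + 1)) hinv
      simp only [inv_pow] at h1
      rw [hr, ← h1, show ts * u * ts = ts * u * ts⁻¹ by rw [htsinv], conj_pow, htsinv]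
    have hu : u = r * ts * r⁻¹ * ts := by
      rw [← hrinv]
      calc u = r * r := hrr.symm
        _ = r * (ts * ts) * r * (ts * ts) := by simp [hts2]
        _ = r * ts * (ts * r * ts) * ts := by simp [mul_assoc]
    set a := (r : V ≃ₗ[ZMod 2] V) w with ha
    have huv : ∀ v, (u : V ≃ₗ[ZMod 2] V) v = v ∨ (u : V ≃ₗ[ZMod 2] V) v = v + w ∨
        (u : V ≃ₗ[ZMod 2] V) v = v + a ∨ (u : V ≃ₗ[ZMod 2] V) v = v + (a + w) := by
      intro v
      have hcoe : (u : V ≃ₗ[ZMod 2] V) v = (r : V ≃ₗ[ZMod 2] V) (t ((r : V ≃ₗ[ZMod 2] V).symm (t v))) :=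
        (congrArg (fun e : ↥S => (e : V ≃ₗ[ZMod 2] V) v) hu).trans rfl
      rw [hcoe]
      rcases htv v with h | h <;> rw [h]
      · rcases htv ((r : V ≃ₗ[ZMod 2] V).symm v) with h' | h' <;> rw [h']
        · exact Or.inl (LinearEquiv.apply_symm_apply _ _)
        · refine Or.inr (Or.inr (Or.inl ?_))
          rw [map_add, LinearEquiv.apply_symm_apply]
      · rcases htv ((r : V ≃ₗ[ZMod 2] V).symm (v + w)) with h' | h' <;> rw [h']
        · exact Or.inr (Or.inl (LinearEquiv.apply_symm_apply _ _))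
        · refine Or.inr (Or.inr (Or.inr ?_))
          rw [map_add, LinearEquiv.apply_symm_apply, ha]; abel
    refine ⟨?_, a, huv⟩
    set ul : V ≃ₗ[ZMod 2] V := (u : V ≃ₗ[ZMod 2] V) with hul
    have hord : ul ^ (2 * m + 1) = 1 := by
      rw [hul, ← Subgroup.coe_pow, ← hm, pow_orderOf_eq_one]; rfl
    have hiter : ∀ (n : ℕ) (x : V), ul x = x → (ul ^ n) x = x := by
      intro n x hx
      induction n with
      | zero => rfl
      | succ n ih => rw [pow_succ, LinearEquiv.mul_apply, hx, ih]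
    have hmul : ∀ (g : V ≃ₗ[ZMod 2] V) (x v : V), g v = v + x → g x = x → ∀ n : ℕ, (g ^ n) v = v + n • x := by
      intro g x v hv hx n
      induction n with
      | zero => simp
      | succ n ih => rw [pow_succ', LinearEquiv.mul_apply, ih, map_add, map_nsmul, hx, hv, succ_nsmul]; abel
    have hodd' : ∀ x : V, (2 * m + 1) • x = x := by
      intro x
      rw [succ_nsmul, mul_comm, mul_nsmul', two_nsmul, hadd, nsmul_zero, zero_add]
    -- `u` has no fixed points on its commutator space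
    have hfpf : ∀ v, ul (ul v - v) = ul v - v → ul v - v = 0 := by
      intro v hx
      have h1 := hmul ul (ul v - v) v (by abel) hx (2 * m + 1)
      rw [hord, hodd'] at h1
      exact left_eq_add.1 h1
    have hthree : ∀ v, ul (ul (ul (ul v - v))) = ul v - v := by
      intro v
      set x := ul v - v with hx
      by_cases hx0 : x = 0
      · simp [hx0]
      have hmem : ∀ y z, ul z - z = y → y ≠ 0 → y = w ∨ y = a ∨ y = a + w := by
        intro y z hy hy0
        rcases huv z with h | h | h | h <;>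
          rw [← hy, h] at hy0 ⊢ <;> simp only [add_sub_cancel_left, sub_self] at hy0 ⊢ <;>
          first | exact absurd rfl hy0 | simp
      have hne1 : ul x ≠ x := fun h => hx0 (hfpf v h)
      have hne2 : ul (ul x) ≠ x := by
        intro h
        refine hne1 ?_
        have h2 : ∀ n : ℕ, (ul ^ (2 * n)) x = x := by
          intro n
          induction n with
          | zero => rfl
          | succ n ih =>
            rw [show 2 * (n + 1) = 2 + 2 * n by ring, pow_add, LinearEquiv.mul_apply, ih, pow_two,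
              LinearEquiv.mul_apply, h]
        have h3 := congrArg (fun g : V ≃ₗ[ZMod 2] V => g x) hord
        simp only [pow_succ', LinearEquiv.mul_apply, h2] at h3
        exact h3
      have hne3 : ul (ul x) ≠ ul x := fun h => hne1 (ul.injective h)
      have m1 := hmem x v hx.symm hx0
      have m2 := hmem (ul x) (ul v) (by rw [hx, map_sub]) (fun h => hx0 (ul.map_eq_zero_iff.1 h))
      have m3 := hmem (ul (ul x)) (ul (ul v)) (by rw [hx, map_sub, map_sub])
        (fun h => hx0 (ul.map_eq_zero_iff.1 (ul.map_eq_zero_iff.1 h)))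
      have m4 := hmem (ul (ul (ul x))) (ul (ul (ul v))) (by rw [hx, map_sub, map_sub, map_sub])
        (fun h => hx0 (ul.map_eq_zero_iff.1 (ul.map_eq_zero_iff.1 (ul.map_eq_zero_iff.1 h))))
      have hne4 : ul (ul (ul x)) ≠ ul x := fun h => hne2 (ul.injective h)
      have hne5 : ul (ul (ul x)) ≠ ul (ul x) := fun h => hne3 (ul.injective h)
      grind
    have h3 : ∀ v, (ul ^ 3) v = v := by
      intro v
      set y := (ul ^ 3) v - v with hy
      have hy3 : (ul ^ 3) y = y := by
        have e : y = (ul (ul (ul v)) - ul (ul v)) + ((ul (ul v) - ul v) + (ul v - v)) := by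
          rw [hy]; simp only [pow_succ, pow_zero, one_mul, LinearEquiv.mul_apply]; abel
        rw [e, map_add, map_add]
        simp only [pow_succ, pow_zero, one_mul, LinearEquiv.mul_apply, hthree]
      have h1 := hmul (ul ^ 3) y v (by rw [hy]; abel) hy3 (2 * m + 1)
      rw [← pow_mul, mul_comm, pow_mul, hord, one_pow, hodd'] at h1
      exact sub_eq_zero.1 (left_eq_add.1 h1)
    exact Subtype.ext (LinearEquiv.ext fun v => by simpa [hul] using h3 v)
  -- such an element exists
  obtain ⟨u, huF, hu1, hui⟩ : ∃ u ∈ F, u ≠ 1 ∧ ts * u * ts = u⁻¹ := by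
    refine ⟨r₀⁻¹ * (ts * r₀ * ts), F.mul_mem (F.inv_mem hr₀F) ?_, ?_, ?_⟩
    · simpa [htsinv] using hFn.conj_mem r₀ hr₀F ts
    · exact fun h => hr₀ (inv_mul_eq_one.1 h).symm
    · rw [mul_inv_rev, inv_inv, mul_inv_rev, mul_inv_rev, htsinv]
      simp [mul_assoc, hts2]
  obtain ⟨hu3, a, hua⟩ := key u huF hu1 hui
  let Ps : ↥S := ⟨P, hPS⟩
  have hcom : ts * Ps = Ps * ts := ((Commute.refl Ps).pow_left 2).eq
  have hPtP : Ps⁻¹ * ts = ts * Ps⁻¹ := ((Commute.refl Ps).pow_left 2).inv_right.eq.symm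
  set u' := Ps * u * Ps⁻¹ with hu'
  have hu'F : u' ∈ F := hFn.conj_mem u huF Ps
  have hu'1 : u' ≠ 1 := fun h => hu1 (conj_eq_one_iff.1 h)
  have hu'i : ts * u' * ts = u'⁻¹ := by
    calc ts * u' * ts = (ts * Ps) * u * (Ps⁻¹ * ts) := by simp [hu', mul_assoc]
      _ = Ps * (ts * u * ts) * Ps⁻¹ := by rw [hcom, hPtP]; simp [mul_assoc]
      _ = u'⁻¹ := by rw [hui, hu']; simp [mul_assoc]
  obtain ⟨hu'3, b, hub⟩ := key u' hu'F hu'1 hu'i
  -- both act inside a space of order at most eight
  let L : (Fin 3 → ZMod 2) →ₗ[ZMod 2] V := Fintype.linearCombination (ZMod 2) ![w, a, b]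
  set W := LinearMap.range L with hW
  have hgen : ∀ i, ![w, a, b] i ∈ W := fun i =>
    ⟨Pi.single i 1, by simp [L, Fintype.linearCombination_apply_single]⟩
  let K : Subgroup ↥S :=
    { carrier := {g | ∀ v, (g : V ≃ₗ[ZMod 2] V) v - v ∈ W}
      one_mem' := fun v => by simp
      mul_mem' := fun {g k} hg hk v => by
        have := W.add_mem (hg ((k : V ≃ₗ[ZMod 2] V) v)) (hk v)
        simpa [LinearEquiv.mul_apply] using this
      inv_mem' := fun {g} hg v => by
        have h1 := W.neg_mem (hg ((g : V ≃ₗ[ZMod 2] V).symm v))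
        rw [LinearEquiv.apply_symm_apply, neg_sub] at h1
        exact h1 }
  have huK : ∀ (x : ↥S) (c : V), c ∈ W → (∀ v, (x : V ≃ₗ[ZMod 2] V) v = v ∨ (x : V ≃ₗ[ZMod 2] V) v = v + w ∨
      (x : V ≃ₗ[ZMod 2] V) v = v + c ∨ (x : V ≃ₗ[ZMod 2] V) v = v + (c + w)) → x ∈ K := by
    intro x c hc h v
    rcases h v with h | h | h | h <;> rw [h]
    · simp
    · simpa using hgen 0
    · simpa using hc
    · simpa using W.add_mem hc (by simpa using hgen 0)
  obtain ⟨Q⟩ := (inferInstance : Nonempty (Sylow 3 F))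
  haveI : Fact (Nat.Prime 3) := ⟨Nat.prime_three⟩
  have hQn : (Q : Subgroup F).Normal :=
    Sylow.normal_of_normalizerCondition Group.normalizerCondition_of_isNilpotent Q
  have hQmem : ∀ (x : ↥S) (hx : x ∈ F), x ^ 3 = 1 → (⟨x, hx⟩ : F) ∈ (Q : Subgroup F) := by
    intro x hx hx3
    have hp : IsPGroup 3 (Subgroup.zpowers (⟨x, hx⟩ : F)) := by
      rintro ⟨y, hy⟩
      obtain ⟨j, rfl⟩ := Subgroup.mem_zpowers_iff.1 hy
      refine ⟨1, Subtype.ext ?_⟩
      have e : (⟨x, hx⟩ : F) ^ 3 = 1 := Subtype.ext (by simpa using hx3)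
      rw [pow_one, Subgroup.coe_pow, ← zpow_natCast, ← zpow_mul, mul_comm, zpow_mul, zpow_natCast, e,
        one_zpow, Subgroup.coe_one]
    haveI := hQn
    exact (Q.3 (Q.2.to_sup_of_normal_left hp) le_sup_left) ▸
      Subgroup.mem_sup_right (Subgroup.mem_zpowers _)
  let H : Subgroup ↥S := (Q : Subgroup F).map F.subtype ⊓ K
  have hH3 : IsPGroup 3 H := (Q.2.map F.subtype).to_le inf_le_left
  have hHmem : ∀ (x : ↥S) (c : V), x ∈ F → x ^ 3 = 1 → c ∈ W →
      (∀ v, (x : V ≃ₗ[ZMod 2] V) v = v ∨ (x : V ≃ₗ[ZMod 2] V) v = v + w ∨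
      (x : V ≃ₗ[ZMod 2] V) v = v + c ∨ (x : V ≃ₗ[ZMod 2] V) v = v + (c + w)) → x ∈ H :=
    fun x c hx h3 hc h => ⟨⟨⟨x, hx⟩, hQmem x hx h3, rfl⟩, huK x c hc h⟩
  have hinv : ∀ g ∈ H, ∀ v ∈ W, (g : V ≃ₗ[ZMod 2] V) v ∈ W := fun g hg v hv => by
    simpa using W.add_mem (hg.2 v) hv
  let φ : H →* (W →ₗ[ZMod 2] W) :=
    { toFun := fun g => (((g : ↥S) : V ≃ₗ[ZMod 2] V) : V →ₗ[ZMod 2] V).restrict (hinv g g.2)
      map_one' := LinearMap.ext fun v => Subtype.ext rfl
      map_mul' := fun g k => LinearMap.ext fun v => Subtype.ext rfl }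
  have hφinj : Function.Injective φ.toHomUnits := by
    rw [← MonoidHom.ker_eq_bot_iff, eq_bot_iff]
    intro g hg
    rw [MonoidHom.mem_ker] at hg
    have hfix : ∀ v ∈ W, ((g : ↥S) : V ≃ₗ[ZMod 2] V) v = v := fun v hv =>
      congrArg (fun f : W →ₗ[ZMod 2] W => (f ⟨v, hv⟩ : V)) (congrArg Units.val hg)
    have hg2 : g * g = 1 := by
      refine Subtype.ext (Subtype.ext (LinearEquiv.ext fun v => ?_))
      have h1 := hfix _ (g.2.2 v)
      rw [map_sub] at h1
      have h2 := eq_add_of_sub_eq h1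
      show ((g : ↥S) : V ≃ₗ[ZMod 2] V) (((g : ↥S) : V ≃ₗ[ZMod 2] V) v) = v
      rw [h2, hsub, add_comm _ v, add_assoc, hadd, add_zero]
    obtain ⟨k, hk⟩ := hH3 g
    obtain ⟨j, hj⟩ : Odd (3 ^ k) := Odd.pow (by decide)
    rw [hj, pow_add, pow_mul, pow_one, pow_two, hg2, one_pow, one_mul] at hk
    exact hk
  have hH : Nat.card H ≤ 3 := by
    obtain ⟨k, hk⟩ := IsPGroup.iff_card.1 hH3
    have hd := Subgroup.card_dvd_of_injective _ hφinj
    let bW := Module.finBasis (ZMod 2) W
    rw [Nat.card_congr (Units.mapEquiv (LinearMap.toMatrixAlgEquiv bW).toMulEquiv).toEquiv,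
      Matrix.card_GL_field] at hd
    have hdim : Module.finrank (ZMod 2) W ≤ 3 := by
      simpa using LinearMap.finrank_range_le L
    rw [hk] at hd ⊢
    by_contra h
    have hk2 : 2 ≤ k := by
      rcases k with _ | _ | k
      · norm_num at h
      · norm_num at h
      · omega
    have h9 := (pow_dvd_pow 3 hk2).trans hd
    simp only [ZMod.card] at h9
    generalize Module.finrank (ZMod 2) W = d at h9 hdim
    interval_cases d <;> simp [Fin.prod_univ_succ] at h9
  have hwW : w ∈ W := by simpa using hgen 0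
  have huH : u ∈ H := hHmem u a huF hu3 (by simpa using hgen 1) hua
  have hu'H : u' ∈ H := hHmem u' b hu'F hu'3 (by simpa using hgen 2) hub
  have hord3 : orderOf u = 3 := orderOf_eq_prime hu3 hu1
  have hz : u' ∈ Subgroup.zpowers u := by
    have := Subgroup.eq_of_le_of_card_ge (Subgroup.zpowers_le.2 huH)
      (by rw [Nat.card_zpowers, hord3]; exact hH)
    exact this ▸ hu'H
  obtain ⟨j, hj, hju⟩ : ∃ j < 3, u ^ j = u' := by
    rw [mem_zpowers_iff_mem_range_orderOf, hord3] at hz
    simpa using hz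
  have hjj : Ps * u' * Ps⁻¹ = u ^ (j * j) := by
    rw [← hju, ← conj_pow, ← hu', ← hju, ← pow_mul]
  have hjj' : Ps * u' * Ps⁻¹ = u := by
    rw [hjj]
    interval_cases j
    · exact absurd hju.symm (by simpa using hu'1)
    · simp
    · show u ^ (3 + 1) = u
      rw [pow_add, hu3, one_mul, pow_one]
  have htu : ts * u * ts = u := by
    conv_rhs => rw [← hjj']
    rw [hu']
    nth_rewrite 2 [← htsinv]
    show Ps ^ 2 * u * (Ps ^ 2)⁻¹ = _
    rw [pow_two]
    group
  rw [hui] at htu
  refine hu1 ?_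
  have h2 : u * u = 1 := by
    nth_rewrite 1 [← htu]
    exact inv_mul_cancel u
  calc u = u * (u * u) := by rw [h2, mul_one]
    _ = 1 := by rw [← mul_assoc, ← pow_two, ← pow_succ]; exact hu3

end Cfsg.Agent.S4410
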