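import Cfsg.Statements.S4412
import Cfsg.Agent.H91.Small.BroadInvolutions

set_option autoImplicit false
open Cfsg

namespace Cfsg.Agent.S4412

/-- Let p be an odd prime, P a finite p-group and I an elementary abelian subgroup of order 8 of Aut(P). Call T ∈ I, T ≠ 1, broad when its fixed-point subgroup C_P(T) is not cyclic. Suppose I has a proper subgroup I₀ containing no broad element such that the product of any two broad elements lies in I₀. Then P is abelian of rank exactly 3 (generated by three elements but not by two), there are exactly three broad elements and they generate I, and I₀ is exactly the set of products of two broad elements. -/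
theorem result
    {P : Type*} [Group P] [Finite P] (p : ℕ) (hp : p.Prime) (hp2 : p ≠ 2) (hP : IsPGroup p P)
    (I : Subgroup (MulAut P)) (hI : Cfsg.IsElementaryAbelian 2 I) (hI8 : Nat.card ↥I = 8)
    (I₀ : Subgroup (MulAut P)) (hI₀ : I₀ < I)
    (hdisj : ∀ T ∈ I₀, T ≠ 1 → ∃ g : P, ∀ x : P, (T x = x ↔ x ∈ Subgroup.zpowers g))
    (hprod : ∀ T ∈ I, ∀ T' ∈ I, T ≠ 1 → T' ≠ 1 → (¬ ∃ g : P, ∀ x : P, (T x = x ↔ x ∈ Subgroup.zpowers g)) →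
      (¬ ∃ g : P, ∀ x : P, (T' x = x ↔ x ∈ Subgroup.zpowers g)) → T * T' ∈ I₀) :
    IsMulCommutative P ∧ (∃ a b c : P, Subgroup.closure {a, b, c} = ⊤) ∧ (¬ ∃ a b : P, Subgroup.closure {a, b} = ⊤) ∧
      Nat.card {T : MulAut P // T ∈ I ∧ T ≠ 1 ∧ ¬ ∃ g : P, ∀ x : P, (T x = x ↔ x ∈ Subgroup.zpowers g)} = 3 ∧
      Subgroup.closure {T : MulAut P | T ∈ I ∧ T ≠ 1 ∧ ¬ ∃ g : P, ∀ x : P, (T x = x ↔ x ∈ Subgroup.zpowers g)} = I ∧
      (I₀ : Set (MulAut P)) = {S : MulAut P | ∃ T T' : MulAut P, T ∈ I ∧ T' ∈ I ∧ T ≠ 1 ∧ T' ≠ 1 ∧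
        (¬ ∃ g : P, ∀ x : P, (T x = x ↔ x ∈ Subgroup.zpowers g)) ∧ (¬ ∃ g : P, ∀ x : P, (T' x = x ↔ x ∈ Subgroup.zpowers g)) ∧ S = T * T'} := by
  classical
  haveI : Finite (MulAut P) := Finite.of_injective (fun e => (e : P → P)) DFunLike.coe_injective
  obtain ⟨hsq, hcm⟩ := H91.BroadInvolutions.elem_facts hI
  have hx : ∃ x ∈ I, x ∉ I₀ ∧ ((∃ y ∈ I, y ≠ 1 ∧ ¬ H91.BroadInvolutions.Cyc y) → x ≠ 1 ∧ ¬ H91.BroadInvolutions.Cyc x) := by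
    by_cases hb : ∃ y ∈ I, y ≠ 1 ∧ ¬ H91.BroadInvolutions.Cyc y
    · obtain ⟨y, hy, hy1, hyc⟩ := hb
      exact ⟨y, hy, fun h => hyc (hdisj y h hy1), fun _ => ⟨hy1, hyc⟩⟩
    · obtain ⟨x, hx, hx0⟩ := SetLike.exists_of_lt hI₀
      exact ⟨x, hx, hx0, fun h => absurd h hb⟩
  obtain ⟨x, hxI, hx0, hxb⟩ := hx
  obtain ⟨W, hWI, h0W, hxW, hW4⟩ := H91.BroadInvolutions.exists_four hI hI8 hI₀.le hxI hx0
  have hcyc : ∀ u ∈ W, u ≠ 1 → H91.BroadInvolutions.Cyc u := by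
    intro u hu hu1
    by_contra huc
    obtain ⟨hx1, hxc⟩ := hxb ⟨u, hWI hu, hu1, huc⟩
    have h1 : x * u ∈ W := h0W (hprod x hxI u (hWI hu) hx1 hu1 hxc huc)
    exact hxW (by simpa using W.mul_mem h1 (W.inv_mem hu))
  obtain ⟨hc, h3, hn2, r, hrinj, hclass, hcl, hW⟩ :=
    H91.BroadInvolutions.core hp hp2 hP hI hI8 hWI hW4 hcyc
  have hr : ∀ k, r k ∈ I ∧ r k ≠ 1 ∧ ¬ H91.BroadInvolutions.Cyc (r k) := fun k => (hclass _).2 ⟨k, rfl⟩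
  have heq : I₀ = W := by
    refine le_antisymm h0W fun S hS => ?_
    have hS' : S ∈ (W : Set (MulAut P)) := hS
    rw [hW] at hS'
    obtain ⟨i, j, rfl⟩ := hS'
    exact hprod _ (hr i).1 _ (hr j).1 (hr i).2.1 (hr j).2.1 (hr i).2.2 (hr j).2.2
  have hset : {T : MulAut P | T ∈ I ∧ T ≠ 1 ∧ ¬ ∃ g : P, ∀ x : P, (T x = x ↔ x ∈ Subgroup.zpowers g)} = Set.range r :=
    Set.ext fun S => hclass S
  refine ⟨hc, h3, hn2, ?_, ?_, ?_⟩
  · show Nat.card ↥{T : MulAut P | T ∈ I ∧ T ≠ 1 ∧ ¬ ∃ g : P, ∀ x : P, (T x = x ↔ x ∈ Subgroup.zpowers g)} = 3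
    rw [hset, Nat.card_range_of_injective hrinj, Nat.card_fin]
  · rw [hset]; exact hcl
  · rw [heq, hW]
    ext S
    constructor
    · rintro ⟨i, j, rfl⟩
      exact ⟨r i, r j, (hr i).1, (hr j).1, (hr i).2.1, (hr j).2.1, (hr i).2.2, (hr j).2.2, rfl⟩
    · rintro ⟨T, T', h1, h2, h3, h4, h5, h6, rfl⟩
      obtain ⟨i, rfl⟩ := (hclass T).1 ⟨h1, h3, h5⟩
      obtain ⟨j, rfl⟩ := (hclass T').1 ⟨h2, h4, h6⟩
      exact ⟨i, j, rfl⟩

end Cfsg.Agent.S4412
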