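import Cfsg.Statements.S4413
import Cfsg.Agent.H91.Small.MinusFive

set_option autoImplicit false
open Cfsg

namespace Cfsg.Agent.S4413

/-- Let P be an extraspecial 2-group of order 32 with no elementary abelian subgroup of order 8 (the central product of a dihedral and a quaternion group of order 8). Then the inner automorphism group of P has order 16 and the outer automorphism group Aut(P)/Inn(P) is isomorphic to the symmetric group of degree 5; in particular Aut(P) has order 1920. -/
theorem result {P : Type*} [Group P] [Finite P]
    (hex : Cfsg.IsExtraspecial 2 P) (h32 : Nat.card P = 32)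
    (hminus : ∀ A : Subgroup P, Cfsg.IsElementaryAbelian 2 A → Nat.card ↥A ≤ 4)
    [(MulAut.conj : P →* MulAut P).range.Normal] :
    Nat.card ↥(MulAut.conj : P →* MulAut P).range = 16 ∧ Nat.card (MulAut P) = 1920 ∧
      Nonempty ((MulAut P ⧸ (MulAut.conj : P →* MulAut P).range) ≃* Equiv.Perm (Fin 5)) := by
  classical
  have h : H91.MinusFive.Setting P := ⟨hex, h32, hminus⟩
  haveI := Fintype.ofFinite (H91.MinusFive.Pt P)
  let e : H91.MinusFive.Pt P ≃ Fin 5 :=
    Fintype.equivFinOfCardEq (by rw [← Nat.card_eq_fintype_card]; exact H91.MinusFive.card_pt h)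
  have hinn := H91.MinusFive.card_inn h
  have hker := H91.MinusFive.ker_perm h
  refine ⟨hinn, ?_, ⟨((QuotientGroup.quotientMulEquivOfEq hker.symm).trans
    (QuotientGroup.quotientKerEquivOfSurjective _ (H91.MinusFive.perm_surjective h))).trans e.permCongrHom⟩⟩
  have h1 := (H91.MinusFive.perm P).ker.card_mul_index
  rw [Subgroup.index_ker, MonoidHom.range_eq_top.2 (H91.MinusFive.perm_surjective h), Subgroup.card_top,
    hker, hinn, Nat.card_eq_fintype_card, Fintype.card_perm, ← Nat.card_eq_fintype_card,
    H91.MinusFive.card_pt h] at h1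
  rw [← h1]; rfl

end Cfsg.Agent.S4413
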