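import Cfsg.Statements.S4414
import Cfsg.Agent.H91.Small.LinesSylow

set_option autoImplicit false
open Cfsg

namespace Cfsg.Agent.S4414

/-- Let S be a finite solvable group whose order is divisible only by the primes 2, p, q (p, q distinct odd primes), with a Sylow system S₂, S_p, S_q (pairwise permutable Sylow subgroups) such that: S_p is a minimal normal subgroup of S of order p or p²; S_q has order q and [S_p, S_q] = S_p; and O₂(S) = 1. Let E be an irreducible module for S over the field with two elements on which S_p acts faithfully, and E₀ the subspace of fixed points of S₂. Then either E₀ has at least 8 elements, or E₀ has exactly 4 elements and S_q does not leave E₀ invariant. -/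
theorem result {S : Type*} [Group S] [Finite S]
    [Group.IsSolvable S] (p q : ℕ) (hp : p.Prime) (hq : q.Prime) (hp2 : p ≠ 2) (hq2 : q ≠ 2) (hpq : p ≠ q)
    (hπ : ∀ r : ℕ, r.Prime → r ∣ Nat.card S → r = 2 ∨ r = p ∨ r = q)
    (S₂ : Sylow 2 S) (Sp : Sylow p S) (Sq : Sylow q S)
    (h2q : Nat.card ↥((S₂ : Subgroup S) ⊔ (Sq : Subgroup S)) = Nat.card ↥S₂ * Nat.card ↥Sq)
    (h2p : Nat.card ↥((S₂ : Subgroup S) ⊔ (Sp : Subgroup S)) = Nat.card ↥S₂ * Nat.card ↥Sp)
    (hpq' : Nat.card ↥((Sp : Subgroup S) ⊔ (Sq : Subgroup S)) = Nat.card ↥Sp * Nat.card ↥Sq)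
    (hSpN : (Sp : Subgroup S).Normal) (hSpmin : ∀ N : Subgroup S, N.Normal → N ≤ (Sp : Subgroup S) → N = ⊥ ∨ N = (Sp : Subgroup S))
    (hSpcard : Nat.card ↥Sp = p ∨ Nat.card ↥Sp = p ^ 2)
    (hSq : Nat.card ↥Sq = q) (hcomm : ⁅(Sp : Subgroup S), (Sq : Subgroup S)⁆ = (Sp : Subgroup S))
    (hO2 : Cfsg.pCore 2 S = ⊥)
    {E : Type*} [AddCommGroup E] [Module (ZMod 2) E] [Finite E] (ρ : Representation (ZMod 2) S E) (hE : Nontrivial E)
    (hirr : ∀ N : Submodule (ZMod 2) E, (∀ s : S, ∀ m ∈ N, ρ s m ∈ N) → N = ⊥ ∨ N = ⊤)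
    (hfaith : ∀ x ∈ (Sp : Subgroup S), ρ x = 1 → x = 1) :
    8 ≤ Nat.card {v : E // ∀ s ∈ (S₂ : Subgroup S), ρ s v = v} ∨
      (Nat.card {v : E // ∀ s ∈ (S₂ : Subgroup S), ρ s v = v} = 4 ∧
        ∃ x ∈ (Sq : Subgroup S), ∃ v : E, (∀ s ∈ (S₂ : Subgroup S), ρ s v = v) ∧ ¬ ∀ s ∈ (S₂ : Subgroup S), ρ s (ρ x v) = ρ x v) := by
  classical
  have hSpc2 : Nat.card ↥(Sp : Subgroup S) = p ∨ Nat.card ↥(Sp : Subgroup S) = p ^ 2 := hSpcard
  have hSq2 : Nat.card ↥(Sq : Subgroup S) = q := hSq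
  haveI := Fact.mk hp
  haveI := Fact.mk hq
  haveI := hSpN
  haveI := hE
  have hS2n : IsPGroup 2 (S₂ : Subgroup S) := S₂.2
  have hSp1 : (Sp : Subgroup S) ≠ ⊥ := fun h => by
    rw [h, Subgroup.card_bot] at hSpc2
    rcases hSpc2 with h' | h'
    · exact hp.one_lt.ne h'
    · exact (Nat.one_lt_pow two_ne_zero hp.one_lt).ne h'
  have hSpc : ∀ a ∈ (Sp : Subgroup S), ∀ b ∈ (Sp : Subgroup S), a * b = b * a := by
    intro a ha b hb
    have hc : IsMulCommutative ↥(Sp : Subgroup S) := by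
      rcases hSpc2 with h | h
      · haveI := isCyclic_of_prime_card h
        exact ⟨⟨(IsCyclic.commGroup (α := ↥(Sp : Subgroup S))).mul_comm⟩⟩
      · exact IsPGroup.isMulCommutative_of_card_eq_prime_sq h
    exact congrArg Subtype.val (hc.is_comm.comm ⟨a, ha⟩ ⟨b, hb⟩)
  have hexp : ∀ a ∈ (Sp : Subgroup S), a ^ p = 1 := by
    let W : Subgroup S :=
      { carrier := {a | a ∈ (Sp : Subgroup S) ∧ a ^ p = 1}
        one_mem' := ⟨Subgroup.one_mem _, one_pow p⟩
        mul_mem' := fun {a b} ha hb => ⟨Subgroup.mul_mem _ ha.1 hb.1, by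
          rw [(show Commute a b from hSpc a ha.1 b hb.1).mul_pow, ha.2, hb.2, one_mul]⟩
        inv_mem' := fun {a} ha => ⟨Subgroup.inv_mem _ ha.1, by rw [inv_pow, ha.2, inv_one]⟩ }
    have hWn : W.Normal := ⟨fun a ha g => ⟨hSpN.conj_mem a ha.1 g, by rw [conj_pow, ha.2, mul_one, mul_inv_cancel]⟩⟩
    rcases hSpmin W hWn (fun a ha => ha.1) with h | h
    · exfalso
      obtain ⟨a, ha⟩ := exists_prime_orderOf_dvd_card' (G := ↥(Sp : Subgroup S)) p
        (by rcases hSpc2 with h' | h' <;> rw [h'] <;> simp [pow_two])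
      have : (a : S) ∈ W := ⟨a.2, congrArg Subtype.val (show a ^ p = 1 from orderOf_dvd_iff_pow_eq_one.1 (dvd_of_eq ha))⟩
      rw [h, Subgroup.mem_bot] at this
      rw [show a = 1 from Subtype.ext this, orderOf_one] at ha
      exact hp.one_lt.ne ha
    · intro a ha
      rw [← h] at ha
      exact ha.2
  have hSp0 : ∀ v, (∀ a ∈ (Sp : Subgroup S), ρ a v = v) → v = 0 := by
    intro v hv
    rcases hirr (H91.LinesFixed.fixedSub ρ (Sp : Subgroup S)) (fun s m hm => by
      rw [H91.LinesFixed.mem_fixedSub] at hm ⊢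
      intro g hg
      calc ρ g (ρ s m) = ρ s (ρ (s⁻¹ * g * s) m) := by
            rw [← Module.End.mul_apply, ← map_mul, ← Module.End.mul_apply, ← map_mul]; congr 2; group
        _ = ρ s m := by rw [hm _ (by simpa using hSpN.conj_mem g hg s⁻¹)]) with h | h
    · exact (Submodule.mem_bot _).1 (h ▸ (H91.LinesFixed.mem_fixedSub ρ).2 hv)
    · exfalso
      refine hSp1 ((Subgroup.eq_bot_iff_forall _).2 fun a ha => hfaith a ha (LinearMap.ext fun w => ?_))
      exact (H91.LinesFixed.mem_fixedSub ρ).1 (h ▸ Submodule.mem_top) a ha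
  refine H91.LinesFixed.card_fixed ρ p q hp2 hq2 (Sp : Subgroup S) (S₂ : Subgroup S) hSpc hexp hSpc2 hSp0
    ((S₂ : Subgroup S) ⊔ (Sq : Subgroup S)) (Sq : Subgroup S) hSq le_sup_left le_sup_right hS2n
    (by rw [h2q, hSq]; rfl) ?_
  intro L hL x hx hx1
  by_contra hcon
  push Not at hcon
  have ho : ∀ y ∈ (Sq : Subgroup S), ∀ a ∈ (Sp : Subgroup S), y * a * y⁻¹ * a⁻¹ ∈ L := by
    have hz : Subgroup.zpowers x = (Sq : Subgroup S) := by
      refine Subgroup.eq_of_le_of_card_ge (Subgroup.zpowers_le.2 hx) (le_of_eq ?_)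
      rw [Nat.card_zpowers, hSq2]
      have := orderOf_dvd_natCard (⟨x, hx⟩ : ↥(Sq : Subgroup S))
      rw [hSq2, Subgroup.orderOf_mk] at this
      exact (((Nat.dvd_prime hq).1 this).resolve_left (orderOf_eq_one_iff.not.2 hx1)).symm
    intro y hy
    rw [← hz] at hy
    obtain ⟨i, rfl⟩ := (isOfFinOrder_of_finite x).mem_powers_iff_mem_zpowers.2 hy
    induction i with
    | zero => intro a ha; simp
    | succ i ih =>
      intro a ha
      have ha' : x * a * x⁻¹ ∈ (Sp : Subgroup S) := hSpN.conj_mem a ha x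
      have := L.mul_mem (ih (Subgroup.npow_mem_zpowers x i) _ ha') (hcon a ha)
      rw [show x ^ i * (x * a * x⁻¹) * (x ^ i)⁻¹ * (x * a * x⁻¹)⁻¹ * (x * a * x⁻¹ * a⁻¹) =
        x ^ (i + 1) * a * (x ^ (i + 1))⁻¹ * a⁻¹ by rw [pow_succ]; group] at this
      exact this
  have hle : (Sp : Subgroup S) ≤ L := by
    refine hcomm.symm.le.trans ?_
    rw [Subgroup.commutator_le]
    intro a ha y hy
    have := L.inv_mem (ho y hy a ha)
    simpa [commutatorElement_def, mul_assoc] using this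
  have h1 : Nat.card (L : Subgroup S) = Nat.card ↥(Sp : Subgroup S) := by
    rw [le_antisymm hL.1 hle]
  have h2 := hL.2
  rw [h1] at h2
  exact hp.one_lt.ne' (Nat.eq_of_mul_eq_mul_left Nat.card_pos (h2.trans (mul_one _).symm))

end Cfsg.Agent.S4414
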