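import Cfsg.Statements.S4415
import Cfsg.Agent.H84.CubicBlock.Main
import Mathlib

set_option autoImplicit false
open Cfsg

namespace Cfsg.Agent.S4415

/-- Let S be a finite solvable group acting faithfully on a finite-dimensional space E over the field with three elements, with O₃(S) = 1. Let B ≤ S have order 3 and suppose: E = E₀ ⊕ E₁ with B fixing E₁ pointwise, E₀ B-invariant of order 27 and indecomposable under B (a generator of B has a single Jordan block on E₀); B normalizes but does not centralize some subgroup Q of S that is elementary abelian of order 4; and B is the centre of a Sylow 3-subgroup of S. Put R = [O_{3'}(S), B]. Then R is elementary abelian of order 4 or extraspecial of order 32 containing an elementary abelian subgroup of order 8 (a central product of two quaternion groups), and E is the direct sum of a subspace fixed pointwise by R and an RB-invariant subspace on which the subgroup RB acts faithfully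 and irreducibly. -/
theorem result {S : Type*} [Group S] [Finite S]
    [Group.IsSolvable S] {E : Type*} [AddCommGroup E] [Module (ZMod 3) E] [Finite E] (ρ : Representation (ZMod 3) S E)
    (hfaith : Function.Injective ρ) (hO3 : Cfsg.pCore 3 S = ⊥)
    (B : Subgroup S) (hB : Nat.card ↥B = 3) (b : S) (hb : Subgroup.zpowers b = B)
    (E₀ E₁ : Submodule (ZMod 3) E) (hE01 : E₀ ⊓ E₁ = ⊥) (hE01' : E₀ ⊔ E₁ = ⊤)
    (hE1 : ∀ v ∈ E₁, ρ b v = v) (hE0inv : ∀ v ∈ E₀, ρ b v ∈ E₀) (hE0 : Nat.card ↥E₀ = 27)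
    (hind : ∃ v ∈ E₀, ρ b (ρ b v - v) - (ρ b v - v) ≠ 0)
    (Q : Subgroup S) (hQ : Cfsg.IsElementaryAbelian 2 Q) (hQ4 : Nat.card ↥Q = 4)
    (hBQ : B ≤ Subgroup.normalizer (Q : Set S)) (hBQ' : ¬ B ≤ Subgroup.centralizer (Q : Set S))
    (P : Sylow 3 S) (hBZ : (Subgroup.center ↥(P : Subgroup S)).map (P : Subgroup S).subtype = B) :
    ((Cfsg.IsElementaryAbelian 2 ⁅Cfsg.pPrimeCore 3 S, B⁆ ∧ Nat.card ↥⁅Cfsg.pPrimeCore 3 S, B⁆ = 4) ∨
      (Cfsg.IsExtraspecial 2 ↥⁅Cfsg.pPrimeCore 3 S, B⁆ ∧ Nat.card ↥⁅Cfsg.pPrimeCore 3 S, B⁆ = 32 ∧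
        ∃ A : Subgroup S, A ≤ ⁅Cfsg.pPrimeCore 3 S, B⁆ ∧ Cfsg.IsElementaryAbelian 2 A ∧ Nat.card ↥A = 8)) ∧
    ∃ F₀ F₁ : Submodule (ZMod 3) E, F₀ ⊓ F₁ = ⊥ ∧ F₀ ⊔ F₁ = ⊤ ∧
      (∀ r ∈ ⁅Cfsg.pPrimeCore 3 S, B⁆, ∀ v ∈ F₁, ρ r v = v) ∧ (∀ r ∈ ⁅Cfsg.pPrimeCore 3 S, B⁆ ⊔ B, ∀ v ∈ F₀, ρ r v ∈ F₀) ∧
      (∀ r ∈ ⁅Cfsg.pPrimeCore 3 S, B⁆ ⊔ B, (∀ v ∈ F₀, ρ r v = v) → r = 1) ∧
      (∀ N : Submodule (ZMod 3) E, N ≤ F₀ → (∀ r ∈ ⁅Cfsg.pPrimeCore 3 S, B⁆ ⊔ B, ∀ v ∈ N, ρ r v ∈ N) → N = ⊥ ∨ N = F₀) := by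
  classical
  open Cfsg.Agent.H84.CubicBlock Module in
  have : Fact (Nat.Prime 2) := ⟨Nat.prime_two⟩
  subst hb
  have hb3 : b ^ 3 = 1 := by
    rw [Nat.card_zpowers] at hB
    rw [← hB]; exact pow_orderOf_eq_one b
  have hc : H84.CubicBlock.IsCubic ρ b := by
    refine ⟨hfaith, hb3, ?_, ?_⟩
    · set R := E₀.map (H84.CubicBlock.disp ρ b) with hR
      have hRE : R ≤ E₀ := by
        rintro _ ⟨v, hv, rfl⟩; exact E₀.sub_mem (hE0inv v hv) hv
      have hE03 : Module.finrank (ZMod 3) E₀ = 3 := by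
        have h27 := Module.natCard_eq_pow_finrank (K := ZMod 3) (V := E₀)
        rw [hE0, Nat.card_zmod, show 27 = 3 ^ 3 from rfl] at h27
        exact (Nat.pow_right_injective (le_refl 2 |>.trans (by norm_num)) h27).symm
      have hlt : R ≠ E₀ := by
        intro e
        have : E₀ = ⊥ := by
          rw [eq_bot_iff]
          intro v hv
          obtain ⟨v₁, hv₁, rfl⟩ := e.ge hv
          obtain ⟨v₂, hv₂, rfl⟩ := e.ge hv₁
          obtain ⟨v₃, hv₃, rfl⟩ := e.ge hv₂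
          exact (Submodule.mem_bot _).mpr (H84.CubicBlock.disp_cube hb3 v₃)
        rw [this, finrank_bot] at hE03
        omega
      have h2 := Submodule.finrank_lt_finrank_of_lt (lt_of_le_of_ne hRE hlt)
      have hle : LinearMap.range (H84.CubicBlock.disp ρ b) ≤ R := by
        rintro _ ⟨v, rfl⟩
        obtain ⟨u, hu, w, hw, rfl⟩ := Submodule.mem_sup.mp (hE01' ▸ (Submodule.mem_top : v ∈ (⊤ : Submodule (ZMod 3) E)))
        refine ⟨u, hu, ?_⟩
        rw [map_add, H84.CubicBlock.disp_apply ρ b w, hE1 w hw, sub_self, add_zero]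
      have := Submodule.finrank_mono hle
      show Module.finrank (ZMod 3) (LinearMap.range (H84.CubicBlock.disp ρ b)) ≤ 2
      omega
    · obtain ⟨v, -, hv⟩ := hind
      exact ⟨v, hv⟩
  have hbQ : b ∈ Subgroup.normalizer (Q : Set S) := hBQ (Subgroup.mem_zpowers b)
  have hbQ' : ∃ q ∈ Q, b * q ≠ q * b := by
    by_contra h
    push Not at h
    apply hBQ'
    rw [← Subgroup.commutator_eq_bot_iff_le_centralizer, Subgroup.commutator_comm]
    exact (H84.CubicBlock.commutator_bot_iff (H := Q)).mpr h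
  have hodd : ∀ r : ℕ, r.Prime → r ≠ 2 → ∀ n ∈ Cfsg.pCore r S, b * n = n * b := fun r hr hr2 =>
    haveI : Fact r.Prime := ⟨hr⟩
    H84.CubicBlock.odd_core_centralized hc hO3 hQ hQ4 hbQ hbQ' hr2
  set W := Cfsg.pCore 2 S with hW
  set Y := ⁅W, Subgroup.zpowers b⁆ with hY
  have hWn : W.Normal := H19.pCore_normal 2 S
  have hW2 : IsPGroup 2 W := H19.pCore_isPGroup 2
  have hbW : b ∈ Subgroup.normalizer (W : Set S) := by rw [Subgroup.normalizer_eq_top]; trivial
  have hW3 : ¬ 3 ∣ Nat.card W := H84.CubicBlock.not_three_dvd_of_pGroup (by norm_num) hW2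
  have hK3 : ¬ 3 ∣ Nat.card (Cfsg.pPrimeCore 3 S) := fun h =>
    Nat.Prime.not_dvd_one Nat.prime_three
      ((H19.pPrimeCore_coprime (G := S) 3).gcd_eq_one ▸ Nat.dvd_gcd h dvd_rfl)
  have hYne : Y ≠ ⊥ := by
    intro e
    have hall : ∀ p : ℕ, p.Prime → p ≠ 3 → ∀ n ∈ Cfsg.pCore p S, n * b = b * n := by
      intro p hp _ n hn
      by_cases hp2 : p = 2
      · subst hp2; exact ((H84.CubicBlock.commutator_bot_iff (H := W)).mp e n hn).symm
      · exact (hodd p hp hp2 n hn).symm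
    have hbK := H84.CubicBlock.fitting_le_pPrimeCore hO3 (H84.CubicBlock.mem_pPrimeCore_centralizing_cores hO3 hall)
    apply hK3
    have := Subgroup.orderOf_dvd_natCard _ hbK
    rwa [← Nat.card_zpowers, hB] at this
  have hset : H84.CubicBlock.TwoSetting ρ b Y :=
    { cubic := hc
      isTwo := hW2.to_le (H20.commutator_le_of_le_normalizer (Subgroup.zpowers_le.mpr hbW))
      norm := H84.CubicBlock.mem_normalizer_commutator hbW
      gen := H84.CubicBlock.commutator_twice hb3 hbW hW3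
      ne_bot := hYne }
  have hcases : H84.CubicBlock.IsFour ρ b Y ∨ ∃ z, H84.CubicBlock.Core ρ b Y z ∧ Nat.card Y = 32 := by
    rcases H84.CubicBlock.classify hset with h | ⟨z, h⟩
    · exact Or.inl h
    · rcases h.card_eq with h8 | h32
      · exact (H84.CubicBlock.small_excluded hO3 hodd hQ hQ4 hbQ hbQ' h h8).elim
      · exact Or.inr ⟨z, h, h32⟩
  have hY32 : Nat.card Y ≤ 32 := by
    rcases hcases with h | ⟨z, -, h⟩
    · rw [h.2.1]; norm_num
    · rw [h]
  have hRY : ⁅Cfsg.pPrimeCore 3 S, Subgroup.zpowers b⁆ = Y := by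
    have hle := H84.CubicBlock.commutator_le_two_core hb3 (fun r hr hr2 hr3 X hX hbX =>
      haveI : Fact r.Prime := ⟨hr⟩
      H84.CubicBlock.odd_subgroup_centralized hc hO3 hodd hY32 hr2 hr3 hX hbX)
    apply le_antisymm
    · rw [← H84.CubicBlock.commutator_twice hb3 (H := Cfsg.pPrimeCore 3 S) (by
        haveI := H19.pPrimeCore_normal 3 S
        rw [Subgroup.normalizer_eq_top]; trivial) hK3]
      exact Subgroup.commutator_mono hle le_rfl
    · refine Subgroup.commutator_mono (H19.le_pPrimeCore hWn ?_) le_rfl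
      obtain ⟨k, hk⟩ := hW2.exists_card_eq
      rw [hk]
      exact Nat.Coprime.pow_left k (by norm_num)
  rw [hRY]
  refine ⟨?_, ?_⟩
  · rcases hcases with h | ⟨z, h, h32⟩
    · exact Or.inl ⟨h.1, h.2.1⟩
    · exact Or.inr ⟨h.extraspecial, h32, h.exists_eight h32⟩
  have hcompl := H84.CubicBlock.isCompl_fix_move (ρ := ρ) hset.three_not_dvd
  set F₀ := H84.CubicBlock.moveSub ρ Y with hF₀
  have hbF : ∀ v ∈ F₀, ρ b v ∈ F₀ := fun v hv => H84.CubicBlock.moveSub_conj ρ hset.norm hv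
  have hYF : ∀ y ∈ Y, ∀ v ∈ F₀, ρ y v ∈ F₀ := fun y hy v hv => H84.CubicBlock.mem_moveSub_apply ρ hy hv
  let P : Subgroup S :=
    { carrier := {g | (∀ v ∈ F₀, ρ g v ∈ F₀) ∧ ∀ v ∈ F₀, ρ g⁻¹ v ∈ F₀}
      one_mem' := ⟨fun v hv => by simpa using hv, fun v hv => by simpa using hv⟩
      mul_mem' := fun {g k} hg hk => ⟨fun v hv => by rw [H84.CubicBlock.mul_apply]; exact hg.1 _ (hk.1 v hv),
        fun v hv => by rw [mul_inv_rev, H84.CubicBlock.mul_apply]; exact hk.2 _ (hg.2 v hv)⟩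
      inv_mem' := fun {g} hg => ⟨hg.2, by rw [inv_inv]; exact hg.1⟩ }
  have hbi : b⁻¹ = b * b := by
    refine inv_eq_of_mul_eq_one_right ?_
    rw [← pow_three]; exact hb3
  have hP : Y ⊔ Subgroup.zpowers b ≤ P := by
    refine sup_le (fun y hy => ⟨hYF y hy, hYF _ (Y.inv_mem hy)⟩) (Subgroup.zpowers_le.mpr ⟨hbF, ?_⟩)
    intro v hv
    rw [hbi, H84.CubicBlock.mul_apply]
    exact hbF _ (hbF v hv)
  refine ⟨F₀, H84.CubicBlock.fixSub ρ Y, hcompl.symm.inf_eq_bot, hcompl.symm.sup_eq_top,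
    fun r hr v hv => (H84.CubicBlock.mem_fixSub ρ).mp hv r hr, fun r hr => (hP hr).1, ?_, ?_⟩
  · intro r hr htriv
    have hB' : Subgroup.zpowers b ≤ Subgroup.normalizer (Y : Set S) := Subgroup.zpowers_le.mpr hset.norm
    have hr' : r ∈ ((Y ⊔ Subgroup.zpowers b : Subgroup S) : Set S) := hr
    rw [Subgroup.coe_mul_of_right_le_normalizer_left _ _ hB'] at hr'
    obtain ⟨y, hy, g, hg, rfl⟩ := hr'
    rw [SetLike.mem_coe, ← mem_powers_iff_mem_zpowers] at hg
    obtain ⟨n, rfl⟩ := hg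
    change ∀ v ∈ F₀, ρ (y * b ^ n) v = v at htriv
    show y * b ^ n = 1
    have trivial_of : ∀ g : S, (∀ v ∈ H84.CubicBlock.fixSub ρ Y, ρ g v = v) → (∀ v ∈ F₀, ρ g v = v) → g = 1 := by
      intro g e1 e2
      apply hfaith
      ext v
      obtain ⟨u, hu, m, hm, rfl⟩ := Submodule.mem_sup.mp
        (hcompl.sup_eq_top ▸ (Submodule.mem_top : v ∈ (⊤ : Submodule (ZMod 3) E)))
      rw [map_add, e1 u hu, e2 m hm, map_one]
      rfl
    apply trivial_of _ ?_ htriv
    intro v hv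
    have hbv : ∀ k : ℕ, ρ (b ^ k) v = v := by
      intro k
      induction k with
      | zero => simp
      | succ k ih => rw [pow_succ, H84.CubicBlock.mul_apply, hset.fix_b hv, ih]
    rw [H84.CubicBlock.mul_apply, hbv, (H84.CubicBlock.mem_fixSub ρ).mp hv y hy]
  · intro N hN hNinv
    have hNY : ∀ y ∈ Y, ∀ v ∈ N, ρ y v ∈ N := fun y hy => hNinv y (Subgroup.mem_sup_left hy)
    rcases hcases with h | ⟨z, h, h32⟩
    · exact h.2.2 N hN hNY (hNinv b (Subgroup.mem_sup_right (Subgroup.mem_zpowers b)))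
    · exact h.irreducible h32 hN hNY

end Cfsg.Agent.S4415
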