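import Cfsg.Statements.S4417
import Cfsg.Agent.H91.Small.DerivedLength

set_option autoImplicit false
open Cfsg

namespace Cfsg.Agent.S4417

/-- Let F be a field with q elements, p a prime not dividing q, and e the multiplicative order of q modulo p; assume e ≤ n. Then every p-subgroup of GL_n(F) has derived length at most ⌊log₂(n/e)⌋ + 1: that term of its derived series is trivial (n/e is the integer quotient). -/
theorem result {F : Type*} [Field F] [Fintype F] (q : ℕ) (hF : Fintype.card F = q) (p : ℕ) [Fact p.Prime] (hpq : ¬ p ∣ q) (n e : ℕ) (he : e = orderOf (q : ZMod p)) (hen : e ≤ n) (P : Subgroup (GL (Fin n) F)) (hP : IsPGroup p P) : derivedSeries ↥P (Nat.log 2 (n / e) + 1) = ⊥ := by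
  classical
  haveI : Finite (GL (Fin n) F) := inferInstance
  let ρ : P →* Module.End F (Fin n → F) :=
    (((Matrix.toLinAlgEquiv' : Matrix (Fin n) (Fin n) F ≃ₐ[F] _) : Matrix (Fin n) (Fin n) F →* _)).comp
      ((Units.coeHom _).comp P.subtype)
  have hρ : Function.Injective ρ := by
    intro x y h
    exact Subtype.ext (Units.ext (Matrix.toLinAlgEquiv'.injective h))
  have hpF : (p : F) ≠ 0 := by
    intro h
    haveI := ringExpChar F
    obtain ⟨r, hr⟩ := CharP.exists F
    haveI := hr
    obtain ⟨k, hr', hk⟩ := FiniteField.card F r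
    have h1 : r ∣ p := (CharP.cast_eq_zero_iff F r p).1 h
    have h2 : r = p := ((Nat.dvd_prime (Fact.out : p.Prime)).1 h1).resolve_left hr'.ne_one
    exact hpq (hF ▸ hk ▸ h2 ▸ dvd_pow_self r k.ne_zero)
  have h := (H91.DerivedLength.derivedSeries_le_ker_div (K := F) hP hpF
    (e := e) (by rw [he, Nat.card_eq_fintype_card, hF]) n (Fin n → F) ρ (by simp)).1
  rw [(MonoidHom.ker_eq_bot_iff ρ).2 hρ] at h
  exact le_bot_iff.1 h

end Cfsg.Agent.S4417
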