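import Cfsg.Statements.S4420

set_option autoImplicit false
open Cfsg

namespace Cfsg.Agent.S4420

/-- Structure of groups in which every element outside some proper subgroup has square 1. Let H be a finite group with a proper subgroup A such that every element outside A has square 1. Then H has an abelian normal subgroup B of index 2 such that every element outside B is an involution inverting every element of B; and if H is not an elementary abelian 2-group, B is the only abelian normal subgroup of index 2 with this property. -/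
theorem result {H : Type*} [Group H] [Finite H] (A : Subgroup H) (hA : A ≠ ⊤) (hD : ∀ x : H, x ∉ A → x ^ 2 = 1) :
    ∃ B : Subgroup H, B.Normal ∧ IsMulCommutative ↥B ∧ B.index = 2 ∧
      (∀ x : H, x ∉ B → x ^ 2 = 1 ∧ ∀ b ∈ B, x * b * x⁻¹ = b⁻¹) ∧
      (¬ (IsMulCommutative H ∧ ∀ x : H, x ^ 2 = 1) →
        ∀ B' : Subgroup H, B'.Normal → IsMulCommutative ↥B' → B'.index = 2 →
          (∀ x : H, x ∉ B' → x ^ 2 = 1 ∧ ∀ b ∈ B', x * b * x⁻¹ = b⁻¹) → B' = B) := by
  classical
  by_cases hall : ∀ x : H, x ^ 2 = 1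
  · have hinv : ∀ x : H, x⁻¹ = x := fun x => inv_eq_of_mul_eq_one_right (by rw [← pow_two]; exact hall x)
    have hcomm : ∀ x y : H, x * y = y * x := fun x y => by
      have h := hinv (x * y); rw [mul_inv_rev, hinv x, hinv y] at h; exact h.symm
    obtain ⟨x, hx⟩ := SetLike.exists_not_mem_of_ne_top A hA rfl
    have hx1 : x ≠ 1 := fun h => hx (h ▸ A.one_mem)
    haveI : Fact (Nat.Prime 2) := ⟨Nat.prime_two⟩
    have hp : IsPGroup 2 H := fun g => ⟨1, by rw [pow_one]; exact hall g⟩
    obtain ⟨k, hk⟩ := IsPGroup.iff_card.1 hp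
    obtain ⟨j, rfl⟩ : ∃ j, k = j + 1 := Nat.exists_eq_succ_of_ne_zero (by
      rintro rfl
      exact hx1 ((Finite.card_le_one_iff_subsingleton.1 (by simp [hk])).elim x 1))
    obtain ⟨B, hB⟩ := Sylow.exists_subgroup_card_pow_prime 2 (n := j) (hk ▸ pow_dvd_pow 2 (Nat.le_succ j))
    have hBi : B.index = 2 := by
      have := B.card_mul_index; rw [hB, hk, pow_succ] at this
      exact mul_left_cancel₀ (by positivity) this
    exact ⟨B, ⟨fun b hb g => by rw [hcomm g b, mul_inv_cancel_right]; exact hb⟩,
      ⟨⟨fun a b => Subtype.ext (hcomm a b)⟩⟩, hBi,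
      fun y _ => ⟨hall y, fun b _ => by rw [hcomm y b, mul_inv_cancel_right, hinv]⟩,
      fun hn => absurd ⟨⟨⟨hcomm⟩⟩, hall⟩ hn⟩
  · obtain ⟨x, hx⟩ := SetLike.exists_not_mem_of_ne_top A hA rfl
    have hinvA : ∀ x, x ∉ A → ∀ a ∈ A, x * a * x⁻¹ = a⁻¹ := by
      intro x hx a ha
      have h1 : (x * a) ^ 2 = 1 := hD _ (fun h => hx (by simpa using A.mul_mem h (A.inv_mem ha)))
      have h2 : x⁻¹ = x := inv_eq_of_mul_eq_one_right (by rw [← pow_two]; exact hD x hx)
      rw [h2]; rw [pow_two] at h1
      exact eq_inv_of_mul_eq_one_left (by simpa [mul_assoc] using h1)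
    have hAc : ∀ a ∈ A, ∀ b ∈ A, a * b = b * a := by
      intro a ha b hb
      have h1 := hinvA x hx (a * b) (A.mul_mem ha hb)
      have h2 : x * (a * b) * x⁻¹ = (x * a * x⁻¹) * (x * b * x⁻¹) := by group
      rw [h2, hinvA x hx a ha, hinvA x hx b hb, ← mul_inv_rev] at h1
      exact (inv_injective h1).symm
    have hidx : A.index = 2 := by
      rw [Subgroup.index_eq_two_iff]
      refine ⟨x, fun b => ?_⟩
      by_cases hb : b ∈ A
      · exact Or.inr ⟨hb, fun h => hx (by simpa using A.mul_mem (A.inv_mem hb) h)⟩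
      · refine Or.inl ⟨?_, hb⟩
        by_contra hbx
        apply hall
        intro y
        by_cases hy : y ∈ A
        · have e1 := hinvA (b * x) hbx y hy
          have e2 : b * x * y * (b * x)⁻¹ = b * (x * y * x⁻¹) * b⁻¹ := by group
          rw [e2, hinvA x hx y hy, hinvA b hb _ (A.inv_mem hy), inv_inv] at e1
          rw [pow_two]
          exact mul_eq_one_iff_eq_inv.2 e1
        · exact hD y hy
    refine ⟨A, Subgroup.normal_of_index_eq_two hidx, ⟨⟨fun a b => Subtype.ext (hAc a a.2 b b.2)⟩⟩, hidx,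
      fun x hx => ⟨hD x hx, hinvA x hx⟩, fun _ B' _ hB'c hB'i hB' => ?_⟩
    have hle : B' ≤ A := by
      intro x hxB
      by_contra hx
      apply hall
      intro b
      by_cases hb : b ∈ B'
      · by_cases hbA : b ∈ A
        · have e := hinvA x hx b hbA
          have hc : x * b = b * x := congrArg Subtype.val (hB'c.1.1 ⟨x, hxB⟩ ⟨b, hb⟩)
          rw [hc, mul_inv_cancel_right] at e
          rw [pow_two]
          exact mul_eq_one_iff_eq_inv.2 e
        · exact hD b hbA
      · exact (hB' b hb).1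
    refine Subgroup.eq_of_le_of_card_ge hle ?_
    have a1 := A.card_mul_index; have a2 := B'.card_mul_index
    rw [hidx] at a1; rw [hB'i] at a2; omega

end Cfsg.Agent.S4420
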