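import Cfsg.Statements.S4517
import Cfsg.Agent.H42.RealBlock
-- import your own Cfsg.Agent.* helpers here

set_option autoImplicit false
open Cfsg

namespace Cfsg.Agent.S4517

/-- Let G be a finite group, M a maximal ideal of the algebraic integers containing 2, and k a natural number coprime to the order of G with g ^ k = g⁻¹ for every element g of odd order (so that g ↦ g ^ k induces a field automorphism of the character values inverting the roots of unity of odd order). If B is a 2-block of full defect (its defect equals the exponent of 2 in the order of G) that is stable under χ ↦ χ ∘ (· ^ k), then B is the principal 2-block. -/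
theorem result {G : Type*} [Group G] [Finite G] (M : Ideal Cfsg.AlgInt) (hM : Cfsg.IsPModular 2 M) (k : ℕ) (hk : Nat.Coprime k (Nat.card G)) (hk₂ : ∀ g : G, Odd (orderOf g) → g ^ k = g⁻¹) (B : Set (Cfsg.IrrCharacter G)) (hB : Cfsg.IsPBlock M B) (hdef : Cfsg.blockDefect 2 B = (Nat.card G).factorization 2) (hstab : ∀ χ ∈ B, ∃ ψ ∈ B, ∀ g : G, (ψ : G → ℂ) g = (χ : G → ℂ) (g ^ k)) : B = Cfsg.principalBlock M G := by
  classical
  choose! σ hσB hσ using hstab
  refine Cfsg.Agent.H42.eq_principalBlock_of_full_defect hM hB hdef fun g hg => ?_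
  refine Cfsg.Agent.H42.blockCoeff_inv_of_stable σ hσB (fun χ hχ χ' hχ' e => ?_)
    (fun χ hχ => by rw [hσ χ hχ, one_pow]) fun χ hχ => ?_
  · refine Subtype.ext (funext fun y => ?_)
    obtain ⟨x, rfl⟩ := (powCoprime (G := G) hk.symm).surjective y
    rw [powCoprime_apply, ← hσ χ hχ x, ← hσ χ' hχ' x, e]
  · rw [hσ χ hχ g, hk₂ g (Nat.odd_iff.2 (Nat.two_dvd_ne_zero.1 hg))]

end Cfsg.Agent.S4517
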