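import Cfsg.Statements.S4518
import Cfsg.Agent.H43.Constituents
import Cfsg.Agent.H45.Galois
-- import your own Cfsg.Agent.* helpers here

set_option autoImplicit false
open Cfsg

namespace Cfsg.Agent.S4518

/-- Let N be a normal subgroup of the finite group G whose index is not divisible by the prime p, and let k be coprime to the order of G with k ^ (p ^ e) ≡ 1 modulo the order of G for some e (so g ↦ g ^ k induces a field automorphism of p-power order on character values). If an irreducible character χ of G satisfies χ (g ^ k) = χ g for all g, then every irreducible constituent θ of the restriction of χ to N satisfies θ (n ^ k) = θ n for all n. -/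
theorem result {G : Type*} [Group G] [Fintype G] (p : ℕ) [Fact p.Prime] (N : Subgroup G) [N.Normal] [Fintype N] (hidx : ¬ p ∣ N.index) (k e : ℕ) (hk : Nat.Coprime k (Nat.card G)) (hke : k ^ (p ^ e) ≡ 1 [MOD Nat.card G]) (χ : Cfsg.IrrCharacter G) (hχ : ∀ g : G, (χ : G → ℂ) (g ^ k) = (χ : G → ℂ) g) (θ : Cfsg.IrrCharacter N) (hθ : Cfsg.classInner (fun n : N => (χ : G → ℂ) n) (θ : N → ℂ) ≠ 0) : ∀ n : N, (θ : N → ℂ) (n ^ k) = (θ : N → ℂ) n := by
  classical
  have hkN : Nat.Coprime k (Nat.card N) := hk.coprime_dvd_right (Subgroup.card_subgroup_dvd_card N)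
  let σ : Equiv.Perm (Cfsg.IrrCharacter N) :=
    Equiv.ofBijective _ (Finite.injective_iff_bijective.1 (Cfsg.Agent.H45.galIrr_injective hkN))
  have hσv : ∀ η : Cfsg.IrrCharacter N, ∀ n : N, (σ η).1 n = η.1 (n ^ k) := fun η n => rfl
  have hσit : ∀ (j : ℕ) (η : Cfsg.IrrCharacter N) (n : N), ((σ ^ j) η).1 n = η.1 (n ^ (k ^ j)) := by
    intro j
    induction j with
    | zero => intro η n; simp
    | succ j ih =>
      intro η n
      rw [pow_succ, Equiv.Perm.mul_apply, ih, hσv, ← pow_mul, ← pow_succ]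
  have hσpow : σ ^ p ^ e = 1 := by
    refine Equiv.ext fun η => Subtype.ext (funext fun n => ?_)
    rw [hσit, Equiv.Perm.one_apply]
    have h1 : k ^ p ^ e ≡ 1 [MOD orderOf n] :=
      hke.of_dvd ((orderOf_dvd_natCard n).trans (Subgroup.card_subgroup_dvd_card N))
    rw [pow_eq_pow_iff_modEq.2 h1, pow_one]
  have hS : ∀ η, Cfsg.Agent.H43.restrMult N χ (σ η) = Cfsg.Agent.H43.restrMult N χ η := by
    intro η
    refine Cfsg.Agent.H43.mult_eq_of_classInner ?_
    rw [Cfsg.Agent.H43.restrMult,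
      ← Cfsg.Agent.H43.classInner_eq_mult (Cfsg.Agent.H43.isCharacter_restr N χ),
      Cfsg.classInner, Cfsg.classInner]
    congr 1
    refine Fintype.sum_bijective _ (Cfsg.Agent.H45.powCoprime_bijective hkN) _ _ fun n => ?_
    simp [hσv, hχ]
  let S := {η : Cfsg.IrrCharacter N // Cfsg.Agent.H43.restrMult N χ η ≠ 0}
  let τ : Equiv.Perm S := σ.subtypePerm fun η => by rw [hS]
  have hτpow : τ ^ p ^ e = 1 := by
    refine Equiv.ext fun η => Subtype.ext ?_
    rw [Equiv.Perm.subtypePerm_pow]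
    simp [hσpow]
    rfl
  have hθ' : Cfsg.Agent.H43.restrMult N χ θ ≠ 0 := by
    rw [Cfsg.Agent.H43.classInner_eq_mult (Cfsg.Agent.H43.isCharacter_restr N χ),
      Nat.cast_ne_zero] at hθ
    exact hθ
  letI act : MulAction G (Cfsg.IrrCharacter N) :=
    { smul := fun x η => Cfsg.Agent.H43.irrConj N x⁻¹ η
      one_smul := fun η => Subtype.ext (funext fun n => by
        show η.1 (MulAut.conjNormal (1 : G)⁻¹ n) = η.1 n
        simp)
      mul_smul := fun x y η => by
        show Cfsg.Agent.H43.irrConj N (x * y)⁻¹ η = _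
        rw [mul_inv_rev, ← Cfsg.Agent.H43.irrConj_irrConj]
        rfl }
  have hNle : N ≤ MulAction.stabilizer G θ := by
    intro x hx
    refine MulAction.mem_stabilizer_iff.2 (Subtype.ext (funext fun n => ?_))
    show θ.1 (MulAut.conjNormal x⁻¹ n) = θ.1 n
    rw [show MulAut.conjNormal x⁻¹ n = (⟨x, hx⟩ : N)⁻¹ * n * ((⟨x, hx⟩ : N)⁻¹)⁻¹ from
      Subtype.ext (by simp [MulAut.conjNormal_apply]), Cfsg.Agent.H26.irr_conj]
  have hcard : Fintype.card S = (MulAction.orbit G θ).ncard := by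
    rw [← Nat.card_eq_fintype_card, ← Nat.card_coe_set_eq]
    refine Nat.card_congr (Equiv.subtypeEquivRight fun η => ⟨fun h => ?_, ?_⟩)
    · obtain ⟨x, hx⟩ := Cfsg.Agent.H43.exists_irrConj_of_restrMult_ne_zero N χ hθ' h
      exact ⟨x⁻¹, by show Cfsg.Agent.H43.irrConj N x⁻¹⁻¹ θ = η; rw [inv_inv, hx]⟩
    · rintro ⟨x, rfl⟩
      show Cfsg.Agent.H43.restrMult N χ (Cfsg.Agent.H43.irrConj N x⁻¹ θ) ≠ 0
      rwa [Cfsg.Agent.H43.restrMult_irrConj]
  have hnd : ¬ p ∣ Fintype.card S := fun h => hidx (by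
    rw [hcard, ← MulAction.index_stabilizer] at h
    exact h.trans (Subgroup.index_dvd_of_le hNle))
  obtain ⟨η, hη⟩ : ∃ η : S, τ η = η := by
    by_contra hno
    push Not at hno
    have h := Equiv.Perm.card_compl_support_modEq hτpow
    rw [Finset.eq_empty_of_forall_notMem (s := τ.supportᶜ) (fun x hx => by
      simp [hno x] at hx), Finset.card_empty] at h
    exact hnd (Nat.modEq_zero_iff_dvd.1 h.symm)
  obtain ⟨x, hx⟩ := Cfsg.Agent.H43.exists_irrConj_of_restrMult_ne_zero N χ η.2 hθ'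
  intro n
  have hηn : ∀ m : N, η.1.1 (m ^ k) = η.1.1 m := fun m => by
    rw [← hσv]
    exact congrArg (fun z : S => z.1.1 m) hη
  rw [← hx, Cfsg.Agent.H43.irrConj_apply, Cfsg.Agent.H43.irrConj_apply, map_pow, hηn]

end Cfsg.Agent.S4518
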