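import Cfsg.Statements.S4520
import Cfsg.Agent.H42.RealBlock
import Cfsg.Agent.H41.Covering
import Cfsg.Agent.H26.CoverDefect
import Cfsg.Agent.S4652
import Cfsg.Agent.H45.Galois

set_option autoImplicit false
open Cfsg

namespace Cfsg.Agent.S4520

/-- Central characters commute with automorphisms. -/
theorem centralChar_comp {H : Type*} [Group H] (e : H ≃* H) (f : H → ℂ) (n : H) :
    Cfsg.centralChar (fun x => f (e x)) n = Cfsg.centralChar f (e n) := by
  have hidx : (Subgroup.centralizer ({n} : Set H)).index
      = (Subgroup.centralizer ({e n} : Set H)).index := by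
    rw [← Subgroup.index_map_equiv (Subgroup.centralizer ({n} : Set H)) e]
    congr 1
    ext x
    simp only [Subgroup.mem_map, Subgroup.mem_centralizer_singleton_iff]
    constructor
    · rintro ⟨y, hy, rfl⟩
      show e y * e n = e n * e y
      rw [← map_mul, ← map_mul, hy]
    · intro hx
      refine ⟨e.symm x, e.injective ?_, e.apply_symm_apply x⟩
      rw [map_mul, map_mul, e.apply_symm_apply, hx]
  rw [Cfsg.centralChar, Cfsg.centralChar, hidx, map_one]

/-- Central characters at a coprime power. -/
theorem centralChar_pow {H : Type*} [Group H] [Finite H] (f : H → ℂ) {k : ℕ}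
    (hk : Nat.Coprime k (Nat.card H)) (g : H) :
    Cfsg.centralChar (fun x => f (x ^ k)) g = Cfsg.centralChar f (g ^ k) := by
  have hc : Subgroup.centralizer ({g} : Set H) = Subgroup.centralizer ({g ^ k} : Set H) := by
    ext x
    simp only [Subgroup.mem_centralizer_singleton_iff]
    refine ⟨fun h => (Commute.pow_right h k).eq, fun h => ?_⟩
    obtain ⟨j, hj⟩ := exists_pow_eq_self_of_coprime (x := g)
      (hk.coprime_dvd_right (orderOf_dvd_natCard g))
    have := Commute.pow_right (show Commute x (g ^ k) from h) j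
    rw [hj] at this
    exact this.eq
  rw [Cfsg.centralChar, Cfsg.centralChar, hc, one_pow]

/-- Let N be a normal subgroup of odd index in the finite group G, M a maximal ideal of the algebraic integers containing 2, and k coprime to the order of G with k ^ (2 ^ e) ≡ 1 modulo the order of G for some e and g ^ k = g⁻¹ for every element g of odd order. Let θ be an irreducible character of N and χ an irreducible character of G over θ, both unchanged by composing with g ↦ g ^ k. Then χ lies in the principal 2-block of G if and only if θ lies in the principal 2-block of N. -/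
theorem result {G : Type*} [Group G] [Fintype G] (M : Ideal Cfsg.AlgInt) (hM : Cfsg.IsPModular 2 M) (N : Subgroup G) [N.Normal] [Fintype N] (hidx : Odd N.index) (k e : ℕ) (hk : Nat.Coprime k (Nat.card G)) (hke : k ^ (2 ^ e) ≡ 1 [MOD Nat.card G]) (hk₂ : ∀ g : G, Odd (orderOf g) → g ^ k = g⁻¹) (θ : Cfsg.IrrCharacter N) (hθ : ∀ n : N, (θ : N → ℂ) (n ^ k) = (θ : N → ℂ) n) (χ : Cfsg.IrrCharacter G) (hχ : ∀ g : G, (χ : G → ℂ) (g ^ k) = (χ : G → ℂ) g) (hover : Cfsg.classInner (fun n : N => (χ : G → ℂ) n) (θ : N → ℂ) ≠ 0) : χ ∈ Cfsg.principalBlock M G ↔ θ ∈ Cfsg.principalBlock M N := by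
  classical
  haveI : Fact (Nat.Prime 2) := ⟨Nat.prime_two⟩
  have := hM.2.1
  have hbN := H41.isPBlock_principalBlock (M := M) (G := N)
  have hBG := H41.isPBlock_principalBlock (M := M) (G := G)
  have h1G : H26.oneIrr G ∈ Cfsg.principalBlock M G := by
    rw [H41.principalBlock_eq]; exact H41.mem_blockOf_self _
  have h1N : H26.oneIrr N ∈ Cfsg.principalBlock M N := by
    rw [H41.principalBlock_eq]; exact H41.mem_blockOf_self _
  constructor
  · intro hmem
    have hcon : Cfsg.classInner (fun n : N => (H26.oneIrr G).1 n) (H26.oneIrr N).1 ≠ 0 := by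
      have e : (fun n : N => (H26.oneIrr G).1 n) = (H26.oneIrr N).1 :=
        funext fun n => by rw [H26.oneIrr_val, H26.oneIrr_val]
      rw [e, H26.classInner_irr, if_pos rfl]
      exact one_ne_zero
    obtain ⟨g, hg⟩ := H41.constituent_mem_twistClosure N hBG hbN h1G hmem h1N hcon hover
    rw [H41.principalBlock_eq] at hg ⊢
    intro n
    have h1 := hg ((MulAut.conjNormal g).symm n)
    have hone : (H26.oneIrr N).1 = fun n : N => (H26.oneIrr N).1 (MulAut.conjNormal g n) :=
      funext fun n => by rw [H26.oneIrr_val, H26.oneIrr_val]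
    have htw : (H41.twistIrr N θ g).1 = fun n : N => θ.1 (MulAut.conjNormal g n) :=
      funext fun n => by
        rw [H41.twistIrr_apply]
        exact congrArg _ (Subtype.ext (MulAut.conjNormal_apply g n).symm)
    rw [hone, htw, centralChar_comp, centralChar_comp, MulEquiv.apply_symm_apply] at h1
    exact h1
  · intro hθmem
    set B := Cfsg.blockOf M χ.1
    have hB : Cfsg.IsPBlock M B := ⟨χ, rfl⟩
    have hχB : χ ∈ B := H41.mem_blockOf_self χ
    -- stability under the power map
    have hstab : ∀ ψ ∈ B, ∃ ψ' ∈ B, ∀ g : G, ψ'.1 g = ψ.1 (g ^ k) := by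
      intro ψ hψ
      refine ⟨H45.galIrr hk ψ, fun g => ?_, fun g => rfl⟩
      have h1 := hψ (g ^ k)
      have hχk : (fun x => χ.1 (x ^ k)) = χ.1 := funext hχ
      rw [← centralChar_pow _ hk g, ← centralChar_pow _ hk g, hχk] at h1
      exact h1
    -- full defect
    obtain ⟨S⟩ : Nonempty (Sylow 2 N) := inferInstance
    have hQ : Cfsg.IsDefectGroup 2 M (Cfsg.principalBlock M N) (S : Subgroup N) :=
      (S4652.result 2 M hM (S : Subgroup N)).2 ⟨S, rfl⟩
    set Q : Subgroup G := (S : Subgroup N).map N.subtype with hQdef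
    have hQsub : Q.subgroupOf N = (S : Subgroup N) :=
      Subgroup.comap_map_eq_self_of_injective N.subtype_injective _
    obtain ⟨D, hD, hDN⟩ := H26.exists_defectGroup_inf_eq (Q := Q) hM hbN
      (Subgroup.map_subtype_le _) (by rw [hQsub]; exact hQ) hB ⟨χ, hχB, θ, hθmem, hover⟩
    have hcard := H40.card_defectGroup hM hB hD
    have hS : Nat.card Q = 2 ^ (Nat.card G).factorization 2 := by
      rw [hQdef, Subgroup.card_map_of_injective N.subtype_injective, S.card_eq_multiplicity,
        ← N.card_mul_index, Nat.factorization_mul Nat.card_pos.ne' N.index_ne_zero_of_finite,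
        Finsupp.add_apply, Nat.factorization_eq_zero_of_not_dvd
          (Nat.two_dvd_ne_zero.2 (Nat.odd_iff.1 hidx)), add_zero]
    have hle : Nat.card Q ≤ Nat.card D := by
      rw [← hDN]; exact Subgroup.card_le_of_le inf_le_left
    have hdef : Cfsg.blockDefect 2 B = (Nat.card G).factorization 2 := by
      refine le_antisymm (Nat.sub_le _ _) ?_
      rw [hS, hcard] at hle
      exact (Nat.pow_le_pow_iff_right one_lt_two).1 hle
    choose! σ hσB hσ using hstab
    have hBp : B = Cfsg.principalBlock M G := by
      refine H42.eq_principalBlock_of_full_defect hM hB hdef fun g hg => ?_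
      refine H42.blockCoeff_inv_of_stable σ hσB (fun a ha b hb e => ?_)
        (fun a ha => by rw [hσ a ha, one_pow]) fun a ha => ?_
      · refine Subtype.ext (funext fun y => ?_)
        obtain ⟨x, rfl⟩ := (powCoprime (G := G) hk.symm).surjective y
        rw [powCoprime_apply, ← hσ a ha x, ← hσ b hb x, e]
      · rw [hσ a ha g, hk₂ g (Nat.odd_iff.2 (Nat.two_dvd_ne_zero.1 hg))]
    exact hBp ▸ hχB

end Cfsg.Agent.S4520
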