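import Cfsg.Statements.S4550
import Cfsg.Agent.H42.DefectValues
import Cfsg.Agent.H42.BlockSpan
import Cfsg.Agent.H45.Galois
import Cfsg.Agent.H40.PPart
-- import your own Cfsg.Agent.* helpers here

set_option autoImplicit false
open Cfsg

namespace Cfsg.Agent.S4550

/-- Let G be a finite group of even order and M a maximal ideal of the algebraic integers containing 2. Let k be a natural number with g ^ k = g ^ 3 for every 2-element g and g ^ k = g for every element g of odd order (such k exist); an irreducible character χ is unchanged by g ↦ g ^ k exactly when it is fixed by the field automorphism that cubes the 2-power roots of unity and fixes the roots of unity of odd order. Then the number of members χ of the principal 2-block of odd degree with χ (g ^ k) = χ g for all g is even. -/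
theorem result {G : Type*} [Group G] [Finite G] (M : Ideal Cfsg.AlgInt) (hM : Cfsg.IsPModular 2 M) (hev : Even (Nat.card G)) (k : ℕ) (hk₁ : ∀ g : G, (∃ j : ℕ, orderOf g = 2 ^ j) → g ^ k = g ^ 3) (hk₂ : ∀ g : G, Odd (orderOf g) → g ^ k = g) : Even (Nat.card {χ : Cfsg.IrrCharacter G // χ ∈ Cfsg.principalBlock M G ∧ Odd (Cfsg.charDegree (χ : G → ℂ)) ∧ ∀ g : G, (χ : G → ℂ) (g ^ k) = (χ : G → ℂ) g}) := by
  classical
  have := hM.2.1
  have : Fact (Nat.Prime 2) := ⟨Nat.prime_two⟩
  have hk : k.Coprime (Nat.card G) := by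
    refine Nat.coprime_of_dvd fun q hq hqk hqG => ?_
    have : Fact q.Prime := ⟨hq⟩
    obtain ⟨g, hg⟩ := exists_prime_orderOf_dvd_card' q hqG
    have h1 : g ^ k = 1 := by
      obtain ⟨c, rfl⟩ := hqk
      rw [pow_mul, ← hg, pow_orderOf_eq_one, one_pow]
    rcases hq.eq_two_or_odd' with rfl | hodd
    · rw [hk₁ g ⟨1, by simpa using hg⟩, ← orderOf_dvd_iff_pow_eq_one, hg] at h1
      omega
    · rw [hk₂ g (hg ▸ hodd)] at h1
      rw [h1, orderOf_one] at hg
      exact hq.one_lt.ne hg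
  set a := (Nat.card G).factorization 2 with ha
  set B := Cfsg.principalBlock M G with hBdef
  have hB : Cfsg.IsPBlock M B := Cfsg.Agent.H41.isPBlock_principalBlock
  -- the group power map of order a power of two
  have hperiod : ∀ g : G, g ^ k ^ 2 ^ a = g := by
    intro g
    obtain ⟨x, y, rfl, hc, ⟨j, hj⟩, hy⟩ := Cfsg.Agent.H40.exists_isPPart 2 g
    rw [hc.mul_pow]
    have hy' : ∀ n : ℕ, y ^ k ^ n = y := by
      intro n
      induction n with
      | zero => simp
      | succ n ih => rw [pow_succ, pow_mul, ih,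
          hk₂ y (Nat.odd_iff.2 (Nat.two_dvd_ne_zero.1 hy))]
    have hx : ∀ n : ℕ, x ^ k ^ n = x ^ 3 ^ n := by
      intro n
      induction n with
      | zero => simp
      | succ n ih =>
        rw [pow_succ, pow_mul, ih, ← pow_mul, mul_comm, pow_mul, hk₁ x ⟨j, hj⟩, ← pow_mul,
          mul_comm, ← pow_succ]
    rw [hy', hx]
    congr 1
    conv_rhs => rw [← pow_one x]
    refine pow_eq_pow_iff_modEq.2 ?_
    rw [hj]
    rcases Nat.eq_zero_or_pos j with rfl | hj0
    · rw [pow_zero]; exact Nat.modEq_one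
    have h3 : Nat.Coprime 3 (2 ^ j) := Nat.Coprime.pow_right j (by norm_num)
    have hja : j ≤ a := (Nat.prime_two.pow_dvd_iff_le_factorization Nat.card_pos.ne').1
      (hj ▸ orderOf_dvd_natCard x)
    obtain ⟨c, hc⟩ : (2 ^ j).totient ∣ 2 ^ a := by
      rw [Nat.totient_prime_pow Nat.prime_two hj0]
      simpa using pow_dvd_pow 2 (show j - 1 ≤ a by omega)
    rw [hc, pow_mul]
    simpa using (Nat.ModEq.pow_totient h3).pow c
  set T := {χ : Cfsg.IrrCharacter G // χ ∈ B ∧ Odd (Cfsg.charDegree (χ : G → ℂ))} with hT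
  have hreg : ∀ (χ : Cfsg.IrrCharacter G) (x : G), ¬ 2 ∣ orderOf x →
      (Cfsg.Agent.H45.galIrr hk χ : G → ℂ) x = (χ : G → ℂ) x := fun χ x hx => by
    show (χ : G → ℂ) (x ^ k) = _
    rw [hk₂ x (Nat.odd_iff.2 (Nat.two_dvd_ne_zero.1 hx))]
  have hdeg : ∀ χ : Cfsg.IrrCharacter G, Cfsg.charDegree
      (Cfsg.Agent.H45.galIrr hk χ : G → ℂ) = Cfsg.charDegree (χ : G → ℂ) := fun χ => by
    have h1 := hreg χ 1 (by simp)
    rw [Cfsg.Agent.H42.irr_one_eq, Cfsg.Agent.H42.irr_one_eq] at h1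
    exact_mod_cast h1
  let σ : Function.End T := fun χ => ⟨Cfsg.Agent.H45.galIrr hk χ.1,
    Cfsg.Agent.H42.mem_of_eq_on_regular hM hB χ.2.1 (hreg χ.1), by rw [hdeg]; exact χ.2.2⟩
  have hiter : ∀ (n : ℕ) (χ : T) (x : G), ((σ ^ n) χ).1.1 x = χ.1.1 (x ^ k ^ n) := by
    intro n
    induction n with
    | zero => intro χ x; simp; rfl
    | succ n ih =>
      intro χ x
      rw [pow_succ]
      show ((σ ^ n) (σ χ)).1.1 x = _
      rw [ih]
      show χ.1.1 ((x ^ k ^ n) ^ k) = _
      rw [← pow_mul, ← pow_succ]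
  have hσ : σ ^ 2 ^ a = 1 := funext fun χ => Subtype.ext (Subtype.ext (funext fun x => by
    rw [hiter, hperiod]; rfl))
  have hmod := Equiv.Perm.card_fixedPoints_modEq (f := σ) hσ
  rw [← Nat.card_eq_fintype_card, ← Nat.card_eq_fintype_card] at hmod
  have hev2 : Even (Nat.card T) := by
    have hv := Cfsg.Agent.H42.factorization_sum_sq_degree hM hB
    set S := ∑ χ ∈ Cfsg.Agent.H42.blockFinset B, Cfsg.charDegree (χ : G → ℂ) ^ 2 with hS
    have hd : Cfsg.blockDefect 2 B ≤ a := Nat.sub_le _ _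
    have ha1 : 0 < a := Nat.prime_two.factorization_pos_of_dvd Nat.card_pos.ne'
      (even_iff_two_dvd.1 hev)
    have hS2 : Even S := even_iff_two_dvd.2 (Nat.dvd_of_factorization_pos (by rw [hv]; omega))
    rw [hS, Finset.even_sum_iff_even_card_odd] at hS2
    rw [hT, Nat.card_eq_fintype_card, Fintype.card_subtype]
    convert hS2 using 2
    ext χ
    simp [Cfsg.Agent.H42.blockFinset, Nat.odd_pow_iff]
  rw [even_iff_two_dvd, ← Nat.modEq_zero_iff_dvd] at hev2 ⊢
  refine Nat.ModEq.trans ?_ (hmod.symm.trans hev2)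
  refine congrArg (· % 2) (Nat.card_congr ?_)
  refine ⟨fun χ => ⟨⟨χ.1, χ.2.1, χ.2.2.1⟩, ?_⟩, fun χ => ⟨χ.1.1, χ.1.2.1, χ.1.2.2, ?_⟩,
    fun χ => rfl, fun χ => rfl⟩
  · exact Subtype.ext (Subtype.ext (funext χ.2.2.2))
  · intro g
    exact congrFun (congrArg (fun t : T => t.1.1) χ.2) g

end Cfsg.Agent.S4550
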