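import Cfsg.Statements.S4552
import Cfsg.Agent.H56.FreeDefectHomocyclic
import Cfsg.Agent.H22.PairDict
import Mathlib.GroupTheory.Perm.Cycle.Type

set_option autoImplicit false
open Cfsg

namespace Cfsg.Agent.S4552

/-- Let B be a 2-block of the finite group G (relative to a maximal ideal M of the algebraic integers containing 2) whose defect group D is the direct product of two cyclic groups of the same order 2 ^ m, m ≥ 2. Then either B has 2-regular rank one and exactly 4 ^ m irreducible characters, or B has 2-regular rank three and exactly (4 ^ m + 8) / 3 irreducible characters. -/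
theorem result {G : Type*} [Group G] [Finite G] (M : Ideal Cfsg.AlgInt) (hM : Cfsg.IsPModular 2 M) (B : Set (Cfsg.IrrCharacter G)) (hB : Cfsg.IsPBlock M B) (D : Subgroup G) (hD : Cfsg.IsDefectGroup 2 M B D) (m : ℕ) (hm : 2 ≤ m) (hiso : Nonempty (D ≃* Multiplicative (ZMod (2 ^ m) × ZMod (2 ^ m)))) : (Cfsg.blockRank 2 B = 1 ∧ Nat.card B = 4 ^ m) ∨ (Cfsg.blockRank 2 B = 3 ∧ 3 * Nat.card B = 4 ^ m + 8) := by
  classical
  haveI : Fact (Nat.Prime 2) := ⟨Nat.prime_two⟩
  have : M.IsMaximal := hM.2.1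
  have := H41.IsPModular.charP hM
  have := Fintype.ofFinite G
  have := Fintype.ofFinite D
  obtain ⟨iso⟩ := hiso
  have hn : NeZero (2 ^ m) := ⟨pow_ne_zero m two_ne_zero⟩
  have hab : ∀ x ∈ D, ∀ y ∈ D, x * y = y * x := fun x hx y hy =>
    congrArg Subtype.val (iso.injective
      (a₁ := ⟨x, hx⟩ * ⟨y, hy⟩) (a₂ := ⟨y, hy⟩ * ⟨x, hx⟩) (by rw [map_mul, map_mul]; exact mul_comm _ _))
  have hcard : Nat.card D = 4 ^ m := by
    rw [Nat.card_congr iso.toEquiv, Nat.card_congr Multiplicative.toAdd, Nat.card_prod, Nat.card_zmod,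
      ← mul_pow]; norm_num
  have hS := H22.split M G
  have hDel := (H22.isDefectGroup_top_iff hM hB).1 hD
  obtain ⟨ε, hε, hεb⟩ := H22.exists_pair_below hS (H22.isBlockEl_elTop hB) hDel.le hDel.pGroup
    hDel.ne_zero
  have hmax := H22.isMaxEl_of_isDefEl hε hεb hDel
  have hnd := H40.not_dvd_relIndex_pairStab hM hB hmax hab
  set E := (Subgroup.centralizer (D : Set G)).relIndex (H22.pairStab D ε) with hE
  set A := (H56.FD.actHom D ε).range with hA
  have hAc : Nat.card A = E := H56.FD.card_range_actHom' D ε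
  have hAodd : Odd (Nat.card A) := by
    rw [hAc, Nat.odd_iff]; omega
  letI : CommGroup D :=
    { (inferInstance : Group D) with mul_comm := fun a b => Subtype.ext (hab _ a.2 _ b.2) }
  have h4 : (Finset.univ.filter fun u : D => u * u = 1).card ≤ 4 :=
    le_trans (Finset.card_le_card_of_injOn iso (fun u hu => by
      simp only [Finset.coe_filter, Finset.mem_univ, true_and, Set.mem_setOf_eq] at hu ⊢
      rw [← map_mul, hu, map_one]) fun a _ b _ e => iso.injective e) (H56.FD.card_sqrt_le (2 ^ m))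
  have hfree : ∀ g ∈ H22.pairStab D ε, ∀ x ∈ D, x ≠ 1 → g * x * g⁻¹ = x →
      g ∈ Subgroup.centralizer (D : Set G) := by
    intro g hg x hx hx1 hgx
    have hmem : H56.FD.actHom D ε ⟨g, hg⟩ ∈ A := ⟨_, rfl⟩
    have := H56.FD.eq_one_of_fixed_of_card_sqrt_le (D := D) hDel.pGroup h4
      (hAodd.of_dvd_nat (Subgroup.orderOf_dvd_natCard A hmem)) (x := ⟨x, hx⟩)
      (fun e => hx1 (congrArg Subtype.val e)) (Subtype.ext hgx)
    refine Subgroup.mem_centralizer_iff.2 fun v hv => ?_
    have h0 := DFunLike.congr_fun this (⟨v, hv⟩ : D)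
    have h1 : g * v * g⁻¹ = v := congrArg Subtype.val h0
    calc v * g = g * v * g⁻¹ * g := by rw [h1]
      _ = g * v := inv_mul_cancel_right _ _
  have hdiv : 2 ∣ Nat.card D := by
    rw [hcard]; exact dvd_pow (by norm_num) (by omega)
  have hD1 : D ≠ ⊥ := fun e => by
    rw [e, Subgroup.card_bot] at hdiv; norm_num at hdiv
  obtain ⟨z, hz⟩ := exists_prime_orderOf_dvd_card' 2 hdiv
  have hE13 : E = 1 ∨ E = 3 := hAc ▸ H56.FD.card_eq_one_or_three (D := D) hDel.pGroup h4
    (z := z) (fun e => by rw [e, orderOf_one] at hz; norm_num at hz)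
    (by rw [← sq, ← hz, pow_orderOf_eq_one]) A hAodd
  obtain ⟨j, h⟩ := H56.FD.exists_ctx hM hB hmax hab hfree hD1
  obtain ⟨mo, hmo, hmq, hk, hl, hsmall⟩ := h.counts hD1
  rw [← hE] at hmq hl hsmall
  rw [hcard] at hmq
  have h16 : 16 ≤ 4 ^ m := le_trans (by norm_num) (Nat.pow_le_pow_right (by norm_num : 0 < 4) hm)
  have hl' := hsmall (by omega)
  rcases hE13 with e | e <;> rw [e] at hmq hl'
  · left
    omega
  · right
    omega

end Cfsg.Agent.S4552
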