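import Cfsg.Statements.S4560
import Cfsg.Agent.H17.PairCharacters

set_option autoImplicit false
open Cfsg

namespace Cfsg.Agent.S4560

open Cfsg.Agent.H17.PairChar

theorem exists_perm_of_pat {n k : ℕ} (t u : Fin k → Fin n) (h : pat t = pat u) :
    ∃ σ : Equiv.Perm (Fin n), ∀ i, σ (t i) = u i := by
  have hiff : ∀ i j, t i = t j ↔ u i = u j := fun i j => by
    rw [← pat_eq_iff t, h, pat_eq_iff u]
  have hex : ∀ x : {x : Fin n // x ∈ Set.range t}, ∃ y : {y : Fin n // y ∈ Set.range u},
      ∀ i, t i = x.1 → u i = y.1 := by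
    rintro ⟨x, j, rfl⟩
    exact ⟨⟨u j, j, rfl⟩, fun i hi => (hiff i j).1 hi⟩
  choose f hf using hex
  have hbij : Function.Bijective f := by
    constructor
    · rintro ⟨x, i, rfl⟩ ⟨y, j, rfl⟩ hxy
      have h1 := hf ⟨t i, i, rfl⟩ i rfl
      have h2 := hf ⟨t j, j, rfl⟩ j rfl
      rw [hxy] at h1
      exact Subtype.ext ((hiff i j).2 (h1.trans h2.symm))
    · rintro ⟨y, i, rfl⟩
      exact ⟨⟨t i, i, rfl⟩, Subtype.ext (hf _ i rfl).symm⟩
  refine ⟨Equiv.extendSubtype (Equiv.ofBijective f hbij), fun i => ?_⟩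
  rw [Equiv.extendSubtype_apply_of_mem _ _ ⟨i, rfl⟩]
  exact (hf ⟨t i, i, rfl⟩ i rfl).symm

theorem patTransitive_perm (n : ℕ) : IsPatternTransitive (Equiv.Perm (Fin n)) (Fin n) 4 := by
  intro t u h
  obtain ⟨σ, hσ⟩ := exists_perm_of_pat t u h
  exact ⟨σ, hσ⟩

theorem patTransitive_alt (n : ℕ) (hn : 6 ≤ n) :
    IsPatternTransitive (alternatingGroup (Fin n)) (Fin n) 4 := by
  intro t u h
  obtain ⟨σ, hσ⟩ := exists_perm_of_pat t u h
  rcases Int.units_eq_one_or (Equiv.Perm.sign σ) with hs | hs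
  · exact ⟨⟨σ, Equiv.Perm.mem_alternatingGroup.2 hs⟩, hσ⟩
  · have hcard : 2 ≤ ((Finset.univ : Finset (Fin 4)).image u)ᶜ.card := by
      rw [Finset.card_compl, Fintype.card_fin]
      have := Finset.card_image_le (s := (Finset.univ : Finset (Fin 4))) (f := u)
      simp at this
      omega
    obtain ⟨a, ha, b, hb, hab⟩ := Finset.one_lt_card.1 hcard
    refine ⟨⟨Equiv.swap a b * σ, Equiv.Perm.mem_alternatingGroup.2 ?_⟩, fun i => ?_⟩
    · rw [map_mul, Equiv.Perm.sign_swap hab, hs]; rfl
    · show Equiv.swap a b (σ (t i)) = u i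
      rw [hσ]
      exact Equiv.swap_apply_of_ne_of_ne
        (fun h => Finset.mem_compl.1 ha (h ▸ Finset.mem_image_of_mem u (Finset.mem_univ i)))
        (fun h => Finset.mem_compl.1 hb (h ▸ Finset.mem_image_of_mem u (Finset.mem_univ i)))

/-- The witness predicate: an even permutation killed by `k` with prescribed fixed points. -/
def HasWitness (n k a c : ℕ) : Prop :=
  ∃ x : alternatingGroup (Fin n), x ^ k = 1 ∧ x ≠ 1 ∧ fixN (Fin n) x = a ∧ fixSq (Fin n) x = c

theorem witness_of_equiv {n k a c : ℕ} {Y : Type} [Fintype Y] [DecidableEq Y] (e : Y ≃ Fin n)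
    (y : Equiv.Perm Y) (hk : y ^ k = 1) (h1 : y ≠ 1) (hs : Equiv.Perm.sign y = 1)
    (ha : (Finset.univ.filter fun z => y z = z).card = a)
    (hc : (Finset.univ.filter fun z => y (y z) = z).card = c) : HasWitness n k a c := by
  refine ⟨⟨e.permCongr y, Equiv.Perm.mem_alternatingGroup.2 (by rw [Equiv.Perm.sign_permCongr, hs])⟩,
    ?_, ?_, ?_, ?_⟩
  · apply Subtype.ext
    show (e.permCongr y) ^ k = 1
    rw [show e.permCongr y = e.permCongrHom y from rfl, ← map_pow, hk, map_one]
  · intro h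
    apply h1
    have h2 : e.permCongr y = 1 := congrArg Subtype.val h
    exact e.permCongrHom.injective (h2.trans (map_one e.permCongrHom).symm)
  · rw [fixN, ← ha, ← Fintype.card_subtype, ← Nat.card_eq_fintype_card]
    refine Nat.card_congr (e.symm.subtypeEquiv fun z => ?_)
    show e (y (e.symm z)) = z ↔ _
    rw [Equiv.apply_eq_iff_eq_symm_apply]
  · rw [fixSq, ← hc, ← Fintype.card_subtype, ← Nat.card_eq_fintype_card]
    refine Nat.card_congr (e.symm.subtypeEquiv fun z => ?_)
    show e (y (e.symm (e (y (e.symm z))))) = z ↔ _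
    rw [Equiv.symm_apply_apply, Equiv.apply_eq_iff_eq_symm_apply]

/-- `j` copies of a fixed point free permutation of `b` points, with `a` fixed points added. -/
theorem witness_blocks {n k : ℕ} (b j i d a : ℕ) (hn : n = j * b + i * d + a)
    (y : Equiv.Perm (Fin b)) (w : Equiv.Perm (Fin d)) (hy : y ^ k = 1) (hw : w ^ k = 1)
    (hys : Equiv.Perm.sign y = 1) (hws : Equiv.Perm.sign w = 1)
    (hy1 : ∀ z, y z ≠ z) (hy2 : ∀ z, y (y z) ≠ z) (hw1 : ∀ z, w z ≠ z) (hw2 : ∀ z, w (w z) ≠ z)
    (hne : 0 < j * b) : HasWitness n k a a := by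
  let Y := ((Fin j × Fin b) ⊕ (Fin i × Fin d)) ⊕ Fin a
  have hcard : Fintype.card Y = n := by
    simp [Y, hn]
  let x : Equiv.Perm Y :=
    Equiv.Perm.sumCongr (Equiv.Perm.sumCongr (Equiv.prodCongrRight fun _ => y)
      (Equiv.prodCongrRight fun _ => w)) 1
  have hxl : ∀ p, x (Sum.inl (Sum.inl p)) = Sum.inl (Sum.inl (p.1, y p.2)) := fun p => rfl
  have hxm : ∀ p, x (Sum.inl (Sum.inr p)) = Sum.inl (Sum.inr (p.1, w p.2)) := fun p => rfl
  have hxr : ∀ p, x (Sum.inr p) = Sum.inr p := fun p => rfl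
  have hpow : ∀ m : ℕ, ∀ z : Y, (x ^ m) z =
      Sum.map (Sum.map (fun p => (p.1, (y ^ m) p.2)) (fun p => (p.1, (w ^ m) p.2))) id z := by
    intro m
    induction m with
    | zero => rintro ((z | z) | z) <;> simp
    | succ m ih =>
      intro z
      rw [pow_succ', Equiv.Perm.mul_apply, ih]
      rcases z with (z | z) | z <;>
        simp [hxl, hxm, hxr, pow_succ', Equiv.Perm.mul_apply]
  refine witness_of_equiv (Fintype.equivFinOfCardEq hcard) x ?_ ?_ ?_ ?_ ?_
  · refine Equiv.ext fun z => ?_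
    rw [hpow, hy, hw]
    rcases z with (z | z) | z <;> simp
  · intro h
    have hj : 0 < j := Nat.pos_of_ne_zero fun h0 => by simp [h0] at hne
    have hb : 0 < b := Nat.pos_of_ne_zero fun h0 => by simp [h0] at hne
    have h2 := Equiv.ext_iff.1 h (Sum.inl (Sum.inl (⟨0, hj⟩, ⟨0, hb⟩)))
    rw [hxl] at h2
    exact hy1 _ (congrArg Prod.snd (Sum.inl_injective (Sum.inl_injective h2)))
  · show Equiv.Perm.sign (Equiv.Perm.sumCongr (Equiv.Perm.sumCongr _ _) 1) = 1
    rw [Equiv.Perm.sign_sumCongr, Equiv.Perm.sign_sumCongr, Equiv.Perm.sign_prodCongrRight,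
      Equiv.Perm.sign_prodCongrRight]
    simp [hys, hws]
  · have : (Finset.univ.filter fun z : Y => x z = z) =
        (Finset.univ : Finset (Fin a)).map ⟨Sum.inr, Sum.inr_injective⟩ := by
      ext z
      rcases z with (z | z) | z <;> simp [hxl, hxm, hxr]
      · exact fun h => hy1 _ (congrArg Prod.snd (Sum.inl_injective (Sum.inl_injective h)))
      · exact fun h => hw1 _ (congrArg Prod.snd (Sum.inr_injective (Sum.inl_injective h)))
    rw [this]; simp
  · have : (Finset.univ.filter fun z : Y => x (x z) = z) =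
        (Finset.univ : Finset (Fin a)).map ⟨Sum.inr, Sum.inr_injective⟩ := by
      ext z
      rcases z with (z | z) | z <;> simp [hxl, hxm, hxr]
      · exact fun h => hy2 _ (congrArg Prod.snd (Sum.inl_injective (Sum.inl_injective h)))
      · exact fun h => hw2 _ (congrArg Prod.snd (Sum.inr_injective (Sum.inl_injective h)))
    rw [this]; simp

theorem witness_three (n : ℕ) (hn : 7 ≤ n) : HasWitness n 3 (n % 3) (n % 3) := by
  refine witness_blocks 3 (n / 3) 0 3 (n % 3) (by omega) (finRotate 3) (finRotate 3)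
    (by decide) (by decide) (by decide) (by decide) (by decide) (by decide) (by decide) (by decide)
    (by omega)

theorem witness_two (n : ℕ) (hn : 7 ≤ n) :
    HasWitness n 8 (n % 4) (n % 4) ∧ n ≠ 7 ∨ HasWitness n 8 1 3 := by
  by_cases h7 : n = 7
  · subst h7
    refine Or.inr (witness_of_equiv (Equiv.refl _)
      (Equiv.swap 0 1 * Equiv.swap 1 2 * Equiv.swap 2 3 * Equiv.swap 4 5)
      (by decide +kernel) (by decide +kernel) (by decide +kernel) (by decide +kernel)
      (by decide +kernel))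
  · refine Or.inl ⟨?_, h7⟩
    let e8 : Fin 4 ⊕ Fin 4 ≃ Fin 8 := finSumFinEquiv
    let e12 : Fin 8 ⊕ Fin 4 ≃ Fin 12 := finSumFinEquiv
    rcases Nat.lt_or_ge (n % 8) 4 with h | h
    · exact witness_blocks 8 (n / 8) 0 12 (n % 4) (by omega)
        (e8.permCongr (Equiv.Perm.sumCongr (finRotate 4) (finRotate 4)))
        (e12.permCongr (Equiv.Perm.sumCongr (finRotate 8) (finRotate 4)))
        (by decide +kernel) (by decide +kernel) (by decide +kernel) (by decide +kernel)
        (by decide +kernel) (by decide +kernel) (by decide +kernel) (by decide +kernel) (by omega)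
    · exact witness_blocks 12 1 ((n - 12) / 8) 8 (n % 4) (by omega)
        (e12.permCongr (Equiv.Perm.sumCongr (finRotate 8) (finRotate 4)))
        (e8.permCongr (Equiv.Perm.sumCongr (finRotate 4) (finRotate 4)))
        (by decide +kernel) (by decide +kernel) (by decide +kernel) (by decide +kernel)
        (by decide +kernel) (by decide +kernel) (by decide +kernel) (by decide +kernel) (by omega)

/-- Some extendible irreducible character vanishes on any permutation with these fixed points. -/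
theorem exists_vanishing (n : ℕ) (hn : 7 ≤ n) (x : alternatingGroup (Fin n)) (a c : ℕ)
    (ha : fixN (Fin n) x = a) (hc : fixSq (Fin n) x = c)
    (h : a * a + c = 4 * a ∨ a * a + 2 = c + 2 * a) :
    ∃ χ : Cfsg.IrrCharacter (alternatingGroup (Fin n)), (χ : alternatingGroup (Fin n) → ℂ) x = 0 ∧
      ∃ ψ : Cfsg.IrrCharacter (Equiv.Perm (Fin n)), ∀ y : alternatingGroup (Fin n),
        (ψ : Equiv.Perm (Fin n) → ℂ) y = (χ : alternatingGroup (Fin n) → ℂ) y := by
  have hk : 4 ≤ Fintype.card (Fin n) := by simp; omega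
  have hA := patTransitive_alt n (by omega)
  have hS := patTransitive_perm n
  rcases h with h | h
  · refine ⟨⟨_, irr_chiPair hk hA⟩, ?_, ⟨_, irr_chiPair hk hS⟩, fun y => rfl⟩
    show chiPair (Fin n) x = 0
    have h' : (a : ℂ) * a + c = 4 * a := by exact_mod_cast h
    rw [chiPair, ha, hc, h', sub_self, zero_div]
  · refine ⟨⟨_, irr_chiExt hk hA⟩, ?_, ⟨_, irr_chiExt hk hS⟩, fun y => rfl⟩
    show chiExt (Fin n) x = 0
    have h' : (a : ℂ) * a + 2 = c + 2 * a := by exact_mod_cast h
    rw [chiExt, ha, hc, show (a : ℂ) * a - c - 2 * a + 2 = 0 by linear_combination h', zero_div]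

/-- For n ≥ 7 the alternating group on n letters has an irreducible character that vanishes at some 2-element and is the restriction of an irreducible character of the symmetric group, and an irreducible character that vanishes at some element of order 3 and is the restriction of an irreducible character of the symmetric group. -/
theorem result (n : ℕ) (hn : 7 ≤ n) : (∃ χ : Cfsg.IrrCharacter (alternatingGroup (Fin n)), (∃ x : alternatingGroup (Fin n), (∃ j : ℕ, orderOf x = 2 ^ j) ∧ (χ : alternatingGroup (Fin n) → ℂ) x = 0) ∧ ∃ ψ : Cfsg.IrrCharacter (Equiv.Perm (Fin n)), ∀ x : alternatingGroup (Fin n), (ψ : Equiv.Perm (Fin n) → ℂ) x = (χ : alternatingGroup (Fin n) → ℂ) x) ∧ (∃ χ : Cfsg.IrrCharacter (alternatingGroup (Fin n)), (∃ y : alternatingGroup (Fin n), orderOf y = 3 ∧ (χ : alternatingGroup (Fin n) → ℂ) y = 0) ∧ ∃ ψ : Cfsg.IrrCharacter (Equiv.Perm (Fin n)), ∀ x : alternatingGroup (Fin n), (ψ : Equiv.Perm (Fin n) → ℂ) x = (χ : alternatingGroup (Fin n) → ℂ) x) := by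
  constructor
  · have key : ∀ a c, HasWitness n 8 a c → (a * a + c = 4 * a ∨ a * a + 2 = c + 2 * a) →
        ∃ χ : Cfsg.IrrCharacter (alternatingGroup (Fin n)),
          (∃ x : alternatingGroup (Fin n), (∃ j : ℕ, orderOf x = 2 ^ j) ∧
            (χ : alternatingGroup (Fin n) → ℂ) x = 0) ∧
          ∃ ψ : Cfsg.IrrCharacter (Equiv.Perm (Fin n)), ∀ x : alternatingGroup (Fin n),
            (ψ : Equiv.Perm (Fin n) → ℂ) x = (χ : alternatingGroup (Fin n) → ℂ) x :=
      fun a c hw hcond => by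
        obtain ⟨x, hx, -, ha, hc⟩ := hw
        obtain ⟨χ, hχ, hψ⟩ := exists_vanishing n hn x a c ha hc hcond
        obtain ⟨j, -, hj⟩ := (Nat.dvd_prime_pow Nat.prime_two).1
          (show orderOf x ∣ 2 ^ 3 from orderOf_dvd_of_pow_eq_one hx)
        exact ⟨χ, ⟨x, ⟨j, hj⟩, hχ⟩, hψ⟩
    rcases witness_two n hn with ⟨hw, -⟩ | hw
    · refine key _ _ hw ?_
      have := Nat.mod_lt n (show 4 > 0 by norm_num)
      generalize n % 4 = a at this ⊢
      interval_cases a <;> norm_num
    · exact key _ _ hw (by norm_num)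
  · obtain ⟨x, hx, hx1, ha, hc⟩ := witness_three n hn
    obtain ⟨χ, hχ, hψ⟩ := exists_vanishing n hn x _ _ ha hc (by
      have := Nat.mod_lt n (show 3 > 0 by norm_num)
      generalize n % 3 = a at this ⊢
      interval_cases a <;> norm_num)
    haveI : Fact (Nat.Prime 3) := ⟨Nat.prime_three⟩
    exact ⟨χ, ⟨x, orderOf_eq_prime hx hx1, hχ⟩, hψ⟩

end Cfsg.Agent.S4560
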