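import Cfsg.Statements.S4561
import Cfsg.Agent.H19.Embed.RamifiedEmbed

set_option autoImplicit false
universe u
open Cfsg

namespace Cfsg.Agent.S4561

/-- For every finite solvable group G there is a finite group H with a faithful irreducible character χ whose degree squared equals the index of the centre Z(H) (so χ is fully ramified over the centre), such that G is isomorphic to a subgroup of H/Z(H), the primes dividing the orders of H, of Z(H) and of G are the same, and the order of Z(H) is squarefree. -/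
theorem result {G : Type u} [Group G] [Finite G] (hsolv : Group.IsSolvable G) : ∃ (H : Type u) (_ : Group H) (_ : Finite H) (χ : Cfsg.IrrCharacter H), (∀ h : H, (χ : H → ℂ) h = (χ : H → ℂ) 1 → h = 1) ∧ (Cfsg.charDegree (χ : H → ℂ)) ^ 2 = (Subgroup.center H).index ∧ (∃ f : G →* H ⧸ Subgroup.center H, Function.Injective f) ∧ (∀ p : ℕ, p.Prime → ((p ∣ Nat.card H ↔ p ∣ Nat.card G) ∧ (p ∣ Nat.card (Subgroup.center H) ↔ p ∣ Nat.card G))) ∧ Squarefree (Nat.card (Subgroup.center H)) := by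
  classical
  obtain ⟨T, _, A, _, Ψ, hG⟩ := Cfsg.Agent.H19.Embed.hasGood_of_solvable (Nat.card G) G le_rfl
  have := hG.fin
  -- the kernel of the pairing
  let K : Subgroup T := Ψ.ker.map A.subtype
  have hKA : K ≤ A := Subgroup.map_subtype_le _
  haveI hKn : K.Normal := ⟨fun t ht x => by
    obtain ⟨a, ha, rfl⟩ := ht
    exact ⟨⟨x * (a : T) * x⁻¹, ‹A.Normal›.conj_mem _ a.2 x⟩, (hG.inv x a _).trans ha, rfl⟩⟩
  let π : T →* T ⧸ K := QuotientGroup.mk' K
  let Z : Subgroup (T ⧸ K) := A.map π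
  let πA : A →* Z := π.subgroupMap A
  have hπA : Function.Surjective πA := π.subgroupMap_surjective A
  have hker : ∀ a : A, πA a = 1 ↔ Ψ a = 1 := by
    intro a
    constructor
    · intro h
      obtain ⟨b, hb, hb'⟩ := (QuotientGroup.eq_one_iff (a : T)).1 (congrArg Subtype.val h)
      rw [← show b = a from Subtype.ext hb']
      exact hb
    · intro h
      exact Subtype.ext ((QuotientGroup.eq_one_iff (a : T)).2 ⟨a, h, rfl⟩)
  let lam : Z →* ℂˣ := πA.liftOfSurjective hπA ⟨Ψ, fun a ha => (hker a).1 ha⟩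
  have hlam : ∀ a : A, lam (πA a) = Ψ a := fun a =>
    πA.liftOfRightInverse_comp_apply _ _ ⟨Ψ, fun a ha => (hker a).1 ha⟩ a
  have hlinj : Function.Injective lam := by
    refine (injective_iff_map_eq_one _).2 fun z hz => ?_
    obtain ⟨a, rfl⟩ := hπA z
    exact (hker a).2 ((hlam a).symm.trans hz)
  have hZc : Z ≤ Subgroup.center (T ⧸ K) := by
    rintro z ⟨a, ha, rfl⟩
    rw [Subgroup.mem_center_iff]
    intro g
    obtain ⟨x, rfl⟩ := QuotientGroup.mk'_surjective K g
    have hm := ‹A.Normal›.conj_mem _ ha x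
    have h1 : πA ⟨x * a * x⁻¹, hm⟩ = πA ⟨a, ha⟩ := hlinj (by
      rw [hlam, hlam]; exact hG.inv x ⟨a, ha⟩ hm)
    have h2 : π x * π a * (π x)⁻¹ = π a := by
      rw [← map_mul, ← map_inv, ← map_mul]
      exact congrArg Subtype.val h1
    exact mul_inv_eq_iff_eq_mul.1 h2
  haveI : Fintype (T ⧸ K) := Fintype.ofFinite _
  obtain ⟨hcen, χ, hfaith, hdeg⟩ := Cfsg.Agent.H19.Embed.exists_fully_ramified Z hZc lam hlinj
    (by
      intro g hg
      obtain ⟨t, rfl⟩ := QuotientGroup.mk'_surjective K g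
      obtain ⟨x, hx, hne⟩ := hG.pair t fun ht => hg ⟨t, ht, rfl⟩
      have he : π x * π t * (π x)⁻¹ * (π t)⁻¹ = π (x * t * x⁻¹ * t⁻¹) := by
        simp only [map_mul, map_inv]
      have hmem : π x * π t * (π x)⁻¹ * (π t)⁻¹ ∈ Z := ⟨_, hx, he.symm⟩
      refine ⟨π x, hmem, ?_⟩
      have h1 : (⟨π x * π t * (π x)⁻¹ * (π t)⁻¹, hmem⟩ : Z) = πA ⟨_, hx⟩ := Subtype.ext he
      show lam ⟨π x * π t * (π x)⁻¹ * (π t)⁻¹, hmem⟩ ≠ 1
      rw [h1, hlam]
      exact hne)
  have hcard : Nat.card (Subgroup.center (T ⧸ K)) = Nat.card Z := by rw [hcen]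
  refine ⟨T ⧸ K, inferInstance, inferInstance, χ, hfaith, hdeg, ?_, fun p hp => ?_, ?_⟩
  · obtain ⟨f, hf⟩ := hG.emb
    let e : T ⧸ A →* (T ⧸ K) ⧸ Subgroup.center (T ⧸ K) := QuotientGroup.lift A
      ((QuotientGroup.mk' _).comp π) fun a ha => by
        rw [MonoidHom.mem_ker]
        exact (QuotientGroup.eq_one_iff _).2 (hcen ▸ ⟨a, ha, rfl⟩)
    refine ⟨e.comp f, (Function.Injective.comp (g := ⇑e) ?_ hf : Function.Injective (⇑e ∘ ⇑f))⟩
    refine (injective_iff_map_eq_one e).2 fun q hq => ?_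
    obtain ⟨t, rfl⟩ := QuotientGroup.mk_surjective q
    have h1 : π t ∈ Z := hcen ▸ (QuotientGroup.eq_one_iff _).1 hq
    obtain ⟨a, ha, hat⟩ := h1
    have h2 : a⁻¹ * t ∈ K := (QuotientGroup.eq (s := K)).1 hat
    exact (QuotientGroup.eq_one_iff t).2 (by simpa using A.mul_mem ha (hKA h2))
  · have hd1 : Nat.card (T ⧸ K) ∣ Nat.card T :=
      Subgroup.card_dvd_of_surjective π (QuotientGroup.mk'_surjective K)
    have hd2 : Nat.card Z ∣ Nat.card (T ⧸ K) := Subgroup.card_subgroup_dvd_card Z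
    have hs : p ∣ Nat.card G → p ∣ Nat.card Z := fun h => by
      obtain ⟨a, ha⟩ := hG.surj p hp h
      rw [← hlam, orderOf_injective lam hlinj] at ha
      exact ha ▸ orderOf_dvd_natCard _
    rw [hcard]
    exact ⟨⟨fun h => hG.primes p hp (h.trans hd1), fun h => (hs h).trans hd2⟩,
      fun h => hG.primes p hp ((h.trans hd2).trans hd1), hs⟩
  · rw [hcard]
    obtain ⟨m, hm, hm1⟩ := hG.expo
    haveI : IsCyclic Z := isCyclic_of_subgroup_isDomain ((Units.coeHom ℂ).comp lam)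
      (Units.val_injective.comp hlinj)
    obtain ⟨z, hz⟩ := IsCyclic.exists_ofOrder_eq_natCard (α := Z)
    obtain ⟨a, rfl⟩ := hπA z
    rw [← hz, ← orderOf_injective lam hlinj, hlam]
    exact hm.squarefree_of_dvd (orderOf_dvd_of_pow_eq_one (hm1 a))
end Cfsg.Agent.S4561
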