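import Cfsg.Statements.S4567
import Cfsg.Agent.H42.Central
import Cfsg.Agent.H26.CharLinear
import Cfsg.Agent.H26.CharOrtho
import Cfsg.Agent.H43.LinearTwist
-- import your own Cfsg.Agent.* helpers here

set_option autoImplicit false
open Cfsg

namespace Cfsg.Agent.S4567

/-- Let N be a central subgroup of the finite group G and ψ a faithful irreducible (hence degree-one) character of N. Call a coset g N special when every x ∈ G whose commutator x⁻¹ g⁻¹ x g lies in N actually commutes with g (this depends only on the coset). Then the number of irreducible characters of G whose restriction to N contains ψ equals the number of conjugacy classes of G/N consisting of special cosets. -/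
theorem result {G : Type*} [Group G] [Fintype G] (N : Subgroup G) [N.Normal] [Fintype N] (hN : N ≤ Subgroup.center G) (ψ : Cfsg.IrrCharacter ↥N) (hfaith : ∀ n : ↥N, (ψ : ↥N → ℂ) n = (ψ : ↥N → ℂ) 1 → n = 1) : Nat.card {χ : Cfsg.IrrCharacter G // Cfsg.classInner (fun n : ↥N => (χ : G → ℂ) n) (ψ : ↥N → ℂ) ≠ 0} = Nat.card {C : ConjClasses (G ⧸ N) // ∃ g : G, ConjClasses.mk (g : G ⧸ N) = C ∧ ∀ x : G, x⁻¹ * g⁻¹ * x * g ∈ N → x * g = g * x} := by
  classical
  let ω : Cfsg.IrrCharacter G → Cfsg.IrrCharacter ↥N := fun χ =>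
    ⟨_, Cfsg.Agent.H26.isIrrCharacter_hom (Cfsg.Agent.H42.centralHom χ N hN)⟩
  have hω : ∀ (χ : Cfsg.IrrCharacter G) (n : N) (x : G), χ.1 ((n : G) * x) = (ω χ).1 n * χ.1 x :=
    fun χ n x => by
      rw [Cfsg.Agent.H42.irr_central_mul χ (hN n.2) x]
      rfl
  have hover : ∀ χ : Cfsg.IrrCharacter G,
      Cfsg.classInner (fun n : N => χ.1 n) ψ.1 ≠ 0 ↔ ω χ = ψ := by
    intro χ
    have h : (fun n : ↥N => χ.1 (n : G)) = χ.1 1 • (ω χ).1 := by
      funext n
      have := hω χ n 1
      rw [mul_one] at this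
      rw [Pi.smul_apply, smul_eq_mul, this, mul_comm]
    rw [h, Cfsg.Agent.H26.classInner_smul_left, Cfsg.Agent.H26.classInner_irr]
    by_cases e : ω χ = ψ <;> simp [e, Cfsg.Agent.H26.irr_one_ne_zero χ]
  have hNc : ∀ (n : N) (x : G), x * (n : G) = (n : G) * x := fun n x =>
    Subgroup.mem_center_iff.1 (hN n.2) x
  obtain ⟨f, hf⟩ := Cfsg.Agent.H26.exists_hom_of_isCharacter_one
    (Cfsg.Agent.H26.irr_isCharacter ψ) (Cfsg.Agent.H26.irr_one_eq_one_of_comm
      (fun a b => Subtype.ext (hNc b a)) ψ)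
  let I := {χ : Cfsg.IrrCharacter G // Cfsg.classInner (fun n : ↥N => (χ : G → ℂ) n) (ψ : ↥N → ℂ) ≠ 0}
  let J := {C : ConjClasses (G ⧸ N) // ∃ g : G, ConjClasses.mk (g : G ⧸ N) = C ∧
    ∀ x : G, x⁻¹ * g⁻¹ * x * g ∈ N → x * g = g * x}
  have : Finite (ConjClasses (G ⧸ N)) := Finite.of_surjective _ ConjClasses.mk_surjective
  have : Fintype J := Fintype.ofFinite J
  have : Fintype I := Fintype.ofFinite I
  choose r hr using fun C : J => C.2
  -- the characters over `ψ` vanish outside the special classes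
  have hvan : ∀ g : G, (∀ x : G, x⁻¹ * g⁻¹ * x * g ∈ N → x * g = g * x) ∨
      ∀ χ : I, χ.1.1 g = 0 := by
    intro g
    refine or_iff_not_imp_left.2 fun hg χ => ?_
    push Not at hg
    obtain ⟨x, hx, hne⟩ := hg
    refine Cfsg.Agent.H42.eq_zero_of_commutator_mem N hN ψ hfaith χ.1 χ.2 g x hx fun h => hne ?_
    calc x * g = g * x * (x⁻¹ * g⁻¹ * x * g) := by group
      _ = g * x := by rw [h, mul_one]
  let Φ : (I → ℂ) →ₗ[ℂ] (J → ℂ) :=
    { toFun := fun c C => ∑ χ : I, c χ * χ.1.1 (r C)
      map_add' := fun c c' => by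
        funext C
        simp [add_mul, Finset.sum_add_distrib]
      map_smul' := fun a c => by
        funext C
        simp [Finset.mul_sum, mul_assoc] }
  have hinj : Function.Injective Φ := by
    rw [injective_iff_map_eq_zero]
    intro c hc
    set F : G → ℂ := ∑ χ : I, c χ • χ.1.1 with hF
    have hFval : ∀ g, F g = ∑ χ : I, c χ * χ.1.1 g := fun g => by simp [hF, Finset.sum_apply]
    have hF0 : F = 0 := by
      funext g
      rw [hFval, Pi.zero_apply]
      rcases hvan g with hg | hg
      swap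
      · exact Finset.sum_eq_zero fun χ _ => by rw [hg χ, mul_zero]
      set C : J := ⟨ConjClasses.mk (g : G ⧸ N), g, rfl, hg⟩ with hC
      obtain ⟨u, hu⟩ := isConj_iff.1 (ConjClasses.mk_eq_mk_iff_isConj.1 (hr C).1)
      obtain ⟨u, rfl⟩ := QuotientGroup.mk_surjective u
      have hn : g * (u * r C * u⁻¹)⁻¹ ∈ N := by
        rw [← QuotientGroup.eq_one_iff, QuotientGroup.mk_mul, QuotientGroup.mk_inv,
          QuotientGroup.mk_mul, QuotientGroup.mk_mul, QuotientGroup.mk_inv, hu, mul_inv_cancel]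
      have hg' : g = ((⟨_, hn⟩ : N) : G) * (u * r C * u⁻¹) := by simp [mul_assoc]
      have hz := congrFun hc C
      have : ∑ χ : I, c χ * χ.1.1 g = (f ⟨_, hn⟩ : ℂ) * ∑ χ : I, c χ * χ.1.1 (r C) := by
        rw [Finset.mul_sum]
        refine Finset.sum_congr rfl fun χ _ => ?_
        conv_lhs => rw [hg', hω, Cfsg.Agent.H26.irr_conj, (hover χ.1).1 χ.2, ← hf]
        ring
      rw [this, show ∑ χ : I, c χ * χ.1.1 (r C) = 0 from hz, mul_zero]
    funext η
    have h := congrArg (fun F => Cfsg.classInner F η.1.1) hF0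
    simp only [hF, Cfsg.Agent.H26.classInner_sum_left, Cfsg.Agent.H26.classInner_smul_left,
      Cfsg.Agent.H26.classInner_irr, Cfsg.Agent.H26.classInner_zero_left] at h
    rw [Finset.sum_eq_single η (fun b _ hb => by rw [if_neg fun e => hb (Subtype.ext e), mul_zero])
      (fun hb => absurd (Finset.mem_univ _) hb), if_pos rfl, mul_one] at h
    exact h
  have hsurj : Function.Surjective Φ := by
    intro d
    let E : J → G → ℂ := fun C z => if h : z * (r C)⁻¹ ∈ N then (f ⟨_, h⟩ : ℂ) else 0
    have hE : ∀ (C : J) (n : N) (z : G), E C ((n : G) * z) = (f n : ℂ) * E C z := by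
      intro C n z
      simp only [E]
      by_cases hz : z * (r C)⁻¹ ∈ N
      · have hnz : (n : G) * z * (r C)⁻¹ ∈ N := by
          rw [mul_assoc]; exact N.mul_mem n.2 hz
        rw [dif_pos hnz, dif_pos hz, ← Units.val_mul, ← map_mul]
        exact congrArg (fun w : N => (f w : ℂ)) (Subtype.ext (by simp [mul_assoc]))
      · have hnz : ¬ (n : G) * z * (r C)⁻¹ ∈ N := fun h => hz (by
          have := N.mul_mem (N.inv_mem n.2) h
          simpa [mul_assoc] using this)
        rw [dif_neg hnz, dif_neg hz, mul_zero]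
    let F₀ : J → G → ℂ := fun C y => ∑ u : G, E C (u⁻¹ * y * u)
    let e : J → ℂ := fun C => ((Finset.univ.filter fun u : G => u * r C = r C * u).card : ℂ)
    have he : ∀ C, e C ≠ 0 := fun C => by
      refine Nat.cast_ne_zero.2 (Finset.card_ne_zero.2 ⟨1, ?_⟩)
      simp
    have hdiag : ∀ C D : J, F₀ C (r D) = if C = D then e C else 0 := by
      intro C D
      have hmem : ∀ u : G, u⁻¹ * r D * u * (r C)⁻¹ ∈ N → C = D := by
        intro u hu
        refine Subtype.ext ?_
        rw [← (hr C).1, ← (hr D).1, ConjClasses.mk_eq_mk_iff_isConj, isConj_iff]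
        refine ⟨(u : G ⧸ N), ?_⟩
        rw [← QuotientGroup.eq_one_iff] at hu
        simp only [QuotientGroup.mk_mul, QuotientGroup.mk_inv, mul_inv_eq_one] at hu
        rw [← hu]; group
      by_cases hCD : C = D
      · subst hCD
        rw [if_pos rfl]
        simp only [e, F₀]
        rw [← Finset.sum_boole]
        refine Finset.sum_congr rfl fun u _ => ?_
        simp only [E]
        by_cases hu : u * r C = r C * u
        · have h1 : u⁻¹ * r C * u * (r C)⁻¹ = 1 := by
            rw [mul_assoc u⁻¹, ← hu]; group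
          rw [if_pos hu, dif_pos (h1 ▸ N.one_mem)]
          rw [show (⟨_, h1 ▸ N.one_mem⟩ : N) = 1 from Subtype.ext h1, map_one, Units.val_one]
        · rw [if_neg hu, dif_neg]
          intro hmemN
          refine hu ((hr C).2 u ?_)
          have h2 : u⁻¹ * (r C)⁻¹ * u * r C = (u⁻¹ * r C * u)⁻¹ * r C := by group
          rw [h2]
          have h3 := hNc ⟨_, hmemN⟩ (r C)⁻¹
          have h4 : (u⁻¹ * r C * u * (r C)⁻¹)⁻¹ ∈ N := N.inv_mem hmemN
          have h5 : (u⁻¹ * r C * u)⁻¹ * r C = (u⁻¹ * r C * u * (r C)⁻¹)⁻¹ := by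
            simp only at h3
            calc (u⁻¹ * r C * u)⁻¹ * r C
                = (r C)⁻¹ * (u⁻¹ * r C * u * (r C)⁻¹)⁻¹ * r C := by group
              _ = (u⁻¹ * r C * u * (r C)⁻¹)⁻¹ := by
                rw [hNc ⟨_, h4⟩ (r C)⁻¹]; group
          rwa [h5]
      · rw [if_neg hCD]
        refine Finset.sum_eq_zero fun u _ => ?_
        simp only [E]
        rw [dif_neg fun h => hCD (hmem u h)]
    set F : G → ℂ := fun y => ∑ C : J, d C / e C * F₀ C y with hF
    have hFc : Cfsg.IsClassFunction G F := by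
      intro y x
      simp only [hF]
      refine Finset.sum_congr rfl fun C _ => ?_
      congr 1
      refine Fintype.sum_equiv (Equiv.mulLeft x⁻¹) _ _ fun u => ?_
      simp [mul_assoc]
    have hFn : ∀ (n : N) (y : G), F ((n : G) * y) = (f n : ℂ) * F y := by
      intro n y
      simp only [hF, F₀, Finset.mul_sum]
      refine Finset.sum_congr rfl fun C _ => Finset.sum_congr rfl fun u _ => ?_
      rw [show u⁻¹ * ((n : G) * y) * u = (n : G) * (u⁻¹ * y * u) by
        rw [← mul_assoc u⁻¹, hNc n u⁻¹]; group, hE]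
      ring
    have hexp := Cfsg.Agent.H26.class_function_expansion F hFc
    refine ⟨fun χ => Cfsg.classInner F χ.1.1, funext fun D => ?_⟩
    have hzero : ∀ χ : Cfsg.IrrCharacter G, ω χ ≠ ψ → Cfsg.classInner F χ.1 = 0 := by
      intro χ hχ
      by_contra hne
      refine hχ (Subtype.ext (funext fun n => ?_))
      have hshift : Cfsg.classInner F χ.1 =
          ((f n : ℂ) * (starRingEnd ℂ) ((ω χ).1 n)) * Cfsg.classInner F χ.1 := by
        simp only [Cfsg.classInner, Finset.mul_sum]
        refine (Fintype.sum_equiv (Equiv.mulLeft (n : G)) _ _ fun y => ?_).symm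
        simp only [Equiv.coe_mulLeft, hFn, hω, map_mul]
        ring
      have h1 : (f n : ℂ) * (starRingEnd ℂ) ((ω χ).1 n) = 1 :=
        mul_right_cancel₀ hne (by rw [one_mul]; exact hshift.symm)
      have h2 : (ω χ).1 n * (starRingEnd ℂ) ((ω χ).1 n) = 1 :=
        Cfsg.Agent.H43.hom_mul_conj (Cfsg.Agent.H42.centralHom χ N hN) n
      rw [← hf]
      exact mul_right_cancel₀ (right_ne_zero_of_mul (h2.trans_ne one_ne_zero)) (h2.trans h1.symm)
    show ∑ χ : I, Cfsg.classInner F χ.1.1 * χ.1.1 (r D) = d D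
    have hval : F (r D) = d D := by
      simp only [hF, hdiag, mul_ite, mul_zero]
      rw [Finset.sum_eq_single D (fun C _ h => if_neg h) (fun h => absurd (Finset.mem_univ _) h),
        if_pos rfl, div_mul_cancel₀ _ (he D)]
    rw [← hval]
    conv_rhs => rw [hexp, Finset.sum_apply]
    simp only [Pi.smul_apply, smul_eq_mul]
    rw [← Finset.sum_filter_of_ne (p := fun χ : Cfsg.IrrCharacter G =>
      Cfsg.classInner (fun n : ↥N => χ.1 (n : G)) ψ.1 ≠ 0) (fun χ _ hne => (hover χ).2
        (by_contra fun h => hne (by rw [hzero χ h, zero_mul])))]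
    exact (Finset.sum_subtype _ (fun χ => by simp)
      (fun χ : Cfsg.IrrCharacter G => Cfsg.classInner F χ.1 * χ.1 (r D))).symm
  have h := (LinearEquiv.ofBijective Φ ⟨hinj, hsurj⟩).finrank_eq
  rw [Module.finrank_fintype_fun_eq_card, Module.finrank_fintype_fun_eq_card] at h
  show Nat.card I = Nat.card J
  rw [Nat.card_eq_fintype_card, Nat.card_eq_fintype_card, h]

end Cfsg.Agent.S4567
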