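import Cfsg.Statements.S4574
import Cfsg.Agent.H42.Zeros

set_option autoImplicit false
open Cfsg

namespace Cfsg.Agent.S4574

/-- Let χ be an irreducible character of the finite group G, of degree d, and let Z(χ) be the set of elements g with |χ g| = d (the centre of χ). Then χ vanishes on at least (d ^ 2 - 1) · |Z(χ)| elements of G, with equality when every value |χ g| is 0, 1 or d. -/
theorem result {G : Type*} [Group G] [Fintype G] [DecidableEq G] (χ : G → ℂ) (hχ : Cfsg.IsIrrCharacter G χ) : (Cfsg.charDegree χ ^ 2 - 1) * (Finset.univ.filter (fun g : G => ‖χ g‖ = (Cfsg.charDegree χ : ℝ))).card ≤ (Finset.univ.filter (fun g : G => χ g = 0)).card ∧ ((∀ g : G, ‖χ g‖ = 0 ∨ ‖χ g‖ = 1 ∨ ‖χ g‖ = (Cfsg.charDegree χ : ℝ)) → (Cfsg.charDegree χ ^ 2 - 1) * (Finset.univ.filter (fun g : G => ‖χ g‖ = (Cfsg.charDegree χ : ℝ))).card = (Finset.univ.filter (fun g : G => χ g = 0)).card) := by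
  exact H42.zeros_lower_bound ⟨χ, hχ⟩

end Cfsg.Agent.S4574
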