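import Cfsg.Statements.S4580
import Cfsg.Agent.H43.RealTwoBlock
import Cfsg.Agent.H43.LinearTwist
import Cfsg.Agent.H26.CharFS

set_option autoImplicit false
open Cfsg
open scoped ComplexConjugate

namespace Cfsg.Agent.S4580

/-- Let N be a normal subgroup of the finite group G, M a maximal ideal of the algebraic integers containing 2, and θ a real-valued irreducible character of N of odd degree that extends to G (some irreducible character of G restricts to θ). Then θ has an extension to G lying in the principal 2-block of G. -/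
theorem result {G : Type*} [Group G] [Finite G] (N : Subgroup G) [N.Normal] (M : Ideal Cfsg.AlgInt) (hM : Cfsg.IsPModular 2 M) (θ : Cfsg.IrrCharacter N) (hreal : ∀ n : N, ((θ : N → ℂ) n).im = 0) (hodd : Odd (Cfsg.charDegree (θ : N → ℂ))) (hext : ∃ η : Cfsg.IrrCharacter G, ∀ n : N, (η : G → ℂ) n = (θ : N → ℂ) n) :
    ∃ η : Cfsg.IrrCharacter G, (∀ n : N, (η : G → ℂ) n = (θ : N → ℂ) n) ∧ η ∈ Cfsg.principalBlock M G := by
  classical
  haveI := Fintype.ofFinite G
  haveI : Fintype N := Fintype.ofFinite _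
  obtain ⟨η₀, hη₀⟩ := hext
  obtain ⟨f, hfN, hf⟩ := H43.exists_hom_of_restrict_eq N η₀ (H26.conjIrr η₀) θ hη₀ (fun n => by
    rw [H26.conjIrr_val, hη₀ n]
    exact Complex.conj_eq_iff_im.mpr (hreal n))
  obtain ⟨a, m, ⟨j, rfl⟩, hcard⟩ :=
    Nat.exists_eq_two_pow_mul_odd (Nat.card_pos (α := G)).ne'
  set η := H43.irrTwist η₀ (f ^ (j + 1)) with hη
  have hres : ∀ n : N, η.1 n = θ.1 n := fun n => by
    rw [hη, H43.irrTwist_apply, MonoidHom.pow_apply, hfN n n.2, one_pow, Units.val_one, mul_one,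
      hη₀]
  refine ⟨η, hres, ?_⟩
  refine H43.mem_principalBlock_of_conj_congr hM η ?_ fun g => ?_
  · have h1 : Cfsg.charDegree η.1 = Cfsg.charDegree θ.1 := by
      simp only [Cfsg.charDegree]
      rw [← hres 1, Subgroup.coe_one]
    rw [h1]
    exact hodd
  · haveI : M.IsPrime := hM.2.1.isPrime
    have h2 : (2 : Cfsg.AlgInt) ∈ M := by simpa using hM.2.2
    have hconj : conj (η₀.1 g) = η₀.1 g * (f g : ℂ) := by
      rw [← H26.conjIrr_val, hf, H43.irrTwist_apply]
    have h1 := H43.hom_mul_conj f g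
    set z : ℂ := conj ((f g : ℂ)) ^ (2 * j + 1) with hz
    have hzint : IsIntegral ℤ z := by
      refine IsIntegral.pow ?_ _
      have e : conj ((f g : ℂ)) = (f g⁻¹ : ℂ) := by
        rw [map_inv, Units.val_inv_eq_inv_val]
        exact eq_inv_of_mul_eq_one_right h1
      rw [e]
      exact H43.hom_isIntegral f g⁻¹
    have hzpow : z ^ (2 ^ a) = 1 := by
      rw [hz, ← pow_mul, mul_comm, ← hcard, ← map_pow, H43.hom_pow_card_eq_one, map_one]
    have hzM : (⟨z, hzint⟩ : Cfsg.AlgInt) - 1 ∈ M := by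
      set w : Cfsg.AlgInt := ⟨z, hzint⟩
      have hpow : ∀ b : ℕ, (w - 1) ^ (2 ^ b) - (w ^ (2 ^ b) - 1) ∈ M := by
        intro b
        induction b with
        | zero => simp
        | succ b ih =>
          have e : (w - 1) ^ (2 ^ (b + 1)) - (w ^ (2 ^ (b + 1)) - 1) =
              ((w - 1) ^ (2 ^ b) - (w ^ (2 ^ b) - 1)) * ((w - 1) ^ (2 ^ b) + (w ^ (2 ^ b) - 1)) +
                2 * (1 - w ^ (2 ^ b)) := by
            rw [pow_succ, pow_mul, pow_mul]; ring
          rw [e]
          exact M.add_mem (M.mul_mem_right _ ih) (M.mul_mem_right _ h2)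
      have hw : w ^ (2 ^ a) = 1 := Subtype.ext (by push_cast; exact hzpow)
      have h3 := hpow a
      rw [hw, sub_self, sub_zero] at h3
      exact Ideal.IsPrime.mem_of_pow_mem ‹_› _ h3
    have e : H43.irrAlgInt η g - H43.irrAlgInt η g⁻¹ =
        - (H43.irrAlgInt η g * ((⟨z, hzint⟩ : Cfsg.AlgInt) - 1)) := by
      apply Subtype.ext
      show η.1 g - η.1 g⁻¹ = -(η.1 g * (z - 1))
      rw [H26.irr_inv, hη, H43.irrTwist_apply, map_mul, hconj, MonoidHom.pow_apply,
        Units.val_pow_eq_pow_val, map_pow, hz]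
      have h5 : ((f g : ℂ) * conj (f g : ℂ)) ^ j = 1 := by rw [h1, one_pow]
      linear_combination (η₀.1 g) * (conj (f g : ℂ)) ^ (j + 1) * ((f g : ℂ)) * h5
    rw [e]
    exact M.neg_mem (M.mul_mem_left _ hzM)

end Cfsg.Agent.S4580
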