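import Cfsg.Statements.S4581
import Mathlib
import Cfsg.Agent.H38.RealOdd.Count

set_option autoImplicit false
open Cfsg

namespace Cfsg.Agent.S4581

/-- Let G be a finite solvable group, P a Sylow 2-subgroup and N its normalizer. Then G and N have the same number of real-valued irreducible characters of odd degree; and every odd-degree irreducible character of G is real-valued exactly when the derived subgroup of P equals the Frattini subgroup of P and P is its own normalizer in G. -/
theorem result {G : Type*} [Group G] [Finite G] [Group.IsSolvable G] (P : Sylow 2 G) :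
    Nat.card {χ : Cfsg.IrrCharacter G // (∀ g : G, ((χ : G → ℂ) g).im = 0) ∧ Odd (Cfsg.charDegree (χ : G → ℂ))} =
      Nat.card {ψ : Cfsg.IrrCharacter (Subgroup.normalizer ((P : Subgroup G) : Set G)) // (∀ g, ((ψ : Subgroup.normalizer ((P : Subgroup G) : Set G) → ℂ) g).im = 0) ∧ Odd (Cfsg.charDegree (ψ : Subgroup.normalizer ((P : Subgroup G) : Set G) → ℂ))} ∧
    ((∀ χ : Cfsg.IrrCharacter G, Odd (Cfsg.charDegree (χ : G → ℂ)) → ∀ g : G, ((χ : G → ℂ) g).im = 0) ↔
      (commutator (P : Subgroup G) = frattini (P : Subgroup G) ∧ Subgroup.normalizer ((P : Subgroup G) : Set G) = (P : Subgroup G))) := by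
  classical
  haveI : Fact (Nat.Prime 2) := ⟨Nat.prime_two⟩
  have hP : IsPGroup 2 (P : Subgroup G) := P.isPGroup'
  have hidx : ¬ 2 ∣ (P : Subgroup G).index := P.not_dvd_index
  refine ⟨?_, ⟨fun h => ?_, fun h χ hodd g => ?_⟩⟩
  · have hPN : (P : Subgroup G) ≤ Subgroup.normalizer ((P : Subgroup G) : Set G) :=
      Subgroup.le_normalizer
    refine (H38.RealOdd.card_realOdd_eq_orbits (P : Subgroup G) hP hidx).trans
      ((H38.RealOdd.orbits_normalizer_eq (P : Subgroup G)).symm.trans ?_)
    exact (H38.RealOdd.card_realOdd_eq_orbits _ (hP.comap_of_injective _ (Subgroup.subtype_injective _))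
      (H38.RealOdd.index_subgroupOf_not_dvd hPN hidx)).symm
  · have hN := H38.RealOdd.normalizer_eq_of_allOddReal G (P : Subgroup G) hP hidx h
    refine ⟨le_antisymm (H24.commutator_le_frattini hP) (H24.frattini_le_of (p := 2) _ le_rfl ?_), hN⟩
    intro x
    by_contra hx
    obtain ⟨μ, hμ⟩ := CommGroup.exists_apply_ne_one_of_hasEnoughRootsOfUnity
      (Abelianization (P : Subgroup G)) ℂ
      (a := Abelianization.of (x ^ 2)) (fun h1 => hx ((QuotientGroup.eq_one_iff _).mp h1))
    have hr : H38.RealOdd.IsRealHom (μ.comp Abelianization.of) :=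
      H38.RealOdd.realHom_of_above G (P : Subgroup G) hP hidx hN _ fun χ hχ _ => h χ hχ
    exact hμ (by rw [map_pow, map_pow]; exact hr x)
  · obtain ⟨hc, hN⟩ := h
    haveI := Fintype.ofFinite G
    haveI := Fintype.ofFinite (P : Subgroup G)
    have h1 : (χ : G → ℂ) ((1 : (P : Subgroup G)) : G) = (Cfsg.charDegree (χ : G → ℂ) : ℕ) := by
      rw [H44.cast_charDegree]; rfl
    obtain ⟨ψ, hψo, m, hm, hψm⟩ := (H38.RealOdd.exists_odd_constituent
      (θ := fun x : (P : Subgroup G) => χ.1 x)
      (H26.isCharacter_comp (H26.isCharacter_of_irr χ.2) (P : Subgroup G).subtype) hodd h1).1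
    obtain ⟨f, hf⟩ := H38.RealOdd.exists_hom_of_odd hP ψ hψo
    subst hf
    refine H38.RealOdd.real_of_realHom G (P : Subgroup G) hP hidx hN χ f hodd (fun x => ?_) ?_ g
    · have hx : x ^ 2 ∈ commutator (P : Subgroup G) := hc ▸ H24.pow_mem_frattini hP x
      have := Abelianization.commutator_subset_ker f hx
      rwa [MonoidHom.mem_ker, map_pow] at this
    · rw [H38.RealOdd.mult_eq]
      show Cfsg.classInner (fun x : (P : Subgroup G) => χ.1 x) (H38.RealOdd.linIrr f).1 ≠ 0
      rw [hψm, Nat.cast_ne_zero]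
      rintro rfl; simp at hm

end Cfsg.Agent.S4581
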