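import Cfsg.Statements.S4583
import Cfsg.Agent.H42.PrincipalPPrime
-- import your own Cfsg.Agent.* helpers here

set_option autoImplicit false
open Cfsg

namespace Cfsg.Agent.S4583

/-- Let N be a normal subgroup of the finite group G, p a prime, M a maximal ideal of the algebraic integers containing p, and P a Sylow p-subgroup of G. Let θ be an irreducible character of N of degree prime to p lying in the principal p-block of N, and suppose θ extends to the subgroup NP (some irreducible character of NP restricts to θ). Then some irreducible character χ of G of degree prime to p in the principal p-block of G lies over θ (θ is a constituent of the restriction of χ to N). -/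
theorem result {G : Type*} [Group G] [Finite G] (N : Subgroup G) [N.Normal] (p : ℕ) [Fact p.Prime] (M : Ideal Cfsg.AlgInt) (hM : Cfsg.IsPModular p M) (P : Sylow p G)
    (θ : Cfsg.IrrCharacter N) (hθ : θ ∈ Cfsg.principalBlock M N) (hdeg : ¬ p ∣ Cfsg.charDegree (θ : N → ℂ))
    (hext : ∃ η : Cfsg.IrrCharacter ↥(N ⊔ (P : Subgroup G)), ∀ n : N, (η : ↥(N ⊔ (P : Subgroup G)) → ℂ) (Subgroup.inclusion le_sup_left n) = (θ : N → ℂ) n) :
    ∃ χ : Cfsg.IrrCharacter G, χ ∈ Cfsg.principalBlock M G ∧ ¬ p ∣ Cfsg.charDegree (χ : G → ℂ) ∧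
      haveI := Fintype.ofFinite N; Cfsg.classInner (fun n : N => (χ : G → ℂ) n) (θ : N → ℂ) ≠ 0 := by
  classical
  have := Fintype.ofFinite G
  let : Fintype N := Fintype.ofFinite N
  obtain ⟨η, hη⟩ := hext
  obtain ⟨χ, hχ, hχd, hne⟩ := Cfsg.Agent.H42.exists_pPrime_over hM P hθ hdeg η hη
  refine ⟨χ, hχ, hχd, ?_⟩
  rw [Cfsg.Agent.H43.classInner_eq_mult (Cfsg.Agent.H43.isCharacter_restr N χ), Nat.cast_ne_zero]
  exact hne

end Cfsg.Agent.S4583
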