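import Cfsg.Statements.S4584
import Cfsg.Agent.H43.OrderPFourth

set_option autoImplicit false
open Cfsg

namespace Cfsg.Agent.S4584

/-- Let p be a prime and P a group of order p^4. Then the derived subgroup P' has order p if and only if the centre Z(P) has index p^2 in P. -/
theorem result {P : Type*} [Group P] [Finite P] (p : ℕ) [Fact p.Prime] (hP : Nat.card P = p ^ 4) :
    Nat.card (commutator P) = p ↔ (Subgroup.center P).index = p ^ 2 := by
  have hp : p.Prime := Fact.out
  have h1 := Subgroup.card_mul_index (commutator P)
  have h2 := Subgroup.card_mul_index (Subgroup.center P)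
  rw [hP] at h1 h2
  by_cases hne : ∀ a b : P, a * b = b * a
  · have hc : commutator P = ⊥ := by
      rw [eq_bot_iff, commutator_def, Subgroup.commutator_le]
      intro a _ b _
      rw [Subgroup.mem_bot, commutatorElement_eq_one_iff_mul_comm]
      exact hne a b
    have hz : Subgroup.center P = ⊤ :=
      top_unique fun a _ => Subgroup.mem_center_iff.mpr fun b => hne b a
    rw [hc, hz, Subgroup.card_bot, Subgroup.index_top]
    refine ⟨fun h => absurd h hp.one_lt.ne, fun h => absurd h ?_⟩
    exact (Nat.one_lt_pow (by norm_num) hp.one_lt).ne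
  · have h := H43.index_commutator_of_card_prime_pow_four hP hne
    rw [h] at h1
    have hp0 := hp.pos
    constructor
    · intro hc
      rw [hc] at h1
      have hz : Nat.card (Subgroup.center P) = p ^ 2 := by
        apply Nat.eq_of_mul_eq_mul_left (mul_pos hp0 hp0)
        rw [mul_assoc, h1]; ring
      rw [hz] at h2
      exact Nat.eq_of_mul_eq_mul_left (pow_pos hp0 2) (by rw [h2]; ring)
    · intro hz
      rw [hz] at h2
      have hz : Nat.card (Subgroup.center P) = p ^ 2 :=
        Nat.eq_of_mul_eq_mul_right (pow_pos hp0 2) (by rw [h2]; ring)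
      rw [hz] at h1
      exact Nat.eq_of_mul_eq_mul_right (mul_pos hp0 (pow_pos hp0 2)) (by rw [h1]; ring)

end Cfsg.Agent.S4584
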