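import Cfsg.Statements.S4585
import Cfsg.Agent.H43.OrderPFourth

set_option autoImplicit false
open Cfsg

namespace Cfsg.Agent.S4585

/-- Let p be a prime and P a group of order p^4. Then P' has index p^2 in P if and only if P has maximal nilpotency class, that is, nilpotency class exactly 3. -/
theorem result {P : Type*} [Group P] [Finite P] (p : ℕ) [Fact p.Prime] (hP : Nat.card P = p ^ 4) :
    (commutator P).index = p ^ 2 ↔ Group.nilpotencyClass P = 3 := by
  have hp : p.Prime := Fact.out
  have hPg : IsPGroup p P := IsPGroup.of_card hP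
  have : Group.IsNilpotent P := hPg.isNilpotent
  have hsq : ∀ {Q : Type _} [Group Q] [Finite Q], ∀ n ≤ 2, Nat.card Q = p ^ n →
      ∀ a b : Q, a * b = b * a := by
    intro Q _ _ n hn hQ
    rcases Nat.lt_or_ge n 2 with h | h
    · refine H43.commutative_of_center_index_le (p := p) hQ ?_
      calc p ^ n ≤ 1 * p := by
            rw [one_mul]; exact (Nat.pow_le_pow_right hp.pos (by omega : n ≤ 1)).trans (pow_one p).le
        _ ≤ _ := Nat.mul_le_mul_right p Nat.card_pos
    · exact IsPGroup.commutative_of_card_eq_prime_sq (p := p) (by rw [hQ, show n = 2 by omega])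
  have hcl : ∀ {Q : Type _} [Group Q] [Group.IsNilpotent Q], (∀ a b : Q, a * b = b * a) →
      Group.nilpotencyClass Q ≤ 1 := by
    intro Q _ _ h
    rw [← Subgroup.upperCentralSeries_eq_top_iff_nilpotencyClass_le, Subgroup.upperCentralSeries_one]
    exact top_unique fun a _ => Subgroup.mem_center_iff.mpr fun b => h b a
  by_cases hne : ∀ a b : P, a * b = b * a
  · have hc : commutator P = ⊥ := by
      rw [eq_bot_iff, commutator_def, Subgroup.commutator_le]
      intro a _ b _
      rw [Subgroup.mem_bot, commutatorElement_eq_one_iff_mul_comm]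
      exact hne a b
    rw [hc, Subgroup.index_bot, hP]
    have := hcl hne
    constructor
    · intro h
      have := Nat.pow_right_injective hp.two_le h
      omega
    · intro h; omega
  have hidx := H43.index_commutator_of_card_prime_pow_four hP hne
  rw [hidx]
  set z := Nat.card (Subgroup.center P) with hz
  have h2 := Subgroup.card_mul_index (Subgroup.center P)
  rw [hP, ← hz] at h2
  obtain ⟨m, hm, hmc⟩ :=
    (Nat.dvd_prime_pow hp).mp (hP ▸ Subgroup.card_subgroup_dvd_card (Subgroup.center P))
  rw [← hz] at hmc
  have hm1 : 1 ≤ m := by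
    by_contra hcon
    have hnt : Nontrivial P := by
      rw [← Finite.one_lt_card_iff_nontrivial, hP]
      exact Nat.one_lt_pow (by norm_num) hp.one_lt
    have := IsPGroup.center_nontrivial hPg
    rw [← Finite.one_lt_card_iff_nontrivial, ← hz, hmc] at this
    simp [show m = 0 by omega] at this
  have hq : Nat.card (P ⧸ Subgroup.center P) = p ^ (4 - m) := by
    rw [← Subgroup.index_eq_card]
    apply Nat.eq_of_mul_eq_mul_left (pow_pos hp.pos m)
    rw [← pow_add, show m + (4 - m) = 4 by omega, ← hmc, h2]
  have hcq : Group.nilpotencyClass P = Group.nilpotencyClass (P ⧸ Subgroup.center P) + 1 := by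
    have hnt : Nontrivial P := by
      rw [← Finite.one_lt_card_iff_nontrivial, hP]
      exact Nat.one_lt_pow (by norm_num) hp.one_lt
    exact Group.nilpotencyClass_eq_quotient_center_plus_one
  constructor
  · intro h
    have hm' : m = 1 := by
      rw [hmc, ← pow_succ'] at h
      have := Nat.pow_right_injective hp.two_le h
      omega
    subst hm'
    -- upper bound
    set Q := P ⧸ Subgroup.center P
    obtain ⟨k, hk, hkc⟩ :=
      (Nat.dvd_prime_pow hp).mp (hq ▸ Subgroup.card_subgroup_dvd_card (Subgroup.center Q))
    have hQg : IsPGroup p Q := IsPGroup.of_card hq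
    have hQnt : Nontrivial Q := by
      rw [← Finite.one_lt_card_iff_nontrivial, hq]
      exact Nat.one_lt_pow (by norm_num) hp.one_lt
    have hk1 : 1 ≤ k := by
      by_contra hcon
      have := IsPGroup.center_nontrivial hQg
      rw [← Finite.one_lt_card_iff_nontrivial, hkc] at this
      simp [show k = 0 by omega] at this
    have hQQ : Nat.card (Q ⧸ Subgroup.center Q) = p ^ (3 - k) := by
      rw [← Subgroup.index_eq_card]
      apply Nat.eq_of_mul_eq_mul_left (pow_pos hp.pos k)
      rw [← pow_add, show k + (3 - k) = 3 by omega, ← hkc, Subgroup.card_mul_index, hq]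
    have hQ2 : Group.nilpotencyClass Q ≤ 2 := by
      rw [Group.nilpotencyClass_eq_quotient_center_plus_one]
      have := hcl (hsq (3 - k) (by omega) hQQ)
      omega
    by_contra hne3
    have hcq' : Group.nilpotencyClass P = Group.nilpotencyClass Q + 1 := hcq
    have hQ1 : Group.nilpotencyClass Q ≤ 1 := by omega
    -- then `P'` is central, so `P' ≤ p` in order
    have hle : commutator P ≤ Subgroup.center P := by
      rw [commutator_def, Subgroup.commutator_le]
      intro a _ b _
      rw [← Subgroup.upperCentralSeries_eq_top_iff_nilpotencyClass_le, Subgroup.upperCentralSeries_one] at hQ1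
      rw [← QuotientGroup.eq_one_iff, ← QuotientGroup.mk'_apply, map_commutatorElement,
        commutatorElement_eq_one_iff_mul_comm]
      exact (Subgroup.mem_center_iff.mp
        (show QuotientGroup.mk' (Subgroup.center P) b ∈ Subgroup.center Q by rw [hQ1]; trivial) _)
    have h1 := Subgroup.card_le_of_le hle
    have h3 := Subgroup.card_mul_index (commutator P)
    rw [hP, hidx, hmc] at h3
    rw [← hz, hmc, pow_one] at h1
    have : p ^ 4 ≤ p ^ 3 := by
      calc p ^ 4 = Nat.card (commutator P) * (p * p ^ 1) := h3.symm
        _ ≤ p * (p * p ^ 1) := Nat.mul_le_mul_right _ h1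
        _ = p ^ 3 := by ring
    have := (Nat.pow_le_pow_iff_right hp.one_lt).mp this
    omega
  · intro h
    by_contra hne'
    have hm2 : 2 ≤ m := by
      by_contra hcon
      apply hne'
      rw [hmc, show m = 1 by omega]
      ring
    have := hcl (hsq (4 - m) (by omega) hq)
    omega

end Cfsg.Agent.S4585
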