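import Cfsg.Statements.S4587
import Cfsg.Agent.H45.DerivedIndexSqStructure

set_option autoImplicit false
open Cfsg

namespace Cfsg.Agent.S4587

/-- Let G be a finite group, p a prime and P a Sylow p-subgroup of order at least p². Assume that G has no nontrivial normal subgroup of order prime to p, that the derived subgroup P' of P contains no nontrivial normal subgroup of G, and that G is not almost simple (there is no non-abelian simple normal subgroup of G with trivial centralizer). Then [P : P'] = p² if and only if some p-element x of G has centralizer whose order has p-part exactly p². -/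
theorem result {G : Type*} [Group G] [Finite G] (p : ℕ) [Fact p.Prime] (P : Sylow p G) (hbig : p ^ 2 ∣ Nat.card G) (hcore : Cfsg.pPrimeCore p G = ⊥)
    (hcore' : (⁅(P : Subgroup G), (P : Subgroup G)⁆).normalCore = ⊥) (hnas : ¬ ∃ S : Subgroup G, S.Normal ∧ IsSimpleGroup S ∧ ¬ IsMulCommutative S ∧ Subgroup.centralizer (S : Set G) = ⊥) :
    (⁅(P : Subgroup G), (P : Subgroup G)⁆).relIndex (P : Subgroup G) = p ^ 2 ↔
      ∃ x : G, (∃ k : ℕ, orderOf x = p ^ k) ∧ (Nat.card (Subgroup.centralizer ({x} : Set G))).factorization p = 2 := by
  constructor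
  · intro hsq
    by_cases hna : IsMulCommutative ↥(P : Subgroup G)
    · refine ⟨1, ⟨0, by simp⟩, ?_⟩
      have hbot : ⁅(P : Subgroup G), (P : Subgroup G)⁆ = ⊥ := by
        rw [eq_bot_iff, Subgroup.commutator_le]
        intro a ha b hb
        rw [Subgroup.mem_bot, commutatorElement_eq_one_iff_mul_comm]
        exact congrArg Subtype.val
          (hna.is_comm.comm (⟨a, ha⟩ : ↥(P : Subgroup G)) ⟨b, hb⟩)
      rw [hbot, Subgroup.relIndex_bot_left, Sylow.card_eq_multiplicity] at hsq
      have hcent : Subgroup.centralizer ({1} : Set G) = ⊤ :=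
        eq_top_iff.2 fun g _ => Subgroup.mem_centralizer_singleton_iff.2 (by simp)
      rw [hcent, Subgroup.card_top]
      exact Nat.pow_right_injective (Fact.out (p := p.Prime)).two_le hsq
    · obtain ⟨N, hN, hab, hidx⟩ := H45.DerivedSq.exists_trace hcore P hna hcore' hnas hsq
      haveI := hN
      exact H45.DerivedSq.exists_centralizer_of_trace P N hab hidx hsq
  · rintro ⟨x, hx, h2⟩
    exact H45.DerivedSq.relIndex_of_centralizer hbig P hx h2

end Cfsg.Agent.S4587
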