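import Cfsg.Statements.S4588
import Cfsg.Agent.H56.PrincipalSmallCentralizer

set_option autoImplicit false
open Cfsg

namespace Cfsg.Agent.S4588

/-- Let G be a finite group, p a prime and M a maximal ideal of the algebraic integers containing p. If some p-element x of G (possibly x = 1) has centralizer whose order has p-part at most p², then the principal p-block of G contains at most p² irreducible characters of degree prime to p. -/
theorem result {G : Type*} [Group G] [Finite G] (p : ℕ) [Fact p.Prime] (M : Ideal Cfsg.AlgInt) (hM : Cfsg.IsPModular p M)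
    (hx : ∃ x : G, (∃ k : ℕ, orderOf x = p ^ k) ∧ (Nat.card (Subgroup.centralizer ({x} : Set G))).factorization p ≤ 2) :
    Nat.card {χ : Cfsg.IrrCharacter G // χ ∈ Cfsg.principalBlock M G ∧ ¬ p ∣ Cfsg.charDegree (χ : G → ℂ)} ≤ p ^ 2 := by
  obtain ⟨x, hx, hC⟩ := hx
  classical
  haveI := Fintype.ofFinite G
  haveI := hM.2.1
  rw [← H56.Subsec.card_prime_to_p_principal]
  apply H56.Subsec.count_le_of_small_centralizer hM hx
  rwa [← H56.Subsec.centralizer_singleton_eq]

end Cfsg.Agent.S4588
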