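import Cfsg.Statements.S4593
import Cfsg.Agent.H93.ZStar
import Cfsg.Agent.H22.AbelianSylow
import Cfsg.Agent.H22.Fusion
import Cfsg.Agent.S0215

set_option autoImplicit false
open Cfsg

namespace Cfsg.Agent.S4593

/-- Let G be a finite group with trivial centre and no nontrivial normal subgroup of odd order, whose Sylow 2-subgroups are abelian, and let P be a Sylow 2-subgroup. Every automorphism of G of 2-power order that fixes P elementwise is inner. -/
theorem result {G : Type*} [Group G] [Finite G] (hZ : Subgroup.center G = ⊥) (hcore : Cfsg.pPrimeCore 2 G = ⊥) (P : Sylow 2 G) (hab : IsMulCommutative (P : Subgroup G))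
    (α : MulAut G) (h2 : ∃ j : ℕ, orderOf α = 2 ^ j) (hfix : ∀ x ∈ (P : Subgroup G), α x = x) :
    ∃ g : G, ∀ x : G, α x = g * x * g⁻¹ := by
  classical
  have h22 : Fact (Nat.Prime 2) := ⟨Nat.prime_two⟩
  have : Finite (MulAut G) := Finite.of_injective (fun β : MulAut G => (β : G → G)) DFunLike.coe_injective
  set K := Subgroup.zpowers α with hK
  have hKfix : ∀ k : K, ∀ x ∈ (P : Subgroup G), (k : MulAut G) x = x := by
    rintro ⟨k, hk⟩ x hx
    have : K ≤ MulAction.stabilizer (MulAut G) x := Subgroup.zpowers_le.2 (hfix x hx)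
    exact this hk
  let X := G ⋊[K.subtype] K
  have hXfin : Finite X := Finite.of_injective _ (SemidirectProduct.equivProd).injective
  let Q : Subgroup X :=
    { carrier := {x | x.left ∈ (P : Subgroup G)}
      one_mem' := (P : Subgroup G).one_mem
      mul_mem' := fun {a b} ha hb => by
        show a.left * (a.right : MulAut G) b.left ∈ (P : Subgroup G)
        rw [hKfix _ _ hb]
        exact mul_mem ha hb
      inv_mem' := fun {a} ha => by
        show ((a.right⁻¹ : K) : MulAut G) a.left⁻¹ ∈ (P : Subgroup G)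
        rw [hKfix _ _ (inv_mem ha)]
        exact inv_mem ha }
  let eQ : Q ≃ ↥(P : Subgroup G) × ↥K :=
    { toFun := fun x => (⟨x.1.left, x.2⟩, x.1.right)
      invFun := fun y => ⟨⟨y.1.1, y.2⟩, y.1.2⟩
      left_inv := fun x => rfl
      right_inv := fun y => rfl }
  have hQc : IsMulCommutative Q := ⟨⟨fun a b => by
    refine Subtype.ext (SemidirectProduct.ext ?_ ?_)
    · show a.1.left * (a.1.right : MulAut G) b.1.left = b.1.left * (b.1.right : MulAut G) a.1.left
      rw [hKfix _ _ b.2, hKfix _ _ a.2]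
      exact congrArg Subtype.val (hab.is_comm.comm (⟨_, a.2⟩ : (P : Subgroup G)) ⟨_, b.2⟩)
    · exact (IsCyclic.isMulCommutative (α := K)).is_comm.comm a.1.right b.1.right⟩⟩
  have hKcard : ∃ j, Nat.card K = 2 ^ j := by rw [hK, Nat.card_zpowers]; exact h2
  have hQp : IsPGroup 2 Q := by
    obtain ⟨j, hj⟩ := hKcard
    obtain ⟨i, hi⟩ := IsPGroup.iff_card.1 P.2
    refine IsPGroup.of_card (n := i + j) ?_
    rw [Nat.card_congr eQ, Nat.card_prod, hi, hj, pow_add]
  have hXcard : Nat.card X = Nat.card G * Nat.card K := by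
    rw [Nat.card_congr SemidirectProduct.equivProd, Nat.card_prod]
  have hQi : ¬ 2 ∣ Q.index := by
    have h1 := Q.card_mul_index
    rw [Nat.card_congr eQ, Nat.card_prod, hXcard, ← (P : Subgroup G).card_mul_index] at h1
    have h3 : Q.index = (P : Subgroup G).index :=
      Nat.eq_of_mul_eq_mul_left (Nat.mul_pos Nat.card_pos Nat.card_pos) (h1.trans (by ring))
    rw [h3]
    exact P.not_dvd_index
  let S : Sylow 2 X := hQp.toSylow hQi
  have hSc : IsMulCommutative (S : Subgroup X) := hQc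
  obtain ⟨-, hdec⟩ := H22.abelian_sylow_decomposition S hSc
  set N := Subgroup.normalizer (S : Set X) with hN
  let πr : X →* K := SemidirectProduct.rightHom
  have hcomm : ⁅(S : Subgroup X), N⁆ ≤ πr.ker := by
    rw [Subgroup.commutator_le]
    intro a _ b _
    rw [MonoidHom.mem_ker, map_commutatorElement, commutatorElement_eq_one_iff_mul_comm]
    exact (IsCyclic.isMulCommutative (α := K)).is_comm.comm _ _
  let αK : K := ⟨α, Subgroup.mem_zpowers α⟩
  have hαQ : (SemidirectProduct.inr αK : X) ∈ (S : Subgroup X) := one_mem (P : Subgroup G)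
  rw [← hdec] at hαQ
  obtain ⟨a, ha, w, hw, haw⟩ : ∃ a ∈ ⁅(S : Subgroup X), N⁆,
      ∃ w ∈ (S : Subgroup X) ⊓ Subgroup.centralizer (N : Set X), a * w = SemidirectProduct.inr αK := by
    have hsup := hαQ
    rw [← Subgroup.closure_eq ⁅(S : Subgroup X), N⁆,
      ← Subgroup.closure_eq ((S : Subgroup X) ⊓ Subgroup.centralizer (N : Set X)),
      ← Subgroup.closure_union] at hsup
    refine Subgroup.closure_induction (p := fun x _ => ∃ a ∈ ⁅(S : Subgroup X), N⁆,
      ∃ w ∈ (S : Subgroup X) ⊓ Subgroup.centralizer (N : Set X), a * w = x) ?_ ?_ ?_ ?_ hsup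
    · rintro x (hx | hx)
      · exact ⟨x, hx, 1, one_mem _, mul_one x⟩
      · exact ⟨1, one_mem _, x, hx, one_mul x⟩
    · exact ⟨1, one_mem _, 1, one_mem _, mul_one 1⟩
    · rintro x y - - ⟨a, ha, w, hw, rfl⟩ ⟨a', ha', w', hw', rfl⟩
      refine ⟨a * a', mul_mem ha ha', w * w', mul_mem hw hw', ?_⟩
      have hSN : (S : Subgroup X) ≤ N := Subgroup.le_normalizer
      have ha'N : a' ∈ N := (Subgroup.commutator_le.2 fun p hp n hn => by
        rw [commutatorElement_def]
        exact mul_mem (mul_mem (mul_mem (hSN hp) hn) (inv_mem (hSN hp))) (inv_mem hn) :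
          ⁅(S : Subgroup X), N⁆ ≤ N) ha'
      have := Subgroup.mem_centralizer_iff.1 hw.2 a' ha'N
      simp only [mul_assoc]
      rw [← mul_assoc a' w, this, mul_assoc]
    · rintro x - ⟨a, ha, w, hw, rfl⟩
      refine ⟨a⁻¹, inv_mem ha, w⁻¹, inv_mem hw, ?_⟩
      have hSN : (S : Subgroup X) ≤ N := Subgroup.le_normalizer
      have ha'N : a ∈ N := (Subgroup.commutator_le.2 fun p hp n hn => by
        rw [commutatorElement_def]
        exact mul_mem (mul_mem (mul_mem (hSN hp) hn) (inv_mem (hSN hp))) (inv_mem hn) :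
          ⁅(S : Subgroup X), N⁆ ≤ N) ha
      have := Subgroup.mem_centralizer_iff.1 (inv_mem hw.2) a⁻¹ (inv_mem ha'N)
      rw [_root_.mul_inv_rev, this]
  have hwr : w.right = αK := by
    have h1 := congrArg πr haw
    rw [map_mul, MonoidHom.mem_ker.1 (hcomm ha), one_mul] at h1
    exact h1
  have hce : H93.CentralElt (S : Subgroup X) w := by
    refine ⟨hw.1, fun A g hA hg => ?_⟩
    have hSA : (S : Subgroup X) ≤ Subgroup.centralizer (A : Set X) := fun s hs =>
      Subgroup.mem_centralizer_iff.2 fun y hy =>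
        congrArg Subtype.val (hSc.is_comm.comm (⟨y, hA hy⟩ : (S : Subgroup X)) ⟨s, hs⟩)
    have hgA : ((g⁻¹ • S : Sylow 2 X) : Subgroup X) ≤ Subgroup.centralizer (A : Set X) := by
      intro s hs
      rw [H22.mem_smul_sylow, inv_inv] at hs
      refine Subgroup.mem_centralizer_iff.2 fun y hy => ?_
      have h1 : (g * y * g⁻¹) * (g * s * g⁻¹) = (g * s * g⁻¹) * (g * y * g⁻¹) :=
        congrArg Subtype.val (hSc.is_comm.comm (⟨_, hg y hy⟩ : (S : Subgroup X)) ⟨_, hs⟩)
      exact mul_left_cancel (a := g) (mul_right_cancel (b := g⁻¹) (by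
        rw [← mul_assoc g y s, ← mul_assoc g s y]
        calc g * y * s * g⁻¹ = (g * y * g⁻¹) * (g * s * g⁻¹) := by
              rw [← mul_assoc (g * y * g⁻¹), ← mul_assoc (g * y * g⁻¹), inv_mul_cancel_right]
          _ = _ := by rw [h1, ← mul_assoc (g * s * g⁻¹), ← mul_assoc (g * s * g⁻¹), inv_mul_cancel_right]))
    obtain ⟨c, hc, hcS⟩ := H22.exists_mem_smul_eq _ S (g⁻¹ • S) hSA hgA
    refine ⟨g * c, ?_, fun y hy => ?_⟩
    · rw [Subgroup.mem_centralizer_iff.1 hw.2 (g * c) (H22.normalizer_of_smul_eq hcS), mul_inv_cancel_right]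
    · calc g * c * y * (g * c)⁻¹ = g * (c * y * c⁻¹) * g⁻¹ := by simp [mul_assoc]
        _ = _ := by rw [← Subgroup.mem_centralizer_iff.1 hc y hy, mul_inv_cancel_right]
  have hO : ∀ g, w * g * w⁻¹ * g⁻¹ ∈ Cfsg.oddCore X := fun g =>
    H93.commutator_mem_oddCore S0215.result _ X S w rfl hce g
  have hOn : (Cfsg.oddCore X).Normal := H19.pPrimeCore_normal 2 X
  have hOodd : (Nat.card (Cfsg.oddCore X)).Coprime 2 := H19.pPrimeCore_coprime 2
  have hObot : Cfsg.oddCore X = ⊥ := by
    have hker : Cfsg.oddCore X ≤ πr.ker := by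
      intro x hx
      rw [MonoidHom.mem_ker, ← orderOf_eq_one_iff]
      obtain ⟨j, hj⟩ := hKcard
      have hd1 : orderOf (πr x) ∣ 2 ^ j := hj ▸ orderOf_dvd_natCard (πr x)
      have hd2 : orderOf (πr x) ∣ Nat.card (Cfsg.oddCore X) :=
        (orderOf_map_dvd πr x).trans (Subgroup.orderOf_dvd_natCard _ hx)
      exact Nat.eq_one_of_dvd_coprimes (Nat.Coprime.pow_right j hOodd) hd2 hd1
    let inlX : G →* X := SemidirectProduct.inl
    have hle : (Cfsg.oddCore X).comap inlX ≤ Cfsg.pPrimeCore 2 G :=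
      H19.le_pPrimeCore (hOn.comap inlX) (hOodd.coprime_dvd_left
        (Subgroup.card_dvd_of_injective (inlX.subgroupComap _) (fun a b h =>
          Subtype.ext (SemidirectProduct.inl_injective (congrArg Subtype.val h)))))
    rw [hcore] at hle
    refine (Subgroup.eq_bot_iff_forall _).2 fun x hx => ?_
    have hx1 : x = inlX x.left := SemidirectProduct.ext rfl (MonoidHom.mem_ker.1 (hker hx))
    have hm : x.left ∈ (Cfsg.oddCore X).comap inlX := by
      rw [Subgroup.mem_comap, ← hx1]; exact hx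
    rw [hx1, (Subgroup.mem_bot.1 (hle hm)), map_one]
  refine ⟨w.left⁻¹, fun g => ?_⟩
  have h1 := hO (SemidirectProduct.inl g)
  rw [hObot, Subgroup.mem_bot, mul_inv_eq_one, mul_inv_eq_iff_eq_mul] at h1
  have h3 := congrArg SemidirectProduct.left h1
  change w.left * (w.right : MulAut G) g = g * (1 : MulAut G) w.left at h3
  rw [hwr, MulAut.one_apply] at h3
  change w.left * α g = g * w.left at h3
  rw [inv_inv, mul_assoc, ← h3, inv_mul_cancel_left]

end Cfsg.Agent.S4593
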