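import Cfsg.Statements.S4604
import Cfsg.Agent.H43.RegularPart

set_option maxHeartbeats 800000

set_option autoImplicit false
open Cfsg

namespace Cfsg.Agent.S4604

/-- Let G be a finite group, p a prime and p^a the p-part of the order of G. Let x, y ∈ G and let x′, y′ be their p-regular parts: x′ has order prime to p, commutes with x·x′⁻¹, and x·x′⁻¹ has p-power order (likewise for y). Then x′ and y′ are conjugate in G if and only if for every irreducible character χ of G the algebraic integer χ(x)^(p^a) − χ(y)^(p^a) is p times an algebraic integer. -/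
theorem result {G : Type*} [Group G] [Finite G] (p : ℕ) [Fact p.Prime] (x y x' y' : G)
    (hx : (∃ k : ℕ, orderOf (x * x'⁻¹) = p ^ k) ∧ Commute (x * x'⁻¹) x' ∧ ¬ p ∣ orderOf x')
    (hy : (∃ k : ℕ, orderOf (y * y'⁻¹) = p ^ k) ∧ Commute (y * y'⁻¹) y' ∧ ¬ p ∣ orderOf y') :
    IsConj x' y' ↔ ∀ χ : Cfsg.IrrCharacter G, ∃ γ : Cfsg.AlgInt,
      (χ : G → ℂ) x ^ (p ^ (Nat.card G).factorization p) - (χ : G → ℂ) y ^ (p ^ (Nat.card G).factorization p) = (p : ℂ) * (γ : ℂ) := by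
  set q := p ^ (Nat.card G).factorization p with hq
  have hp : p.Prime := Fact.out
  have hpow : ∀ g g' : G, ((∃ k : ℕ, orderOf (g * g'⁻¹) = p ^ k) ∧ Commute (g * g'⁻¹) g' ∧
      ¬ p ∣ orderOf g') → g ^ q = g' ^ q := by
    rintro g g' ⟨⟨k, hk⟩, hc, -⟩
    have h1 : (g * g'⁻¹) ^ q = 1 := by
      rw [← orderOf_dvd_iff_pow_eq_one, hk, hq]
      exact pow_dvd_pow p ((hp.pow_dvd_iff_le_factorization Nat.card_pos.ne').mp
        (hk ▸ orderOf_dvd_natCard _))
    calc g ^ q = (g * g'⁻¹ * g') ^ q := by rw [inv_mul_cancel_right]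
      _ = g' ^ q := by rw [hc.mul_pow, h1, one_mul]
  have hord : ∀ g' : G, ¬ p ∣ orderOf g' → orderOf (g' ^ q) = orderOf g' := fun g' h =>
    Nat.Coprime.orderOf_pow ((Nat.Coprime.pow_right _ (hp.coprime_iff_not_dvd.mpr h).symm))
  have hval : ∀ χ : Cfsg.IrrCharacter G, H43.IntCong p (χ.1 x ^ q) (χ.1 (x' ^ q)) ∧
      H43.IntCong p (χ.1 y ^ q) (χ.1 (y' ^ q)) := fun χ =>
    ⟨hpow x x' hx ▸ H43.intCong_pow_value χ p _ x, hpow y y' hy ▸ H43.intCong_pow_value χ p _ y⟩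
  constructor
  · intro h χ
    have h1 : χ.1 (x' ^ q) = χ.1 (y' ^ q) := by
      obtain ⟨g, hg⟩ := isConj_iff.mp h
      exact H26.irr_eq_of_isConj χ (isConj_iff.mpr ⟨g, by rw [← conj_pow, hg]⟩)
    obtain ⟨γ, hγ, e⟩ := (hval χ).1.trans (h1 ▸ (hval χ).2.symm)
    exact ⟨⟨γ, hγ⟩, e⟩
  · intro h
    have hc : IsConj (x' ^ q) (y' ^ q) := by
      refine H43.isConj_of_intCong p ?_ ?_ fun χ => ?_
      · rw [hord x' hx.2.2]; exact hx.2.2
      · rw [hord y' hy.2.2]; exact hy.2.2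
      · obtain ⟨γ, e⟩ := h χ
        exact ((hval χ).1.symm.trans ⟨γ, γ.2, e⟩).trans (hval χ).2
    obtain ⟨g, hg⟩ := isConj_iff.mp hc
    rw [← conj_pow] at hg
    refine isConj_iff.mpr ⟨g, ?_⟩
    have ho : orderOf (g * x' * g⁻¹) = orderOf x' := by
      rw [show g * x' * g⁻¹ = MulAut.conj g x' from rfl, MulEquiv.orderOf_eq]
    have ho2 : orderOf (g * x' * g⁻¹) = orderOf y' := by
      rw [← hord y' hy.2.2, ← hg, hord _ (by rw [ho]; exact hx.2.2)]
    have hcop : q.Coprime (orderOf y') := (hp.coprime_iff_not_dvd.mpr hy.2.2).pow_left _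
    obtain ⟨r, hr⟩ := exists_pow_eq_self_of_coprime hcop
    have hmod : q * r ≡ 1 [MOD orderOf y'] :=
      pow_eq_pow_iff_modEq.mp (by rw [pow_mul, hr, pow_one])
    calc g * x' * g⁻¹ = ((g * x' * g⁻¹) ^ q) ^ r := by
          rw [← pow_mul, (pow_eq_pow_iff_modEq (m := 1)).mpr (ho2 ▸ hmod), pow_one]
      _ = y' := by rw [hg, hr]

end Cfsg.Agent.S4604
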