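import Cfsg.Statements.S4610
import Cfsg.Agent.H22.PrincipalBlocksMeet

set_option autoImplicit false
open Cfsg

namespace Cfsg.Agent.S4610

/-- Let G be a finite group and p a prime dividing its order; fix for every prime r a maximal ideal M r of the algebraic integers containing r. Then, for every prime q ≠ p dividing the order of G, the principal p-block and the principal q-block of G have only the principal character in common, if and only if a Sylow p-subgroup P of G is normal and G is generated by P and its largest normal subgroup of order prime to p (that is, G is the direct product of P and that subgroup). -/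
theorem result {G : Type*} [Group G] [Finite G] (p : ℕ) [Fact p.Prime] (hp : p ∣ Nat.card G) (M : ℕ → Ideal Cfsg.AlgInt) (hM : ∀ r : ℕ, r.Prime → Cfsg.IsPModular r (M r)) (P : Sylow p G) :
    (∀ q : ℕ, q.Prime → q ≠ p → q ∣ Nat.card G →
        ∀ χ : Cfsg.IrrCharacter G, χ ∈ Cfsg.principalBlock (M p) G → χ ∈ Cfsg.principalBlock (M q) G → (χ : G → ℂ) = fun _ => 1) ↔
      ((P : Subgroup G).Normal ∧ (P : Subgroup G) ⊔ Cfsg.pPrimeCore p G = ⊤) := by
  haveI := Fintype.ofFinite G
  have hp' : p.Prime := Fact.out
  constructor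
  · intro h
    refine Cfsg.Agent.H22.BlocksMeet.product_of_index P fun x hx q hq hqp hqd => ?_
    haveI := Fact.mk hq
    exact Cfsg.Agent.H22.BlocksMeet.not_dvd_index_centralizer (hM p hp') (hM q hq)
      (fun χ h1 h2 => h q hq hqp
        (hqd.trans (Subgroup.index_dvd_card _)) χ h1 h2) hx hqd
  · rintro ⟨hn, htop⟩ q hq hqp - χ h1 h2
    haveI := Fact.mk hq
    haveI := Cfsg.Agent.H19.pPrimeCore_normal p G
    have hker : Cfsg.Agent.H43.charKer χ = ⊤ := by
      rw [eq_top_iff, ← htop, sup_le_iff]
      constructor
      · intro a ha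
        obtain ⟨n, hn'⟩ := IsPGroup.iff_card.1 P.2
        have hdvd : ¬ q ∣ Nat.card (P : Subgroup G) := fun hd => by
          rw [hn'] at hd
          exact hqp ((Nat.prime_dvd_prime_iff_eq hq hp').1 (hq.dvd_of_dvd_pow hd))
        have := Cfsg.Agent.H41.mul_eq_of_mem_principalBlock (hM q hq) _ hdvd h2 ha 1
        rwa [one_mul] at this
      · intro a ha
        have := Cfsg.Agent.H41.mul_eq_of_mem_principalBlock (hM p hp') _
          ((Nat.Prime.coprime_iff_not_dvd hp').1 (Cfsg.Agent.H19.pPrimeCore_coprime p).symm) h1 ha 1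
        rwa [one_mul] at this
    have hconst : ∀ g, (χ : G → ℂ) g = (Cfsg.charDegree (χ : G → ℂ) : ℂ) := fun g =>
      (Cfsg.Agent.H43.mem_charKer.1 (hker ▸ Subgroup.mem_top g)).trans
        (Cfsg.Agent.H42.irr_one_eq χ)
    classical
    have h3 := Cfsg.Agent.H26.classInner_irr χ χ
    rw [if_pos rfl, Cfsg.classInner] at h3
    simp only [hconst, map_natCast, Finset.sum_const, Finset.card_univ, nsmul_eq_mul,
      ← Nat.card_eq_fintype_card] at h3
    rw [inv_mul_cancel_left₀ (Nat.cast_ne_zero.2 Nat.card_pos.ne'), ← Nat.cast_mul,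
      Nat.cast_eq_one, mul_eq_one] at h3
    exact funext fun g => (hconst g).trans (by rw [h3.1, Nat.cast_one])

end Cfsg.Agent.S4610
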