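import Cfsg.Statements.S4611
import Cfsg.Agent.H42.SolvableBlock
-- import your own Cfsg.Agent.* helpers here

set_option autoImplicit false
open Cfsg

namespace Cfsg.Agent.S4611

/-- Let G be a finite solvable group and π a nonempty set of primes, each dividing the order of G; fix for each p in π a maximal ideal M p of the algebraic integers containing p. Then the only irreducible character lying in the principal p-block for every p in π is the principal character if and only if G is generated by the subgroups O_{p'}(G), p in π (the largest normal subgroups of order prime to p). -/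
theorem result {G : Type*} [Group G] [Finite G] [Group.IsSolvable G] (π : Set ℕ) (hπ : ∀ p ∈ π, p.Prime ∧ p ∣ Nat.card G) (hne : π.Nonempty) (M : ℕ → Ideal Cfsg.AlgInt) (hM : ∀ p ∈ π, Cfsg.IsPModular p (M p)) :
    (∀ χ : Cfsg.IrrCharacter G, (∀ p ∈ π, χ ∈ Cfsg.principalBlock (M p) G) → (χ : G → ℂ) = fun _ => 1) ↔
      ⨆ p ∈ π, Cfsg.pPrimeCore p G = ⊤ := by
  classical
  have := Fintype.ofFinite G
  refine ⟨fun h => ?_, fun h χ hχ => ?_⟩
  · by_contra hne
    set L := ⨆ p ∈ π, Cfsg.pPrimeCore p G with hL
    have : L.Normal := by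
      have hnor : ∀ p : ℕ, (Cfsg.pPrimeCore p G).Normal := fun p =>
        Cfsg.Agent.H19.pPrimeCore_normal p G
      refine ⟨fun n hn g => ?_⟩
      have hle : L ≤ L.comap (MulAut.conj g).toMonoidHom :=
        iSup₂_le fun p hp x hx =>
          Subgroup.mem_iSup_of_mem p (Subgroup.mem_iSup_of_mem hp ((hnor p).conj_mem x hx g))
      exact hle hn
    have : Nontrivial (G ⧸ L) := (QuotientGroup.nontrivial_iff).2 hne
    have hlt : commutator (G ⧸ L) < ⊤ := Group.IsSolvable.commutator_lt_top_of_nontrivial (G ⧸ L)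
    obtain ⟨x, -, hx⟩ := SetLike.exists_of_lt hlt
    have : Finite (Abelianization (G ⧸ L)) := Quotient.finite _
    obtain ⟨f, hf⟩ := CommGroup.exists_apply_ne_one_of_hasEnoughRootsOfUnity
      (Abelianization (G ⧸ L)) ℂ (a := Abelianization.of x) fun hc => hx (by
        rw [← Abelianization.ker_of]; exact hc)
    set g : G →* ℂˣ := (f.comp Abelianization.of).comp (QuotientGroup.mk' L) with hg
    let χ : Cfsg.IrrCharacter G := ⟨fun y => (g y : ℂ), Cfsg.Agent.H26.isIrrCharacter_hom g⟩
    have hχ := h χ fun p hp => by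
      have := Fact.mk (hπ p hp).1
      refine (Cfsg.Agent.H42.mem_principalBlock_iff_of_solvable (hM p hp) χ).2 fun n hn => ?_
      have hnL : n ∈ L := Subgroup.mem_iSup_of_mem p (Subgroup.mem_iSup_of_mem hp hn)
      show (g n : ℂ) = (g 1 : ℂ)
      rw [hg, MonoidHom.comp_apply, MonoidHom.comp_apply, QuotientGroup.mk'_apply,
        (QuotientGroup.eq_one_iff n).2 hnL, map_one, map_one, map_one]
    obtain ⟨y, rfl⟩ := QuotientGroup.mk_surjective x
    exact hf (Units.ext (congrFun hχ y))
  · have hle : ⨆ p ∈ π, Cfsg.pPrimeCore p G ≤ Cfsg.Agent.H43.charKer χ := by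
      refine iSup₂_le fun p hp n hn => ?_
      have := Fact.mk (hπ p hp).1
      exact (Cfsg.Agent.H42.mem_principalBlock_iff_of_solvable (hM p hp) χ).1 (hχ p hp) n hn
    rw [h] at hle
    have hone : χ = Cfsg.Agent.H26.oneIrr G := by
      refine Cfsg.Agent.H43.eq_oneIrr_of_mult_ne_zero (φ := χ.1) (fun g => hle (Subgroup.mem_top g)) ?_
      rw [Cfsg.Agent.H43.mult_eq_of_classInner (φ := χ.1) (ψ := χ) (m := 1) (by
        rw [Nat.cast_one]; exact (Cfsg.Agent.H26.classInner_irr χ χ).trans (if_pos rfl))]
      exact one_ne_zero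
    rw [hone]
    rfl

end Cfsg.Agent.S4611
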