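import Cfsg.Statements.S4620
import Cfsg.Agent.H44.TISylow

set_option autoImplicit false
open scoped Pointwise
open Cfsg

namespace Cfsg.Agent.S4620

open H44 in
/-- Two commuting normal subgroups cannot both meet a trivial-intersection Sylow subgroup
nontrivially when `O_p` is trivial. -/
theorem not_both_meet {H : Type*} [Group H] [Finite H] (p : ℕ) [Fact p.Prime]
    (hOp : Cfsg.pCore p H = ⊥) (P : Sylow p H)
    (hTI : ∀ g : H, g ∉ Subgroup.normalizer ((P : Subgroup H) : Set H) →
      (P : Subgroup H) ⊓ (MulAut.conj g • (P : Subgroup H)) = ⊥)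
    (A B : Subgroup H) [A.Normal] (hcomm : ∀ a ∈ A, ∀ b ∈ B, a * b = b * a)
    (hB : (P : Subgroup H) ⊓ B ≠ ⊥) : (P : Subgroup H) ⊓ A = ⊥ := by
  obtain ⟨x, hx, hx1⟩ := ((P : Subgroup H) ⊓ B).bot_or_exists_ne_one.resolve_left hB
  have hA : A ≤ Subgroup.normalizer ((P : Subgroup H) : Set H) := fun a ha =>
    ti_mem_normalizer_of_commute hTI hx.1 hx1 (hcomm a ha x hx.2)
  have hn : ((P : Subgroup H) ⊓ A).Normal := ⟨fun y hy g => by
    obtain ⟨k, hk⟩ := P.isPGroup' ⟨y, hy.1⟩
    have hk' : y ^ p ^ k = 1 := by simpa using congrArg Subtype.val hk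
    have hmem : g * y * g⁻¹ ∈ A := ‹A.Normal›.conj_mem y hy.2 g
    exact ⟨mem_sylow_of_mem_normalizer P (hA hmem) (k := k)
      (by rw [conj_pow, hk']; group), hmem⟩⟩
  have hle : (P : Subgroup H) ⊓ A ≤ Cfsg.pCore p H :=
    le_sSup ⟨hn, P.isPGroup'.to_le inf_le_left⟩
  rwa [hOp, le_bot_iff] at hle


/-- Let H be a finite group with no nontrivial normal p-subgroup and no nontrivial normal subgroup of order prime to p, whose Sylow p-subgroup P is nontrivial and a trivial-intersection set (P meets its conjugates by elements outside N_H(P) trivially). Then H has a unique minimal normal subgroup N; N is non-abelian simple with trivial centralizer in H (so H embeds in Aut(N)), and a Sylow p-subgroup of N is again a nontrivial trivial-intersection set in N. -/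
theorem result {H : Type*} [Group H] [Finite H] (p : ℕ) [Fact p.Prime] (hOp : Cfsg.pCore p H = ⊥) (hOp' : Cfsg.pPrimeCore p H = ⊥) (P : Sylow p H) (hP1 : (P : Subgroup H) ≠ ⊥)
    (hTI : ∀ g : H, g ∉ Subgroup.normalizer ((P : Subgroup H) : Set H) → (P : Subgroup H) ⊓ (MulAut.conj g • (P : Subgroup H)) = ⊥) :
    ∃ N : Subgroup H, N.Normal ∧ N ≠ ⊥ ∧ (∀ K : Subgroup H, K.Normal → K ≠ ⊥ → N ≤ K) ∧
      IsSimpleGroup N ∧ ¬ IsMulCommutative N ∧ Subgroup.centralizer (N : Set H) = ⊥ ∧
      ∀ Q : Sylow p N, (Q : Subgroup N) ≠ ⊥ ∧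
        ∀ n : N, n ∉ Subgroup.normalizer ((Q : Subgroup N) : Set N) → (Q : Subgroup N) ⊓ (MulAut.conj n • (Q : Subgroup N)) = ⊥ := by
  have hdvd : ∀ N : Subgroup H, N.Normal → N ≠ ⊥ → p ∣ Nat.card N := by
    intro N hN hN1
    by_contra h
    refine hN1 (le_bot_iff.mp (hOp' ▸ ?_))
    exact le_sSup ⟨hN, Nat.Coprime.symm (((Fact.out : p.Prime).coprime_iff_not_dvd).mpr h)⟩
  have hmeet : ∀ N : Subgroup H, N.Normal → N ≠ ⊥ → (P : Subgroup H) ⊓ N ≠ ⊥ := by
    intro N hN hN1
    exact H44.inf_sylow_ne_bot_of_normal P N (hdvd N hN hN1)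
  have hH : (⊤ : Subgroup H) ≠ ⊥ := fun h => hP1 (le_bot_iff.mp (h ▸ le_top))
  obtain ⟨N, ⟨hNn, hN1⟩, hmin⟩ := wellFounded_lt.has_min
    {N : Subgroup H | N.Normal ∧ N ≠ ⊥} ⟨⊤, inferInstance, hH⟩
  have huniq : ∀ K : Subgroup H, K.Normal → K ≠ ⊥ → N ≤ K := by
    intro K hK hK1
    by_contra hle
    have hlt : N ⊓ K < N := lt_of_le_of_ne inf_le_left (fun h => hle (inf_eq_left.mp h))
    have hbot : N ⊓ K = ⊥ := by
      by_contra h
      exact hmin (N ⊓ K) ⟨inferInstance, h⟩ hlt
    refine hmeet N hNn hN1 (not_both_meet p hOp P hTI N K ?_ (hmeet K hK hK1))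
    intro a ha b hb
    exact (Subgroup.commute_of_normal_of_disjoint N K hNn hK (disjoint_iff.mpr hbot) a b ha hb).eq
  have hna : ¬ IsMulCommutative N := by
    intro h
    exact hmeet N hNn hN1 (not_both_meet p hOp P hTI N N
      (fun a ha b hb => congrArg Subtype.val (h.is_comm.comm (⟨a, ha⟩ : N) ⟨b, hb⟩))
      (hmeet N hNn hN1))
  have hcent : Subgroup.centralizer (N : Set H) = ⊥ := by
    by_contra h
    have hle := huniq _ inferInstance h
    exact hna ⟨⟨fun a b => Subtype.ext ((Subgroup.mem_centralizer_iff.mp (hle b.2) a a.2))⟩⟩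
  refine ⟨N, hNn, hN1, huniq, ?_, hna, hcent, ?_⟩
  · -- simplicity
    by_contra hns
    haveI : Nontrivial N := N.nontrivial_iff_ne_bot.mpr hN1
    obtain ⟨K, hK, hKb, hKt⟩ : ∃ K : Subgroup N, K.Normal ∧ K ≠ ⊥ ∧ K ≠ ⊤ := by
      by_contra hcon
      push Not at hcon
      exact hns ⟨fun K hK => (em (K = ⊥)).imp id (hcon K hK)⟩
    obtain ⟨S, ⟨hSN, hSn, hS1⟩, hSmin⟩ := wellFounded_lt.has_min
      {S : Subgroup H | S ≤ N ∧ (∀ n ∈ N, ∀ s ∈ S, n * s * n⁻¹ ∈ S) ∧ S ≠ ⊥}
      ⟨K.map N.subtype, Subgroup.map_subtype_le K, by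
        rintro n hn s ⟨t, ht, rfl⟩
        exact ⟨⟨n, hn⟩ * t * ⟨n, hn⟩⁻¹, hK.conj_mem t ht _, rfl⟩,
        fun h => hKb (by rwa [Subgroup.map_eq_bot_iff_of_injective _ N.subtype_injective] at h)⟩
    have hSlt : S ≠ N := by
      intro h
      have hle : K.map N.subtype < N := lt_of_le_of_ne (Subgroup.map_subtype_le K) (fun he =>
        hKt (Subgroup.map_injective N.subtype_injective (by
          rw [he, ← MonoidHom.range_eq_map, Subgroup.range_subtype])))
      exact hSmin (K.map N.subtype) ⟨hle.le, by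
        rintro n hn s ⟨t, ht, rfl⟩
        exact ⟨⟨n, hn⟩ * t * ⟨n, hn⟩⁻¹, hK.conj_mem t ht _, rfl⟩,
        fun h => hKb (by rwa [Subgroup.map_eq_bot_iff_of_injective _ N.subtype_injective] at h)⟩
        (h ▸ hle)
    -- conjugates of `S`
    have hconj : ∀ g : H, ∀ T : Subgroup H, T ≤ N →
        (∀ n ∈ N, ∀ s ∈ T, n * s * n⁻¹ ∈ T) →
        MulAut.conj g • T ≤ N ∧ ∀ n ∈ N, ∀ s ∈ MulAut.conj g • T,
          n * s * n⁻¹ ∈ MulAut.conj g • T := by
      intro g T hT hTn
      constructor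
      · rintro _ ⟨t, ht, rfl⟩
        exact hNn.conj_mem t (hT ht) g
      · rintro n hn _ ⟨t, ht, rfl⟩
        refine ⟨(g⁻¹ * n * g) * t * (g⁻¹ * n * g)⁻¹, hTn _ ?_ t ht, ?_⟩
        · simpa using hNn.conj_mem n hn g⁻¹
        · show g * ((g⁻¹ * n * g) * t * (g⁻¹ * n * g)⁻¹) * g⁻¹ = n * (g * t * g⁻¹) * n⁻¹
          group
    -- some conjugate of `S` differs from `S`
    obtain ⟨g, hg⟩ : ∃ g : H, MulAut.conj g • S ≠ S := by
      by_contra hcon
      push Not at hcon
      have hSnorm : S.Normal := ⟨fun s hs g => by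
        have := Subgroup.smul_mem_pointwise_smul s (MulAut.conj g) S hs
        rwa [hcon g] at this⟩
      exact hSlt (le_antisymm hSN (huniq S hSnorm hS1))
    -- commuting of distinct conjugates
    have hmin' : ∀ a : H, ∀ T : Subgroup H, T ≤ N → (∀ n ∈ N, ∀ s ∈ T, n * s * n⁻¹ ∈ T) →
        T ≤ MulAut.conj a • S → T = ⊥ ∨ T = MulAut.conj a • S := by
      intro a T hT hTn hle
      by_contra hcon
      push Not at hcon
      obtain ⟨h1, h2⟩ := hconj a⁻¹ T hT hTn
      refine hSmin (MulAut.conj a⁻¹ • T) ⟨h1, h2, ?_⟩ (lt_of_le_of_ne ?_ ?_)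
      · intro h
        apply hcon.1
        rwa [map_inv, inv_smul_eq_iff, Subgroup.smul_bot] at h
      · rwa [map_inv, Subgroup.pointwise_smul_subset_iff, inv_inv]
      · intro h
        exact hcon.2 (by rw [← h, ← mul_smul, ← map_mul, mul_inv_cancel, map_one, one_smul])
    have hcomm : ∀ a b : H, MulAut.conj a • S ≠ MulAut.conj b • S →
        ∀ x ∈ MulAut.conj a • S, ∀ y ∈ MulAut.conj b • S, x * y = y * x := by
      intro a b hab x hx y hy
      obtain ⟨haN, han⟩ := hconj a S hSN hSn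
      obtain ⟨hbN, hbn⟩ := hconj b S hSN hSn
      have hint : (MulAut.conj a • S) ⊓ (MulAut.conj b • S) = ⊥ := by
        rcases hmin' a _ (inf_le_left.trans haN)
          (fun n hn s hs => ⟨han n hn s hs.1, hbn n hn s hs.2⟩) inf_le_left with h | h
        · exact h
        rcases hmin' b _ (inf_le_left.trans haN)
          (fun n hn s hs => ⟨han n hn s hs.1, hbn n hn s hs.2⟩) inf_le_right with h' | h'
        · exact h'
        exact absurd (h.symm.trans h') hab
      have hc : x * y * x⁻¹ * y⁻¹ ∈ (MulAut.conj a • S) ⊓ (MulAut.conj b • S) := by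
        refine Subgroup.mem_inf.mpr ⟨?_, ?_⟩
        · rw [show x * y * x⁻¹ * y⁻¹ = x * (y * x⁻¹ * y⁻¹) from by group]
          exact mul_mem hx (han y (hbN hy) _ (inv_mem hx))
        · exact mul_mem (hbn x (haN hx) y hy) (inv_mem hy)
      rw [hint, Subgroup.mem_bot, ← commutatorElement_def,
        commutatorElement_eq_one_iff_mul_comm] at hc
      exact hc
    -- `p` divides the order of `S`
    have hpS : p ∣ Nat.card S := by
      by_contra hp
      set 𝒯 : Set (Subgroup H) := {T | T ≤ N ∧ (∀ n ∈ N, ∀ s ∈ T, n * s * n⁻¹ ∈ T) ∧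
        (Nat.card T).Coprime p} with h𝒯
      have hS𝒯 : S ∈ 𝒯 :=
        ⟨hSN, hSn, Nat.Coprime.symm ((Fact.out : p.Prime).coprime_iff_not_dvd.mpr hp)⟩
      obtain ⟨T, hST, hT⟩ := 𝒯.toFinite.exists_le_maximal hS𝒯
      obtain ⟨⟨hTN, hTn, hTc⟩, hTmax⟩ := hT
      have hTnorm : T.Normal := ⟨fun s hs a => by
        obtain ⟨h1, h2⟩ := hconj a T hTN hTn
        have hcard : Nat.card ↥(MulAut.conj a • T) = Nat.card T :=
          (Nat.card_congr (Subgroup.equivSMul (MulAut.conj a) T).toEquiv).symm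
        have hmem : T ⊔ MulAut.conj a • T ∈ 𝒯 := by
          refine ⟨sup_le hTN h1, ?_, ?_⟩
          · intro n hn s hs
            have hle : T ⊔ MulAut.conj a • T ≤
                (T ⊔ MulAut.conj a • T).comap (MulAut.conj n).toMonoidHom :=
              sup_le (fun t ht => Subgroup.mem_sup_left (hTn n hn t ht))
                (fun t ht => Subgroup.mem_sup_right (h2 n hn t ht))
            exact hle hs
          · haveI : ((MulAut.conj a • T).subgroupOf N).Normal :=
              ⟨fun t ht n => h2 n n.2 t ht⟩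
            have hd := H44.card_sup_dvd_mul (T.subgroupOf N) ((MulAut.conj a • T).subgroupOf N)
            rw [← Subgroup.subgroupOf_sup hTN h1,
              Nat.card_congr (Subgroup.subgroupOfEquivOfLe (sup_le hTN h1)).toEquiv,
              Nat.card_congr (Subgroup.subgroupOfEquivOfLe hTN).toEquiv,
              Nat.card_congr (Subgroup.subgroupOfEquivOfLe h1).toEquiv] at hd
            exact Nat.Coprime.coprime_dvd_left hd (Nat.Coprime.mul_left hTc (hcard ▸ hTc))
        exact hTmax hmem le_sup_left (Subgroup.mem_sup_right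
          (Subgroup.smul_mem_pointwise_smul s (MulAut.conj a) T hs))⟩
      have hle : T ≤ Cfsg.pPrimeCore p H := le_sSup ⟨hTnorm, hTc⟩
      rw [hOp', le_bot_iff] at hle
      exact hS1 (le_bot_iff.mp (hle ▸ hST))
    -- every conjugate of `S` lies in `P`
    have key : ∀ a : H, MulAut.conj a • S ≤ (P : Subgroup H) := by
      intro a
      obtain ⟨b, hb⟩ : ∃ b : H, MulAut.conj a • S ≠ MulAut.conj b • S := by
        refine ⟨a * g, fun h => hg ?_⟩
        rw [map_mul, mul_smul, smul_left_cancel_iff] at h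
        exact h.symm
      have hmeetc : ∀ c : H, (P : Subgroup H) ⊓ MulAut.conj c • S ≠ ⊥ := by
        intro c
        obtain ⟨hcN, hcn⟩ := hconj c S hSN hSn
        haveI : ((MulAut.conj c • S).subgroupOf N).Normal := ⟨fun t ht n => hcn n n.2 t ht⟩
        obtain ⟨Q, hQ⟩ := H44.exists_sylow_eq_subgroupOf P N
        have hp' : p ∣ Nat.card ↥((MulAut.conj c • S).subgroupOf N) := by
          rw [Nat.card_congr (Subgroup.subgroupOfEquivOfLe hcN).toEquiv,
            ← Nat.card_congr (Subgroup.equivSMul (MulAut.conj c) S).toEquiv]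
          exact hpS
        have := H44.inf_sylow_ne_bot_of_normal Q _ hp'
        rw [hQ] at this
        intro h
        exact this (by
          rw [Subgroup.subgroupOf, Subgroup.subgroupOf, ← Subgroup.comap_inf, h,
            MonoidHom.comap_bot, Subgroup.ker_subtype])
      obtain ⟨x, hx, hx1⟩ := ((P : Subgroup H) ⊓ MulAut.conj b • S).bot_or_exists_ne_one.resolve_left
        (hmeetc b)
      have hle : MulAut.conj a • S ≤ Subgroup.normalizer ((P : Subgroup H) : Set H) := fun y hy =>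
        H44.ti_mem_normalizer_of_commute hTI hx.1 hx1 (hcomm a b hb y hy x hx.2)
      obtain ⟨haN, han⟩ := hconj a S hSN hSn
      have := hmin' a ((P : Subgroup H) ⊓ MulAut.conj a • S) (inf_le_right.trans haN) (by
        intro n hn y hy
        obtain ⟨k, hk⟩ := P.isPGroup' ⟨y, hy.1⟩
        have hk' : y ^ p ^ k = 1 := by simpa using congrArg Subtype.val hk
        have hmem := han n hn y hy.2
        exact ⟨H44.mem_sylow_of_mem_normalizer P (hle hmem) (k := k)
          (by rw [conj_pow, hk']; group), hmem⟩) inf_le_right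
      rcases this with h | h
      · exact absurd h (hmeetc a)
      · exact h ▸ inf_le_left
    haveI := H44.pCore_normal' (G := H) p
    let M : Subgroup H := ⨆ a : H, MulAut.conj a • S
    have hMP : M ≤ (P : Subgroup H) := iSup_le key
    have hMn : M.Normal := ⟨fun s hs c => by
      have hle : M ≤ M.comap (MulAut.conj c).toMonoidHom := iSup_le fun a t ht => by
        show c * t * c⁻¹ ∈ M
        refine Subgroup.mem_iSup_of_mem (c * a) ?_
        rw [map_mul, mul_smul]
        exact Subgroup.smul_mem_pointwise_smul t (MulAut.conj c) _ ht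
      exact hle hs⟩
    have hle : M ≤ Cfsg.pCore p H := le_sSup ⟨hMn, P.isPGroup'.to_le hMP⟩
    rw [hOp, le_bot_iff] at hle
    refine hS1 (le_bot_iff.mp ?_)
    rw [← hle]
    exact le_iSup_of_le (1 : H) (by rw [map_one, one_smul])
  · intro Q
    obtain ⟨R, hR⟩ := Sylow.exists_comap_subtype_eq Q
    have hQ1 : (Q : Subgroup N) ≠ ⊥ := Q.ne_bot_of_dvd_card (hdvd N hNn hN1)
    refine ⟨hQ1, fun n hn => ?_⟩
    obtain ⟨g, hg⟩ := MulAction.exists_smul_eq H R P
    by_contra hne
    obtain ⟨x, hx, hx1⟩ := ((Q : Subgroup N) ⊓ _).bot_or_exists_ne_one.resolve_left hne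
    apply hn
    have hmemR : ∀ y : N, y ∈ (Q : Subgroup N) ↔ g * (y : H) * g⁻¹ ∈ (P : Subgroup H) := by
      intro y
      rw [← hR, ← hg, Sylow.coe_subgroup_smul]
      exact (Subgroup.smul_mem_pointwise_smul_iff (a := MulAut.conj g) (x := (y : H))).symm
    obtain ⟨hx1', hx2⟩ := hx
    obtain ⟨z, hz, rfl⟩ := hx2
    have hz' := (hmemR z).mp hz
    have hzn := (hmemR _).mp hx1'
    have hmem := H44.ti_mem_normalizer hTI (g := g * (n : H) * g⁻¹) hz'
      (by convert hzn using 1; simp [MulAut.smul_def, mul_assoc]) (by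
        intro h
        rw [conj_eq_one_iff] at h
        exact hx1 (by rw [show z = 1 from Subtype.ext h]; simp))
    rw [Subgroup.mem_normalizer_iff] at hmem ⊢
    intro y
    rw [hmemR, hmemR, hmem (g * (y : H) * g⁻¹)]
    simp [mul_assoc]

end Cfsg.Agent.S4620
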