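import Cfsg.Statements.S4623
import Cfsg.Agent.H44.SymmetricSylow

set_option autoImplicit false
open Cfsg

namespace Cfsg.Agent.S4623

/-- For every prime p and every n, a Sylow p-subgroup P of the symmetric group on n letters has P/P' elementary abelian (the p-th power of every element of P lies in the derived subgroup of P), and the same holds for a Sylow p-subgroup of the alternating group on n letters. -/
theorem result (p : ℕ) [Fact p.Prime] (n : ℕ) (P : Sylow p (Equiv.Perm (Fin n))) (Q : Sylow p (alternatingGroup (Fin n))) :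
    (∀ x : (P : Subgroup (Equiv.Perm (Fin n))), x ^ p ∈ commutator (P : Subgroup (Equiv.Perm (Fin n)))) ∧
    (∀ x : (Q : Subgroup (alternatingGroup (Fin n))), x ^ p ∈ commutator (Q : Subgroup (alternatingGroup (Fin n)))) := by
  classical
  obtain ⟨W, hcard, hgen, hgenA⟩ := H44.exists_genByOrder_sylow (p := p) n
  have hP : Nat.card (Equiv.Perm (Fin n)) = n.factorial := by
    rw [Nat.card_perm, Nat.card_fin]
  let WS : Sylow p (Equiv.Perm (Fin n)) := Sylow.ofCard W (by
    rw [hcard, hP, Nat.factorization_def _ Fact.out])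
  refine ⟨H44.pow_mem_commutator_of_mulEquiv (WS.equiv P)
    (H44.pow_mem_commutator_of_genByOrder W hgen), ?_⟩
  obtain ⟨R, hR⟩ := H44.exists_sylow_eq_subgroupOf WS (alternatingGroup (Fin n))
  refine H44.pow_mem_commutator_of_mulEquiv (R.equiv Q) ?_
  rw [hR]
  have he : (W ⊓ alternatingGroup (Fin n)).subgroupOf (alternatingGroup (Fin n)) =
      (WS : Subgroup _).subgroupOf (alternatingGroup (Fin n)) :=
    Subgroup.inf_subgroupOf_right _ _
  intro x
  exact H44.pow_mem_commutator_of_mulEquiv
    ((Subgroup.subgroupOfEquivOfLe (inf_le_right :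
      W ⊓ alternatingGroup (Fin n) ≤ alternatingGroup (Fin n))).symm.trans
      (MulEquiv.subgroupCongr he))
    (H44.pow_mem_commutator_of_genByOrder _ hgenA) x

end Cfsg.Agent.S4623
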