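import Cfsg.Statements.S4624
import Cfsg.Agent.H44.SpSylowTwo
import Cfsg.Agent.H6.SylowTwo
-- import your own Cfsg.Agent.* helpers here

set_option autoImplicit false
open Cfsg

namespace Cfsg.Agent.S4624

/-- Let F be a finite field of odd order and n ≥ 1. A Sylow 2-subgroup P of the symplectic group Sp_{2n}(F) has P/P' elementary abelian: the square of every element of P lies in the derived subgroup of P. -/
theorem result {F : Type*} [Field F] [Fintype F] (hF : Odd (Fintype.card F)) (n : ℕ) (hn : 1 ≤ n) (P : Sylow 2 (Matrix.symplecticGroup (Fin n) F)) :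
    ∀ x : (P : Subgroup (Matrix.symplecticGroup (Fin n) F)), x ^ 2 ∈ commutator (P : Subgroup (Matrix.symplecticGroup (Fin n) F)) := by
  classical
  haveI : Fact (Nat.Prime 2) := ⟨Nat.prime_two⟩
  have h2 : (2 : F) ≠ 0 := by
    refine Ring.two_ne_zero fun h => ?_
    have := (FiniteField.even_card_iff_char_two (F := F)).mp h
    rw [Nat.odd_iff] at hF
    omega
  let R : Sylow 2 (Matrix.SpecialLinearGroup (Fin 2) F) := default
  obtain ⟨k, hk, ⟨e⟩⟩ := H6.sylow_two_sl2 rfl h2 R
  exact H44.pow_mem_commutator_of_wreath (H44.SpWreath.base F n) (H44.SpWreath.perm F n)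
    (H44.SpWreath.perm_conj F n) (H44.SpWreath.base_injective F n)
    (H44.SpWreath.perm_injective F n) (H44.SpWreath.eq_one_of_base_eq_perm F n) R
    (H44.pow_mem_commutator_of_mulEquiv e.symm (H44.sq_mem_commutator_quaternion k hk))
    (H44.SpWreath.padic_card F n hF) P

end Cfsg.Agent.S4624
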