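import Cfsg.Statements.S4627
import Cfsg.Agent.H44.GLSylowTwoDet

set_option autoImplicit false
open Cfsg
open Cfsg.Agent.H44 Cfsg.Agent.H44.GLWreath
open Matrix
open scoped Pointwise

namespace Cfsg.Agent.S4627

theorem zmod_two_aux : ∀ a b : ZMod 2, a + (a - b) = b := by decide


theorem genByOrder_sylow {m : ℕ} (W : Sylow 2 (Equiv.Perm (Fin m))) :
    GenByOrder 2 (W : Subgroup (Equiv.Perm (Fin m))) := by
  haveI : Fact (Nat.Prime 2) := ⟨Nat.prime_two⟩
  obtain ⟨W₁, hW₁, hgen₁, -⟩ := exists_genByOrder_sylow (p := 2) m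
  set W₂ : Sylow 2 (Equiv.Perm (Fin m)) := Sylow.ofCard W₁ (by
    rw [hW₁, Nat.card_perm, Nat.card_fin, Nat.factorization_def _ Nat.prime_two])
  obtain ⟨g, hg⟩ := MulAction.exists_smul_eq (Equiv.Perm (Fin m)) W₂ W
  have hW : (W : Subgroup (Equiv.Perm (Fin m))) = W₁.map (MulAut.conj g).toMonoidHom := by
    rw [← hg]
    rfl
  rw [hW]
  show Subgroup.closure _ = _
  conv_rhs => rw [← hgen₁, MonoidHom.map_closure]
  congr 1
  ext x
  constructor
  · rintro ⟨⟨y, hy, rfl⟩, hx⟩
    exact ⟨y, ⟨hy, (MulAut.conj g).injective (by rw [map_one, map_pow]; exact hx)⟩, rfl⟩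
  · rintro ⟨y, ⟨hy, hy2⟩, rfl⟩
    exact ⟨⟨y, hy, rfl⟩, by rw [← map_pow, hy2, map_one]⟩

theorem exists_sylow_gl_two {F : Type*} [Field F] [Fintype F] (hF : Odd (Fintype.card F)) (m : ℕ) [NeZero m]
    (hq : 4 ∣ Fintype.card F + 1 ∨ (4 ∣ Fintype.card F - 1 ∧ ∃ j : ℕ, m = 2 ^ j)) :
    ∃ (R : Sylow 2 (GL (Fin 2) F)) (d : GL (Fin 2) F)
      (W₀ : Sylow 2 (Equiv.Perm (Fin m))), d ∈ R ∧
        (R : Subgroup (GL (Fin 2) F)).map GeneralLinearGroup.det ≤
          Subgroup.zpowers (GeneralLinearGroup.det d) ∧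
        ∀ i : Fin m, d * d = 1 ∨ ∃ τ ∈ W₀, τ 0 = i ∧ τ i = 0  := by
  classical
  haveI : Fact (Nat.Prime 2) := ⟨Nat.prime_two⟩
  have h1 : 1 < Fintype.card F := Fintype.one_lt_card
  rcases hq with hq | ⟨-, j, hj⟩
  · set D : Matrix (Fin 2) (Fin 2) F := Matrix.diagonal ![-1, 1] with hD
    have hDD : D * D = 1 := by
      rw [hD, Matrix.diagonal_mul_diagonal, ← Matrix.diagonal_one]
      congr 1
      funext i
      fin_cases i <;> simp
    set d : GL (Fin 2) F := ⟨D, D, hDD, hDD⟩ with hd'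
    have hdd : d * d = 1 := Units.ext hDD
    have hp : IsPGroup 2 (Subgroup.zpowers d) := by
      rintro ⟨x, k, rfl⟩
      refine ⟨1, Subtype.ext ?_⟩
      show (d ^ k) ^ (2 ^ 1) = 1
      rw [pow_one, sq, ← (Commute.refl d).mul_zpow, hdd, _root_.one_zpow]
    obtain ⟨R, hR⟩ := hp.exists_le_sylow
    obtain ⟨W₀⟩ : Nonempty (Sylow 2 (Equiv.Perm (Fin m))) := inferInstance
    refine ⟨R, d, W₀, hR (Subgroup.mem_zpowers d), ?_, fun i => Or.inl hdd⟩
    intro x hx
    have hdet : GeneralLinearGroup.det d = -1 := by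
      refine Units.ext ?_
      show D.det = -1
      simp [hD, Matrix.det_diagonal]
    obtain ⟨a, ha⟩ := IsPGroup.iff_card.mp (R.isPGroup'.map (GeneralLinearGroup.det (R := F)))
    have hdvd := Subgroup.card_subgroup_dvd_card ((R : Subgroup (GL (Fin 2) F)).map GeneralLinearGroup.det)
    rw [ha, H1.natCard_units rfl] at hdvd
    have ha1 : a ≤ 1 := by
      by_contra h
      have h4 := dvd_trans (pow_dvd_pow 2 (show 2 ≤ a by omega)) hdvd
      omega
    have hx2 : x ^ 2 = 1 := by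
      have := pow_card_eq_one' (x := (⟨x, hx⟩ : (R : Subgroup (GL (Fin 2) F)).map GeneralLinearGroup.det))
      rw [ha] at this
      have h3 : x ^ (2 ^ a) = 1 := congrArg Subtype.val this
      interval_cases a
      · rw [sq]; simp_all
      · simpa using h3
    have hx' : (x : F) * x = 1 := by
      have := congrArg Units.val hx2
      simpa [sq] using this
    rcases mul_self_eq_one_iff.mp hx' with h | h
    · rw [show x = 1 from Units.ext h]; exact one_mem _
    · rw [show x = -1 from Units.ext h, hdet]; exact Subgroup.mem_zpowers _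
  · obtain ⟨R⟩ : Nonempty (Sylow 2 (GL (Fin 2) F)) := inferInstance
    obtain ⟨⟨x, hx⟩, hgen⟩ := IsCyclic.exists_generator
      (α := (R : Subgroup (GL (Fin 2) F)).map GeneralLinearGroup.det)
    obtain ⟨d, hd, rfl⟩ := hx
    -- translations
    let e : Fin m ≃ (Fin j → ZMod 2) :=
      Fintype.equivOfCardEq (by simp [hj])
    let t : Multiplicative (Fin j → ZMod 2) →* Equiv.Perm (Fin m) :=
      { toFun := fun a => (e.trans (Equiv.addRight a.toAdd)).trans e.symm
        map_one' := Equiv.ext fun i => by simp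
        map_mul' := fun a b => Equiv.ext fun i => by
          simp [add_assoc, add_comm b.toAdd] }
    have hp : IsPGroup 2 t.range := by
      have h : IsPGroup 2 (Multiplicative (Fin j → ZMod 2)) :=
        IsPGroup.of_card (n := j) (by simp)
      exact h.of_surjective t.rangeRestrict t.rangeRestrict_surjective
    obtain ⟨W₀, hW₀⟩ := hp.exists_le_sylow
    refine ⟨R, d, W₀, hd, ?_, fun i => Or.inr ⟨t (Multiplicative.ofAdd (e i - e 0)), hW₀ ⟨_, rfl⟩, ?_, ?_⟩⟩
    · intro y hy
      obtain ⟨k, hk⟩ := Subgroup.mem_zpowers_iff.mp (hgen ⟨y, hy⟩)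
      exact ⟨k, congrArg Subtype.val hk⟩
    · simp [t]
    · show e.symm (e i + (e i - e 0)) = 0
      rw [Equiv.symm_apply_eq]
      funext k
      simp only [Pi.add_apply, Pi.sub_apply]
      generalize e i k = a
      generalize e 0 k = b
      exact zmod_two_aux a b

theorem sqDer_sl_two {F : Type*} [Field F] [Fintype F] (h2 : (2 : F) ≠ 0) (R : Sylow 2 (GL (Fin 2) F)) :
    SqDer ((R : Subgroup (GL (Fin 2) F)).comap
      (SpecialLinearGroup.toGL : SpecialLinearGroup (Fin 2) F →* GL (Fin 2) F)) := by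
  classical
  haveI : Fact (Nat.Prime 2) := ⟨Nat.prime_two⟩
  have hc := card_comap_toGL (R : Subgroup (GL (Fin 2) F))
    (by rw [R.card_eq_multiplicity, Nat.factorization_def _ Nat.prime_two])
  set Q : Sylow 2 (SpecialLinearGroup (Fin 2) F) := Sylow.ofCard _
    (hc.trans (by rw [Nat.factorization_def _ Nat.prime_two])) with hQ'
  obtain ⟨k, hk, ⟨φ⟩⟩ := H6.sylow_two_sl2 rfl h2 Q
  exact (sqDer_iff _).mpr (pow_mem_commutator_of_mulEquiv
    (φ.symm.trans (MulEquiv.subgroupCongr (Sylow.coe_ofCard _ _))) (sq_mem_commutator_quaternion k hk))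

/-- Let F be a finite field of odd order q and m ≥ 1. If 4 divides q + 1, or if 4 divides q − 1 and m is a power of 2, then a Sylow 2-subgroup P of SL_{2m}(F) has P/P' elementary abelian: the square of every element of P lies in the derived subgroup of P. -/
theorem result {F : Type*} [Field F] [Fintype F] (hF : Odd (Fintype.card F)) (m : ℕ) (hm : 1 ≤ m)
    (hq : 4 ∣ Fintype.card F + 1 ∨ (4 ∣ Fintype.card F - 1 ∧ ∃ j : ℕ, m = 2 ^ j)) (P : Sylow 2 (Matrix.SpecialLinearGroup (Fin (2 * m)) F)) :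
    ∀ x : (P : Subgroup (Matrix.SpecialLinearGroup (Fin (2 * m)) F)), x ^ 2 ∈ commutator (P : Subgroup (Matrix.SpecialLinearGroup (Fin (2 * m)) F)) := by
  classical
  haveI : Fact (Nat.Prime 2) := ⟨Nat.prime_two⟩
  haveI : NeZero m := ⟨by omega⟩
  have h1 : 1 < Fintype.card F := Fintype.one_lt_card
  have h2 : (2 : F) ≠ 0 := by
    refine Ring.two_ne_zero fun hc => ?_
    rw [FiniteField.even_card_iff_char_two] at hc
    obtain ⟨c, hc'⟩ := hF
    omega
  obtain ⟨R, d, W₀, hd, hdgen, hsq⟩ := exists_sylow_gl_two hF m hq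
  have hQ := sqDer_sl_two h2 R
  -- assembling
  haveI : Nonempty (Fin 2 × Fin m) := ⟨(0, 0)⟩
  have hcardGL : Fintype.card (Fin 2 × Fin m) = 2 * m := by simp
  have hW : Nat.card (wreath (base F m) (perm F m) (R : Subgroup (GL (Fin 2) F)) W₀) =
      2 ^ padicValNat 2 (Nat.card (GL (Fin 2 × Fin m) F)) := by
    rw [card_wreath _ _ (perm_conj F m) (base_injective F m) (perm_injective F m)
      (eq_one_of_base_eq_perm F m), R.card_eq_multiplicity, W₀.card_eq_multiplicity,
      Nat.factorization_def _ Nat.prime_two, Nat.factorization_def _ Nat.prime_two,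
      card_GL_fin F hcardGL, padic_two_mul hF h1, Matrix.card_GL_field, Nat.card_perm,
      Nat.card_fin, pow_add, pow_mul']
  set σ := slReindex F (Fintype.equivFinOfCardEq hcardGL)
  have hsd := sqDer_det (F := F) (m := m) (R : Subgroup (GL (Fin 2) F)) (W₀ : Subgroup (Equiv.Perm (Fin m)))
    (genByOrder_sylow W₀) hQ d hd hdgen hsq
  set X := (wreath (base F m) (perm F m) (R : Subgroup (GL (Fin 2) F)) W₀).comap
    (SpecialLinearGroup.toGL : SpecialLinearGroup (Fin 2 × Fin m) F →* GL (Fin 2 × Fin m) F)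
  have hX : ∀ x : X, x ^ 2 ∈ commutator X :=
    (sqDer_iff X).mp hsd
  have hXm := pow_mem_commutator_of_mulEquiv (p := 2)
    (Subgroup.equivMapOfInjective X σ.toMonoidHom σ.injective) hX
  refine pow_mem_commutator_sylow (X.map σ.toMonoidHom) ?_ hXm P
  rw [← Nat.card_congr (Subgroup.equivMapOfInjective X σ.toMonoidHom σ.injective).toEquiv,
      card_comap_toGL _ hW, Nat.card_congr σ.toEquiv]

end Cfsg.Agent.S4627
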