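import Cfsg.Statements.S4628
import Cfsg.Agent.H44.GLSylowTwo
import Cfsg.Agent.H49.ClassicalTwo

set_option autoImplicit false
open Cfsg
open Cfsg.Agent.H44 Cfsg.Agent.H44.GLWreath

namespace Cfsg.Agent.S4628

/-- Let F be a finite field of odd order q with 4 dividing q + 1, and m ≥ 1. Then a Sylow 2-subgroup P of SL_{2m+1}(F) has P/P' elementary abelian: the square of every element of P lies in the derived subgroup of P. -/
theorem result {F : Type*} [Field F] [Fintype F] (hF : Odd (Fintype.card F)) (hq : 4 ∣ Fintype.card F + 1) (m : ℕ) (hm : 1 ≤ m) (P : Sylow 2 (Matrix.SpecialLinearGroup (Fin (2 * m + 1)) F)) :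
    ∀ x : (P : Subgroup (Matrix.SpecialLinearGroup (Fin (2 * m + 1)) F)), x ^ 2 ∈ commutator (P : Subgroup (Matrix.SpecialLinearGroup (Fin (2 * m + 1)) F)) := by
  classical
  haveI : Fact (Nat.Prime 2) := ⟨Nat.prime_two⟩
  have h1 : 1 < Fintype.card F := Fintype.one_lt_card
  have he : Fintype.card ((Fin 2 × Fin m) ⊕ Unit) = 2 * m + 1 := by simp
  set e := slReindex F (Fintype.equivFinOfCardEq he) with hedef
  set j : GL (Fin 2 × Fin m) F →* Matrix.SpecialLinearGroup (Fin (2 * m + 1)) F :=
    e.toMonoidHom.comp (corner F _) with hj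
  have hji : Function.Injective j := e.injective.comp (corner_injective F _)
  have hcard : padicValNat 2 (Nat.card (Matrix.SpecialLinearGroup (Fin (2 * m + 1)) F)) =
      m * padicValNat 2 (Nat.card (GL (Fin 2) F)) + padicValNat 2 m.factorial := by
    rw [Matrix.card_GL_field, ← padic_two_mul hF h1]
    have h := congrArg (padicValNat 2)
      (H1.sub_one_mul_card_SL (F := F) rfl (2 * m + 1) (by omega))
    rw [padicValNat.mul (by omega) Nat.card_pos.ne', padic_succ hF h1,
      padic_odd_pow_sub_one hF h1] at h
    omega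
  obtain ⟨R⟩ : Nonempty (Sylow 2 (GL (Fin 2) F)) := inferInstance
  exact pow_mem_commutator_of_wreath (j.comp (base F m)) (j.comp (perm F m))
    (fun π f => by
      simp only [MonoidHom.comp_apply]
      rw [← perm_conj, map_mul, map_mul, map_inv])
    (hji.comp (base_injective F m)) (hji.comp (perm_injective F m))
    (fun f π h => eq_one_of_base_eq_perm F m f π (hji h)) R
    (sq_mem_commutator_quasiDihedral (H49.GL_two_quasiDihedral R (by obtain ⟨c, hc⟩ := hq; omega)))
    hcard P

end Cfsg.Agent.S4628
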