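import Cfsg.Statements.S4631
import Cfsg.Agent.H9.SylowOrth.Standard

set_option autoImplicit false
open Cfsg

namespace Cfsg.Agent.S4631

/-- Let F be a finite field of odd order, m ≥ 4, and a, b ∈ F with z₁² + a z₁ z₂ + b z₂² anisotropic. For the commutator subgroup Ω of the isometry group of the minus-type quadratic form Σ_{i<m−1} x_i y_i + (z₁² + a z₁ z₂ + b z₂²) in dimension 2m over F, a Sylow 2-subgroup P of Ω has P/P' elementary abelian: the square of every element of P lies in the derived subgroup of P. -/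
theorem result {F : Type*} [Field F] [Fintype F] (hF : Odd (Fintype.card F)) (m : ℕ) (hm : 4 ≤ m) (a b : F) (hab : ∀ z₁ z₂ : F, z₁ ^ 2 + a * z₁ * z₂ + b * z₂ ^ 2 = 0 → z₁ = 0 ∧ z₂ = 0) (P : Sylow 2 (Cfsg.Omega F (Cfsg.quadFormMinus (m - 1) F a b))) : ∀ x : (P : Subgroup (Cfsg.Omega F (Cfsg.quadFormMinus (m - 1) F a b))), x ^ 2 ∈ commutator (P : Subgroup (Cfsg.Omega F (Cfsg.quadFormMinus (m - 1) F a b))) := by
  exact H9.SylowOrth.omega_minus rfl hF (by omega) hab P

end Cfsg.Agent.S4631
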