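import Cfsg.Statements.S4641
import Cfsg.Agent.H41.BrauerBlock

set_option autoImplicit false
open Cfsg

namespace Cfsg.Agent.S4641

/-- Let B be a block of the finite group G relative to a maximal ideal M of the algebraic integers containing the prime p, let p^a be the p-part of the order of G and p^d the order of a defect group D of B, and let g be the greatest common divisor of the degrees of the members of B. Then the p-part of g is exactly p^(a−d), and writing g = p^(a−d)·u there is a positive integer v, prime to p and at least the p-regular rank of B (its number of irreducible Brauer characters), with Σ_{χ ∈ B} χ(1)² = p^(2a−d)·u²·v. -/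
theorem result {G : Type*} [Group G] [Finite G] (p : ℕ) [Fact p.Prime] (M : Ideal Cfsg.AlgInt) (hM : Cfsg.IsPModular p M) (B : Set (Cfsg.IrrCharacter G)) (hB : Cfsg.IsPBlock M B) (D : Subgroup G) (hD : Cfsg.IsDefectGroup p M B D) (a d : ℕ) (ha : (Nat.card G).factorization p = a) (hd : Nat.card D = p ^ d) (g : ℕ) (hg1 : ∀ χ ∈ B, g ∣ Cfsg.charDegree (χ : G → ℂ)) (hg2 : ∀ g' : ℕ, (∀ χ ∈ B, g' ∣ Cfsg.charDegree (χ : G → ℂ)) → g' ∣ g) : g.factorization p = a - d ∧ ∃ v : ℕ, 0 < v ∧ ¬ p ∣ v ∧ Cfsg.blockRank p B ≤ v ∧ ∑ᶠ χ ∈ B, Cfsg.charDegree (χ : G → ℂ) ^ 2 = p ^ (2 * a - d) * (g / p ^ (a - d)) ^ 2 * v := by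
  classical
  haveI := hM.2.1
  haveI := Fintype.ofFinite G
  have hpp : p.Prime := Fact.out
  have hdef : Cfsg.blockDefect p B = d :=
    Nat.pow_right_injective hpp.two_le ((H40.card_defectGroup hM hB hD).symm.trans hd)
  obtain ⟨ψ, hψ, -, hψa⟩ := H42.exists_height_zero (p := p) hB
  rw [hdef, ha] at hψa
  have hψ0 : Cfsg.charDegree (ψ : G → ℂ) ≠ 0 := (H42.charDegree_pos ψ).ne'
  have hg0 : g ≠ 0 := fun h => hψ0 (Nat.eq_zero_of_zero_dvd (h ▸ hg1 ψ hψ))
  have hpg : p ^ (a - d) ∣ g := hg2 _ fun χ hχ => by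
    refine (hpp.pow_dvd_iff_le_factorization (H42.charDegree_pos χ).ne').2 ?_
    have := H40.sub_blockDefect_le hM hB hχ
    rwa [hdef, ha] at this
  have hgfac : g.factorization p = a - d := by
    refine le_antisymm ?_ ((hpp.pow_dvd_iff_le_factorization hg0).1 hpg)
    have := (Nat.factorization_le_iff_dvd hg0 hψ0).2 (hg1 ψ hψ) p
    omega
  refine ⟨hgfac, ?_⟩
  set u := g / p ^ (a - d) with hu
  have hgu : p ^ (a - d) * u = g := Nat.mul_div_cancel' hpg
  have hpu : ¬ p ∣ u := by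
    rw [hu, ← hgfac]
    exact Nat.not_dvd_ordCompl hpp hg0
  have hcop : ∀ k, Nat.Coprime (p ^ k) u := fun k =>
    Nat.Coprime.pow_left _ (hpp.coprime_iff_not_dvd.2 hpu)
  have hsum : ∑ᶠ χ ∈ B, Cfsg.charDegree (χ : G → ℂ) ^ 2 =
      ∑ χ ∈ Finset.univ.filter (· ∈ B), Cfsg.charDegree (χ : G → ℂ) ^ 2 := by
    rw [finsum_mem_eq_finite_toFinset_sum _ (Set.toFinite _)]
    exact Finset.sum_congr (by ext; simp) fun _ _ => rfl
  rw [hsum]
  set S := ∑ χ ∈ Finset.univ.filter (· ∈ B), Cfsg.charDegree (χ : G → ℂ) ^ 2 with hS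
  have hS0 : 0 < S := Finset.sum_pos' (fun _ _ => Nat.zero_le _)
    ⟨ψ, by simpa using hψ, pow_pos (H42.charDegree_pos ψ) 2⟩
  have hSfac : S.factorization p = 2 * a - d := by
    rw [hS, ← ha, ← hdef, ← H42.factorization_sum_sq_degree hM hB]
    exact congrArg (fun n : ℕ => n.factorization p)
      (Finset.sum_congr (by ext; simp [H42.blockFinset]) fun _ _ => rfl)
  have hgS : g ^ 2 ∣ S :=
    Finset.dvd_sum fun χ hχ => pow_dvd_pow_of_dvd (hg1 χ (Finset.mem_filter.1 hχ).2) 2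
  have hmS : p ^ (2 * a - d) * u ^ 2 ∣ S := ((hcop _).pow_right 2).mul_dvd_of_dvd_of_dvd
    (hSfac ▸ Nat.ordProj_dvd _ _) ((pow_dvd_pow_of_dvd (Dvd.intro_left _ hgu) 2).trans hgS)
  obtain ⟨v, hv⟩ := hmS
  refine ⟨v, Nat.pos_of_ne_zero fun h => hS0.ne' (by rw [hv, h, mul_zero]), fun h => ?_, ?_, hv⟩
  · have h1 : p ^ (2 * a - d + 1) ∣ S := by
      rw [hv, pow_succ, mul_assoc]
      exact mul_dvd_mul_left _ (h.mul_left _)
    rw [hpp.pow_dvd_iff_le_factorization hS0.ne', hSfac] at h1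
    omega
  · have h1 := H41.BrauerChar.blockRank_mul_le hM hB g hg1
    rw [ha, ← hS] at h1
    have hl : p ^ a * u ≤ Nat.lcm g (p ^ a) := Nat.le_of_dvd
      (Nat.pos_of_ne_zero (Nat.lcm_ne_zero hg0 (pow_ne_zero _ hpp.ne_zero)))
      ((hcop a).mul_dvd_of_dvd_of_dvd (Nat.dvd_lcm_right _ _)
        ((Dvd.intro_left _ hgu).trans (Nat.dvd_lcm_left _ _)))
    have h2 : Cfsg.blockRank p B * (p ^ (2 * a - d) * u ^ 2) ≤ S := by
      refine le_trans (le_of_eq ?_) ((Nat.mul_le_mul_left _ (Nat.mul_le_mul_right g hl)).trans h1)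
      rw [show 2 * a - d = a + (a - d) by omega, pow_add, ← hgu]
      ring
    rw [hv, mul_comm _ v] at h2
    exact Nat.le_of_mul_le_mul_right h2
      (Nat.mul_pos (pow_pos hpp.pos _) (pow_pos (Nat.pos_of_ne_zero fun h => hpu (by rw [h]; exact dvd_zero p)) 2))

end Cfsg.Agent.S4641
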