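import Cfsg.Statements.S4689
import Cfsg.Agent.H40.StarIntComb
import Cfsg.Agent.H40.Defect

set_option autoImplicit false
open Cfsg

namespace Cfsg.Agent.S4689

/-- Fix a prime p and a maximal ideal M of the algebraic integers containing p, and a nilpotent p-block B of the finite group G. Then B has p-regular rank one (a single irreducible Brauer character), and some χ₀ ∈ B restricts to that Brauer character: every χ ∈ B agrees on the p-regular elements with a natural-number multiple of χ₀. -/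
theorem result {G : Type*} [Group G] [Fintype G] (p : ℕ) [Fact p.Prime] (M : Ideal Cfsg.AlgInt) (hM : Cfsg.IsPModular p M) (B : Set (Cfsg.IrrCharacter G)) (hnil : Cfsg.IsNilpotentBlock p M B) : Cfsg.blockRank p B = 1 ∧ ∃ χ₀ ∈ B, ∀ χ ∈ B, ∃ d : ℕ, ∀ x : G, Cfsg.pRegularPart p (χ : G → ℂ) x = (d : ℂ) * Cfsg.pRegularPart p (χ₀ : G → ℂ) x := by
  classical
  have := hM.2.1
  have := Cfsg.Agent.H41.IsPModular.charP hM
  obtain ⟨P, hP⟩ := Cfsg.Agent.H40.exists_isDefectGroup hM hnil.1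
  obtain ⟨e, hm⟩ := Cfsg.Agent.H40.NilpotentBlocks.exists_isMaxEl_of_defect hM hnil.1 hP
  have : Fintype P := Fintype.ofFinite P
  obtain ⟨χ, hχ, h0, -⟩ := Cfsg.Agent.H42.exists_height_zero (p := p) hnil.1
  obtain ⟨Φ, hreg, -⟩ := Cfsg.Agent.H40.NilpotentBlocks.exists_equiv hnil hm
    (Cfsg.Agent.H40.NilpotentBlocks.starInt hM hnil.1 hm) hM hP hχ h0
  have key : ∀ ψ ∈ B, ∃ d : ℕ, ∀ x : G, Cfsg.pRegularPart p (ψ : G → ℂ) x =
      (d : ℂ) * Cfsg.pRegularPart p (χ : G → ℂ) x := by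
    intro ψ hψ
    refine ⟨Cfsg.charDegree ((Φ ⟨ψ, hψ⟩ : Cfsg.IrrCharacter P) : P → ℂ), fun x => ?_⟩
    by_cases hx : p ∣ orderOf x
    · simp [Cfsg.pRegularPart, Cfsg.IsPRegular, hx]
    · simp only [Cfsg.pRegularPart, Cfsg.IsPRegular, hx, not_false_eq_true, if_true]
      exact hreg ⟨ψ, hψ⟩ x hx
  refine ⟨?_, χ, hχ, key⟩
  have hne : Cfsg.pRegularPart p (χ : G → ℂ) ≠ 0 := by
    intro h
    have h1 := congrFun h 1
    rw [Cfsg.pRegularPart, if_pos (by
      rw [Cfsg.IsPRegular, orderOf_one]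
      exact (Fact.out : p.Prime).not_dvd_one)] at h1
    exact Cfsg.Agent.H26.irr_one_ne_zero χ h1
  have hspan : Submodule.span ℂ ((fun χ : Cfsg.IrrCharacter G => Cfsg.pRegularPart p (χ : G → ℂ)) '' B) =
      Submodule.span ℂ {Cfsg.pRegularPart p (χ : G → ℂ)} := by
    refine le_antisymm (Submodule.span_le.2 ?_)
      (Submodule.span_le.2 (Set.singleton_subset_iff.2 (Submodule.subset_span ⟨χ, hχ, rfl⟩)))
    rintro _ ⟨ψ, hψ, rfl⟩
    obtain ⟨d, hd⟩ := key ψ hψ
    refine Submodule.mem_span_singleton.2 ⟨(d : ℂ), ?_⟩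
    funext x
    exact (hd x).symm
  rw [Cfsg.blockRank, hspan, finrank_span_singleton hne]

end Cfsg.Agent.S4689
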