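import Cfsg.Statements.S4697
import Cfsg.Agent.H31.RankTwo.Main
import Cfsg.Agent.H31.RankTwo.Info

set_option autoImplicit false
open Cfsg

namespace Cfsg.Agent.S4697

/-- Let p be a prime, M a maximal ideal of the algebraic integers containing p, and B a p-block of the finite group G with an abelian defect group D of order p^d. If D has rank 2 (its least number of generators is 2) then B contains at most p^d irreducible characters; if D has rank 3 then the number k of irreducible characters in B satisfies k^3 ≤ p^(5d). -/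
theorem result {G : Type*} [Group G] [Finite G] (p : ℕ) [Fact p.Prime] (M : Ideal Cfsg.AlgInt) (hM : Cfsg.IsPModular p M) (B : Set (Cfsg.IrrCharacter G)) (hB : Cfsg.IsPBlock M B) (D : Subgroup G) (hBD : Cfsg.IsDefectGroup p M B D) (hab : IsMulCommutative D) (d : ℕ) (hDd : Nat.card D = p ^ d) : (Group.rank D = 2 → Nat.card B ≤ p ^ d) ∧ (Group.rank D = 3 → Nat.card B ^ 3 ≤ p ^ (5 * d)) := by
  classical
  have habG : ∀ a ∈ D, ∀ c ∈ D, a * c = c * a := fun a ha c hc =>
    congrArg Subtype.val (hab.is_comm.comm (⟨a, ha⟩ : D) ⟨c, hc⟩)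
  have hcyc := H31.RankTwo.cyclicInfo hM
  letI : CommGroup D := { (inferInstance : Group D) with mul_comm := hab.is_comm.comm }
  obtain ⟨S, hScard, hS⟩ := Group.rank_spec D
  constructor
  · intro hr
    rw [hr] at hScard
    obtain ⟨s, t, -, rfl⟩ := Finset.card_eq_two.1 hScard
    rw [← hDd]
    refine H31.RankTwo.card_le_of_two_gen hM hcyc hB hBD habG (y := (s : G)) (x := (t : G)) s.2 ?_ t.2
    intro d hd
    have h : (⟨d, hd⟩ : D) ∈ Subgroup.zpowers s ⊔ Subgroup.zpowers t := by
      refine (Subgroup.closure_le _).2 ?_ (hS ▸ Subgroup.mem_top _)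
      rw [Finset.coe_pair]
      rintro _ (rfl | rfl)
      exacts [Subgroup.mem_sup_left (Subgroup.mem_zpowers _),
        Subgroup.mem_sup_right (Subgroup.mem_zpowers _)]
    have h' := Subgroup.mem_map_of_mem D.subtype h
    rwa [Subgroup.map_sup, MonoidHom.map_zpowers, MonoidHom.map_zpowers] at h'
  · intro hr
    rw [hr] at hScard
    obtain ⟨s₀, t₀, u₀, -, -, -, rfl⟩ := Finset.card_eq_three.1 hScard
    obtain ⟨s, t, u, hmax1, hmax2, hgen⟩ : ∃ s t u : D, orderOf t ≤ orderOf s ∧
        orderOf u ≤ orderOf s ∧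
        ({s₀, t₀, u₀} : Set D) ⊆ (({s, t, u} : Set D)) := by
      rcases le_total (orderOf t₀) (orderOf s₀) with h1 | h1 <;>
        rcases le_total (orderOf u₀) (orderOf s₀) with h2 | h2 <;>
        rcases le_total (orderOf u₀) (orderOf t₀) with h3 | h3
      all_goals first
        | exact ⟨s₀, t₀, u₀, h1, h2, subset_refl _⟩
        | exact ⟨t₀, s₀, u₀, by omega, by omega, by intro x; simp; tauto⟩
        | exact ⟨u₀, s₀, t₀, by omega, by omega, by intro x; simp; tauto⟩
    have htop : Subgroup.zpowers s ⊔ Subgroup.zpowers t ⊔ Subgroup.zpowers u = ⊤ := by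
      refine top_le_iff.1 (hS ▸ (Subgroup.closure_le _).2 ?_)
      intro x hx
      simp only [Finset.coe_insert, Finset.coe_singleton] at hx
      rcases hgen hx with rfl | rfl | rfl
      exacts [Subgroup.mem_sup_left (Subgroup.mem_sup_left (Subgroup.mem_zpowers _)),
        Subgroup.mem_sup_left (Subgroup.mem_sup_right (Subgroup.mem_zpowers _)),
        Subgroup.mem_sup_right (Subgroup.mem_zpowers _)]
    have hord : Nat.card D ≤ orderOf s ^ 3 := by
      have hsur : Function.Surjective (fun z : Subgroup.zpowers s × Subgroup.zpowers t ×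
          Subgroup.zpowers u => (z.1 : D) * z.2.1 * z.2.2) := by
        intro x
        obtain ⟨a, ha, c, hc, rfl⟩ := Subgroup.mem_sup.1 (htop ▸ Subgroup.mem_top x :
          x ∈ Subgroup.zpowers s ⊔ Subgroup.zpowers t ⊔ Subgroup.zpowers u)
        obtain ⟨a₁, ha₁, a₂, ha₂, rfl⟩ := Subgroup.mem_sup.1 ha
        exact ⟨(⟨a₁, ha₁⟩, ⟨a₂, ha₂⟩, ⟨c, hc⟩), rfl⟩
      refine (Nat.card_le_card_of_surjective _ hsur).trans ?_
      rw [Nat.card_prod, Nat.card_prod, Nat.card_zpowers, Nat.card_zpowers, Nat.card_zpowers,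
        show orderOf s ^ 3 = orderOf s * (orderOf s * orderOf s) by ring]
      exact Nat.mul_le_mul_left _ (Nat.mul_le_mul hmax1 hmax2)
    rw [show p ^ (5 * d) = Nat.card D ^ 5 by rw [hDd, ← pow_mul, mul_comm]]
    refine H31.RankTwo.cube_card_le_of_three_gen hM hcyc hB hBD habG (y := (s : G)) (x := (t : G))
      (w := (u : G)) s.2 t.2 u.2 ?_ (by rwa [Subgroup.orderOf_coe])
    intro d hd
    have h' := Subgroup.mem_map_of_mem D.subtype (htop ▸ Subgroup.mem_top (⟨d, hd⟩ : D) :
      (⟨d, hd⟩ : D) ∈ Subgroup.zpowers s ⊔ Subgroup.zpowers t ⊔ Subgroup.zpowers u)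
    rwa [Subgroup.map_sup, Subgroup.map_sup, MonoidHom.map_zpowers, MonoidHom.map_zpowers,
      MonoidHom.map_zpowers] at h'

end Cfsg.Agent.S4697
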