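import Cfsg.Statements.S4711
import Cfsg.Agent.H41.PLengthOneMain
import Cfsg.Agent.H53.Cores

set_option autoImplicit false
open Cfsg

namespace Cfsg.Agent.S4711

/-- Let p be a prime, M a maximal ideal of the algebraic integers containing p, G a finite group, P a Sylow p-subgroup and N = N_G(P). Then G has p-length 1 (G = O_{p',p,p'}(G)) if and only if every irreducible character in the principal p-block of G restricts to an irreducible character of N. -/
theorem result {G : Type*} [Group G] [Finite G] (p : ℕ) [Fact p.Prime] (M : Ideal Cfsg.AlgInt) (hM : Cfsg.IsPModular p M) (P : Sylow p G) : Cfsg.PLengthLE p 1 G ↔ ∀ χ ∈ Cfsg.principalBlock M G, Cfsg.IsIrrCharacter ↥(Subgroup.normalizer ((P : Subgroup G) : Set G)) (fun n : ↥(Subgroup.normalizer ((P : Subgroup G) : Set G)) => (χ : G → ℂ) n) := by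
  classical
  haveI := Fintype.ofFinite G
  refine ⟨fun hpl χ hχ => ?_, fun h => H41.PLengthOne.Data.pLengthLE (M := M)
    (P := (P : Subgroup G)) ⟨hM, ⟨P, rfl⟩, rfl, h⟩⟩
  set O := Cfsg.pPrimeCore p G with hO
  haveI : O.Normal := H19.pPrimeCore_normal p G
  have hO' : ¬ p ∣ Nat.card O :=
    (Fact.out : p.Prime).coprime_iff_not_dvd.1 (H19.pPrimeCore_coprime (G := G) p).symm
  obtain ⟨η, hη⟩ := H44.exists_eq_inflate O χ fun g hg => by
    have := H41.mul_eq_of_mem_principalBlock hM O hO' hχ hg 1
    rw [one_mul] at this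
    exact H44.mem_kerOf.2 this
  have htop := (H53.normalizer_sylow_sup_pPrimeCore hpl P).2.2
  set N := Subgroup.normalizer ((P : Subgroup G) : Set G)
  have hsurj : Function.Surjective ((QuotientGroup.mk' O).comp N.subtype) := fun q => by
    obtain ⟨g, rfl⟩ := QuotientGroup.mk'_surjective O q
    obtain ⟨a, ha, b, hb, rfl⟩ := Subgroup.mem_sup_of_normal_left.1
      (htop ▸ Subgroup.mem_top g : g ∈ O ⊔ N)
    refine ⟨⟨b, hb⟩, ?_⟩
    simpa using (QuotientGroup.eq_one_iff a).2 ha
  have := H44.isIrrCharacter_comp_surjective _ hsurj η.2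
  rw [← hη]
  exact this

end Cfsg.Agent.S4711
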