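import Cfsg.Statements.S4712
import Cfsg.Agent.H41.BrauerTwist

set_option autoImplicit false
open Cfsg

namespace Cfsg.Agent.S4712

/-- Let p be an odd prime, M a maximal ideal of the algebraic integers containing p, G a finite group of order n with p-part p^a, and B a p-block of G. Call an irreducible character χ p-rational when χ(g^k) = χ(g) for every g and every k coprime to n with k ≡ 1 modulo n/p^a (χ is fixed by the Galois automorphisms fixing the roots of unity of order prime to p). Then the number of p-rational irreducible characters in B is at least the p-regular rank of B (the number of irreducible Brauer characters in B). -/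
theorem result {G : Type*} [Group G] [Finite G] (p : ℕ) [Fact p.Prime] (hodd : p ≠ 2) (M : Ideal Cfsg.AlgInt) (hM : Cfsg.IsPModular p M) (B : Set (Cfsg.IrrCharacter G)) (hB : Cfsg.IsPBlock M B) : Cfsg.blockRank p B ≤ Nat.card {χ : Cfsg.IrrCharacter G // χ ∈ B ∧ ∀ k : ℕ, Nat.Coprime k (Nat.card G) → k ≡ 1 [MOD Nat.card G / p ^ (Nat.card G).factorization p] → ∀ g : G, (χ : G → ℂ) (g ^ k) = (χ : G → ℂ) g} := by
  classical
  haveI := Fintype.ofFinite G
  have hp : p.Prime := Fact.out
  set n := Nat.card G with hn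
  set a := n.factorization p with ha
  set m := n / p ^ a with hm
  have hn0 : n ≠ 0 := Nat.card_pos.ne'
  have hnm : p ^ a * m = n := Nat.ordProj_mul_ordCompl_eq_self n p
  have hcop : (p ^ a).Coprime m :=
    Nat.Coprime.pow_left _ ((hp.coprime_iff_not_dvd).2 (Nat.not_dvd_ordCompl hp hn0))
  haveI : NeZero (p ^ a) := ⟨pow_ne_zero _ hp.ne_zero⟩
  haveI := ZMod.isCyclic_units_of_prime_pow p hp hodd a
  obtain ⟨u, hu⟩ := IsCyclic.exists_generator (α := (ZMod (p ^ a))ˣ)
  obtain ⟨k, hka, hkm⟩ := Nat.chineseRemainder hcop (u : ZMod (p ^ a)).val 1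
  have hk : k.Coprime n := by
    rw [← hnm, Nat.coprime_mul_iff_right]
    constructor
    · rw [Nat.Coprime, hka.gcd_eq]
      exact ZMod.val_coe_unit_coprime u
    · rw [Nat.Coprime, hkm.gcd_eq, Nat.gcd_one_left]
  refine (H41.BrauerChar.blockRank_le_fixed hM hB hk hkm).trans
    (Nat.card_le_card_of_injective
      (fun χ => ⟨χ.1, χ.2.1, fun k' hk' hk'1 g => ?_⟩) fun _ _ h => ?_)
  · have hk'a : k'.Coprime (p ^ a) :=
      hk'.coprime_dvd_right (hnm ▸ dvd_mul_right _ _)
    obtain ⟨j, hj⟩ := mem_powers_iff_mem_zpowers.2 (hu (ZMod.unitOfCoprime k' hk'a))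
    have hmod : k ^ j ≡ k' [MOD n] := by
      rw [← hnm, ← Nat.modEq_and_modEq_iff_modEq_mul hcop]
      refine ⟨?_, ?_⟩
      · rw [← ZMod.natCast_eq_natCast_iff, Nat.cast_pow,
          (ZMod.natCast_eq_natCast_iff _ _ _).2 hka, ZMod.natCast_zmod_val,
          ← Units.val_pow_eq_pow_val, show u ^ j = ZMod.unitOfCoprime k' hk'a from hj]
        rfl
      · exact ((hkm.pow j).trans (by rw [one_pow])).trans hk'1.symm
    rw [← pow_eq_pow_iff_modEq.2 (hmod.of_dvd (orderOf_dvd_natCard g))]
    have hfix : ∀ i : ℕ, (χ.1 : G → ℂ) (g ^ k ^ i) = (χ.1 : G → ℂ) g := by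
      intro i
      induction i with
      | zero => simp
      | succ i ih => rw [pow_succ, pow_mul, χ.2.2, ih]
    exact hfix j
  · exact Subtype.ext (congrArg Subtype.val h :)

end Cfsg.Agent.S4712
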