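import Cfsg.Statements.S4741
import Cfsg.Agent.H42.SeparatedClasses
-- import your own Cfsg.Agent.* helpers here

set_option autoImplicit false
open Cfsg

namespace Cfsg.Agent.S4741

set_option synthInstance.maxHeartbeats 400000 in
set_option maxHeartbeats 1000000 in
/-- Let p be a prime, M a maximal ideal of the algebraic integers containing p, and D a subgroup of the finite group G. Let x₁, …, x_r be pairwise non-conjugate elements of G such that D is a Sylow p-subgroup of the centralizer of each xᵢ, and such that for any conjugates g of some xᵢ and h of some xⱼ the element g h⁻¹ is never a non-identity p-element. Then there are r distinct p-blocks B₁, …, B_r of G, each having D as a defect group, such that for every choice of characters χᵢ ∈ Bᵢ of height zero the determinant of the r × r matrix (χᵢ(xⱼ)) does not lie in the local ideal at M. -/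
theorem result {G : Type*} [Group G] [Finite G] (p : ℕ) [Fact p.Prime] (M : Ideal Cfsg.AlgInt) (hM : Cfsg.IsPModular p M) (D : Subgroup G) {r : ℕ} (x : Fin r → G) (hx : ∀ i j : Fin r, IsConj (x i) (x j) → i = j) (hD : ∀ i : Fin r, ∃ S : Sylow p ↥(Subgroup.centralizer ({x i} : Set G)), (S : Subgroup ↥(Subgroup.centralizer ({x i} : Set G))).map (Subgroup.centralizer ({x i} : Set G)).subtype = D) (hsep : ∀ i j : Fin r, ∀ g h : G, IsConj (x i) g → IsConj (x j) h → ∀ k : ℕ, 0 < k → orderOf (g * h⁻¹) ≠ p ^ k) : ∃ B : Fin r → Set (Cfsg.IrrCharacter G), Function.Injective B ∧ (∀ i : Fin r, Cfsg.IsPBlock M (B i) ∧ Cfsg.IsDefectGroup p M (B i) D) ∧ ∀ χ : Fin r → Cfsg.IrrCharacter G, (∀ i : Fin r, χ i ∈ B i ∧ Cfsg.blockHeight p (B i) (χ i : G → ℂ) = 0) → ¬ Cfsg.MemLocalIdeal M (Matrix.det (Matrix.of fun i j : Fin r => (χ i : G → ℂ) (x j))) := by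
  classical
  have := hM.2.1
  have := Fintype.ofFinite G
  have hp : p.Prime := Fact.out
  obtain ⟨P⟩ : Nonempty (Sylow p G) := inferInstance
  have := Fintype.ofFinite (P : Subgroup G)
  have hDs : ∀ j, Cfsg.Agent.H23.IsSylowIn p D (Subgroup.centralizer ({x j} : Set G)) := fun j =>
    Cfsg.Agent.H40.isSylowIn_iff_exists.2 (hD j)
  set a := (Nat.card G).factorization p with ha
  set d := D.carrier.ncard.factorization p with hd
  have hdj : ∀ j, (Nat.card (Subgroup.centralizer ({x j} : Set G))).factorization p = d ∧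
      Nat.card D = p ^ d := by
    intro j
    have h := Cfsg.Agent.H40.card_isSylowIn (hDs j)
    have hc : D.carrier.ncard = Nat.card D := (Nat.card_coe_set_eq _).symm
    rw [hd, hc, h, hp.factorization_pow, Finsupp.single_eq_same]
    exact ⟨rfl, rfl⟩
  have hidxj : ∀ j, (Subgroup.centralizer ({x j} : Set G)).index.factorization p + d = a := by
    intro j
    rw [← (hdj j).1, add_comm]
    exact Cfsg.Agent.H42.centralizer_factorization_add_index p (x j)
  let U := Cfsg.Agent.H42.omegaVec M x
  -- characters with a non-zero vector of small degree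
  let S : Set (Cfsg.IrrCharacter G) :=
    {χ | (Cfsg.charDegree (χ : G → ℂ)).factorization p + d = a}
  have hspan : Submodule.span (Cfsg.Agent.H41.ResField M) (U '' S) = ⊤ := by
    refine top_unique ?_
    rw [← (Pi.basisFun (Cfsg.Agent.H41.ResField M) (Fin r)).span_eq, Submodule.span_le]
    rintro _ ⟨i, rfl⟩
    rw [SetLike.mem_coe, Pi.basisFun_apply]
    set w := Nat.card G / p ^ a with hw
    have hwp : ¬ p ∣ w := Nat.not_dvd_ordCompl hp Nat.card_pos.ne'
    choose m hm using fun χ : Cfsg.IrrCharacter G => Cfsg.Agent.H26.exists_nat_classInner_irr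
      (Cfsg.Agent.H26.isCharacter_comp (Cfsg.Agent.H26.irr_isCharacter χ) (P : Subgroup G).subtype)
      (Cfsg.Agent.H26.oneIrr (P : Subgroup G))
    let coef : Cfsg.IrrCharacter G → Cfsg.Agent.H41.localRing M := fun χ =>
      ⟨_, Cfsg.Agent.H40.irr_mem_localRing χ (x i)⁻¹⟩ * (m χ : Cfsg.Agent.H41.localRing M)
    have key : (w : Cfsg.Agent.H41.ResField M) • Pi.single i (1 : Cfsg.Agent.H41.ResField M) =
        ∑ χ : Cfsg.IrrCharacter G, Cfsg.Agent.H41.res M (coef χ) • U χ := by
      funext j
      let om : Cfsg.IrrCharacter G → Cfsg.Agent.H41.localRing M := fun χ =>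
        Cfsg.Agent.H41.omegaLoc M χ
          (Cfsg.Agent.H41.classSumZ (Cfsg.Agent.H41.localRing M) (x j))
      have hC : ∑ χ : Cfsg.IrrCharacter G, coef χ * om χ =
          if i = j then (w : Cfsg.Agent.H41.localRing M) else 0 := by
        refine Subtype.ext ?_
        rw [AddSubmonoidClass.coe_finsetSum]
        have h := Cfsg.Agent.H42.sum_separated x hx hsep P i j
        rw [← ha, ← hw] at h
        refine Eq.trans (Finset.sum_congr rfl fun χ _ => ?_) (h.trans ?_)
        · simp only [coef, om, Subring.coe_mul, SubringClass.coe_natCast,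
            Cfsg.Agent.H41.coe_omegaLoc_classSumZ]
          rw [← hm χ, Cfsg.Agent.H26.irr_inv]
          rfl
        · split_ifs <;> simp
      have h2 := congrArg (Cfsg.Agent.H41.res M) hC
      rw [map_sum] at h2
      simp only [Finset.sum_apply, Pi.smul_apply, smul_eq_mul, U, Cfsg.Agent.H42.omegaVec,
        Cfsg.Agent.H41.omegaBar_classSumZ]
      refine Eq.trans ?_ (h2.symm.trans (Finset.sum_congr rfl fun χ _ => map_mul _ _ _))
      rw [Pi.single_apply]
      rcases eq_or_ne i j with rfl | hij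
      · simp
      · simp [hij, hij.symm]
    have hw0 : (w : Cfsg.Agent.H41.ResField M) ≠ 0 := fun h =>
      hwp ((Cfsg.Agent.H41.IsPModular.natCast_eq_zero_iff hM w).1 h)
    suffices hmem : ∀ χ : Cfsg.IrrCharacter G, Cfsg.Agent.H41.res M (coef χ) • U χ ∈
        Submodule.span (Cfsg.Agent.H41.ResField M) (U '' S) by
      have h3 := Submodule.smul_mem (Submodule.span (Cfsg.Agent.H41.ResField M) (U '' S))
        ((w : Cfsg.Agent.H41.ResField M))⁻¹
        (Submodule.sum_mem _ fun χ (_ : χ ∈ (Finset.univ : Finset (Cfsg.IrrCharacter G))) => hmem χ)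
      rw [← key, inv_smul_smul₀ hw0] at h3
      convert h3 using 1
    intro χ
    by_cases hχ : χ ∈ S
    · exact Submodule.smul_mem _ _ (Submodule.subset_span ⟨χ, hχ, rfl⟩)
    rcases Nat.lt_or_gt_of_ne (show (Cfsg.charDegree (χ : G → ℂ)).factorization p + d ≠ a from hχ)
      with hlt | hgt
    · have : U χ = 0 := funext fun j => by
        refine (Cfsg.Agent.H41.omegaBar_classSumZ_eq_zero_iff M χ (x j)).2 ?_
        by_contra h
        have := Cfsg.Agent.H40.index_factorization_le hM h
        have := hidxj j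
        omega
      rw [this, smul_zero]
      exact zero_mem _
    · have : Cfsg.Agent.H41.res M (coef χ) = 0 := by
        rw [map_mul]
        refine mul_eq_zero_of_left ?_ _
        refine (Cfsg.Agent.H41.memLocalIdeal_coe_iff _).1 ?_
        by_contra h
        have h1 := Cfsg.Agent.H40.factorization_le_index hM h
        rw [Cfsg.Agent.H40.centralizer_singleton_inv] at h1
        have := hidxj i
        omega
      rw [this, zero_smul]
      exact zero_mem _
  -- choose a basis among them
  obtain ⟨t, htS, htspan, htli⟩ :=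
    exists_linearIndependent (Cfsg.Agent.H41.ResField M) (U '' S)
  rw [hspan] at htspan
  let bs := Module.Basis.mk htli (by rw [Subtype.range_coe_subtype, Set.setOf_mem_eq, htspan])
  let e := bs.indexEquiv (Pi.basisFun (Cfsg.Agent.H41.ResField M) (Fin r))
  have hch : ∀ i : Fin r, ∃ χ ∈ S, U χ = (e.symm i : Fin r → Cfsg.Agent.H41.ResField M) :=
    fun i => htS (e.symm i).2
  choose c hcS hc using hch
  have hli : LinearIndependent (Cfsg.Agent.H41.ResField M) fun i => U (c i) := by
    simp only [hc]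
    exact htli.comp e.symm e.symm.injective
  set B := fun i => Cfsg.blockOf M (c i : G → ℂ) with hBdef
  have hBblk : ∀ i, Cfsg.IsPBlock M (B i) := fun i => Cfsg.Agent.H41.isPBlock_blockOf (c i)
  have hUeq : ∀ i, ∀ χ ∈ B i, U χ = U (c i) := fun i χ hχ => by
    funext j
    show Cfsg.Agent.H41.omegaBar M χ _ = Cfsg.Agent.H41.omegaBar M (c i) _
    rw [Cfsg.Agent.H41.omegaBar_eq_of_mem (hBblk i) hχ (Cfsg.Agent.H41.mem_blockOf_self (c i))]
  have hdef : ∀ i, Cfsg.IsDefectGroup p M (B i) D ∧ Cfsg.blockDefect p (B i) = d := by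
    intro i
    obtain ⟨j, hj⟩ : ∃ j, U (c i) j ≠ 0 := Function.ne_iff.1 (hli.ne_zero i)
    have hω : ¬ Cfsg.MemLocalIdeal M (Cfsg.centralChar (c i : G → ℂ) (x j)) := fun h =>
      hj ((Cfsg.Agent.H41.omegaBar_classSumZ_eq_zero_iff M (c i) (x j)).2 h)
    obtain ⟨E, hE⟩ := Cfsg.Agent.H40.exists_isDefectGroup hM (hBblk i)
    obtain ⟨g, hg⟩ := Cfsg.Agent.H40.subConj_of_centralChar hM (hBblk i)
      (Cfsg.Agent.H41.mem_blockOf_self (c i)) hω hE (hDs j)
    have hEc := Cfsg.Agent.H40.card_defectGroup hM (hBblk i) hE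
    have hle : Cfsg.blockDefect p (B i) ≤ d := by
      have h := Subgroup.card_le_of_le hg
      rw [Cfsg.Agent.H23.card_rconj, hEc, (hdj j).2] at h
      exact (pow_le_pow_iff_right₀ hp.one_lt).1 h
    have hge := Cfsg.Agent.H42.factorization_degree_add_defect (p := p) (hBblk i)
      (Cfsg.Agent.H41.mem_blockOf_self (c i))
    have hcS' : (Cfsg.charDegree (c i : G → ℂ)).factorization p + d = a := hcS i
    have heq : Cfsg.blockDefect p (B i) = d := by omega
    refine ⟨?_, heq⟩
    have hEq : Cfsg.Agent.H23.rconj g E = D := Subgroup.eq_of_le_of_card_ge hg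
      (by rw [Cfsg.Agent.H23.card_rconj, hEc, heq, (hdj j).2])
    exact hEq ▸ Cfsg.Agent.H40.isDefectGroup_rconj hE g
  refine ⟨B, fun i j hij => ?_, fun i => ⟨hBblk i, (hdef i).1⟩, fun χ hχ => ?_⟩
  · refine hli.injective ?_
    have hij' : B i = B j := hij
    exact hUeq j (c i) (hij' ▸ Cfsg.Agent.H41.mem_blockOf_self (c i))
  intro hdet
  set v := a - d with hv
  have hval : ∀ i, (Cfsg.charDegree (χ i : G → ℂ)).factorization p = v := by
    intro i
    have := Cfsg.Agent.H42.factorization_degree_add_defect (p := p) (hBblk i) (hχ i).1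
    rw [(hχ i).2, (hdef i).2] at this
    omega
  have hvj : ∀ j, (Subgroup.centralizer ({x j} : Set G)).index.factorization p = v := fun j => by
    have := hidxj j
    omega
  let L := Cfsg.Agent.H41.localRing M
  let n := fun i => Cfsg.charDegree (χ i : G → ℂ) / p ^ v
  let k := fun j => (Subgroup.centralizer ({x j} : Set G)).index / p ^ v
  have hn : ∀ i, ¬ p ∣ n i := fun i => by
    show ¬ p ∣ Cfsg.charDegree (χ i : G → ℂ) / p ^ v
    rw [← hval i]
    exact Nat.not_dvd_ordCompl hp (Cfsg.Agent.H42.charDegree_pos _).ne'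
  have hk : ∀ j, ¬ p ∣ k j := fun j => by
    show ¬ p ∣ (Subgroup.centralizer ({x j} : Set G)).index / p ^ v
    rw [← hvj j]
    exact Nat.not_dvd_ordCompl hp (Subgroup.centralizer _).index_ne_zero_of_finite
  let ki : Fin r → L := fun j => ⟨_, Cfsg.Agent.H41.IsPModular.inv_natCast_mem hM (hk j)⟩
  let X : Matrix (Fin r) (Fin r) L := Matrix.of fun i j =>
    ⟨_, Cfsg.Agent.H40.irr_mem_localRing (χ i) (x j)⟩
  have hX : (X.det : ℂ) = Matrix.det (Matrix.of fun i j : Fin r => (χ i : G → ℂ) (x j)) := by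
    rw [show (X.det : ℂ) = L.subtype X.det from rfl, RingHom.map_det]
    rfl
  have hres : Cfsg.Agent.H41.res M X.det = 0 := by
    rw [← hX] at hdet
    exact (Cfsg.Agent.H41.memLocalIdeal_coe_iff _).1 hdet
  rw [RingHom.map_det] at hres
  have hentry : (Cfsg.Agent.H41.res M).mapMatrix X = Matrix.of fun i j =>
      (n i : Cfsg.Agent.H41.ResField M) *
        (Matrix.of (fun i j => Cfsg.Agent.H41.res M (ki j) * Matrix.of (fun i => U (c i)) i j)) i j := by
    ext i j
    have hX' : X i j = (n i : L) * (ki j * Cfsg.Agent.H41.omegaLoc M (χ i)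
        (Cfsg.Agent.H41.classSumZ L (x j))) := by
      refine Subtype.ext ?_
      push_cast
      simp only [X, ki, L, Matrix.of_apply, Cfsg.Agent.H41.coe_omegaLoc_classSumZ, Cfsg.centralChar,
        Cfsg.Agent.H42.irr_one_eq]
      have e1 : (Cfsg.charDegree (χ i : G → ℂ) : ℂ) = (p : ℂ) ^ v * (n i : ℂ) := by
        have h := Nat.ordProj_mul_ordCompl_eq_self (Cfsg.charDegree (χ i : G → ℂ)) p
        rw [hval i] at h
        exact_mod_cast h.symm
      have e2 : ((Subgroup.centralizer ({x j} : Set G)).index : ℂ) = (p : ℂ) ^ v * (k j : ℂ) := by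
        have h := Nat.ordProj_mul_ordCompl_eq_self ((Subgroup.centralizer ({x j} : Set G)).index) p
        rw [hvj j] at h
        exact_mod_cast h.symm
      have hp0 : (p : ℂ) ^ v ≠ 0 := pow_ne_zero _ (Nat.cast_ne_zero.2 hp.ne_zero)
      have hk0 : (k j : ℂ) ≠ 0 := Nat.cast_ne_zero.2 fun h => hk j (h ▸ dvd_zero p)
      have hn0 : (n i : ℂ) ≠ 0 := Nat.cast_ne_zero.2 fun h => hn i (h ▸ dvd_zero p)
      rw [e1, e2]
      field_simp
    rw [RingHom.mapMatrix_apply, Matrix.map_apply, hX', map_mul, map_mul, map_natCast,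
      ← Cfsg.Agent.H41.omegaBar_classSumZ]
    simp only [Matrix.of_apply, ← hUeq i (χ i) (hχ i).1]
    rfl
  rw [hentry, Matrix.det_mul_column, Matrix.det_mul_row] at hres
  have hU : (Matrix.of fun i => U (c i)).det ≠ 0 := by
    have h : IsUnit (Matrix.of fun i => U (c i)) :=
      Matrix.linearIndependent_rows_iff_isUnit.1 hli
    exact ((Matrix.isUnit_iff_isUnit_det _).1 h).ne_zero
  refine mul_ne_zero (Finset.prod_ne_zero_iff.2 fun i _ => ?_)
    (mul_ne_zero (Finset.prod_ne_zero_iff.2 fun j _ => ?_) hU) hres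
  · exact fun h => hn i ((Cfsg.Agent.H41.IsPModular.natCast_eq_zero_iff hM _).1 h)
  · intro h
    have h1 : ki j * (k j : L) = 1 := Subtype.ext (by
      push_cast
      exact inv_mul_cancel₀ (Nat.cast_ne_zero.2 fun h => hk j (h ▸ dvd_zero p)))
    have h2 := congrArg (Cfsg.Agent.H41.res M) h1
    rw [map_mul, h, zero_mul, map_one] at h2
    exact zero_ne_one h2

end Cfsg.Agent.S4741
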