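import Cfsg.Statements.S4743
import Cfsg.Agent.H28.DefectZeroSeparated

set_option autoImplicit false
open Cfsg

namespace Cfsg.Agent.S4743

/-- Let p ≠ q be primes dividing the order of the finite group G, suppose the centralizer of every non-identity p-element has order prime to q, and suppose G is p-solvable or q-solvable. Then G has an irreducible character of p-defect zero or an irreducible character of q-defect zero. -/
theorem result {G : Type*} [Group G] [Finite G] (p q : ℕ) [Fact p.Prime] [Fact q.Prime] (hppq : p ≠ q) (hpG : p ∣ Nat.card G) (hqG : q ∣ Nat.card G) (hC : ∀ g : G, g ≠ 1 → (∃ k : ℕ, orderOf g = p ^ k) → ¬ q ∣ Nat.card ↥(Subgroup.centralizer ({g} : Set G))) (hsolv : Cfsg.IsPSolvable p G ∨ Cfsg.IsPSolvable q G) : (∃ χ : Cfsg.IrrCharacter G, (Cfsg.charDegree (χ : G → ℂ)).factorization p = (Nat.card G).factorization p) ∨ (∃ χ : Cfsg.IrrCharacter G, (Cfsg.charDegree (χ : G → ℂ)).factorization q = (Nat.card G).factorization q) := by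
  have hS : H28.DefectZeroSeparated.Sep p q G := by
    intro x y hx hy hc
    refine hC x (fun e => ?_) ⟨1, by rw [hx, pow_one]⟩ ?_
    · rw [e, orderOf_one] at hx; exact (Fact.out : p.Prime).ne_one hx.symm
    · have hm : y ∈ Subgroup.centralizer ({x} : Set G) := Subgroup.mem_centralizer_singleton_iff.2 hc.eq.symm
      have h := orderOf_dvd_natCard (⟨y, hm⟩ : Subgroup.centralizer ({x} : Set G))
      rwa [Subgroup.orderOf_mk, hy] at h
  rcases hsolv with h | h
  · exact H28.DefectZeroSeparated.exists_defectZero hS hppq hpG h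
  · exact (H28.DefectZeroSeparated.exists_defectZero hS.symm (Ne.symm hppq) hqG h).symm

end Cfsg.Agent.S4743
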