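import Cfsg.Statements.S4744
import Cfsg.Agent.H42.InvertedSylow
-- import your own Cfsg.Agent.* helpers here

set_option autoImplicit false
open Cfsg

namespace Cfsg.Agent.S4744

/-- Let p be an odd prime and G a finite group of even order divisible by p in which the centralizer of every non-identity p-element has odd order. Then either G has an irreducible character of p-defect zero, or the normalizer of every Sylow p-subgroup P of G has even order and P is abelian. -/
theorem result {G : Type*} [Group G] [Finite G] (p : ℕ) [Fact p.Prime] (hp2 : p ≠ 2) (hpG : p ∣ Nat.card G) (h2G : 2 ∣ Nat.card G) (hC : ∀ g : G, g ≠ 1 → (∃ k : ℕ, orderOf g = p ^ k) → Odd (Nat.card ↥(Subgroup.centralizer ({g} : Set G)))) : (∃ χ : Cfsg.IrrCharacter G, (Cfsg.charDegree (χ : G → ℂ)).factorization p = (Nat.card G).factorization p) ∨ ∀ P : Sylow p G, Even (Nat.card ↥(Subgroup.normalizer ((P : Subgroup G) : Set G))) ∧ IsMulCommutative ↥(P : Subgroup G) := by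
  classical
  refine or_iff_not_imp_left.2 fun hdz P => ?_
  push Not at hdz
  obtain ⟨t, ht⟩ := exists_prime_orderOf_dvd_card' 2 h2G
  obtain ⟨R, hR⟩ := Cfsg.Agent.H42.exists_inverted_sylow hp2 hpG h2G hC hdz ht
  have e := R.equiv P
  refine ⟨?_, ?_⟩
  · obtain ⟨g, rfl⟩ := MulAction.exists_smul_eq G R P
    have hmem : g * t * g⁻¹ ∈ Subgroup.normalizer (((g • R : Sylow p G) : Subgroup G) : Set G) := by
      have ht' : t ∈ Subgroup.normalizer ((R : Subgroup G) : Set G) := by
        rw [Subgroup.mem_normalizer_iff]
        intro x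
        refine ⟨fun hx => by rw [hR x hx]; exact inv_mem hx, fun hx => ?_⟩
        have h1 := hR _ hx
        have htt : t * t = 1 := by rw [← sq, ← ht, pow_orderOf_eq_one]
        have htinv : t⁻¹ = t := inv_eq_of_mul_eq_one_right htt
        rw [htinv, show t * (t * x * t) * t = (t * t) * x * (t * t) by group, htt, one_mul, mul_one]
          at h1
        rw [h1]
        exact inv_mem (by rw [htinv] at hx; exact hx)
      rw [Subgroup.mem_normalizer_iff]
      intro x
      have hiff : ∀ w : G, w ∈ ((g • R : Sylow p G) : Subgroup G) ↔ g⁻¹ * w * g ∈ (R : Subgroup G) := by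
        intro w
        rw [Sylow.coe_subgroup_smul, Subgroup.mem_pointwise_smul_iff_inv_smul_mem]
        simp [MulAut.smul_def, MulAut.conj_inv_apply]
      rw [hiff, hiff, (Subgroup.mem_normalizer_iff.1 ht' (g⁻¹ * x * g))]
      simp [mul_assoc]
    refine even_iff_two_dvd.2 (dvd_trans (dvd_of_eq ?_) (Subgroup.orderOf_dvd_natCard _ hmem))
    rw [← ht]
    exact ((MulAut.conj g).orderOf_eq t).symm
  · have := Cfsg.Agent.H42.comm_of_inverted hR
    refine ⟨⟨fun a b => e.symm.injective ?_⟩⟩
    rw [map_mul, map_mul, mul_comm']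

end Cfsg.Agent.S4744
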