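import Cfsg.Statements.S4745
import Cfsg.Agent.H44.PrimePowerTransitive
import Cfsg.Agent.S4743
import Cfsg.Agent.S0205

set_option autoImplicit false
open Cfsg

namespace Cfsg.Agent.S4745

/-- Let p be an odd prime and G a finite group of even order divisible by p in which the centralizer of every non-identity p-element has odd order, and suppose G acts faithfully and transitively on a set with p ^ r elements, r ≥ 1. Then either G has an irreducible character of p-defect zero, or G is p-solvable and has an irreducible character of 2-defect zero. -/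
theorem result {G Ω : Type*} [Group G] [Finite G] [MulAction G Ω] [FaithfulSMul G Ω] [Fintype Ω] (htr : MulAction.IsPretransitive G Ω) (p : ℕ) [Fact p.Prime] (hp2 : p ≠ 2) (hpG : p ∣ Nat.card G) (h2G : 2 ∣ Nat.card G) (hC : ∀ g : G, g ≠ 1 → (∃ k : ℕ, orderOf g = p ^ k) → Odd (Nat.card ↥(Subgroup.centralizer ({g} : Set G)))) (r : ℕ) (hr : 1 ≤ r) (hΩ : Fintype.card Ω = p ^ r) : (∃ χ : Cfsg.IrrCharacter G, (Cfsg.charDegree (χ : G → ℂ)).factorization p = (Nat.card G).factorization p) ∨ (Cfsg.IsPSolvable p G ∧ ∃ χ : Cfsg.IrrCharacter G, (Cfsg.charDegree (χ : G → ℂ)).factorization 2 = (Nat.card G).factorization 2) := by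
  classical
  by_cases hdz : ∃ χ : Cfsg.IrrCharacter G,
      (Cfsg.charDegree (χ : G → ℂ)).factorization p = (Nat.card G).factorization p
  · exact Or.inl hdz
  refine Or.inr ?_
  rw [not_exists] at hdz
  haveI : Fintype G := Fintype.ofFinite G
  haveI : MulAction.IsPretransitive G Ω := htr
  have hp : p.Prime := Fact.out
  obtain ⟨⟨t, ht⟩⟩ : Nonempty {t : G // orderOf t = 2} := by
    obtain ⟨t, ht⟩ := exists_prime_orderOf_dvd_card' 2 h2G
    exact ⟨⟨t, ht⟩⟩
  have hinv : ∀ u : G, orderOf u = 2 → ∃ R : Sylow p G, ∀ x ∈ (R : Subgroup G), u * x * u⁻¹ = x⁻¹ :=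
    fun u hu => H42.exists_inverted_sylow hp2 hpG h2G hC hdz hu
  have hcomm : ∀ R : Sylow p G, IsMulCommutative (R : Subgroup G) := by
    intro R
    obtain ⟨R₀, hR₀⟩ := hinv t ht
    haveI := H42.comm_of_inverted hR₀
    obtain ⟨e⟩ : Nonempty ((R₀ : Subgroup G) ≃* (R : Subgroup G)) := ⟨Sylow.equiv R₀ R⟩
    refine ⟨⟨fun a b => e.symm.injective ?_⟩⟩
    rw [map_mul, map_mul, mul_comm']
  have hcΩ : Nat.card Ω = p ^ r := by rw [Nat.card_eq_fintype_card, hΩ]
  have hstab : ∀ a : Ω, Nat.card (MulAction.stabilizer G a) * p ^ r = Nat.card G := fun a => by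
    rw [← hcΩ, ← MulAction.index_stabilizer_of_transitive G a, Subgroup.card_mul_index]
  have htrans : ∀ (R : Sylow p G) (a b : Ω), ∃ y ∈ (R : Subgroup G), y • a = b := by
    intro R a b
    have huniv : MulAction.orbit (R : Subgroup G) a = Set.univ := by
      refine Set.eq_of_subset_of_ncard_le (Set.subset_univ _) ?_ Set.finite_univ
      rw [Set.ncard_univ, hcΩ]
      have horb : (MulAction.stabilizer (R : Subgroup G) a).index =
          (MulAction.orbit (R : Subgroup G) a).ncard := MulAction.index_stabilizer _ a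
      rw [← horb]
      obtain ⟨j, hj⟩ := IsPGroup.iff_card.1 (R.2.to_subgroup (MulAction.stabilizer (R : Subgroup G) a))
      have hjd : Nat.card (MulAction.stabilizer (R : Subgroup G) a) ∣
          Nat.card (MulAction.stabilizer G a) :=
        Subgroup.card_dvd_of_injective (f := ({
          toFun := fun k => ⟨((k : (R : Subgroup G)) : G), k.2⟩
          map_one' := rfl
          map_mul' := fun _ _ => rfl } :
            MulAction.stabilizer (R : Subgroup G) a →* MulAction.stabilizer G a))
          fun k k' e => Subtype.ext (Subtype.ext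
            (congrArg (fun z : MulAction.stabilizer G a => (z : G)) e))
      rw [hj] at hjd
      have hfac := congrArg (fun n => n.factorization p) (hstab a)
      rw [Nat.factorization_mul Nat.card_pos.ne' (pow_ne_zero _ hp.ne_zero), Finsupp.add_apply,
        hp.factorization_pow, Finsupp.single_eq_same] at hfac
      have hjle := (hp.pow_dvd_iff_le_factorization Nat.card_pos.ne').1 hjd
      have hidx := (MulAction.stabilizer (R : Subgroup G) a).card_mul_index
      rw [hj, R.card_eq_multiplicity] at hidx
      refine le_of_mul_le_mul_left ?_ (pow_pos hp.pos j)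
      rw [hidx, ← pow_add]
      exact Nat.pow_le_pow_right hp.pos (by omega)
    have hb : b ∈ MulAction.orbit (R : Subgroup G) a := huniv ▸ Set.mem_univ b
    obtain ⟨⟨y, hy⟩, e⟩ := hb
    exact ⟨y, hy, e⟩
  have hsp : ∀ a : Ω, ¬ p ∣ Nat.card (MulAction.stabilizer G a) := by
    intro a hd
    obtain ⟨R⟩ := (inferInstance : Nonempty (Sylow p G))
    have hinj : Function.Injective fun y : (R : Subgroup G) => (y : G) • a := by
      intro y y' e
      have e' : (y : G) • a = (y' : G) • a := e
      refine Subtype.ext (inv_mul_eq_one.1 ?_).symm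
      refine H44.PPT.eq_one_of_fix (hcomm R) (htrans R) (mul_mem (inv_mem y'.2) y.2) (a := a) ?_
      rw [mul_smul, e', ← mul_smul, inv_mul_cancel, one_smul]
    have hle := Nat.card_le_card_of_injective _ hinj
    rw [R.card_eq_multiplicity, hcΩ] at hle
    have h1 : p ^ (r + 1) ∣ Nat.card G := by
      rw [← hstab a, pow_succ, mul_comm]; exact Nat.mul_dvd_mul_right hd _
    have := (hp.pow_dvd_iff_le_factorization Nat.card_pos.ne').1 h1
    have := (Nat.pow_le_pow_iff_right hp.one_lt).1 hle
    omega
  let c : H44.PPT.Ctx G Ω p :=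
    { r := r, rpos := hr, odd := hp2, cardΩ := hcΩ, cent := hC
      solvable := fun X hX => S0205.result hX
      comm := hcomm, trans := htrans, stab := hsp, inverted := hinv
      dvd := fun a g ha => H44.PPT.dvd_pairCount p hdz a g ha }
  obtain ⟨R, hRn⟩ := c.sylow_normal ht
  have hps : Cfsg.IsPSolvable p G := by
    refine ⟨2, ![⊥, (R : Subgroup G), ⊤], rfl, rfl, ?_, ?_, ?_⟩
    · refine Fin.monotone_iff_le_succ.2 fun i => ?_
      fin_cases i <;> simp
    · intro i; fin_cases i <;> simp <;> first | infer_instance | exact hRn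
    · intro i
      fin_cases i
      · refine Or.inl ?_
        obtain ⟨m, hm⟩ := IsPGroup.iff_card.1 R.2
        exact ⟨m, by simpa [Subgroup.relIndex_bot_left] using hm⟩
      · refine Or.inr ?_
        simpa using (hp.coprime_iff_not_dvd.2 R.not_dvd_index).symm
  rcases S4743.result p 2 hp2 hpG h2G (fun g hg hgp h2 =>
    Nat.not_even_iff_odd.2 (hC g hg hgp) (even_iff_two_dvd.2 h2)) (Or.inl hps) with ⟨χ, hχ⟩ | h
  · exact absurd hχ (hdz χ)
  · exact ⟨hps, h⟩

end Cfsg.Agent.S4745
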