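import Cfsg.Statements.S4746
import Cfsg.Agent.H42.InvertedSylow
import Cfsg.Agent.H26.CharFS
-- import your own Cfsg.Agent.* helpers here

set_option autoImplicit false
open Cfsg

namespace Cfsg.Agent.S4746

/-- Let p be an odd prime and G a finite group of even order divisible by p in which the centralizer of every non-identity p-element has odd order. Then G has an irreducible character of p-defect zero or an irreducible character of even degree. -/
theorem result {G : Type*} [Group G] [Finite G] (p : ℕ) [Fact p.Prime] (hp2 : p ≠ 2) (hpG : p ∣ Nat.card G) (h2G : 2 ∣ Nat.card G) (hC : ∀ g : G, g ≠ 1 → (∃ k : ℕ, orderOf g = p ^ k) → Odd (Nat.card ↥(Subgroup.centralizer ({g} : Set G)))) : (∃ χ : Cfsg.IrrCharacter G, (Cfsg.charDegree (χ : G → ℂ)).factorization p = (Nat.card G).factorization p) ∨ ∃ χ : Cfsg.IrrCharacter G, Even (Cfsg.charDegree (χ : G → ℂ)) := by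
  classical
  refine or_iff_not_imp_left.2 fun hdz => ?_
  push Not at hdz
  by_contra heven
  push Not at heven
  have := Fintype.ofFinite G
  obtain ⟨t, ht⟩ := exists_prime_orderOf_dvd_card' 2 h2G
  obtain ⟨R, hR⟩ := Cfsg.Agent.H42.exists_inverted_sylow hp2 hpG h2G hC hdz ht
  have hne : Nontrivial (R : Subgroup G) := by
    rw [← Finite.one_lt_card_iff_nontrivial, R.card_eq_multiplicity]
    exact Nat.one_lt_pow
      (Nat.Prime.factorization_pos_of_dvd Fact.out Nat.card_pos.ne' hpG).ne'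
      (Fact.out : p.Prime).one_lt
  obtain ⟨⟨z, hzR⟩, hz1'⟩ := exists_ne (1 : (R : Subgroup G))
  have hz1 : z ≠ 1 := fun h => hz1' (Subtype.ext h)
  obtain ⟨k, hk⟩ := IsPGroup.iff_orderOf.1 R.2 ⟨z, hzR⟩
  rw [Subgroup.orderOf_mk] at hk
  have hodd := hC z hz1 ⟨k, hk⟩
  obtain ⟨m, hm⟩ : Odd (orderOf z) := hodd.of_dvd_nat
    (Subgroup.orderOf_dvd_natCard _ (Subgroup.mem_centralizer_singleton_iff.2 rfl))
  -- a unique square root
  have hsq : (Finset.univ.filter fun s : G => s * s = z) = {z ^ (m + 1)} := by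
    ext s
    simp only [Finset.mem_filter, Finset.mem_univ, true_and, Finset.mem_singleton]
    constructor
    · intro hs
      have hsC : s ∈ Subgroup.centralizer ({z} : Set G) :=
        Subgroup.mem_centralizer_singleton_iff.2 (by rw [← hs]; group)
      obtain ⟨j, hj⟩ : Odd (orderOf s) := hodd.of_dvd_nat (Subgroup.orderOf_dvd_natCard _ hsC)
      have h1 : orderOf z = orderOf s := by
        rw [← hs, ← sq]
        exact Nat.Coprime.orderOf_pow
          ((Nat.Prime.coprime_iff_not_dvd Nat.prime_two).2 (by omega)).symm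
      rw [← hs, ← sq, ← pow_mul, show 2 * (m + 1) = orderOf s + 1 by omega, pow_succ,
        pow_orderOf_eq_one, one_mul]
    · rintro rfl
      rw [← pow_add, show m + 1 + (m + 1) = orderOf z + 1 by omega, pow_succ, pow_orderOf_eq_one,
        one_mul]
  have hfs := Cfsg.Agent.H26.card_sqrt_eq_sum z
  rw [hsq, Finset.card_singleton, Nat.cast_one] at hfs
  -- orthogonality with the identity
  have horth : ∑ χ : Cfsg.IrrCharacter G, χ.1 1 * χ.1 z = 0 := by
    have h := congrFun (Cfsg.Agent.H26.char_leftRegular_eq_sum (G := G)) z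
    rw [Cfsg.Agent.H26.char_leftRegular, if_neg hz1, Finset.sum_apply] at h
    simp only [Pi.smul_apply, smul_eq_mul] at h
    exact h.symm
  let A := Cfsg.AlgInt
  let I : Ideal A := Ideal.span {(2 : A)}
  let φ : Cfsg.IrrCharacter G → A ⧸ I := fun χ => Ideal.Quotient.mk I
    ⟨χ.1 z, Cfsg.Agent.H42.isIntegral_value (Cfsg.Agent.H26.irr_isCharacter χ) z⟩
  have h20 : (2 : A ⧸ I) = 0 := by
    rw [← map_ofNat (Ideal.Quotient.mk I) 2, Ideal.Quotient.eq_zero_iff_mem]
    exact Ideal.mem_span_singleton_self _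
  have hsum : ∑ χ, φ χ = 0 := by
    have e : ∑ χ : Cfsg.IrrCharacter G, ((Cfsg.charDegree (χ : G → ℂ) : A) *
        (⟨χ.1 z, Cfsg.Agent.H42.isIntegral_value (Cfsg.Agent.H26.irr_isCharacter χ) z⟩ : A)) = 0 := by
      apply Subtype.ext
      push_cast
      simpa [Cfsg.Agent.H42.irr_one_eq] using horth
    have e' := congrArg (Ideal.Quotient.mk I) e
    rw [map_sum, map_zero] at e'
    rw [← e']
    refine Finset.sum_congr rfl fun χ _ => ?_
    rw [map_mul, map_natCast]
    obtain ⟨j, hj⟩ := Nat.not_even_iff_odd.1 (heven χ)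
    rw [hj]; push_cast
    rw [h20, zero_mul, zero_add, one_mul]
  have hν : ∀ χ : Cfsg.IrrCharacter G, ∃ e : ℤ, Cfsg.Agent.H26.fsIndicator χ.1 = (e : ℂ) ∧
      (e : A ⧸ I) = if Cfsg.Agent.H26.conjIrr χ = χ then 1 else 0 := by
    intro χ
    obtain ⟨h1, h2⟩ := Cfsg.Agent.H26.fsIndicator_cases χ
    by_cases hr : Cfsg.Agent.H26.conjIrr χ = χ
    · rw [if_pos hr]
      rcases h2 hr with h | h
      · exact ⟨1, by simpa using h, by simp⟩
      · refine ⟨-1, by simpa using h, ?_⟩
        push_cast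
        rw [neg_eq_iff_add_eq_zero, one_add_one_eq_two, h20]
    · exact ⟨0, by simpa using h1 hr, by simp [if_neg hr]⟩
  choose e he1 he2 using hν
  have hone : (1 : A ⧸ I) = ∑ χ ∈ Finset.univ.filter
      (fun χ : Cfsg.IrrCharacter G => Cfsg.Agent.H26.conjIrr χ = χ), φ χ := by
    have e1 : (1 : A) = ∑ χ : Cfsg.IrrCharacter G, (e χ : A) *
        (⟨χ.1 z, Cfsg.Agent.H42.isIntegral_value (Cfsg.Agent.H26.irr_isCharacter χ) z⟩ : A) := by
      apply Subtype.ext
      push_cast
      simpa [he1] using hfs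
    have e1' := congrArg (Ideal.Quotient.mk I) e1
    rw [map_one, map_sum] at e1'
    rw [e1', Finset.sum_filter]
    refine Finset.sum_congr rfl fun χ _ => ?_
    rw [map_mul, map_intCast, he2]
    split_ifs <;> simp [φ]
  have hreal : ∀ χ : Cfsg.IrrCharacter G, φ (Cfsg.Agent.H26.conjIrr χ) = φ χ := by
    intro χ
    refine congrArg (Ideal.Quotient.mk I) (Subtype.ext ?_)
    show (starRingEnd ℂ) (χ.1 z) = χ.1 z
    rw [← Cfsg.Agent.H26.irr_inv]
    have := Cfsg.Agent.H26.irr_conj χ z t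
    rwa [hR z hzR] at this
  have hnr : ∑ χ ∈ Finset.univ.filter
      (fun χ : Cfsg.IrrCharacter G => ¬ Cfsg.Agent.H26.conjIrr χ = χ), φ χ = 0 := by
    refine Finset.sum_involution (fun χ _ => Cfsg.Agent.H26.conjIrr χ) (fun χ _ => ?_)
      (fun χ hχ _ => (Finset.mem_filter.1 hχ).2) (fun χ hχ => ?_)
      (fun χ _ => Cfsg.Agent.H26.conjIrr_conjIrr χ)
    · rw [hreal, ← two_mul, h20, zero_mul]
    · refine Finset.mem_filter.2 ⟨Finset.mem_univ _, ?_⟩
      rw [Cfsg.Agent.H26.conjIrr_conjIrr]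
      exact fun h => (Finset.mem_filter.1 hχ).2 h.symm
  rw [← Finset.sum_filter_add_sum_filter_not Finset.univ
    (fun χ : Cfsg.IrrCharacter G => Cfsg.Agent.H26.conjIrr χ = χ), ← hone, hnr, add_zero] at hsum
  rw [← map_one (Ideal.Quotient.mk I), Ideal.Quotient.eq_zero_iff_mem,
    Ideal.mem_span_singleton'] at hsum
  obtain ⟨a, ha⟩ := hsum
  have hdiv := Cfsg.Agent.H42.dvd_of_eq_mul_algInt (a := 1) (b := 2) a (by
    have := congrArg (algebraMap A ℂ) ha
    simp only [map_mul, map_ofNat, map_one] at this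
    push_cast
    rw [show (algebraMap A ℂ) a = (a : ℂ) from rfl] at this
    linear_combination -this)
  norm_num at hdiv

end Cfsg.Agent.S4746
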