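import Cfsg.Statements.S4748
import Cfsg.Agent.H44.TICharDegree

set_option autoImplicit false
open scoped Pointwise
open Cfsg

namespace Cfsg.Agent.S4748

/-- Let G be a finite p-solvable group whose Sylow p-subgroup P meets each conjugate g P g⁻¹ with g outside N_G(P) trivially, and let χ be a faithful character of G (χ g = χ 1 only for g = 1) whose degree d satisfies d² ≤ |P|. Then P is normal in G. -/
theorem result {G : Type*} [Group G] [Finite G] (p : ℕ) [Fact p.Prime] (hsolv : Cfsg.IsPSolvable p G) (P : Sylow p G) (hTI : ∀ g : G, g ∉ Subgroup.normalizer ((P : Subgroup G) : Set G) → (P : Subgroup G) ⊓ (MulAut.conj g • (P : Subgroup G)) = ⊥) (χ : G → ℂ) (hχ : Cfsg.IsCharacter G χ) (hfaith : ∀ g : G, χ g = χ 1 → g = 1) (hdeg : Cfsg.charDegree χ ^ 2 ≤ Nat.card ↥(P : Subgroup G)) : (P : Subgroup G).Normal := by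
  have hPn : ∀ (K : Subgroup G), K.Normal → IsPGroup p K → K ≠ ⊥ → (P : Subgroup G).Normal := by
    intro K hK hKp hK1
    haveI := hK
    obtain ⟨x, hx, hx1⟩ := K.bot_or_exists_ne_one.resolve_left hK1
    have hKP := H44.normal_pGroup_le_sylow P K hKp
    refine ⟨fun y hy g => ?_⟩
    exact (Subgroup.mem_normalizer_iff.mp
      (H44.ti_mem_normalizer hTI (hKP hx) (hKP (hK.conj_mem x hx g)) hx1) y).mp hy
  by_cases hOp : Cfsg.pCore p G = ⊥
  · haveI := H44.pPrimeCore_normal' (G := G) p
    by_cases hnc : Cfsg.pPrimeCore p G ≤ Subgroup.centralizer ((P : Subgroup G) : Set G)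
    · have h : (P : Subgroup G) ≤ Cfsg.pPrimeCore p G :=
        (Subgroup.le_centralizer_iff.mp hnc).trans (H44.centralizer_pPrimeCore_le hsolv hOp)
      have h1 : (P : Subgroup G) = ⊥ := by
        refine le_bot_iff.mp fun x hx => ?_
        obtain ⟨k, hk⟩ := P.isPGroup' ⟨x, hx⟩
        exact H44.eq_one_of_coprime_pow
          (Nat.Coprime.pow_left k (H44.pPrimeCore_card_coprime' (G := G) p).symm)
          (by simpa using congrArg Subtype.val hk) (H44.pow_natCard_eq_one_of_mem (h hx))
      rw [h1]
      infer_instance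
    · obtain ⟨n, ρ, rfl⟩ := hχ
      have hdeg' : Cfsg.charDegree ρ.character = n := by
        simp [Cfsg.charDegree]
      have hρ : Function.Injective ρ := by
        rw [injective_iff_map_eq_one]
        intro g hg
        refine hfaith g ?_
        simp [Representation.character, hg]
      have := H44.card_sylow_lt_sq_finrank P hTI _ (H44.pPrimeCore_card_coprime' p) hnc ρ hρ
      rw [hdeg'] at hdeg
      rw [Module.finrank_fin_fun] at this
      omega
  · exact hPn _ (H44.pCore_normal' p) (H44.pCore_isPGroup' p) hOp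

end Cfsg.Agent.S4748
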