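import Cfsg.Statements.S4750
import Cfsg.Agent.H44.SmallDimension
import Cfsg.Agent.H26.CharBasic

set_option autoImplicit false
open scoped Pointwise
open Cfsg

namespace Cfsg.Agent.S4750

/-- Let P be a Sylow p-subgroup of the finite group G that meets each conjugate g P g⁻¹ with g outside N_G(P) trivially, χ a character of G with χ(1)² ≤ |P|, and H a subgroup of G containing N_G(P). Then the inner product of χ with itself over G equals the inner product over H of the restriction of χ to H. -/
theorem result {G : Type*} [Group G] [Fintype G] [DecidableEq G] (p : ℕ) [Fact p.Prime] (P : Sylow p G) (hTI : ∀ g : G, g ∉ Subgroup.normalizer ((P : Subgroup G) : Set G) → (P : Subgroup G) ⊓ (MulAut.conj g • (P : Subgroup G)) = ⊥) (χ : G → ℂ) (hχ : Cfsg.IsCharacter G χ) (hdeg : Cfsg.charDegree χ ^ 2 ≤ Nat.card ↥(P : Subgroup G)) (H : Subgroup G) [Fintype ↥H] (hH : Subgroup.normalizer ((P : Subgroup G) : Set G) ≤ H) : Cfsg.classInner χ χ = Cfsg.classInner (fun h : ↥H => χ h) (fun h : ↥H => χ h) := by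
  obtain ⟨n, ρ, rfl⟩ := hχ
  have hd : Cfsg.charDegree ρ.character = n := by simp [Cfsg.charDegree]
  set τ := Representation.linHom ρ ρ with hτ
  let ρH : Representation ℂ H (Fin n → ℂ) := ρ.comp H.subtype
  show _ = Cfsg.classInner ρH.character ρH.character
  rw [H26.classInner_char_eq_finrank ρ ρ, H26.classInner_char_eq_finrank ρH ρH]
  congr 1
  rcases Nat.eq_zero_or_pos n with hn | hn
  · subst hn
    haveI : Subsingleton (Representation.IntertwiningMap ρ ρ) :=
      ⟨fun a b => Representation.IntertwiningMap.ext (LinearMap.ext fun v => Subsingleton.elim _ _)⟩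
    haveI : Subsingleton (Representation.IntertwiningMap ρH ρH) :=
      ⟨fun a b => Representation.IntertwiningMap.ext (LinearMap.ext fun v => Subsingleton.elim _ _)⟩
    rw [Module.finrank_zero_of_subsingleton, Module.finrank_zero_of_subsingleton]
  have hdim : Module.finrank ℂ ((Fin n → ℂ) →ₗ[ℂ] (Fin n → ℂ)) ≤ Nat.card (P : Subgroup G) := by
    rw [Module.finrank_linearMap, Module.finrank_fin_fun]
    rwa [hd, sq] at hdeg
  have hone : ∃ f : (Fin n → ℂ) →ₗ[ℂ] (Fin n → ℂ), f ≠ 0 ∧ ∀ g : G, τ g f = f := by
    refine ⟨LinearMap.id, fun h => ?_, fun g => ?_⟩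
    · have h' := congrFun (LinearMap.congr_fun h (fun _ => (1 : ℂ))) ⟨0, hn⟩
      simp at h'
    · refine LinearMap.ext fun v => ?_
      simp [τ, Representation.linHom_apply]
  refine LinearEquiv.finrank_eq ?_
  exact
    { toFun := fun f => ⟨f.toLinearMap, fun h => f.isIntertwining' h.1⟩
      invFun := fun f => ⟨f.toLinearMap, fun g => by
        have hfix : ∀ h ∈ H, τ h f.toLinearMap = f.toLinearMap := by
          intro h hh
          refine LinearMap.ext fun v => ?_
          show ρ h (f.toLinearMap (ρ h⁻¹ v)) = f.toLinearMap v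
          have h1 := LinearMap.congr_fun (f.isIntertwining' ⟨h, hh⟩) (ρ h⁻¹ v)
          simp only [LinearMap.comp_apply] at h1
          refine h1.symm.trans ?_
          show f.toLinearMap (ρ h (ρ h⁻¹ v)) = _
          simp
        have h2 := H44.fixed_of_fixed_normalizer P hTI H hH τ hdim hone hfix g
        refine LinearMap.ext fun v => ?_
        have h3 := LinearMap.congr_fun h2 (ρ g v)
        simp only [τ, Representation.linHom_apply, LinearMap.comp_apply] at h3
        rw [← Module.End.mul_apply (ρ g⁻¹), ← map_mul, inv_mul_cancel, map_one,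
          Module.End.one_apply] at h3
        exact h3.symm⟩
      map_add' := fun f f' => rfl
      map_smul' := fun c f => rfl
      left_inv := fun f => rfl
      right_inv := fun f => rfl }

end Cfsg.Agent.S4750
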