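import Cfsg.Statements.S4752
import Cfsg.Agent.H31.Extra27.One

set_option autoImplicit false
open Cfsg
open scoped commutatorElement

namespace Cfsg.Agent.S4752

/-- Let G be a finite group whose Sylow 3-subgroup P is extraspecial of order 27 and exponent 3, with N_G(P) ≤ C_G(Z(P)), and let M be a maximal ideal of the algebraic integers containing 3, B the principal 3-block of G, k its number of irreducible characters, k₀ the number of those of height zero, l its 3-regular rank (number of irreducible Brauer characters), and e the index of P·C_G(P) in N_G(P) (the order of the inertial quotient). Then e = 1 gives (k, k₀, l) = (11, 9, 1); e = 2 gives (10, 6, 2); e = 4 gives (14, 6, 4); e = 8 gives (16, 6, 5). -/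
theorem result {G : Type*} [Group G] [Finite G] (P : Sylow 3 G) (hE : Cfsg.IsExtraspecial 3 ↥(P : Subgroup G)) (h27 : Nat.card ↥(P : Subgroup G) = 27) (hexp : ∀ x ∈ (P : Subgroup G), x ^ 3 = 1) (hNC : ∀ g ∈ Subgroup.normalizer ((P : Subgroup G) : Set G), ∀ z ∈ (P : Subgroup G), (∀ y ∈ (P : Subgroup G), z * y = y * z) → g * z = z * g) (M : Ideal Cfsg.AlgInt) (hM : Cfsg.IsPModular 3 M) (k k₀ l e : ℕ) (hk : Nat.card ↥(Cfsg.principalBlock M G) = k) (hk₀ : Nat.card {χ : Cfsg.IrrCharacter G // χ ∈ Cfsg.principalBlock M G ∧ Cfsg.blockHeight 3 (Cfsg.principalBlock M G) (χ : G → ℂ) = 0} = k₀) (hl : Cfsg.blockRank 3 (Cfsg.principalBlock M G) = l) (he : ((P : Subgroup G) ⊔ Subgroup.centralizer ((P : Subgroup G) : Set G)).relIndex (Subgroup.normalizer ((P : Subgroup G) : Set G)) = e) : (e = 1 → k = 11 ∧ k₀ = 9 ∧ l = 1) ∧ (e = 2 → k = 10 ∧ k₀ = 6 ∧ l = 2) ∧ (e = 4 → k = 14 ∧ k₀ = 6 ∧ l = 4) ∧ (e = 8 → k = 16 ∧ k₀ = 6 ∧ l = 5) := by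
  classical
  haveI := Fintype.ofFinite G
  haveI : Fact (Nat.Prime 3) := ⟨Nat.prime_three⟩
  obtain ⟨⟨-, -, hcomm⟩, hcard⟩ := hE
  obtain ⟨⟨w, hw⟩, hw1⟩ : ∃ w : Subgroup.center (P : Subgroup G), w ≠ 1 := by
    haveI : Nontrivial (Subgroup.center (P : Subgroup G)) :=
      Finite.one_lt_card_iff_nontrivial.1 (by omega)
    exact exists_ne 1
  have hgen : ∀ x : (P : Subgroup G), x ∈ Subgroup.center (P : Subgroup G) →
      (x : G) ∈ Subgroup.zpowers (w : G) := by
    intro x hx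
    obtain ⟨i, hi⟩ := Subgroup.mem_zpowers_iff.1 (mem_zpowers_of_prime_card hcard
      (g := (⟨w, hw⟩ : Subgroup.center (P : Subgroup G))) (g' := ⟨x, hx⟩) hw1)
    exact Subgroup.mem_zpowers_iff.2 ⟨i, by
      simpa using congrArg (fun u : Subgroup.center (P : Subgroup G) => ((u : (P : Subgroup G)) : G)) hi⟩
  have hS : Cfsg.Agent.H31.Extra27.Setup P (w : G) :=
    { card := h27
      exp := hexp
      z_mem := w.2
      z_ne := fun e => hw1 (Subtype.ext (Subtype.ext e))
      z_comm := fun x hx => congrArg Subtype.val (Subgroup.mem_center_iff.1 hw ⟨x, hx⟩)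
      center := fun x hx hc => hgen ⟨x, hx⟩ (Subgroup.mem_center_iff.2 fun v =>
        Subtype.ext (hc v v.2).symm)
      derived := fun x hx y hy => by
        have h1 : ⁅(⟨x, hx⟩ : (P : Subgroup G)), ⟨y, hy⟩⁆ ∈ commutator (P : Subgroup G) :=
          Subgroup.commutator_mem_commutator (Subgroup.mem_top _) (Subgroup.mem_top _)
        rw [hcomm] at h1
        simpa [commutatorElement_def] using hgen _ h1
      norm := fun n hn => hNC n hn w w.2 fun y hy =>
        (congrArg Subtype.val (Subgroup.mem_center_iff.1 hw ⟨y, hy⟩)).symm }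
  subst hk hk₀ hl
  refine ⟨fun e1 => ?_, fun e2 => ?_, fun e4 => ?_, fun e8 => ?_⟩
  · subst e1
    obtain ⟨h1, h2, h3⟩ := hS.counts_one hM he
    exact ⟨h1, h3, h2⟩
  · obtain ⟨m, r, h1, h2, h3, h4, h5⟩ := hS.counts hM (he.trans e2) (Or.inl rfl)
    exact ⟨by omega, h5, by omega⟩
  · obtain ⟨m, r, h1, h2, h3, h4, h5⟩ := hS.counts hM (he.trans e4) (Or.inr (Or.inl rfl))
    exact ⟨by omega, h5, by omega⟩
  · obtain ⟨m, r, h1, h2, h3, h4, h5⟩ := hS.counts hM (he.trans e8) (Or.inr (Or.inr rfl))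
    exact ⟨by omega, h5, by omega⟩

end Cfsg.Agent.S4752
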