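import Cfsg.Statements.S4754
import Cfsg.Agent.H44.ClassTools

set_option autoImplicit false
open Cfsg

namespace Cfsg.Agent.S4754

/-- For elements x, y of a finite group G, the conjugacy class of x y equals the set of all products of a conjugate of x with a conjugate of y if and only if χ(1) χ(a x a⁻¹ b y b⁻¹) = χ(x) χ(y) for all a, b ∈ G and every irreducible character χ. -/
theorem result {G : Type*} [Group G] [Finite G] (x y : G) : (∀ z : G, IsConj (x * y) z ↔ ∃ a b : G, z = a * x * a⁻¹ * (b * y * b⁻¹)) ↔ ∀ (a b : G) (χ : Cfsg.IrrCharacter G), (χ : G → ℂ) 1 * (χ : G → ℂ) (a * x * a⁻¹ * (b * y * b⁻¹)) = (χ : G → ℂ) x * (χ : G → ℂ) y := by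
  constructor
  · intro hc a b χ
    have hmem : ∀ a b : G, IsConj (x * y) (a * x * a⁻¹ * (b * y * b⁻¹)) :=
      fun a b => (hc _).mpr ⟨a, b, rfl⟩
    rw [← H26.irr_eq_of_isConj χ (hmem a b)]
    exact H44.mul_eq_of_class_mul x y hmem χ
  · intro h
    have hall : ∀ a b : G, IsConj (x * y) (a * x * a⁻¹ * (b * y * b⁻¹)) := by
      intro a b
      refine (H26.isConj_iff_forall_irr _ _).mpr fun χ => ?_
      refine mul_left_cancel₀ (H26.irr_one_ne_zero χ) ?_
      rw [h a b χ, ← h 1 1 χ]
      simp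
    intro z
    constructor
    · intro hz
      obtain ⟨c, rfl⟩ := isConj_iff.mp hz
      exact ⟨c, c, by group⟩
    · rintro ⟨a, b, rfl⟩
      exact hall a b

end Cfsg.Agent.S4754
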