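import Cfsg.Statements.S4755
import Cfsg.Agent.H44.ClassTools

set_option autoImplicit false
open Cfsg

namespace Cfsg.Agent.S4755

/-- Let x, y be non-identity elements of the finite group G such that χ(x' y') = χ(x') χ(y') for all conjugates x' of x, y' of y and every irreducible character χ. Then the conjugacy class of x y is the set of all products of a conjugate of x with a conjugate of y; every irreducible character of degree greater than 1 vanishes at x y; and the conjugacy class of x y is the coset of the commutator subgroup containing x y. -/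
theorem result {G : Type*} [Group G] [Finite G] (x y : G) (hx : x ≠ 1) (hy : y ≠ 1) (h : ∀ (a b : G) (χ : Cfsg.IrrCharacter G), (χ : G → ℂ) (a * x * a⁻¹ * (b * y * b⁻¹)) = (χ : G → ℂ) (a * x * a⁻¹) * (χ : G → ℂ) (b * y * b⁻¹)) : (∀ z : G, IsConj (x * y) z ↔ ∃ a b : G, z = a * x * a⁻¹ * (b * y * b⁻¹)) ∧ (∀ χ : Cfsg.IrrCharacter G, (χ : G → ℂ) 1 ≠ 1 → (χ : G → ℂ) (x * y) = 0) ∧ (∀ z : G, IsConj (x * y) z ↔ (x * y)⁻¹ * z ∈ commutator G) := by
  classical
  haveI := Fintype.ofFinite G
  have hval : ∀ (a b : G) (χ : Cfsg.IrrCharacter G),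
      (χ : G → ℂ) (a * x * a⁻¹ * (b * y * b⁻¹)) = (χ : G → ℂ) x * (χ : G → ℂ) y := fun a b χ => by
    rw [h a b χ, H26.irr_conj, H26.irr_conj]
  have hxy : ∀ χ : Cfsg.IrrCharacter G, (χ : G → ℂ) (x * y) = (χ : G → ℂ) x * (χ : G → ℂ) y :=
    fun χ => by simpa using hval 1 1 χ
  have hall : ∀ a b : G, IsConj (x * y) (a * x * a⁻¹ * (b * y * b⁻¹)) := fun a b =>
    (H26.isConj_iff_forall_irr _ _).mpr fun χ => (hxy χ).trans (hval a b χ).symm
  have hvan : ∀ χ : Cfsg.IrrCharacter G, (χ : G → ℂ) 1 ≠ 1 → (χ : G → ℂ) (x * y) = 0 := by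
    intro χ hχ
    have h1 := H44.mul_eq_of_class_mul x y hall χ
    rw [← hxy χ] at h1
    by_contra h0
    exact hχ ((mul_eq_right₀ h0).mp h1)
  refine ⟨fun z => ⟨fun hz => ?_, fun ⟨a, b, hab⟩ => hab ▸ hall a b⟩, hvan, ?_⟩
  · obtain ⟨c, rfl⟩ := isConj_iff.mp hz
    exact ⟨c, c, by group⟩
  set w := x * y with hw
  have hsub : ∀ z, IsConj w z → w⁻¹ * z ∈ commutator G := by
    intro z hz
    obtain ⟨c, rfl⟩ := isConj_iff.mp hz
    rw [show w⁻¹ * (c * w * c⁻¹) = w⁻¹ * c * w⁻¹⁻¹ * c⁻¹ by group]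
    exact Subgroup.commutator_mem_commutator (Subgroup.mem_top (w⁻¹)) (Subgroup.mem_top c)
  -- the centralizer of `w` has order `|G : G'|`
  have hC : Nat.card (Subgroup.centralizer ({w} : Set G)) = Nat.card (G ⧸ commutator G) := by
    have hiff := (H44.card_centralizer_eq_quotient_iff (commutator G) w).mpr fun χ hχ =>
      hvan χ (fun h1 => hχ ((H44.irr_one_eq_one_iff χ).mp h1))
    rw [hiff]
    have : Subgroup.centralizer ({(w : G ⧸ commutator G)} : Set (G ⧸ commutator G)) = ⊤ := by
      refine top_unique fun q _ => ?_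
      rw [Subgroup.mem_centralizer_singleton_iff]
      exact (Abelianization.commGroup G).mul_comm q _
    rw [this, Subgroup.card_top]
  have hclass : Nat.card {z : G // IsConj w z} = Nat.card (commutator G) := by
    have h1 := H44.card_isConj_mul_card_centralizer w
    rw [hC, (commutator G).card_eq_card_quotient_mul_card_subgroup,
      mul_comm (Nat.card (G ⧸ commutator G))] at h1
    exact Nat.eq_of_mul_eq_mul_right Nat.card_pos h1
  intro z
  refine ⟨hsub z, fun hz => ?_⟩
  let f : {z : G // IsConj w z} → commutator G := fun z => ⟨w⁻¹ * z.1, hsub z.1 z.2⟩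
  have hf : Function.Injective f := fun a b e => by
    have := congrArg Subtype.val e
    exact Subtype.ext (mul_left_cancel this)
  obtain ⟨a, ha⟩ := ((Nat.bijective_iff_injective_and_card f).mpr ⟨hf, hclass⟩).2 ⟨_, hz⟩
  have := congrArg Subtype.val ha
  exact mul_left_cancel this ▸ a.2

end Cfsg.Agent.S4755
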