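import Cfsg.Statements.S4756
import Cfsg.Agent.H88.MultCharacters

set_option autoImplicit false
open Cfsg

namespace Cfsg.Agent.S4756

/-- For a finite group G the following are equivalent. (1) χ(x y) = χ(x) χ(y) for every irreducible character χ and all non-identity elements x, y of prime power orders for two different primes. (2) G is a p-group for some prime p, or G is abelian, or for some prime p: G = A P with P a normal Sylow p-subgroup and A a nontrivial cyclic subgroup of order prime to p such that, with C = C_P(A) and D = [A, P], one has P = C D, C abelian, D normal in G, C ∩ D = 1, and A acts fixed-point-freely on D (no non-identity element of A centralizes a non-identity element of D). -/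
theorem result {G : Type*} [Group G] [Finite G] : (∀ (x y : G) (χ : Cfsg.IrrCharacter G), x ≠ 1 → y ≠ 1 → (∃ p q a b : ℕ, p.Prime ∧ q.Prime ∧ p ≠ q ∧ orderOf x = p ^ a ∧ orderOf y = q ^ b) → (χ : G → ℂ) (x * y) = (χ : G → ℂ) x * (χ : G → ℂ) y) ↔ ((∃ p : ℕ, p.Prime ∧ IsPGroup p G) ∨ IsMulCommutative G ∨ ∃ (p : ℕ) (_ : Fact p.Prime) (P : Sylow p G) (A : Subgroup G), (P : Subgroup G).Normal ∧ IsCyclic ↥A ∧ A ≠ ⊥ ∧ (Nat.card ↥A).Coprime p ∧ A ⊔ (P : Subgroup G) = ⊤ ∧ IsMulCommutative ↥((P : Subgroup G) ⊓ Subgroup.centralizer (A : Set G)) ∧ (⁅A, (P : Subgroup G)⁆).Normal ∧ ((P : Subgroup G) ⊓ Subgroup.centralizer (A : Set G)) ⊔ ⁅A, (P : Subgroup G)⁆ = (P : Subgroup G) ∧ ((P : Subgroup G) ⊓ Subgroup.centralizer (A : Set G)) ⊓ ⁅A, (P : Subgroup G)⁆ = ⊥ ∧ ∀ a ∈ A, a ≠ 1 → ∀ d ∈ ⁅A, (P : Subgroup G)⁆, a * d = d * a → d = 1) := by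
  refine ⟨fun h => Cfsg.Agent.H88.MultCharacters.forward fun x y χ hxy => h x y χ hxy.1 hxy.2.1 hxy.2.2, fun h x y χ hx hy hpq => ?_⟩
  exact Cfsg.Agent.H88.MultCharacters.backward h x y χ ⟨hx, hy, hpq⟩

end Cfsg.Agent.S4756
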