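import Cfsg.Statements.S4757
import Cfsg.Agent.H44.UniqueDivisibleDegree
import Cfsg.Agent.H44.TISylow

set_option autoImplicit false
open Cfsg
open scoped ComplexConjugate

namespace Cfsg.Agent.S4757

/-- Let u ≠ 1 be an element of the finite group G and c a complex number such that every non-principal irreducible character χ satisfies χ(1) − χ(u) = c or χ(u) = 0. Then the following are equivalent: (a) u has order 2, G is generated by u together with O(G), the largest normal subgroup of G of odd order, and the centralizer of u is {1, u}; (b) G is not perfect; (c) c = 2. -/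
theorem result {G : Type*} [Group G] [Finite G] (u : G) (hu : u ≠ 1) (c : ℂ) (hyp : ∀ χ : Cfsg.IrrCharacter G, (χ : G → ℂ) ≠ (fun _ => (1 : ℂ)) → ((χ : G → ℂ) 1 - (χ : G → ℂ) u = c ∨ (χ : G → ℂ) u = 0)) : ((orderOf u = 2 ∧ Subgroup.zpowers u ⊔ Cfsg.oddCore G = ⊤ ∧ Subgroup.centralizer ({u} : Set G) = Subgroup.zpowers u) ↔ commutator G ≠ ⊤) ∧ (commutator G ≠ ⊤ ↔ c = 2) := by
  classical
  haveI := Fintype.ofFinite G
  have hlin : ∀ lam : Cfsg.IrrCharacter G, lam.1 1 = 1 → lam ≠ H26.oneIrr G →
      ∃ f : G →* ℂˣ, (∀ g, (f g : ℂ) = lam.1 g) ∧ 1 - (f u : ℂ) = c := by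
    intro lam h1 hne
    obtain ⟨f, hf⟩ := H26.exists_hom_of_isCharacter_one (H26.irr_isCharacter lam) h1
    refine ⟨f, hf, ?_⟩
    rcases hyp lam (fun e => hne (Subtype.ext (e.trans (funext fun g => (H26.oneIrr_val g).symm))))
      with h | h
    · rw [hf, ← h1]; exact h
    · rw [← hf] at h
      exact absurd h (f u).ne_zero
  have hcol : (1 : ℂ) + ∑ χ ∈ Finset.univ.filter (fun χ : Cfsg.IrrCharacter G => χ ≠ H26.oneIrr G),
      χ.1 u * χ.1 1 = 0 := by
    have h := H26.column_orthogonality u (1 : G)
    rw [show H26.classIndicator (1 : G) u = 0 from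
      if_neg (fun h => hu (isConj_one_left.mp h)), mul_zero] at h
    rw [← Finset.add_sum_erase _ _ (Finset.mem_univ (H26.oneIrr G))] at h
    rw [Finset.filter_ne']
    refine Eq.trans ?_ h
    congr 1
    · simp [H26.oneIrr_val]
    · refine Finset.sum_congr rfl fun χ _ => ?_
      rw [← H44.cast_charDegree, Complex.conj_natCast]
  have hnlin : ∀ χ : Cfsg.IrrCharacter G, χ.1 1 ≠ 1 → 2 ≤ Cfsg.charDegree (χ : G → ℂ) := by
    intro χ h
    have h1 := H44.charDegree_pos χ
    by_contra h2
    exact h (by rw [← H44.cast_charDegree, show Cfsg.charDegree (χ : G → ℂ) = 1 by omega, Nat.cast_one])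
  -- not perfect gives a single nontrivial linear character of value `-1`
  have hnp : commutator G ≠ ⊤ → ∃ lam : Cfsg.IrrCharacter G, lam ≠ H26.oneIrr G ∧ lam.1 1 = 1 ∧
      lam.1 u = -1 ∧ c = 2 ∧
      ∀ μ : Cfsg.IrrCharacter G, μ.1 1 = 1 → μ = H26.oneIrr G ∨ μ = lam := by
    intro hnp
    obtain ⟨lam, hlam, hne⟩ : ∃ lam : Cfsg.IrrCharacter G, lam.1 1 = 1 ∧ lam ≠ H26.oneIrr G := by
      by_contra hcon
      push Not at hcon
      refine hnp (eq_top_iff.mpr fun g _ => H44.mem_of_forall_kerOf (commutator G) fun χ hχ => ?_)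
      rw [hcon χ ((H44.irr_one_eq_one_iff χ).mpr hχ), H44.kerOf_oneIrr]
      trivial
    obtain ⟨f, hf, hfc⟩ := hlin lam hlam hne
    have hw1 : (f u : ℂ) ≠ 1 := by
      intro h1
      rw [h1, sub_self] at hfc
      have hterm : ∀ χ ∈ Finset.univ.filter (fun χ : Cfsg.IrrCharacter G => χ ≠ H26.oneIrr G),
          0 ≤ (χ.1 u * χ.1 1).re := by
        intro χ hχ
        rcases hyp χ (fun e => (Finset.mem_filter.mp hχ).2
          (Subtype.ext (e.trans (funext fun g => (H26.oneIrr_val g).symm)))) with h | h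
        · rw [← hfc, sub_eq_zero] at h
          rw [← h, ← H44.cast_charDegree, ← Nat.cast_mul, Complex.natCast_re]
          positivity
        · simp [h]
      have h2 := congrArg Complex.re hcol
      rw [Complex.add_re, Complex.one_re, Complex.re_sum, Complex.zero_re] at h2
      have := Finset.sum_nonneg hterm
      linarith
    have key : ∀ μ : Cfsg.IrrCharacter G, μ.1 1 = 1 → μ ≠ H26.oneIrr G → μ.1 u = f u := by
      intro μ h1 h2
      obtain ⟨g, hg, hgc⟩ := hlin μ h1 h2
      rw [← hg]
      linear_combination hfc - hgc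
    have hsq : ∀ a b : G →* ℂˣ, (a u : ℂ) = f u → (b u : ℂ) = f u → a * b = 1 := by
      intro a b ha hb
      by_contra hne'
      have h := key ⟨_, H26.isIrrCharacter_hom (a * b)⟩ (by simp) (fun e => hne' (MonoidHom.ext
        fun g => Units.ext (by simpa [H26.oneIrr_val] using congrFun (congrArg Subtype.val e) g)))
      simp only [MonoidHom.mul_apply, Units.val_mul, ha, hb] at h
      exact hw1 (mul_eq_right₀ (f u).ne_zero |>.mp h)
    have hff := hsq f f rfl rfl
    have hval : (f u : ℂ) = -1 := by
      have h := congrArg (fun a : G →* ℂˣ => (a u : ℂ)) hff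
      simp only [MonoidHom.mul_apply, Units.val_mul, MonoidHom.one_apply, Units.val_one] at h
      exact (mul_self_eq_one_iff.mp h).resolve_left hw1
    refine ⟨lam, hne, hlam, by rw [← hf, hval], by rw [← hfc, hval]; norm_num, fun μ hμ => ?_⟩
    by_cases h1 : μ = H26.oneIrr G
    · exact .inl h1
    · obtain ⟨g, hg⟩ := H26.exists_hom_of_isCharacter_one (H26.irr_isCharacter μ) hμ
      have hgu : (g u : ℂ) = f u := by rw [hg]; exact key μ hμ h1
      have hgf : g = f := mul_right_cancel ((hsq g f hgu rfl).trans hff.symm)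
      exact .inr (Subtype.ext (funext fun x => by rw [← hg, ← hf, hgf]))
  have hperf : c = 2 → commutator G ≠ ⊤ := by
    intro hc htop
    have hterm : ∀ χ ∈ Finset.univ.filter (fun χ : Cfsg.IrrCharacter G => χ ≠ H26.oneIrr G),
        0 ≤ (χ.1 u * χ.1 1).re := by
      intro χ hχ
      have hne := (Finset.mem_filter.mp hχ).2
      have h2 : 2 ≤ Cfsg.charDegree (χ : G → ℂ) := by
        refine hnlin χ fun h1 => hne ?_
        refine H44.eq_oneIrr_of_kerOf_eq_top ?_
        rw [eq_top_iff, ← htop]
        exact (H44.irr_one_eq_one_iff χ).mp h1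
      rcases hyp χ (fun e => hne (Subtype.ext (e.trans (funext fun g => (H26.oneIrr_val g).symm))))
        with h | h
      · rw [hc] at h
        rw [show χ.1 u = χ.1 1 - 2 by linear_combination -h, ← H44.cast_charDegree]
        have : (2 : ℝ) ≤ (Cfsg.charDegree (χ : G → ℂ) : ℝ) := by exact_mod_cast h2
        simp only [Complex.mul_re, Complex.sub_re, Complex.natCast_re, Complex.sub_im,
          Complex.natCast_im, mul_zero, sub_zero]
        norm_num
        nlinarith
      · simp [h]
    have h2 := congrArg Complex.re hcol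
    rw [Complex.add_re, Complex.one_re, Complex.re_sum, Complex.zero_re] at h2
    have := Finset.sum_nonneg hterm
    linarith
  refine ⟨⟨fun ⟨ho, hgen, _⟩ htop => ?_, fun hn => ?_⟩,
    ⟨fun hn => (hnp hn).choose_spec.2.2.2.1, hperf⟩⟩
  · -- the odd core is a proper normal subgroup with abelian quotient
    haveI : (Cfsg.oddCore G).Normal := H44.pPrimeCore_normal' 2
    have hne : Cfsg.oddCore G ≠ ⊤ := by
      intro e
      have h := H44.pPrimeCore_card_coprime' (G := G) 2
      rw [show Cfsg.pPrimeCore 2 G = ⊤ from e, Subgroup.card_top] at h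
      have hd : 2 ∣ Nat.card G := ho ▸ orderOf_dvd_natCard u
      exact absurd (Nat.eq_one_of_dvd_coprimes h hd dvd_rfl) (by norm_num)
    refine hne (top_unique ?_)
    rw [← htop, commutator_def, Subgroup.commutator_le]
    intro a _ b _
    have hdec : ∀ x : G, ∃ i : ℤ, (x : G ⧸ Cfsg.oddCore G) = (u : G ⧸ Cfsg.oddCore G) ^ i := by
      intro x
      have hx : x ∈ Subgroup.zpowers u ⊔ Cfsg.oddCore G := hgen ▸ Subgroup.mem_top x
      obtain ⟨y, hy, z, hz, rfl⟩ := Subgroup.mem_sup_of_normal_right.mp hx
      obtain ⟨i, rfl⟩ := Subgroup.mem_zpowers_iff.mp hy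
      exact ⟨i, by rw [QuotientGroup.mk_mul, (QuotientGroup.eq_one_iff z).mpr hz, mul_one,
        QuotientGroup.mk_zpow]⟩
    obtain ⟨i, hi⟩ := hdec a
    obtain ⟨j, hj⟩ := hdec b
    rw [← QuotientGroup.eq_one_iff, commutatorElement_def]
    simp only [QuotientGroup.mk_mul, QuotientGroup.mk_inv, hi, hj]
    group
  · obtain ⟨lam, hlne, hl1, hlu, hc, huniq⟩ := hnp hn
    have hnl : ∀ χ : Cfsg.IrrCharacter G, χ.1 1 ≠ 1 → χ.1 u = 0 := by
      have hterm : ∀ χ : Cfsg.IrrCharacter G, χ.1 1 ≠ 1 → 0 ≤ (χ.1 u * χ.1 1).re ∧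
          ((χ.1 u * χ.1 1).re = 0 → χ.1 u = 0) := by
        intro χ h1
        rcases hyp χ (fun e => h1 (by rw [e])) with h | h
        · rw [hc] at h
          have hu' : χ.1 u = ((((Cfsg.charDegree (χ : G → ℂ) : ℕ) : ℝ) - 2 : ℝ) : ℂ) := by
            push_cast
            rw [H44.cast_charDegree]
            linear_combination -h
          have h2 : (2 : ℝ) ≤ (Cfsg.charDegree (χ : G → ℂ) : ℝ) := by exact_mod_cast hnlin χ h1
          rw [hu', ← H44.cast_charDegree]
          simp only [Complex.mul_re, Complex.ofReal_re, Complex.natCast_re, Complex.ofReal_im,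
            Complex.natCast_im, mul_zero, sub_zero]
          refine ⟨by nlinarith, fun h0 => ?_⟩
          rcases mul_eq_zero.mp h0 with h0 | h0
          · rw [h0]; simp
          · nlinarith
        · simp [h]
      intro χ hχ
      refine (hterm χ hχ).2 ?_
      have h2 := congrArg Complex.re hcol
      rw [Complex.add_re, Complex.one_re, Complex.re_sum, Complex.zero_re,
        ← Finset.add_sum_erase _ _ (Finset.mem_filter.mpr ⟨Finset.mem_univ lam, hlne⟩),
        hlu, hl1, mul_one, Complex.neg_re, Complex.one_re] at h2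
      have h3 : ∀ ψ ∈ (Finset.univ.filter (fun χ : Cfsg.IrrCharacter G => χ ≠ H26.oneIrr G)).erase lam,
          ψ.1 1 ≠ 1 := by
        intro ψ hψ h1
        obtain ⟨ha, hb⟩ := Finset.mem_erase.mp hψ
        rcases huniq ψ h1 with h | h
        · exact (Finset.mem_filter.mp hb).2 h
        · exact ha h
      refine (Finset.sum_eq_zero_iff_of_nonneg fun ψ hψ => (hterm ψ (h3 ψ hψ)).1).mp
        (by linarith) χ (Finset.mem_erase.mpr ⟨fun e => hχ (e ▸ hl1), Finset.mem_filter.mpr
          ⟨Finset.mem_univ _, fun e => hχ (e ▸ H26.oneIrr_val 1)⟩⟩)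
    have hidx : (commutator G).index = 2 := by
      rw [← H26.card_linear_irr, Nat.card_eq_two_iff]
      refine ⟨⟨H26.oneIrr G, H26.oneIrr_val 1⟩, ⟨lam, hl1⟩,
        fun e => hlne (congrArg Subtype.val e).symm, Set.eq_univ_of_forall fun x => ?_⟩
      rcases huniq x.1 x.2 with h | h
      · exact Or.inl (Subtype.ext h)
      · exact Or.inr (Subtype.ext h)
    have hC : Nat.card (Subgroup.centralizer ({u} : Set G)) = 2 := by
      have h := H44.card_centralizer_eq_index_add u
      rw [Finset.sum_eq_zero fun χ hχ => by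
        rw [hnl χ (Finset.mem_filter.mp hχ).2, norm_zero, zero_pow two_ne_zero], add_zero, hidx] at h
      exact_mod_cast h
    have hmem : u ∈ Subgroup.centralizer ({u} : Set G) := Subgroup.mem_centralizer_singleton_iff.mpr rfl
    have ho : orderOf u = 2 := by
      have h := Subgroup.orderOf_dvd_natCard _ hmem
      rw [hC] at h
      exact ((Nat.dvd_prime Nat.prime_two).mp h).resolve_left fun e => hu (orderOf_eq_one_iff.mp e)
    have hCz : Subgroup.centralizer ({u} : Set G) = Subgroup.zpowers u :=
      (Subgroup.eq_of_le_of_card_ge (Subgroup.zpowers_le.mpr hmem)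
        (by rw [Nat.card_zpowers, ho, hC])).symm
    refine ⟨ho, ?_, hCz⟩
    haveI : Fact (Nat.Prime 2) := ⟨Nat.prime_two⟩
    have hodd : (Nat.card (commutator G)).Coprime 2 := by
      obtain ⟨S, hS⟩ := (IsPGroup.of_card (p := 2) (n := 1)
        (show Nat.card (Subgroup.zpowers u) = 2 ^ 1 by rw [Nat.card_zpowers, ho, pow_one])).exists_le_sylow
      have huS := hS (Subgroup.mem_zpowers u)
      haveI : Nontrivial (S : Subgroup G) :=
        ⟨⟨u, huS⟩, 1, fun e => hu (congrArg Subtype.val e)⟩
      haveI := S.isPGroup'.center_nontrivial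
      obtain ⟨z, hz⟩ := exists_ne (1 : Subgroup.center (S : Subgroup G))
      have hzu : ((z.1 : (S : Subgroup G)) : G) ∈ Subgroup.zpowers u := by
        rw [← hCz, Subgroup.mem_centralizer_singleton_iff]
        exact congrArg Subtype.val (Subgroup.mem_center_iff.mp z.2 ⟨u, huS⟩).symm
      have hzeq : ((z.1 : (S : Subgroup G)) : G) = u := by
        obtain ⟨i, hi⟩ := (Subgroup.mem_zpowers_iff.mp hzu)
        rw [← hi, ← zpow_mod_orderOf, ho]
        rcases Int.emod_two_eq i with h | h
        · exfalso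
          refine hz (Subtype.ext (Subtype.ext ?_))
          rw [← hi, ← zpow_mod_orderOf, ho]
          norm_num [h]
        · norm_num [h]
      have hSC : (S : Subgroup G) ≤ Subgroup.centralizer ({u} : Set G) := fun x hx => by
        rw [Subgroup.mem_centralizer_singleton_iff, ← hzeq]
        exact congrArg Subtype.val (Subgroup.mem_center_iff.mp z.2 ⟨x, hx⟩)
      have hS2 : Nat.card (S : Subgroup G) ≤ 2 := (Subgroup.card_le_of_le hSC).trans hC.le
      refine Nat.Coprime.symm (Nat.prime_two.coprime_iff_not_dvd.mpr fun hd => ?_)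
      have h4 : 4 ∣ Nat.card G := by
        rw [← (commutator G).card_mul_index, hidx]
        exact Nat.mul_dvd_mul_right hd 2
      have h5 := S.card_eq_multiplicity
      have h6 : 2 ≤ (Nat.card G).factorization 2 :=
        (Nat.prime_two.pow_dvd_iff_le_factorization Nat.card_pos.ne').mp h4
      have := Nat.pow_le_pow_right (n := 2) (by norm_num) h6
      omega
    have hle : commutator G ≤ Cfsg.oddCore G := by
      refine le_sSup ?_
      exact ⟨inferInstance, hodd⟩
    have hu' : u ∉ commutator G := by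
      intro h
      have hd : 2 ∣ Nat.card (commutator G) := ho ▸ Subgroup.orderOf_dvd_natCard _ h
      exact absurd (Nat.eq_one_of_dvd_coprimes hodd hd dvd_rfl) (by norm_num)
    refine top_unique (le_trans ?_ (sup_le_sup_left hle _))
    have h2 : (Subgroup.zpowers u ⊔ commutator G).index = 1 := by
      have hd := Subgroup.index_dvd_of_le (le_sup_right : commutator G ≤ Subgroup.zpowers u ⊔ commutator G)
      rw [hidx] at hd
      refine ((Nat.dvd_prime Nat.prime_two).mp hd).resolve_right fun e => hu' ?_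
      rw [Subgroup.eq_of_le_of_card_ge (le_sup_right : commutator G ≤ Subgroup.zpowers u ⊔ commutator G) ?_]
      · exact Subgroup.mem_sup_left (Subgroup.mem_zpowers u)
      · refine le_of_eq (Nat.eq_of_mul_eq_mul_right two_pos ?_)
        nth_rewrite 1 [← e]
        rw [Subgroup.card_mul_index, ← hidx, Subgroup.card_mul_index]
    rw [Subgroup.index_eq_one.mp h2]

end Cfsg.Agent.S4757
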