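import Cfsg.Statements.S4762
import Cfsg.Agent.H44.UniqueDivisibleDegree

set_option autoImplicit false
open Cfsg

namespace Cfsg.Agent.S4762

/-- Let p be a prime and G a finite nilpotent group. Then G has exactly one irreducible complex character of degree divisible by p if and only if p = 2 and G is an extraspecial 2-group. -/
theorem result {G : Type*} [Group G] [Finite G] [Group.IsNilpotent G] (p : ℕ) [Fact p.Prime] : Nat.card {χ : Cfsg.IrrCharacter G // p ∣ Cfsg.charDegree (χ : G → ℂ)} = 1 ↔ (p = 2 ∧ Cfsg.IsExtraspecial 2 G) := by
  constructor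
  · exact fun h => H44.extraspecial_of_unique (H44.isPGroup_of_unique h) h
  · rintro ⟨rfl, hE⟩
    exact H44.unique_of_extraspecial hE

end Cfsg.Agent.S4762
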