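import Cfsg.Statements.S4765
import Cfsg.Agent.H44.PSL2Degrees

set_option autoImplicit false
open Cfsg

namespace Cfsg.Agent.S4765

/-- Let F be a finite field of characteristic p with at least 4 elements. Then PSL(2,F) has exactly one irreducible complex character of degree divisible by p, and its degree is the order of F. -/
theorem result (p : ℕ) [Fact p.Prime] (F : Type*) [Field F] [Fintype F] [CharP F p] (hF : 4 ≤ Fintype.card F) : Nat.card {χ : Cfsg.IrrCharacter (Matrix.ProjectiveSpecialLinearGroup (Fin 2) F) // p ∣ Cfsg.charDegree (χ : Matrix.ProjectiveSpecialLinearGroup (Fin 2) F → ℂ)} = 1 ∧ ∀ χ : Cfsg.IrrCharacter (Matrix.ProjectiveSpecialLinearGroup (Fin 2) F), p ∣ Cfsg.charDegree (χ : Matrix.ProjectiveSpecialLinearGroup (Fin 2) F → ℂ) → Cfsg.charDegree (χ : Matrix.ProjectiveSpecialLinearGroup (Fin 2) F → ℂ) = Fintype.card F := by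
  classical
  have key : ∀ χ : Cfsg.IrrCharacter (Matrix.ProjectiveSpecialLinearGroup (Fin 2) F),
      p ∣ Cfsg.charDegree (χ : Matrix.ProjectiveSpecialLinearGroup (Fin 2) F → ℂ) →
      Cfsg.charDegree (χ : Matrix.ProjectiveSpecialLinearGroup (Fin 2) F → ℂ) = Fintype.card F :=
    fun χ h => H44.eq_card_of_dvd_degree (H44.charDegrees_psl_subset ⟨χ, rfl⟩) h
  refine ⟨?_, key⟩
  obtain ⟨ψ, hψ⟩ := H44.card_mem_charDegrees_psl (F := F)
  obtain ⟨a, hFc⟩ := FiniteField.card F p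
  refine Nat.card_eq_one_iff_unique.mpr ⟨⟨fun a b => Subtype.ext
    (H44.subsingleton_degree_card a.1 b.1 (key _ a.2) (key _ b.2))⟩, ⟨⟨ψ, ?_⟩⟩⟩
  rw [hψ, hFc.2]
  exact dvd_pow_self p a.pos.ne'

end Cfsg.Agent.S4765
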