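import Cfsg.Statements.S4774
import Cfsg.Agent.H44.PSL2Degrees

set_option autoImplicit false
open Cfsg

namespace Cfsg.Agent.S4774

/-- Let F be a finite field of odd characteristic t with q > 5 elements and let S be isomorphic to PSL(2,F) or to SL(2,F). Then the vertices of the character degree graph of S are the primes dividing q(q²−1); the prime t is adjacent to no vertex; two distinct primes dividing q² − 1 are adjacent exactly when one of them is 2, or both divide q + 1, or both divide q − 1. -/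
theorem result (F : Type*) [Field F] [Fintype F] (t : ℕ) [Fact t.Prime] [CharP F t] (ht : t ≠ 2) (q : ℕ) (hq : Fintype.card F = q) (h5 : 5 < q) {S : Type*} [Group S] [Finite S] (hS : Nonempty (S ≃* Matrix.ProjectiveSpecialLinearGroup (Fin 2) F) ∨ Nonempty (S ≃* Matrix.SpecialLinearGroup (Fin 2) F)) : Cfsg.degreePrimes S = {r : ℕ | r.Prime ∧ r ∣ q * (q ^ 2 - 1)} ∧ ∀ r s : ℕ, (Cfsg.degreeGraph S).Adj r s ↔ (r ≠ s ∧ r.Prime ∧ s.Prime ∧ r ∣ q ^ 2 - 1 ∧ s ∣ q ^ 2 - 1 ∧ (r = 2 ∨ s = 2 ∨ (r ∣ q + 1 ∧ s ∣ q + 1) ∨ (r ∣ q - 1 ∧ s ∣ q - 1))) := by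
  classical
  subst hq
  obtain ⟨a, ha⟩ := FiniteField.card F t
  have hodd : Odd (Fintype.card F) := ha.2 ▸ ((Fact.out : t.Prime).odd_of_ne_two ht).pow
  obtain ⟨k, hk⟩ := hodd
  obtain ⟨hall, hp, hm⟩ := H44.sl2_odd_degrees (F := F) hk (by omega)
  have hc := H44.card_mem_charDegrees_psl (F := F)
  have hsub : ∀ d ∈ Cfsg.charDegrees S, d ∈ Cfsg.charDegrees (Matrix.SpecialLinearGroup (Fin 2) F) := by
    rcases hS with ⟨⟨e⟩⟩ | ⟨⟨e⟩⟩
    · rw [H44.charDegrees_eq_of_equiv e]
      exact H44.charDegrees_psl_subset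
    · rw [H44.charDegrees_eq_of_equiv e]
      exact fun d hd => hd
  have hsup : ∀ d ∈ Cfsg.charDegrees (Matrix.ProjectiveSpecialLinearGroup (Fin 2) F),
      d ∈ Cfsg.charDegrees S := by
    rcases hS with ⟨⟨e⟩⟩ | ⟨⟨e⟩⟩
    · rw [H44.charDegrees_eq_of_equiv e]
      exact fun d hd => hd
    · rw [H44.charDegrees_eq_of_equiv e]
      exact H44.charDegrees_psl_subset
  set q := Fintype.card F with hq
  have hsq : q ^ 2 - 1 = (q + 1) * (q - 1) := by rw [← Nat.sq_sub_sq, one_pow]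
  have hp' : q + 1 ∈ Cfsg.charDegrees S := by rw [hk]; exact hsup _ hp
  have hm' : q - 1 ∈ Cfsg.charDegrees S := by
    rw [hk, Nat.add_sub_cancel]
    exact hsup _ hm
  have hdeg : ∀ d ∈ Cfsg.charDegrees S, d = 1 ∨ d = q ∨ d ∣ q + 1 ∨ d ∣ q - 1 := by
    intro d hd
    rcases hall d (hsub d hd) with rfl | h | h | h | h | h
    · exact .inl rfl
    · exact .inr (.inl (by omega))
    · exact .inr (.inr (.inl (dvd_of_eq (by omega))))
    · exact .inr (.inr (.inl ⟨2, by omega⟩))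
    · exact .inr (.inr (.inr ⟨2, by omega⟩))
    · exact .inr (.inr (.inr (dvd_of_eq (by omega))))
  refine ⟨?_, fun r s => ?_⟩
  · ext r
    simp only [Cfsg.degreePrimes, Set.mem_setOf_eq]
    constructor
    · rintro ⟨hr, d, hd, hrd⟩
      refine ⟨hr, ?_⟩
      rcases hdeg d hd with rfl | rfl | h | h
      · exact absurd hrd hr.not_dvd_one
      · exact hrd.mul_right _
      · rw [hsq]
        exact ((hrd.trans h).mul_right _).mul_left _
      · rw [hsq]
        exact ((hrd.trans h).mul_left _).mul_left _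
    · rintro ⟨hr, h⟩
      rw [hsq] at h
      refine ⟨hr, ?_⟩
      rcases (Nat.Prime.dvd_mul hr).mp h with h | h
      · exact ⟨q, hsup _ hc, h⟩
      · rcases (Nat.Prime.dvd_mul hr).mp h with h | h
        · exact ⟨q + 1, hp', h⟩
        · exact ⟨q - 1, hm', h⟩
  · change (r ≠ s ∧ r.Prime ∧ s.Prime ∧ _) ↔ _
    refine and_congr_right fun hne => and_congr_right fun hr => and_congr_right fun hs => ?_
    constructor
    · rintro ⟨d, hd, hrs⟩
      have h1 := (dvd_mul_right r s).trans hrs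
      have h2 := (dvd_mul_left s r).trans hrs
      rcases hdeg d hd with rfl | rfl | h | h
      · exact absurd h1 hr.not_dvd_one
      · exfalso
        rw [ha.2] at h1 h2
        exact hne (((Nat.prime_dvd_prime_iff_eq hr ha.1).mp (hr.dvd_of_dvd_pow h1)).trans
          ((Nat.prime_dvd_prime_iff_eq hs ha.1).mp (hs.dvd_of_dvd_pow h2)).symm)
      · rw [hsq]
        exact ⟨(h1.trans h).mul_right _, (h2.trans h).mul_right _,
          .inr (.inr (.inl ⟨h1.trans h, h2.trans h⟩))⟩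
      · rw [hsq]
        exact ⟨(h1.trans h).mul_left _, (h2.trans h).mul_left _,
          .inr (.inr (.inr ⟨h1.trans h, h2.trans h⟩))⟩
    · rintro ⟨h1, h2, h⟩
      have hmul : ∀ d, r ∣ d → s ∣ d → r * s ∣ d := fun d =>
        ((Nat.coprime_primes hr hs).mpr hne).mul_dvd_of_dvd_of_dvd
      rw [hsq] at h1 h2
      rcases h with rfl | rfl | ⟨a, b⟩ | ⟨a, b⟩
      · rcases (Nat.Prime.dvd_mul hs).mp h2 with h | h
        · exact ⟨q + 1, hp', hmul _ (Nat.dvd_of_mod_eq_zero (by omega)) h⟩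
        · exact ⟨q - 1, hm', hmul _ (Nat.dvd_of_mod_eq_zero (by omega)) h⟩
      · rcases (Nat.Prime.dvd_mul hr).mp h1 with h | h
        · exact ⟨q + 1, hp', hmul _ h (Nat.dvd_of_mod_eq_zero (by omega))⟩
        · exact ⟨q - 1, hm', hmul _ h (Nat.dvd_of_mod_eq_zero (by omega))⟩
      · exact ⟨q + 1, hp', hmul _ a b⟩
      · exact ⟨q - 1, hm', hmul _ a b⟩

end Cfsg.Agent.S4774
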