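import Cfsg.Statements.S4775
import Cfsg.Agent.H8.SzDegrees

set_option autoImplicit false
open Cfsg
open Cfsg.Agent.H7 Cfsg.Agent.H8.SzSub

namespace Cfsg.Agent.S4775

/-- Let F be a finite field with q = 2^(2m+1) ≥ 8 elements and let S be isomorphic to the Suzuki group over F. Then the vertices of the character degree graph of S are 2 and the primes dividing (q − 1)(q² + 1); the primes dividing (q − 1)(q² + 1) are pairwise adjacent, and 2 is adjacent exactly to the primes dividing q − 1. -/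
theorem result (F : Type*) [Field F] [Fintype F] (m : ℕ) (hm : 1 ≤ m) (q : ℕ) (hq : Fintype.card F = q) (hqm : q = 2 ^ (2 * m + 1)) {S : Type*} [Group S] [Finite S] (hS : Nonempty (S ≃* ↥(Cfsg.Lie.Sz F (2 ^ (m + 1))))) : Cfsg.degreePrimes S = {r : ℕ | r.Prime ∧ (r = 2 ∨ r ∣ (q - 1) * (q ^ 2 + 1))} ∧ ∀ r s : ℕ, (Cfsg.degreeGraph S).Adj r s ↔ (r ≠ s ∧ r.Prime ∧ s.Prime ∧ ((r ∣ (q - 1) * (q ^ 2 + 1) ∧ s ∣ (q - 1) * (q ^ 2 + 1)) ∨ (r = 2 ∧ s ∣ q - 1) ∨ (s = 2 ∧ r ∣ q - 1))) := by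
  subst hqm
  have H := SzHyp.of_fintype hm hq
  haveI := H.finite_Sz
  haveI := Fintype.ofFinite (Cfsg.Sz F m)
  obtain ⟨e⟩ := hS
  have hD := (charDegrees_congr (e.trans H.lieEquiv.symm)).trans (charDegrees_Sz H)
  have huv := ell_arith m
  refine ⟨?_, fun r s => ?_⟩
  · ext p
    simp only [Cfsg.degreePrimes, hD, Set.mem_setOf_eq]
    refine and_congr_right fun hp => ?_
    simp only [Set.mem_insert_iff, Set.mem_singleton_iff]
    constructor
    · rintro ⟨d, (rfl | rfl | rfl | rfl | rfl | rfl), h⟩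
      · exact absurd (Nat.dvd_one.1 h) hp.ne_one
      · exact Or.inl ((Nat.prime_dvd_prime_iff_eq hp Nat.prime_two).1 (hp.dvd_of_dvd_pow (hp.dvd_of_dvd_pow h)))
      · exact Or.inr (h.trans (dvd_mul_left _ _))
      · exact Or.inr (h.trans (mul_dvd_mul_left _ (huv ▸ dvd_mul_left _ _)))
      · exact Or.inr (h.trans (mul_dvd_mul_left _ (huv ▸ dvd_mul_right _ _)))
      · rcases hp.dvd_mul.1 h with h | h
        · exact Or.inr (h.trans (dvd_mul_right _ _))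
        · exact Or.inl ((Nat.prime_dvd_prime_iff_eq hp Nat.prime_two).1 (hp.dvd_of_dvd_pow h))
    · rintro (rfl | h)
      · exact ⟨_, Or.inr (Or.inl rfl), dvd_pow (dvd_pow_self 2 (by omega)) two_ne_zero⟩
      · rcases hp.dvd_mul.1 h with h | h
        · exact ⟨_, Or.inr (Or.inr (Or.inr (Or.inl rfl))), h.trans (dvd_mul_right _ _)⟩
        · exact ⟨_, Or.inr (Or.inr (Or.inl rfl)), h⟩
  · show (r ≠ s ∧ r.Prime ∧ s.Prime ∧ ∃ d ∈ Cfsg.charDegrees S, r * s ∣ d) ↔ _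
    rw [hD]
    exact ⟨fun ⟨a, b, c, d⟩ => ⟨a, b, c, (degree_graph_arith huv rfl hm b c a).1 d⟩,
      fun ⟨a, b, c, d⟩ => ⟨a, b, c, (degree_graph_arith huv rfl hm b c a).2 d⟩⟩

end Cfsg.Agent.S4775
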