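import Cfsg.Statements.S4784
import Cfsg.Agent.H44.Inflation
import Cfsg.Agent.H26.CharFS
import Cfsg.Agent.H25.CharInd

set_option autoImplicit false
open Cfsg

namespace Cfsg.Agent.S4784

/-- Let H be a subgroup of the finite group G and consider the permutation character of G on the cosets of H (the function induced from the principal character of H). Then exactly one irreducible constituent of it is real-valued with Frobenius–Schur indicator +1 (namely the principal character) if and only if the normal core of H has odd index in G. -/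
theorem result {G : Type*} [Group G] [Fintype G] (H : Subgroup G) : Nat.card {χ : Cfsg.IrrCharacter G // Cfsg.classInner (Cfsg.indFun H (fun _ : H => (1 : ℂ))) (χ : G → ℂ) ≠ 0 ∧ (∀ g : G, (starRingEnd ℂ) ((χ : G → ℂ) g) = (χ : G → ℂ) g) ∧ (Nat.card G : ℂ)⁻¹ * ∑ g : G, (χ : G → ℂ) (g * g) = 1} = 1 ↔ Odd H.normalCore.index := by
  classical
  haveI : Fintype H := Fintype.ofFinite H
  set K := H.normalCore with hK
  -- multiplicities
  have hm : ∀ χ : Cfsg.IrrCharacter G, ∃ m : ℕ,
      Cfsg.classInner (Cfsg.indFun H (fun _ : H => (1 : ℂ))) (χ : G → ℂ) = m ∧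
        ∑ h : H, χ.1 h = (Nat.card H : ℂ) * m := by
    intro χ
    obtain ⟨m, hm⟩ := H26.exists_nat_classInner_irr
      (H26.isCharacter_comp (H26.irr_isCharacter χ) H.subtype) (H26.oneIrr H)
    rw [Cfsg.classInner, inv_mul_eq_iff_eq_mul₀ (Nat.cast_ne_zero.mpr Nat.card_pos.ne')] at hm
    have hm' : ∑ h : H, χ.1 h = (Nat.card H : ℂ) * m := by
      rw [← hm]
      exact Finset.sum_congr rfl fun h _ => by rw [H26.oneIrr_val, map_one, mul_one]; rfl
    refine ⟨m, ?_, hm'⟩
    rw [H25.classInner_indFun_left H (fun _ : H => (1 : ℂ)) χ.1 (H26.irr_isClassFunction χ),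
      Cfsg.classInner, inv_mul_eq_iff_eq_mul₀ (Nat.cast_ne_zero.mpr Nat.card_pos.ne')]
    have h2 : ∑ h : H, (1 : ℂ) * (starRingEnd ℂ) (χ.1 h) = (starRingEnd ℂ) (∑ h : H, χ.1 h) := by
      rw [map_sum]
      exact Finset.sum_congr rfl fun h _ => one_mul _
    rw [h2, hm', map_mul, map_natCast, map_natCast]
  choose m hm1 hm2 using hm
  have hν : ∀ χ : Cfsg.IrrCharacter G, H26.fsIndicator χ.1 = 1 →
      ∀ g : G, (starRingEnd ℂ) ((χ : G → ℂ) g) = (χ : G → ℂ) g := by
    intro χ h g
    refine Complex.conj_eq_iff_im.mpr (by_contra fun hg => ?_)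
    have := (H26.fsIndicator_trichotomy χ).2.mpr ⟨g, hg⟩
    rw [h] at this
    exact one_ne_zero this
  have hiff : ∀ χ : Cfsg.IrrCharacter G,
      (Cfsg.classInner (Cfsg.indFun H (fun _ : H => (1 : ℂ))) (χ : G → ℂ) ≠ 0 ∧
        (∀ g : G, (starRingEnd ℂ) ((χ : G → ℂ) g) = (χ : G → ℂ) g) ∧
        (Nat.card G : ℂ)⁻¹ * ∑ g : G, (χ : G → ℂ) (g * g) = 1) ↔
      (m χ ≠ 0 ∧ H26.fsIndicator χ.1 = 1) := by
    intro χ
    rw [hm1, Nat.cast_ne_zero]
    exact ⟨fun h => ⟨h.1, h.2.2⟩, fun h => ⟨h.1, hν χ h.2, h.2⟩⟩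
  rw [Nat.card_congr (Equiv.subtypeEquivRight hiff)]
  have hone : m (H26.oneIrr G) = 1 ∧ H26.fsIndicator (H26.oneIrr G).1 = 1 := by
    constructor
    · have h := hm2 (H26.oneIrr G)
      simp only [H26.oneIrr_val, Finset.sum_const, Finset.card_univ, nsmul_eq_mul, mul_one,
        ← Nat.card_eq_fintype_card] at h
      have h' : Nat.card H = Nat.card H * m (H26.oneIrr G) := by exact_mod_cast h
      exact (mul_eq_left₀ Nat.card_pos.ne').mp h'.symm
    · simp [H26.fsIndicator, H26.oneIrr_val]
  constructor
  · intro hcard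
    -- counting square roots
    have huniq : ∀ χ : Cfsg.IrrCharacter G, χ ≠ H26.oneIrr G → m χ ≠ 0 →
        H26.fsIndicator χ.1 = 1 → False := by
      intro χ hne hmne hν1
      have hle : 1 < Nat.card {χ : Cfsg.IrrCharacter G // m χ ≠ 0 ∧ H26.fsIndicator χ.1 = 1} := by
        rw [Finite.one_lt_card_iff_nontrivial]
        exact ⟨⟨⟨χ, hmne, hν1⟩, ⟨H26.oneIrr G, by rw [hone.1]; exact one_ne_zero, hone.2⟩,
          fun e => hne (congrArg Subtype.val e)⟩⟩
      omega
    have hQ : ((∑ h : H, (Finset.univ.filter fun s : G => s * s = h).card : ℕ) : ℂ).re ≤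
        (Nat.card H : ℝ) := by
      rw [Nat.cast_sum]
      have hsqrt : ∀ h : H, ((Finset.univ.filter fun s : G => s * s = h).card : ℂ) =
          ∑ χ : Cfsg.IrrCharacter G, H26.fsIndicator χ.1 * χ.1 h := fun h => by
        convert H26.card_sqrt_eq_sum (h : G)
      rw [Finset.sum_congr rfl fun h _ => hsqrt h, Finset.sum_comm]
      simp only [← Finset.mul_sum, hm2]
      rw [← Finset.add_sum_erase _ _ (Finset.mem_univ (H26.oneIrr G)), hone.1, hone.2,
        Complex.add_re, Nat.cast_one, one_mul, mul_one, Complex.natCast_re, Complex.re_sum]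
      refine add_le_of_nonpos_right (Finset.sum_nonpos fun χ hχ => ?_)
      by_cases h0 : m χ = 0
      · simp [h0]
      rcases (H26.fsIndicator_trichotomy χ).1 with h | h | h
      · simp [h]
      · exact (huniq χ (Finset.mem_erase.mp hχ).1 h0 h).elim
      · simp [h]
        positivity
    rw [Complex.natCast_re, Nat.cast_le, Nat.card_eq_fintype_card] at hQ
    have hsq : ∀ x : G, x * x ∈ H → x ∈ H := by
      intro x hx
      by_contra hxH
      have h1 : (∑ h : H, (Finset.univ.filter fun s : G => s * s = h).card) =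
          (Finset.univ.filter fun s : G => s * s ∈ H).card := by
        rw [← Finset.card_biUnion]
        · congr 1
          ext s
          simp
        · intro a _ b _ hab
          rw [Function.onFun, Finset.disjoint_left]
          intro s hs hs'
          rw [Finset.mem_filter] at hs hs'
          exact hab (Subtype.ext (hs.2.symm.trans hs'.2))
      have h2 : insert x (Finset.univ.filter fun s : G => s ∈ H) ⊆
          Finset.univ.filter fun s : G => s * s ∈ H := by
        intro s hs
        rw [Finset.mem_insert] at hs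
        refine Finset.mem_filter.mpr ⟨Finset.mem_univ _, ?_⟩
        rcases hs with rfl | hs
        · exact hx
        · exact H.mul_mem (Finset.mem_filter.mp hs).2 (Finset.mem_filter.mp hs).2
      have h3 := Finset.card_le_card h2
      rw [Finset.card_insert_of_notMem (fun h => hxH (Finset.mem_filter.mp h).2),
        ← Fintype.card_subtype, ← h1] at h3
      omega
    rw [← Nat.not_even_iff_odd, even_iff_two_dvd]
    intro h2
    haveI : K.Normal := Subgroup.normalCore_normal H
    haveI := Fact.mk Nat.prime_two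
    obtain ⟨q, hq⟩ := exists_prime_orderOf_dvd_card' (G := G ⧸ K) 2 h2
    obtain ⟨x, rfl⟩ := QuotientGroup.mk'_surjective K q
    have hx2 : x * x ∈ K := by
      rw [← QuotientGroup.eq_one_iff]
      have := pow_orderOf_eq_one (QuotientGroup.mk' K x)
      rw [hq, sq] at this
      exact this
    have hxK : x ∈ K := by
      intro g
      refine hsq _ ?_
      rw [show g * x * g⁻¹ * (g * x * g⁻¹) = g * (x * x) * g⁻¹ by group]
      exact Subgroup.normalCore_le H (Subgroup.Normal.conj_mem inferInstance _ hx2 g)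
    have : QuotientGroup.mk' K x = 1 := (QuotientGroup.eq_one_iff x).mpr hxK
    rw [this, orderOf_one] at hq
    exact absurd hq (by norm_num)
  · intro hodd
    haveI : K.Normal := Subgroup.normalCore_normal H
    rw [Nat.card_eq_one_iff_unique]
    refine ⟨⟨fun a b => ?_⟩, ⟨⟨H26.oneIrr G, by rw [hone.1]; exact one_ne_zero, hone.2⟩⟩⟩
    suffices hh : ∀ χ : Cfsg.IrrCharacter G, m χ ≠ 0 → H26.fsIndicator χ.1 = 1 →
        χ = H26.oneIrr G from
      Subtype.ext ((hh a a.2.1 a.2.2).trans (hh b b.2.1 b.2.2).symm)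
    intro χ hmne hν1
    -- the kernel contains the core
    have hker : K ≤ H44.kerOf χ := by
      obtain ⟨n, ρ, hρ, e⟩ := χ.2
      have hirr := (H26.isIrreducible_iff_forall ρ).mp hρ
      let A : (Fin n → ℂ) →ₗ[ℂ] (Fin n → ℂ) := ∑ h : H, ρ h
      have htr : LinearMap.trace ℂ _ A = (Nat.card H : ℂ) * m χ := by
        rw [← hm2, map_sum, ← e]
        rfl
      have hA : A ≠ 0 := by
        intro h0
        rw [h0, map_zero] at htr
        exact (mul_ne_zero (Nat.cast_ne_zero.mpr Nat.card_pos.ne')
          (Nat.cast_ne_zero.mpr hmne)) htr.symm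
      obtain ⟨w, hw⟩ : ∃ w, A w ≠ 0 := by
        by_contra hall
        push Not at hall
        exact hA (LinearMap.ext hall)
      let U : Submodule ℂ (Fin n → ℂ) :=
        { carrier := {v | ∀ k ∈ K, ρ k v = v}
          add_mem' := fun {a b} ha hb k hk => by rw [map_add, ha k hk, hb k hk]
          zero_mem' := fun k _ => map_zero _
          smul_mem' := fun c a ha k hk => by rw [map_smul, ha k hk] }
      have hUinv : ∀ g : G, ∀ v ∈ U, ρ g v ∈ U := by
        intro g v hv k hk
        have hk' : g⁻¹ * k * g ∈ K := by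
          simpa using Subgroup.Normal.conj_mem inferInstance k hk g⁻¹
        rw [← Module.End.mul_apply, ← map_mul,
          show k * g = g * (g⁻¹ * k * g) by group, map_mul, Module.End.mul_apply, hv _ hk']
      have hwU : A w ∈ U := by
        intro k hk
        simp only [A, LinearMap.sum_apply, map_sum]
        refine Fintype.sum_equiv (Equiv.mulLeft (⟨k, Subgroup.normalCore_le H hk⟩ : H)) _ _
          fun h => ?_
        simp
      have hUtop : U = ⊤ := (hirr.2 U hUinv).resolve_left fun hb => hw (by
        rw [hb, Submodule.mem_bot] at hwU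
        exact hwU)
      intro k hk
      rw [H44.mem_kerOf, ← e, ρ.char_one, H25.char_eq_degree_iff]
      exact LinearMap.ext fun v => (hUtop.symm.le (Submodule.mem_top : v ∈ ⊤)) k hk
    obtain ⟨ψ, rfl⟩ := H44.exists_eq_inflate K χ hker
    haveI : Fintype (G ⧸ K) := Fintype.ofFinite _
    have hψ : ψ = H26.oneIrr (G ⧸ K) := by
      refine H26.real_irr_eq_one_of_odd hodd ψ fun q => ?_
      obtain ⟨g, rfl⟩ := QuotientGroup.mk'_surjective K q
      exact Complex.conj_eq_iff_im.mp (hν _ hν1 g)
    subst hψ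
    exact Subtype.ext (funext fun g => by simp [H44.inflate_apply, H26.oneIrr_val])

end Cfsg.Agent.S4784
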