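import Cfsg.Statements.S4796
import Cfsg.Agent.H44.Codegree
import Cfsg.Agent.H21.FrobeniusBasic

set_option autoImplicit false
open Cfsg

namespace Cfsg.Agent.S4796

/-- Let G be a finite group with a faithful irreducible complex character χ whose codegree #G / χ(1) is a prime p (for a faithful character the kernel is trivial, so the codegree is #G / χ(1)). Then either G is cyclic of order p, or G is a Frobenius group whose Frobenius kernel has order p: some proper non-trivial subgroup H satisfies H ∩ gHg⁻¹ = 1 for every element g outside H, and the set of elements lying in no conjugate of H, together with the identity, has exactly p elements. -/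
theorem result {G : Type*} [Group G] [Finite G] (χ : Cfsg.IrrCharacter G) (hfaith : ∀ g : G, (χ : G → ℂ) g = (χ : G → ℂ) 1 → g = 1) (p : ℕ) (hp : p.Prime) (hcod : Nat.card G = p * Cfsg.charDegree (χ : G → ℂ)) : (IsCyclic G ∧ Nat.card G = p) ∨ ∃ H : Subgroup G, Cfsg.IsFrobeniusComplement H ∧ Nat.card ↥(Cfsg.frobeniusKernel H) = p := by
  classical
  haveI := Fact.mk hp
  have hker : H44.kerOf χ = ⊥ :=
    le_bot_iff.mp fun g hg => Subgroup.mem_bot.mpr (hfaith g hg)
  obtain ⟨P, hPn, hPc, hCP, hcop⟩ := H44.exists_normal_self_centralizing χ hker hp hcod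
  haveI := hPn
  haveI hPcyc : IsCyclic P := isCyclic_of_prime_card hPc
  have hidx : P.index = Cfsg.charDegree (χ : G → ℂ) := by
    have h := P.card_mul_index
    rw [hPc, hcod] at h
    exact Nat.eq_of_mul_eq_mul_left hp.pos h
  by_cases hd : Cfsg.charDegree (χ : G → ℂ) = 1
  · left
    have hG : Nat.card G = p := by rw [hcod, hd, mul_one]
    exact ⟨isCyclic_of_prime_card hG, hG⟩
  right
  obtain ⟨H, hH⟩ := Subgroup.exists_right_complement'_of_coprime (N := P)
    (by rw [hPc, hidx]; exact hcop.symm)
  have hP1 : P ≠ ⊥ := fun h => by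
    rw [h, Subgroup.card_bot] at hPc
    exact hp.one_lt.ne hPc
  have hH1 : H ≠ ⊥ := by
    intro h
    have h2 := Subgroup.IsComplement'.card_mul hH
    rw [h, Subgroup.card_bot, hPc, mul_one, hcod] at h2
    exact hd ((mul_eq_left₀ hp.ne_zero).mp h2.symm)
  have hfc : Cfsg.IsFrobeniusComplement H := by
    refine H21.fc_of_fpf hH hP1 hH1 fun h hh hh1 => (Subgroup.eq_bot_iff_forall _).mpr ?_
    rintro x ⟨hx, hxh⟩
    by_contra hx1
    apply hh1
    have hgen : Subgroup.zpowers (⟨x, hx⟩ : P) = ⊤ :=
      zpowers_eq_top_of_prime_card hPc (fun e => hx1 (congrArg Subtype.val e))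
    have hc : Commute x h := Subgroup.mem_centralizer_singleton_iff.mp hxh
    have : h ∈ Subgroup.centralizer (P : Set G) := by
      rw [Subgroup.mem_centralizer_iff]
      intro y hy
      obtain ⟨k, hk⟩ := (hgen.symm.le (Subgroup.mem_top ⟨y, hy⟩))
      have hy' : x ^ k = y := congrArg Subtype.val hk
      rw [← hy']
      exact (hc.zpow_left k).eq
    rw [hCP] at this
    exact Subgroup.mem_bot.mp (hH.disjoint.le_bot ⟨this, hh⟩)
  refine ⟨H, hfc, ?_⟩
  rw [← hPc, ← H21.coe_eq_kernel_of_isComplement' hfc hH]
  rfl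

end Cfsg.Agent.S4796
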