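import Cfsg.Statements.S4797
import Cfsg.Agent.H44.Codegree

set_option autoImplicit false
open Cfsg

namespace Cfsg.Agent.S4797

/-- The codegree of an irreducible complex character χ of a finite group G is [G : ker χ] / χ(1), where ker χ is the set of elements at which χ takes the value χ(1). A non-trivial finite group is perfect if and only if no irreducible complex character of it has prime codegree. -/
theorem result {G : Type*} [Group G] [Finite G] [Nontrivial G] : commutator G = ⊤ ↔ ∀ χ : Cfsg.IrrCharacter G, ¬ ((Nat.card G / (Nat.card {g : G // (χ : G → ℂ) g = (χ : G → ℂ) 1} * Cfsg.charDegree (χ : G → ℂ)))).Prime := by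
  classical
  constructor
  · intro hperf χ hprime
    obtain ⟨K, hK, ψ, hKdef, hinf, hker, hcard⟩ := H44.exists_deflate χ
    have hdeg : Cfsg.charDegree (χ : G → ℂ) = Cfsg.charDegree (ψ : G ⧸ K → ℂ) := by
      subst hKdef
      rw [← H44.charDegree_inflate]
      congr 1
      exact congrArg Subtype.val hinf.symm
    rw [hdeg] at hcard
    generalize hp : Nat.card G / (Nat.card {g : G // (χ : G → ℂ) g = (χ : G → ℂ) 1} *
      Cfsg.charDegree (χ : G → ℂ)) = p at hprime
    rw [← hdeg, hp, hdeg] at hcard
    haveI := Fact.mk hprime
    obtain ⟨P, hPn, hPc, hCP, -⟩ := H44.exists_normal_self_centralizing ψ hker hprime hcard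
    haveI := hPn
    haveI hPcyc : IsCyclic P := isCyclic_of_prime_card hPc
    -- the image of `G / K` in `Aut P` is abelian, so trivial
    have hperf' : commutator (G ⧸ K) = ⊤ := by
      rw [commutator_def, ← Subgroup.map_top_of_surjective _ (QuotientGroup.mk'_surjective K),
        ← Subgroup.map_commutator, ← commutator_def, hperf]
    let φ : G ⧸ K →* MulAut P := MulAut.conjNormal
    have hφ : ∀ a b, φ a * φ b = φ b * φ a := fun a b => by
      let e := IsCyclic.mulAutMulEquiv P
      exact e.injective (by rw [map_mul, map_mul, mul_comm])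
    have hker' : φ.ker = ⊤ := by
      rw [eq_top_iff, ← hperf', commutator_def, Subgroup.commutator_le]
      intro a _ b _
      rw [MonoidHom.mem_ker, commutatorElement_def, map_mul, map_mul, map_mul, hφ a b, map_inv,
        map_inv, mul_assoc (φ b), mul_inv_cancel, mul_one, mul_inv_cancel]
    have htop : (⊤ : Subgroup (G ⧸ K)) ≤ P := by
      intro g _
      rw [← hCP, Subgroup.mem_centralizer_iff]
      intro x hx
      have hg : φ g = 1 := MonoidHom.mem_ker.mp (hker'.symm.le (Subgroup.mem_top g))
      have h := congrArg Subtype.val (DFunLike.congr_fun hg ⟨x, hx⟩)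
      rw [MulAut.conjNormal_apply] at h
      exact (mul_inv_eq_iff_eq_mul.mp h).symm
    have hab : commutator (G ⧸ K) = ⊥ := by
      rw [commutator_def, eq_bot_iff, Subgroup.commutator_le]
      intro a ha b hb
      rw [Subgroup.mem_bot, commutatorElement_eq_one_iff_mul_comm]
      exact congrArg Subtype.val (IsMulCommutative.is_comm.comm (⟨a, htop ha⟩ : P) ⟨b, htop hb⟩)
    have h1 : P = ⊥ := le_bot_iff.mp (by rw [← hab, hperf']; exact le_top)
    rw [h1, Subgroup.card_bot] at hPc
    exact hprime.one_lt.ne hPc
  · intro h
    by_contra hperf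
    obtain ⟨p, hp, hdvd⟩ := Nat.exists_prime_and_dvd
      (show Nat.card (Abelianization G) ≠ 1 from fun h1 => hperf (Subgroup.index_eq_one.mp h1))
    -- a linear character of order `p`
    haveI : Finite (Abelianization G) :=
      Finite.of_surjective _ (QuotientGroup.mk'_surjective _)
    haveI : NeZero (Monoid.exponent (Abelianization G)) := ⟨Monoid.exponent_ne_zero_of_finite⟩
    have hcard : p ∣ Nat.card (Abelianization G →* ℂˣ) := by
      rwa [CommGroup.card_monoidHom_of_hasEnoughRootsOfUnity]
    haveI := Fact.mk hp
    haveI : Finite (Abelianization G →* ℂˣ) :=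
      Nat.finite_of_card_ne_zero (by
        rw [CommGroup.card_monoidHom_of_hasEnoughRootsOfUnity]; exact Nat.card_pos.ne')
    obtain ⟨f, hf⟩ := exists_prime_orderOf_dvd_card' p hcard
    let χ : Cfsg.IrrCharacter G :=
      ⟨_, H26.isIrrCharacter_hom (f.comp (Abelianization.of (G := G)))⟩
    refine h χ ?_
    have hd : Cfsg.charDegree (χ : G → ℂ) = 1 := by
      simp [Cfsg.charDegree, χ]
    set F := f.comp (Abelianization.of (G := G)) with hF
    have hk : Nat.card {g : G // (χ : G → ℂ) g = (χ : G → ℂ) 1} = Nat.card F.ker :=
      Nat.card_congr (Equiv.subtypeEquivRight fun g => by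
        show ((F g : ℂˣ) : ℂ) = ((F 1 : ℂˣ) : ℂ) ↔ _
        rw [map_one, Units.val_one, Units.val_eq_one, MonoidHom.mem_ker])
    have hrange : Nat.card F.range = p := by
      haveI : Finite F.range := Finite.of_surjective _ F.rangeRestrict_surjective
      haveI : IsCyclic F.range := inferInstance
      rw [← IsCyclic.exponent_eq_card]
      refine Nat.dvd_antisymm (Monoid.exponent_dvd_of_forall_pow_eq_one fun u => ?_) ?_
      · obtain ⟨u, g, rfl⟩ := u
        refine Subtype.ext ?_
        rw [SubmonoidClass.coe_pow]
        show (f (Abelianization.of g)) ^ p = 1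
        have := DFunLike.congr_fun (hf ▸ pow_orderOf_eq_one f : f ^ p = 1) (Abelianization.of g)
        simpa using this
      · have hne : f ≠ 1 := fun e => hp.one_lt.ne (by rw [← hf, e, orderOf_one])
        obtain ⟨a, ha⟩ : ∃ a, f a ≠ 1 := by
          by_contra hall
          push Not at hall
          exact hne (MonoidHom.ext hall)
        obtain ⟨g, rfl⟩ := QuotientGroup.mk'_surjective _ a
        have ho : orderOf (F g) = p := orderOf_eq_prime
          (by have := DFunLike.congr_fun (hf ▸ pow_orderOf_eq_one f : f ^ p = 1) (Abelianization.of g)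
              simpa [F] using this) ha
        have h2 := Monoid.order_dvd_exponent (⟨F g, g, rfl⟩ : F.range)
        rwa [← Subgroup.orderOf_coe, ho] at h2
    rw [hd, mul_one, hk, F.ker.card_eq_card_quotient_mul_card_subgroup,
      Nat.mul_div_cancel _ Nat.card_pos,
      Nat.card_congr (QuotientGroup.quotientKerEquivRange F).toEquiv, hrange]
    exact hp

end Cfsg.Agent.S4797
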