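import Cfsg.Statements.S4798
import Cfsg.Agent.H44.Codegree
import Cfsg.Agent.H25.IndRep
import Cfsg.Agent.H25.CharInd

set_option autoImplicit false
open Cfsg

namespace Cfsg.Agent.S4798

/-- Let p be a prime and χ a faithful irreducible complex character of the finite group G (χ(g) = χ(1) only for g = 1), so that its codegree is #G / χ(1). Then #G / χ(1) is a power of p if and only if χ is induced from a character of a Sylow p-subgroup of G. -/
theorem result {G : Type*} [Group G] [Fintype G] (p : ℕ) [Fact p.Prime] (χ : Cfsg.IrrCharacter G) (hfaith : ∀ g : G, (χ : G → ℂ) g = (χ : G → ℂ) 1 → g = 1) : (∃ k : ℕ, Nat.card G = p ^ k * Cfsg.charDegree (χ : G → ℂ)) ↔ ∃ (P : Sylow p G) (θ : ↥(P : Subgroup G) → ℂ), Cfsg.IsCharacter ↥(P : Subgroup G) θ ∧ (χ : G → ℂ) = Cfsg.indFun (P : Subgroup G) θ := by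
  classical
  have hd := H44.charDegree_pos χ
  set d := Cfsg.charDegree (χ : G → ℂ) with hddef
  have hp : p.Prime := Fact.out
  have hχ1 : χ.1 1 = (d : ℂ) := (H44.cast_charDegree χ).symm
  constructor
  · rintro ⟨k, hk⟩
    obtain ⟨P⟩ : Nonempty (Sylow p G) := inferInstance
    haveI : Fintype ↥(P : Subgroup G) := Fintype.ofFinite _
    have hres := H26.isCharacter_comp (H26.irr_isCharacter χ) (P : Subgroup G).subtype
    obtain ⟨m, hm, hdec⟩ := H26.exists_nat_coeffs hres
    have hval := congrFun hdec 1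
    simp only [Finset.sum_apply, Pi.smul_apply, smul_eq_mul, ← H44.cast_charDegree,
      Function.comp_apply, map_one, hχ1] at hval
    have hdsum : d = ∑ θ : Cfsg.IrrCharacter ↥(P : Subgroup G),
        m θ * Cfsg.charDegree (θ : ↥(P : Subgroup G) → ℂ) := by exact_mod_cast hval
    set v := d.factorization p with hv
    obtain ⟨θ, hθm, hθd⟩ : ∃ θ, m θ ≠ 0 ∧
        ¬ p ^ (v + 1) ∣ Cfsg.charDegree (θ : ↥(P : Subgroup G) → ℂ) := by
      by_contra hcon
      push Not at hcon
      have hdiv : p ^ (v + 1) ∣ d := by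
        rw [hdsum]
        refine Finset.dvd_sum fun θ _ => ?_
        by_cases h0 : m θ = 0
        · simp [h0]
        · exact dvd_mul_of_dvd_right (hcon θ h0) _
      rw [hp.pow_dvd_iff_le_factorization hd.ne'] at hdiv
      omega
    obtain ⟨a, ha⟩ := P.isPGroup'.exists_card_eq
    have hdvd := H44.charDegree_dvd_card θ
    rw [ha] at hdvd
    obtain ⟨j, -, hj⟩ := (Nat.dvd_prime_pow hp).mp hdvd
    have hjv : j ≤ v := by
      by_contra h
      exact hθd (hj ▸ pow_dvd_pow p (by omega))
    refine ⟨P, θ.1, H26.irr_isCharacter θ, ?_⟩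
    obtain ⟨b, hb, hbdec⟩ :=
      H26.exists_nat_coeffs (H25.isCharacter_indFun (P : Subgroup G) (H26.irr_isCharacter θ))
    have hbχ : b χ = m θ := by
      have h1 := hb χ
      rw [H25.classInner_indFun_left (P : Subgroup G) θ.1 χ.1 (H26.irr_isClassFunction χ)] at h1
      have h2 := congrArg (starRingEnd ℂ) (hm θ)
      rw [H25.conj_classInner, map_natCast] at h2
      exact_mod_cast h1.symm.trans h2
    -- degrees
    have hidx : (P : Subgroup G).index * p ^ v = d := by
      have hG := (P : Subgroup G).card_mul_index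
      rw [P.card_eq_multiplicity] at hG
      have h1 : ordCompl[p] (Nat.card G) = (P : Subgroup G).index :=
        Nat.div_eq_of_eq_mul_right (pow_pos hp.pos _) hG.symm
      have h2 : ordCompl[p] (Nat.card G) = ordCompl[p] d := by
        rw [hk, Nat.ordCompl_mul, hp.factorization_pow, Finsupp.single_eq_same,
          Nat.div_self (pow_pos hp.pos _), one_mul]
      rw [← h1, h2, hv, mul_comm]
      exact Nat.ordProj_mul_ordCompl_eq_self d p
    have hdeg := H25.indFun_one (P : Subgroup G) θ.1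
    rw [← H44.cast_charDegree θ, hj] at hdeg
    have h1 := congrFun hbdec 1
    simp only [Finset.sum_apply, Pi.smul_apply, smul_eq_mul, ← H44.cast_charDegree] at h1
    rw [hdeg] at h1
    have h1' : (P : Subgroup G).index * p ^ j =
        ∑ ψ : Cfsg.IrrCharacter G, b ψ * Cfsg.charDegree (ψ : G → ℂ) := by exact_mod_cast h1
    rw [← Finset.add_sum_erase _ _ (Finset.mem_univ χ), hbχ] at h1'
    have hle : (P : Subgroup G).index * p ^ j ≤ d :=
      hidx ▸ Nat.mul_le_mul_left _ (Nat.pow_le_pow_right hp.pos hjv)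
    have hmd : d ≤ m θ * d := Nat.le_mul_of_pos_left d (Nat.pos_of_ne_zero hθm)
    have hrest : ∀ ψ ∈ Finset.univ.erase χ, b ψ = 0 := by
      have hz : ∑ ψ ∈ Finset.univ.erase χ, b ψ * Cfsg.charDegree (ψ : G → ℂ) = 0 := by
        rw [← hddef] at h1'
        omega
      intro ψ hψ
      exact (mul_eq_zero.mp (Finset.sum_eq_zero_iff.mp hz ψ hψ)).resolve_right
        (H44.charDegree_pos ψ).ne'
    have hm1 : m θ = 1 := by
      have h3 : m θ * d ≤ 1 * d := by
        rw [← hddef] at h1'
        omega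
      have := Nat.le_of_mul_le_mul_right h3 hd
      omega
    rw [hbdec, ← Finset.add_sum_erase _ _ (Finset.mem_univ χ), hbχ, hm1, Nat.cast_one, one_smul,
      Finset.sum_eq_zero (fun ψ hψ => by rw [hrest ψ hψ, Nat.cast_zero, zero_smul]), add_zero]
  · rintro ⟨P, θ, hθ, hχ⟩
    haveI : Fintype ↥(P : Subgroup G) := Fintype.ofFinite _
    obtain ⟨m, -, hdec⟩ := H26.exists_nat_coeffs hθ
    choose b hb hbdec using fun ψ : Cfsg.IrrCharacter ↥(P : Subgroup G) =>
      H26.exists_nat_coeffs (H25.isCharacter_indFun (P : Subgroup G) (H26.irr_isCharacter ψ))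
    have hind : Cfsg.indFun (P : Subgroup G) θ = ∑ ψ : Cfsg.IrrCharacter ↥(P : Subgroup G),
        (m ψ : ℂ) • Cfsg.indFun (P : Subgroup G) ψ.1 := by
      conv_lhs => rw [hdec, H25.indFun_sum]
      exact Finset.sum_congr rfl fun ψ _ => H25.indFun_smul _ _ _
    have hcoef : ∀ φ : Cfsg.IrrCharacter G,
        ∑ ψ : Cfsg.IrrCharacter ↥(P : Subgroup G), m ψ * b ψ φ = if χ = φ then 1 else 0 := by
      intro φ
      have h := H26.classInner_irr χ φ
      rw [hχ, hind, H26.classInner_sum_left] at h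
      simp only [H26.classInner_smul_left, hb] at h
      split_ifs with he <;> simp only [he, if_true, if_false] at h <;> exact_mod_cast h
    have hone : ∀ ψ, m ψ ≠ 0 → b ψ χ ≠ 0 := by
      intro ψ hψ h0
      have hz : ∀ φ, b ψ φ = 0 := by
        intro φ
        rcases eq_or_ne χ φ with rfl | hne
        · exact h0
        · have h := hcoef φ
          rw [if_neg hne, Finset.sum_eq_zero_iff] at h
          exact (mul_eq_zero.mp (h ψ (Finset.mem_univ _))).resolve_left hψ
      have h := congrFun (hbdec ψ) 1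
      rw [H25.indFun_one] at h
      simp only [hz, Nat.cast_zero, zero_smul, Finset.sum_const_zero, Pi.zero_apply] at h
      exact (mul_ne_zero (Nat.cast_ne_zero.mpr Subgroup.index_ne_zero_of_finite)
        (H26.irr_one_ne_zero ψ)) h
    obtain ⟨ψ₀, hψ₀⟩ : ∃ ψ, m ψ ≠ 0 := by
      by_contra hcon
      push Not at hcon
      have h := hcoef χ
      rw [if_pos rfl, Finset.sum_eq_zero (fun ψ _ => by simp [hcon ψ])] at h
      exact zero_ne_one h
    have h := hcoef χ
    rw [if_pos rfl, ← Finset.add_sum_erase _ _ (Finset.mem_univ ψ₀)] at h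
    have hpos : 0 < m ψ₀ * b ψ₀ χ :=
      Nat.mul_pos (Nat.pos_of_ne_zero hψ₀) (Nat.pos_of_ne_zero (hone ψ₀ hψ₀))
    have hm1 : m ψ₀ = 1 := (mul_eq_one.mp (show m ψ₀ * b ψ₀ χ = 1 by omega)).1
    have hz : ∀ ψ ∈ Finset.univ.erase ψ₀, m ψ = 0 := by
      intro ψ hψ
      by_contra hne
      have := Finset.single_le_sum (f := fun ψ => m ψ * b ψ χ) (fun _ _ => Nat.zero_le _) hψ
      have : 0 < m ψ * b ψ χ :=
        Nat.mul_pos (Nat.pos_of_ne_zero hne) (Nat.pos_of_ne_zero (hone ψ hne))
      omega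
    have hθeq : θ = ψ₀.1 := by
      rw [hdec, ← Finset.add_sum_erase _ _ (Finset.mem_univ ψ₀), hm1, Nat.cast_one, one_smul,
        Finset.sum_eq_zero (fun ψ hψ => by rw [hz ψ hψ, Nat.cast_zero, zero_smul]), add_zero]
    subst hθeq
    have hdeg := congrFun hχ 1
    rw [H25.indFun_one, ← H44.cast_charDegree ψ₀, hχ1] at hdeg
    have hdeg' : d = (P : Subgroup G).index * Cfsg.charDegree (ψ₀ : ↥(P : Subgroup G) → ℂ) := by
      exact_mod_cast hdeg
    obtain ⟨a, ha⟩ := P.isPGroup'.exists_card_eq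
    have hdvd := H44.charDegree_dvd_card ψ₀
    rw [ha] at hdvd
    obtain ⟨j, hja, hj⟩ := (Nat.dvd_prime_pow hp).mp hdvd
    refine ⟨a - j, ?_⟩
    rw [hdeg', hj, ← (P : Subgroup G).card_mul_index, ha, mul_comm (P : Subgroup G).index (p ^ j),
      ← mul_assoc, ← pow_add, Nat.sub_add_cancel hja]

end Cfsg.Agent.S4798
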