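import Cfsg.Statements.S4801
import Cfsg.Agent.H44.Codegree

set_option autoImplicit false
open Cfsg

namespace Cfsg.Agent.S4801

/-- The codegree of an irreducible complex character χ of a finite group G is [G : ker χ] / χ(1), where ker χ is the set of elements at which χ takes the value χ(1). Let S be a finite simple group and G a finite group such that every codegree of an irreducible character of S is a codegree of an irreducible character of G. Then the order of S divides the order of G. -/
theorem result {S : Type*} [Group S] [Finite S] (hS : IsSimpleGroup S) {G : Type*} [Group G] [Finite G] (hsub : ∀ χ : Cfsg.IrrCharacter S, ∃ ψ : Cfsg.IrrCharacter G, (Nat.card S / (Nat.card {g : S // (χ : S → ℂ) g = (χ : S → ℂ) 1} * Cfsg.charDegree (χ : S → ℂ))) = (Nat.card G / (Nat.card {g : G // (ψ : G → ℂ) g = (ψ : G → ℂ) 1} * Cfsg.charDegree (ψ : G → ℂ)))) : Nat.card S ∣ Nat.card G := by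
  classical
  haveI := hS
  haveI := Fintype.ofFinite S
  rw [Nat.dvd_iff_prime_pow_dvd_dvd]
  intro r k hr hk
  rcases Nat.eq_zero_or_pos k with rfl | hkpos
  · simp
  haveI := Fact.mk hr
  -- a nonprincipal character of degree prime to `r`
  obtain ⟨χ, hχne, hχr⟩ : ∃ χ : Cfsg.IrrCharacter S, χ ≠ H26.oneIrr S ∧
      ¬ r ∣ Cfsg.charDegree (χ : S → ℂ) := by
    by_contra hcon
    push Not at hcon
    have hsum := H44.sum_charDegree_sq (G := S)
    rw [← Finset.add_sum_erase _ _ (Finset.mem_univ (H26.oneIrr S)), H44.charDegree_oneIrr] at hsum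
    have h1 : r ∣ ∑ χ ∈ (Finset.univ.erase (H26.oneIrr S)), Cfsg.charDegree (χ : S → ℂ) ^ 2 :=
      Finset.dvd_sum fun χ hχ => dvd_pow (hcon χ (Finset.mem_erase.mp hχ).1) two_ne_zero
    have h2 : r ∣ Nat.card S := (dvd_pow_self r hkpos.ne').trans hk
    rw [← hsum, one_pow] at h2
    exact hr.one_lt.ne' (Nat.dvd_one.mp ((Nat.dvd_add_iff_left h1).mpr h2))
  have hker : H44.kerOf χ = ⊥ := by
    haveI := H44.kerOf_normal χ
    exact (IsSimpleGroup.eq_bot_or_eq_top_of_normal (H44.kerOf χ) inferInstance).resolve_right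
      fun h => hχne (H44.eq_oneIrr_of_kerOf_eq_top h)
  obtain ⟨ψ, hψ⟩ := hsub χ
  rw [H44.card_kerOf, hker, Subgroup.card_bot, one_mul] at hψ
  have h3 := H44.codegree_dvd_card ψ
  rw [← hψ] at h3
  refine Dvd.dvd.trans ?_ h3
  refine Nat.dvd_div_of_mul_dvd ?_
  exact Nat.Coprime.mul_dvd_of_dvd_of_dvd
    (Nat.Coprime.pow_right k (Nat.Coprime.symm (hr.coprime_iff_not_dvd.mpr hχr)))
    (H44.charDegree_dvd_card χ) hk

end Cfsg.Agent.S4801
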