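import Cfsg.Statements.S4802
import Cfsg.Agent.H44.ClassTools

set_option autoImplicit false
open Cfsg

namespace Cfsg.Agent.S4802

/-- Let N < M be normal subgroups of the finite group G and g ∈ M ∖ N. Then the conjugacy class of g is exactly M ∖ N if and only if every irreducible complex character of G whose kernel contains N takes the same value at all elements of M ∖ N, and every irreducible complex character of G whose kernel does not contain N vanishes at g. -/
theorem result {G : Type*} [Group G] [Finite G] (N M : Subgroup G) [N.Normal] [M.Normal] (hNM : N < M) (g : G) (hgM : g ∈ M) (hgN : g ∉ N) : {h : G | IsConj g h} = (M : Set G) \ (N : Set G) ↔ ((∀ χ : Cfsg.IrrCharacter G, (∀ x ∈ N, (χ : G → ℂ) x = (χ : G → ℂ) 1) → ∀ x ∈ M, x ∉ N → ∀ y ∈ M, y ∉ N → (χ : G → ℂ) x = (χ : G → ℂ) y) ∧ (∀ χ : Cfsg.IrrCharacter G, (∃ x ∈ N, (χ : G → ℂ) x ≠ (χ : G → ℂ) 1) → (χ : G → ℂ) g = 0)) := by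
  classical
  haveI := Fintype.ofFinite G
  haveI := Fintype.ofFinite (G ⧸ N)
  have hsub : ∀ h : G, IsConj g h → h ∈ M ∧ h ∉ N := by
    intro h hh
    obtain ⟨c, rfl⟩ := isConj_iff.mp hh
    refine ⟨‹M.Normal›.conj_mem g hgM c, fun hc => hgN ?_⟩
    have := ‹N.Normal›.conj_mem _ hc c⁻¹
    simpa [mul_assoc] using this
  -- orders
  have hq : ∀ h : G, IsConj g h → IsConj (g : G ⧸ N) (h : G ⧸ N) :=
    fun h hh => (QuotientGroup.mk' N).map_isConj hh
  have hC := H44.card_isConj_mul_card_centralizer g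
  have hCq := H44.card_isConj_mul_card_centralizer (g : G ⧸ N)
  have hQ : Nat.card G = Nat.card (G ⧸ N) * Nat.card N := N.card_eq_card_quotient_mul_card_subgroup
  -- preimage of the class in the quotient
  let π : {h : G // IsConj (g : G ⧸ N) (h : G ⧸ N)} → {q : G ⧸ N // IsConj (g : G ⧸ N) q} :=
    fun h => ⟨_, h.2⟩
  have hpre : Nat.card {h : G // IsConj (g : G ⧸ N) (h : G ⧸ N)} =
      Nat.card {q : G ⧸ N // IsConj (g : G ⧸ N) q} * Nat.card N := by
    rw [← Nat.card_prod]
    refine Nat.card_congr ?_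
    refine (Equiv.sigmaFiberEquiv π).symm.trans ((Equiv.sigmaCongrRight fun q => ?_).trans
      (Equiv.sigmaEquivProd _ _))
    refine Equiv.trans ?_ (Subgroup.leftCosetEquivSubgroup (s := N) q.1.out)
    refine
      { toFun := fun h => ⟨h.1.1, ?_⟩
        invFun := fun h => ⟨⟨h.1, ?_⟩, ?_⟩
        left_inv := fun h => Subtype.ext (Subtype.ext rfl)
        right_inv := fun h => Subtype.ext rfl }
    · have hh : (h.1.1 : G ⧸ N) = q.1 := congrArg Subtype.val h.2
      rw [mem_leftCoset_iff, SetLike.mem_coe, ← QuotientGroup.eq]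
      exact ((QuotientGroup.out_eq' q.1).trans hh.symm)
    · have hh := (mem_leftCoset_iff _).mp h.2
      rw [SetLike.mem_coe, ← QuotientGroup.eq, QuotientGroup.out_eq'] at hh
      rw [← hh]
      exact q.2
    · have hh := (mem_leftCoset_iff _).mp h.2
      rw [SetLike.mem_coe, ← QuotientGroup.eq, QuotientGroup.out_eq'] at hh
      exact Subtype.ext hh.symm
  have hker : ∀ χ : Cfsg.IrrCharacter G, N ≤ H44.kerOf χ ↔
      ∀ x ∈ N, (χ : G → ℂ) x = (χ : G → ℂ) 1 := fun χ => Iff.rfl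
  have hlink : (∀ χ : Cfsg.IrrCharacter G, (∃ x ∈ N, (χ : G → ℂ) x ≠ (χ : G → ℂ) 1) →
      (χ : G → ℂ) g = 0) ↔ Nat.card {h : G // IsConj g h} =
        Nat.card {h : G // IsConj (g : G ⧸ N) (h : G ⧸ N)} := by
    have h1 : (∀ χ : Cfsg.IrrCharacter G, (∃ x ∈ N, (χ : G → ℂ) x ≠ (χ : G → ℂ) 1) →
        (χ : G → ℂ) g = 0) ↔ ∀ χ : Cfsg.IrrCharacter G, ¬ N ≤ H44.kerOf χ → χ.1 g = 0 := by
      refine forall_congr' fun χ => ?_
      rw [hker]
      push Not
      rfl
    rw [h1, ← H44.card_centralizer_eq_quotient_iff N g, hpre]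
    constructor
    · intro he
      refine Nat.eq_of_mul_eq_mul_right (m := Nat.card (Subgroup.centralizer ({g} : Set G)))
        Nat.card_pos ?_
      rw [hC, he, hQ, ← hCq]
      ring
    · intro he
      refine Nat.eq_of_mul_eq_mul_left (n := Nat.card {h : G // IsConj g h}) ?_ ?_
      · haveI : Nonempty {h : G // IsConj g h} := ⟨⟨g, IsConj.refl g⟩⟩
        exact Nat.card_pos
      rw [hC, he, hQ, ← hCq]
      ring
  constructor
  · intro hclass
    have hiff : ∀ h : G, IsConj g h ↔ h ∈ M ∧ h ∉ N := fun h => Set.ext_iff.mp hclass h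
    refine ⟨fun χ _ a ha haN b hb hbN => ?_, hlink.mpr ?_⟩
    · rw [← H26.irr_eq_of_isConj χ ((hiff a).mpr ⟨ha, haN⟩),
        H26.irr_eq_of_isConj χ ((hiff b).mpr ⟨hb, hbN⟩)]
    · refine Nat.card_congr (Equiv.subtypeEquivRight fun h => ⟨hq h, fun hh => (hiff h).mpr ?_⟩)
      obtain ⟨c, hc⟩ := isConj_iff.mp hh
      obtain ⟨c, rfl⟩ := QuotientGroup.mk'_surjective N c
      have hn : (c * g * c⁻¹)⁻¹ * h ∈ N := by
        rw [← QuotientGroup.eq]
        simpa using hc
      have hh' := hsub (c * g * c⁻¹) (isConj_iff.mpr ⟨c, rfl⟩)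
      refine ⟨?_, fun hN => hh'.2 ?_⟩
      · have := M.mul_mem hh'.1 (hNM.le hn)
        rwa [mul_inv_cancel_left] at this
      · have := N.mul_mem hN (N.inv_mem hn)
        simpa [mul_assoc] using this
  · rintro ⟨hA, hB⟩
    have hcard := hlink.mp hB
    ext h
    refine ⟨fun hh => ⟨(hsub h hh).1, (hsub h hh).2⟩, fun hh => ?_⟩
    have hconj : IsConj (g : G ⧸ N) (h : G ⧸ N) := by
      refine (H26.isConj_iff_forall_irr _ _).mpr fun ψ => ?_
      exact hA (H44.inflate N ψ) (H44.le_kerOf_inflate N ψ) g hgM hgN h hh.1 hh.2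
    by_contra hne
    let f : {h : G // IsConj g h} → {h : G // IsConj (g : G ⧸ N) (h : G ⧸ N)} :=
      fun h => ⟨h.1, hq h.1 h.2⟩
    have hf : Function.Injective f := fun a b e => by
      have := congrArg Subtype.val e
      exact Subtype.ext this
    obtain ⟨a, ha⟩ := ((Nat.bijective_iff_injective_and_card f).mpr ⟨hf, hcard⟩).2 ⟨h, hconj⟩
    exact hne (by
      have := congrArg Subtype.val ha
      simp only [f] at this
      exact this ▸ a.2)

end Cfsg.Agent.S4802
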