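import Cfsg.Statements.S4805
import Cfsg.Agent.H23.OneClass.CharFacts
import Cfsg.Agent.H23.OneClass.Solvable

set_option autoImplicit false
open Cfsg

namespace Cfsg.Agent.S4805

/-- Let G be a finite group, g an element outside the centre of G, and χ an irreducible complex character of degree greater than one with χ(g) ≠ 0 such that every other irreducible character of degree greater than one vanishes at g. Then g lies in the derived subgroup G′ and χ(g) = −[G : G′]/χ(1); G′ is the union of the kernel of χ (the elements where χ takes the value χ(1)) and the conjugacy class of g, and χ vanishes outside G′; every irreducible character of degree greater than one whose kernel contains that of χ equals χ; and G is solvable. -/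
theorem result {G : Type*} [Group G] [Finite G] (g : G) (hg : g ∉ Subgroup.center G) (χ : Cfsg.IrrCharacter G) (hχ1 : Cfsg.charDegree (χ : G → ℂ) ≠ 1) (hχg : (χ : G → ℂ) g ≠ 0) (hother : ∀ ψ : Cfsg.IrrCharacter G, Cfsg.charDegree (ψ : G → ℂ) ≠ 1 → ψ ≠ χ → (ψ : G → ℂ) g = 0) : g ∈ commutator G ∧ (χ : G → ℂ) g = -(((commutator G).index : ℂ) / (χ : G → ℂ) 1) ∧ ((commutator G : Set G) = {x : G | (χ : G → ℂ) x = (χ : G → ℂ) 1} ∪ {h : G | IsConj g h}) ∧ (∀ x : G, x ∉ commutator G → (χ : G → ℂ) x = 0) ∧ (∀ ψ : Cfsg.IrrCharacter G, Cfsg.charDegree (ψ : G → ℂ) ≠ 1 → (∀ x : G, (χ : G → ℂ) x = (χ : G → ℂ) 1 → (ψ : G → ℂ) x = (ψ : G → ℂ) 1) → ψ = χ) ∧ Group.IsSolvable G := by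
  classical
  haveI : Fintype G := Fintype.ofFinite G
  have hg1 : g ≠ 1 := fun e => hg (e ▸ one_mem _)
  have hχ1' : χ.1 1 ≠ 1 := fun e =>
    hχ1 ((Cfsg.Agent.H23.OneClass.charDegree_eq_one_iff χ).2 e)
  have hother' : ∀ ψ : Cfsg.IrrCharacter G, ψ.1 1 ≠ 1 → ψ ≠ χ → ψ.1 g = 0 := fun ψ h1 h2 =>
    hother ψ (fun e => h1 ((Cfsg.Agent.H23.OneClass.charDegree_eq_one_iff ψ).1 e)) h2
  obtain ⟨hgN, hval, hne, hout, hin⟩ :=
    Cfsg.Agent.H23.OneClass.char_facts g hg1 χ hχ1' hχg hother'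
  have hd0 : χ.1 1 ≠ 0 := Cfsg.Agent.H26.irr_one_ne_zero χ
  refine ⟨hgN, hval, ?_, hout, ?_, ?_⟩
  · ext x
    simp only [SetLike.mem_coe, Set.mem_union, Set.mem_setOf_eq]
    constructor
    · intro hx
      by_cases hc : IsConj g x
      · exact Or.inr hc
      · exact Or.inl (hin x hx hc)
    · rintro (hx | hx)
      · by_contra hn
        exact hd0 (hx.symm.trans (hout x hn))
      · obtain ⟨c, rfl⟩ := isConj_iff.1 hx
        exact Subgroup.Normal.conj_mem inferInstance g hgN c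
  · intro ψ hψ hker
    by_contra hψχ
    have hψ' : ψ.1 1 ≠ 1 := fun e =>
      hψ ((Cfsg.Agent.H23.OneClass.charDegree_eq_one_iff ψ).2 e)
    obtain ⟨d, hd⟩ := Cfsg.Agent.H26.exists_nat_char_one (Cfsg.Agent.H26.irr_isCharacter χ)
    obtain ⟨e, he⟩ := Cfsg.Agent.H26.exists_nat_char_one (Cfsg.Agent.H26.irr_isCharacter ψ)
    have h0 := Cfsg.Agent.H26.classInner_irr χ ψ
    rw [if_neg (Ne.symm hψχ), Cfsg.classInner] at h0
    have h1 := (mul_eq_zero.1 h0).resolve_left (inv_ne_zero (Nat.cast_ne_zero.2 Nat.card_pos.ne'))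
    have h2 : ∀ x : G, χ.1 x * starRingEnd ℂ (ψ.1 x) =
        if χ.1 x = χ.1 1 then ((d * e : ℕ) : ℂ) else 0 := by
      intro x
      split_ifs with hx
      · rw [hx, hker x hx, hd, he, Complex.conj_natCast, Nat.cast_mul]
      · by_cases hxN : x ∈ commutator G
        · have hc : IsConj g x := by
            by_contra hc
            exact hx (hin x hxN hc)
          rw [← Cfsg.Agent.H26.irr_eq_of_isConj ψ hc, hother' ψ hψ' hψχ, map_zero, mul_zero]
        · rw [hout x hxN, zero_mul]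
    rw [Finset.sum_congr rfl fun x _ => h2 x, ← Finset.sum_filter, Finset.sum_const,
      nsmul_eq_mul, ← Nat.cast_mul, Nat.cast_eq_zero] at h1
    have h3 : 0 < (Finset.univ.filter fun x : G => χ.1 x = χ.1 1).card :=
      Finset.card_pos.2 ⟨1, by simp⟩
    have hd' : d ≠ 0 := fun e0 => hd0 (by rw [hd, e0, Nat.cast_zero])
    have he' : e ≠ 0 := fun e0 =>
      Cfsg.Agent.H26.irr_one_ne_zero ψ (by rw [he, e0, Nat.cast_zero])
    simp [hd', he', h3.ne'] at h1
  · obtain ⟨K, hK⟩ := Cfsg.Agent.H23.OneClass.isOneClass_kernel g χ hgN hne hout hin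
    exact hK.isSolvable

end Cfsg.Agent.S4805
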