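import Cfsg.Statements.S4808
import Cfsg.Agent.H44.Codegree
import Cfsg.Agent.S0165

set_option autoImplicit false
open Cfsg

namespace Cfsg.Agent.S4808

/-- The codegree of an irreducible complex character χ of a finite group G is [G : ker χ] / χ(1), where ker χ is the set of elements at which χ takes the value χ(1). A prime divides the order of G if and only if it divides the codegree of some irreducible complex character of G. -/
theorem result {G : Type*} [Group G] [Finite G] (p : ℕ) (hp : p.Prime) : p ∣ Nat.card G ↔ ∃ χ : Cfsg.IrrCharacter G, p ∣ (Nat.card G / (Nat.card {g : G // (χ : G → ℂ) g = (χ : G → ℂ) 1} * Cfsg.charDegree (χ : G → ℂ))) := by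
  classical
  haveI := Fintype.ofFinite G
  refine ⟨fun hdvd => ?_, fun ⟨χ, hχ⟩ => hχ.trans (H44.codegree_dvd_card χ)⟩
  by_contra hcon
  push Not at hcon
  haveI := Fact.mk hp
  obtain ⟨x, hx⟩ := exists_prime_orderOf_dvd_card' p hdvd
  have hx1 : x ≠ 1 := fun h => hp.ne_one (by rw [← hx, h, orderOf_one])
  have key : ∀ χ : Cfsg.IrrCharacter G, χ.1 x = χ.1 1 ∨ χ.1 x = 0 := by
    intro χ
    obtain ⟨K, hK, ψ, hKker, hψ, -, hcard⟩ := H44.exists_deflate χ
    have hv : ∀ y : G, χ.1 y = ψ.1 (y : G ⧸ K) := fun y => by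
      conv_lhs => rw [← hψ]
      rfl
    by_cases hxK : x ∈ K
    · exact Or.inl (H44.mem_kerOf.mp (hKker ▸ hxK))
    · right
      rw [hv]
      obtain ⟨n, ρ, hρ, e⟩ := ψ.2
      haveI := hρ
      have hdeg : Cfsg.charDegree (χ : G → ℂ) = n := by
        rw [← hψ, H44.charDegree_inflate]
        simp [Cfsg.charDegree, ← e]
      rw [hdeg] at hcard
      have hq : Nat.card (G ⧸ K) ≠ 0 := Nat.card_pos.ne'
      have hcn : n ≠ 0 := fun h => hq (by rw [hcard, h, mul_zero])
      have hv0 : (Nat.card (G ⧸ K)).factorization p = n.factorization p := by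
        rw [hcard, Nat.factorization_mul (fun h => hq (by rw [hcard, h, zero_mul])) hcn,
          Finsupp.add_apply]
        have hc := hcon χ
        rw [hdeg] at hc
        rw [Nat.factorization_eq_zero_of_not_dvd hc, zero_add]
      rw [← e]
      refine S0165.result ρ p ((Nat.card (G ⧸ K)).factorization p) hp (Nat.ordProj_dvd _ _)
        (Nat.pow_succ_factorization_not_dvd hq hp) ?_ _ ?_
      · rw [Module.finrank_fin_fun, hv0]
        exact Nat.ordProj_dvd _ _
      · rw [orderOf_eq_prime (p := p) (x := (x : G ⧸ K)) ?_ ?_]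
        · rw [← QuotientGroup.mk_pow, ← hx, pow_orderOf_eq_one, QuotientGroup.mk_one]
        · exact fun h => hxK ((QuotientGroup.eq_one_iff x).mp h)
  have hsum := H26.column_orthogonality x (1 : G)
  rw [show H26.classIndicator (1 : G) x = 0 from
    if_neg (fun h => hx1 (isConj_one_left.mp h)), mul_zero] at hsum
  have hre : ∀ χ : Cfsg.IrrCharacter G, 0 ≤ (χ.1 x * (starRingEnd ℂ) (χ.1 1)).re := by
    intro χ
    rcases key χ with h | h
    · rw [h, Complex.mul_conj']
      exact_mod_cast sq_nonneg ‖χ.1 1‖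
    · rw [h, zero_mul, Complex.zero_re]
  have h1 : (0 : ℝ) < ∑ χ : Cfsg.IrrCharacter G, (χ.1 x * (starRingEnd ℂ) (χ.1 1)).re := by
    refine Finset.sum_pos' (fun χ _ => hre χ) ⟨H26.oneIrr G, Finset.mem_univ _, ?_⟩
    simp [H26.oneIrr_val]
  rw [← Complex.re_sum, hsum, Complex.zero_re] at h1
  exact lt_irrefl _ h1

end Cfsg.Agent.S4808
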