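import Cfsg.Statements.S4812
import Cfsg.Agent.H44.PSL2Degrees

set_option autoImplicit false
open Cfsg

namespace Cfsg.Agent.S4812

/-- Let F be a finite field of characteristic 2 with q ≥ 4 elements and let S be isomorphic to PSL(2,F) or to SL(2,F). Then the vertices of the character degree graph of S are the primes dividing q(q²−1), and two distinct primes are adjacent exactly when both divide q + 1 or both divide q − 1; so the graph has the three connected components {2}, the primes dividing q + 1 and the primes dividing q − 1, each complete. -/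
theorem result (F : Type*) [Field F] [Fintype F] [CharP F 2] (q : ℕ) (hq : Fintype.card F = q) (h4 : 4 ≤ q) {S : Type*} [Group S] [Finite S] (hS : Nonempty (S ≃* Matrix.ProjectiveSpecialLinearGroup (Fin 2) F) ∨ Nonempty (S ≃* Matrix.SpecialLinearGroup (Fin 2) F)) : Cfsg.degreePrimes S = {r : ℕ | r.Prime ∧ r ∣ q * (q ^ 2 - 1)} ∧ ∀ r s : ℕ, (Cfsg.degreeGraph S).Adj r s ↔ (r ≠ s ∧ r.Prime ∧ s.Prime ∧ ((r ∣ q + 1 ∧ s ∣ q + 1) ∨ (r ∣ q - 1 ∧ s ∣ q - 1))) := by
  classical
  subst hq
  have hdeg : Cfsg.charDegrees S =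
      Cfsg.charDegrees (Matrix.SpecialLinearGroup (Fin 2) F) := by
    rcases hS with ⟨⟨e⟩⟩ | ⟨⟨e⟩⟩
    · rw [H44.charDegrees_eq_of_equiv e, H44.charDegrees_psl_eq_of_char_two]
    · exact H44.charDegrees_eq_of_equiv e
  obtain ⟨hall, hm, hp⟩ := H44.sl2_even_degrees (F := F) h4
  have hc := H44.card_mem_charDegrees_psl (F := F)
  rw [H44.charDegrees_psl_eq_of_char_two] at hc
  set q := Fintype.card F with hq
  obtain ⟨a, ha⟩ := FiniteField.card F 2
  have hsq : q ^ 2 - 1 = (q + 1) * (q - 1) := by rw [← Nat.sq_sub_sq, one_pow]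
  refine ⟨?_, fun r s => ?_⟩
  · ext r
    simp only [Cfsg.degreePrimes, Set.mem_setOf_eq, hdeg]
    constructor
    · rintro ⟨hr, d, hd, hrd⟩
      refine ⟨hr, ?_⟩
      rcases hall d hd with rfl | h | rfl | rfl
      · exact absurd hrd hr.not_dvd_one
      · rw [hsq, show q - 1 = d by omega]
        exact (hrd.mul_left _).mul_left _
      · exact hrd.mul_right _
      · rw [hsq]
        exact (hrd.mul_right _).mul_left _
    · rintro ⟨hr, h⟩
      rw [hsq] at h
      refine ⟨hr, ?_⟩
      rcases (Nat.Prime.dvd_mul hr).mp h with h | h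
      · exact ⟨q, hc, h⟩
      · rcases (Nat.Prime.dvd_mul hr).mp h with h | h
        · exact ⟨q + 1, hp, h⟩
        · exact ⟨q - 1, hm, h⟩
  · change (r ≠ s ∧ r.Prime ∧ s.Prime ∧ _) ↔ _
    rw [hdeg]
    refine and_congr_right fun hne => and_congr_right fun hr => and_congr_right fun hs => ?_
    constructor
    · rintro ⟨d, hd, hrs⟩
      have h1 := (dvd_mul_right r s).trans hrs
      have h2 := (dvd_mul_left s r).trans hrs
      rcases hall d hd with rfl | h | rfl | rfl
      · exact absurd h1 hr.not_dvd_one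
      · rw [show q - 1 = d by omega]
        exact .inr ⟨h1, h2⟩
      · exfalso
        rw [hq, ha.2] at h1 h2
        exact hne (((Nat.prime_dvd_prime_iff_eq hr ha.1).mp (hr.dvd_of_dvd_pow h1)).trans
          ((Nat.prime_dvd_prime_iff_eq hs ha.1).mp (hs.dvd_of_dvd_pow h2)).symm)
      · exact .inl ⟨h1, h2⟩
    · rintro (⟨h1, h2⟩ | ⟨h1, h2⟩)
      · exact ⟨q + 1, hp, ((Nat.coprime_primes hr hs).mpr hne).mul_dvd_of_dvd_of_dvd h1 h2⟩
      · exact ⟨q - 1, hm, ((Nat.coprime_primes hr hs).mpr hne).mul_dvd_of_dvd_of_dvd h1 h2⟩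

end Cfsg.Agent.S4812
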