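import Cfsg.Statements.S4814
import Cfsg.Agent.H44.CommutatorPairs

set_option autoImplicit false
open Cfsg

namespace Cfsg.Agent.S4814

/-- Let G be a finite group such that the sum, over the irreducible complex characters χ of G, of 1/χ(1)² is less than 2. Then every element of G is a product of two commutators. -/
theorem result {G : Type*} [Group G] [Finite G]
    (h : ∑ᶠ χ : Cfsg.IrrCharacter G, 1 / ‖(χ : G → ℂ) 1‖ ^ 2 < (2 : ℝ)) (g : G) :
    ∃ a b c d : G, (a * b * a⁻¹ * b⁻¹) * (c * d * c⁻¹ * d⁻¹) = g := by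
  classical
  haveI := Fintype.ofFinite G
  rw [finsum_eq_sum_of_fintype] at h
  have hterm : ∀ χ : Cfsg.IrrCharacter G,
      -(1 / ‖χ.1 1‖ ^ 2) ≤ (χ.1 g / χ.1 1 ^ 3).re := by
    intro χ
    refine neg_le_of_abs_le ((Complex.abs_re_le_norm _).trans ?_)
    obtain ⟨d, hd, hd'⟩ := H44.exists_degree χ
    have hn := H44.norm_irr_le χ g
    have : (Cfsg.charDegree (χ : G → ℂ) : ℝ) = d := by
      have h1 := H44.cast_charDegree χ
      rw [hd'] at h1
      exact_mod_cast h1
    rw [this] at hn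
    rw [norm_div, norm_pow, hd', Complex.norm_natCast]
    have hdpos : (0 : ℝ) < d := by exact_mod_cast hd
    rw [div_le_div_iff₀ (by positivity) (by positivity)]
    calc ‖χ.1 g‖ * (d : ℝ) ^ 2 ≤ (d : ℝ) * (d : ℝ) ^ 2 := by gcongr
      _ = 1 * (d : ℝ) ^ 3 := by ring
  have hpos : 0 < (∑ χ : Cfsg.IrrCharacter G, χ.1 g / χ.1 1 ^ 3).re := by
    rw [Complex.re_sum, ← Finset.add_sum_erase _ _ (Finset.mem_univ (H26.oneIrr G))]
    rw [← Finset.add_sum_erase _ _ (Finset.mem_univ (H26.oneIrr G))] at h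
    simp only [H26.oneIrr_val, one_pow, div_one, Complex.one_re, norm_one] at h ⊢
    have h2 := Finset.sum_le_sum (s := Finset.univ.erase (H26.oneIrr G)) fun χ _ => hterm χ
    rw [Finset.sum_neg_distrib] at h2
    linarith
  have hc := H44.card_two_commutators g
  by_contra hno
  push Not at hno
  rw [Finset.card_eq_zero.mpr (Finset.filter_eq_empty_iff.mpr fun t _ =>
    hno t.1 t.2.1 t.2.2.1 t.2.2.2), Nat.cast_zero, eq_comm, mul_eq_zero] at hc
  rcases hc with hc | hc
  · exact Nat.card_pos.ne' (Nat.cast_eq_zero.mp (pow_eq_zero_iff (by norm_num) |>.mp hc))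
  · rw [hc] at hpos
    simp at hpos

end Cfsg.Agent.S4814
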