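import Cfsg.Statements.S4825
import Cfsg.Agent.H28.OverCharacterCount

set_option autoImplicit false
open Cfsg

namespace Cfsg.Agent.S4825

/-- Let p be a prime, G a finite group with Sylow p-subgroup P, M a maximal ideal of the algebraic integers containing p, and B a p-block of G with defect group P. Let N be a normal subgroup of G not containing P and θ an irreducible character of N. Then the number of irreducible characters in B of degree prime to p lying over θ (having θ as a constituent on restriction to N) is either 0 or at least 2, and when p ≤ 3 it is divisible by p. -/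
theorem result {G : Type*} [Group G] [Fintype G] (p : ℕ) [Fact p.Prime] (P : Sylow p G) (M : Ideal Cfsg.AlgInt) (hM : Cfsg.IsPModular p M) (B : Set (Cfsg.IrrCharacter G)) (hB : Cfsg.IsPBlock M B) (hBP : Cfsg.IsDefectGroup p M B P) (N : Subgroup G) [N.Normal] [Fintype N] (hPN : ¬ (P : Subgroup G) ≤ N) (θ : Cfsg.IrrCharacter N) :
    (Nat.card {χ : Cfsg.IrrCharacter G // χ ∈ B ∧ ¬ p ∣ Cfsg.charDegree (χ : G → ℂ) ∧ Cfsg.classInner (fun n : N => (χ : G → ℂ) n) (θ : N → ℂ) ≠ 0} = 0 ∨
      2 ≤ Nat.card {χ : Cfsg.IrrCharacter G // χ ∈ B ∧ ¬ p ∣ Cfsg.charDegree (χ : G → ℂ) ∧ Cfsg.classInner (fun n : N => (χ : G → ℂ) n) (θ : N → ℂ) ≠ 0}) ∧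
    (p ≤ 3 → p ∣ Nat.card {χ : Cfsg.IrrCharacter G // χ ∈ B ∧ ¬ p ∣ Cfsg.charDegree (χ : G → ℂ) ∧ Cfsg.classInner (fun n : N => (χ : G → ℂ) n) (θ : N → ℂ) ≠ 0}) := by
  exact H28.OverCharacterCount.count_alternatives hM hB P N hPN θ

end Cfsg.Agent.S4825
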