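import Cfsg.Statements.S4836
import Cfsg.Agent.H44.TwoClass

set_option autoImplicit false
open Cfsg

namespace Cfsg.Agent.S4836

/-- Let G be a finite group of order greater than 2 with an irreducible character χ that is nonzero on exactly two conjugacy classes. Then χ is faithful (it takes the value χ(1) only at the identity), it is the only faithful irreducible character of G, and it is the only irreducible character of G that is nonzero on exactly two conjugacy classes. -/
theorem result {G : Type*} [Group G] [Finite G] (hG : 2 < Nat.card G) (χ : Cfsg.IrrCharacter G) (hχ : Nat.card {C : ConjClasses G // ∃ g ∈ C.carrier, (χ : G → ℂ) g ≠ 0} = 2) :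
    (∀ g : G, (χ : G → ℂ) g = (χ : G → ℂ) 1 → g = 1) ∧
      (∀ ψ : Cfsg.IrrCharacter G, (∀ g : G, (ψ : G → ℂ) g = (ψ : G → ℂ) 1 → g = 1) → ψ = χ) ∧
      (∀ ψ : Cfsg.IrrCharacter G, Nat.card {C : ConjClasses G // ∃ g ∈ C.carrier, (ψ : G → ℂ) g ≠ 0} = 2 → ψ = χ) := by
  obtain ⟨N, g, d⟩ := H44.exists_twoClassData hG χ hχ
  have huniq : ∀ ψ : Cfsg.IrrCharacter G,
      (∀ h : G, (ψ : G → ℂ) h = (ψ : G → ℂ) 1 → h = 1) → ψ = χ := by
    intro ψ hψ
    by_contra hne
    exact d.ne_bot (le_bot_iff.mp fun h hh => Subgroup.mem_bot.mpr (hψ h (d.ker_other ψ hne hh)))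
  refine ⟨fun h hh => ?_, huniq, fun ψ hψ => huniq ψ ?_⟩
  · have : h ∈ H44.kerOf χ := hh
    rwa [d.ker_self, Subgroup.mem_bot] at this
  · obtain ⟨N', g', d'⟩ := H44.exists_twoClassData hG ψ hψ
    intro h hh
    have : h ∈ H44.kerOf ψ := hh
    rwa [d'.ker_self, Subgroup.mem_bot] at this

end Cfsg.Agent.S4836
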