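import Cfsg.Statements.S4838
import Cfsg.Agent.H44.TwoClass

set_option autoImplicit false
open Cfsg

namespace Cfsg.Agent.S4838

/-- Let G be a finite group of order greater than 2 with an irreducible character χ nonzero on exactly two conjugacy classes, N the normal p-subgroup of elements where χ is nonzero, and P a Sylow p-subgroup of G. Then (a) for every x outside N the centralizer of x in G has the same order as the centralizer of xN in G/N; (b) the centre of P lies in N, and equals N exactly when P is normal in G; (c) N, viewed inside P, is a term of the upper central series of P. -/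
theorem result {G : Type*} [Group G] [Finite G] (hG : 2 < Nat.card G) (χ : Cfsg.IrrCharacter G) (hχ : Nat.card {C : ConjClasses G // ∃ g ∈ C.carrier, (χ : G → ℂ) g ≠ 0} = 2) (p : ℕ) [Fact p.Prime] (N : Subgroup G) [N.Normal] (hN : ∀ g : G, g ∈ N ↔ (χ : G → ℂ) g ≠ 0) (hNp : IsPGroup p N) (hN1 : N ≠ ⊥) (P : Sylow p G) :
    (∀ x : G, x ∉ N → Nat.card (Subgroup.centralizer ({x} : Set G)) = Nat.card (Subgroup.centralizer ({(x : G ⧸ N)} : Set (G ⧸ N)))) ∧
      ((Subgroup.center ↥(P : Subgroup G)).map (P : Subgroup G).subtype ≤ N ∧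
        ((Subgroup.center ↥(P : Subgroup G)).map (P : Subgroup G).subtype = N ↔ (P : Subgroup G).Normal)) ∧
      (∃ i : ℕ, Subgroup.upperCentralSeries ↥(P : Subgroup G) i = N.subgroupOf (P : Subgroup G)) := by
  classical
  haveI := Fintype.ofFinite G
  obtain ⟨N', g, d⟩ := H44.exists_twoClassData hG χ hχ
  obtain rfl : N = N' := Subgroup.ext fun h => (hN h).trans (d.support h)
  have hNP : N ≤ (P : Subgroup G) := H44.normal_pGroup_le_sylow P N hNp
  have hcent : ∀ x : G, x ∉ N → Nat.card (Subgroup.centralizer ({x} : Set G)) =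
      Nat.card (Subgroup.centralizer ({(x : G ⧸ N)} : Set (G ⧸ N))) := by
    intro x hx
    refine (H44.card_centralizer_eq_quotient_iff N x).mpr fun ψ hψ => ?_
    rcases eq_or_ne ψ χ with rfl | hne
    · by_contra hc
      exact hx ((d.support x).mp hc)
    · exact absurd (d.ker_other ψ hne) hψ
  -- the elements sending `u` into `uN` by conjugation cover `N`
  have hkey : ∀ u ∈ (P : Subgroup G), u ∉ N →
      (∀ t ∈ (P : Subgroup G), t * u * t⁻¹ * u⁻¹ ∈ N) →
      ∀ z ∈ N, ∃ t ∈ (P : Subgroup G), t * u * t⁻¹ * u⁻¹ = z := by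
    intro u hu huN hD
    set C := Subgroup.centralizer ({u} : Set G)
    set Cq := Subgroup.centralizer ({(u : G ⧸ N)} : Set (G ⧸ N))
    set CP := C.subgroupOf (P : Subgroup G)
    let f : (P : Subgroup G) ⧸ CP → N := fun q => Quotient.liftOn' q
      (fun t => ⟨(t : G) * u * (t : G)⁻¹ * u⁻¹, hD t t.2⟩) (fun a b hab => by
        rw [QuotientGroup.leftRel_apply] at hab
        have h := Subgroup.mem_centralizer_singleton_iff.mp hab
        simp only [Subgroup.subtype_apply, Subgroup.coe_mul, Subgroup.coe_inv] at h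
        refine Subtype.ext ?_
        show (a : G) * u * (a : G)⁻¹ * u⁻¹ = (b : G) * u * (b : G)⁻¹ * u⁻¹
        calc (a : G) * u * (a : G)⁻¹ * u⁻¹
            = (a : G) * (u * ((a : G)⁻¹ * b)) * (b : G)⁻¹ * u⁻¹ := by group
          _ = (b : G) * u * (b : G)⁻¹ * u⁻¹ := by rw [← h]; group)
    have hfinj : Function.Injective f := by
      intro a b hab
      induction a using QuotientGroup.induction_on with
      | H a =>
      induction b using QuotientGroup.induction_on with
      | H b =>
      have h := congrArg Subtype.val hab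
      change (a : G) * u * (a : G)⁻¹ * u⁻¹ = (b : G) * u * (b : G)⁻¹ * u⁻¹ at h
      rw [QuotientGroup.eq]
      refine Subgroup.mem_centralizer_singleton_iff.mpr ?_
      simp only [Subgroup.subtype_apply, Subgroup.coe_mul, Subgroup.coe_inv]
      have h' := mul_right_cancel h
      calc (a : G)⁻¹ * b * u = (a : G)⁻¹ * ((b : G) * u * (b : G)⁻¹) * b := by group
        _ = u * ((a : G)⁻¹ * b) := by rw [← h']; group
    -- counting
    have hPC : Nat.card CP * Nat.card N ≤ Nat.card (P : Subgroup G) := by
      set E := C ⊓ (P : Subgroup G)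
      have hCPE : Nat.card CP = Nat.card E := by
        rw [show CP = E.subgroupOf (P : Subgroup G) from (Subgroup.inf_subgroupOf_right _ _).symm]
        exact Nat.card_congr (Subgroup.subgroupOfEquivOfLe inf_le_right).toEquiv
      have hE : IsPGroup p E := P.isPGroup'.to_le inf_le_right
      obtain ⟨k, hk⟩ := hE.exists_card_eq
      obtain ⟨m, hm⟩ := hNp.exists_card_eq
      have h1 : Nat.card E ∣ Nat.card Cq :=
        hcent u huN ▸ Subgroup.card_dvd_of_le inf_le_left
      have h2 : Nat.card E * Nat.card N ∣ Nat.card G := by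
        rw [N.card_eq_card_quotient_mul_card_subgroup]
        exact Nat.mul_dvd_mul_right (h1.trans (Subgroup.card_subgroup_dvd_card Cq)) _
      rw [hCPE, hk, hm, ← pow_add]
      refine Nat.le_of_dvd Nat.card_pos (P.pow_dvd_card_of_pow_dvd_card ?_)
      rw [pow_add, ← hk, ← hm]
      exact h2
    have hle : Nat.card N ≤ Nat.card ((P : Subgroup G) ⧸ CP) := by
      rw [CP.card_eq_card_quotient_mul_card_subgroup, mul_comm (Nat.card CP)] at hPC
      exact Nat.le_of_mul_le_mul_right hPC Nat.card_pos
    have hbij := (Nat.bijective_iff_injective_and_card f).mpr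
      ⟨hfinj, le_antisymm (Nat.card_le_card_of_injective f hfinj) hle⟩
    intro z hz
    obtain ⟨q, hq⟩ := hbij.2 ⟨z, hz⟩
    induction q using QuotientGroup.induction_on with
    | H t => exact ⟨t, t.2, congrArg Subtype.val hq⟩
  set ZP := (Subgroup.center ↥(P : Subgroup G)).map (P : Subgroup G).subtype
  have hZle : ZP ≤ N := by
    rintro _ ⟨u, hu, rfl⟩
    by_contra huN
    obtain ⟨z, hzN, hz1⟩ := N.bot_or_exists_ne_one.resolve_left hN1
    have hcomm : ∀ t ∈ (P : Subgroup G), t * (u : G) * t⁻¹ * (u : G)⁻¹ = 1 := by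
      intro t ht
      have h := congrArg Subtype.val (Subgroup.mem_center_iff.mp hu ⟨t, ht⟩)
      simp only [Subgroup.coe_mul] at h
      rw [h]
      group
    obtain ⟨t, ht, htz⟩ := hkey u u.2 huN (fun t ht => by rw [hcomm t ht]; exact N.one_mem) z hzN
    exact hz1 (htz.symm.trans (hcomm t ht))
  refine ⟨hcent, ⟨hZle, ⟨fun hEq => ?_, fun hPn => ?_⟩⟩, ?_⟩
  · -- `Z(P) = N` forces `P = C(N)`
    have hPC : (P : Subgroup G) ≤ Subgroup.centralizer (N : Set G) := by
      intro a ha
      rw [Subgroup.mem_centralizer_iff]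
      intro n hn
      obtain ⟨u, hu, rfl⟩ := hEq.symm.le hn
      exact (congrArg Subtype.val (Subgroup.mem_center_iff.mp hu ⟨a, ha⟩)).symm
    have hg : g ∈ N := (d.mem_iff g).mpr (Or.inr (IsConj.refl g))
    obtain ⟨Q, hQ⟩ := d.exists_sylow_centralizer hNp hg d.ne_one
    have hle : Subgroup.centralizer (N : Set G) ≤ (Q : Subgroup G) := by
      rw [← hQ]
      exact Subgroup.centralizer_le (Set.singleton_subset_iff.mpr hg)
    have hQP : (Q : Subgroup G) = P := P.is_maximal' Q.isPGroup' (hPC.trans hle)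
    have : Subgroup.centralizer (N : Set G) = (P : Subgroup G) :=
      le_antisymm (hQP ▸ hle) hPC
    rw [← this]
    infer_instance
  · haveI := hPn
    have hZn : ZP.Normal := ConjAct.normal_of_characteristic_of_normal
    have hP1 : Nontrivial (P : Subgroup G) := by
      rw [Subgroup.nontrivial_iff_ne_bot]
      intro h
      exact hN1 (le_bot_iff.mp (h ▸ hNP))
    haveI := P.isPGroup'.center_nontrivial
    refine le_antisymm hZle (d.le_of_normal ZP fun h => ?_)
    exact (Subgroup.nontrivial_iff_ne_bot _).mp inferInstance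
      ((Subgroup.map_eq_bot_iff_of_injective _ (P : Subgroup G).subtype_injective).mp h)
  · haveI : Group.IsNilpotent (P : Subgroup G) := P.isPGroup'.isNilpotent
    obtain ⟨n, hn⟩ := Group.IsNilpotent.nilpotent (P : Subgroup G)
    set N₀ := N.subgroupOf (P : Subgroup G)
    by_cases htop : N₀ = ⊤
    · exact ⟨n, hn.trans htop.symm⟩
    have hex : ∃ i, ¬ Subgroup.upperCentralSeries ↥(P : Subgroup G) i ≤ N₀ :=
      ⟨n, fun h => htop (top_unique (hn ▸ h))⟩
    obtain ⟨i, hi⟩ : ∃ i, Nat.find hex = i + 1 := by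
      refine ⟨Nat.find hex - 1, (Nat.succ_pred_eq_of_ne_zero fun h => ?_).symm⟩
      have := Nat.find_spec hex
      rw [h, Subgroup.upperCentralSeries_zero] at this
      exact this bot_le
    have hile : Subgroup.upperCentralSeries ↥(P : Subgroup G) i ≤ N₀ :=
      not_not.mp (Nat.find_min hex (by omega))
    refine ⟨i, le_antisymm hile fun z hz => ?_⟩
    obtain ⟨u, huZ, huN⟩ := SetLike.not_le_iff_exists.mp (hi ▸ Nat.find_spec hex)
    have hcz : ∀ t : (P : Subgroup G),
        u * t * u⁻¹ * t⁻¹ ∈ Subgroup.upperCentralSeries ↥(P : Subgroup G) i := by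
      intro t
      exact Subgroup.mem_upperCentralSeries_succ_iff.mp huZ t
    have hrev : ∀ t : (P : Subgroup G),
        t * u * t⁻¹ * u⁻¹ ∈ Subgroup.upperCentralSeries ↥(P : Subgroup G) i := by
      intro t
      have := inv_mem (hcz t)
      simpa [mul_assoc] using this
    obtain ⟨t, ht, htz⟩ := hkey (u : G) u.2 huN (fun t ht => hile (hrev ⟨t, ht⟩)) (z : G) hz
    have h := hrev ⟨t, ht⟩
    rwa [show (⟨t, ht⟩ * u * ⟨t, ht⟩⁻¹ * u⁻¹ : ↥(P : Subgroup G)) = z from Subtype.ext htz] at h

end Cfsg.Agent.S4838
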