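import Cfsg.Statements.S4839
import Cfsg.Agent.H20.TwoClassCore
import Cfsg.Agent.H20.TwoClassBridge
import Cfsg.Agent.H21.FrobeniusBasic

set_option autoImplicit false
open Cfsg
open scoped Pointwise

namespace Cfsg.Agent.S4839

/-- Let G be a finite group of order greater than 2 with an irreducible character χ nonzero on exactly two conjugacy classes, and let N be the normal p-subgroup of elements where χ is nonzero. Then N is the whole p-core O_p(G) if and only if G is a doubly transitive Frobenius group with kernel N: G has a Frobenius complement H whose Frobenius kernel is N and whose order is one less than that of N. -/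
theorem result {G : Type*} [Group G] [Finite G] (hG : 2 < Nat.card G) (χ : Cfsg.IrrCharacter G) (hχ : Nat.card {C : ConjClasses G // ∃ g ∈ C.carrier, (χ : G → ℂ) g ≠ 0} = 2) (p : ℕ) [Fact p.Prime] (N : Subgroup G) [N.Normal] (hN : ∀ g : G, g ∈ N ↔ (χ : G → ℂ) g ≠ 0) (hNp : IsPGroup p N) (hN1 : N ≠ ⊥) :
    N = Cfsg.pCore p G ↔ ∃ H : Subgroup G, Cfsg.IsFrobeniusComplement H ∧ Cfsg.frobeniusKernel H = (N : Set G) ∧ Nat.card H + 1 = Nat.card N := by
  haveI := Fintype.ofFinite G
  obtain ⟨N', g, d⟩ := H44.exists_twoClassData hG χ hχ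
  obtain rfl : N = N' := Subgroup.ext fun h => (hN h).trans (d.support h)
  have hp : p.Prime := Fact.out
  have hq2 := H20.TwoClass.two_le_card d
  constructor
  · intro hcore
    obtain ⟨hcomm, hexp⟩ := H20.TwoClass.comm_exp d hNp
    have hCN : ∀ x : G, (∀ n ∈ N, x * n = n * x) → x ∈ N := fun x hx =>
      hcore.ge ((H20.TwoClass.centralizer_eq_pCore d hNp).le
        (Subgroup.mem_centralizer_iff.mpr fun n hn => (hx n hn).symm))
    have hfpf : ∀ x : G, ¬ p ∣ orderOf x → x ≠ 1 → ∀ n ∈ N, x * n = n * x → n = 1 :=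
      fun x h1 h2 => H20.TwoClass.fixedPointFree d hNp h1 h2
    have hcard := H20.TwoClass.card_centralizer_quotient d
    have hndvd : ¬ p ∣ Nat.card (G ⧸ N) := by
      by_cases hp2 : p = 2
      · subst hp2
        exact H20.TwoClass.not_dvd_index_two hcard hfpf hCN
          (fun n hn => by rw [← pow_two]; exact hexp n hn) hNp hcore.ge
      · refine H20.TwoClass.not_dvd_index_odd hp2 hNp hN1 hcomm hcard hfpf hCN ?_
        rw [H20.TwoClass.card_eq_mul d]
        obtain ⟨m, hm⟩ := hNp.exists_card_eq
        refine Dvd.dvd.mul_right ?_ _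
        rw [hm]
        exact even_iff_two_dvd.mp (Nat.Odd.sub_odd ((hp.odd_of_ne_two hp2).pow) odd_one)
    -- the index is `|N| - 1`
    set C := Subgroup.centralizer ({g} : Set G) with hC
    have hNC : N ≤ C := fun n hn => Subgroup.mem_centralizer_singleton_iff.mpr
      (hcomm n hn g (H20.TwoClass.mem_of_data d))
    have hCp : IsPGroup p C := by
      obtain ⟨P, hP⟩ := d.exists_sylow_centralizer hNp (H20.TwoClass.mem_of_data d) d.ne_one
      exact P.2.to_le hP.le
    have hmul : Nat.card (G ⧸ N) = (Nat.card N - 1) * N.relIndex C := by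
      have h1 := H20.TwoClass.card_eq_mul d
      rw [Subgroup.card_eq_card_quotient_mul_card_subgroup N] at h1
      have h2 : Nat.card C = N.relIndex C * Nat.card N := by
        rw [Subgroup.relIndex, ← Nat.card_congr (Subgroup.subgroupOfEquivOfLe hNC).toEquiv,
          mul_comm, Subgroup.card_mul_index]
      rw [← hC, h2, ← mul_assoc] at h1
      exact Nat.eq_of_mul_eq_mul_right Nat.card_pos h1
    have hrel : N.relIndex C = 1 := by
      obtain ⟨k, hk⟩ := IsPGroup.iff_card.mp hCp
      have h3 : N.relIndex C ∣ p ^ k := hk ▸ Subgroup.relIndex_dvd_card N C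
      obtain ⟨j, -, hj⟩ := (Nat.dvd_prime_pow hp).mp h3
      rcases Nat.eq_zero_or_pos j with rfl | hj0
      · simpa using hj
      · exact absurd (hmul ▸ ((hj ▸ dvd_pow_self p hj0.ne').mul_left _)) hndvd
    rw [hrel, mul_one] at hmul
    have hco : (Nat.card N).Coprime N.index := by
      obtain ⟨m, hm⟩ := hNp.exists_card_eq
      rw [hm, Subgroup.index_eq_card]
      exact (hp.coprime_iff_not_dvd.mpr hndvd).pow_left m
    obtain ⟨H, hH⟩ := Subgroup.exists_right_complement'_of_coprime hco
    have hHcard : Nat.card H = Nat.card N - 1 := by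
      rw [← hmul, ← hH.symm.index_eq_card, Subgroup.index_eq_card]
    have hH1 : H ≠ ⊥ := by
      intro e
      have h1 : Nat.card H = 1 := by rw [e, Subgroup.card_bot]
      have h2 := Subgroup.card_eq_card_quotient_mul_card_subgroup N
      rw [hmul, ← hHcard, h1, one_mul] at h2
      omega
    have hFC : Cfsg.IsFrobeniusComplement H := by
      refine H21.fc_of_fpf hH hN1 hH1 fun x hx hx1 => ?_
      refine (Subgroup.eq_bot_iff_forall _).mpr fun n hn => ?_
      refine hfpf x (fun hd => ?_) hx1 n hn.1
        (Subgroup.mem_centralizer_singleton_iff.mp hn.2).symm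
      have := hd.trans (H.orderOf_dvd_natCard hx)
      rw [hHcard, ← hmul] at this
      exact hndvd this
    exact ⟨H, hFC, (H21.coe_eq_kernel_of_isComplement' hFC hH).symm, by omega⟩
  · rintro ⟨H, -, hker, hcard⟩
    refine le_antisymm (H19.le_pCore inferInstance hNp) fun x hx => ?_
    by_contra hxN
    have hxk : x ∉ Cfsg.frobeniusKernel H := hker ▸ hxN
    simp only [Cfsg.frobeniusKernel, Set.mem_ofPred_eq, not_or, not_forall, not_not] at hxk
    obtain ⟨hx1, t, ht⟩ := hxk
    obtain ⟨y, hy, rfl⟩ := ht
    obtain ⟨k, hk⟩ := (H19.pCore_isPGroup p) ⟨_, hx⟩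
    have h1 : orderOf ((MulAut.conj t) y) ∣ p ^ k := by
      refine orderOf_dvd_of_pow_eq_one ?_
      simpa using congrArg Subtype.val hk
    rw [MulEquiv.orderOf_eq] at h1
    have h2 := H.orderOf_dvd_natCard hy
    obtain ⟨m, hm⟩ := hNp.exists_card_eq
    have h3 : Nat.Coprime (p ^ k) (Nat.card H) := by
      refine (hp.coprime_iff_not_dvd.mpr fun h => ?_).pow_left k
      have : p ∣ Nat.card H + 1 := by
        rw [hcard, hm]
        refine dvd_pow_self p ?_
        rintro rfl
        rw [hm, pow_zero] at hq2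
        omega
      exact hp.ne_one (Nat.dvd_one.mp ((Nat.dvd_add_right h).mp this))
    have hy1 : y = 1 := orderOf_eq_one_iff.mp (Nat.eq_one_of_dvd_coprimes h3 h1 h2)
    exact hx1 (by simp [hy1])

end Cfsg.Agent.S4839
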