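import Cfsg.Statements.S4840
import Cfsg.Agent.H20.TransitiveFpf
import Cfsg.Agent.H20.TwoClassBridge

set_option autoImplicit false
open Cfsg

namespace Cfsg.Agent.S4840

open Cfsg.Agent in
theorem aux {G : Type*} [Group G] [Finite G] [Group.IsSolvable G] {χ : Cfsg.IrrCharacter G}
    {N : Subgroup G} [N.Normal] {g₀ : G} {p : ℕ} [Fact p.Prime]
    (d : H44.TwoClassData χ N g₀) (hpN : IsPGroup p N) (O : Subgroup G) [O.Normal]
    (hO : O = Cfsg.pCore p G) :
    Cfsg.HasNormalPComplement p (G ⧸ O) ∧ ∀ Q : Sylow p (G ⧸ O), IsMulCommutative (Q : Subgroup (G ⧸ O)) := by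
  classical
  haveI := Fintype.ofFinite G
  obtain ⟨hcomm, hexp⟩ := H20.TwoClass.comm_exp d hpN
  letI : CommGroup N :=
    { (inferInstance : Group N) with mul_comm := fun a b => Subtype.ext (hcomm _ a.2 _ b.2) }
  haveI : Nontrivial N := N.nontrivial_iff_ne_bot.mpr d.ne_bot
  haveI : Group.IsSolvable (G ⧸ O) := inferInstance
  have hker : O ≤ (MulAut.conjNormal : G →* MulAut N).ker := by
    intro x hx
    rw [hO, ← H20.TwoClass.centralizer_eq_pCore d hpN, Subgroup.mem_centralizer_iff] at hx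
    rw [MonoidHom.mem_ker]
    refine MulEquiv.ext fun n => Subtype.ext ?_
    rw [MulAut.conjNormal_apply, MulAut.one_apply, ← hx n n.2, mul_inv_cancel_right]
  let ψ : G ⧸ O →* MulAut N := QuotientGroup.lift O MulAut.conjNormal hker
  have hcore : Cfsg.pCore p (G ⧸ O) = ⊥ := by
    subst hO
    exact H19.pCore_quotient_pCore p
  obtain ⟨C, hC⟩ := d.exists_sylow_centralizer hpN (H20.TwoClass.mem_of_data d) d.ne_one
  have hG := H20.TwoClass.card_eq_mul d
  obtain ⟨c, hc⟩ : ∃ c, Nat.card (G ⧸ O) = (Nat.card N - 1) * p ^ c := by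
    obtain ⟨k, hk⟩ := IsPGroup.iff_card.mp C.2
    obtain ⟨l, hl⟩ := IsPGroup.iff_card.mp (hO ▸ H19.pCore_isPGroup p : IsPGroup p O)
    rw [hC, hk, Subgroup.card_eq_card_quotient_mul_card_subgroup O, hl] at hG
    have hcop : (p ^ l).Coprime (Nat.card N - 1) :=
      ((Fact.out : p.Prime).coprime_iff_not_dvd.mpr
        (H20.TwoClass.coprime_card_sub_one d hpN)).pow_left l
    have hdvd : p ^ l ∣ p ^ k :=
      hcop.dvd_of_dvd_mul_left (hG ▸ dvd_mul_left _ _)
    have hlk : l ≤ k := Nat.pow_dvd_pow_iff_le_right (Fact.out : p.Prime).one_lt |>.mp hdvd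
    refine ⟨k - l, Nat.eq_of_mul_eq_mul_right (pow_pos (Fact.out : p.Prime).pos l) ?_⟩
    rw [hG, mul_assoc, ← pow_add, Nat.sub_add_cancel hlk]
  refine H20.TransFpf.structure_of_transitive ψ (fun v => Subtype.ext (by
    rw [SubmonoidClass.coe_pow]; exact hexp v v.2)) ?_ hcore hc
  intro e hep he1 v hv
  obtain ⟨g, rfl⟩ := QuotientGroup.mk_surjective e
  obtain ⟨a, b, hb, hab⟩ := Nat.exists_eq_pow_mul_and_not_dvd (orderOf_pos g).ne' p
    (Fact.out : p.Prime).ne_one
  have hord : orderOf (g ^ p ^ a) = b := by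
    rw [orderOf_pow_of_dvd (pow_ne_zero _ (Fact.out : p.Prime).ne_zero) (Dvd.intro _ hab.symm), hab]
    exact Nat.mul_div_cancel_left b (pow_pos (Fact.out : p.Prime).pos a)
  have hne : g ^ p ^ a ≠ 1 := by
    intro h
    refine he1 (orderOf_eq_one_iff.mp ?_)
    have h1 : orderOf (g : G ⧸ O) ∣ p ^ a :=
      orderOf_dvd_of_pow_eq_one (by rw [← QuotientGroup.mk_pow, h, QuotientGroup.mk_one])
    exact Nat.eq_one_of_dvd_coprimes
      (((Fact.out : p.Prime).coprime_iff_not_dvd.mpr hep).pow_left a) h1 dvd_rfl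
  have hfix : ψ ((g ^ p ^ a : G) : G ⧸ O) v = v := by
    rw [QuotientGroup.mk_pow, map_pow]
    generalize p ^ a = n
    induction n with
    | zero => simp
    | succ n ih => rw [pow_succ, MulAut.mul_apply, hv, ih]
  refine Subtype.ext (H20.TwoClass.fixedPointFree d hpN (by rw [hord]; exact hb) hne v v.2 ?_)
  have h := congrArg Subtype.val hfix
  change g ^ p ^ a * (v : G) * (g ^ p ^ a)⁻¹ = v at h
  exact mul_inv_eq_iff_eq_mul.mp h

/-- Let G be a finite solvable group of order greater than 2 with an irreducible character nonzero on exactly two conjugacy classes. Then there is exactly one prime p with O_p(G) ≠ 1, and the quotient G/O_p(G) has a normal p-complement and commutative Sylow p-subgroups. -/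
theorem result {G : Type*} [Group G] [Finite G] [hs : Group.IsSolvable G] (hG : 2 < Nat.card G) (χ : Cfsg.IrrCharacter G) (hχ : Nat.card {C : ConjClasses G // ∃ g ∈ C.carrier, (χ : G → ℂ) g ≠ 0} = 2) :
    ∃ p : ℕ, p.Prime ∧ (∀ q : ℕ, q.Prime → (Cfsg.pCore q G ≠ ⊥ ↔ q = p)) ∧
      Cfsg.HasNormalPComplement p (G ⧸ Cfsg.pCore p G) ∧ ∀ Q : Sylow p (G ⧸ Cfsg.pCore p G), IsMulCommutative (Q : Subgroup (G ⧸ Cfsg.pCore p G)) := by
  obtain ⟨N, g, d⟩ := H44.exists_twoClassData hG χ hχ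
  obtain ⟨p, hp, -, -, hpN⟩ := d.elementary
  haveI := Fact.mk hp
  haveI := d.normal
  refine ⟨p, hp, fun q hq => ⟨fun hne => ?_, ?_⟩, ?_⟩
  · haveI := Fact.mk hq
    haveI := H19.pCore_normal q G
    have hle := d.le_of_normal _ hne
    by_contra hqp
    refine d.ne_bot ?_
    rw [eq_bot_iff]
    intro x hx
    obtain ⟨k, hk⟩ := hpN ⟨x, hx⟩
    obtain ⟨j, hj⟩ := H19.pCore_isPGroup q ⟨x, hle hx⟩
    refine Subgroup.mem_bot.mpr (orderOf_eq_one_iff.mp (Nat.eq_one_of_dvd_coprimes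
      (Nat.coprime_pow_primes k j hp hq (Ne.symm hqp))
      (orderOf_dvd_of_pow_eq_one (by simpa using congrArg Subtype.val hk))
      (orderOf_dvd_of_pow_eq_one (by simpa using congrArg Subtype.val hj))))
  · rintro rfl hbot
    exact d.ne_bot (le_bot_iff.mp (hbot ▸ H19.le_pCore inferInstance hpN))
  · haveI := H19.pCore_normal p G
    exact aux d hpN _ rfl

end Cfsg.Agent.S4840
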