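import Cfsg.Statements.S4843
import Cfsg.Agent.H45.Galois
import Cfsg.Agent.H43.CharKer
import Cfsg.Agent.H51.Basic
import Cfsg.Agent.H25.CharIntegral
import Mathlib.GroupTheory.FiniteAbelian.Duality

set_option autoImplicit false
open Cfsg

namespace Cfsg.Agent.S4843

open scoped ComplexConjugate commutatorElement
open Module

section Monomial

variable {K : Type*} [Field K] {W : Type*} [AddCommGroup W] [Module K W] {ι : Type*} [Fintype ι]
  [DecidableEq ι]

/-- The trace of a monomial operator. -/
theorem trace_monomial (b : Module.Basis ι K W) (T : W →ₗ[K] W) (d : ι → K)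
    (hT : ∀ i, ∃ (j : ι) (c : K), T (b i) = c • b j ∧ d i = if j = i then c else 0) :
    LinearMap.trace K W T = ∑ i, d i := by
  rw [LinearMap.trace_eq_matrix_trace K b, Matrix.trace]
  refine Finset.sum_congr rfl fun i _ => ?_
  obtain ⟨j, c, h1, h2⟩ := hT i
  rw [Matrix.diag_apply, LinearMap.toMatrix_apply, h1, map_smul, Module.Basis.repr_self,
    Finsupp.smul_apply, Finsupp.single_apply, h2, smul_eq_mul]
  split <;> simp

end Monomial

variable {G : Type*} [Group G] [Finite G]

/-- A nonzero fixed vector makes the character sum nonzero. -/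
theorem sum_char_ne_zero [Fintype G] {V : Type*} [AddCommGroup V] [Module ℂ V]
    [FiniteDimensional ℂ V] (ρ : Representation ℂ G V) {v : V} (hv : v ≠ 0)
    (h : ∀ g, ρ g v = v) : ∑ g, ρ.character g ≠ 0 := by
  have : Invertible (Nat.card G : ℂ) := invertibleOfNonzero (Nat.cast_ne_zero.2 Nat.card_pos.ne')
  intro h0
  have h1 := Representation.card_inv_mul_sum_char_eq_finrank ρ
  rw [h0, mul_zero, eq_comm, Nat.cast_eq_zero] at h1
  haveI := (Module.finrank_zero_iff (R := ℂ) (M := ρ.invariants)).1 h1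
  exact hv (congrArg Subtype.val (Subsingleton.elim (⟨v, h⟩ : ρ.invariants) 0))

/-- **Key**: an invariant family of operators with rational trace contradicts the irreducibility of
the product of a character with its conjugate. -/
theorem false_of_family {n : ℕ} (ρ : Representation ℂ G (Fin n → ℂ)) {k : ℕ}
    (hk : k.Coprime (Nat.card G))
    (hirr : IsIrrCharacter G (fun g => ρ.character g * ρ.character (g ^ k)))
    {ι : Type*} [Fintype ι] [Nontrivial ι] [DecidableEq ι] (v : ι → Module.End ℂ (Fin n → ℂ))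
    (hli : LinearIndependent ℂ v)
    (hone : (1 : Module.End ℂ (Fin n → ℂ)) ∈ Submodule.span ℂ (Set.range v))
    (d : G → ι → ℂ)
    (hd : ∀ g i, ∃ (j : ι) (c : ℂ), ρ g * v i * ρ g⁻¹ = c • v j ∧ d g i = if j = i then c else 0)
    (hrat : ∀ (σ : ℂ ≃+* ℂ) (g : G), σ (∑ i, d g i) = ∑ i, d g i) : False := by
  classical
  let _ : Fintype G := Fintype.ofFinite G
  set τ := Representation.linHom ρ ρ
  have hτ : ∀ g f, τ g f = ρ g * f * ρ g⁻¹ := fun g f => by
    rw [Representation.linHom_apply, Module.End.mul_eq_comp, Module.End.mul_eq_comp,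
      LinearMap.comp_assoc]
  let U : Subrepresentation τ :=
    { toSubmodule := Submodule.span ℂ (Set.range v)
      apply_mem_toSubmodule := fun g f hf => by
        induction hf using Submodule.span_induction with
        | mem x hx =>
          obtain ⟨i, rfl⟩ := hx
          obtain ⟨j, c, h1, -⟩ := hd g i
          rw [hτ, h1]
          exact Submodule.smul_mem _ _ (Submodule.subset_span ⟨j, rfl⟩)
        | zero => rw [map_zero]; exact zero_mem _
        | add x y _ _ hx hy => rw [map_add]; exact add_mem hx hy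
        | smul c x _ hx => rw [map_smul]; exact Submodule.smul_mem _ _ hx }
  -- the character of `U` is rational
  have hU : ∀ g, (Representation.character (k := ℂ) (V := ↥U.toSubmodule) U.toRepresentation) g = ∑ i, d g i := by
    intro g
    let b : Module.Basis ι ℂ U.toSubmodule := Module.Basis.span hli
    refine trace_monomial (W := ↥U.toSubmodule) b _ (d g) fun i => ?_
    obtain ⟨j, c, h1, h2⟩ := hd g i
    refine ⟨j, c, ?_, h2⟩
    have hb : ∀ i, ((b i : U.toSubmodule) : Module.End ℂ (Fin n → ℂ)) = v i :=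
      fun i => congrArg _ (Module.Basis.span_apply hli i) |>.trans rfl
    apply Subtype.ext
    rw [Submodule.coe_smul, hb]
    show τ g (b i : Module.End ℂ (Fin n → ℂ)) = _
    rw [hτ, hb, h1]
  obtain ⟨σ, hσ⟩ := H45.exists_ringAut_pow (n := Nat.card G) Nat.card_pos.ne' hk
  have hUk : ∀ g, (Representation.character (k := ℂ) (V := ↥U.toSubmodule) U.toRepresentation) (g ^ k) = (Representation.character (k := ℂ) (V := ↥U.toSubmodule) U.toRepresentation) g := by
    intro g
    rw [← H45.ringAut_repChar (V := ↥U.toSubmodule) U.toRepresentation σ hσ g, hU, hrat σ g]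
  obtain ⟨U', hU'⟩ := H26.exists_compl_sub τ U
  obtain ⟨e⟩ := H26.prod_equiv_of_isCompl τ U U' hU'
  have hsum : ∀ g, τ.character g =
      (Representation.character (k := ℂ) (V := ↥U.toSubmodule) U.toRepresentation) g + (Representation.character (k := ℂ) (V := ↥U'.toSubmodule) U'.toRepresentation) g := fun g => by
    rw [← Representation.char_iso (V := ↥U.toSubmodule × ↥U'.toSubmodule) e,
      H26.char_prod (V := ↥U.toSubmodule) (W := ↥U'.toSubmodule)]
    rfl
  -- the line of scalars inside `U`
  let u₀ : U.toSubmodule := ⟨1, hone⟩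
  have hfix : ∀ g, U.toRepresentation g u₀ = u₀ := fun g => by
    apply Subtype.ext
    show τ g (1 : Module.End ℂ (Fin n → ℂ)) = 1
    rw [hτ, mul_one, ← map_mul, mul_inv_cancel, map_one]
  have hn : Nontrivial (Fin n → ℂ) := by
    by_contra hn
    rw [not_nontrivial_iff_subsingleton] at hn
    haveI : Subsingleton (Module.End ℂ (Fin n → ℂ)) :=
      ⟨fun a b => LinearMap.ext fun x => Subsingleton.elim _ _⟩
    obtain ⟨i⟩ : Nonempty ι := inferInstance
    exact hli.ne_zero i (Subsingleton.elim _ _)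
  have hu₀ : u₀ ≠ 0 := fun h => one_ne_zero (congrArg Subtype.val h)
  -- inner products
  set A : G → ℂ := (Representation.character (k := ℂ) (V := ↥U.toSubmodule) U.toRepresentation)
  set S : G → ℂ := (Representation.character (k := ℂ) (V := ↥U'.toSubmodule) U'.toRepresentation)
  have hA : IsCharacter G A := H26.isCharacter_char _
  have hS : IsCharacter G S := H26.isCharacter_char _
  have hS' : IsCharacter G (fun g => S (g ^ k)) := by
    have h : (fun g => S (g ^ k)) = fun g => σ (S g) :=
      funext fun g => (H45.ringAut_char hS σ hσ g).symm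
    rw [h]
    exact H45.isCharacter_ringAut hS σ
  have hinner : ∀ {φ ψ : G → ℂ}, IsCharacter G φ → IsCharacter G ψ →
      ∃ m : ℕ, classInner φ ψ = m := fun {φ ψ} h h' => by
    obtain ⟨a, ρa, rfl⟩ := h
    obtain ⟨b, ρb, rfl⟩ := h'
    exact ⟨_, H26.classInner_char_eq_finrank ρb ρa⟩
  have hτchar : ∀ g, τ.character g = conj (ρ.character g) * ρ.character g := fun g => by
    rw [Representation.char_linHom, H26.char_inv_eq_conj]
  -- the product character has norm one
  have hnorm : classInner τ.character (fun g => τ.character (g ^ k)) = 1 := by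
    have h := H26.classInner_irr ⟨_, hirr⟩ ⟨_, hirr⟩
    rw [if_pos rfl] at h
    rw [← h]
    simp only [classInner, hτchar, map_mul, Complex.conj_conj]
    congr 1
    exact Finset.sum_congr rfl fun g _ => by ring
  have hsplit : classInner τ.character (fun g => τ.character (g ^ k)) =
      classInner A A + classInner A (fun g => S (g ^ k)) +
        (classInner S A + classInner S (fun g => S (g ^ k))) := by
    simp only [classInner, hsum, ← mul_add, ← Finset.sum_add_distrib]
    congr 1
    refine Finset.sum_congr rfl fun g _ => ?_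
    change (A g + S g) * conj (A (g ^ k) + S (g ^ k)) = _
    rw [hUk g, map_add]
    ring
  obtain ⟨m1, e1⟩ := hinner hA hS'
  obtain ⟨m2, e2⟩ := hinner hS hA
  obtain ⟨m3, e3⟩ := hinner hS hS'
  have hA1 : A 1 = (Fintype.card ι : ℂ) := by
    show Representation.character (k := ℂ) (V := ↥U.toSubmodule) U.toRepresentation 1 = _
    rw [Representation.char_one (V := ↥U.toSubmodule),
      show finrank ℂ U.toSubmodule = Fintype.card ι from finrank_span_eq_card hli]
  obtain ⟨m, hm, hdec⟩ := H26.exists_nat_coeffs hA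
  have hone' : m (H26.oneIrr G) ≠ 0 := by
    intro h0
    have : Invertible (Nat.card G : ℂ) := invertibleOfNonzero (Nat.cast_ne_zero.2 Nat.card_pos.ne')
    have h1 : classInner A (H26.oneIrr G).1 = 0 := by rw [hm, h0, Nat.cast_zero]
    simp only [classInner, H26.oneIrr_val, map_one, mul_one, A] at h1
    exact sum_char_ne_zero (V := ↥U.toSubmodule) U.toRepresentation hu₀ hfix
      ((mul_eq_zero.1 h1).resolve_left (inv_ne_zero (Nat.cast_ne_zero.2 Nat.card_pos.ne')))
  have hAA' : classInner A A = (∑ φ : IrrCharacter G, m φ ^ 2 : ℕ) := by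
    rw [H26.classInner_eq_sum A A (H26.isClassFunction_of_isCharacter hA)]
    push_cast
    refine Finset.sum_congr rfl fun φ _ => ?_
    rw [hm]
    simp [sq]
  obtain ⟨m5, hAA⟩ : ∃ m5 : ℕ, classInner A A = (2 + m5 : ℕ) := by
    refine ⟨∑ φ : IrrCharacter G, m φ ^ 2 - 2, ?_⟩
    rw [hAA', Nat.add_sub_cancel' ?_]
    by_contra hlt
    have hsum2 := Finset.add_sum_erase Finset.univ (fun φ : IrrCharacter G => m φ ^ 2)
      (Finset.mem_univ (H26.oneIrr G))
    have h1 : 1 ≤ m (H26.oneIrr G) ^ 2 := Nat.one_le_pow _ _ (Nat.pos_of_ne_zero hone')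
    have h2 : ∑ φ ∈ Finset.univ.erase (H26.oneIrr G), m φ ^ 2 = 0 := by omega
    have h3 : m (H26.oneIrr G) = 1 := by
      have : m (H26.oneIrr G) ^ 2 = 1 := by omega
      exact (Nat.pow_eq_one.1 this).resolve_right (by norm_num)
    have h4 := congrFun hdec 1
    rw [Finset.sum_apply, Finset.sum_eq_single (H26.oneIrr G) (fun φ hφ hne => by
      have := Finset.sum_eq_zero_iff.1 h2 φ (Finset.mem_erase.2 ⟨hne, hφ⟩)
      rw [Pi.smul_apply, show m φ = 0 from pow_eq_zero_iff (by norm_num) |>.1 this, Nat.cast_zero,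
        zero_smul]) (fun h => absurd (Finset.mem_univ _) h), hA1, Pi.smul_apply, h3,
      H26.oneIrr_val, Nat.cast_one, one_smul, Nat.cast_eq_one] at h4
    exact Fintype.one_lt_card.ne' h4
  rw [hsplit, hAA, e1, e2, e3] at hnorm
  have : (2 + m5 + m1 + (m2 + m3) : ℕ) = 1 := by exact_mod_cast hnorm
  omega

/-- Elements acting as scalars in a faithful representation are central. -/
theorem mem_center_of_scalar {n : ℕ} (ρ : Representation ℂ G (Fin n → ℂ))
    (hinj : Function.Injective ρ) {a : G} {c : ℂ}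
    (h : ρ a = c • (1 : Module.End ℂ (Fin n → ℂ))) : a ∈ Subgroup.center G :=
  Subgroup.mem_center_iff.2 fun g => hinj (by
    rw [map_mul, map_mul, h, mul_smul_comm, smul_mul_assoc, mul_one, one_mul])

/-- Normal abelian subgroups are central. -/
theorem abelian_normal_le_center {n : ℕ} (ρ : Representation ℂ G (Fin n → ℂ))
    (hinj : Function.Injective ρ) {k : ℕ} (hk : k.Coprime (Nat.card G))
    (hirr : IsIrrCharacter G (fun g => ρ.character g * ρ.character (g ^ k)))
    (A : Subgroup G) [A.Normal] (hA : ∀ a ∈ A, ∀ b ∈ A, a * b = b * a) :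
    A ≤ Subgroup.center G := by
  classical
  intro a ha
  by_contra hac
  let _ : CommGroup A :=
    { (inferInstance : Group A) with mul_comm := fun x y => Subtype.ext (hA x x.2 y y.2) }
  let _ : Fintype A := Fintype.ofFinite A
  haveI : Finite (A →* ℂˣ) := Finite.of_equiv _ (H26.linearCharEquiv A).symm
  let _ : Fintype (A →* ℂˣ) := Fintype.ofFinite _
  let E : (A →* ℂˣ) → Module.End ℂ (Fin n → ℂ) := fun l =>
    (Nat.card A : ℂ)⁻¹ • ∑ x : A, ((l x⁻¹ : ℂˣ) : ℂ) • ρ (x : G)
  have hN : (Nat.card A : ℂ) ≠ 0 := Nat.cast_ne_zero.2 Nat.card_pos.ne'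
  have hmul : ∀ (x : A) (l : A →* ℂˣ), ρ (x : G) * E l = ((l x : ℂˣ) : ℂ) • E l := by
    intro x l
    simp only [E, mul_smul_comm, Finset.mul_sum, Finset.smul_sum, smul_smul]
    refine Fintype.sum_equiv (Equiv.mulLeft x) _ _ fun y => ?_
    rw [Equiv.coe_mulLeft, Subgroup.coe_mul, map_mul ρ]
    congr 1
    have h1 : ((l x : ℂˣ) : ℂ) * ((l x⁻¹ : ℂˣ) : ℂ) = 1 := by
      rw [← Units.val_mul, ← map_mul, mul_inv_cancel, map_one, Units.val_one]
    rw [mul_inv_rev, map_mul, Units.val_mul]
    linear_combination -((Nat.card A : ℂ)⁻¹ * ((l y⁻¹ : ℂˣ) : ℂ)) * h1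
  have hsum0 : ∀ x : A, x ≠ 1 → ∑ l : A →* ℂˣ, ((l x : ℂˣ) : ℂ) = 0 := by
    intro x hx
    obtain ⟨f, hf⟩ := CommGroup.exists_apply_ne_one_of_hasEnoughRootsOfUnity A ℂ hx
    have h : ((f x : ℂˣ) : ℂ) * ∑ l : A →* ℂˣ, ((l x : ℂˣ) : ℂ) =
        ∑ l : A →* ℂˣ, ((l x : ℂˣ) : ℂ) := by
      rw [Finset.mul_sum]
      exact Fintype.sum_equiv (Equiv.mulLeft f) _ _ fun l => by
        rw [Equiv.coe_mulLeft, MonoidHom.mul_apply, Units.val_mul]
    have h1 : ((f x : ℂˣ) : ℂ) - 1 ≠ 0 := sub_ne_zero.2 fun e => hf (Units.ext e)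
    exact (mul_eq_zero.1 (by rw [sub_mul, one_mul, h, sub_self] :
      (((f x : ℂˣ) : ℂ) - 1) * _ = 0)).resolve_left h1
  have hEone : ∑ l, E l = 1 := by
    simp only [E, ← Finset.smul_sum]
    rw [Finset.sum_comm]
    simp only [← Finset.sum_smul]
    rw [Finset.sum_eq_single (1 : A)]
    · rw [inv_one, OneMemClass.coe_one, map_one]
      simp only [map_one, Units.val_one, Finset.sum_const, Finset.card_univ, nsmul_eq_mul, mul_one]
      rw [smul_smul, ← Nat.card_eq_fintype_card,
        CommGroup.card_monoidHom_of_hasEnoughRootsOfUnity, inv_mul_cancel₀ hN, one_smul]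
    · intro x _ hx
      rw [hsum0 x⁻¹ (inv_ne_one.2 hx), zero_smul]
    · intro h; exact absurd (Finset.mem_univ _) h
  have hEE : ∀ l m : A →* ℂˣ, E l * E m = if l = m then E m else 0 := by
    intro l m
    have : E l * E m = ((Nat.card A : ℂ)⁻¹ * ∑ x : A, ((l x⁻¹ : ℂˣ) : ℂ) * ((m x : ℂˣ) : ℂ)) •
        E m := by
      conv_lhs => arg 1; simp only [E]
      rw [smul_mul_assoc, Finset.sum_mul, mul_smul, Finset.sum_smul]
      congr 1
      exact Finset.sum_congr rfl fun x _ => by rw [smul_mul_assoc, hmul, smul_smul]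
    rw [this]
    split_ifs with h
    · subst h
      rw [Finset.sum_congr rfl fun x _ => show ((l x⁻¹ : ℂˣ) : ℂ) * ((l x : ℂˣ) : ℂ) = 1 by
        rw [← Units.val_mul, ← map_mul, inv_mul_cancel, map_one, Units.val_one]]
      rw [Finset.sum_const, Finset.card_univ, nsmul_one, ← Nat.card_eq_fintype_card,
        inv_mul_cancel₀ hN, one_smul]
    · obtain ⟨y, hy⟩ := DFunLike.ne_iff.1 h
      set s := ∑ x : A, ((l x⁻¹ : ℂˣ) : ℂ) * ((m x : ℂˣ) : ℂ)
      have h1 : (((l y⁻¹ : ℂˣ) : ℂ) * ((m y : ℂˣ) : ℂ)) * s = s := by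
        rw [Finset.mul_sum]
        refine Fintype.sum_equiv (Equiv.mulLeft y) _ _ fun x => ?_
        rw [Equiv.coe_mulLeft, map_mul, Units.val_mul, mul_inv_rev, map_mul, Units.val_mul]
        ring
      have h2 : ((l y⁻¹ : ℂˣ) : ℂ) * ((m y : ℂˣ) : ℂ) - 1 ≠ 0 := sub_ne_zero.2 fun e => hy (by
        rw [← Units.val_mul, map_inv, ← Units.val_one] at e
        exact inv_mul_eq_one.1 (Units.ext e))
      rw [(mul_eq_zero.1 (by rw [sub_mul, one_mul, h1, sub_self] :
        (((l y⁻¹ : ℂˣ) : ℂ) * ((m y : ℂˣ) : ℂ) - 1) * s = 0)).resolve_left h2, mul_zero,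
        zero_smul]
  let ι := {l : A →* ℂˣ // E l ≠ 0}
  have hspan : ∑ l : ι, E l.1 = 1 := by
    rw [← hEone, ← Finset.sum_filter_ne_zero (Finset.univ : Finset (A →* ℂˣ))]
    exact (Finset.sum_subtype (p := fun l => E l ≠ 0) (Finset.univ.filter fun l => E l ≠ 0)
      (fun l => by simp) E).symm
  rcases subsingleton_or_nontrivial ι with hs | hs
  · -- a single eigencharacter: `A` acts by scalars
    refine hac ?_
    have hn : ∃ l : ι, E l.1 = 1 := by
      by_cases hne : Nonempty ι
      · obtain ⟨l⟩ := hne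
        refine ⟨l, ?_⟩
        rw [← hspan, Finset.sum_eq_single l (fun m _ hm => absurd (Subsingleton.elim m l) hm)
          (fun h => absurd (Finset.mem_univ _) h)]
      · exfalso
        rw [not_nonempty_iff] at hne
        rw [Fintype.sum_empty] at hspan
        refine hac (mem_center_of_scalar ρ hinj (c := 0) ?_)
        rw [zero_smul, ← mul_one (ρ a), ← hspan, mul_zero]
    obtain ⟨l, hl⟩ := hn
    refine mem_center_of_scalar ρ hinj (c := ((l.1 ⟨a, ha⟩ : ℂˣ) : ℂ)) ?_
    have h := hmul ⟨a, ha⟩ l.1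
    rwa [hl, mul_one] at h
  · have hconj : ∀ (g : G) (l : A →* ℂˣ), ρ g * E l * ρ g⁻¹ =
        E (l.comp (MulAut.conjNormal g⁻¹).toMonoidHom) := by
      intro g l
      simp only [E, mul_smul_comm, smul_mul_assoc, Finset.mul_sum, Finset.sum_mul]
      congr 1
      refine Fintype.sum_equiv (MulAut.conjNormal g).toEquiv _ _ fun x => ?_
      simp only [MulEquiv.toEquiv_eq_coe, EquivLike.coe_coe, MonoidHom.comp_apply,
        MulEquiv.coe_toMonoidHom, MulEquiv.coe_toEquiv]
      rw [← map_mul, ← map_mul]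
      erw [MulAut.conjNormal_apply]
      congr 3
      apply Subtype.ext
      simp only [InvMemClass.coe_inv, MulAut.conjNormal_apply, inv_inv]
      group
    have hne : ∀ (g : G) (l : ι), E (l.1.comp (MulAut.conjNormal g⁻¹).toMonoidHom) ≠ 0 := by
      intro g l h
      refine l.2 ?_
      have h' := hconj g l.1
      rw [h] at h'
      calc E l.1 = ρ g⁻¹ * (ρ g * E l.1 * ρ g⁻¹) * ρ g := by
            rw [mul_assoc (ρ g) (E l.1), ← mul_assoc, ← map_mul, inv_mul_cancel, map_one, one_mul,
              mul_assoc, ← map_mul, inv_mul_cancel, map_one, mul_one]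
        _ = 0 := by rw [h', mul_zero, zero_mul]
    let π : G → ι → ι := fun g l => ⟨_, hne g l⟩
    refine false_of_family ρ hk hirr (ι := ι) (fun l => E l.1) ?_ ?_
      (fun g l => if π g l = l then 1 else 0) ?_ ?_
    · rw [Fintype.linearIndependent_iff]
      intro c hc l
      have h := congrArg (fun f => E l.1 * f) hc
      simp only [mul_zero, Finset.mul_sum, mul_smul_comm, hEE] at h
      rw [Finset.sum_eq_single l (fun m _ hm => by
        rw [if_neg (fun e => hm (Subtype.ext e.symm)), smul_zero])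
        (fun h => absurd (Finset.mem_univ _) h), if_pos rfl] at h
      exact (smul_eq_zero.1 h).resolve_right l.2
    · rw [← hspan]
      exact Submodule.sum_mem _ fun l _ => Submodule.subset_span ⟨l, rfl⟩
    · intro g l
      exact ⟨π g l, 1, by rw [one_smul]; exact hconj g l.1, rfl⟩
    · intro σ g
      rw [map_sum]
      exact Finset.sum_congr rfl fun l _ => by split <;> simp

/-- A normal subgroup on which the character lives on the centre is central. -/
theorem class_two_le_center {n : ℕ} (ρ : Representation ℂ G (Fin n → ℂ)) [ρ.IsIrreducible]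
    (hinj : Function.Injective ρ) {k : ℕ} (hk : k.Coprime (Nat.card G))
    (hirr : IsIrrCharacter G (fun g => ρ.character g * ρ.character (g ^ k)))
    (Q : Subgroup G) [Q.Normal] (hZQ : Subgroup.center G ≤ Q)
    (hcomm : ∀ a ∈ Q, ∀ b ∈ Q, ⁅a, b⁆ ∈ Subgroup.center G)
    (hvan : ∀ q ∈ Q, q ∉ Subgroup.center G → ρ.character q = 0) :
    Q ≤ Subgroup.center G := by
  classical
  intro q₀ hq₀
  by_contra hq₀c
  have hn0 : (n : ℂ) ≠ 0 := by
    have h := H26.finrank_pos_of_isIrreducible ρ
    rw [Module.finrank_fin_fun] at h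
    exact Nat.cast_ne_zero.2 h.ne'
  have hchar1 : ρ.character 1 = n := by rw [ρ.char_one, Module.finrank_fin_fun]
  -- the scalar of a central element
  set μ : G → ℂ := fun z => ρ.character z / n with hμdef
  have hscal : ∀ z ∈ Subgroup.center G, ρ z = μ z • (1 : Module.End ℂ (Fin n → ℂ)) := by
    intro z hz
    have h := H25.eq_smul_id_of_comm ρ (ρ z) fun g => by
      rw [← Module.End.mul_eq_comp, ← Module.End.mul_eq_comp, ← map_mul, ← map_mul,
        Subgroup.mem_center_iff.1 hz g]
    rwa [Module.finrank_fin_fun] at h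
  have hμmul : ∀ z ∈ Subgroup.center G, ∀ x : G, μ (z * x) = μ z * μ x := by
    intro z hz x
    show LinearMap.trace ℂ _ (ρ (z * x)) / n = μ z * (LinearMap.trace ℂ _ (ρ x) / n)
    rw [map_mul, hscal z hz, smul_mul_assoc, one_mul, map_smul, smul_eq_mul, mul_div_assoc]
  let Z' := (Subgroup.center G).subgroupOf Q
  let ι := Q ⧸ Z'
  let _ : Fintype ι := Fintype.ofFinite ι
  let _ : Fintype Q := Fintype.ofFinite Q
  have hcl : ∀ {i j : ι}, (i.out : G)⁻¹ * (j.out : G) ∈ Subgroup.center G → i = j := by
    intro i j h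
    rw [← QuotientGroup.out_eq' i, ← QuotientGroup.out_eq' j]
    exact QuotientGroup.eq.2 (Subgroup.mem_subgroupOf.2 h)
  haveI : Nontrivial ι := ⟨⟨((⟨q₀, hq₀⟩ : Q) : ι), ((1 : Q) : ι), fun e => hq₀c (by
    have := QuotientGroup.eq.1 e
    rw [Subgroup.mem_subgroupOf] at this
    simpa using this)⟩⟩
  -- the scalar attached to a pair, supported on the fixed cosets
  let ε : G → G → ℂ := fun g q => if ⁅g, q⁆ ∈ Subgroup.center G then μ ⁅g, q⁆ else 0
  have hεz : ∀ (g q z : G), z ∈ Subgroup.center G → ε g (q * z) = ε g q := by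
    intro g q z hz
    have : ⁅g, q * z⁆ = ⁅g, q⁆ := by
      rw [commutatorElement_def, commutatorElement_def, mul_inv_rev]
      have h1 : g * (q * z) * g⁻¹ = g * q * g⁻¹ * z := by
        rw [← mul_assoc, mul_assoc (g * q), ← Subgroup.mem_center_iff.1 hz g⁻¹, ← mul_assoc]
      rw [h1]
      group
    simp only [ε, this]
  refine false_of_family ρ hk hirr (ι := ι) (fun i => ρ (i.out : G)) ?_ ?_
    (fun g i => ε g i.out) ?_ ?_
  · rw [Fintype.linearIndependent_iff]
    intro c hc j
    have h := congrArg (fun f => LinearMap.trace ℂ _ (ρ (j.out : G)⁻¹ * f)) hc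
    simp only [mul_zero, map_zero, Finset.mul_sum, mul_smul_comm, ← map_mul, map_sum, map_smul,
      smul_eq_mul] at h
    rw [Finset.sum_eq_single j (fun i _ hi => by
      have := hvan ((j.out : G)⁻¹ * (i.out : G)) (mul_mem (inv_mem j.out.2) i.out.2)
        fun hz => hi (hcl hz).symm
      rw [Representation.character] at this
      rw [this, mul_zero]) (fun h => absurd (Finset.mem_univ _) h), inv_mul_cancel] at h
    exact (mul_eq_zero.1 h).resolve_right (by
      change ρ.character 1 ≠ 0
      rw [hchar1]; exact hn0)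
  · have hz : (((1 : Q) : ι).out : G) ∈ Subgroup.center G := by
      have := QuotientGroup.eq.1 (QuotientGroup.out_eq' (((1 : Q) : ι)))
      rw [Subgroup.mem_subgroupOf] at this
      simpa using this
    have hμ0 : μ (((1 : Q) : ι).out : G) ≠ 0 := by
      intro h0
      have h := congrArg (fun f => LinearMap.trace ℂ _ (f * ρ (((1 : Q) : ι).out : G)⁻¹))
        (hscal _ hz)
      simp only [h0, zero_smul, zero_mul, map_zero, ← map_mul, mul_inv_cancel] at h
      exact hn0 (hchar1.symm.trans h)
    have h1 : (1 : Module.End ℂ (Fin n → ℂ)) =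
        (μ (((1 : Q) : ι).out : G))⁻¹ • ρ (((1 : Q) : ι).out : G) := by
      rw [hscal _ hz, smul_smul, inv_mul_cancel₀ hμ0, one_smul]
    rw [h1]
    exact Submodule.smul_mem _ _ (Submodule.subset_span ⟨_, rfl⟩)
  · intro g i
    set q := (i.out : G)
    have hq : g * q * g⁻¹ ∈ Q := (inferInstance : Q.Normal).conj_mem q i.out.2 g
    set j : ι := ((⟨g * q * g⁻¹, hq⟩ : Q) : ι)
    set z := g * q * g⁻¹ * (j.out : G)⁻¹
    have hz : z ∈ Subgroup.center G := by
      have h := QuotientGroup.eq.1 (QuotientGroup.out_eq' j)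
      rw [Subgroup.mem_subgroupOf] at h
      have h' := (inferInstance : (Subgroup.center G).Normal).conj_mem _ h (j.out : G)
      convert h' using 1
      simp only [z, Subgroup.coe_mul, InvMemClass.coe_inv]
      group
    refine ⟨j, μ z, ?_, ?_⟩
    · rw [← map_mul, ← map_mul, show g * q * g⁻¹ = z * (j.out : G) by simp [z], map_mul,
        hscal z hz, smul_mul_assoc, one_mul]
    · have hiff : j = i ↔ ⁅g, q⁆ ∈ Subgroup.center G := by
        constructor
        · intro h
          have hz' := hz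
          simp only [z, h] at hz'
          simpa [q, commutatorElement_def] using hz' 
        · intro h
          refine hcl ?_
          have h' := mul_mem (inv_mem hz) h
          have h'' := inv_mem
            ((inferInstance : (Subgroup.center G).Normal).conj_mem _ h' (i.out : G)⁻¹)
          convert h'' using 1
          simp only [z, q, commutatorElement_def]
          group
      show ε g q = _
      by_cases h : j = i
      · rw [if_pos h]
        simp only [ε, if_pos (hiff.1 h)]
        congr 1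
        simp only [z, q, h, commutatorElement_def]
      · rw [if_neg h]
        simp only [ε, if_neg (fun hh => h (hiff.2 hh))]
  · intro σ g
    -- a sum of a homomorphism over the fixed subgroup
    let F : Subgroup Q :=
      { carrier := {q : Q | ⁅g, (q : G)⁆ ∈ Subgroup.center G}
        one_mem' := by
          simp only [Set.mem_setOf_eq]
          rw [OneMemClass.coe_one, commutatorElement_one_right]; exact one_mem _
        mul_mem' := fun {a b} ha hb => by
          have : ⁅g, ((a * b : Q) : G)⁆ = ⁅g, (a : G)⁆ * ((a : G) * ⁅g, (b : G)⁆ * (a : G)⁻¹) := by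
            simp only [Subgroup.coe_mul, commutatorElement_def]; group
          simp only [Set.mem_setOf_eq]
          rw [this]
          exact mul_mem ha ((inferInstance : (Subgroup.center G).Normal).conj_mem _ hb _)
        inv_mem' := fun {a} ha => by
          have : ⁅g, ((a⁻¹ : Q) : G)⁆ = (a : G)⁻¹ * ⁅g, (a : G)⁆⁻¹ * ((a : G)⁻¹)⁻¹ := by
            simp only [InvMemClass.coe_inv, commutatorElement_def]; group
          simp only [Set.mem_setOf_eq]
          rw [this]
          exact (inferInstance : (Subgroup.center G).Normal).conj_mem _ (inv_mem ha) _ }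
    let φ : F →* ℂ :=
      { toFun := fun q => μ ⁅g, ((q : Q) : G)⁆
        map_one' := by
          show μ ⁅g, ((((1 : F) : Q)) : G)⁆ = 1
          rw [OneMemClass.coe_one, OneMemClass.coe_one, commutatorElement_one_right]
          exact (div_eq_one_iff_eq hn0).2 hchar1
        map_mul' := fun a b => by
          have : ⁅g, (((a * b : F) : Q) : G)⁆ = ⁅g, ((a : Q) : G)⁆ * ⁅g, ((b : Q) : G)⁆ := by
            have hb : ((a : Q) : G) * ⁅g, ((b : Q) : G)⁆ * ((a : Q) : G)⁻¹ = ⁅g, ((b : Q) : G)⁆ := by
              rw [Subgroup.mem_center_iff.1 b.2 ((a : Q) : G), mul_inv_cancel_right]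
            calc ⁅g, (((a * b : F) : Q) : G)⁆ = ⁅g, ((a : Q) : G)⁆ *
                  (((a : Q) : G) * ⁅g, ((b : Q) : G)⁆ * ((a : Q) : G)⁻¹) := by
                  simp only [Subgroup.coe_mul, commutatorElement_def]; group
              _ = _ := by rw [hb]
          show μ _ = _
          rw [this, hμmul _ a.2] }
    let _ : Fintype F := Fintype.ofFinite F
    have hF : ∃ m : ℕ, ∑ x : F, φ x = m := by
      by_cases hφ : φ = 1
      · exact ⟨Fintype.card F, by simp [hφ]⟩
      · exact ⟨0, by rw [Nat.cast_zero]; exact sum_hom_units_eq_zero φ hφ⟩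
    obtain ⟨m, hm⟩ := hF
    have hQsum : ∑ x : Q, ε g x = (Nat.card Z' : ℂ) * ∑ i : ι, ε g i.out := by
      rw [Finset.mul_sum, ← Finset.sum_fiberwise (g := fun x : Q => ((x : ι)))]
      refine Finset.sum_congr rfl fun i _ => ?_
      rw [Finset.sum_congr rfl (g := fun _ => ε g i.out) fun x hx => by
        obtain ⟨-, hxi⟩ := Finset.mem_filter.1 hx
        have h := QuotientGroup.eq.1 ((QuotientGroup.out_eq' i).trans hxi.symm)
        rw [Subgroup.mem_subgroupOf] at h
        rw [show (x : G) = (i.out : G) * ((i.out : G)⁻¹ * (x : G)) by group]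
        exact hεz g _ _ h, Finset.sum_const, nsmul_eq_mul]
      congr 2
      rw [← Fintype.card_subtype, ← Nat.card_eq_fintype_card]
      exact (Nat.card_congr ((Equiv.mulLeft i.out).subtypeEquiv fun z => by
        show z ∈ Z' ↔ ((i.out * z : Q) : ι) = i
        conv_rhs => rhs; rw [← QuotientGroup.out_eq' i]
        rw [eq_comm (a := ((i.out * z : Q) : ι)), QuotientGroup.eq, inv_mul_cancel_left])).symm
    have hQF : ∑ x : Q, ε g x = ∑ x : F, φ x := by
      rw [← Finset.sum_filter_of_ne (p := fun x : Q => x ∈ F) (fun x _ hx => by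
        by_contra h; exact hx (if_neg h)),
        Finset.sum_subtype (p := fun x : Q => x ∈ F) _ (fun x => by simp)]
      exact Finset.sum_congr rfl fun x _ => if_pos x.2
    have h0 : (Nat.card Z' : ℂ) ≠ 0 := Nat.cast_ne_zero.2 Nat.card_pos.ne'
    have hfin : ∑ i : ι, ε g i.out = (m : ℂ) / (Nat.card Z' : ℂ) := by
      rw [eq_div_iff h0, mul_comm, ← hQsum, hQF, hm]
    rw [hfin, map_div₀, map_natCast, map_natCast]

/-- Let G be a finite group with a faithful irreducible character χ (taking the value χ(1) only at the identity) and let k be prime to the order of G, so that g ↦ χ(g^k) is a Galois conjugate of χ. If the pointwise product g ↦ χ(g)·χ(g^k) is again an irreducible character, then the Fitting subgroup of G equals its centre. -/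
theorem result {G : Type*} [Group G] [Finite G] (χ : Cfsg.IrrCharacter G) (hfaith : ∀ g : G, (χ : G → ℂ) g = (χ : G → ℂ) 1 → g = 1) (k : ℕ) (hk : Nat.Coprime k (Nat.card G)) (hirr : Cfsg.IsIrrCharacter G (fun g => (χ : G → ℂ) g * (χ : G → ℂ) (g ^ k))) : Cfsg.fittingSubgroup G = Subgroup.center G := by
  classical
  obtain ⟨n, ρ, hρ, hχ⟩ := χ.2
  haveI := hρ
  have hinj : Function.Injective ρ := by
    intro a b hab
    have h1 : ρ (a⁻¹ * b) = 1 := by rw [map_mul, ← hab, ← map_mul, inv_mul_cancel, map_one]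
    have h2 : (χ : G → ℂ) (a⁻¹ * b) = (χ : G → ℂ) 1 := by
      rw [← hχ]
      show LinearMap.trace ℂ _ (ρ (a⁻¹ * b)) = LinearMap.trace ℂ _ (ρ 1)
      rw [h1, map_one ρ]
    exact inv_mul_eq_one.1 (hfaith _ h2)
  rw [← hχ] at hirr
  haveI hFn := H51.fittingSubgroup_normal G
  have hFnil := H51.fittingSubgroup_isNilpotent G
  set F := Cfsg.fittingSubgroup G
  set Z := Subgroup.center G
  haveI : IsMulCommutative Z := inferInstance
  have hZF : Z ≤ F := H51.le_fittingSubgroup inferInstance (by
    let _ : CommGroup Z := { (inferInstance : Group Z) with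
      mul_comm := fun a b => Subtype.ext (Subgroup.mem_center_iff.1 b.2 a) }
    exact CommGroup.isNilpotent)
  refine le_antisymm ?_ hZF
  by_contra hFZ
  let π := QuotientGroup.mk' Z
  haveI : (F.map π).Normal := hFn.map π (QuotientGroup.mk'_surjective Z)
  set Q := F ⊓ (Subgroup.centralizer ((F.map π : Subgroup (G ⧸ Z)) : Set (G ⧸ Z))).comap π with hQdef
  haveI hQn : Q.Normal := by
    haveI := (inferInstance : (Subgroup.centralizer
      ((F.map π : Subgroup (G ⧸ Z)) : Set (G ⧸ Z))).Normal).comap π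
    exact inferInstanceAs (F ⊓ _ : Subgroup G).Normal
  have hQc : ∀ q ∈ Q, ∀ f ∈ F, ⁅q, f⁆ ∈ Z := by
    intro q hq f hf
    rw [← QuotientGroup.eq_one_iff, ← QuotientGroup.mk'_apply, map_commutatorElement,
      commutatorElement_eq_one_iff_mul_comm]
    exact (Subgroup.mem_centralizer_iff.1 hq.2 (π f) ⟨f, hf, rfl⟩).symm
  have hZQ : Z ≤ Q := fun z hz => ⟨hZF hz, Subgroup.mem_centralizer_iff.2 fun y _ => by
    rw [show π z = 1 from (QuotientGroup.eq_one_iff z).2 hz, one_mul, mul_one]⟩
  have hQne : ¬ Q ≤ Z := by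
    haveI : Group.IsNilpotent F := hFnil
    haveI hnil : Group.IsNilpotent (F.map π) :=
      Group.nilpotent_of_surjective (π.subgroupMap F) (π.subgroupMap_surjective F)
    haveI : Nontrivial (F.map π) := by
      obtain ⟨f, hf, hfZ⟩ := SetLike.not_le_iff_exists.1 hFZ
      exact ⟨⟨⟨π f, f, hf, rfl⟩, 1, fun e => hfZ ((QuotientGroup.eq_one_iff f).1
        (congrArg Subtype.val e))⟩⟩
    intro hle
    refine Group.IsNilpotent.center_ne_bot (G := F.map π) ((Subgroup.eq_bot_iff_forall _).2 ?_)
    rintro ⟨_, f, hf, rfl⟩ hy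
    apply Subtype.ext
    refine (QuotientGroup.eq_one_iff f).2 (hle ⟨hf, Subgroup.mem_centralizer_iff.2 ?_⟩)
    rintro _ ⟨f', hf', rfl⟩
    exact congrArg Subtype.val (Subgroup.mem_center_iff.1 hy ⟨π f', f', hf', rfl⟩)
  -- the centre of `F` is central
  let A := (Subgroup.center F).map F.subtype
  haveI : A.Normal := ConjAct.normal_of_characteristic_of_normal
  have hA : A ≤ Z := abelian_normal_le_center ρ hinj hk hirr A (by
    rintro _ ⟨x, hx, rfl⟩ _ ⟨y, -, rfl⟩
    exact (congrArg Subtype.val (Subgroup.mem_center_iff.1 hx y)).symm)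
  refine hQne (class_two_le_center ρ hinj hk hirr Q hZQ (fun a ha b hb => hQc a ha b hb.1) ?_)
  intro q hq hqz
  obtain ⟨f, hf, hfq⟩ : ∃ f ∈ F, ⁅q, f⁆ ≠ 1 := by
    by_contra h
    push Not at h
    refine hqz (hA ⟨⟨q, hq.1⟩, Subgroup.mem_center_iff.2 fun f => Subtype.ext ?_, rfl⟩)
    exact (commutatorElement_eq_one_iff_mul_comm.1 (h f f.2)).symm
  set z := ⁅q, f⁆
  have hz := hQc q hq f hf
  have hconj : ρ.character q = ρ.character (z⁻¹ * q) := by
    rw [show z⁻¹ * q = f * q * f⁻¹ by simp only [z, commutatorElement_def]; group,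
      Representation.char_conj]
  have hsc := H25.eq_smul_id_of_comm ρ (ρ z⁻¹) fun g => by
    rw [← Module.End.mul_eq_comp, ← Module.End.mul_eq_comp, ← map_mul, ← map_mul,
      Subgroup.mem_center_iff.1 (inv_mem hz) g]
  set c := LinearMap.trace ℂ _ (ρ z⁻¹) / (Module.finrank ℂ (Fin n → ℂ) : ℂ)
  have hsc' : ρ z⁻¹ = c • (1 : Module.End ℂ (Fin n → ℂ)) := hsc
  have h2 : ρ.character q = c * ρ.character q := by
    nth_rewrite 1 [hconj]
    show LinearMap.trace ℂ _ (ρ (z⁻¹ * q)) = _
    rw [map_mul, hsc', smul_mul_assoc, one_mul, map_smul, smul_eq_mul]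
    rfl
  by_contra h0
  have hc1 : c = 1 := mul_right_cancel₀ h0 (h2.symm.trans (one_mul _).symm)
  exact hfq (inv_eq_one.1 (hinj (by rw [map_one, hsc', hc1, one_smul])))

end Cfsg.Agent.S4843
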