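import Cfsg.Statements.S4845
import Cfsg.Agent.H43.CharKer
import Cfsg.Agent.H43.LinearTwist
import Cfsg.Agent.H26.CharLinear
import Cfsg.Agent.H45.Inflation
import Cfsg.Agent.H24.PGroupBasic
import Cfsg.Agent.H25.CharIntegral

set_option autoImplicit false
open Cfsg

namespace Cfsg.Agent.S4845

open scoped ComplexConjugate commutatorElement
open Cfsg.Agent.H43 (charKer mem_charKer)

variable {P : Type*} [Group P] [Finite P]

/-- An element of the centre acts by a scalar. -/
theorem apply_mul_center (χ : IrrCharacter P) (g : P) {z : P} (hz : z ∈ Subgroup.center P) :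
    χ.1 (g * z) = χ.1 g * (χ.1 z / χ.1 1) := by
  obtain ⟨n, ρ, hρ, e⟩ := χ.2
  have hT : ρ z = (LinearMap.trace ℂ _ (ρ z) / (Module.finrank ℂ (Fin n → ℂ) : ℂ)) •
      (LinearMap.id : (Fin n → ℂ) →ₗ[ℂ] (Fin n → ℂ)) := H25.eq_smul_id_of_comm ρ (ρ z) fun h => by
    rw [← Module.End.mul_eq_comp, ← Module.End.mul_eq_comp, ← map_mul, ← map_mul,
      Subgroup.mem_center_iff.1 hz h]
  rw [← e, ρ.char_one]
  change LinearMap.trace ℂ _ (ρ (g * z)) = _
  rw [map_mul, hT, mul_smul_comm, map_smul, smul_eq_mul, mul_comm]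
  simp only [Module.End.mul_eq_comp, LinearMap.comp_id]
  rfl

/-- Every homomorphism to `ℂˣ` being trivial at `g` puts `g` in the derived subgroup. -/
theorem exists_hom_apply_ne_one {g : P} (hg : g ∉ commutator P) : ∃ f : P →* ℂˣ, f g ≠ 1 := by
  have h : Abelianization.of g ≠ 1 := by
    intro h
    exact hg (by rw [← Abelianization.ker_of P]; exact h)
  obtain ⟨φ, hφ⟩ := CommGroup.exists_apply_ne_one_of_hasEnoughRootsOfUnity (Abelianization P) ℂ h
  exact ⟨φ.comp Abelianization.of, hφ⟩

/-- A character of degree one is trivial on the derived subgroup. -/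
theorem commutator_le_charKer (χ : IrrCharacter P) (h : charDegree χ.1 = 1) :
    commutator P ≤ charKer χ := by
  have h1 : χ.1 1 = 1 := by rw [H43.irr_charDegree_spec, h, Nat.cast_one]
  obtain ⟨f, hf⟩ := H26.exists_hom_of_isCharacter_one (H26.irr_isCharacter χ) h1
  intro g hg
  rw [mem_charKer, h1, ← hf g,
    show f g = 1 from Abelianization.commutator_subset_ker f hg, Units.val_one]

/-- An element in every kernel is trivial. -/
theorem exists_not_mem_charKer {g : P} (hg : g ≠ 1) : ∃ χ : IrrCharacter P, g ∉ charKer χ := by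
  classical
  let _ : Fintype P := Fintype.ofFinite P
  by_contra h
  push Not at h
  obtain hh : ∀ χ : IrrCharacter P, χ.1 g = χ.1 1 := fun χ => mem_charKer.1 (h χ)
  exact hg (isConj_one_left.1 ((H26.isConj_iff_forall_irr g 1).2 hh))

variable (p : ℕ) [hp : Fact p.Prime]

/-- The hypothesis: nonlinear characters of one degree are Galois conjugate. -/
def GalProp (P : Type*) [Group P] : Prop :=
  ∀ χ ψ : IrrCharacter P, charDegree (χ : P → ℂ) ≠ 1 →
    charDegree (χ : P → ℂ) = charDegree (ψ : P → ℂ) →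
      ∃ k : ℕ, Nat.Coprime k (Nat.card P) ∧ ∀ g : P, (ψ : P → ℂ) g = (χ : P → ℂ) (g ^ k)

omit [Finite P] in
theorem charDegree_inflIrr {Q : Type*} [Group Q] (π : P →* Q) (hπ : Function.Surjective π)
    (χ : IrrCharacter Q) : charDegree (H45.inflIrr π hπ χ).1 = charDegree χ.1 := by
  simp [charDegree, H45.inflIrr]

theorem galProp_of_surjective {Q : Type*} [Group Q] [Finite Q] (π : P →* Q)
    (hπ : Function.Surjective π) (h : GalProp P) : GalProp Q := by
  intro χ ψ hχ hd
  obtain ⟨k, hk, hkg⟩ := h (H45.inflIrr π hπ χ) (H45.inflIrr π hπ ψ)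
    (by rwa [charDegree_inflIrr]) (by rwa [charDegree_inflIrr, charDegree_inflIrr])
  refine ⟨k, hk.coprime_dvd_right (Subgroup.card_dvd_of_surjective π hπ), fun q => ?_⟩
  obtain ⟨g, rfl⟩ := hπ q
  have := hkg g
  simp only [H45.inflIrr, Function.comp_apply, map_pow] at this
  exact this

theorem charKer_eq_of_galois {χ ψ : IrrCharacter P} {k : ℕ} (hk : Nat.Coprime k (Nat.card P))
    (h : ∀ g : P, ψ.1 g = χ.1 (g ^ k)) : charKer ψ = charKer χ := by
  have h1 : ψ.1 1 = χ.1 1 := by rw [h, one_pow]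
  ext g
  rw [mem_charKer, h, h1, ← mem_charKer]
  refine ⟨fun hg => ?_, fun hg => Subgroup.pow_mem _ hg k⟩
  obtain ⟨m, hm⟩ := exists_pow_eq_self_of_coprime
    (hk.coprime_dvd_right (orderOf_dvd_natCard g))
  rw [← hm]
  exact Subgroup.pow_mem _ hg m

/-- Kernels of nonlinear characters lie in the derived subgroup. -/
theorem charKer_le_commutator (h : GalProp P) {χ : IrrCharacter P} (hχ : charDegree χ.1 ≠ 1) :
    charKer χ ≤ commutator P := by
  let _ : Fintype P := Fintype.ofFinite P
  intro g hg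
  by_contra hn
  obtain ⟨f, hf⟩ := exists_hom_apply_ne_one hn
  obtain ⟨k, hk, hkg⟩ := h χ (H43.irrTwist χ f) hχ (H43.charDegree_irrTwist χ f).symm
  have h1 : g ∈ charKer (H43.irrTwist χ f) := by rwa [charKer_eq_of_galois hk hkg]
  rw [mem_charKer, H43.irrTwist_apply, H43.irrTwist_apply, map_one, Units.val_one, mul_one,
    mem_charKer.1 hg] at h1
  exact hf (Units.ext (mul_left_cancel₀ (H26.irr_one_ne_zero χ) (h1.trans (mul_one _).symm)))

theorem exists_nonlinear {g : P} (hg : g ∈ commutator P) (hg1 : g ≠ 1) :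
    ∃ χ : IrrCharacter P, charDegree χ.1 ≠ 1 ∧ g ∉ charKer χ := by
  obtain ⟨χ, hχ⟩ := exists_not_mem_charKer hg1
  exact ⟨χ, fun h => hχ (commutator_le_charKer χ h hg), hχ⟩

/-- An abelian group of `p`-power order with one subgroup of order `p` is cyclic. -/
theorem isCyclic_of_torsion {A : Type*} [CommGroup A] [Finite A] (hA : IsPGroup p A)
    (h : Nat.card {a : A // a ^ p = 1} ≤ p) : IsCyclic A := by
  classical
  let _ : Fintype A := Fintype.ofFinite A
  have hind : ∀ k : ℕ, Nat.card (powMonoidHom (p ^ k) : A →* A).ker ≤ p ^ k := by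
    intro k
    induction k with
    | zero =>
      have : (powMonoidHom (p ^ 0) : A →* A).ker = ⊥ := by
        ext a; simp [powMonoidHom, MonoidHom.mem_ker]
      rw [this]; simp
    | succ k ih =>
      set S := (powMonoidHom (p ^ (k + 1)) : A →* A).ker
      let f : S →* (powMonoidHom (p ^ k) : A →* A).ker :=
        { toFun := fun a => ⟨(a : A) ^ p, by
            show ((a : A) ^ p) ^ p ^ k = 1
            rw [← pow_mul, ← pow_succ']
            exact a.2⟩
          map_one' := Subtype.ext (one_pow p)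
          map_mul' := fun a b => Subtype.ext (mul_pow _ _ p) }
      have h1 : Nat.card f.ker ≤ p := by
        refine le_trans (Nat.card_le_card_of_injective
          (fun a : f.ker => (⟨((a : S) : A), congrArg Subtype.val (MonoidHom.mem_ker.1 a.2)⟩ :
            {a : A // a ^ p = 1})) fun a b e => ?_) h
        exact Subtype.ext (Subtype.ext (congrArg (fun x : {a : A // a ^ p = 1} => (x : A)) e))
      calc Nat.card S = Nat.card (S ⧸ f.ker) * Nat.card f.ker := Subgroup.card_eq_card_quotient_mul_card_subgroup _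
        _ ≤ p ^ k * p := by
            refine Nat.mul_le_mul (le_trans ?_ ih) h1
            exact Nat.card_le_card_of_injective _ (QuotientGroup.kerLift_injective f)
        _ = p ^ (k + 1) := (pow_succ p k).symm
  obtain ⟨m, hm⟩ := IsPGroup.iff_card.1 hA
  refine isCyclic_of_card_pow_eq_one_le fun n hn => ?_
  obtain ⟨k, hkm, hk⟩ := (Nat.dvd_prime_pow hp.out).1 (Nat.gcd_dvd_right n (p ^ m))
  calc (Finset.univ.filter fun a : A => a ^ n = 1).card
      ≤ (Finset.univ.filter fun a : A => a ^ p ^ k = 1).card := by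
        refine Finset.card_le_card fun a ha => ?_
        simp only [Finset.mem_filter, Finset.mem_univ, true_and] at ha ⊢
        rw [← hk]
        exact pow_gcd_eq_one.2 ⟨ha, hm ▸ pow_card_eq_one'⟩
    _ = Nat.card (powMonoidHom (p ^ k) : A →* A).ker := by
        rw [Nat.card_eq_fintype_card, ← Fintype.card_subtype]
        exact Fintype.card_congr (Equiv.subtypeEquivRight fun a => Iff.rfl)
    _ ≤ p ^ k := hind k
    _ ≤ n := hk ▸ Nat.gcd_le_left _ hn

variable {p}

theorem exists_faithful (h : GalProp P) (hc : Nat.card (commutator P) = p) :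
    ∃ χ : IrrCharacter P, charDegree χ.1 ≠ 1 ∧ ∀ g ∈ charKer χ, g = 1 := by
  have hne : commutator P ≠ ⊥ := by
    intro e
    rw [e, Subgroup.card_bot] at hc
    exact hp.out.ne_one hc.symm
  obtain ⟨g, hg, hg1⟩ := (commutator P).ne_bot_iff_exists_ne_one.1 hne |> fun ⟨x, hx⟩ =>
    (⟨x, x.2, fun e => hx (Subtype.ext e)⟩ : ∃ g, g ∈ commutator P ∧ g ≠ 1)
  obtain ⟨χ, hd, hgχ⟩ := exists_nonlinear hg hg1
  refine ⟨χ, hd, fun x hx => ?_⟩
  have hlt : (charKer χ) < commutator P :=
    lt_of_le_of_ne (charKer_le_commutator h hd) fun e => hgχ (e ▸ hg)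
  have hdvd := Subgroup.card_dvd_of_le hlt.le
  rw [hc] at hdvd
  rcases (Nat.dvd_prime hp.out).1 hdvd with h1 | h1
  · exact (Subgroup.mem_bot.1 ((Subgroup.eq_bot_of_card_eq _ h1) ▸ hx))
  · exact absurd (Subgroup.eq_of_le_of_card_ge hlt.le (by rw [hc, h1])) hlt.ne

/-- The centre is cyclic when the derived subgroup has order `p`. -/
theorem isCyclic_center (hP : IsPGroup p P) (h : GalProp P) (hc : Nat.card (commutator P) = p) :
    IsCyclic (Subgroup.center P) := by
  classical
  obtain ⟨χ, -, hker⟩ := exists_faithful h hc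
  have hd := H26.irr_one_ne_zero χ
  let f : Subgroup.center P →* ℂ :=
    { toFun := fun z => χ.1 z / χ.1 1
      map_one' := div_self hd
      map_mul' := fun a b => by
        show χ.1 ((a : P) * b) / χ.1 1 = _
        rw [apply_mul_center χ (a : P) b.2]
        field_simp }
  refine isCyclic_of_subgroup_isDomain f ((injective_iff_map_eq_one _).2 fun z hz => ?_)
  refine Subtype.ext (hker _ (mem_charKer.2 ?_))
  exact (div_eq_one_iff_eq hd).1 hz

theorem le_center_of_card (hP : IsPGroup p P) (N : Subgroup P) [N.Normal] (hN : Nat.card N = p) :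
    N ≤ Subgroup.center P := by
  have hne := H24.inf_center_ne_bot hP (N := N)
    (fun e => hp.out.ne_one (by rw [← hN, e, Subgroup.card_bot]))
  have hdvd := Subgroup.card_dvd_of_le (inf_le_left : N ⊓ Subgroup.center P ≤ _)
  rw [hN] at hdvd
  rcases (Nat.dvd_prime hp.out).1 hdvd with h1 | h1
  · exact absurd (Subgroup.eq_bot_of_card_eq _ h1) hne
  · exact (Subgroup.eq_of_le_of_card_ge inf_le_left (by rw [hN, h1])) ▸ inf_le_right

/-- A character nontrivial on a derived subgroup of order `p` vanishes off the centre. -/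
theorem eq_zero_of_not_mem_center (hP : IsPGroup p P) (hc : Nat.card (commutator P) = p)
    {χ : IrrCharacter P} (hd : charDegree χ.1 ≠ 1 ∧ ¬ commutator P ≤ charKer χ) {g : P}
    (hg : g ∉ Subgroup.center P) : χ.1 g = 0 := by
  rw [Subgroup.mem_center_iff] at hg
  push Not at hg
  obtain ⟨x, hx⟩ := hg
  set z := g⁻¹ * (x * g * x⁻¹) with hz
  have hzc : z ∈ commutator P := by
    rw [hz, show g⁻¹ * (x * g * x⁻¹) = ⁅g⁻¹, x⁆ by rw [commutatorElement_def]; group]
    exact Subgroup.commutator_mem_commutator (Subgroup.mem_top _) (Subgroup.mem_top _)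
  have hz1 : z ≠ 1 := by
    intro e
    rw [hz, inv_mul_eq_one] at e
    exact hx (eq_mul_inv_iff_mul_eq.1 e).symm
  have hcent : commutator P ≤ Subgroup.center P := le_center_of_card hP _ hc
  have hnk : z ∉ charKer χ := by
    intro hzk
    refine hd.2 ?_
    have hdvd := Subgroup.card_dvd_of_le (inf_le_left : commutator P ⊓ charKer χ ≤ _)
    rw [hc] at hdvd
    rcases (Nat.dvd_prime hp.out).1 hdvd with h1 | h1
    · exact absurd (Subgroup.mem_bot.1 ((Subgroup.eq_bot_of_card_eq _ h1) ▸
        (⟨hzc, hzk⟩ : z ∈ commutator P ⊓ charKer χ))) hz1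
    · exact (Subgroup.eq_of_le_of_card_ge inf_le_left (by rw [hc, h1])) ▸ inf_le_right
  have h1 := apply_mul_center χ g (hcent hzc)
  rw [hz, mul_inv_cancel_left, H26.irr_conj, ← hz] at h1
  by_contra h0
  have h2 : χ.1 z / χ.1 1 = 1 := mul_left_cancel₀ h0 (h1.symm.trans (mul_one _).symm)
  exact hnk (mem_charKer.2 ((div_eq_one_iff_eq (H26.irr_one_ne_zero χ)).1 h2))

/-- The squared degree of such a character is the index of the centre. -/
theorem sq_degree (hP : IsPGroup p P) (hc : Nat.card (commutator P) = p)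
    {χ : IrrCharacter P} (hd : charDegree χ.1 ≠ 1 ∧ ¬ commutator P ≤ charKer χ) :
    charDegree χ.1 ^ 2 = (Subgroup.center P).index := by
  classical
  let _ : Fintype P := Fintype.ofFinite P
  let _ : Fintype (Subgroup.center P) := Fintype.ofFinite _
  have h1 : ∑ g : P, χ.1 g * conj (χ.1 g) = (Nat.card P : ℂ) := by
    rw [H43.sum_mul_conj χ χ, if_pos rfl]
  have hz : ∀ z : Subgroup.center P, χ.1 (z : P) * conj (χ.1 (z : P)) =
      (charDegree χ.1 : ℂ) ^ 2 := by
    intro z
    have h := apply_mul_center χ ((z : P)⁻¹) z.2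
    rw [inv_mul_cancel, H26.irr_inv, H43.irr_charDegree_spec] at h
    have hd0 : (charDegree χ.1 : ℂ) ≠ 0 := Nat.cast_ne_zero.2 (H43.irr_charDegree_pos χ).ne'
    field_simp at h
    linear_combination -h
  have h2 : ∑ g : P, χ.1 g * conj (χ.1 g) =
      (Nat.card (Subgroup.center P) : ℂ) * (charDegree χ.1 : ℂ) ^ 2 := by
    rw [← Finset.sum_filter_of_ne (p := fun g => g ∈ Subgroup.center P) (fun g _ hg => by
      by_contra hn
      exact hg (by rw [eq_zero_of_not_mem_center hP hc hd hn, zero_mul])),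
      Finset.sum_subtype (p := fun g => g ∈ Subgroup.center P) _ (fun g => by simp) (fun g => χ.1 g * conj (χ.1 g))]
    rw [Finset.sum_congr rfl fun z _ => hz z, Finset.sum_const, nsmul_eq_mul, Finset.card_univ,
      Nat.card_eq_fintype_card]
  have h3 : Nat.card (Subgroup.center P) * charDegree χ.1 ^ 2 = Nat.card P := by
    exact_mod_cast h2.symm.trans h1
  rw [← (Subgroup.center P).card_mul_index] at h3
  exact Nat.eq_of_mul_eq_mul_left Nat.card_pos h3

omit [Finite P] in
theorem commutator_mul_right_of_central {g a b : P} (h : ⁅g, b⁆ ∈ Subgroup.center P) :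
    ⁅g, a * b⁆ = ⁅g, a⁆ * ⁅g, b⁆ := by
  have h' : a * ⁅g, b⁆ = ⁅g, b⁆ * a := Subgroup.mem_center_iff.1 h a
  calc ⁅g, a * b⁆ = g * a * g⁻¹ * (⁅g, b⁆ * a⁻¹) := by simp only [commutatorElement_def]; group
    _ = g * a * g⁻¹ * (a⁻¹ * ⁅g, b⁆) := by
        rw [Subgroup.mem_center_iff.1 h a⁻¹]
    _ = ⁅g, a⁆ * ⁅g, b⁆ := by simp only [commutatorElement_def]; group

omit [Finite P] in
theorem commutator_pow_of_central (g x : P) (h : ⁅g, x⁆ ∈ Subgroup.center P) (n : ℕ) :
    ⁅g, x ^ n⁆ = ⁅g, x⁆ ^ n := by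
  induction n with
  | zero => rw [pow_zero, pow_zero, commutatorElement_one_right]
  | succ n ih =>
    rw [pow_succ, commutator_mul_right_of_central h, ih, ← pow_succ]

omit [Finite P] in
theorem mem_center_iff_commutator {z : P} :
    z ∈ Subgroup.center P ↔ ∀ y : P, ⁅z, y⁆ = 1 := by
  simp only [Subgroup.mem_center_iff, commutatorElement_eq_one_iff_mul_comm, eq_comm]

variable (P) in
theorem comm_mem (a b : P) : ⁅a, b⁆ ∈ commutator P :=
  Subgroup.commutator_mem_commutator (Subgroup.mem_top a) (Subgroup.mem_top b)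

theorem card_map_commutator (hk : Nat.card (commutator P) = p ^ 2) (N : Subgroup P) [N.Normal]
    (hNle : N ≤ commutator P) (hN : Nat.card N = p) : Nat.card (commutator (P ⧸ N)) = p := by
  have hmap : commutator (P ⧸ N) = (commutator P).map (QuotientGroup.mk' N) := by
    rw [commutator_def, commutator_def, Subgroup.map_commutator,
      Subgroup.map_top_of_surjective _ (QuotientGroup.mk'_surjective N)]
  rw [hmap, ← Subgroup.relIndex_ker, QuotientGroup.ker_mk']
  have h := Subgroup.card_mul_index (N.subgroupOf (commutator P))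
  rw [Nat.card_congr (Subgroup.subgroupOfEquivOfLe hNle).toEquiv, hN, hk, sq] at h
  exact Nat.eq_of_mul_eq_mul_left hp.out.pos h

omit [Finite P] in
theorem mk_mem_center_iff (N : Subgroup P) [N.Normal] {z : P} :
    (z : P ⧸ N) ∈ Subgroup.center (P ⧸ N) ↔ ∀ y, ⁅z, y⁆ ∈ N := by
  rw [mem_center_iff_commutator]
  refine ⟨fun h y => ?_, fun h q => ?_⟩
  · rw [← QuotientGroup.eq_one_iff, ← QuotientGroup.mk'_apply, map_commutatorElement]
    exact h _
  · obtain ⟨y, rfl⟩ := QuotientGroup.mk'_surjective N q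
    rw [← QuotientGroup.mk'_apply, ← map_commutatorElement, QuotientGroup.mk'_apply,
      QuotientGroup.eq_one_iff]
    exact h y

/-- The data attached to a normal subgroup of order `p` inside the derived subgroup. -/
theorem quotient_data (hP : IsPGroup p P) (h : GalProp P) (hk : Nat.card (commutator P) = p ^ 2)
    (N : Subgroup P) [N.Normal] (hNle : N ≤ commutator P) (hN : Nat.card N = p) :
    IsCyclic (Subgroup.center (P ⧸ N)) ∧ ∃ χ : IrrCharacter P, charDegree χ.1 ≠ 1 ∧
      charKer χ = N ∧ charDegree χ.1 ^ 2 = (Subgroup.center (P ⧸ N)).index := by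
  have hQ := galProp_of_surjective (QuotientGroup.mk' N) (QuotientGroup.mk'_surjective N) h
  have hQp : IsPGroup p (P ⧸ N) := hP.to_quotient N
  have hc := card_map_commutator hk N hNle hN
  refine ⟨isCyclic_center hQp hQ hc, ?_⟩
  obtain ⟨χ, hd, hker⟩ := exists_faithful hQ hc
  refine ⟨H45.inflIrr (QuotientGroup.mk' N) (QuotientGroup.mk'_surjective N) χ,
    by rwa [charDegree_inflIrr], ?_, ?_⟩
  · ext g
    rw [mem_charKer]
    simp only [H45.inflIrr, Function.comp_apply, map_one, QuotientGroup.mk'_apply]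
    rw [← mem_charKer]
    exact ⟨fun hx => (QuotientGroup.eq_one_iff g).1 (hker _ hx),
      fun hx => by rw [(QuotientGroup.eq_one_iff g).2 hx]; exact one_mem _⟩
  · rw [charDegree_inflIrr]
    refine sq_degree hQp hc ⟨hd, fun hle => ?_⟩
    have h1 : commutator (P ⧸ N) = ⊥ :=
      (Subgroup.eq_bot_iff_forall _).2 fun x hx => hker x (hle hx)
    rw [h1, Subgroup.card_bot] at hc
    exact hp.out.ne_one hc.symm

theorem eq_of_degree_eq (h : GalProp P) {χ ψ : IrrCharacter P} (hd : charDegree χ.1 ≠ 1)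
    (e : charDegree χ.1 = charDegree ψ.1) : charKer χ = charKer ψ := by
  obtain ⟨k, hk, hkg⟩ := h χ ψ hd e
  exact (charKer_eq_of_galois hk hkg).symm

theorem normal_of_le_center {N : Subgroup P} (h : N ≤ Subgroup.center P) : N.Normal :=
  ⟨fun n hn g => by rwa [Subgroup.mem_center_iff.1 (h hn) g, mul_inv_cancel_right]⟩

theorem card_zpowers_of_pow {z : P} (hz : z ≠ 1) (hzp : z ^ p = 1) :
    Nat.card (Subgroup.zpowers z) = p := by
  rw [Nat.card_zpowers, orderOf_eq_prime hzp hz]

/-- The derived subgroup cannot be central elementary of order `p ^ 2`. -/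
theorem false_of_elementary (hP : IsPGroup p P) (h : GalProp P)
    (hk : Nat.card (commutator P) = p ^ 2) (hcent : commutator P ≤ Subgroup.center P)
    (hexp : ∀ z ∈ commutator P, z ^ p = 1) : False := by
  have hpow : ∀ a : P, a ^ p ∈ Subgroup.center P := fun a => by
    rw [mem_center_iff_commutator]
    intro y
    rw [← commutatorElement_inv, commutator_pow_of_central y a (hcent (comm_mem P y a)),
      hexp _ (comm_mem P y a), inv_one]
  obtain ⟨N, hNn, hNle, hN⟩ := H24.exists_normal_le_card hP hk (show 1 ≤ 2 by norm_num)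
  rw [pow_one] at hN
  obtain ⟨z, hz, hzN⟩ : ∃ z ∈ commutator P, z ∉ N := by
    by_contra hh
    push Not at hh
    have := Subgroup.card_le_of_le hh
    rw [hk, hN] at this
    exact absurd this (not_le.2 (lt_self_pow₀ hp.out.one_lt (by norm_num)))
  set N' := Subgroup.zpowers z
  have hN'le : N' ≤ commutator P := Subgroup.zpowers_le.2 hz
  have hN' : Nat.card N' = p :=
    card_zpowers_of_pow (fun e => hzN (e ▸ one_mem N)) (hexp z hz)
  haveI := normal_of_le_center (hN'le.trans hcent)
  -- the parity of the index of the centre determines the degree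
  have key : ∀ (N₀ : Subgroup P) [N₀.Normal], N₀ ≤ commutator P →
      IsCyclic (Subgroup.center (P ⧸ N₀)) →
      (Subgroup.center P).index = (Subgroup.center (P ⧸ N₀)).index ∨
      (Subgroup.center P).index = (Subgroup.center (P ⧸ N₀)).index * p := by
    intro N₀ _ hle hcyc
    set W := (Subgroup.center (P ⧸ N₀)).comap (QuotientGroup.mk' N₀)
    have hW : W.index = (Subgroup.center (P ⧸ N₀)).index :=
      Subgroup.index_comap_of_surjective _ (QuotientGroup.mk'_surjective N₀)
    have hmW : ∀ z : P, z ∈ W ↔ ∀ y, ⁅z, y⁆ ∈ N₀ := fun z => mk_mem_center_iff N₀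
    have hZW : Subgroup.center P ≤ W := fun z hz =>
      (hmW z).2 fun y => by rw [mem_center_iff_commutator.1 hz y]; exact one_mem _
    obtain ⟨w, hw⟩ := hcyc.exists_generator
    obtain ⟨w₀, hw₀⟩ := QuotientGroup.mk'_surjective N₀ (w : P ⧸ N₀)
    have hgen : ∀ v ∈ W, ∃ i : ℤ, ∃ n ∈ N₀, v = w₀ ^ i * n := by
      intro v hv
      obtain ⟨i, hi⟩ := Subgroup.mem_zpowers_iff.1 (hw ⟨_, hv⟩)
      refine ⟨i, (w₀ ^ i)⁻¹ * v, ?_, by group⟩
      rw [← QuotientGroup.eq_one_iff, QuotientGroup.mk_mul, QuotientGroup.mk_inv,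
        QuotientGroup.mk_zpow, ← QuotientGroup.mk'_apply, hw₀, inv_mul_eq_one]
      exact congrArg Subtype.val hi
    have hcard : (Subgroup.center P).relIndex W ≤ p := by
      let F : Fin p → W ⧸ (Subgroup.center P).subgroupOf W := fun j =>
        QuotientGroup.mk (⟨w₀ ^ (j : ℕ), Subgroup.pow_mem _
          (show (QuotientGroup.mk' N₀) w₀ ∈ Subgroup.center (P ⧸ N₀) from hw₀.symm ▸ w.2) _⟩ : W)
      have hF : Function.Surjective F := by
        intro q
        obtain ⟨v, rfl⟩ := QuotientGroup.mk_surjective q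
        obtain ⟨i, n, hn, hv⟩ := hgen v v.2
        have hp0 : (0 : ℤ) < p := Int.natCast_pos.2 hp.out.pos
        refine ⟨⟨(i % p).toNat, by
          have := Int.emod_lt_of_pos i hp0
          have := Int.emod_nonneg i hp0.ne'
          omega⟩, QuotientGroup.eq.2 ?_⟩
        rw [Subgroup.mem_subgroupOf]
        show (w₀ ^ ((i % p).toNat))⁻¹ * (v : P) ∈ Subgroup.center P
        rw [hv, ← zpow_natCast, Int.toNat_of_nonneg (Int.emod_nonneg i hp0.ne'), ← mul_assoc,
          ← zpow_neg, ← zpow_add, show -(i % p) + i = (p : ℤ) * (i / p) by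
            have := Int.emod_add_mul_ediv i p; linarith, zpow_mul, zpow_natCast]
        exact mul_mem (zpow_mem (hpow w₀) _) (hcent (hle hn))
      have := Nat.card_le_card_of_surjective F hF
      rw [Nat.card_fin] at this
      exact this
    obtain ⟨a, ha⟩ := IsPGroup.iff_card.1 hP
    have hdvd : (Subgroup.center P).relIndex W ∣ p ^ a :=
      ((Subgroup.relIndex_dvd_card _ _).trans W.card_subgroup_dvd_card).trans ha.dvd
    obtain ⟨b, -, hb⟩ := (Nat.dvd_prime_pow hp.out).1 hdvd
    have e := Subgroup.relIndex_mul_index hZW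
    rw [hb, hW] at e
    rw [hb] at hcard
    have hb1 : b ≤ 1 :=
      (Nat.pow_le_pow_iff_right hp.out.one_lt).1 (hcard.trans (pow_one p).ge)
    interval_cases b
    · left; rw [← e, pow_zero, one_mul]
    · right; rw [← e, pow_one, mul_comm]
  obtain ⟨hc1, χ, hχd, hχk, hχ2⟩ := quotient_data hP h hk N hNle hN
  obtain ⟨hc2, ψ, hψd, hψk, hψ2⟩ := quotient_data hP h hk N' hN'le hN'
  have k1 := key N hNle hc1
  have k2 := key N' hN'le hc2
  rw [← hχ2] at k1
  rw [← hψ2] at k2
  have hpar : ∀ x y : ℕ, y ≠ 0 → x ^ 2 = y ^ 2 * p → False := by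
    intro x y hy e
    have h1 : (x ^ 2).factorization p = (y ^ 2 * p).factorization p := by rw [e]
    rw [Nat.factorization_mul (pow_ne_zero _ hy) hp.out.ne_zero, Nat.factorization_pow,
      Nat.factorization_pow, Finsupp.add_apply, hp.out.factorization_self, Finsupp.smul_apply,
      Finsupp.smul_apply, smul_eq_mul, smul_eq_mul] at h1
    omega
  have hx0 := (H43.irr_charDegree_pos χ).ne'
  have hy0 := (H43.irr_charDegree_pos ψ).ne'
  have heq : charDegree χ.1 = charDegree ψ.1 := by
    rcases k1 with k1 | k1 <;> rcases k2 with k2 | k2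
    · exact Nat.pow_left_injective (by norm_num) (k1.symm.trans k2)
    · exact (hpar _ _ hy0 (k1.symm.trans k2)).elim
    · exact (hpar _ _ hx0 (k2.symm.trans k1)).elim
    · exact Nat.pow_left_injective (by norm_num)
        (Nat.eq_of_mul_eq_mul_right hp.out.pos (k1.symm.trans k2))
  have hNN : N = N' := hχk ▸ hψk ▸ eq_of_degree_eq h hχd heq
  exact hzN (hNN ▸ Subgroup.mem_zpowers z)

/-- In a cyclic group one of two elements of `p`-power order is a power of the other. -/
theorem zpowers_total {A : Type*} [Group A] [Finite A] [IsCyclic A] (hA : IsPGroup p A) (a b : A) :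
    (∃ i : ℕ, b = a ^ i) ∨ ∃ i : ℕ, a = b ^ i := by
  classical
  have key : ∀ a b : A, orderOf b ∣ orderOf a → ∃ i : ℕ, b = a ^ i := by
    intro a b hd
    let _ : Fintype A := Fintype.ofFinite A
    let _ : CommGroup A := IsCyclic.commGroup
    set S := (Finset.univ.filter fun x : A => x ^ orderOf a = 1)
    have hs : (Finset.range (orderOf a)).image (a ^ ·) = S := by
      refine Finset.eq_of_subset_of_card_le ?_ ?_
      · intro x hx
        obtain ⟨i, -, rfl⟩ := Finset.mem_image.1 hx
        simp only [S, Finset.mem_filter, Finset.mem_univ, true_and]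
        rw [← pow_mul, mul_comm, pow_mul, pow_orderOf_eq_one, one_pow]
      · rw [Finset.card_image_of_injOn (fun i hi j hj e => pow_injOn_Iio_orderOf
          (by simpa using hi) (by simpa using hj) e), Finset.card_range]
        exact IsCyclic.card_pow_eq_one_le (orderOf_pos a)
    have hb : b ∈ S := by
      simp only [S, Finset.mem_filter, Finset.mem_univ, true_and]
      exact orderOf_dvd_iff_pow_eq_one.1 hd
    rw [← hs] at hb
    obtain ⟨i, -, hi⟩ := Finset.mem_image.1 hb
    exact ⟨i, hi.symm⟩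
  obtain ⟨i, hi⟩ := IsPGroup.iff_orderOf.1 hA a
  obtain ⟨j, hj⟩ := IsPGroup.iff_orderOf.1 hA b
  rcases le_total i j with h | h
  · exact Or.inr (key b a (by rw [hi, hj]; exact pow_dvd_pow p h))
  · exact Or.inl (key a b (by rw [hi, hj]; exact pow_dvd_pow p h))

/-- The derived subgroup cannot be central with a commutator of order `p ^ 2`. -/
theorem false_of_large (hP : IsPGroup p P) (h : GalProp P)
    (hk : Nat.card (commutator P) = p ^ 2) (hcent : commutator P ≤ Subgroup.center P)
    (a b : P) (hab : ⁅a, b⁆ ^ p ≠ 1) : False := by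
  set z := ⁅a, b⁆
  have hz2 : z ^ (p ^ 2) = 1 := by
    have h1 : (⟨z, comm_mem P a b⟩ : commutator P) ^ Nat.card (commutator P) = 1 := pow_card_eq_one'
    rw [hk] at h1
    exact congrArg Subtype.val h1
  set N := Subgroup.zpowers (z ^ p)
  have hNle : N ≤ commutator P := Subgroup.zpowers_le.2 (Subgroup.pow_mem _ (comm_mem P a b) p)
  have hN : Nat.card N = p := card_zpowers_of_pow hab (by rw [← pow_mul, ← sq]; exact hz2)
  haveI := normal_of_le_center (hNle.trans hcent)
  obtain ⟨hcyc, -⟩ := quotient_data hP h hk N hNle hN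
  have hpc : ∀ u : P, ((u : P ⧸ N)) ^ p ∈ Subgroup.center (P ⧸ N) := by
    intro u
    rw [← QuotientGroup.mk_pow, mk_mem_center_iff]
    intro y
    rw [← commutatorElement_inv, commutator_pow_of_central y u (hcent (comm_mem P y u))]
    refine inv_mem ?_
    have h1 : ((⁅y, u⁆ : P) : P ⧸ N) ^ p = 1 := by
      have hm : ((⁅y, u⁆ : P) : P ⧸ N) ∈ commutator (P ⧸ N) := by
        rw [← QuotientGroup.mk'_apply, map_commutatorElement]
        exact comm_mem _ _ _
      have h2 : (⟨_, hm⟩ : commutator (P ⧸ N)) ^ Nat.card (commutator (P ⧸ N)) = 1 :=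
        pow_card_eq_one'
      rw [card_map_commutator hk N hNle hN] at h2
      exact congrArg Subtype.val h2
    rwa [← QuotientGroup.mk_pow, QuotientGroup.eq_one_iff] at h1
  -- replace one entry by one whose `p`-th power is central
  have fin : ∀ (a b : P) (i : ℕ), ⁅a, b⁆ ^ p ≠ 1 →
      ((b : P ⧸ N)) ^ p = (((a : P ⧸ N)) ^ p) ^ i → False := by
    intro a b i hne hi
    set b' := b * (a ^ i)⁻¹
    have h1 : ⁅a, b'⁆ = ⁅a, b⁆ := by
      rw [commutator_mul_right_of_central (hcent (comm_mem P a _)),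
        show ⁅a, (a ^ i)⁻¹⁆ = 1 from commutatorElement_eq_one_iff_mul_comm.2
          ((Commute.self_pow a i).inv_right), mul_one]
    have h2 : b' ^ p ∈ commutator P := by
      have e0 : b' ^ p * (b ^ p * ((a ^ i)⁻¹) ^ p)⁻¹ ∈ commutator P := by
        rw [← Abelianization.ker_of P, MonoidHom.mem_ker, map_mul, map_inv, map_mul, map_pow,
          map_pow, map_pow, map_mul, mul_pow, mul_inv_cancel]
      have e1 : b ^ p * ((a ^ i)⁻¹) ^ p ∈ N := by
        rw [← QuotientGroup.eq_one_iff, QuotientGroup.mk_mul, QuotientGroup.mk_pow,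
          QuotientGroup.mk_pow, QuotientGroup.mk_inv, QuotientGroup.mk_pow, hi, inv_pow,
          ← pow_mul, ← pow_mul, mul_comm i p, mul_inv_cancel]
      have := mul_mem e0 (hNle e1)
      rwa [inv_mul_cancel_right] at this
    refine hne ?_
    rw [← h1, ← commutator_pow_of_central a b' (hcent (comm_mem P a b'))]
    exact commutatorElement_eq_one_iff_mul_comm.2 (Subgroup.mem_center_iff.1 (hcent h2) a)
  haveI := hcyc
  have hQp : IsPGroup p (Subgroup.center (P ⧸ N)) := (hP.to_quotient N).to_subgroup _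
  rcases zpowers_total hQp ⟨_, hpc a⟩ ⟨_, hpc b⟩ with ⟨i, hi⟩ | ⟨i, hi⟩
  · exact fin a b i hab (congrArg Subtype.val hi)
  · refine fin b a i ?_ (congrArg Subtype.val hi)
    rwa [← commutatorElement_inv, inv_pow, ne_eq, inv_eq_one]

/-- A group generated modulo centre by commuting data is abelian. -/
theorem commute_zpow_mul {w x : P} {i : ℤ} {n : P} (hw : Commute x w)
    (hn : n ∈ Subgroup.center P) : Commute x (w ^ i * n) :=
  (hw.zpow_right i).mul_right (Subgroup.mem_center_iff.1 hn x)

/-- The derived subgroup is central when it has order `p ^ 2`. -/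
theorem false_of_noncentral (hP : IsPGroup p P) (h : GalProp P)
    (hk : Nat.card (commutator P) = p ^ 2) (hncent : ¬ commutator P ≤ Subgroup.center P) :
    False := by
  obtain ⟨N, hNn, hNle, hN⟩ := H24.exists_normal_le_card hP hk (show 1 ≤ 2 by norm_num)
  rw [pow_one] at hN
  have hNc : N ≤ Subgroup.center P := le_center_of_card hP N hN
  have hQc := card_map_commutator hk N hNle hN
  have hQp : IsPGroup p (P ⧸ N) := hP.to_quotient N
  obtain ⟨hcyc, χ, hχd, hχk, -⟩ := quotient_data hP h hk N hNle hN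
  have hQcent : commutator (P ⧸ N) ≤ Subgroup.center (P ⧸ N) := le_center_of_card hQp _ hQc
  have hmap : ∀ u ∈ commutator P, (u : P ⧸ N) ∈ commutator (P ⧸ N) := fun u hu => by
    have h1 : commutator P ≤ (commutator (P ⧸ N)).comap (QuotientGroup.mk' N) := by
      rw [← Subgroup.map_le_iff_le_comap, commutator_def, commutator_def, Subgroup.map_commutator]
      exact Subgroup.commutator_mono le_top le_top
    exact h1 hu
  set W := (Subgroup.center (P ⧸ N)).comap (QuotientGroup.mk' N)
  have hmW : ∀ z : P, z ∈ W ↔ ∀ y, ⁅z, y⁆ ∈ N := fun z => mk_mem_center_iff N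
  have hcW : commutator P ≤ W := fun u hu => hQcent (hmap u hu)
  obtain ⟨w', hw'⟩ := hcyc.exists_generator
  obtain ⟨w, hw⟩ := QuotientGroup.mk'_surjective N (w' : P ⧸ N)
  have hwW : w ∈ W := by
    show (QuotientGroup.mk' N) w ∈ Subgroup.center (P ⧸ N)
    exact hw.symm ▸ w'.2
  have hgen : ∀ v ∈ W, ∃ i : ℤ, ∃ n ∈ N, v = w ^ i * n := by
    intro v hv
    obtain ⟨i, hi⟩ := Subgroup.mem_zpowers_iff.1 (hw' ⟨_, hv⟩)
    refine ⟨i, (w ^ i)⁻¹ * v, ?_, by group⟩
    rw [← QuotientGroup.eq_one_iff, QuotientGroup.mk_mul, QuotientGroup.mk_inv,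
      QuotientGroup.mk_zpow, ← QuotientGroup.mk'_apply, hw, inv_mul_eq_one]
    exact congrArg Subtype.val hi
  -- the centraliser of `w`
  let f : P →* N :=
    { toFun := fun y => ⟨⁅w, y⁆, (hmW w).1 hwW y⟩
      map_one' := Subtype.ext (commutatorElement_one_right w)
      map_mul' := fun y y' =>
        Subtype.ext (commutator_mul_right_of_central (hNc ((hmW w).1 hwW y'))) }
  set C := f.ker
  have hCmem : ∀ y, y ∈ C ↔ Commute w y := fun y => by
    show f y = 1 ↔ _
    rw [Subtype.ext_iff]
    exact commutatorElement_eq_one_iff_mul_comm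
  have hCW : ∀ y ∈ C, ∀ v ∈ W, Commute y v := fun y hy v hv => by
    obtain ⟨i, n, hn, rfl⟩ := hgen v hv
    exact commute_zpow_mul ((hCmem y).1 hy).symm (hNc hn)
  have hWC : W ≤ C := fun v hv => (hCmem v).2 (by
    obtain ⟨i, n, hn, rfl⟩ := hgen v hv
    exact commute_zpow_mul (Commute.refl w) (hNc hn))
  have hCidx : C.index ≤ p := by
    rw [Subgroup.index_ker]
    exact le_of_le_of_eq (Nat.card_le_card_of_injective _ Subtype.val_injective) hN
  have hCprop : C ≠ ⊤ := fun e => hncent fun u hu => by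
    rw [Subgroup.mem_center_iff]
    intro y
    exact hCW y (e ▸ Subgroup.mem_top y) u (hcW hu)
  -- commutators of elements of `C` lie in `N`
  have hgN : ∀ u ∈ commutator P, u ∈ Subgroup.center P → u ∈ N := by
    intro u hu huc
    by_contra hn
    have hlt : N < commutator P ⊓ Subgroup.center P :=
      lt_of_le_of_ne (le_inf hNle hNc) fun e => hn (e ▸ ⟨hu, huc⟩)
    have hdvd := Subgroup.card_dvd_of_le (inf_le_left : commutator P ⊓ Subgroup.center P ≤ _)
    rw [hk] at hdvd
    obtain ⟨b, hb, hb'⟩ := (Nat.dvd_prime_pow hp.out).1 hdvd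
    interval_cases b
    · rw [(Subgroup.eq_bot_iff_forall _).1
        (Subgroup.eq_bot_of_card_eq _ (hb'.trans (pow_zero p))) u ⟨hu, huc⟩] at hn
      exact hn (one_mem N)
    · exact hlt.ne (Subgroup.eq_of_le_of_card_ge hlt.le (by rw [hb', pow_one, hN]))
    · exact hncent ((Subgroup.eq_of_le_of_card_ge inf_le_left (by rw [hk, hb'])) ▸ inf_le_right)
  have hCC : ∀ c ∈ C, ∀ d ∈ C, ⁅c, d⁆ ∈ N := by
    intro c hc d hd
    refine hgN _ (comm_mem P c d) (Subgroup.mem_center_iff.2 fun x => ?_)
    have hu1 := hcW (comm_mem P x c)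
    have hu2 := hcW (comm_mem P x d)
    have h1 : x * c * x⁻¹ = ⁅x, c⁆ * c := by simp only [commutatorElement_def]; group
    have h2 : x * d * x⁻¹ = ⁅x, d⁆ * d := by simp only [commutatorElement_def]; group
    have e : x * ⁅c, d⁆ * x⁻¹ = ⁅x * c * x⁻¹, x * d * x⁻¹⁆ :=
      map_commutatorElement (MulAut.conj x).toMonoidHom c d
    rw [h1, h2] at e
    set u := ⁅x, c⁆
    set v := ⁅x, d⁆
    have cu : Commute d u := hCW d hd u hu1
    have cv : Commute c v := hCW c hc v hu2
    have uv : Commute u v := hCW u (hWC hu1) v hu2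
    have cu' : Commute c u := hCW c hc u hu1
    have dv : Commute d v := hCW d hd v hu2
    have e2 : ⁅u * c, v * d⁆ = ⁅c, d⁆ := by
      rw [commutatorElement_def, commutatorElement_def, mul_inv_rev, mul_inv_rev]
      calc u * c * (v * d) * (c⁻¹ * u⁻¹) * (d⁻¹ * v⁻¹)
          = u * (c * v) * d * c⁻¹ * (u⁻¹ * d⁻¹) * v⁻¹ := by group
        _ = u * (v * c) * d * c⁻¹ * (d⁻¹ * u⁻¹) * v⁻¹ := by
            rw [cv.eq, (cu.inv_inv).eq]
        _ = (u * v) * (c * d * c⁻¹ * d⁻¹) * (u⁻¹ * v⁻¹) := by group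
        _ = (c * d * c⁻¹ * d⁻¹) * (u * v) * (u⁻¹ * v⁻¹) := by
            have hcomm : Commute (u * v) (c * d * c⁻¹ * d⁻¹) :=
              ((((cu'.mul_right cv).mul_left (cu.mul_right dv)).mul_left
                (cu'.mul_right cv).inv_left).mul_left (cu.mul_right dv).inv_left).symm
            rw [hcomm.eq]
        _ = (c * d * c⁻¹ * d⁻¹) := by
            rw [mul_assoc, uv.inv_inv.eq]
            group
    rw [e2] at e
    exact mul_inv_eq_iff_eq_mul.1 e
  -- hence `C` is abelian
  obtain ⟨x, -, hx⟩ := SetLike.exists_of_lt (lt_top_iff_ne_top.2 hCprop)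
  have hWx : ∀ c ∈ C, ⁅c, x⁆ ∈ N → c ∈ W := by
    intro c hc hcx
    rw [hmW]
    let g : P →* P ⧸ N :=
      { toFun := fun y => ((⁅c, y⁆ : P) : P ⧸ N)
        map_one' := by rw [commutatorElement_one_right, QuotientGroup.mk_one]
        map_mul' := fun y y' => by
          simp only [← QuotientGroup.mk'_apply, map_commutatorElement, map_mul]
          refine commutator_mul_right_of_central (hQcent ?_)
          exact comm_mem _ _ _ }
    have hle : C ⊔ Subgroup.zpowers x ≤ g.ker := by
      refine sup_le (fun d hd => ?_) (Subgroup.zpowers_le.2 ?_)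
      · exact (QuotientGroup.eq_one_iff _).2 (hCC c hc d hd)
      · exact (QuotientGroup.eq_one_iff _).2 hcx
    have htop : C ⊔ Subgroup.zpowers x = ⊤ := by
      rw [← Subgroup.index_eq_one]
      have h1 := Subgroup.index_dvd_of_le (le_sup_left : C ≤ C ⊔ Subgroup.zpowers x)
      obtain ⟨a, ha⟩ := IsPGroup.iff_card.1 hP
      obtain ⟨b, -, hb⟩ := (Nat.dvd_prime_pow hp.out).1 (ha ▸ Subgroup.index_dvd_card C)
      rw [hb] at h1 hCidx
      obtain ⟨d, hdb, hd⟩ := (Nat.dvd_prime_pow hp.out).1 h1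
      have hb1 : b ≤ 1 := (Nat.pow_le_pow_iff_right hp.out.one_lt).1 (hCidx.trans (pow_one p).ge)
      by_contra hne
      have hd1 : d = 1 := by
        rcases d with - | d
        · exact absurd hd hne
        · omega
      have heq : C = C ⊔ Subgroup.zpowers x := by
        refine Subgroup.eq_of_le_of_card_ge le_sup_left ?_
        have e1 := C.card_mul_index
        have e2 := (C ⊔ Subgroup.zpowers x).card_mul_index
        rw [hb, show b = 1 by omega] at e1
        rw [hd, hd1] at e2
        exact (Nat.eq_of_mul_eq_mul_right (pow_pos hp.out.pos 1) (e2.trans e1.symm)).le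
      exact hx (heq ▸ (le_sup_right : Subgroup.zpowers x ≤ _) (Subgroup.mem_zpowers x))
    exact fun y => (QuotientGroup.eq_one_iff _).1 (hle (htop ▸ Subgroup.mem_top y))
  have hab : ∀ c ∈ C, ∀ d ∈ C, c * d = d * c := by
    intro c hc d hd
    by_cases hcx : ⁅c, x⁆ ∈ N
    · exact (hCW d hd c (hWx c hc hcx)).eq.symm
    have hgen2 : ∀ q : commutator (P ⧸ N),
        q ∈ Subgroup.zpowers (⟨((⁅c, x⁆ : P) : P ⧸ N), hmap _ (comm_mem P c x)⟩ :
          commutator (P ⧸ N)) := fun q =>
      mem_zpowers_of_prime_card hQc (fun e =>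
        hcx ((QuotientGroup.eq_one_iff _).1 (congrArg Subtype.val e)))
    obtain ⟨i, hi⟩ := Subgroup.mem_zpowers_iff.1 (hgen2 ⟨_, hmap _ (comm_mem P d x)⟩)
    let g : P →* P ⧸ N :=
      { toFun := fun y => ((⁅x, y⁆ : P) : P ⧸ N)
        map_one' := by rw [commutatorElement_one_right, QuotientGroup.mk_one]
        map_mul' := fun y y' => by
          simp only [← QuotientGroup.mk'_apply, map_commutatorElement, map_mul]
          exact commutator_mul_right_of_central (hQcent (comm_mem _ _ _)) }
    have hgv : ∀ y, g y = ((⁅y, x⁆ : P) : P ⧸ N)⁻¹ := fun y => by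
      show ((⁅x, y⁆ : P) : P ⧸ N) = _
      rw [← commutatorElement_inv y x, QuotientGroup.mk_inv]
    have h1 : g (d * (c ^ i)⁻¹) = 1 := by
      rw [map_mul, map_inv, map_zpow, hgv, hgv, inv_zpow, inv_inv,
        show ((⁅c, x⁆ : P) : P ⧸ N) ^ i = ((⁅d, x⁆ : P) : P ⧸ N) from congrArg Subtype.val hi,
        inv_mul_cancel]
    rw [hgv, inv_eq_one, QuotientGroup.eq_one_iff] at h1
    have h2 := hCW c hc _ (hWx _ (mul_mem hd (inv_mem (zpow_mem hc i))) h1)
    have h3 := h2.mul_right ((Commute.refl c).zpow_right i)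
    rw [inv_mul_cancel_right] at h3
    exact h3.eq
  -- all nonlinear characters have degree `p`
  have hdeg : ∀ ξ : IrrCharacter P, charDegree ξ.1 ≠ 1 → charDegree ξ.1 = p := by
    intro ξ hξ
    obtain ⟨n, ρ, hρ, e⟩ := ξ.2
    have hle : charDegree ξ.1 ≤ p := by
      rw [charDegree, ← e, ρ.char_one, Complex.natCast_re, Nat.floor_natCast]
      exact (H26.finrank_le_index_of_abelian ρ C hab).trans hCidx
    obtain ⟨a, ha⟩ := IsPGroup.iff_card.1 hP
    obtain ⟨b, -, hb⟩ := (Nat.dvd_prime_pow hp.out).1 (ha ▸ H43.irr_charDegree_dvd ξ)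
    rw [hb] at hle hξ ⊢
    have hb1 : b ≤ 1 := (Nat.pow_le_pow_iff_right hp.out.one_lt).1 (hle.trans (pow_one p).ge)
    interval_cases b
    · exact absurd (pow_zero p) hξ
    · exact pow_one p
  obtain ⟨n, hn, hn1⟩ : ∃ n ∈ N, n ≠ 1 := by
    by_contra hh
    push Not at hh
    rw [(Subgroup.eq_bot_iff_forall N).2 hh, Subgroup.card_bot] at hN
    exact hp.out.ne_one hN.symm
  obtain ⟨ψ, hψd, hψn⟩ := exists_nonlinear (hNle hn) hn1
  exact hψn (eq_of_degree_eq h hχd ((hdeg χ hχd).trans (hdeg ψ hψd).symm) ▸ hχk.symm ▸ hn)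

/-- Let p be a prime and P a finite non-commutative p-group. Then every two irreducible characters of P of the same degree greater than 1 are Galois conjugate (one is obtained from the other by composing with g ↦ g^k for some k prime to the order of P) if and only if the centre of P is cyclic and the derived subgroup of P has order p. -/
theorem result {P : Type*} [Group P] [Finite P] (p : ℕ) [Fact p.Prime] (hP : IsPGroup p P) (hna : ¬ IsMulCommutative P) :
    (∀ χ ψ : Cfsg.IrrCharacter P, Cfsg.charDegree (χ : P → ℂ) ≠ 1 → Cfsg.charDegree (χ : P → ℂ) = Cfsg.charDegree (ψ : P → ℂ) → ∃ k : ℕ, Nat.Coprime k (Nat.card P) ∧ ∀ g : P, (ψ : P → ℂ) g = (χ : P → ℂ) (g ^ k)) ↔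
      (IsCyclic (Subgroup.center P) ∧ Nat.card (commutator P) = p) := by
  classical
  constructor
  · intro h
    obtain ⟨k, hk⟩ := H24.exists_card_pow hP (commutator P)
    have hk0 : k ≠ 0 := by
      intro e
      rw [e, pow_zero] at hk
      refine hna ⟨⟨fun a b => ?_⟩⟩
      have := Subgroup.eq_bot_of_card_eq _ hk
      exact commutatorElement_eq_one_iff_mul_comm.1 (Subgroup.mem_bot.1 (this ▸ comm_mem P a b))
    have hk1 : k = 1 := by
      by_contra hk1
      obtain ⟨N, hNn, hNle, hN⟩ := H24.exists_normal_le_card hP hk (show k - 2 ≤ k by omega)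
      have hQ := galProp_of_surjective (QuotientGroup.mk' N) (QuotientGroup.mk'_surjective N) h
      have hQp : IsPGroup p (P ⧸ N) := hP.to_quotient N
      have hc : Nat.card (commutator (P ⧸ N)) = p ^ 2 := by
        rw [show commutator (P ⧸ N) = (commutator P).map (QuotientGroup.mk' N) by
          rw [commutator_def, commutator_def, Subgroup.map_commutator,
            Subgroup.map_top_of_surjective _ (QuotientGroup.mk'_surjective N)],
          ← Subgroup.relIndex_ker, QuotientGroup.ker_mk']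
        have h := Subgroup.card_mul_index (N.subgroupOf (commutator P))
        rw [Nat.card_congr (Subgroup.subgroupOfEquivOfLe hNle).toEquiv, hN, hk,
          show k = k - 2 + 2 by omega, pow_add, show k - 2 + 2 - 2 = k - 2 by omega] at h
        exact Nat.eq_of_mul_eq_mul_left (pow_pos (Fact.out : p.Prime).pos _) h
      by_cases hcent : commutator (P ⧸ N) ≤ Subgroup.center (P ⧸ N)
      · by_cases hexp : ∀ a b : P ⧸ N, ⁅a, b⁆ ^ p = 1
        · refine false_of_elementary hQp hQ hc hcent fun z hz => ?_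
          rw [commutator_def, Subgroup.commutator_def] at hz
          induction hz using Subgroup.closure_induction with
          | mem x hx =>
            obtain ⟨a, -, b, -, rfl⟩ := hx
            exact hexp a b
          | one => exact one_pow p
          | mul x y hx hy e1 e2 =>
            have hxc : x ∈ Subgroup.center (P ⧸ N) :=
              hcent (by rw [commutator_def, Subgroup.commutator_def]; exact hx)
            rw [Commute.mul_pow (Subgroup.mem_center_iff.1 hxc y).symm, e1, e2, one_mul]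
          | inv x hx e1 => rw [inv_pow, e1, inv_one]
        · push Not at hexp
          obtain ⟨a, b, hab⟩ := hexp
          exact false_of_large hQp hQ hc hcent a b hab
      · exact false_of_noncentral hQp hQ hc hcent
    rw [hk1, pow_one] at hk
    exact ⟨isCyclic_center hP h hk, hk⟩
  · rintro ⟨hcyc, hc⟩ χ ψ hχ hd
    have hψ : Cfsg.charDegree (ψ : P → ℂ) ≠ 1 := hd ▸ hχ
    -- the kernels meet the centre trivially
    have hker : ∀ ξ : Cfsg.IrrCharacter P, Cfsg.charDegree (ξ : P → ℂ) ≠ 1 →
        ¬ commutator P ≤ charKer ξ := by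
      intro ξ hξ hle
      refine hξ ?_
      obtain ⟨n, ρ, hρ, e⟩ := ξ.2
      have hcomm : ∀ a b : P, ρ a ∘ₗ ρ b = ρ b ∘ₗ ρ a := by
        intro a b
        have h1 := mem_charKer.1 (hle (comm_mem P a b))
        rw [← e, ρ.char_one, H25.char_eq_degree_iff] at h1
        rw [← Module.End.mul_eq_comp, ← Module.End.mul_eq_comp, ← map_mul, ← map_mul]
        calc ρ (a * b) = ρ (⁅a, b⁆ * (b * a)) := by congr 1; simp only [commutatorElement_def]; group
          _ = ρ (b * a) := by rw [map_mul, h1]; rfl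
      have hscal : ∀ a, ∃ c : ℂ, ρ a = c • LinearMap.id := fun a =>
        ⟨_, H25.eq_smul_id_of_comm ρ (ρ a) fun g => hcomm a g⟩
      have h1 : ∀ g, ‖ξ.1 g‖ = n := by
        intro g
        obtain ⟨c, hc⟩ := hscal g
        have hg : orderOf g ≠ 0 := (orderOf_pos g).ne'
        have hn0 : 0 < Module.finrank ℂ (Fin n → ℂ) := H26.finrank_pos_of_isIrreducible ρ
        have hcpow : c ^ orderOf g = 1 := by
          have h2 := congrArg ρ (pow_orderOf_eq_one g)
          rw [map_pow, map_one, hc, smul_pow] at h2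
          rw [show (LinearMap.id : (Fin n → ℂ) →ₗ[ℂ] (Fin n → ℂ)) = 1 from rfl, one_pow] at h2
          haveI : Nontrivial (Fin n → ℂ) := Module.nontrivial_of_finrank_pos hn0
          exact smul_left_injective ℂ (one_ne_zero (α := Module.End ℂ (Fin n → ℂ)))
            (h2.trans (one_smul ℂ (1 : Module.End ℂ (Fin n → ℂ))).symm)
        rw [← e, Representation.character, hc, map_smul, LinearMap.trace_id, smul_eq_mul,
          norm_mul, Complex.norm_eq_one_of_pow_eq_one hcpow hg, one_mul, Module.finrank_fin_fun,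
          Complex.norm_natCast]
      let _ : Fintype P := Fintype.ofFinite P
      have h2 := H43.sum_mul_conj ξ ξ
      rw [if_pos rfl] at h2
      simp only [Complex.mul_conj, Complex.normSq_eq_norm_sq, h1] at h2
      rw [Finset.sum_const, Finset.card_univ, nsmul_eq_mul, ← Nat.card_eq_fintype_card] at h2
      have h3 : Nat.card P * n ^ 2 = Nat.card P * 1 := by
        rw [mul_one]; exact_mod_cast h2
      have h4 := Nat.eq_of_mul_eq_mul_left Nat.card_pos h3
      rw [Cfsg.charDegree, ← e, ρ.char_one, Complex.natCast_re, Nat.floor_natCast,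
        Module.finrank_fin_fun]
      exact (Nat.pow_eq_one.1 h4).resolve_right (by norm_num)
    have hcne : commutator P ≠ ⊥ := fun e =>
      (Fact.out : p.Prime).ne_one (by rw [← hc, e, Subgroup.card_bot])
    have hinj : ∀ ξ : Cfsg.IrrCharacter P, Cfsg.charDegree (ξ : P → ℂ) ≠ 1 →
        ∀ z ∈ Subgroup.center P, z ∈ charKer ξ → z = 1 := by
      intro ξ hξ z hz hzk
      by_contra hz1
      -- a nontrivial subgroup of the cyclic centre contains the derived subgroup
      refine hker ξ hξ fun u hu => ?_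
      have hcent : commutator P ≤ Subgroup.center P := le_center_of_card hP _ hc
      haveI := hcyc
      obtain ⟨a, ha⟩ := IsPGroup.iff_orderOf.1 hP z
      have ha0 : a ≠ 0 := fun e => hz1 (orderOf_eq_one_iff.1 (by rw [ha, e, pow_zero]))
      set t := z ^ (p ^ (a - 1))
      have ht : orderOf t = p := by
        rw [orderOf_pow_of_dvd (pow_ne_zero _ (Fact.out : p.Prime).ne_zero)
          (ha ▸ pow_dvd_pow p (Nat.sub_le a 1)), ha, Nat.pow_div (Nat.sub_le a 1)
          (Fact.out : p.Prime).pos, show a - (a - 1) = 1 by omega, pow_one]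
      rcases zpowers_total (hP.to_subgroup _) ⟨t, pow_mem hz _⟩ ⟨u, hcent hu⟩ with ⟨i, hi⟩ | ⟨i, hi⟩
      · rw [show u = t ^ i from congrArg Subtype.val hi]
        exact pow_mem (pow_mem hzk _) i
      · have hti : t = u ^ i := congrArg Subtype.val hi
        have htc : t ∈ commutator P := hti ▸ pow_mem hu i
        have hgen : Subgroup.zpowers t = commutator P :=
          Subgroup.eq_of_le_of_card_ge (Subgroup.zpowers_le.2 htc)
            (by rw [Nat.card_zpowers, ht, hc])
        exact (Subgroup.zpowers_le.2 (pow_mem hzk _) : Subgroup.zpowers t ≤ _) (hgen ▸ hu)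
    -- both give injective homomorphisms of the centre
    have hhom : ∀ ξ : Cfsg.IrrCharacter P, ∃ f : Subgroup.center P →* ℂ,
        ∀ z : Subgroup.center P, (ξ : P → ℂ) z = (ξ : P → ℂ) 1 * f z := fun ξ =>
      ⟨{ toFun := fun z => ξ.1 z / ξ.1 1
         map_one' := div_self (H26.irr_one_ne_zero ξ)
         map_mul' := fun a b => by
           show ξ.1 ((a : P) * b) / ξ.1 1 = _
           rw [apply_mul_center ξ (a : P) b.2]
           field_simp [H26.irr_one_ne_zero ξ] },
        fun z => (mul_div_cancel₀ _ (H26.irr_one_ne_zero ξ)).symm⟩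
    obtain ⟨f, hf⟩ := hhom χ
    obtain ⟨g, hg⟩ := hhom ψ
    have hinj' : ∀ {ξ : Cfsg.IrrCharacter P} {f : Subgroup.center P →* ℂ},
        Cfsg.charDegree (ξ : P → ℂ) ≠ 1 →
        (∀ z : Subgroup.center P, (ξ : P → ℂ) z = (ξ : P → ℂ) 1 * f z) →
        ∀ z, f z = 1 → z = 1 := fun hξ hf' z hz =>
      Subtype.ext (hinj _ hξ _ z.2 (mem_charKer.2 (by rw [hf' z, hz, mul_one])))
    obtain ⟨c, hcgen⟩ := hcyc.exists_generator
    set m := Nat.card (Subgroup.center P)
    have hord : orderOf c = m := orderOf_eq_card_of_forall_mem_zpowers hcgen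
    have hprim : ∀ {ξ : Cfsg.IrrCharacter P} {f : Subgroup.center P →* ℂ},
        (∀ z, f z = 1 → z = 1) → IsPrimitiveRoot (f c) m := fun {ξ f} hf' => by
      refine ⟨by rw [← map_pow, ← hord, pow_orderOf_eq_one, map_one], fun l hl => ?_⟩
      rw [← hord]
      exact orderOf_dvd_of_pow_eq_one (hf' _ (by rw [map_pow, hl]))
    haveI : NeZero m := ⟨Nat.card_pos.ne'⟩
    obtain ⟨k, hkm, hkcop, hk⟩ :=
      ((hprim (ξ := χ) (hinj' hχ hf)).isPrimitiveRoot_iff).1 (hprim (ξ := ψ) (hinj' hψ hg))
    obtain ⟨a, ha⟩ := IsPGroup.iff_card.1 hP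
    obtain ⟨b, hb⟩ := H24.exists_card_pow hP (Subgroup.center P)
    have hb0 : b ≠ 0 := by
      intro e
      rw [e, pow_zero] at hb
      exact hcne (eq_bot_iff.2 ((le_center_of_card hP _ hc).trans
        (Subgroup.eq_bot_of_card_eq _ hb).le))
    have hkP : Nat.Coprime k (Nat.card P) := by
      rw [ha]
      refine Nat.Coprime.pow_right a ?_
      rw [show m = p ^ b from hb] at hkcop
      exact (Nat.coprime_pow_right_iff (Nat.pos_of_ne_zero hb0) _ _).1 hkcop
    refine ⟨k, hkP, fun x => ?_⟩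
    by_cases hx : x ∈ Subgroup.center P
    · obtain ⟨i, hi⟩ : ∃ i : ℕ, c ^ i = (⟨x, hx⟩ : Subgroup.center P) :=
        (mem_powers_iff_mem_zpowers).2 (hcgen _)
      have h1 : (ψ : P → ℂ) 1 = (χ : P → ℂ) 1 := by
        rw [H43.irr_charDegree_spec, H43.irr_charDegree_spec, hd]
      rw [show (ψ : P → ℂ) x = _ from hg ⟨x, hx⟩,
        show (χ : P → ℂ) (x ^ k) = _ from hf (⟨x, hx⟩ ^ k : Subgroup.center P), h1, ← hi,
        map_pow, map_pow, map_pow, ← hk, ← pow_mul, ← pow_mul, mul_comm k i]
    · rw [eq_zero_of_not_mem_center hP hc ⟨hψ, hker ψ hψ⟩ hx,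
        eq_zero_of_not_mem_center hP hc ⟨hχ, hker χ hχ⟩ (g := x ^ k) fun hxk => hx ?_]
      obtain ⟨l, hl⟩ := exists_pow_eq_self_of_coprime
        (hkP.coprime_dvd_right (orderOf_dvd_natCard x))
      rw [← hl]
      exact pow_mem hxk l

end Cfsg.Agent.S4845
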