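import Cfsg.Statements.S4850
import Cfsg.Agent.H19.VanishingOrder

set_option autoImplicit false
open Cfsg

namespace Cfsg.Agent.S4850

/-- Let p be a prime and G a finite solvable group whose vanishing elements (elements at which some irreducible character is zero) of order divisible by p all have the same order, with at least one such element. Let P be a Sylow p-subgroup of G. Then the derived subgroup of P is subnormal in G and the image of P in G/O_p(G) is cyclic. -/
theorem result {G : Type*} [Group G] [Finite G] [hs : Group.IsSolvable G] (p : ℕ) [Fact p.Prime] (b : ℕ) (hvo : {n : ℕ | p ∣ n ∧ ∃ (g : G) (χ : Cfsg.IrrCharacter G), orderOf g = n ∧ (χ : G → ℂ) g = 0} = {b}) (P : Sylow p G) :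
    ((commutator ↥(P : Subgroup G)).map (P : Subgroup G).subtype).IsSubnormal ∧ IsCyclic ↥((P : Subgroup G).map (QuotientGroup.mk' (Cfsg.pCore p G))) := by
  classical
  haveI := Cfsg.Agent.H19.pCore_normal p G
  have hle := Cfsg.Agent.H19.card_map_sylow_le b (fun g hg hgp => ?_) P
  swap
  · obtain ⟨χ, hχ⟩ := hg
    have hmem : orderOf g ∈ ({b} : Set ℕ) := hvo ▸ ⟨hgp, g, χ, rfl, hχ⟩
    exact Set.mem_singleton_iff.1 hmem
  set O := Cfsg.pCore p G with hO
  set I := (P : Subgroup G).map (QuotientGroup.mk' O) with hI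
  haveI hcyc : IsCyclic ↥I := by
    obtain ⟨k, hk⟩ := IsPGroup.iff_card.1 (P.2.map (QuotientGroup.mk' O))
    rcases k with _ | _ | k
    · haveI : Subsingleton ↥I := (Nat.card_eq_one_iff_unique.1 (hk.trans (pow_zero p))).1
      infer_instance
    · exact isCyclic_of_prime_card (hk.trans (pow_one p))
    · exfalso
      have hle' : Nat.card ↥I ≤ p := hle
      rw [hk] at hle'
      have h2 : p ^ 1 < p ^ (k + 1 + 1) := Nat.pow_lt_pow_right (Fact.out (p := p.Prime)).one_lt (by omega)
      rw [pow_one] at h2
      omega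
  refine ⟨?_, hcyc⟩
  set D := (commutator ↥(P : Subgroup G)).map (P : Subgroup G).subtype with hD
  have hDO : D ≤ O := by
    rintro _ ⟨c, hc, rfl⟩
    let f : ↥(P : Subgroup G) →* ↥I :=
      ((QuotientGroup.mk' O).comp (P : Subgroup G).subtype).codRestrict I
        fun x => ⟨x, x.2, rfl⟩
    have hf : f c = 1 := by
      have h1 : commutator ↥(P : Subgroup G) ≤ f.ker := by
        rw [commutator_def, Subgroup.commutator_le]
        intro x _ y _
        letI : CommGroup ↥I := IsCyclic.commGroup
        rw [MonoidHom.mem_ker, map_commutatorElement, commutatorElement_eq_one_iff_mul_comm,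
          mul_comm]
      exact h1 hc
    exact (QuotientGroup.eq_one_iff _).1 (congrArg Subtype.val hf)
  have hnP : O ≤ (P : Subgroup G) := Cfsg.Agent.H19.pCore_le_sylow P
  have hn : (D.subgroupOf O).Normal := by
    refine ⟨fun d hd o => ?_⟩
    rw [Subgroup.mem_subgroupOf] at hd ⊢
    obtain ⟨c, hc, hce⟩ := hd
    refine ⟨⟨o, hnP o.2⟩ * c * ⟨o, hnP o.2⟩⁻¹,
      (inferInstance : (commutator ↥(P : Subgroup G)).Normal).conj_mem c hc _, ?_⟩
    simp [← hce]
  exact Subgroup.IsSubnormal.step D O hDO (Subgroup.Normal.isSubnormal inferInstance) hn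

end Cfsg.Agent.S4850
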