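import Cfsg.Statements.S4866
import Cfsg.Agent.H45.BrauerPerm

set_option autoImplicit false
open Cfsg

namespace Cfsg.Agent.S4866

/-- Let K be a normal subgroup of odd index in the finite group G. Then G has as many orbits on the real-valued irreducible complex characters of K (acting by conjugation) as it has orbits on the conjugacy classes of K that are real in K; equivalently, the number of G-orbits of real-valued irreducible characters of K equals the number of G-conjugacy classes of elements of K that are conjugate in K to their inverses. -/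
theorem result {G : Type*} [Group G] [Finite G] (K : Subgroup G) [K.Normal] (hodd : Odd K.index) : Nat.card (Quot (fun θ η : {θ : Cfsg.IrrCharacter ↥K // (∀ k : ↥K, ((θ : ↥K → ℂ) k).im = 0)} => ∃ g : G, ∀ k k' : ↥K, (k' : G) = g * (k : G) * g⁻¹ → (η.1 : ↥K → ℂ) k' = (θ.1 : ↥K → ℂ) k)) = Nat.card (Quot (fun x y : {x : ↥K // IsConj x x⁻¹} => ∃ g : G, (y.1 : G) = g * x.1 * g⁻¹)) := by
  classical
  have h := H45.card_orbits_real_irr_eq_real_classes K hodd
  have hconj : ∀ (g : G) (k : ↥K), (((MulAut.conjNormal g : MulAut ↥K) k : ↥K) : G) = g * k * g⁻¹ :=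
    fun g k => MulAut.conjNormal_apply g k
  have hreal : ∀ (x : {x : ↥K // IsConj x x⁻¹}) (k : ↥K), ConjClasses.mk k = ConjClasses.mk x.1 →
      IsConj k k⁻¹ := by
    intro x k hk
    have hkx : IsConj k x.1 := ConjClasses.mk_eq_mk_iff_isConj.1 hk
    refine (hkx.trans x.2).trans ?_
    obtain ⟨c, hc⟩ := isConj_iff.1 hkx
    exact isConj_iff.2 ⟨c⁻¹, by rw [← hc]; group⟩
  rw [show Nat.card (Quot (fun x y : {x : ↥K // IsConj x x⁻¹} =>
      ∃ g : G, (y.1 : G) = g * x.1 * g⁻¹)) = _ from Nat.card_congr
    (show _ ≃ Quot (fun a b : H45.RealCls K => ∃ g : G,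
        ConjClasses.map (MulAut.conjNormal g : MulAut ↥K).toMonoidHom a.1 = b.1) from
      { toFun := Quot.map (fun x => ⟨ConjClasses.mk x.1, hreal x⟩) (by
          rintro x y ⟨g, hg⟩
          exact ⟨g, congrArg ConjClasses.mk (Subtype.ext ((hconj g x.1).trans hg.symm))⟩)
        invFun := Quot.lift (fun C => Quot.mk _ ⟨C.1.out, C.2 _ (Quotient.out_eq C.1)⟩) (by
          rintro C D ⟨g, hg⟩
          apply Quot.sound
          have h1 : ConjClasses.mk ((MulAut.conjNormal g : MulAut ↥K) C.1.out)
              = ConjClasses.mk D.1.out :=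
            (congrArg (ConjClasses.map (MulAut.conjNormal g : MulAut ↥K).toMonoidHom)
              (Quotient.out_eq C.1)).trans (hg.trans (Quotient.out_eq D.1).symm)
          obtain ⟨c, hc⟩ := isConj_iff.1 (ConjClasses.mk_eq_mk_iff_isConj.1 h1)
          refine ⟨(c : G) * g, ?_⟩
          show ((D.1.out : ↥K) : G) = _
          rw [← hc]
          push_cast
          rw [hconj]
          group)
        left_inv := by
          rintro ⟨x⟩
          apply Quot.sound
          obtain ⟨c, hc⟩ := isConj_iff.1 (ConjClasses.mk_eq_mk_iff_isConj.1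
            (show ConjClasses.mk (ConjClasses.mk x.1).out = ConjClasses.mk x.1 from Quotient.out_eq _))
          exact ⟨c, by simpa using congrArg (Subtype.val : ↥K → G) hc.symm⟩
        right_inv := by
          rintro ⟨C⟩
          exact congrArg (Quot.mk _) (Subtype.ext (Quotient.out_eq C.1)) })]
  refine Eq.trans (Nat.card_congr (Quot.congr (Equiv.refl _) fun θ η => ?_)) h
  show (∃ g : G, ∀ k k' : ↥K, (k' : G) = g * (k : G) * g⁻¹ → η.1.1 k' = θ.1.1 k) ↔
    ∃ g : G, H45.irrTwist K g θ.1 = η.1
  constructor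
  · rintro ⟨g, hg⟩
    refine ⟨g, Subtype.ext (funext fun k => ?_)⟩
    exact (hg ((MulAut.conjNormal g⁻¹ : MulAut ↥K) k) k (by rw [hconj]; group)).symm
  · rintro ⟨g, hg⟩
    refine ⟨g, fun k k' hk => ?_⟩
    rw [← hg]
    show θ.1.1 ((MulAut.conjNormal g⁻¹ : MulAut ↥K) k') = θ.1.1 k
    refine congrArg θ.1.1 ?_
    apply Subtype.ext
    rw [hconj, hk]
    group

end Cfsg.Agent.S4866
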