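import Cfsg.Statements.S4871
import Cfsg.Agent.H45.FSForm
import Cfsg.Agent.H56.CliffordInertia
import Cfsg.Agent.H38.Linear

set_option autoImplicit false
open Cfsg

namespace Cfsg.Agent.S4871

/-- Homomorphisms to `ℂˣ` trivial on a subgroup are at most its index in number. -/
theorem card_hom_trivial_le {P : Type*} [Group P] [Finite P] (Q : Subgroup P) :
    Nat.card {f : P →* ℂˣ // ∀ q ∈ Q, f q = 1} ≤ Q.index := by
  classical
  have : Fintype (P ⧸ Q) := Fintype.ofFinite _
  have : Fintype {f : P →* ℂˣ // ∀ q ∈ Q, f q = 1} := Fintype.ofFinite _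
  let F : {f : P →* ℂˣ // ∀ q ∈ Q, f q = 1} → (P ⧸ Q → ℂ) := fun f => fun x =>
    Quotient.liftOn' x (fun g => ((f.1 g : ℂˣ) : ℂ)) fun a b hab => by
      have h := f.2 _ (QuotientGroup.leftRel_apply.1 hab)
      rw [map_mul, map_inv, inv_mul_eq_one] at h
      simp only [h]
  have hF : ∀ f (g : P), F f (g : P ⧸ Q) = (f.1 g : ℂ) := fun f g => rfl
  have hli : LinearIndependent ℂ F := by
    rw [Fintype.linearIndependent_iff]
    intro c hc
    have h2 := (linearIndependent_monoidHom P ℂ).comp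
      (fun f : {f : P →* ℂˣ // ∀ q ∈ Q, f q = 1} => (Units.coeHom ℂ).comp f.1)
      (fun a b hab => Subtype.ext (MonoidHom.ext fun g => Units.ext (DFunLike.congr_fun hab g)))
    refine Fintype.linearIndependent_iff.1 h2 c (funext fun g => ?_)
    have h3 := congrFun hc (g : P ⧸ Q)
    simp only [Finset.sum_apply, Pi.smul_apply, hF] at h3
    simpa [Finset.sum_apply] using h3
  have h := hli.fintype_card_le_finrank
  rwa [Module.finrank_fintype_fun_eq_card, ← Nat.card_eq_fintype_card, ← Nat.card_eq_fintype_card] at h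

/-- Let G be a finite group that is the semidirect product of a normal elementary abelian subgroup N of odd order by a non-trivial 2-subgroup P, with N the unique minimal normal subgroup of G. Consider the strongly real irreducible complex characters of G (Frobenius–Schur indicator +1) whose degree is 1 or even. Then their average degree is at least 4/3: four times their number is at most three times the sum of their degrees. -/
theorem result {G : Type*} [Group G] [Finite G] (N P : Subgroup G) (hN : N.Normal) (q : ℕ) [Fact q.Prime] (hq : q ≠ 2) (hNel : Cfsg.IsElementaryAbelian q N) (hP : IsPGroup 2 ↥P) (hP1 : P ≠ ⊥) (hdisj : N ⊓ P = ⊥) (hprod : N ⊔ P = ⊤) (hmin : N ≠ ⊥ ∧ ∀ M : Subgroup G, M.Normal → M ≠ ⊥ → N ≤ M) : 4 * Nat.card {χ : Cfsg.IrrCharacter G // (Cfsg.charDegree (χ : G → ℂ) = 1 ∨ 2 ∣ Cfsg.charDegree (χ : G → ℂ)) ∧ (Nat.card G : ℂ)⁻¹ * ∑ᶠ g : G, (χ : G → ℂ) (g * g) = 1} ≤ 3 * (∑ᶠ χ : {χ : Cfsg.IrrCharacter G // (Cfsg.charDegree (χ : G → ℂ) =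 1 ∨ 2 ∣ Cfsg.charDegree (χ : G → ℂ)) ∧ (Nat.card G : ℂ)⁻¹ * ∑ᶠ g : G, (χ : G → ℂ) (g * g) = 1}, Cfsg.charDegree (χ.1 : G → ℂ)) := by
  classical
  obtain ⟨hN0, huniq⟩ := hmin
  have : Fintype G := Fintype.ofFinite G
  have hq2 : Odd q := (Fact.out : q.Prime).odd_of_ne_two hq
  have hNcard : Odd (Nat.card N) := by
    obtain ⟨a, ha⟩ := IsPGroup.iff_card.1
      (show IsPGroup q N from fun x => ⟨1, Subtype.ext (by simpa using hNel.2 x x.2)⟩)
    rw [ha]; exact hq2.pow
  haveI : IsMulCommutative N := hNel.1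
  have hcN : ∀ a ∈ N, ∀ b ∈ N, a * b = b * a := fun a ha b hb =>
    congrArg Subtype.val (mul_comm' (⟨a, ha⟩ : N) ⟨b, hb⟩)
  have hcompl : Subgroup.IsComplement' P N :=
    (Subgroup.isComplement'_of_disjoint_and_mul_eq_univ (disjoint_iff.2 hdisj)
      (by rw [← Subgroup.normal_mul, hprod, Subgroup.coe_top])).symm
  -- the retraction onto `P`
  let π : G →* P := hcompl.QuotientMulEquiv.toMonoidHom.comp (QuotientGroup.mk' N)
  have hπP : ∀ p : P, π p = p := fun p => hcompl.QuotientMulEquiv.apply_symm_apply p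
  have hπN : ∀ n ∈ N, π n = 1 := fun n hn => by
    show hcompl.QuotientMulEquiv (QuotientGroup.mk' N n) = 1
    rw [QuotientGroup.mk'_apply, (QuotientGroup.eq_one_iff n).2 hn, map_one]
  have hdec : ∀ g : G, g * ((π g : G))⁻¹ ∈ N := fun g => by
    obtain ⟨n, hn, p, hp, rfl⟩ : ∃ n ∈ N, ∃ p ∈ P, n * p = g := by
      obtain ⟨⟨⟨n, hn⟩, ⟨p, hp⟩⟩, h⟩ := hcompl.symm.2 g
      exact ⟨n, hn, p, hp, h⟩
    rw [map_mul, hπN n hn, one_mul, hπP ⟨p, hp⟩]
    simpa using hn
  -- the central involution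
  haveI : Nontrivial P := (Subgroup.nontrivial_iff_ne_bot P).2 hP1
  haveI := hP.center_nontrivial
  obtain ⟨zc, hzc⟩ := exists_prime_orderOf_dvd_card' (G := Subgroup.center P) 2 (by
    obtain ⟨a, ha⟩ := IsPGroup.iff_card.1 (hP.to_subgroup (Subgroup.center P))
    rcases Nat.eq_zero_or_pos a with h0 | h0
    · rw [h0, pow_zero] at ha
      exact absurd ha (Finite.one_lt_card (α := Subgroup.center P)).ne'
    · rw [ha]; exact dvd_pow_self 2 h0.ne')
  set z : G := ((zc : P) : G) with hzdef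
  have hzP : z ∈ P := (zc : P).2
  have hz2 : z * z = 1 := by
    have h := pow_orderOf_eq_one zc
    rw [hzc, sq] at h
    exact congrArg (fun w : Subgroup.center P => ((w : P) : G)) h
  have hz1 : z ≠ 1 := fun h => by
    rw [show zc = 1 from Subtype.ext (Subtype.ext h), orderOf_one] at hzc
    omega
  have hzi : z⁻¹ = z := inv_eq_of_mul_eq_one_left hz2
  have hzc' : ∀ p ∈ P, z * p = p * z := fun p hp =>
    (congrArg Subtype.val (Subgroup.mem_center_iff.1 zc.2 ⟨p, hp⟩)).symm
  have hzN : ∀ n ∈ N, z * n * z ∈ N := fun n hn => by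
    simpa [hzi] using hN.conj_mem n hn z
  have hzinv : ∀ n ∈ N, z * n * z = n⁻¹ := by
    let C : Subgroup G := N ⊓ Subgroup.centralizer ({z} : Set G)
    have hCn : C.Normal := by
      refine ⟨fun c hc g => ⟨hN.conj_mem c hc.1 g, Subgroup.mem_centralizer_iff.2 fun w hw => ?_⟩⟩
      obtain ⟨n, hn, p, hp, rfl⟩ : ∃ n ∈ N, ∃ p ∈ P, n * p = g :=
        ⟨_, hdec g, _, (π g).2, by group⟩
      rw [Set.mem_singleton_iff.1 hw]
      have hpc : p * c * p⁻¹ ∈ N := hN.conj_mem c hc.1 p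
      have hzc0 : z * c = c * z := Subgroup.mem_centralizer_iff.1 hc.2 z rfl
      have h1 : z * (p * c * p⁻¹) = p * c * p⁻¹ * z := by
        calc z * (p * c * p⁻¹) = (z * p) * c * p⁻¹ := by group
          _ = p * (z * c) * p⁻¹ := by rw [hzc' p hp]; group
          _ = p * c * (z * p⁻¹) := by rw [hzc0]; group
          _ = p * c * p⁻¹ * z := by rw [hzc' _ (P.inv_mem hp)]; group
      rw [show n * p * c * (n * p)⁻¹ = n * (p * c * p⁻¹) * n⁻¹ by group, hcN n hn _ hpc,
        mul_inv_cancel_right]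
      exact h1
    have hC : C = ⊥ := by
      by_contra hC0
      have hNC : N ≤ Subgroup.centralizer ({z} : Set G) := fun n hn => (huniq C hCn hC0 hn).2
      have hZn : (Subgroup.zpowers z).Normal := by
        refine ⟨fun w hw g => ?_⟩
        have hcz : ∀ g : G, Commute g z := fun g => by
          obtain ⟨n, hn, p, hp, rfl⟩ : ∃ n ∈ N, ∃ p ∈ P, n * p = g :=
            ⟨_, hdec g, _, (π g).2, by group⟩
          exact (Commute.symm (Subgroup.mem_centralizer_iff.1 (hNC hn) z rfl)).mul_left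
            (hzc' p hp).symm
        obtain ⟨i, rfl⟩ := Subgroup.mem_zpowers_iff.1 hw
        rw [((hcz g).zpow_right i).eq, mul_inv_cancel_right]
        exact ⟨i, rfl⟩
      refine hN0 (eq_bot_iff.2 fun n hn => ?_)
      have h1 := huniq _ hZn (by simpa using hz1) hn
      have h2 : n ∈ N ⊓ P := ⟨hn, (Subgroup.zpowers_le.2 hzP) h1⟩
      rwa [hdisj] at h2
    intro n hn
    have hm : n * (z * n * z) ∈ C := by
      refine ⟨N.mul_mem hn (hzN n hn), Subgroup.mem_centralizer_iff.2 fun w hw => ?_⟩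
      rw [Set.mem_singleton_iff.1 hw]
      calc z * (n * (z * n * z)) = (z * n * z) * n * z := by group
        _ = n * (z * n * z) * z := by rw [hcN _ (hzN n hn) n hn]
    rw [hC, Subgroup.mem_bot] at hm
    exact eq_inv_of_mul_eq_one_right hm
  -- a nontrivial linear character of `N` and its stabiliser
  haveI : Nontrivial N := (Subgroup.nontrivial_iff_ne_bot N).2 hN0
  obtain ⟨g₀, hg₀⟩ := exists_ne (1 : N)
  obtain ⟨lam, hlam⟩ := H27.exists_linear_ne_one (C := N) hg₀
  let θ : N → ℂ := fun n => (lam n : ℂ)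
  have hθ : Cfsg.IsIrrCharacter N θ := H26.isIrrCharacter_hom lam
  let T : Subgroup G :=
    { carrier := {g | H56.twist N θ g = θ}
      one_mem' := H56.twist_one N θ
      mul_mem' := fun {a b} ha hb => by
        show H56.twist N θ (a * b) = θ
        rw [← H56.twist_twist, show H56.twist N θ a = θ from ha, show H56.twist N θ b = θ from hb]
      inv_mem' := fun {a} ha => by
        show H56.twist N θ a⁻¹ = θ
        conv_lhs => rw [← show H56.twist N θ a = θ from ha]
        rw [H56.twist_twist, mul_inv_cancel, H56.twist_one] }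
  have hNT : N ≤ T := H56.le_inertia N T hθ fun g => Iff.rfl
  have hπT : ∀ t ∈ T, (π t : G) ∈ T := fun t ht => by
    rw [show ((π t : P) : G) = (t * ((π t : P) : G)⁻¹)⁻¹ * t by group]
    exact T.mul_mem (T.inv_mem (hNT (hdec t))) ht
  have hzT : z ∉ T := by
    intro hzT
    apply hlam
    have h := congrFun (show H56.twist N θ z = θ from hzT) g₀
    have e1 : (⟨z * (g₀ : G) * z⁻¹, hN.conj_mem g₀ g₀.2 z⟩ : N) = g₀⁻¹ :=
      Subtype.ext (show z * (g₀ : G) * z⁻¹ = (g₀ : G)⁻¹ by rw [hzi]; exact hzinv g₀ g₀.2)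
    simp only [H56.twist, e1, θ, Units.val_inj, map_inv] at h
    have h2 : lam g₀ ^ 2 = 1 := by
      rw [sq]
      conv_lhs => arg 1; rw [← h]
      rw [inv_mul_cancel]
    obtain ⟨k, hk⟩ := hNcard
    have h3 : lam g₀ ^ (2 * k + 1) = 1 := by
      rw [← map_pow, ← hk, pow_card_eq_one', map_one]
    rwa [pow_succ, pow_mul, h2, one_pow, one_mul] at h3
  have hTidx : T.index = (T.subgroupOf P).index := by
    conv_lhs => rw [show T = (T.subgroupOf P).comap π from by
      ext g
      refine ⟨fun h => hπT g h, fun h => ?_⟩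
      rw [show g = g * ((π g : P) : G)⁻¹ * ((π g : P) : G) by group]
      exact T.mul_mem (hNT (hdec g)) h]
    exact Subgroup.index_comap_of_surjective _ fun p => ⟨p, hπP p⟩
  have ho : 2 ∣ T.index := by
    rw [hTidx]
    obtain ⟨a, ha⟩ := hP.index (T.subgroupOf P)
    rcases Nat.eq_zero_or_pos a with h0 | h0
    · rw [h0, pow_zero, Subgroup.index_eq_one] at ha
      exact absurd (show z ∈ T from (ha ▸ Subgroup.mem_top (⟨z, hzP⟩ : P) :
        (⟨z, hzP⟩ : P) ∈ T.subgroupOf P)) hzT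
    · rw [ha]; exact dvd_pow_self 2 h0.ne'
  -- the induced characters
  let R := {μ : T.subgroupOf P →* ℂˣ // ∀ p, μ p ^ 2 = 1}
  let ψ : R → (T →* ℂˣ) := fun μ =>
    { toFun := fun t => lam ⟨(t : G) * ((π t : P) : G)⁻¹, hdec t⟩ * μ.1 ⟨π t, hπT t t.2⟩
      map_one' := by
        have e1 : (⟨((1 : T) : G) * ((π ((1 : T) : G) : P) : G)⁻¹, hdec _⟩ : N) = 1 :=
          Subtype.ext (by simp)
        have e2 : (⟨π ((1 : T) : G), hπT _ (1 : T).2⟩ : T.subgroupOf P) = 1 :=
          Subtype.ext (by simp)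
        rw [e1, e2, map_one, map_one, one_mul]
      map_mul' := fun s t => by
        have e2 : (⟨π ((s * t : T) : G), hπT _ (s * t).2⟩ : T.subgroupOf P)
            = ⟨π s, hπT s s.2⟩ * ⟨π t, hπT t t.2⟩ := Subtype.ext (by simp)
        have hs : (π s : G) * ((t : G) * ((π t : P) : G)⁻¹) * ((π s : P) : G)⁻¹ ∈ N :=
          hN.conj_mem _ (hdec t) _
        have e1 : (⟨((s * t : T) : G) * ((π ((s * t : T) : G) : P) : G)⁻¹, hdec _⟩ : N)
            = ⟨(s : G) * ((π s : P) : G)⁻¹, hdec s⟩ * ⟨_, hs⟩ := Subtype.ext (by simp; group)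
        have h3 : lam ⟨_, hs⟩ = lam ⟨(t : G) * ((π t : P) : G)⁻¹, hdec t⟩ :=
          Units.ext (congrFun (show H56.twist N θ (π s) = θ from hπT s s.2) ⟨_, hdec t⟩)
        rw [e1, e2, map_mul, map_mul, h3, mul_mul_mul_comm] }
  have hψirr : ∀ μ, Cfsg.IsIrrCharacter T (fun t => (ψ μ t : ℂ)) := fun μ =>
    H26.isIrrCharacter_hom (ψ μ)
  have : Fintype (N.subgroupOf T) := Fintype.ofFinite _
  have hψc : ∀ μ, Cfsg.classInner (fun n : N.subgroupOf T => (ψ μ n : ℂ)) (H56.resT N T θ) ≠ 0 := by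
    intro μ
    have e : (fun n : N.subgroupOf T => (ψ μ n : ℂ)) = H56.resT N T θ := by
      funext n
      have hn : ((n : T) : G) ∈ N := Subgroup.mem_subgroupOf.1 n.2
      have e2 : (⟨π ((n : T) : G), hπT _ (n : T).2⟩ : T.subgroupOf P) = 1 :=
        Subtype.ext (hπN _ hn)
      show ((lam _ * μ.1 _ : ℂˣ) : ℂ) = (lam _ : ℂ)
      rw [e2, map_one, mul_one]
      congr 2
      exact Subtype.ext (show ((n : T) : G) * ((π ((n : T) : G) : P) : G)⁻¹ = ((n : T) : G) by
        rw [hπN _ hn]; simp)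
    rw [e, H57.irr_inner_self (H56.isIrrCharacter_resT N T hθ hNT)]
    exact one_ne_zero
  have hcl := fun μ => H56.clifford_induced N T hθ (fun g => Iff.rfl) (hψirr μ) (hψc μ)
  let X : R → Cfsg.IrrCharacter G := fun μ => ⟨_, (hcl μ).1⟩
  have hXinj : Function.Injective X := by
    intro μ ν h
    have h1 := (hcl μ).2 _ (hψirr ν) (hψc ν) (congrArg Subtype.val h)
    refine Subtype.ext (MonoidHom.ext fun p => ?_)
    have h2 := Units.ext (congrFun h1 (⟨((p : P) : G), p.2⟩ : T))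
    have e2 : (⟨π ((p : P) : G), hπT _ p.2⟩ : T.subgroupOf P) = p := Subtype.ext (hπP p.1)
    have e1 : (⟨((p : P) : G) * ((π ((p : P) : G) : P) : G)⁻¹, hdec _⟩ : N) = 1 :=
      Subtype.ext (by simp [hπP p.1])
    simp only [ψ, MonoidHom.coe_mk, OneHom.coe_mk, e1, e2, map_one, one_mul] at h2
    exact h2
  have hXdeg : ∀ μ, Cfsg.charDegree (X μ).1 = T.index := fun μ => by
    show ⌊(Cfsg.indFun T _ 1).re⌋₊ = _
    rw [H25.indFun_one, map_one, Units.val_one, mul_one, Complex.natCast_re, Nat.floor_natCast]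
  have hzT' : ∀ t ∈ T, z * t * z ∈ T := fun t ht => by
    have e : z * t * z = (z * (t * ((π t : P) : G)⁻¹) * z) * ((π t : P) : G) := by
      calc z * t * z = z * (t * ((π t : P) : G)⁻¹) * (z * z) * (((π t : P) : G) * z) := by
            rw [hz2]; group
        _ = z * (t * ((π t : P) : G)⁻¹) * z * (z * ((π t : P) : G)) * z := by group
        _ = z * (t * ((π t : P) : G)⁻¹) * z * (((π t : P) : G) * z) * z := by
            rw [hzc' _ (π t).2]
        _ = z * (t * ((π t : P) : G)⁻¹) * z * ((π t : P) : G) * (z * z) := by group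
        _ = _ := by rw [hz2, mul_one]
    rw [e]
    exact T.mul_mem (hNT (hzN _ (hdec t))) (hπT t ht)
  have hν : ∀ μ, (Nat.card G : ℂ)⁻¹ * ∑ᶠ g : G, (X μ).1 (g * g) = 1 := by
    intro μ
    rw [finsum_eq_sum_of_fintype]
    refine H45.fsIndicator_indFun_linear_of_inverted T (ψ μ) hz2 hzT' (fun t => ?_) (hcl μ).1
    have hπz : π (z * t * z) = π t := by
      rw [map_mul, map_mul, hπP ⟨z, hzP⟩]
      apply Subtype.ext
      push_cast
      rw [hzc' _ (π t).2, mul_assoc, hz2, mul_one]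
    have e2 : (⟨π (z * t * z), hπT _ (hzT' t t.2)⟩ : T.subgroupOf P) = ⟨π t, hπT t t.2⟩ :=
      Subtype.ext hπz
    have e1 : (⟨z * t * z * ((π (z * t * z) : P) : G)⁻¹, hdec _⟩ : N)
        = (⟨(t : G) * ((π t : P) : G)⁻¹, hdec t⟩ : N)⁻¹ := by
      apply Subtype.ext
      show z * t * z * ((π (z * t * z) : P) : G)⁻¹ = ((t : G) * ((π t : P) : G)⁻¹)⁻¹
      rw [hπz, ← hzinv _ (hdec t)]
      have hpz : ((π t : P) : G)⁻¹ * z = z * ((π t : P) : G)⁻¹ :=
        (hzc' _ (P.inv_mem (π t).2)).symm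
      calc z * t * z * ((π t : P) : G)⁻¹ = z * t * (z * ((π t : P) : G)⁻¹) := by group
        _ = z * (t * ((π t : P) : G)⁻¹) * z := by rw [← hpz]; group
    show lam _ * μ.1 _ = (lam _ * μ.1 _)⁻¹
    rw [mul_inv, ← map_inv lam]
    refine congrArg₂ (· * ·) (congrArg lam e1) ?_
    rw [show (μ.1 ⟨π t, hπT t t.2⟩)⁻¹ = μ.1 ⟨π t, hπT t t.2⟩ from
      inv_eq_of_mul_eq_one_left (by rw [← sq]; exact μ.2 _)]
    exact congrArg μ.1 e2
  -- counting
  let Sel : Cfsg.IrrCharacter G → Prop := fun χ =>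
    (Cfsg.charDegree (χ : G → ℂ) = 1 ∨ 2 ∣ Cfsg.charDegree (χ : G → ℂ)) ∧
      (Nat.card G : ℂ)⁻¹ * ∑ᶠ g : G, (χ : G → ℂ) (g * g) = 1
  show 4 * Nat.card {χ // Sel χ} ≤ 3 * ∑ᶠ χ : {χ // Sel χ}, Cfsg.charDegree (χ.1 : G → ℂ)
  set S := Finset.univ.filter Sel with hS
  rw [finsum_eq_sum_of_fintype, Nat.card_eq_fintype_card, Fintype.card_subtype, ← hS,
    ← Finset.sum_subtype S (fun x => by simp [hS]) (fun χ => Cfsg.charDegree χ.1)]
  set S1 := S.filter fun χ => Cfsg.charDegree χ.1 = 1 with hS1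
  set SR := Finset.univ.image X with hSR
  have hSRS : SR ⊆ S \ S1 := by
    intro χ hχ
    obtain ⟨μ, -, rfl⟩ := Finset.mem_image.1 hχ
    have h1 : T.index ≠ 1 := fun h => by rw [h] at ho; omega
    simp only [hS1, hS, Finset.mem_sdiff, Finset.mem_filter, Finset.mem_univ, true_and, hXdeg,
      not_and]
    exact ⟨⟨Or.inr (by rw [hXdeg]; exact ho), hν μ⟩, fun _ => h1⟩
  -- the linear characters
  have hlin : ∀ χ ∈ S1, ∃ f : {f : P →* ℂˣ // ∀ p, f p ^ 2 = 1},
      ∀ g : G, χ.1 g = (f.1 (π g) : ℂ) := by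
    intro χ hχ
    simp only [hS1, hS, Finset.mem_filter, Finset.mem_univ, true_and] at hχ
    obtain ⟨⟨-, hν1⟩, hd⟩ := hχ
    rw [finsum_eq_sum_of_fintype] at hν1
    have hd1 : χ.1 1 = 1 := by
      obtain ⟨n, hn⟩ := H26.exists_nat_char_one (H26.irr_isCharacter χ)
      rw [Cfsg.charDegree, hn, Complex.natCast_re, Nat.floor_natCast] at hd
      rw [hn, hd, Nat.cast_one]
    obtain ⟨f, hf0⟩ := H38.exists_hom_of_linear (H26.irr_isCharacter χ) hd1
    have hf : ∀ g, χ.1 g = (f g : ℂ) := fun g => congrFun hf0 g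
    have hreal : ∀ g, (χ.1 g).im = 0 := fun g => by
      by_contra hg
      have h0 := ((H26.fsIndicator_trichotomy χ).2).2 ⟨g, hg⟩
      rw [H26.fsIndicator, hν1] at h0
      exact one_ne_zero h0
    have hf2 : ∀ g, f g ^ 2 = 1 := by
      intro g
      apply Units.ext
      rw [Units.val_pow_eq_pow_val, sq, Units.val_one]
      have h1 : (f g : ℂ) = (f g⁻¹ : ℂ) := by
        rw [← hf g⁻¹, H26.irr_inv, Complex.conj_eq_iff_im.2 (hreal g), hf g]
      conv_lhs => arg 2; rw [h1]
      rw [← Units.val_mul, ← map_mul, mul_inv_cancel, map_one, Units.val_one]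
    have hfN : ∀ n ∈ N, f n = 1 := by
      intro n hn
      obtain ⟨k, hk⟩ := hNcard
      have h3 : f n ^ (2 * k + 1) = 1 := by
        rw [← map_pow, ← hk]
        have := congrArg Subtype.val (pow_card_eq_one' (x := (⟨n, hn⟩ : N)))
        rw [SubgroupClass.coe_pow, OneMemClass.coe_one] at this
        rw [this, map_one]
      rwa [pow_succ, pow_mul, hf2, one_pow, one_mul] at h3
    refine ⟨⟨f.comp P.subtype, fun p => hf2 p⟩, fun g => ?_⟩
    rw [hf g]
    congr 1
    show f g = f (π g : G)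
    conv_lhs => rw [show g = (g * ((π g : P) : G)⁻¹) * ((π g : P) : G) by group]
    rw [map_mul, hfN _ (hdec g), one_mul]
  choose f hf using hlin
  have hn1 : S1.card ≤ (T.subgroupOf P).index * SR.card := by
    have hSRc : SR.card = Nat.card R := by
      rw [hSR, Finset.card_image_of_injective _ hXinj, Finset.card_univ, Nat.card_eq_fintype_card]
    rw [hSRc, ← Fintype.card_coe, ← Nat.card_eq_fintype_card]
    refine (Nat.card_le_card_of_injective (fun c : {x // x ∈ S1} => f c.1 c.2) ?_).trans ?_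
    · intro a b hab
      refine Subtype.ext (Subtype.ext (funext fun g => ?_))
      have hab' : f a.1 a.2 = f b.1 b.2 := hab
      rw [hf a.1 a.2 g, hf b.1 b.2 g, hab']
    let res : {f : P →* ℂˣ // ∀ p, f p ^ 2 = 1} → R := fun f =>
      ⟨f.1.comp (T.subgroupOf P).subtype, fun p => f.2 _⟩
    let base : R → {f : P →* ℂˣ // ∀ p, f p ^ 2 = 1} := fun r =>
      if h : ∃ f, res f = r then h.choose else ⟨1, fun p => one_pow 2⟩
    have hbase : ∀ f, res (base (res f)) = res f := fun f => by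
      have h : ∃ f', res f' = res f := ⟨f, rfl⟩
      simp only [base, dif_pos h]
      exact h.choose_spec
    calc Nat.card {f : P →* ℂˣ // ∀ p, f p ^ 2 = 1}
        ≤ Nat.card ({f : P →* ℂˣ // ∀ q ∈ T.subgroupOf P, f q = 1} × R) := by
          refine Nat.card_le_card_of_injective (fun f => (⟨f.1 * (base (res f)).1⁻¹, fun q hq => by
            have := DFunLike.congr_fun (congrArg Subtype.val (hbase f)) ⟨q, hq⟩
            simp only [res, MonoidHom.comp_apply, Subgroup.coe_subtype] at this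
            rw [MonoidHom.mul_apply, MonoidHom.inv_apply, this, mul_inv_cancel]⟩, res f)) ?_
          intro a b hab
          simp only [Prod.mk.injEq, Subtype.mk.injEq] at hab
          rw [hab.2] at hab
          exact Subtype.ext (mul_right_cancel hab.1)
      _ = Nat.card {f : P →* ℂˣ // ∀ q ∈ T.subgroupOf P, f q = 1} * Nat.card R := Nat.card_prod _ _
      _ ≤ _ := Nat.mul_le_mul_right _ (card_hom_trivial_le _)
  have h1 : S1 ⊆ S := Finset.filter_subset _ _
  rw [← Finset.sum_sdiff h1, ← Finset.card_sdiff_add_card_eq_card h1]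
  have e1 : ∑ χ ∈ S1, Cfsg.charDegree χ.1 = S1.card := by
    rw [Finset.card_eq_sum_ones]
    exact Finset.sum_congr rfl fun χ hχ => (Finset.mem_filter.1 hχ).2
  have e2 : S1.card + 4 * (S \ S1).card ≤ 3 * ∑ χ ∈ S \ S1, Cfsg.charDegree χ.1 := by
    rw [← hTidx] at hn1
    rw [← Finset.sum_sdiff hSRS, ← Finset.card_sdiff_add_card_eq_card hSRS]
    have h3 : 2 * ((S \ S1) \ SR).card ≤ ∑ χ ∈ (S \ S1) \ SR, Cfsg.charDegree χ.1 := by
      rw [mul_comm, ← smul_eq_mul]
      refine Finset.card_nsmul_le_sum _ _ _ fun χ hχ => ?_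
      obtain ⟨hχS, hχ1⟩ := Finset.mem_sdiff.1 (Finset.mem_sdiff.1 hχ).1
      simp only [hS, Finset.mem_filter, Finset.mem_univ, true_and, Sel] at hχS
      simp only [hS1, Finset.mem_filter, not_and] at hχ1
      have hne : Cfsg.charDegree χ.1 ≠ 1 := hχ1 (by
        simp only [hS, Finset.mem_filter, Finset.mem_univ, true_and, Sel]; exact hχS)
      obtain ⟨k, hk⟩ := hχS.1.resolve_left hne
      have hpos : Cfsg.charDegree χ.1 ≠ 0 := by
        obtain ⟨n, hn⟩ := H26.exists_nat_char_one (H26.irr_isCharacter χ)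
        rw [Cfsg.charDegree, hn, Complex.natCast_re, Nat.floor_natCast]
        rintro rfl
        exact H26.irr_one_ne_zero χ (by rw [hn, Nat.cast_zero])
      omega
    have h4 : ∑ χ ∈ SR, Cfsg.charDegree χ.1 = T.index * SR.card := by
      rw [Finset.sum_congr rfl (g := fun _ => T.index) (fun χ hχ => by
        obtain ⟨μ, -, rfl⟩ := Finset.mem_image.1 hχ
        exact hXdeg μ), Finset.sum_const, smul_eq_mul, mul_comm]
    have h5 : 2 ≤ T.index := Nat.le_of_dvd (Nat.pos_of_ne_zero Subgroup.index_ne_zero_of_finite) ho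
    have h6 : 2 * SR.card ≤ T.index * SR.card := Nat.mul_le_mul_right _ h5
    rw [h4]
    omega
  rw [e1]
  omega

end Cfsg.Agent.S4871
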