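import Cfsg.Statements.S4873
import Cfsg.Agent.H45.OddIndexReal

set_option autoImplicit false
open Cfsg

namespace Cfsg.Agent.S4873

/-- Let N be a normal subgroup of odd index in the finite group G. Then every irreducible complex character of N with Frobenius–Schur indicator +1 lies under exactly one irreducible character of G with Frobenius–Schur indicator +1. -/
theorem result {G : Type*} [Group G] [Finite G] (N : Subgroup G) [N.Normal] (hodd : Odd N.index) (φ : Cfsg.IrrCharacter ↥N) (hφ : (Nat.card ↥N : ℂ)⁻¹ * ∑ᶠ g : ↥N, (φ : ↥N → ℂ) (g * g) = 1) : ∃! χ : Cfsg.IrrCharacter G, (Nat.card G : ℂ)⁻¹ * ∑ᶠ g : G, (χ : G → ℂ) (g * g) = 1 ∧ (∑ᶠ n : ↥N, (χ : G → ℂ) n * (starRingEnd ℂ) ((φ : ↥N → ℂ) n)) ≠ 0 := by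
  classical
  have : Fintype G := Fintype.ofFinite G
  have : Fintype ↥N := Fintype.ofFinite _
  have hφν : H26.fsIndicator φ.1 = 1 := by
    rw [H26.fsIndicator, ← hφ, finsum_eq_sum_of_fintype]
  have hφr : ∀ n : ↥N, (φ.1 n).im = 0 := by
    intro n
    by_contra hn
    have h0 := ((H26.fsIndicator_trichotomy φ).2).2 ⟨n, hn⟩
    rw [hφν] at h0
    exact one_ne_zero h0
  have hne : ∀ χ : Cfsg.IrrCharacter G,
      ((∑ᶠ n : ↥N, (χ : G → ℂ) n * (starRingEnd ℂ) ((φ : ↥N → ℂ) n)) ≠ 0 ↔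
        Cfsg.classInner (fun n : ↥N => χ.1 n) φ.1 ≠ 0) := by
    intro χ
    rw [Cfsg.classInner, finsum_eq_sum_of_fintype, mul_ne_zero_iff]
    simp [Nat.card_pos.ne']
  obtain ⟨χ, hχr, hχφ⟩ := H45.exists_real_over N hodd φ hφr
  have hsum := H45.sum_indicator_mult N hodd φ
  rw [Finset.sum_eq_single χ, hφν] at hsum
  · obtain ⟨m, hm⟩ := H26.exists_nat_classInner_irr
      (H26.isCharacter_comp (H26.irr_isCharacter χ) N.subtype) φ
    have hm' : Cfsg.classInner (fun n : ↥N => χ.1 n) φ.1 = (m : ℂ) := hm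
    have hν : H26.fsIndicator χ.1 = 1 := by
      rcases (H26.fsIndicator_trichotomy χ).1 with h | h | h
      · rw [h, zero_mul] at hsum
        exact absurd hsum zero_ne_one
      · exact h
      · rw [h, hm'] at hsum
        exfalso
        have h' := congrArg Complex.re hsum
        simp only [neg_one_mul, Complex.neg_re, Complex.natCast_re, Complex.one_re] at h'
        linarith [(Nat.cast_nonneg m : (0 : ℝ) ≤ m)]
    refine ⟨χ, ⟨?_, (hne χ).2 hχφ⟩, ?_⟩
    · rw [finsum_eq_sum_of_fintype]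
      exact hν
    · rintro ψ ⟨hψ, hψφ⟩
      refine H45.eq_of_real_over N hodd φ hφr (fun g => ?_) hχr ((hne ψ).1 hψφ) hχφ
      by_contra hg
      have h0 := ((H26.fsIndicator_trichotomy ψ).2).2 ⟨g, hg⟩
      rw [finsum_eq_sum_of_fintype] at hψ
      rw [H26.fsIndicator, hψ] at h0
      exact one_ne_zero h0
  · intro ψ _ hψ
    by_cases hreal : ∀ g, (ψ.1 g).im = 0
    · by_cases h0 : Cfsg.classInner (fun n : ↥N => ψ.1 n) φ.1 = 0
      · rw [h0, mul_zero]
      · exact absurd (H45.eq_of_real_over N hodd φ hφr hreal hχr h0 hχφ) hψ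
    · rw [((H26.fsIndicator_trichotomy ψ).2).2 (not_forall.1 hreal), zero_mul]
  · exact fun h => absurd (Finset.mem_univ _) h

end Cfsg.Agent.S4873
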