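import Cfsg.Statements.S4881
import Cfsg.Agent.H27.ThreeCl.Core
import Cfsg.Agent.H27.ThreeCl.Reduce
-- import your own Cfsg.Agent.* helpers here

set_option autoImplicit false
open Cfsg

namespace Cfsg.Agent.S4881

/-- Let p be a prime and G a finite p-solvable group with exactly three conjugacy classes of p-elements (counting the identity). Then twice the number of conjugacy classes of p-regular elements of G is at least p − 1, with equality if and only if p is odd, G has order p(p − 1)/2 and G embeds in the one-dimensional affine group over the field with p elements (so G is that group's subgroup of index 2: cyclic of order p extended by cyclic of order (p − 1)/2). -/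
theorem result {G : Type*} [Group G] [Finite G] (p : ℕ) [Fact p.Prime] (hsolv : Cfsg.IsPSolvable p G) (h3 : Nat.card {c : ConjClasses G // ∃ g : G, ConjClasses.mk g = c ∧ ∃ k : ℕ, orderOf g = p ^ k} = 3) : p - 1 ≤ 2 * Nat.card {c : ConjClasses G // ∃ g : G, ConjClasses.mk g = c ∧ ¬ p ∣ orderOf g} ∧ (2 * Nat.card {c : ConjClasses G // ∃ g : G, ConjClasses.mk g = c ∧ ¬ p ∣ orderOf g} = p - 1 ↔ (p ≠ 2 ∧ 2 * Nat.card G = p * (p - 1) ∧ ∃ f : G →* ↥(Cfsg.affineGroup (ZMod p)), Function.Injective f)) := by
  exact H27.ThreeCl.result_of_core p (fun V H _ _ _ _ _ ρ hρ hn => H27.ThreeCl.core hρ hn) hsolv h3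

end Cfsg.Agent.S4881
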