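import Cfsg.Statements.S4885
import Cfsg.Agent.H28.SeparatedKernels
import Cfsg.Agent.H32.PrincipalGalois
import Cfsg.Agent.H26.PrincipalRestrict
import Cfsg.Agent.H41.PrimeNormal
import Cfsg.Agent.S0915

set_option autoImplicit false
open Cfsg

namespace Cfsg.Agent.S4885

open QuotientGroup

theorem card_comap_mk {G : Type*} [Group G] (D : Subgroup G) [D.Normal] (A : Subgroup (G ⧸ D)) :
    Nat.card (A.comap (QuotientGroup.mk' D)) = Nat.card D * Nat.card A := by
  have hle : D ≤ A.comap (QuotientGroup.mk' D) := fun x hx => by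
    rw [Subgroup.mem_comap, QuotientGroup.mk'_apply, (QuotientGroup.eq_one_iff x).2 hx]
    exact one_mem _
  have h := Subgroup.relIndex_ker (QuotientGroup.mk' D) (K := A.comap (QuotientGroup.mk' D))
  rw [QuotientGroup.ker_mk', Subgroup.map_comap_eq_self_of_surjective
    (QuotientGroup.mk'_surjective D)] at h
  rw [← h, ← Nat.card_congr (Subgroup.subgroupOfEquivOfLe hle).toEquiv]
  exact (D.subgroupOf _).card_mul_index.symm

/-- One inclusion between the two sets of characters puts the `p`-core of `G ⧸ D` in its Frattini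
subgroup, where `D` is the meet of the two cores. -/
theorem pCore_le_frattini {G : Type*} [Group G] [Finite G] {p q : ℕ} [Fact p.Prime] [Fact q.Prime]
    (hpq : p ≠ q) (hps : Cfsg.IsPSolvable p G) {Mp Mq : Ideal Cfsg.AlgInt}
    (hMp : Cfsg.IsPModular p Mp) (hMq : Cfsg.IsPModular q Mq)
    (h : ∀ χ : Cfsg.IrrCharacter G, χ ∈ Cfsg.principalBlock Mp G →
      ¬ p ∣ Cfsg.charDegree (χ : G → ℂ) → χ ∈ Cfsg.principalBlock Mq G)
    (D : Subgroup G) [D.Normal] (hD : D = Cfsg.pPrimeCore p G ⊓ Cfsg.pPrimeCore q G) :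
    Cfsg.pCore p (G ⧸ D) ≤ frattini (G ⧸ D) := by
  classical
  have : Fintype G := Fintype.ofFinite G
  have hp : p.Prime := Fact.out
  set N := Cfsg.pPrimeCore p G with hN
  set K := Cfsg.pPrimeCore q G with hK
  have : N.Normal := H19.pPrimeCore_normal p G
  have : K.Normal := H19.pPrimeCore_normal q G
  have : Fintype K := Fintype.ofFinite K
  have : (Cfsg.pCore p (G ⧸ D)).Normal := H19.pCore_normal p _
  have hn : ¬ p ∣ Nat.card N := fun hd =>
    hp.coprime_iff_not_dvd.mp (H19.pPrimeCore_coprime p).symm hd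
  have hk : ¬ q ∣ Nat.card K := fun hd =>
    (Fact.out : q.Prime).coprime_iff_not_dvd.mp (H19.pPrimeCore_coprime q).symm hd
  obtain ⟨P⟩ : Nonempty (Sylow p G) := inferInstance
  -- the `p'`-degree characters of `G ⧸ N` are trivial on `K`
  have hker : ∀ ψ : Cfsg.IrrCharacter (G ⧸ N), ¬ p ∣ Cfsg.charDegree (ψ : G ⧸ N → ℂ) →
      K.map (QuotientGroup.mk' N) ≤ H44.kerOf ψ := by
    intro ψ hψ
    have : Fintype (G ⧸ N) := Fintype.ofFinite _
    have hmem : ψ ∈ Cfsg.principalBlock Mp (G ⧸ N) :=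
      S0915.result p Mp hMp (H84.isPSolvable_of_surjective _ (QuotientGroup.mk'_surjective N) hps)
        (H19.pPrimeCore_quotient_pPrimeCore p) (H26.oneIrr _) ψ
    have hd : Cfsg.charDegree (H44.inflate N ψ : G → ℂ) = Cfsg.charDegree (ψ : G ⧸ N → ℂ) := by
      apply Nat.cast_injective (R := ℂ)
      rw [H44.cast_charDegree, H44.cast_charDegree, H44.inflate_apply, QuotientGroup.mk_one]
    have hq' := h _ ((H32.mem_principalBlock_iff_inflate hMp N hn _).2 ⟨ψ, hmem, rfl⟩)
      (by rwa [hd])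
    have := hMq.2.1
    have hone := H41.eq_one_of_sameBlock K hMq hk (χ := H26.oneIrr G) hq' (fun _ _ => rfl)
    rintro _ ⟨x, hx, rfl⟩
    rw [H44.mem_kerOf]
    have h1 := hone x hx
    rw [H44.inflate_apply, H44.inflate_apply, QuotientGroup.mk_one] at h1
    exact h1
  -- hence `P ⊓ K` lies in the derived group of `P`
  have hPK : ∀ x : ↥(P : Subgroup G), (x : G) ∈ K → x ∈ commutator ↥(P : Subgroup G) := by
    intro x hx
    have hco : ((P.mapSurjective (QuotientGroup.mk'_surjective N) : Sylow p (G ⧸ N)) :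
        Subgroup (G ⧸ N)) = (P : Subgroup G).map (QuotientGroup.mk' N) :=
      Sylow.coe_mapSurjective _ _
    set P1 := P.mapSurjective (QuotientGroup.mk'_surjective N)
    let f : ↥(P : Subgroup G) →* ↥(P1 : Subgroup (G ⧸ N)) :=
      ((QuotientGroup.mk' N).comp (P : Subgroup G).subtype).codRestrict _
        (fun y => hco.ge ⟨y, y.2, rfl⟩)
    have hf : Function.Surjective f := fun y => by
      obtain ⟨z, hz, e⟩ := hco.le y.2
      exact ⟨⟨z, hz⟩, Subtype.ext e⟩
    have hinj : Function.Injective f := by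
      refine (injective_iff_map_eq_one f).2 fun y hy => ?_
      have hyN : (y : G) ∈ N := (QuotientGroup.eq_one_iff _).1 (congrArg Subtype.val hy)
      obtain ⟨k, hk'⟩ := P.2 y
      have h2 : (y : G) ^ Nat.card N = 1 :=
        congrArg Subtype.val (pow_card_eq_one' (x := (⟨y, hyN⟩ : N)))
      have h3 := pow_gcd_eq_one.mpr ⟨(congrArg Subtype.val hk' : (y : G) ^ p ^ k = 1), h2⟩
      rw [Nat.Coprime.pow_left k (hp.coprime_iff_not_dvd.mpr hn), pow_one] at h3
      exact Subtype.ext h3
    have hx1 : f x ∈ commutator ↥(P1 : Subgroup (G ⧸ N)) :=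
      H28.SepKer.mem_commutator_of_trivial P1 (K.map (QuotientGroup.mk' N)) hker (f x) ⟨x, hx, rfl⟩
    have hc : (commutator ↥(P : Subgroup G)).map f = commutator ↥(P1 : Subgroup (G ⧸ N)) := by
      rw [commutator_def, Subgroup.map_commutator, Subgroup.map_top_of_surjective f hf,
        ← commutator_def]
    rw [← hc] at hx1
    obtain ⟨z, hz, e⟩ := hx1
    exact hinj e ▸ hz
  set π := QuotientGroup.mk' D with hπ
  have hπs : Function.Surjective π := QuotientGroup.mk'_surjective D
  have hco : ((P.mapSurjective hπs : Sylow p (G ⧸ D)) : Subgroup (G ⧸ D)) = (P : Subgroup G).map π :=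
    Sylow.coe_mapSurjective _ _
  -- the preimage of the `p`-core lies in `K`
  have hAK : (Cfsg.pCore p (G ⧸ D)).comap π ≤ K := by
    obtain ⟨a, ha⟩ := (H19.pCore_isPGroup p (G := G ⧸ D)).exists_card_eq
    refine H19.le_pPrimeCore inferInstance ?_
    rw [card_comap_mk, ha]
    refine Nat.Coprime.mul_left ?_ (Nat.Coprime.pow_left a ((Nat.coprime_primes hp Fact.out).2 hpq))
    exact Nat.Coprime.coprime_dvd_left (Subgroup.card_dvd_of_le (hD.le.trans inf_le_right))
      (H19.pPrimeCore_coprime q)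
  set P2 := P.mapSurjective hπs
  refine H28.SepKer.le_frattini_of_le_commutator P2 _ (H19.pCore_le_sylow _) fun y hy => ?_
  let g : ↥(P : Subgroup G) →* ↥(P2 : Subgroup (G ⧸ D)) :=
    (π.comp (P : Subgroup G).subtype).codRestrict _ (fun z => hco.ge ⟨z, z.2, rfl⟩)
  obtain ⟨x, hx, e⟩ := hco.le y.2
  have hxK : x ∈ K := hAK (show π x ∈ Cfsg.pCore p (G ⧸ D) from e ▸ hy)
  have hyx : y = g ⟨x, hx⟩ := Subtype.ext e.symm
  rw [hyx]
  have := Subgroup.mem_map_of_mem g (hPK ⟨x, hx⟩ hxK)
  rw [commutator_def, Subgroup.map_commutator] at this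
  exact Subgroup.commutator_mono le_top le_top this

/-- Let p and q be primes dividing the order of the finite group G, and suppose G is p-solvable and q-solvable. Fix maximal ideals of the algebraic integers containing p and q, defining the principal p-block and the principal q-block. If the irreducible characters of degree prime to p in the principal p-block are exactly the irreducible characters of degree prime to q in the principal q-block, then p = q. -/
theorem result {G : Type*} [Group G] [Finite G] (p q : ℕ) [Fact p.Prime] [Fact q.Prime] (hp : p ∣ Nat.card G) (hq : q ∣ Nat.card G) (hps : Cfsg.IsPSolvable p G) (hqs : Cfsg.IsPSolvable q G) (Mp Mq : Ideal Cfsg.AlgInt) (hMp : Cfsg.IsPModular p Mp) (hMq : Cfsg.IsPModular q Mq) (h : ∀ χ : Cfsg.IrrCharacter G, (χ ∈ Cfsg.principalBlock Mp G ∧ ¬ p ∣ Cfsg.charDegree (χ : G → ℂ)) ↔ (χ ∈ Cfsg.principalBlock Mq G ∧ ¬ q ∣ Cfsg.charDegree (χ : G → ℂ))) : p = q := by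
  classical
  by_contra hpq
  set D := Cfsg.pPrimeCore p G ⊓ Cfsg.pPrimeCore q G with hD
  have : (Cfsg.pPrimeCore p G).Normal := H19.pPrimeCore_normal p G
  have : (Cfsg.pPrimeCore q G).Normal := H19.pPrimeCore_normal q G
  have : D.Normal := Subgroup.normal_inf_normal _ _
  have hπ : Function.Surjective (QuotientGroup.mk' D) := QuotientGroup.mk'_surjective D
  have h1 : ∀ A : Subgroup (G ⧸ D), A.Normal → ¬ p ∣ Nat.card A → ¬ q ∣ Nat.card A → A = ⊥ := by
    intro A hA hAp hAq
    have hc : ∀ {r : ℕ} [Fact r.Prime], D ≤ Cfsg.pPrimeCore r G → ¬ r ∣ Nat.card A →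
        A.comap (QuotientGroup.mk' D) ≤ Cfsg.pPrimeCore r G := by
      intro r hr hDr hAr
      refine H19.le_pPrimeCore inferInstance ?_
      rw [card_comap_mk]
      exact Nat.Coprime.mul_left
        (Nat.Coprime.coprime_dvd_left (Subgroup.card_dvd_of_le hDr) (H19.pPrimeCore_coprime r))
        ((Nat.Prime.coprime_iff_not_dvd hr.out).2 hAr).symm
    refine eq_bot_iff.2 fun y hy => ?_
    obtain ⟨x, rfl⟩ := hπ y
    exact (QuotientGroup.eq_one_iff x).2 ⟨hc inf_le_left hAp hy, hc inf_le_right hAq hy⟩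
  have hsub := H28.SepKer.subsingleton_of_cores_le_frattini (G := G ⧸ D) hpq
    (H84.isPSolvable_of_surjective _ hπ hps) (H84.isPSolvable_of_surjective _ hπ hqs) h1
    (pCore_le_frattini hpq hps hMp hMq (fun χ h1 h2 => ((h χ).1 ⟨h1, h2⟩).1) D hD)
    (pCore_le_frattini (Ne.symm hpq) hqs hMq hMp (fun χ h1 h2 => ((h χ).2 ⟨h1, h2⟩).1) D
      (hD.trans (inf_comm _ _)))
  have htop : D = ⊤ := top_unique fun x _ =>
    (QuotientGroup.eq_one_iff x).1 (Subsingleton.elim _ _)
  have hN : Nat.card G ∣ Nat.card (Cfsg.pPrimeCore p G) := by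
    rw [show Cfsg.pPrimeCore p G = ⊤ from top_unique (htop.ge.trans inf_le_left)]
    rw [Subgroup.card_top]
  exact (Nat.Prime.coprime_iff_not_dvd Fact.out).1 (H19.pPrimeCore_coprime p).symm (hp.trans hN)

end Cfsg.Agent.S4885
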