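import Cfsg.Statements.S4886
import Cfsg.Statements.S4886
import Cfsg.Agent.H43.CrossCoprime
import Cfsg.Agent.H43.SylowNormalizes
import Cfsg.Agent.H32.PrincipalGalois
import Cfsg.Agent.S0915

set_option autoImplicit false
open Cfsg

namespace Cfsg.Agent.S4886

theorem pPrime_index_iff {G : Type*} [Group G] [Finite G] (p q : ℕ) [Fact p.Prime] [Fact q.Prime]
    (hpq : p ≠ q) (Mp : Ideal Cfsg.AlgInt) (hMp : Cfsg.IsPModular p Mp) (hps : Cfsg.IsPSolvable p G)
    (hqs : Cfsg.IsPSolvable q G) :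
    (∀ χ : Cfsg.IrrCharacter G, χ ∈ Cfsg.principalBlock Mp G →
      ¬ p ∣ Cfsg.charDegree (χ : G → ℂ) → ¬ q ∣ Cfsg.charDegree (χ : G → ℂ)) ↔
      ¬ q ∣ (Cfsg.pPrimeCore p G).index := by
  classical
  haveI := Fintype.ofFinite G
  set N := Cfsg.pPrimeCore p G
  haveI : N.Normal := H19.pPrimeCore_normal p G
  haveI := Fintype.ofFinite (G ⧸ N)
  have hn : ¬ p ∣ Nat.card N := fun hd =>
    (Fact.out : p.Prime).coprime_iff_not_dvd.mp (H19.pPrimeCore_coprime p).symm hd
  have hps' := H84.isPSolvable_of_surjective _ (QuotientGroup.mk'_surjective N) hps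
  constructor
  · intro h
    have := H43.not_dvd_index_of_degrees hpq _ (G := G ⧸ N) rfl hps'
      (H84.isPSolvable_of_surjective _ (QuotientGroup.mk'_surjective N) hqs) fun ψ hψ => by
        have hmem : ψ ∈ Cfsg.principalBlock Mp (G ⧸ N) :=
          S0915.result p Mp hMp hps' (H19.pPrimeCore_quotient_pPrimeCore p) (H26.oneIrr _) ψ
        rw [← H44.charDegree_inflate N ψ] at hψ ⊢
        exact h _ ((H32.mem_principalBlock_iff_inflate hMp N hn _).2 ⟨ψ, hmem, rfl⟩) hψ
    rwa [H19.pPrimeCore_quotient_pPrimeCore, Subgroup.index_bot, ← Subgroup.index_eq_card] at this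
  · intro h χ hχ _ hd
    obtain ⟨ψ, -, rfl⟩ := (H32.mem_principalBlock_iff_inflate hMp N hn χ).1 hχ
    rw [H44.charDegree_inflate] at hd
    rw [Subgroup.index_eq_card] at h
    exact h (hd.trans (H44.charDegree_dvd_card ψ))

/-- Let p ≠ q be primes and G a finite group that is p-solvable and q-solvable. Fix maximal ideals of the algebraic integers containing p and q, defining the principal p-block and the principal q-block. Then every irreducible character of degree prime to p in the principal p-block has degree prime to q and every irreducible character of degree prime to q in the principal q-block has degree prime to p, if and only if some Sylow p-subgroup of G commutes elementwise with some Sylow q-subgroup. -/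
theorem result {G : Type*} [Group G] [Finite G] (p q : ℕ) [Fact p.Prime] [Fact q.Prime] (hpq : p ≠ q) (Mp Mq : Ideal Cfsg.AlgInt) (hMp : Cfsg.IsPModular p Mp) (hMq : Cfsg.IsPModular q Mq) (hps : Cfsg.IsPSolvable p G) (hqs : Cfsg.IsPSolvable q G) : ((∀ χ : Cfsg.IrrCharacter G, χ ∈ Cfsg.principalBlock Mp G → ¬ p ∣ Cfsg.charDegree (χ : G → ℂ) → ¬ q ∣ Cfsg.charDegree (χ : G → ℂ)) ∧ (∀ χ : Cfsg.IrrCharacter G, χ ∈ Cfsg.principalBlock Mq G → ¬ q ∣ Cfsg.charDegree (χ : G → ℂ) → ¬ p ∣ Cfsg.charDegree (χ : G → ℂ))) ↔ ∃ (P : Sylow p G) (Q : Sylow q G), ∀ x ∈ (P : Subgroup G), ∀ y ∈ (Q : Subgroup G), x * y = y * x := by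
  rw [pPrime_index_iff p q hpq Mp hMp hps hqs, pPrime_index_iff q p hpq.symm Mq hMq hqs hps]
  constructor
  · rintro ⟨hK, hL⟩
    haveI hKn := H19.pPrimeCore_normal p G
    haveI hLn := H19.pPrimeCore_normal q G
    obtain ⟨P, Q, hPQ⟩ := H43.sylowNormalizes_of_not_dvd (G := G) hpq hK
    refine ⟨P, Q, fun x hx y hy => ?_⟩
    obtain ⟨k, hk⟩ := P.2.exists_card_eq
    obtain ⟨j, hj⟩ := Q.2.exists_card_eq
    have hxL : x ∈ Cfsg.pPrimeCore q G := by
      refine H59.mem_of_normal_index_coprime (p := p) (k := k) hL ?_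
      rw [← hk]
      exact congrArg Subtype.val (pow_card_eq_one' (x := (⟨x, hx⟩ : (P : Subgroup G))))
    set c := x * y * x⁻¹ * y⁻¹ with hc
    have hcQ : c ∈ (Q : Subgroup G) :=
      Subgroup.mul_mem _ ((Subgroup.mem_normalizer_iff.mp (hPQ hx) y).mp hy) (Subgroup.inv_mem _ hy)
    have hcL : c ∈ Cfsg.pPrimeCore q G := by
      rw [hc, show x * y * x⁻¹ * y⁻¹ = x * (y * x⁻¹ * y⁻¹) by group]
      exact Subgroup.mul_mem _ hxL (hLn.conj_mem _ (Subgroup.inv_mem _ hxL) y)
    have h1 : orderOf c = 1 := by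
      refine Nat.eq_one_of_dvd_coprimes (a := q ^ j)
        (b := Nat.card (Cfsg.pPrimeCore q G)) ?_ ?_ (Subgroup.orderOf_dvd_natCard _ hcL)
      · exact ((H19.pPrimeCore_coprime (G := G) q).symm).pow_left j
      · rw [← hj]; exact Subgroup.orderOf_dvd_natCard _ hcQ
    have h2 : c = 1 := orderOf_eq_one_iff.mp h1
    rw [hc, mul_inv_eq_one] at h2
    exact mul_inv_eq_iff_eq_mul.mp h2
  · rintro ⟨P, Q, h⟩
    refine ⟨H43.not_dvd_of_sylowNormalizes hpq hps ⟨P, Q, fun x hx => ?_⟩,
      H43.not_dvd_of_sylowNormalizes hpq.symm hqs ⟨Q, P, fun y hy => ?_⟩⟩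
    · refine H43.mem_normalizer_of_conj_mem fun y hy => ?_
      rw [h x hx y hy, mul_inv_cancel_right]
      exact hy
    · refine H43.mem_normalizer_of_conj_mem fun x hx => ?_
      rw [← h x hx y hy, mul_inv_cancel_right]
      exact hx

end Cfsg.Agent.S4886
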