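import Cfsg.Statements.S4888
import Cfsg.Agent.H42.SameDegree
import Cfsg.Agent.H44.Codegree
import Cfsg.Agent.H41.PrimeNormal
-- import your own Cfsg.Agent.* helpers here

set_option autoImplicit false
open Cfsg

namespace Cfsg.Agent.S4888

/-- Let G be a finite group, p a prime and M a maximal ideal of the algebraic integers containing p. Then all height-zero irreducible characters of the principal p-block of G (equivalently, all its characters of degree prime to p) have the same degree if and only if G has a normal p-complement. -/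
theorem result {G : Type*} [Group G] [Finite G] (p : ℕ) [Fact p.Prime] (M : Ideal Cfsg.AlgInt) (hM : Cfsg.IsPModular p M) : (∃ d : ℕ, ∀ χ : Cfsg.IrrCharacter G, χ ∈ (Cfsg.principalBlock M G) → Cfsg.blockHeight p (Cfsg.principalBlock M G) (χ : G → ℂ) = 0 → Cfsg.charDegree (χ : G → ℂ) = d) ↔ Cfsg.HasNormalPComplement p G := by
  classical
  have := hM.2.1
  have := Fintype.ofFinite G
  have hp : p.Prime := Fact.out
  have hB := Cfsg.Agent.H26.isPBlock_principalBlock (M := M) G
  have h1 := Cfsg.Agent.H26.oneIrr_mem_principalBlock (M := M) G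
  have hd1 : Cfsg.charDegree ((Cfsg.Agent.H26.oneIrr G : Cfsg.IrrCharacter G) : G → ℂ) = 1 :=
    Cfsg.Agent.H44.charDegree_oneIrr
  have hs : sInf ((fun χ : Cfsg.IrrCharacter G => (Cfsg.charDegree (χ : G → ℂ)).factorization p) ''
      Cfsg.principalBlock M G) = 0 :=
    Nat.sInf_eq_zero.2 (Or.inl ⟨_, h1, by simp [hd1]⟩)
  have hh : ∀ χ : Cfsg.IrrCharacter G,
      Cfsg.blockHeight p (Cfsg.principalBlock M G) (χ : G → ℂ) = 0 ↔
        (Cfsg.charDegree (χ : G → ℂ)).factorization p = 0 := fun χ => by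
    rw [Cfsg.blockHeight, hs, Nat.sub_zero]
  constructor
  · rintro ⟨d, hd⟩
    refine Cfsg.Agent.H42.hasNormalPComplement_of_linear hM fun χ hχ hnd => ?_
    rw [hd χ hχ ((hh χ).2 (Nat.factorization_eq_zero_of_not_dvd hnd)),
      ← hd _ h1 ((hh _).2 (by simp [hd1])), hd1]
  · rintro ⟨P, N, hN, hc⟩
    refine ⟨1, fun χ hχ h0 => ?_⟩
    have hnN : ¬ p ∣ Nat.card N := by
      rw [← hc.index_eq_card]
      exact P.not_dvd_index
    have hker := Cfsg.Agent.H41.eq_one_of_sameBlock (N := N) hM hnN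
      (χ := Cfsg.Agent.H26.oneIrr G) (ψ := χ) (by exact hχ)
      (fun n _ => by simp [Cfsg.Agent.H26.oneIrr_val])
    obtain ⟨K, hK, ψ, hKe, hψ, -, -⟩ := Cfsg.Agent.H44.exists_deflate χ
    have hNK : N ≤ K := by
      rw [hKe]
      exact fun n hn => Cfsg.Agent.H44.mem_kerOf.2 (hker n hn)
    have hdv : Cfsg.charDegree (χ : G → ℂ) ∣ Nat.card (P : Subgroup G) := by
      rw [← hψ, Cfsg.Agent.H44.charDegree_inflate, ← hc.symm.index_eq_card]
      exact (Cfsg.Agent.H44.charDegree_dvd_card ψ).trans (Subgroup.index_dvd_of_le hNK)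
    obtain ⟨k, hk⟩ := IsPGroup.iff_card.1 P.2
    rw [hk] at hdv
    obtain ⟨i, -, hi⟩ := (Nat.dvd_prime_pow hp).1 hdv
    have h := (hh χ).1 h0
    rw [hi, hp.factorization_pow, Finsupp.single_eq_same] at h
    rw [hi, h, pow_zero]

end Cfsg.Agent.S4888
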