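import Cfsg.Statements.S4890
import Cfsg.Agent.H31.NormalDefectDegrees.Main
import Cfsg.Agent.H40.StarIntComb
import Cfsg.Agent.H40.Defect
import Cfsg.Agent.H43.CharTools

set_option autoImplicit false
open Cfsg

namespace Cfsg.Agent.S4890

/-- Let G be a finite group, p a prime, M a maximal ideal of the algebraic integers containing p, and B a p-block of G with a defect group that is normal in G. Then all height-zero irreducible characters of B have the same degree if and only if B is a nilpotent block. -/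
theorem result {G : Type*} [Group G] [Finite G] (p : ℕ) [Fact p.Prime] (M : Ideal Cfsg.AlgInt) (hM : Cfsg.IsPModular p M) (B : Set (Cfsg.IrrCharacter G)) (hB : Cfsg.IsPBlock M B) (D : Subgroup G) (hD : Cfsg.IsDefectGroup p M B D) (hDn : D.Normal) : (∃ d : ℕ, ∀ χ : Cfsg.IrrCharacter G, χ ∈ B → Cfsg.blockHeight p B (χ : G → ℂ) = 0 → Cfsg.charDegree (χ : G → ℂ) = d) ↔ Cfsg.IsNilpotentBlock p M B := by
  classical
  have := Fintype.ofFinite G
  have := hM.2.1
  constructor
  · rintro ⟨d, hd⟩
    exact H31.NormalDefectDegrees.isNilpotentBlock_of_equal_degrees hM hB hD hd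
  · intro hnil
    have := H41.IsPModular.charP hM
    obtain ⟨e, hm⟩ := H40.NilpotentBlocks.exists_isMaxEl_of_defect hM hB hD
    have : Fintype D := Fintype.ofFinite D
    obtain ⟨χ, hχ, h0, -⟩ := H42.exists_height_zero (p := p) hB
    obtain ⟨Φ, hreg, hht⟩ := H40.NilpotentBlocks.exists_equiv hnil hm
      (H40.NilpotentBlocks.starInt hM hB hm) hM hD hχ h0
    refine ⟨Cfsg.charDegree (χ : G → ℂ), fun ψ hψ hψ0 => ?_⟩
    have h1 := hreg ⟨ψ, hψ⟩ 1 (by rw [orderOf_one]; exact (Fact.out : p.Prime).not_dvd_one)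
    have h2 := hht ⟨ψ, hψ⟩
    obtain ⟨r, hr⟩ := IsPGroup.iff_card.1 hm.pair.pGroup
    have hdvd := H43.irr_charDegree_dvd (Φ ⟨ψ, hψ⟩)
    rw [hr] at hdvd
    obtain ⟨i, -, hi⟩ := (Nat.dvd_prime_pow (Fact.out : p.Prime)).1 hdvd
    simp only [hψ0] at h2
    rw [hi, (Fact.out : p.Prime).factorization_pow, Finsupp.single_eq_same] at h2
    simp only [hi, ← h2, pow_zero, Nat.cast_one, one_mul, H42.irr_one_eq] at h1
    exact Nat.cast_injective h1

end Cfsg.Agent.S4890
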