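import Cfsg.Statements.S4911
import Cfsg.Agent.H43.SubgroupAction
import Cfsg.Agent.H26.CharFS
-- import your own Cfsg.Agent.* helpers here

set_option autoImplicit false
open Cfsg

namespace Cfsg.Agent.S4911

/-- Let P and K be subgroups of a finite group with P a p-group normalizing K and K of order prime to p. Then the number of P-invariant real-valued irreducible complex characters of K equals the number of conjugacy classes of K that are real (closed under inversion) and P-invariant. Moreover, if every real-valued irreducible character of K is P-invariant, then every real element of K (one conjugate in K to its inverse) is conjugate in K to an element centralized by P. -/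
theorem result {G : Type*} [Group G] [Finite G] (p : ℕ) [Fact p.Prime] (P K : Subgroup G) (hP : IsPGroup p ↥P) (hK : ¬ p ∣ Nat.card ↥K) (hPK : P ≤ Subgroup.normalizer (K : Set G)) : Nat.card {θ : Cfsg.IrrCharacter ↥K // (∀ k : ↥K, ((θ : ↥K → ℂ) k).im = 0) ∧ (∀ x ∈ P, ∀ k k' : ↥K, (k' : G) = x * (k : G) * x⁻¹ → (θ : ↥K → ℂ) k' = (θ : ↥K → ℂ) k)} = Nat.card {c : ConjClasses ↥K // (∀ k : ↥K, ConjClasses.mk k = c → IsConj k k⁻¹) ∧ ∀ k : ↥K, ConjClasses.mk k = c → ∀ x ∈ P, ∀ k' : ↥K, (k' : G) = x * (k : G) * x⁻¹ → ConjClasses.mk k' = c} ∧ ((∀ θ : Cfsg.IrrCharacter ↥K, (∀ k : ↥K, ((θ : ↥K → ℂ) k).im = 0) → (∀ x ∈ P, ∀ k k' : ↥K, (k' : G) = x * (k : G) * x⁻¹ → (θ : ↥K → ℂ) k' = (θ : ↥K → ℂ) k)) → ∀ k : ↥K, IsConj k k⁻¹ → ∃ k' : ↥K, IsConj k k' ∧ ∀ x ∈ P, x * (k' : G) * x⁻¹ = (k' : G)) := by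
  classical
  have := Fintype.ofFinite G
  have : Fintype ↥K := Fintype.ofFinite _
  have hp : p.Prime := Fact.out
  have hnorm : ∀ s ∈ P, ∀ g ∈ K, s * g * s⁻¹ ∈ K := fun s hs g hg =>
    (Subgroup.mem_normalizer_iff.1 (hPK hs) g).1 hg
  set C : Subgroup G := K ⊓ Subgroup.centralizer (P : Set G) with hCdef
  have : Fintype ↥C := Fintype.ofFinite _
  have hd := H43.glaubermanData_of_subgroup K P hnorm hp hP hK C hCdef inf_le_left
  set φ := H43.conjHom K P hnorm
  set ι : ↥C →* ↥K := Subgroup.inclusion inf_le_left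
  have hinv : ∀ θ : Cfsg.IrrCharacter ↥K, H43.InvFun φ θ.1 ↔
      ∀ x ∈ P, ∀ k k' : ↥K, (k' : G) = x * (k : G) * x⁻¹ → θ.1 k' = θ.1 k := fun θ =>
    H43.invFun_conjHom_iff K P hnorm θ.1
  have hm : ∀ (θ : Cfsg.IrrCharacter ↥K) (b : Cfsg.IrrCharacter ↥C),
      H43.resMult ι (H26.conjIrr θ) (H26.conjIrr b) = H43.resMult ι θ b := by
    intro θ b
    apply Nat.cast_injective (R := ℂ)
    simp only [H43.resMult]
    rw [← H43.classInner_eq_mult (H43.isCharacter_res (H26.conjIrr θ)) (H26.conjIrr b),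
      ← Complex.conj_natCast (H43.mult (fun c => θ.1 (ι c)) b),
      ← H43.classInner_eq_mult (H43.isCharacter_res θ) b]
    simp only [Cfsg.classInner, map_mul, map_inv₀, Complex.conj_natCast, map_sum,
      H26.conjIrr_val]
  let β : {θ : Cfsg.IrrCharacter ↥K // H43.InvFun φ θ.1} → Cfsg.IrrCharacter ↥C := fun θ =>
    (hd.existsUnique θ.1 θ.2).exists.choose
  have hβ : ∀ θ, ¬ p ∣ H43.resMult ι θ.1 (β θ) := fun θ =>
    (hd.existsUnique θ.1 θ.2).exists.choose_spec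
  have hconjinv : ∀ θ : Cfsg.IrrCharacter ↥K, H43.InvFun φ θ.1 →
      H43.InvFun φ (H26.conjIrr θ).1 := fun θ h s g => by
    rw [H26.conjIrr_val, H26.conjIrr_val, h]
  let real := fun χ : Cfsg.IrrCharacter ↥K => H26.conjIrr χ = χ
  have hcardirr : Nat.card {θ : Cfsg.IrrCharacter ↥K //
      (∀ k : ↥K, (θ.1 k).im = 0) ∧ H43.InvFun φ θ.1} =
        Nat.card {b : Cfsg.IrrCharacter ↥C // ∀ c, (b.1 c).im = 0} := by
    have hr : ∀ θ : {θ : Cfsg.IrrCharacter ↥K // H43.InvFun φ θ.1},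
        (∀ k, (θ.1.1 k).im = 0) ↔ ∀ c, ((β θ).1 c).im = 0 := by
      intro θ
      simp only [← H26.conjIrr_eq_self_iff]
      constructor
      · intro h
        refine (hd.existsUnique θ.1 θ.2).unique ?_ (hβ θ)
        have h1 := hβ θ
        rw [← hm, h] at h1
        exact h1
      · intro h
        by_contra hne
        have h1 := hβ θ
        rw [← hm, h] at h1
        exact ((hd.disjoint (hconjinv θ.1 θ.2) θ.2 hne (β θ)).resolve_left h1 |> hβ θ)
    refine Nat.card_eq_of_bijective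
      (fun θ => ⟨β ⟨θ.1, θ.2.2⟩, (hr ⟨θ.1, θ.2.2⟩).1 θ.2.1⟩) ⟨?_, ?_⟩
    · intro a b hab
      simp only [Subtype.mk.injEq] at hab
      by_contra hne
      have h := hd.disjoint a.2.2 b.2.2 (fun e => hne (Subtype.ext e)) (β ⟨a.1, a.2.2⟩)
      rcases h with h | h
      · exact hβ ⟨a.1, a.2.2⟩ h
      · rw [hab] at h
        exact hβ ⟨b.1, b.2.2⟩ h
    · rintro ⟨b, hb⟩
      obtain ⟨θ, hθ, hθb⟩ := hd.exists_of_res b
      have e : β ⟨θ, hθ⟩ = b := (hd.existsUnique θ hθ).unique (hβ ⟨θ, hθ⟩) hθb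
      refine ⟨⟨θ, (hr ⟨θ, hθ⟩).2 (by rw [e]; exact hb), hθ⟩, Subtype.ext ?_⟩
      exact e
  let IC : ConjClasses ↥K → Prop := fun c => ∀ k : ↥K, ConjClasses.mk k = c → ∀ x ∈ P, ∀ k' : ↥K,
    (k' : G) = x * (k : G) * x⁻¹ → ConjClasses.mk k' = c
  let RC : ConjClasses ↥K → Prop := fun c => ∀ k : ↥K, ConjClasses.mk k = c → IsConj k k⁻¹
  have hIC : ∀ c : ↥C, IC (ConjClasses.mk (ι c)) := by
    intro c k hk x hx k' hk'
    have e : k' = φ ⟨x, hx⟩ k := Subtype.ext hk'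
    rw [e, ← hk]
    refine ConjClasses.mk_eq_mk_iff_isConj.2 ?_
    have h1 := ConjClasses.mk_eq_mk_iff_isConj.1 hk
    have h2 := (φ ⟨x, hx⟩).toMonoidHom.map_isConj h1
    simp only [MulEquiv.coe_toMonoidHom, hd.fixed_apply] at h2
    exact h2.trans h1.symm
  have hcardcls : Nat.card {b : ConjClasses ↥C // ∀ c, ConjClasses.mk c = b → IsConj c c⁻¹} =
      Nat.card {c : ConjClasses ↥K // RC c ∧ IC c} := by
    refine Nat.card_eq_of_bijective (fun b => ⟨ConjClasses.map ι b.1, ?_⟩) ⟨?_, ?_⟩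
    · obtain ⟨c, hc⟩ := ConjClasses.exists_rep b.1
      rw [← hc]
      refine ⟨fun k hk => ?_, hIC c⟩
      have h1 : IsConj (ι c) (ι c)⁻¹ := by
        rw [← map_inv]
        exact ι.map_isConj (b.2 c hc)
      obtain ⟨u, hu⟩ := isConj_iff.1 (ConjClasses.mk_eq_mk_iff_isConj.1 hk)
      have h2 : IsConj k⁻¹ (ι c)⁻¹ := isConj_iff.2 ⟨u, by rw [← hu]; group⟩
      exact (ConjClasses.mk_eq_mk_iff_isConj.1 hk).trans (h1.trans h2.symm)
    · intro a b hab
      simp only [Subtype.mk.injEq] at hab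
      obtain ⟨x, hx⟩ := ConjClasses.exists_rep a.1
      obtain ⟨y, hy⟩ := ConjClasses.exists_rep b.1
      rw [← hx, ← hy] at hab
      apply Subtype.ext
      rw [← hx, ← hy]
      exact ConjClasses.mk_eq_mk_iff_isConj.2
        (hd.isConj_of_isConj (ConjClasses.mk_eq_mk_iff_isConj.1 hab))
    · rintro ⟨c, hrc, hic⟩
      obtain ⟨k, rfl⟩ := ConjClasses.exists_rep c
      obtain ⟨d, hd'⟩ := hd.exists_isConj (g := k) fun s =>
        (ConjClasses.mk_eq_mk_iff_isConj.1 (hic k rfl s s.2 (φ s k) rfl)).symm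
      refine ⟨⟨ConjClasses.mk d, fun x hx => ?_⟩,
        Subtype.ext (ConjClasses.mk_eq_mk_iff_isConj.2 hd'.symm)⟩
      refine hd.isConj_of_isConj ?_
      rw [map_inv]
      refine hrc _ (ConjClasses.mk_eq_mk_iff_isConj.2 ?_)
      exact (ι.map_isConj (ConjClasses.mk_eq_mk_iff_isConj.1 hx)).trans hd'.symm
  have hmain : Nat.card {θ : Cfsg.IrrCharacter ↥K // (∀ k : ↥K, (θ.1 k).im = 0) ∧
      ∀ x ∈ P, ∀ k k' : ↥K, (k' : G) = x * (k : G) * x⁻¹ → θ.1 k' = θ.1 k} =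
        Nat.card {c : ConjClasses ↥K // RC c ∧ IC c} := by
    rw [← hcardcls, ← H26.card_real_irr_eq_card_real_classes, ← hcardirr]
    exact Nat.card_congr (Equiv.subtypeEquivRight fun θ => and_congr_right fun _ => (hinv θ).symm)
  refine ⟨hmain, fun hall k hk => ?_⟩
  have hi : Function.Injective (fun c : {c : ConjClasses ↥K // RC c ∧ IC c} =>
      (⟨c.1, c.2.1⟩ : {c : ConjClasses ↥K // RC c})) := fun a b hab =>
    Subtype.ext (Subtype.mk.inj hab)
  have hsurj := (Function.Injective.bijective_of_nat_card_le hi (by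
    rw [← hmain]
    refine le_of_eq ((H26.card_real_irr_eq_card_real_classes (G := ↥K)).symm.trans ?_)
    exact Nat.card_congr (Equiv.subtypeEquivRight fun θ =>
      ⟨fun h => ⟨h, hall θ h⟩, fun h => h.1⟩))).surjective
  have hrk : RC (ConjClasses.mk k) := by
    intro k₁ hk₁
    have h1 := ConjClasses.mk_eq_mk_iff_isConj.1 hk₁
    obtain ⟨u, hu⟩ := isConj_iff.1 h1
    exact h1.trans (hk.trans (isConj_iff.2 ⟨u, by rw [← hu]; group⟩ : IsConj k₁⁻¹ k⁻¹).symm)
  obtain ⟨cc, hc⟩ := hsurj ⟨ConjClasses.mk k, hrk⟩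
  obtain ⟨c, hcr, hic⟩ := cc
  have hc' : c = ConjClasses.mk k := congrArg Subtype.val hc
  obtain ⟨d, hd'⟩ := hd.exists_isConj (g := k) fun s =>
    (ConjClasses.mk_eq_mk_iff_isConj.1 ((hic k hc'.symm s s.2 (φ s k) rfl).trans hc')).symm
  exact ⟨ι d, hd', fun x hx => congrArg Subtype.val (hd.fixed_apply ⟨x, hx⟩ d)⟩

end Cfsg.Agent.S4911
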