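import Cfsg.Statements.S4916
import Cfsg.Agent.H42.Bounds
import Cfsg.Agent.H42.BlockSpan
import Cfsg.Agent.H26.PrincipalRestrict
-- import your own Cfsg.Agent.* helpers here

set_option autoImplicit false
open Cfsg

namespace Cfsg.Agent.S4916

/-- Let G be a finite group, p a prime and M a maximal ideal of the algebraic integers containing p. Then the principal character is the only irreducible character of degree prime to p in the principal p-block of G if and only if p does not divide the order of G. -/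
theorem result {G : Type*} [Group G] [Finite G] (p : ℕ) [Fact p.Prime] (M : Ideal Cfsg.AlgInt) (hM : Cfsg.IsPModular p M) : (∀ χ : Cfsg.IrrCharacter G, χ ∈ Cfsg.principalBlock M G → ¬ p ∣ Cfsg.charDegree (χ : G → ℂ) → (χ : G → ℂ) = fun _ => (1 : ℂ)) ↔ ¬ p ∣ Nat.card G := by
  classical
  have := hM.2.1
  have := Fintype.ofFinite G
  have hB := Cfsg.Agent.H26.isPBlock_principalBlock (M := M) G
  have h1 := Cfsg.Agent.H26.oneIrr_mem_principalBlock (M := M) G
  set o := Cfsg.Agent.H26.oneIrr G with ho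
  have hd1 : Cfsg.charDegree (o : G → ℂ) = 1 :=
    Cfsg.Agent.H42.charDegree_of_eq_nat (n := 1) (by rw [ho, Cfsg.Agent.H26.oneIrr_val, Nat.cast_one])
  have hinf : sInf ((fun χ : Cfsg.IrrCharacter G => (Cfsg.charDegree (χ : G → ℂ)).factorization p) ''
      Cfsg.principalBlock M G) = 0 :=
    Nat.sInf_eq_zero.2 (Or.inl ⟨o, h1, by simp [hd1]⟩)
  have hdef : Cfsg.blockDefect p (Cfsg.principalBlock M G) = (Nat.card G).factorization p := by
    rw [Cfsg.blockDefect, hinf, Nat.sub_zero]
  refine ⟨fun h hp => ?_, fun hp χ hχ _ => ?_⟩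
  · have hf := Cfsg.Agent.H42.factorization_sum_sq_degree hM hB
    rw [hdef] at hf
    have ha : 0 < (Nat.card G).factorization p :=
      Nat.Prime.factorization_pos_of_dvd Fact.out Nat.card_pos.ne' hp
    set S := ∑ χ ∈ Cfsg.Agent.H42.blockFinset (Cfsg.principalBlock M G),
      Cfsg.charDegree (χ : G → ℂ) ^ 2 with hS
    have hpS : p ∣ S := Nat.dvd_of_factorization_pos (by omega)
    rw [hS, ← Finset.add_sum_erase _ _ (Cfsg.Agent.H42.mem_blockFinset.2 h1), hd1, one_pow] at hpS
    refine (Fact.out : p.Prime).not_dvd_one ((Nat.dvd_add_left (Finset.dvd_sum fun χ hχ => ?_)).1 hpS)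
    obtain ⟨hne, hm⟩ := Finset.mem_erase.1 hχ
    refine dvd_pow (by_contra fun hn => hne (Subtype.ext ?_)) two_ne_zero
    rw [h χ (Cfsg.Agent.H42.mem_blockFinset.1 hm) hn, ho]
    rfl
  · have h := Cfsg.Agent.H42.four_mul_sum_pow_height_le hM hB h1
      (by rw [Cfsg.blockHeight, hinf, hd1]; simp)
    rw [hdef, Nat.factorization_eq_zero_of_not_dvd hp, mul_zero, pow_zero] at h
    by_contra hne
    have hχo : χ ≠ o := fun e => hne (by rw [e, ho]; rfl)
    have hle := Finset.single_le_sum (f := fun ξ : Cfsg.IrrCharacter G =>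
      p ^ (2 * Cfsg.blockHeight p (Cfsg.principalBlock M G) (ξ : G → ℂ)))
      (fun _ _ => Nat.zero_le _)
      (Finset.mem_erase.2 ⟨hχo, Cfsg.Agent.H42.mem_blockFinset.2 hχ⟩)
    have := Nat.one_le_pow (2 * Cfsg.blockHeight p (Cfsg.principalBlock M G) (χ : G → ℂ)) p
      (Fact.out : p.Prime).pos
    have h4 := Nat.mul_le_mul_left 4 (this.trans hle)
    have h5 : 4 * 1 ≤ 1 := h4.trans (le_trans (le_of_eq (congrArg (4 * ·) (Finset.sum_congr (Finset.ext fun x => by simp [Finset.mem_erase]) fun _ _ => rfl))) h)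
    omega

end Cfsg.Agent.S4916
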