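import Cfsg.Statements.S4923
import Cfsg.Agent.H45.FieldValues
import Cfsg.Agent.H24.MaxClass
import Cfsg.Agent.H24.PGroupBasic
-- import your own Cfsg.Agent.* helpers here

set_option autoImplicit false
open Cfsg
open scoped commutatorElement

namespace Cfsg.Agent.S4923

theorem fix_pm_iff {ζ ε : ℂ} {σ : ℂ ≃+* ℂ} {k : ℕ} (hζ : ζ ≠ 0) (hk : σ ζ = ζ ^ k)
    (hε : ε = 1 ∨ ε = -1) :
    σ (ζ + ε * ζ⁻¹) = ζ + ε * ζ⁻¹ ↔ ζ ^ k = ζ ∨ ζ ^ (k + 1) = ε := by
  have hσε : σ ε = ε := by rcases hε with rfl | rfl <;> simp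
  have hk0 : ζ ^ k ≠ 0 := pow_ne_zero _ hζ
  rw [map_add, map_mul, map_inv₀, hk, hσε, ← sub_eq_zero,
    ← sub_eq_zero (a := ζ ^ k) (b := ζ), ← sub_eq_zero (a := ζ ^ (k + 1)) (b := ε)]
  have h : ζ ^ k + ε * (ζ ^ k)⁻¹ - (ζ + ε * ζ⁻¹) =
      (ζ ^ k - ζ) * (ζ ^ (k + 1) - ε) * (ζ ^ k)⁻¹ * ζ⁻¹ := by
    rw [pow_succ]
    field_simp
    ring
  rw [h, mul_eq_zero, mul_eq_zero, mul_eq_zero]
  simp [hζ, hk0]

/-- The elements of a cyclic subgroup multiply like a root of unity of the same order. -/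
theorem pow_eq_iff_root {G : Type*} [Group G] [Finite G] {g : G} {ζ : ℂ}
    (hζ : IsPrimitiveRoot ζ (orderOf g)) (a b : ℕ) : g ^ a = g ^ b ↔ ζ ^ a = ζ ^ b := by
  have hfin : IsOfFinOrder ζ := isOfFinOrder_iff_pow_eq_one.2 ⟨_, orderOf_pos g, hζ.pow_eq_one⟩
  rw [pow_eq_pow_iff_modEq, hfin.pow_eq_pow_iff_modEq, ← hζ.eq_orderOf]

/-- An element whose class has odd size is central in a conjugate of the Sylow 2-subgroup. -/
theorem exists_central_conj {G : Type*} [Group G] [Finite G] (P : Sylow 2 G) {n : ℕ}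
    (hP : Nat.card P = 2 ^ n) {g : G} (hg : ∃ j, orderOf g = 2 ^ j)
    (hodd : ¬ 2 ∣ (Subgroup.centralizer ({g} : Set G)).index) :
    ∃ z : ↥(P : Subgroup G), z ∈ Subgroup.center ↥(P : Subgroup G) ∧ orderOf z = orderOf g := by
  have : Fact (Nat.Prime 2) := ⟨Nat.prime_two⟩
  set C := Subgroup.centralizer ({g} : Set G)
  obtain ⟨Q⟩ : Nonempty (Sylow 2 C) := inferInstance
  have hQ : Nat.card ((Q : Subgroup C).map C.subtype) = 2 ^ n := by
    rw [Subgroup.card_map_of_injective C.subtype_injective, Q.card_eq_multiplicity, ← hP,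
      P.card_eq_multiplicity]
    congr 1
    rw [← C.card_mul_index, Nat.factorization_mul Nat.card_pos.ne' C.index_ne_zero_of_finite]
    simp [Nat.factorization_eq_zero_of_not_dvd hodd]
  obtain ⟨Q', hQ'⟩ : ∃ Q' : Sylow 2 G, (Q' : Subgroup G) = (Q : Subgroup C).map C.subtype :=
    ⟨Sylow.ofCard _ (hQ.trans (hP.symm.trans P.card_eq_multiplicity)), rfl⟩
  obtain ⟨x, rfl⟩ := MulAction.exists_smul_eq G P Q'
  set z := x⁻¹ * g * x
  have hzc : ∀ y ∈ (P : Subgroup G), y * z = z * y := by
    intro y hy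
    have h1 : x * y * x⁻¹ ∈ C := by
      have h2 : x * y * x⁻¹ ∈ ((x • P : Sylow 2 G) : Subgroup G) := ⟨y, hy, rfl⟩
      rw [hQ'] at h2
      exact Subgroup.map_subtype_le _ h2
    have h3 := Subgroup.mem_centralizer_singleton_iff.1 h1
    calc y * z = x⁻¹ * ((x * y * x⁻¹) * g) * x := by simp only [z]; group
      _ = x⁻¹ * (g * (x * y * x⁻¹)) * x := by rw [h3]
      _ = z * y := by simp only [z]; group
  have hord : orderOf z = orderOf g := by
    have := (MulAut.conj x⁻¹).orderOf_eq g
    simpa [z, MulAut.conj_apply] using this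
  have hzP : z ∈ (P : Subgroup G) := by
    have hpg : IsPGroup 2 (Subgroup.zpowers z) := by
      obtain ⟨j, hj⟩ := hg
      exact IsPGroup.of_card (n := j) (by rw [Nat.card_zpowers, hord, hj])
    have hsup : IsPGroup 2 ↥((P : Subgroup G) ⊔ Subgroup.zpowers z) := by
      refine P.isPGroup'.to_sup_of_normal_right' hpg ?_
      intro y hy
      refine Subgroup.mem_normalizer_iff.2 fun w => ?_
      have hc : ∀ i : ℤ, y * z ^ i * y⁻¹ = z ^ i := fun i => by
        rw [(Commute.zpow_right (hzc y hy) i).eq, mul_inv_cancel_right]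
      constructor
      · rintro ⟨i, rfl⟩
        exact ⟨i, (hc i).symm⟩
      · rintro ⟨i, hi⟩
        refine ⟨i, ?_⟩
        have h5 : y * z ^ i * y⁻¹ = y * w * y⁻¹ := (hc i).trans hi
        exact mul_left_cancel (mul_right_cancel h5)
    have := P.is_maximal' hsup le_sup_left
    exact this ▸ le_sup_right (a := (P : Subgroup G)) (Subgroup.mem_zpowers z)
  refine ⟨⟨z, hzP⟩, Subgroup.mem_center_iff.2 fun y => Subtype.ext (hzc y y.2), ?_⟩
  rw [Subgroup.orderOf_mk, hord]

/-- In a group with a cyclic subgroup of index 2 the conjugates of its generator. -/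
theorem exists_conj_pow {X : Type*} [Group X] [Finite X] {c : X} (hi : (Subgroup.zpowers c).index = 2) :
    ∃ (t : X) (r : ℕ), t * c * t⁻¹ = c ^ r ∧ c ^ (r * r) = c ∧
      ∀ a : X, a ∈ Subgroup.zpowers c ∨ ∃ i : ℤ, a = t * c ^ i := by
  obtain ⟨t, ht⟩ : ∃ t, t ∉ Subgroup.zpowers c := by
    by_contra h
    push Not at h
    rw [(Subgroup.eq_top_iff' _).2 h, Subgroup.index_top] at hi
    omega
  have hn := Subgroup.normal_of_index_eq_two hi
  obtain ⟨r, hr⟩ := mem_powers_iff_mem_zpowers.2 (hn.conj_mem c (Subgroup.mem_zpowers c) t)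
  simp only at hr
  refine ⟨t, r, hr.symm, ?_, fun a => ?_⟩
  · have h2 : t * t ∈ Subgroup.zpowers c :=
      (Subgroup.mul_mem_iff_of_index_two hi).2 Iff.rfl
    obtain ⟨i, hi'⟩ := Subgroup.mem_zpowers_iff.1 h2
    have h3 : (t * t) * c * (t * t)⁻¹ = c := by
      rw [← hi', (Commute.zpow_self c i).eq, mul_inv_cancel_right]
    have h4 : (t * t) * c * (t * t)⁻¹ = c ^ (r * r) := by
      rw [mul_inv_rev, show t * t * c * (t⁻¹ * t⁻¹) = t * (t * c * t⁻¹) * t⁻¹ by group, ← hr,
        ← conj_pow, ← hr, ← pow_mul]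
    exact h4.symm.trans h3
  · by_cases ha : a ∈ Subgroup.zpowers c
    · exact Or.inl ha
    · right
      have h5 : t⁻¹ * a ∈ Subgroup.zpowers c :=
        (Subgroup.mul_mem_iff_of_index_two hi).2
          ⟨fun h => absurd (inv_inv t ▸ inv_mem h) ht, fun h => absurd h ha⟩
      obtain ⟨i, hi'⟩ := Subgroup.mem_zpowers_iff.1 h5
      exact ⟨i, by rw [hi', mul_inv_cancel_left]⟩

set_option maxHeartbeats 1000000 in
/-- Let G be a finite group with Sylow 2-subgroup P of order 2^n ≥ 8, and let ζ be a primitive 2^(n−1)-th root of unity in ℂ. Then the commutator subgroup of P has index 4 in P if and only if there is an element g of P whose conjugacy class in G has even size and such that the field generated over ℚ by the values at g of all irreducible complex characters of G equals ℚ(ζ + ζ⁻¹) or ℚ(ζ − ζ⁻¹). -/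
theorem result {G : Type*} [Group G] [Finite G] (P : Sylow 2 G) (n : ℕ) (hn : 3 ≤ n) (hP : Nat.card P = 2 ^ n) (ζ : ℂ) (hζ : IsPrimitiveRoot ζ (2 ^ (n - 1))) :
    (commutator ↥P).index = 4 ↔
      ∃ g : G, g ∈ (P : Subgroup G) ∧ 2 ∣ (Subgroup.centralizer ({g} : Set G)).index ∧
        (IntermediateField.adjoin ℚ {z : ℂ | ∃ χ : Cfsg.IrrCharacter G, (χ : G → ℂ) g = z} = IntermediateField.adjoin ℚ ({ζ + ζ⁻¹} : Set ℂ) ∨
          IntermediateField.adjoin ℚ {z : ℂ | ∃ χ : Cfsg.IrrCharacter G, (χ : G → ℂ) g = z} = IntermediateField.adjoin ℚ ({ζ - ζ⁻¹} : Set ℂ)) := by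
  classical
  have : Fact (Nat.Prime 2) := ⟨Nat.prime_two⟩
  have hPp : IsPGroup 2 ↥(P : Subgroup G) := P.2
  have hcardP : Nat.card ↥(P : Subgroup G) = 2 ^ n := hP
  have hv : (Nat.card G).factorization 2 = n := by
    have := P.card_eq_multiplicity
    rw [hP] at this
    exact (Nat.pow_right_injective le_rfl this).symm
  have hN0 : Nat.card G ≠ 0 := Nat.card_pos.ne'
  have hdvdN : 2 ^ n ∣ Nat.card G := hP ▸ (P : Subgroup G).card_subgroup_dvd_card
  have hint : ∀ g : G, ∀ s ∈ {z : ℂ | ∃ χ : Cfsg.IrrCharacter G, (χ : G → ℂ) g = z},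
      IsIntegral ℚ s := by
    rintro g s ⟨χ, rfl⟩
    exact (H45.isIntegral_char' (H26.irr_isCharacter χ) g).tower_top
  have hζN : ζ ^ Nat.card G = 1 := by
    obtain ⟨d, hd⟩ := (pow_dvd_pow 2 (Nat.sub_le n 1)).trans hdvdN
    rw [hd, pow_mul, hζ.pow_eq_one, one_pow]
  have hζ0 : ζ ≠ 0 := hζ.ne_zero (by positivity)
  have hζint : ∀ ε : ℂ, (ε = 1 ∨ ε = -1) → ∀ s ∈ ({ζ + ε * ζ⁻¹} : Set ℂ), IsIntegral ℚ s := by
    rintro ε hε s rfl
    have h1 : IsIntegral ℚ ζ := (hζ.isIntegral (by positivity)).tower_top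
    rcases hε with rfl | rfl
    · rw [one_mul]; exact h1.add h1.inv
    · rw [neg_one_mul, ← sub_eq_add_neg]; exact h1.sub h1.inv
  have hhalf : ζ ^ 2 ^ (n - 2) = -1 := by
    have h2 := hζ.pow (a := 2 ^ (n - 2)) (b := 2) (by positivity)
      (by rw [← pow_succ]; congr 1; omega)
    exact h2.eq_neg_one_of_two_right
  have hequiv : ∀ ε : ℂ, (ε = 1 ∨ ε = -1) → ∀ g : G, orderOf g = 2 ^ (n - 1) →
      (∀ k : ℕ, k.Coprime (Nat.card G) →
        (IsConj (g ^ k) g ↔ ζ ^ k = ζ ∨ ζ ^ (k + 1) = ε)) →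
      IntermediateField.adjoin ℚ {z : ℂ | ∃ χ : Cfsg.IrrCharacter G, (χ : G → ℂ) g = z} =
        IntermediateField.adjoin ℚ ({ζ + ε * ζ⁻¹} : Set ℂ) := by
    intro ε hε g _ hiff
    refine le_antisymm (H45.adjoin_le_of_fix _ _ (hζint ε hε) (hint g) fun σ hs => ?_)
      (H45.adjoin_le_of_fix _ _ (hint g) (hζint ε hε) fun σ hs => ?_)
    · obtain ⟨k, hk, hσ⟩ := H45.exists_pow_of_ringAut σ hN0
      refine (H45.fix_values_iff σ hσ g).2 ((hiff k hk).2 ?_)
      exact (fix_pm_iff hζ0 (hσ ζ hζN) hε).1 (hs _ rfl)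
    · obtain ⟨k, hk, hσ⟩ := H45.exists_pow_of_ringAut σ hN0
      rintro t rfl
      exact (fix_pm_iff hζ0 (hσ ζ hζN) hε).2 ((hiff k hk).1 ((H45.fix_values_iff σ hσ g).1 hs))
  constructor
  · intro hidx0
    have hidx : (commutator ↥(P : Subgroup G)).index = 4 := hidx0
    obtain ⟨⟨C, hCc, hCi⟩, -, hcen⟩ :=
      H24.two_group_commutator_index_four ↥(P : Subgroup G) n hcardP (by omega) hidx
    obtain ⟨c, rfl⟩ := (Subgroup.isCyclic_iff_exists_zpowers_eq_top C).1 hCc
    have hco : orderOf c = 2 ^ (n - 1) := by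
      have h := (Subgroup.zpowers c).card_mul_index
      rw [hCi, Nat.card_zpowers, hcardP] at h
      have h2 : 2 ^ n = 2 ^ (n - 1) * 2 := by rw [← pow_succ]; congr 1; omega
      omega
    obtain ⟨t, r, hr, hrr, hgen⟩ := exists_conj_pow hCi
    set g : G := (c : G) with hgdef
    have hgo : orderOf g = 2 ^ (n - 1) := by rw [hgdef, Subgroup.orderOf_coe, hco]
    have hζg : IsPrimitiveRoot ζ (orderOf g) := hgo ▸ hζ
    have heven : 2 ∣ (Subgroup.centralizer ({g} : Set G)).index := by
      by_contra hodd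
      obtain ⟨z, hz, hzo⟩ := exists_central_conj P hP ⟨_, hgo⟩ hodd
      have h := orderOf_dvd_natCard (⟨z, hz⟩ : Subgroup.center ↥(P : Subgroup G))
      rw [Subgroup.orderOf_mk, hzo, hgo, hcen hn] at h
      have h2 := Nat.le_of_dvd (by omega) h
      have : 2 ^ 2 ≤ 2 ^ (n - 1) := Nat.pow_le_pow_right (by omega) (by omega)
      omega
    -- the commutator of `t` and `c`
    set e := t * c * t⁻¹ * c⁻¹ with he
    have heo : 2 ^ (n - 2) ≤ orderOf e := by
      have hec : e ∈ Subgroup.zpowers c := by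
        rw [he, hr]
        exact mul_mem (pow_mem (Subgroup.mem_zpowers c) r) (inv_mem (Subgroup.mem_zpowers c))
      have hn' : (Subgroup.zpowers e).Normal := by
        refine ⟨fun w hw a => ?_⟩
        obtain ⟨i, rfl⟩ := Subgroup.mem_zpowers_iff.1 hw
        have hCn := Subgroup.normal_of_index_eq_two hCi
        rw [← conj_zpow]
        refine Subgroup.zpow_mem _ ?_ i
        obtain ⟨j, hj⟩ := Subgroup.mem_zpowers_iff.1 hec
        obtain ⟨l, hl⟩ := Subgroup.mem_zpowers_iff.1 (hCn.conj_mem c (Subgroup.mem_zpowers c) a)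
        refine ⟨l, ?_⟩
        show e ^ l = a * e * a⁻¹
        rw [← hj, ← conj_zpow, ← hl, ← zpow_mul, ← zpow_mul, mul_comm]
      have hle : commutator ↥(P : Subgroup G) ≤ Subgroup.zpowers e := by
        let q := QuotientGroup.mk' (Subgroup.zpowers e)
        have hct : Commute (q t) (q c) := by
          show q t * q c = q c * q t
          have h6 : q (t * c * t⁻¹ * c⁻¹) = 1 :=
            (QuotientGroup.eq_one_iff e).2 (Subgroup.mem_zpowers e)
          rw [map_mul, map_mul, map_mul, map_inv, map_inv, mul_inv_eq_one,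
            mul_inv_eq_iff_eq_mul] at h6
          exact h6
        have hform : ∀ a : ↥(P : Subgroup G), ∃ i j : ℤ, q a = q t ^ i * q c ^ j := fun a => by
          rcases hgen a with ha | ⟨i, rfl⟩
          · obtain ⟨j, rfl⟩ := Subgroup.mem_zpowers_iff.1 ha
            exact ⟨0, j, by rw [map_zpow, zpow_zero, one_mul]⟩
          · exact ⟨1, i, by rw [map_mul, map_zpow, zpow_one]⟩
        rw [commutator_def, Subgroup.commutator_le]
        intro a _ b _
        refine (QuotientGroup.eq_one_iff _).1 ?_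
        show q ⁅a, b⁆ = 1
        rw [map_commutatorElement, commutatorElement_eq_one_iff_commute]
        obtain ⟨i, j, ha⟩ := hform a
        obtain ⟨i', j', hb⟩ := hform b
        rw [ha, hb]
        exact ((((Commute.refl _).zpow_zpow i i').mul_right (hct.zpow_zpow i j')).mul_left
          ((hct.symm.zpow_zpow j i').mul_right ((Commute.refl _).zpow_zpow j j')))
      have hc1 : Nat.card (commutator ↥(P : Subgroup G)) = 2 ^ (n - 2) := by
        have h := (commutator ↥(P : Subgroup G)).card_mul_index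
        rw [hidx, hcardP] at h
        have h2 : 2 ^ n = 2 ^ (n - 2) * 4 := by
          rw [show (4 : ℕ) = 2 ^ 2 from rfl, ← pow_add]; congr 1; omega
        omega
      rw [← hc1, ← Nat.card_zpowers]
      exact Nat.le_of_dvd Nat.card_pos (Subgroup.card_dvd_of_le hle)
    have hr1 : ¬ (2 ^ 2 : ℤ) ∣ (r : ℤ) - 1 := by
      intro h4
      obtain ⟨u, hu⟩ := h4
      have hee : e = c ^ ((r : ℤ) - 1) := by rw [he, hr, zpow_sub_one, zpow_natCast]
      have h1 : e ^ (2 ^ (n - 3)) = 1 := by
        rw [hee, hu, ← zpow_natCast, ← zpow_mul, ← orderOf_dvd_iff_zpow_eq_one, hco]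
        push_cast
        refine ⟨u, ?_⟩
        rw [show n - 1 = (n - 3) + 2 by omega, pow_add]
        ring
      have h2 := Nat.le_of_dvd (by positivity) (orderOf_dvd_of_pow_eq_one h1)
      have h3 : 2 ^ (n - 3) < 2 ^ (n - 2) := Nat.pow_lt_pow_right (by omega) (by omega)
      omega
    have hrdvd : (2 : ℤ) ^ (n - 2) ∣ (r : ℤ) + 1 := by
      have h : ((2 : ℤ) ^ (n - 1)) ∣ ((r : ℤ) - 1) * ((r : ℤ) + 1) := by
        have h0 : c ^ (((r * r : ℕ) : ℤ) - 1) = 1 := by
          rw [zpow_sub_one, zpow_natCast, hrr, mul_inv_cancel]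
        rw [← orderOf_dvd_iff_zpow_eq_one, hco] at h0
        push_cast at h0
        rwa [show ((r : ℤ) - 1) * ((r : ℤ) + 1) = (r : ℤ) * r - 1 by ring]
      have hodd : (r : ℤ) % 2 = 1 := by
        have h5 : (2 : ℤ) ∣ (r : ℤ) * r - 1 := by
          rw [show ((r : ℤ) - 1) * ((r : ℤ) + 1) = (r : ℤ) * r - 1 by ring] at h
          exact (dvd_pow_self (2 : ℤ) (by omega : n - 1 ≠ 0)).trans h
        by_contra h6
        have h7 : (2 : ℤ) ∣ (r : ℤ) := by omega
        have h8 : (2 : ℤ) ∣ (r : ℤ) * r := h7.mul_right _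
        omega
      obtain ⟨u, hu⟩ : (2 : ℤ) ∣ (r : ℤ) - 1 := by omega
      have hu2 : ¬ (2 : ℤ) ∣ u := fun ⟨v, hv⟩ => hr1 ⟨v, by rw [hu, hv]; ring⟩
      rw [hu, show n - 1 = n - 2 + 1 by omega, pow_succ', mul_assoc,
        mul_dvd_mul_iff_left (two_ne_zero' ℤ)] at h
      exact (Int.prime_two.coprime_iff_not_dvd.2 hu2).pow_left.dvd_of_dvd_mul_left h
    have hrdvd' : 2 ^ (n - 2) ∣ r + 1 := by exact_mod_cast hrdvd
    obtain ⟨ε, hε, hεr⟩ : ∃ ε : ℂ, (ε = 1 ∨ ε = -1) ∧ ζ ^ (r + 1) = ε := by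
      obtain ⟨j, hj⟩ := hrdvd'
      rcases Nat.even_or_odd j with hj2 | hj2
      · exact ⟨1, Or.inl rfl, by rw [hj, pow_mul, hhalf, hj2.neg_one_pow]⟩
      · exact ⟨-1, Or.inr rfl, by rw [hj, pow_mul, hhalf, hj2.neg_one_pow]⟩
    refine ⟨g, c.2, heven, ?_⟩
    -- the automorphisms of the cyclic subgroup induced in `G`
    have hne : c ^ r ≠ c := fun h => by
      refine hr1 ?_
      have h0 : c ^ ((r : ℤ) - 1) = 1 := by rw [zpow_sub_one, zpow_natCast, h, mul_inv_cancel]
      rw [← orderOf_dvd_iff_zpow_eq_one, hco] at h0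
      push_cast at h0
      exact (pow_dvd_pow (2 : ℤ) (by omega : 2 ≤ n - 1)).trans h0
    have hgt : (t : G) * g * (t : G)⁻¹ = g ^ r := by
      rw [hgdef, ← Subgroup.coe_inv, ← Subgroup.coe_mul, ← Subgroup.coe_mul, hr, Subgroup.coe_pow]
    have hcls : ∀ k : ℕ, IsConj (g ^ k) g → k.Coprime (Nat.card G) → g ^ k = g ∨ g ^ k = g ^ r := by
      intro k hk hkc
      obtain ⟨x, hx⟩ := isConj_iff.1 hk.symm
      set Z := Subgroup.zpowers g with hZ
      have hnorm : ∀ y : G, y * g * y⁻¹ ∈ Z → y ∈ Subgroup.normalizer (Z : Set G) := by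
        intro y hy
        have hle : Z.map (MulAut.conj y).toMonoidHom ≤ Z := by
          rw [hZ, MonoidHom.map_zpowers, Subgroup.zpowers_le]
          exact hy
        have heq : Z.map (MulAut.conj y).toMonoidHom = Z := Subgroup.eq_of_le_of_card_ge hle
          (le_of_eq (Subgroup.card_map_of_injective (MulEquiv.injective _)).symm)
        refine Subgroup.mem_normalizer_iff.2 fun w => ⟨fun hw => heq.le ⟨w, hw, rfl⟩, fun hw => ?_⟩
        obtain ⟨w', hw', e'⟩ := heq.ge hw
        have : w' = w := (MulAut.conj y).injective e'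
        exact this ▸ hw'
      have hPN : (P : Subgroup G) ≤ Subgroup.normalizer (Z : Set G) := fun y hy => by
        refine hnorm y ?_
        have hCn := Subgroup.normal_of_index_eq_two hCi
        obtain ⟨i, hi⟩ := Subgroup.mem_zpowers_iff.1
          (hCn.conj_mem c (Subgroup.mem_zpowers c) ⟨y, hy⟩)
        refine ⟨i, ?_⟩
        have := congrArg (Subtype.val : ↥(P : Subgroup G) → G) hi
        simpa [hgdef] using this
      let φ := Z.normalizerMonoidHom
      have hker : Nat.card φ.ker = Nat.card (Subgroup.centralizer ({g} : Set G)) := by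
        rw [Subgroup.normalizerMonoidHom_ker, hZ, Subgroup.zpowers_eq_closure,
          Subgroup.centralizer_closure]
        refine Nat.card_congr (Subgroup.subgroupOfEquivOfLe ?_).toEquiv
        intro y hy
        rw [← Subgroup.zpowers_eq_closure]
        refine hnorm y ?_
        rw [Subgroup.mem_centralizer_singleton_iff.1 hy, mul_inv_cancel_right]
        exact Subgroup.mem_zpowers g
      have hrange : Nat.card φ.range = 2 := by
        have h1 := φ.ker.card_mul_index
        rw [Subgroup.index_ker, hker] at h1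
        have hNv : (Nat.card (Subgroup.normalizer (Z : Set G))).factorization 2 = n := by
          refine le_antisymm (hv ▸ (Nat.factorization_le_iff_dvd Nat.card_pos.ne' hN0).2
            (Subgroup.card_subgroup_dvd_card _) 2) ?_
          exact (Nat.prime_two.pow_dvd_iff_le_factorization Nat.card_pos.ne').1
            (hP ▸ Subgroup.card_dvd_of_le hPN)
        have hCv : (Nat.card (Subgroup.centralizer ({g} : Set G))).factorization 2 = n - 1 := by
          refine le_antisymm ?_ ((Nat.prime_two.pow_dvd_iff_le_factorization Nat.card_pos.ne').1 ?_)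
          · have h2 := congrArg (fun m : ℕ => m.factorization 2)
              (Subgroup.centralizer ({g} : Set G)).card_mul_index
            rw [Nat.factorization_mul Nat.card_pos.ne' Subgroup.index_ne_zero_of_finite,
              Finsupp.add_apply, hv] at h2
            have := Nat.prime_two.factorization_pos_of_dvd Subgroup.index_ne_zero_of_finite heven
            omega
          · rw [← hgo, ← Nat.card_zpowers]
            refine Subgroup.card_dvd_of_le (Subgroup.zpowers_le.2 ?_)
            exact Subgroup.mem_centralizer_singleton_iff.2 rfl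
        have h3 : Nat.card φ.range ∣ 2 ^ (n - 2) := by
          refine (Subgroup.card_subgroup_dvd_card _).trans (dvd_of_eq ?_)
          rw [IsCyclic.card_mulAut, hZ, Nat.card_zpowers, hgo,
            Nat.totient_prime_pow Nat.prime_two (by omega)]
          rw [show n - 1 - 1 = n - 2 by omega, Nat.add_one_sub_one, mul_one]
        obtain ⟨i, -, hi⟩ := (Nat.dvd_prime_pow Nat.prime_two).1 h3
        have h4 := congrArg (fun m : ℕ => m.factorization 2) h1
        rw [Nat.factorization_mul Nat.card_pos.ne' Nat.card_pos.ne', Finsupp.add_apply, hCv, hNv, hi,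
          Nat.prime_two.factorization_pow, Finsupp.single_eq_same] at h4
        rw [hi, show i = 1 by omega, pow_one]
      have hxN : x ∈ Subgroup.normalizer (Z : Set G) :=
        hnorm x (hx ▸ pow_mem (Subgroup.mem_zpowers g) k)
      let tN : Subgroup.normalizer (Z : Set G) := ⟨(t : G), hPN t.2⟩
      let xN : Subgroup.normalizer (Z : Set G) := ⟨x, hxN⟩
      let gZ : Z := ⟨g, Subgroup.mem_zpowers g⟩
      have happ : ∀ y : Subgroup.normalizer (Z : Set G),
          ((φ y gZ : Z) : G) = (y : G) * g * (y : G)⁻¹ := fun y => rfl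
      have ht1 : φ.rangeRestrict tN ≠ 1 := fun h => hne (Subtype.ext (by
        have h2 := happ tN
        rw [show φ tN = 1 from congrArg Subtype.val h] at h2
        exact (h2.trans hgt).symm))
      rcases eq_or_ne (φ.rangeRestrict xN) 1 with h | h
      · left
        have h2 := happ xN
        rw [show φ xN = 1 from congrArg Subtype.val h] at h2
        exact hx.symm.trans h2.symm
      · right
        obtain ⟨w, -, hw⟩ := (Nat.card_eq_two_iff' (1 : φ.range)).1 hrange
        have h3 : φ xN = φ tN := congrArg Subtype.val ((hw _ h).trans (hw _ ht1).symm)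
        rw [← hx, ← hgt]
        exact (happ xN).symm.trans ((congrArg (fun f : MulAut Z => ((f gZ : Z) : G)) h3).trans
          (happ tN))
    have key := hequiv ε hε g hgo fun k hk => by
      have h1 : g ^ k = g ↔ ζ ^ k = ζ := by
        simpa using pow_eq_iff_root hζg k 1
      have h2 : g ^ k = g ^ r ↔ ζ ^ (k + 1) = ε := by
        rw [pow_eq_iff_root hζg, ← hεr, pow_succ, pow_succ, mul_left_inj' hζ0]
      rw [← h1, ← h2]
      refine ⟨fun h => hcls k h hk, ?_⟩
      rintro (h | h) <;> rw [h]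
      exact (isConj_iff.2 ⟨(t : G), hgt⟩).symm
    rcases hε with rfl | rfl
    · left
      rw [key, one_mul]
    · right
      rw [key, neg_one_mul, ← sub_eq_add_neg]
  · rintro ⟨g, hgP, heven, hF⟩
    set c : ↥(P : Subgroup G) := ⟨g, hgP⟩
    have hnc : c ∉ Subgroup.center ↥(P : Subgroup G) := by
      intro hc
      refine P.not_dvd_index ((heven.trans (Subgroup.index_dvd_of_le ?_)))
      intro y hy
      exact Subgroup.mem_centralizer_singleton_iff.2
        (congrArg Subtype.val (Subgroup.mem_center_iff.1 hc ⟨y, hy⟩))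
    have hnab : ¬ IsMulCommutative ↥(P : Subgroup G) := fun h =>
      hnc (Subgroup.mem_center_iff.2 fun y => h.is_comm.comm y c)
    have hge : 4 ≤ (commutator ↥(P : Subgroup G)).index := by
      obtain ⟨i, -, hi⟩ := (Nat.dvd_prime_pow Nat.prime_two).1
        (hcardP ▸ (commutator ↥(P : Subgroup G)).index_dvd_card)
      by_contra hlt
      have hi2 : i ≤ 1 := by
        by_contra h2
        have : 2 ^ 2 ≤ 2 ^ i := Nat.pow_le_pow_right (by omega) (by omega)
        omega
      have hq : IsCyclic (↥(P : Subgroup G) ⧸ commutator ↥(P : Subgroup G)) := by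
        rcases Nat.eq_zero_or_pos i with rfl | hi0
        · have := (Nat.card_eq_one_iff_unique.1
            (show Nat.card (↥(P : Subgroup G) ⧸ commutator ↥(P : Subgroup G)) = 1 from hi)).1
          infer_instance
        · refine isCyclic_of_prime_card (p := 2) ?_
          rw [← Subgroup.index_eq_card, hi, show i = 1 by omega, pow_one]
      have := H24.isCyclic_of_quotient _ (H24.commutator_le_frattini hPp)
      exact hnab IsCyclic.isMulCommutative
    refine le_antisymm ?_ hge
    suffices hsz : 2 ^ (n - 2) ≤ Nat.card (commutator ↥(P : Subgroup G)) by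
      have h := (commutator ↥(P : Subgroup G)).card_mul_index
      rw [hcardP] at h
      have h2 : 2 ^ n = 2 ^ (n - 2) * 4 := by
        rw [show (4 : ℕ) = 2 ^ 2 from rfl, ← pow_add]; congr 1; omega
      rw [h2] at h
      by_contra hgt
      have h3 : 2 ^ (n - 2) * 4 < Nat.card (commutator ↥(P : Subgroup G)) *
          (commutator ↥(P : Subgroup G)).index :=
        lt_of_lt_of_le (Nat.mul_lt_mul_of_pos_left (Nat.lt_of_not_le hgt) (by positivity))
          (Nat.mul_le_mul_right _ hsz)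
      omega
    rcases Nat.lt_or_ge n 4 with hn4 | hn4
    · rw [show n = 3 by omega, show (2 : ℕ) ^ (3 - 2) = 2 from rfl]
      by_contra hlt
      have h1 : Nat.card (commutator ↥(P : Subgroup G)) = 1 := by
        have : 0 < Nat.card (commutator ↥(P : Subgroup G)) := Nat.card_pos
        omega
      refine hnab ⟨⟨fun a b => ?_⟩⟩
      have := Subgroup.commutator_mem_commutator (H₁ := ⊤) (H₂ := ⊤)
        (Subgroup.mem_top a) (Subgroup.mem_top b)
      rw [← commutator_def, Subgroup.card_eq_one.1 h1, Subgroup.mem_bot,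
        commutatorElement_eq_one_iff_commute] at this
      exact this
    obtain ⟨m, hm⟩ := IsPGroup.iff_orderOf.1 hPp c
    have hgm : orderOf g = 2 ^ m := by rw [← hm]; exact Subgroup.orderOf_coe c
    obtain ⟨ε, hε, hF'⟩ : ∃ ε : ℂ, (ε = 1 ∨ ε = -1) ∧
        IntermediateField.adjoin ℚ {z : ℂ | ∃ χ : Cfsg.IrrCharacter G, (χ : G → ℂ) g = z} =
          IntermediateField.adjoin ℚ ({ζ + ε * ζ⁻¹} : Set ℂ) := by
      rcases hF with h | h
      · exact ⟨1, Or.inl rfl, by rw [one_mul, h]⟩
      · exact ⟨-1, Or.inr rfl, by rw [neg_one_mul, ← sub_eq_add_neg, h]⟩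
    have hfix : ∀ k : ℕ, k.Coprime (Nat.card G) → IsConj (g ^ k) g →
        ζ ^ k = ζ ∨ ζ ^ (k + 1) = ε := by
      intro k hk hc
      obtain ⟨σ, hσ⟩ := H45.exists_ringAut_pow hN0 hk
      refine (fix_pm_iff hζ0 (hσ ζ hζN) hε).1 ?_
      refine H45.ringAut_fix_adjoin _ σ ((H45.fix_values_iff σ hσ g).2 hc) _ ?_
      rw [hF']
      exact IntermediateField.subset_adjoin ℚ _ rfl
    have hcrt : ∀ a : ℕ, ¬ 2 ∣ a → ∃ k : ℕ, k.Coprime (Nat.card G) ∧ k ≡ a [MOD 2 ^ n] := by
      intro a ha
      set M := Nat.card G / 2 ^ n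
      have hM : ¬ 2 ∣ M := by
        have := Nat.not_dvd_ordCompl (p := 2) Nat.prime_two hN0
        rwa [hv] at this
      have hcop : Nat.Coprime (2 ^ n) M :=
        Nat.Coprime.pow_left n ((Nat.Prime.coprime_iff_not_dvd Nat.prime_two).2 hM)
      obtain ⟨k, hk1, hk2⟩ := Nat.chineseRemainder hcop a 1
      refine ⟨k, ?_, hk1⟩
      rw [← Nat.mul_div_cancel' hdvdN]
      refine Nat.Coprime.mul_right (Nat.Coprime.pow_right n ?_) ?_
      · rw [Nat.coprime_comm, Nat.prime_two.coprime_iff_not_dvd]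
        exact fun h => ha ((hk1.dvd_iff (dvd_pow_self 2 (by omega))).1 h)
      · show Nat.gcd k M = 1
        rw [Nat.ModEq.gcd_eq hk2, Nat.gcd_one_left]
    have hL : ∀ a b : ℕ, a ≡ b [MOD 2 ^ n] → ζ ^ a = ζ ^ b := fun a b h => by
      have hfin : IsOfFinOrder ζ := isOfFinOrder_iff_pow_eq_one.2 ⟨_, by positivity, hζ.pow_eq_one⟩
      rw [hfin.pow_eq_pow_iff_modEq, ← hζ.eq_orderOf]
      exact h.of_dvd (pow_dvd_pow 2 (Nat.sub_le n 1))
    have hG' : ∀ a b : ℕ, a ≡ b [MOD 2 ^ n] → g ^ a = g ^ b := fun a b h => by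
      rw [pow_eq_pow_iff_modEq, hgm]
      exact h.of_dvd (hgm ▸ hcardP ▸ (Subgroup.orderOf_coe c ▸ orderOf_dvd_natCard c))
    have hm1 : m = n - 1 := by
      rcases Nat.lt_or_ge m (n - 1) with hlt | hge'
      · exfalso
        obtain ⟨k, hk, hka⟩ := hcrt (1 + 2 ^ (n - 2)) (by
          have h : (2 : ℕ) ∣ 2 ^ (n - 2) := dvd_pow_self 2 (by omega)
          omega)
        have hgk : g ^ k = g := by
          rw [hG' k _ hka, pow_add, pow_one, orderOf_dvd_iff_pow_eq_one.1
            (hgm ▸ pow_dvd_pow 2 (by omega : m ≤ n - 2)), mul_one]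
        have hζk : ζ ^ k = -ζ := by rw [hL k _ hka, pow_add, pow_one, hhalf, mul_neg_one]
        rcases hfix k hk (by rw [hgk]) with h | h
        · rw [hζk] at h
          exact hζ0 (by linear_combination (-1 / 2 : ℂ) * h)
        · rw [pow_succ, hζk, neg_mul, ← sq] at h
          have h4 : ζ ^ 4 = 1 := by
            rcases hε with rfl | rfl
            · linear_combination (1 - ζ ^ 2) * h
            · linear_combination (-1 - ζ ^ 2) * h
          have hd := Nat.le_of_dvd (by norm_num) (hζ.dvd_of_pow_eq_one 4 h4)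
          have : 2 ^ 3 ≤ 2 ^ (n - 1) := Nat.pow_le_pow_right (by omega) (by omega)
          omega
      · have hle : m ≤ n := by
          have h := Nat.le_of_dvd Nat.card_pos (orderOf_dvd_natCard c)
          rw [hm, hcardP] at h
          exact (Nat.pow_le_pow_iff_right (by omega)).1 h
        rcases Nat.lt_or_ge m n with h | h
        · omega
        · exfalso
          have htop : Subgroup.zpowers c = ⊤ := Subgroup.eq_top_of_card_eq _ (by
            rw [Nat.card_zpowers, hm, hcardP, show m = n by omega])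
          have := isCyclic_iff_exists_zpowers_eq_top.2 ⟨c, htop⟩
          exact hnab IsCyclic.isMulCommutative
    have hci : (Subgroup.zpowers c).index = 2 := by
      have h := (Subgroup.zpowers c).card_mul_index
      rw [Nat.card_zpowers, hm, hm1, hcardP, show n = n - 1 + 1 by omega, pow_succ,
        show n - 1 + 1 - 1 = n - 1 by omega] at h
      exact Nat.eq_of_mul_eq_mul_left (by positivity) h
    obtain ⟨t, r, hr, hrr, hgen⟩ := exists_conj_pow hci
    have hζc : IsPrimitiveRoot ζ (orderOf c) := by rw [hm, hm1]; exact hζ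
    have hne : c ^ r ≠ c := by
      intro h
      refine hnc (Subgroup.mem_center_iff.2 fun a => ?_)
      rcases hgen a with ha | ⟨i, rfl⟩
      · obtain ⟨i, rfl⟩ := Subgroup.mem_zpowers_iff.1 ha
        exact (Commute.zpow_self c i).eq
      · have h2 : t * c = c * t := mul_inv_eq_iff_eq_mul.1 (hr.trans h)
        rw [mul_assoc, (Commute.zpow_self c i).eq, ← mul_assoc, h2, mul_assoc]
    have hrodd : ¬ 2 ∣ r := by
      intro h
      have h1 : ((2 : ℤ) ^ (n - 1)) ∣ ((r * r : ℕ) : ℤ) - 1 := by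
        have h0 : c ^ (((r * r : ℕ) : ℤ) - 1) = 1 := by
          rw [zpow_sub_one, zpow_natCast, hrr, mul_inv_cancel]
        rw [← orderOf_dvd_iff_zpow_eq_one, hm, hm1] at h0
        push_cast at h0
        exact h0
      have h2 := (dvd_pow_self (2 : ℤ) (by omega : n - 1 ≠ 0)).trans h1
      have h3 : (2 : ℤ) ∣ ((r * r : ℕ) : ℤ) := Int.natCast_dvd_natCast.2 (h.mul_right r)
      omega
    obtain ⟨k, hk, hka⟩ := hcrt r hrodd
    have hr1 : ζ ^ (r + 1) = ε := by
      have hgk : IsConj (g ^ k) g := by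
        rw [hG' k r hka]
        refine (isConj_iff.2 ⟨(t : G), ?_⟩).symm
        show (t : G) * (c : G) * (t : G)⁻¹ = (c : G) ^ r
        rw [← Subgroup.coe_inv, ← Subgroup.coe_mul, ← Subgroup.coe_mul, hr, Subgroup.coe_pow]
      rcases hfix k hk hgk with h | h
      · refine absurd ?_ hne
        rw [hL k r hka] at h
        simpa using (pow_eq_iff_root hζc r 1).2 (by simpa using h)
      · rwa [pow_succ, hL k r hka, ← pow_succ] at h
    have hdvd : 2 ^ (n - 2) ∣ r + 1 := by
      have h1 : ζ ^ ((r + 1) * 2) = 1 := by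
        rw [pow_mul, hr1]; rcases hε with rfl | rfl <;> norm_num
      have h2 := hζ.dvd_of_pow_eq_one _ h1
      rw [show n - 1 = n - 2 + 1 by omega, pow_succ] at h2
      exact (Nat.mul_dvd_mul_iff_right two_pos).1 h2
    set e := t * c * t⁻¹ * c⁻¹ with he
    have hec : e ∈ commutator ↥(P : Subgroup G) := by
      have h := Subgroup.commutator_mem_commutator (H₁ := ⊤) (H₂ := ⊤)
        (Subgroup.mem_top t) (Subgroup.mem_top c)
      rwa [← commutator_def, commutatorElement_def] at h
    have hee : e = c ^ ((r : ℤ) - 1) := by rw [he, hr, zpow_sub_one, zpow_natCast]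
    refine le_trans ?_ (Nat.le_of_dvd Nat.card_pos
      (Subgroup.card_dvd_of_le (Subgroup.zpowers_le.2 hec)))
    rw [Nat.card_zpowers]
    by_contra hlt
    obtain ⟨i, -, hi⟩ := (Nat.dvd_prime_pow Nat.prime_two).1 (hcardP ▸ orderOf_dvd_natCard e)
    have hi3 : i ≤ n - 3 := by
      by_contra h
      exact hlt (hi ▸ Nat.pow_le_pow_right (by omega) (by omega))
    have h1 : e ^ (2 ^ (n - 3)) = 1 := orderOf_dvd_iff_pow_eq_one.1 (hi ▸ pow_dvd_pow 2 hi3)
    rw [hee, ← zpow_natCast, ← zpow_mul, ← orderOf_dvd_iff_zpow_eq_one, hm, hm1,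
      show n - 1 = 2 + (n - 3) by omega, pow_add] at h1
    push_cast at h1
    rw [mul_dvd_mul_iff_right (by positivity)] at h1
    have h4 : (4 : ℤ) ∣ (r : ℤ) + 1 := by
      have : (4 : ℕ) ∣ r + 1 := (show 4 ∣ 2 ^ (n - 2) from
        pow_dvd_pow 2 (by omega : 2 ≤ n - 2)).trans hdvd
      exact_mod_cast this
    norm_num at h1
    omega

end Cfsg.Agent.S4923
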