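import Cfsg.Statements.S4931
import Cfsg.Agent.H45.ExtendComplement
-- import your own Cfsg.Agent.* helpers here

set_option autoImplicit false
open Cfsg

namespace Cfsg.Agent.S4931

/-- Let G be a finite group, p a prime and P a Sylow p-subgroup of G with normalizer N. Then every irreducible complex character of N of degree not divisible by p is the restriction of an irreducible character of G if and only if there is a normal subgroup K of G with KN = G and K ∩ N = 1. -/
theorem result {G : Type*} [Group G] [Finite G] (p : ℕ) [Fact p.Prime] (P : Sylow p G) :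
    (∀ θ : Cfsg.IrrCharacter ↥(Subgroup.normalizer ((P : Subgroup G) : Set G)), ¬ p ∣ Cfsg.charDegree (θ : ↥(Subgroup.normalizer ((P : Subgroup G) : Set G)) → ℂ) →
        ∃ χ : Cfsg.IrrCharacter G, ∀ x : ↥(Subgroup.normalizer ((P : Subgroup G) : Set G)), (χ : G → ℂ) x = (θ : ↥(Subgroup.normalizer ((P : Subgroup G) : Set G)) → ℂ) x) ↔
      ∃ K : Subgroup G, K.Normal ∧ K ⊔ Subgroup.normalizer ((P : Subgroup G) : Set G) = ⊤ ∧ K ⊓ Subgroup.normalizer ((P : Subgroup G) : Set G) = ⊥ := by
  classical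
  refine ⟨fun h => H45.exists_complement_of_pPrimeExtends p P h, ?_⟩
  set N := Subgroup.normalizer ((P : Subgroup G) : Set G) with hN
  rintro ⟨K, hKn, hsup, hinf⟩ θ -
  let π : ↥N →* G ⧸ K := (QuotientGroup.mk' K).comp N.subtype
  have hinj : Function.Injective π := by
    rw [injective_iff_map_eq_one]
    intro n hn
    have h1 : (n : G) ∈ K ⊓ N := ⟨(QuotientGroup.eq_one_iff _).1 hn, n.2⟩
    rw [hinf, Subgroup.mem_bot] at h1
    exact Subtype.ext h1
  have hsurj : Function.Surjective π := by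
    intro q
    obtain ⟨g, rfl⟩ := QuotientGroup.mk'_surjective K q
    have hg : g ∈ K ⊔ N := hsup ▸ Subgroup.mem_top g
    obtain ⟨k, hk, n, hn, rfl⟩ := Subgroup.mem_sup_of_normal_left.1 hg
    refine ⟨⟨n, hn⟩, ?_⟩
    show QuotientGroup.mk' K n = QuotientGroup.mk' K (k * n)
    rw [map_mul, show QuotientGroup.mk' K k = 1 from (QuotientGroup.eq_one_iff k).2 hk, one_mul]
  let e := MulEquiv.ofBijective π ⟨hinj, hsurj⟩
  let f : G →* ↥N := e.symm.toMonoidHom.comp (QuotientGroup.mk' K)
  have hf : ∀ x : ↥N, f x = x := fun x => e.symm_apply_apply x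
  refine ⟨⟨_, H45.isIrrCharacter_comp_surjective f (fun x => ⟨x, hf x⟩) θ.2⟩, fun x => ?_⟩
  show θ.1 (f x) = θ.1 x
  rw [hf]

end Cfsg.Agent.S4931
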