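import Cfsg.Statements.S4957
import Cfsg.Agent.H45.Transitive.Bounds
import Cfsg.Agent.H45.Transitive.Setup
import Cfsg.Agent.S4956
import Cfsg.Agent.S4958

set_option autoImplicit false
open Cfsg Cfsg.Agent

namespace Cfsg.Agent.S4957

/-- Let X be a finite group and V a normal subgroup of X in which every element has order dividing the prime p, whose index in X is prime to p and which is its own centralizer in X; so V is an elementary abelian normal Sylow p-subgroup, and any complement G to V in X is a group of order prime to p acting faithfully on the vector space V by conjugation (the coprime linear setting of the k(GV) problem). Suppose a complement G to V in X is transitive by conjugation on the nonidentity elements of V. Then X has at most (order of V) conjugacy classes, and if equality holds then G is cyclic (hence, being transitive, a Singer cycle), or V has order 8 and G has order 21 (the nonabelian group of order 21 inside the simple group of order 168), or V has order 9 and G has order 16 (a semidihedral Sylow 2-subgroup of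 the 2-dimensional general linear group over the field with 3 elements). -/
theorem result {X : Type*} [Group X] [Finite X] (p : ℕ) [Fact p.Prime] (V : Subgroup X) [V.Normal] (hVexp : ∀ v ∈ V, v ^ p = 1) (hidx : ¬ p ∣ V.index) (hself : Subgroup.centralizer (V : Set X) = V) (G : Subgroup X) (hGV : Subgroup.IsComplement' V G) (htrans : ∀ v ∈ V, ∀ w ∈ V, v ≠ 1 → w ≠ 1 → ∃ g ∈ G, g * v * g⁻¹ = w) : Nat.card (ConjClasses X) ≤ Nat.card V ∧ (Nat.card (ConjClasses X) = Nat.card V → (IsCyclic G ∨ (Nat.card V = 8 ∧ Nat.card G = 21) ∨ (Nat.card V = 9 ∧ Nat.card G = 16))) := by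
  classical
  have hcopG : ¬ p ∣ Nat.card G := by rwa [← hGV.symm.index_eq_card]
  have hab : ∀ a ∈ V, ∀ b ∈ V, a * b = b * a := by
    intro a ha b hb
    have h : b ∈ Subgroup.centralizer (V : Set X) := hself.symm ▸ hb
    exact Subgroup.mem_centralizer_iff.1 h a ha
  by_cases hV1 : V = ⊥
  · subst hV1
    have htop : (⊤ : Subgroup X) = ⊥ := by rw [← hself, Subgroup.coe_bot, eq_comm, Subgroup.centralizer_eq_top_iff_subset]; simp
    haveI : Subsingleton X := ⟨fun a b => by
      have ha : a ∈ (⊥ : Subgroup X) := htop ▸ Subgroup.mem_top a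
      have hb : b ∈ (⊥ : Subgroup X) := htop ▸ Subgroup.mem_top b
      rw [Subgroup.mem_bot] at ha hb
      rw [ha, hb]⟩
    haveI : Subsingleton (ConjClasses X) := ConjClasses.mk_surjective.subsingleton
    haveI : Nonempty (ConjClasses X) := ⟨ConjClasses.mk 1⟩
    exact ⟨by rw [Nat.card_unique, Nat.card_unique], fun _ => Or.inl isCyclic_of_subsingleton⟩
  obtain ⟨v, hv, hv1⟩ : ∃ v ∈ V, v ≠ 1 := by
    by_contra h
    push Not at h
    exact hV1 ((Subgroup.eq_bot_iff_forall _).2 h)
  have hfaith : ∀ g ∈ G, (∀ w ∈ V, g * w * g⁻¹ = w) → g = 1 := by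
    intro g hg h
    have hgV : g ∈ V := hself ▸ Subgroup.mem_centralizer_iff.2 fun w hw =>
      (mul_inv_eq_iff_eq_mul.1 (h w hw)).symm
    have : g ∈ (⊥ : Subgroup X) := hGV.disjoint.le_bot ⟨hgV, hg⟩
    exact Subgroup.mem_bot.1 this
  obtain ⟨W, _, _, _, ρ, e, H, he0, -, hρ⟩ :=
    H45.Trans.exists_hyp V hVexp hab G hcopG hfaith htrans
  set w := e.symm ⟨v, hv⟩ with hw
  have hw0 : w ≠ 0 := fun h => hv1 (by
    have : (e w : X) = v := by rw [hw, e.apply_symm_apply]
    rw [← this, h, he0])
  haveI : Nontrivial W := ⟨⟨w, 0, hw0⟩⟩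
  set Gv := G ⊓ Subgroup.centralizer ({v} : Set X) with hGv
  have hstab : Nat.card (H45.Trans.stab ρ w) = Nat.card Gv := by
    refine Nat.card_congr
      { toFun := fun g => ⟨g.1.1, g.1.2, ?_⟩
        invFun := fun g => ⟨⟨g.1, g.2.1⟩, ?_⟩
        left_inv := fun g => rfl
        right_inv := fun g => rfl }
    · refine Subgroup.mem_centralizer_singleton_iff.2 ?_
      have h := hρ g.1 w
      have hev : (e w : X) = v := by rw [hw, e.apply_symm_apply]
      rw [H45.Trans.mem_stab.1 g.2, hev] at h
      exact mul_inv_eq_iff_eq_mul.1 h.symm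
    · have hev : (e w : X) = v := by rw [hw, e.apply_symm_apply]
      rw [H45.Trans.mem_stab]
      apply e.injective
      apply Subtype.ext
      rw [hρ, hev]
      exact mul_inv_eq_iff_eq_mul.2 (Subgroup.mem_centralizer_singleton_iff.1 g.2.2)
  have hVW : Nat.card W = Nat.card V := Nat.card_congr e
  have hcopV : (Nat.card V).Coprime (Nat.card G) := by
    rw [← hVW, H45.Trans.card_V (p := p) (V := W)]
    exact ((Fact.out : p.Prime).coprime_iff_not_dvd.2 hcopG).pow_left _
  have hkX : Nat.card (ConjClasses X) ≤ Nat.card (ConjClasses G) + Nat.card Gv := by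
    rw [Cfsg.Agent.S4956.result V hab G hGV hcopV {1, v}
      (fun s hs => by
        simp only [Finset.mem_insert, Finset.mem_singleton] at hs
        rcases hs with rfl | rfl
        · exact one_mem _
        · exact hv)
      (fun u hu => by
        by_cases hu1 : u = 1
        · refine ⟨1, ⟨by simp, 1, one_mem _, by simp [hu1]⟩, ?_⟩
          rintro s ⟨-, g, -, hs⟩
          simpa [hu1] using hs.symm
        · obtain ⟨g, hg, hgu⟩ := htrans u hu v hv hu1 hv1
          refine ⟨v, ⟨by simp, g, hg, hgu⟩, ?_⟩
          rintro s ⟨hs, g', -, hs'⟩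
          simp only [Finset.mem_insert, Finset.mem_singleton] at hs
          rcases hs with rfl | rfl
          · exact absurd (by simpa using mul_inv_eq_one.1 hs') hu1
          · rfl),
      Finset.sum_pair (Ne.symm hv1)]
    refine Nat.add_le_add ?_ ?_
    · have h1 : G ⊓ Subgroup.centralizer ({(1 : X)} : Set X) = G :=
        inf_eq_left.2 fun g _ => Subgroup.mem_centralizer_singleton_iff.2 (by simp)
      rw [h1]
    · exact Nat.card_le_card_of_surjective _ ConjClasses.mk_surjective
  rcases H45.Trans.class_upper H hw0 with ⟨hle, heq⟩ | ⟨h9, h16⟩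
  · rw [hstab, hVW] at hle heq
    exact ⟨hkX.trans hle, fun h => heq (le_antisymm hle (h ▸ hkX))⟩
  · have h2 : Nat.card Gv = 2 := by
      have := H.card_eq hw0
      rw [hstab, h9, h16] at this
      omega
    rw [hVW] at h9
    refine ⟨Cfsg.Agent.S4958.result p V hVexp hidx hself G hGV v hv fun a ha b hb => ?_,
      fun _ => Or.inr (Or.inr ⟨h9, h16⟩)⟩
    haveI : Fact (Nat.Prime 2) := ⟨Nat.prime_two⟩
    haveI := isCyclic_of_prime_card h2
    letI := IsCyclic.commGroup (α := Gv)
    exact congrArg Subtype.val (mul_comm (⟨a, ha⟩ : Gv) ⟨b, hb⟩)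

end Cfsg.Agent.S4957
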