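import Cfsg.Statements.S4989
import Cfsg.Agent.H45.Galois

set_option autoImplicit false
open Cfsg

namespace Cfsg.Agent.S4989

/-- Let H be a subgroup of the finite group G and χ an irreducible complex character of G. Then the inner product of the restriction of χ to H with itself, (1/#H)·Σ_{h ∈ H} |χ(h)|², is at most 1 + #(Z ∖ H)/#H, where Z is the set of zeros of χ in G. -/
theorem result {G : Type*} [Group G] [Finite G] (H : Subgroup G) (χ : Cfsg.IrrCharacter G) : (Nat.card ↥H : ℝ)⁻¹ * ∑ᶠ h : ↥H, ‖(χ : G → ℂ) h‖ ^ 2 ≤ 1 + (Set.ncard ({x : G | (χ : G → ℂ) x = 0} \ (H : Set G)) : ℝ) / (Nat.card ↥H : ℝ) := by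
  classical
  have : Fintype G := Fintype.ofFinite G
  have hc := H26.irr_isCharacter χ
  have hnorm : ∑ g : G, ‖(χ : G → ℂ) g‖ ^ 2 = (Nat.card G : ℝ) := by
    have h := H26.classInner_irr χ χ
    rw [if_pos rfl, Cfsg.classInner, inv_mul_eq_one₀ (Nat.cast_ne_zero.2 Nat.card_pos.ne')] at h
    have h' := congrArg Complex.re h
    simp only [Complex.mul_conj, Complex.re_sum, Complex.ofReal_re, Complex.normSq_eq_norm_sq,
      Complex.natCast_re] at h'
    exact h'.symm
  set S : Finset G := Finset.univ.filter fun g => g ∉ H ∧ (χ : G → ℂ) g ≠ 0 with hS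
  set Z : Finset G := Finset.univ.filter fun g => g ∉ H ∧ (χ : G → ℂ) g = 0 with hZ
  set I : Finset G := Finset.univ.filter fun g => g ∈ H with hI
  have hstab : ∀ k : ℕ, k.Coprime (Nat.card G) → ∀ g ∈ S, g ^ k ∈ S := by
    intro k hk g hg
    simp only [hS, Finset.mem_filter, Finset.mem_univ, true_and] at hg ⊢
    refine ⟨fun h => hg.1 ?_, fun h => hg.2 ((H45.char_pow_eq_zero_iff hc hk g).1 h)⟩
    obtain ⟨m, hm⟩ := exists_pow_eq_self_of_coprime
      (hk.of_dvd_right (orderOf_dvd_natCard g))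
    rw [← hm]
    exact H.pow_mem h m
  have hlow := H45.card_le_sum_char_norm_pow hc S hstab (fun g hg => (Finset.mem_filter.1 hg).2.2) 2
  have hsplit : ∑ g : G, ‖(χ : G → ℂ) g‖ ^ 2
      = ∑ g ∈ I, ‖(χ : G → ℂ) g‖ ^ 2 + ∑ g ∈ S, ‖(χ : G → ℂ) g‖ ^ 2 := by
    rw [← Finset.sum_union (Finset.disjoint_left.2 fun g h1 h2 =>
      (Finset.mem_filter.1 h2).2.1 (Finset.mem_filter.1 h1).2)]
    refine (Finset.sum_subset (Finset.subset_univ _) fun g _ hg => ?_).symm
    simp only [hI, hS, Finset.mem_union, Finset.mem_filter, Finset.mem_univ, true_and,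
      not_or, not_and, not_not] at hg
    simp [hg.2 hg.1]
  have hcard : Nat.card G = Nat.card H + S.card + Z.card := by
    rw [Nat.card_eq_fintype_card, Nat.card_eq_fintype_card, Fintype.card_subtype,
      ← Finset.card_univ, ← Finset.card_filter_add_card_filter_not (fun g => g ∈ H),
      ← Finset.card_filter_add_card_filter_not (s := Finset.univ.filter fun g => g ∉ H)
        (fun g => (χ : G → ℂ) g = 0), Finset.filter_filter, Finset.filter_filter]
    simp only [hS, hZ, ne_eq]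
    omega
  have hsub : ∑ᶠ h : ↥H, ‖(χ : G → ℂ) h‖ ^ 2 = ∑ g ∈ I, ‖(χ : G → ℂ) g‖ ^ 2 := by
    rw [finsum_eq_sum_of_fintype]
    exact (Finset.sum_subtype I (fun g => by simp [hI]) (fun g => ‖(χ : G → ℂ) g‖ ^ 2)).symm
  have hZc : Set.ncard ({x : G | (χ : G → ℂ) x = 0} \ (H : Set G)) = Z.card := by
    rw [← Set.ncard_coe_finset]
    congr 1
    ext x
    simp [hZ, and_comm]
  have hH : (0 : ℝ) < Nat.card H := Nat.cast_pos.2 Nat.card_pos
  rw [hsub, hZc, inv_mul_le_iff₀ hH, mul_add, mul_div_cancel₀ _ hH.ne', mul_one]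
  rw [hnorm, hcard] at hsplit
  push_cast at hsplit
  linarith

end Cfsg.Agent.S4989
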