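import Cfsg.Statements.S4993
import Cfsg.Agent.H52.AvgFix.Metanilpotent

set_option autoImplicit false
open Cfsg

namespace Cfsg.Agent.S4993

/-- Let G be a group of odd order whose order has exactly two prime divisors and whose quotient by its Fitting subgroup is nilpotent (G is metanilpotent), and let χ be a primitive irreducible complex character of G (not induced from a character of any proper subgroup). Then χ(1) divides the size of some conjugacy class of G. -/
theorem result {G : Type*} [Group G] [Fintype G] (hodd : Odd (Nat.card G)) (h2 : (Nat.card G).primeFactors.card = 2) [hF : (Cfsg.fittingSubgroup G).Normal] (hmeta : Group.IsNilpotent (G ⧸ Cfsg.fittingSubgroup G)) (χ : Cfsg.IrrCharacter G) (hprim : ¬ ∃ (H : Subgroup G), H ≠ ⊤ ∧ ∃ θ : ↥H → ℂ, Cfsg.IsCharacter ↥H θ ∧ Cfsg.indFun H θ = (χ : G → ℂ)) : ∃ g : G, Cfsg.charDegree (χ : G → ℂ) ∣ (Subgroup.centralizer ({g} : Set G)).index := by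
  exact Cfsg.Agent.H52.AvgFix.exists_class_of_two_primes h2 hmeta χ hprim

end Cfsg.Agent.S4993
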