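import Cfsg.Agent.H40.HeightZero
import Cfsg.Agent.H40.BlockBasic
import Cfsg.Agent.H42.Central
import Cfsg.Agent.H43.CharTools
import Cfsg.Agent.H26.CharLinear
import Cfsg.Statements.S5001

set_option autoImplicit false
open Cfsg

namespace Cfsg.Agent.S5001

/-- Let p be a prime, G a finite group and B a p-block of G (relative to a maximal ideal M of the algebraic integers containing p) with defect group D. Let Z be a central p-subgroup of G contained in D and λ a linear character of Z (a homomorphism to the nonzero complex numbers). Say an irreducible character χ of G lies over λ when χ(z) = χ(1)λ(z) for all z ∈ Z. If some irreducible character in B lying over λ has height zero, then λ extends to a linear character of D. -/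
theorem result {G : Type*} [Group G] [Finite G] (p : ℕ) [Fact p.Prime] (M : Ideal Cfsg.AlgInt) (hM : Cfsg.IsPModular p M) (B : Set (Cfsg.IrrCharacter G)) (hB : Cfsg.IsPBlock M B) (D : Subgroup G) (hD : Cfsg.IsDefectGroup p M B D) (Z : Subgroup G) (hZc : Z ≤ Subgroup.center G) (hZp : IsPGroup p ↥Z) (hZD : Z ≤ D) (lam : ↥Z →* ℂˣ) (χ : Cfsg.IrrCharacter G) (hχ : χ ∈ B) (hover : (∀ z : ↥Z, (χ : G → ℂ) z = (χ : G → ℂ) 1 * (lam z : ℂ))) (h0 : Cfsg.blockHeight p B (χ : G → ℂ) = 0) : (∃ μ : ↥D →* ℂˣ, ∀ z : ↥Z, μ ⟨(z : G), hZD z.2⟩ = lam z) := by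
  have := hM.2.1
  have := Cfsg.Agent.H41.IsPModular.charP hM
  classical
  obtain ⟨g, hg, hDg⟩ := Cfsg.Agent.H40.isDefectGroup_iff.1 hD
  have hunit := Cfsg.Agent.H40.not_memLocalIdeal_of_height_zero hM hB hg hχ h0
  set K : Subgroup G := D ⊔ Subgroup.zpowers g with hK
  have : Fintype K := Fintype.ofFinite _
  have hgK : g ∈ K := Subgroup.mem_sup_right (Subgroup.mem_zpowers g)
  have hKg : K ≤ Subgroup.centralizer ({g} : Set G) :=
    sup_le hDg.1 (Subgroup.zpowers_le.2 (Subgroup.mem_centralizer_singleton_iff.2 rfl))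
  set g' : K := ⟨g, hgK⟩ with hg'
  have hgc : g' ∈ Subgroup.center K := Subgroup.mem_center_iff.2 fun k =>
    Subtype.ext (Subgroup.mem_centralizer_singleton_iff.1 (hKg k.2))
  have hch : Cfsg.IsCharacter K (fun k : K => (χ : G → ℂ) k) :=
    Cfsg.Agent.H26.isCharacter_comp (Cfsg.Agent.H26.irr_isCharacter χ) K.subtype
  -- a constituent of degree prime to `p`
  obtain ⟨θ, hθm, hθp⟩ : ∃ θ : Cfsg.IrrCharacter K,
      Cfsg.Agent.H43.mult (fun k : K => (χ : G → ℂ) k) θ ≠ 0 ∧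
        ¬ p ∣ Cfsg.charDegree (θ : K → ℂ) := by
    by_contra hne
    push Not at hne
    refine hunit ?_
    have h := congrFun (Cfsg.Agent.H43.eq_sum_mult hch) g'
    rw [Finset.sum_apply] at h
    rw [show (χ : G → ℂ) g = _ from h]
    refine Cfsg.Agent.H40.memLocalIdeal_sum _ _ fun θ _ => ?_
    by_cases hm : Cfsg.Agent.H43.mult (fun k : K => (χ : G → ℂ) k) θ = 0
    · simp only [hm, Pi.smul_apply, Nat.cast_zero, zero_smul]
      exact Cfsg.Agent.H41.memLocalIdeal_iff_res.2 ⟨zero_mem _, map_zero _⟩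
    obtain ⟨c, hc⟩ := hne θ hm
    have hind : Subgroup.centralizer ({g'} : Set K) = ⊤ := eq_top_iff.2 fun k _ =>
      Subgroup.mem_centralizer_singleton_iff.2 (Subgroup.mem_center_iff.1 hgc k)
    have hint := Cfsg.Agent.H41.isIntegral_mem_localRing (M := M)
      (Cfsg.Agent.H41.isIntegral_centralChar θ g')
    have hθ1 := Cfsg.Agent.H26.irr_one_ne_zero θ
    have e : (θ : K → ℂ) g' = Cfsg.centralChar (θ : K → ℂ) g' * ((p : ℂ) * (c : ℂ)) := by
      rw [Cfsg.centralChar, hind, Subgroup.index_top, Nat.cast_one, one_mul, ← Nat.cast_mul, ← hc,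
        ← Cfsg.Agent.H42.irr_one_eq, div_mul_cancel₀ _ hθ1]
    rw [Pi.smul_apply, smul_eq_mul, e]
    refine Cfsg.Agent.H40.memLocalIdeal_mul_left (natCast_mem _ _)
      (Cfsg.Agent.H40.memLocalIdeal_mul_left hint ?_)
    rw [mul_comm]
    refine Cfsg.Agent.H40.memLocalIdeal_mul_left (natCast_mem _ _)
      (Cfsg.Agent.H41.memLocalIdeal_iff_res.2 ⟨natCast_mem _ _, ?_⟩)
    rw [show (⟨(p : ℂ), natCast_mem _ _⟩ : Cfsg.Agent.H41.localRing M) = (p : ℕ) from
      Subtype.ext rfl, map_natCast, CharP.cast_eq_zero]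
  -- it is linear
  have hθ1 : (θ : K → ℂ) 1 = 1 := by
    have hdvd : Cfsg.charDegree (θ : K → ℂ) ∣ (Subgroup.center K).index := by
      obtain ⟨n, ρ, hρ, hρθ⟩ := θ.2
      have := hρ
      rw [Cfsg.Agent.H42.charDegree_of_eq_nat (χ := (θ : K → ℂ)) (by rw [← hρθ, ρ.char_one])]
      exact Cfsg.Agent.H26.finrank_dvd_index_center ρ
    have hN : (Subgroup.zpowers g').Normal := ⟨fun n hn k => by
      rw [Subgroup.mem_center_iff.1 (Subgroup.zpowers_le.2 hgc hn) k, mul_inv_cancel_right]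
      exact hn⟩
    have hsurj : Function.Surjective ((QuotientGroup.mk' (Subgroup.zpowers g')).comp
        (Subgroup.inclusion (le_sup_left : D ≤ K))) := by
      intro q
      obtain ⟨⟨k, hk⟩, rfl⟩ := QuotientGroup.mk'_surjective _ q
      rw [hK, ← SetLike.mem_coe, Subgroup.coe_mul_of_left_le_normalizer_right D (Subgroup.zpowers g)
        (fun d hd => Subgroup.centralizer_le_normalizer _ (by
          rw [Subgroup.zpowers_eq_closure, Subgroup.centralizer_closure]
          exact hDg.1 hd))] at hk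
      obtain ⟨d, hd, n, hn, rfl⟩ := hk
      refine ⟨⟨d, hd⟩, QuotientGroup.eq.2 ?_⟩
      obtain ⟨i, rfl⟩ := Subgroup.mem_zpowers_iff.1 hn
      exact Subgroup.mem_zpowers_iff.2 ⟨i, Subtype.ext (by simp [hg'])⟩
    obtain ⟨m, hm⟩ := IsPGroup.iff_card.1
      ((Cfsg.Agent.H40.isPGroup_of_isDefectGroup hD).of_surjective _ hsurj)
    have h2 : Cfsg.charDegree (θ : K → ℂ) ∣ p ^ m := by
      rw [← hm, ← Subgroup.index_eq_card]
      exact hdvd.trans (Subgroup.index_dvd_of_le (Subgroup.zpowers_le.2 hgc))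
    obtain ⟨i, -, hi⟩ := (Nat.dvd_prime_pow Fact.out).1 h2
    have hi0 : i = 0 := by
      by_contra h
      exact hθp (hi ▸ dvd_pow_self p h)
    rw [Cfsg.Agent.H42.irr_one_eq, hi, hi0, pow_zero, Nat.cast_one]
  obtain ⟨f, hf⟩ := Cfsg.Agent.H26.exists_hom_of_isCharacter_one
    (Cfsg.Agent.H26.irr_isCharacter θ) hθ1
  refine ⟨f.comp (Subgroup.inclusion le_sup_left), fun z => Units.ext ?_⟩
  set z' : K := ⟨(z : G), Subgroup.mem_sup_left (hZD z.2)⟩
  show (f z' : ℂ) = _
  have hS : ∑ k : K, (χ : G → ℂ) k * (starRingEnd ℂ) ((θ : K → ℂ) k) ≠ 0 := by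
    intro h
    have h' := Cfsg.Agent.H43.classInner_eq_mult hch θ
    rw [Cfsg.classInner, h, mul_zero, eq_comm, Nat.cast_eq_zero] at h'
    exact hθm h'
  have hshift := Fintype.sum_equiv (Equiv.mulLeft z')
    (fun k : K => (lam z : ℂ) * (starRingEnd ℂ) (f z' : ℂ) *
      ((χ : G → ℂ) k * (starRingEnd ℂ) ((θ : K → ℂ) k)))
    (fun k : K => (χ : G → ℂ) k * (starRingEnd ℂ) ((θ : K → ℂ) k)) fun k => by
      simp only [Equiv.coe_mulLeft, ← hf, map_mul, Units.val_mul, Subgroup.coe_mul]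
      rw [Cfsg.Agent.H42.irr_central_mul χ (hZc z.2), hover,
        mul_div_cancel_left₀ _ (Cfsg.Agent.H26.irr_one_ne_zero χ)]
      ring
  rw [← Finset.mul_sum, mul_eq_right₀ hS] at hshift
  have hconj : (starRingEnd ℂ) (f z' : ℂ) = ((f z' : ℂ))⁻¹ := by
    rw [hf z', ← Cfsg.Agent.H26.irr_inv, ← hf, ← hf, map_inv, Units.val_inv_eq_inv_val]
  rw [hconj, mul_inv_eq_one₀ (Units.ne_zero _)] at hshift
  exact hshift.symm

end Cfsg.Agent.S5001
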