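import Cfsg.Statements.S5011
import Mathlib

set_option autoImplicit false
open Cfsg

namespace Cfsg.Agent.S5011

/-- Let G be a finite non-abelian simple group and ρ an irreducible complex representation of G on a space of dimension greater than one (irreducible in the sense that the only subspaces invariant under every ρ(x) are 0 and the whole space). Then for every non-identity element g of G, the centralizer of g does not act irreducibly: there is a non-zero proper subspace invariant under ρ(c) for every c commuting with g. -/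
theorem result {G : Type*} [Group G] [Finite G] [IsSimpleGroup G]
    (hG : ¬ IsMulCommutative G) {V : Type*} [AddCommGroup V] [Module ℂ V] [FiniteDimensional ℂ V]
    (ρ : Representation ℂ G V)
    (hirr : ∀ W : Submodule ℂ V, (∀ x : G, ∀ v ∈ W, ρ x v ∈ W) → W = ⊥ ∨ W = ⊤)
    (hdim : 1 < Module.finrank ℂ V) (g : G) (hg : g ≠ 1) :
    ∃ W : Submodule ℂ V, W ≠ ⊥ ∧ W ≠ ⊤ ∧ ∀ c ∈ Subgroup.centralizer ({g} : Set G), ∀ v ∈ W, ρ c v ∈ W := by
  by_contra hcon
  push Not at hcon
  haveI : Nontrivial V := Module.nontrivial_of_finrank_pos (R := ℂ) (by omega)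
  obtain ⟨μ, hμ⟩ := Module.End.exists_eigenvalue (ρ g)
  have hE : Module.End.eigenspace (ρ g) μ = ⊤ := by
    by_contra hE'
    obtain ⟨c, hc, v, hv, hv'⟩ := hcon _ hμ hE'
    apply hv'
    rw [Module.End.mem_eigenspace_iff] at hv ⊢
    have hgc : g * c = c * g := Subgroup.mem_centralizer_iff.1 hc g rfl
    rw [← Module.End.mul_apply, ← map_mul, hgc, map_mul, Module.End.mul_apply, hv, map_smul]
  have hscal : ∀ v, ρ g v = μ • v := fun v => by
    rw [← Module.End.mem_eigenspace_iff, hE]; trivial
  have hker : (ρ : G →* V →ₗ[ℂ] V).ker = ⊥ := by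
    rcases (inferInstance : (ρ : G →* V →ₗ[ℂ] V).ker.Normal).eq_bot_or_eq_top with h | h
    · exact h
    · exfalso
      have htriv : ∀ x : G, ρ x = 1 := fun x => MonoidHom.mem_ker.1 (h ▸ Subgroup.mem_top x)
      obtain ⟨v, hv⟩ := exists_ne (0 : V)
      rcases hirr (ℂ ∙ v) (fun x w hw => by rw [htriv x]; exact hw) with h1 | h1
      · exact hv (Submodule.span_singleton_eq_bot.1 h1)
      · have := finrank_span_singleton (K := ℂ) hv
        rw [h1, finrank_top] at this
        omega
  have hgz : g ∈ Subgroup.center G := by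
    rw [Subgroup.mem_center_iff]
    intro x
    have h : x * g * x⁻¹ * g⁻¹ ∈ (ρ : G →* V →ₗ[ℂ] V).ker := by
      rw [MonoidHom.mem_ker]
      have hcomm : ρ (x * g) = ρ (g * x) := by
        rw [map_mul, map_mul]
        exact LinearMap.ext fun v => by
          rw [Module.End.mul_apply, Module.End.mul_apply, hscal, hscal, map_smul]
      rw [map_mul, map_mul, hcomm, ← map_mul, ← map_mul]
      simp
    rw [hker, Subgroup.mem_bot, mul_inv_eq_one, mul_inv_eq_iff_eq_mul] at h
    exact h
  rcases (inferInstance : (Subgroup.center G).Normal).eq_bot_or_eq_top with h | h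
  · exact hg (Subgroup.mem_bot.1 (h ▸ hgz))
  · exact hG ⟨⟨fun a b => ((Subgroup.mem_center_iff.1 (h ▸ Subgroup.mem_top a)) b).symm⟩⟩

end Cfsg.Agent.S5011
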