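import Cfsg.Statements.S5012
import Cfsg.Agent.H64.CharP.Glue
import Cfsg.Agent.H64.CharP.TwInst
import Cfsg.Agent.H64.CharP.POmega
import Cfsg.Agent.H64.CharP.PSU
import Cfsg.Agent.H64.CharP.PSL
import Cfsg.Agent.H64.CharP.PSp
import Cfsg.Agent.H64.CharP.F4Twist
import Cfsg.Agent.H27.CharP.Ree
import Cfsg.Agent.H27.CharP.Sz

set_option autoImplicit false
open Cfsg

namespace Cfsg.Agent.S5012

/-- Let G be a finite simple group of Lie type in characteristic p. Then every p-block of G has defect zero or full defect: its defect is 0 or the exponent of p in the order of G (its defect groups are trivial or Sylow p-subgroups). -/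
theorem result {G : Type*} [Group G] [Finite G] (p : ℕ) [Fact p.Prime] (hG : Cfsg.IsLieTypeChar p G) (M : Ideal Cfsg.AlgInt) (hM : Cfsg.IsPModular p M) (B : Set (Cfsg.IrrCharacter G)) (hB : Cfsg.IsPBlock M B) : Cfsg.blockDefect p B = 0 ∨ Cfsg.blockDefect p B = (Nat.card G).factorization p := by
  refine H64.CharP.Local.blockDefect_eq ?_ M hM B hB
  rcases hG with h | h | h | h | h | h | h | h | ⟨rfl, h⟩ | ⟨rfl, h⟩ | ⟨rfl, h⟩
  exacts [H64.CharP.local_psl h, H64.CharP.local_psp h, H64.CharP.local_psu h,
    H64.CharP.local_pomega (Or.inl h), H64.CharP.local_pomega (Or.inr (Or.inl h)),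
    H64.CharP.local_pomega (Or.inr (Or.inr h)), H64.CharP.local_exceptional h,
    H64.CharP.local_twistedE6D4 h, H27.CharP.local_isoSuzuki h, H64.CharP.local_iso2F4 h,
    H27.CharP.local_isoRee h]

end Cfsg.Agent.S5012
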