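import Cfsg.Statements.S5075
import Cfsg.Agent.H92.Tv.Main

set_option autoImplicit false
open Cfsg

namespace Cfsg.Agent.S5075

/-- Let p be an odd prime, V a finite-dimensional vector space over the field with p elements, and H a group of linear automorphisms of V generated by transvections (elements of order p fixing a hyperplane pointwise) and having no nontrivial normal p-subgroup. Then for some n ≥ 1 there are a decomposition V = V₀ ⊕ V₁ ⊕ ⋯ ⊕ Vₙ into H-invariant subspaces and a decomposition of H as the internal direct product of normal subgroups H₁, …, Hₙ such that Hⱼ acts trivially on every Vᵢ with i ≠ j, and Hⱼ induces on Vⱼ exactly the special linear group of Vⱼ or exactly the isometry group of a non-degenerate alternating form on Vⱼ. -/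
theorem result {p : ℕ} [Fact p.Prime] (hp : Odd p) {V : Type*} [AddCommGroup V] [Module (ZMod p) V] [Finite V]
    (H : Subgroup (V ≃ₗ[ZMod p] V)) (T : Set (V ≃ₗ[ZMod p] V)) (hHT : H = Subgroup.closure T)
    (hT : ∀ t ∈ T, orderOf t = p ∧
      Module.finrank (ZMod p) ↥(LinearMap.ker ((t : V →ₗ[ZMod p] V) - LinearMap.id)) + 1 =
        Module.finrank (ZMod p) V)
    (hOp : Cfsg.pCore p ↥H = ⊥) :
    ∃ (n : ℕ) (W : Fin (n + 1) → Submodule (ZMod p) V) (K : Fin n → Subgroup (V ≃ₗ[ZMod p] V)),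
      1 ≤ n ∧ DirectSum.IsInternal W ∧
      (∀ h ∈ H, ∀ i, (W i).map (h : V →ₗ[ZMod p] V) = W i) ∧
      (∀ j, K j ≤ H ∧ ((K j).subgroupOf H).Normal) ∧ ⨆ j, K j = H ∧
      (∀ j, K j ⊓ (⨆ j' ∈ {j' : Fin n | j' ≠ j}, K j') = ⊥) ∧
      (∀ j j', j ≠ j' → ∀ a ∈ K j, ∀ b ∈ K j', a * b = b * a) ∧
      (∀ j, ∀ h ∈ K j, ∀ i : Fin (n + 1), i ≠ j.succ → ∀ v ∈ W i, h v = v) ∧
      (∀ j, ∃ ρ : ↥(K j) →* (↥(W j.succ) ≃ₗ[ZMod p] ↥(W j.succ)),
        (∀ (h : ↥(K j)) (v : ↥(W j.succ)), ((ρ h v : ↥(W j.succ)) : V) = (h : V ≃ₗ[ZMod p] V) (v : V)) ∧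
        ((ρ.range : Set (↥(W j.succ) ≃ₗ[ZMod p] ↥(W j.succ))) =
            {f : ↥(W j.succ) ≃ₗ[ZMod p] ↥(W j.succ) | LinearMap.det (f : ↥(W j.succ) →ₗ[ZMod p] ↥(W j.succ)) = 1} ∨
          ∃ B : LinearMap.BilinForm (ZMod p) ↥(W j.succ), B.IsAlt ∧ B.Nondegenerate ∧
            (ρ.range : Set (↥(W j.succ) ≃ₗ[ZMod p] ↥(W j.succ))) = {f : ↥(W j.succ) ≃ₗ[ZMod p] ↥(W j.succ) | ∀ x y, B (f x) (f y) = B x y})) := by
  classical
  have hmem : ∀ t ∈ T, t ∈ H := fun t ht => hHT ▸ Subgroup.subset_closure ht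
  have hgen : H ≤ Subgroup.closure
      {g | g ∈ H ∧ ∃ a : H92.Tv.Pair H, ∀ v, g v = v + a.1.2 v • a.1.1} := by
    conv_lhs => rw [hHT]
    refine Subgroup.closure_mono fun t ht => ⟨hmem t ht, ?_⟩
    obtain ⟨a, ha, h1, h2, hv⟩ := H92.Tv.isTv_of_orderOf (hmem t ht) (hT t ht).1 (hT t ht).2
    exact ⟨⟨a, ha, h1, h2⟩, hv⟩
  haveI : NeZero p := ⟨(Fact.out : p.Prime).ne_zero⟩
  haveI : Finite (Module.Dual (ZMod p) V) := Finite.of_injective _ DFunLike.coe_injective
  haveI : Finite (H92.Tv.Pair H) := Subtype.finite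
  haveI : Finite (Quotient (H92.Tv.linkSetoid H)) := Quotient.finite _
  obtain ⟨n, ⟨e⟩⟩ := Finite.exists_equiv_fin (Quotient (H92.Tv.linkSetoid H))
  rcases Nat.eq_zero_or_pos n with rfl | hn
  · have hno : IsEmpty (H92.Tv.Pair H) := ⟨fun a => (e (Quotient.mk _ a)).elim0⟩
    have hbot : H = ⊥ := le_bot_iff.mp (hgen.trans ((Subgroup.closure_le _).mpr
      fun g ⟨_, a, _⟩ => isEmptyElim a))
    refine ⟨1, Fin.cases ⊤ fun _ => ⊥, fun _ => ⊥, le_rfl, ?_, ?_, ?_, ?_, ?_, ?_, ?_, ?_⟩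
    · refine DirectSum.isInternal_submodule_of_iSupIndep_of_iSup_eq_top ?_ ?_
      · intro i
        induction i using Fin.cases with
        | zero =>
          have : (⨆ (j) (_ : j ≠ (0 : Fin 2)),
              (Fin.cases ⊤ (fun _ => ⊥) j : Submodule (ZMod p) V)) = ⊥ := by
            refine eq_bot_iff.mpr (iSup₂_le fun j hj => ?_)
            induction j using Fin.cases with
            | zero => exact absurd rfl hj
            | succ k => exact le_rfl
          rw [this]; exact disjoint_bot_right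
        | succ k => exact disjoint_bot_left
      · exact eq_top_iff.mpr (le_iSup_of_le 0 le_rfl)
    · intro h hh i
      rw [hbot, Subgroup.mem_bot] at hh
      subst hh
      exact Submodule.map_id _
    · exact fun _ => ⟨bot_le, ⟨fun m hm g => by
        have hm1 : m = 1 := Subtype.ext (Subgroup.mem_bot.mp hm)
        subst hm1; simp⟩⟩
    · rw [hbot]; simp
    · intro j; simp
    · intro j j' hne a ha b hb
      rw [Subgroup.mem_bot] at ha hb
      rw [ha, hb]
    · intro j h hh i _ v _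
      rw [Subgroup.mem_bot] at hh
      rw [hh]; rfl
    · intro j
      refine ⟨1, fun h v => ?_, Or.inl ?_⟩
      · rw [show (h : V ≃ₗ[ZMod p] V) = 1 from Subgroup.mem_bot.mp h.2]; rfl
      · have hss : Subsingleton
            ↥((Fin.cases ⊤ (fun _ => ⊥) j.succ : Submodule (ZMod p) V)) :=
          ⟨fun a b => Subtype.ext (((Submodule.mem_bot _).mp a.2).trans ((Submodule.mem_bot _).mp b.2).symm)⟩
        ext f
        constructor
        · rintro ⟨g, rfl⟩
          exact LinearMap.det_id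
        · intro _
          exact ⟨1, LinearEquiv.ext fun v => Subsingleton.elim _ _⟩
  · obtain ⟨W, K, h⟩ := H92.Tv.decomposition hp hgen hOp e.symm
    exact ⟨n, W, K, hn, h⟩

end Cfsg.Agent.S5075
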