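import Cfsg.Statements.S5137
import Cfsg.Agent.H94.ProductSaturated

set_option autoImplicit false
open Cfsg

namespace Cfsg.Agent.S5137

/-- Let F₁ and F₂ be saturated fusion systems over finite p-groups S₁ and S₂. Then their direct product (the fusion system over S₁ × S₂ whose maps are the restrictions of the product maps (φ₁, φ₂)) is saturated. -/
theorem result {Ω₁ Ω₂ : Type*} [Group Ω₁] [Group Ω₂] {S₁ : Subgroup Ω₁} {S₂ : Subgroup Ω₂} [Finite S₁] [Finite S₂] (p : ℕ) [Fact p.Prime] (h₁ : IsPGroup p S₁) (h₂ : IsPGroup p S₂) (F₁ : Cfsg.FusionSystem S₁) (F₂ : Cfsg.FusionSystem S₂) (hF₁ : F₁.IsSaturated p) (hF₂ : F₂.IsSaturated p) (E : Cfsg.FusionSystem (S₁.prod S₂)) (hE : Cfsg.FusionSystem.IsProductSystem F₁ F₂ E) : E.IsSaturated p := by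
  exact H94.product_isSaturated h₁ h₂ hF₁ hF₂ hE

end Cfsg.Agent.S5137
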