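import Cfsg.Statements.S5153
import Cfsg.Agent.H94.StrongClosure

set_option autoImplicit false
open Cfsg

namespace Cfsg.Agent.S5153

/-- Let F be a saturated fusion system over a finite p-group S and E a subnormal subsystem of F over T. Then every subgroup of T that is fully normalized in F is fully normalized in E. -/
theorem result {Ω : Type*} [Group Ω] {S : Subgroup Ω} [Finite S] (p : ℕ) [Fact p.Prime] (hS : IsPGroup p S) (F : Cfsg.FusionSystem S) (hF : F.IsSaturated p) {T : Subgroup Ω} (E : Cfsg.FusionSystem T) (hE : E.IsSubnormalIn F p) (P : Subgroup Ω) (hPT : P ≤ T) (hP : F.IsFullyNormalized P) : E.IsFullyNormalized P := by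
  suffices h : ∀ {T S : Subgroup Ω} {E : Cfsg.FusionSystem T} {F : Cfsg.FusionSystem S} {q : ℕ},
      E.IsSubnormalIn F q → q = p → Finite S → IsPGroup p S →
      T ≤ S ∧ ∀ P : Subgroup Ω, P ≤ T → F.IsFullyNormalized P → E.IsFullyNormalized P from
    (h hE rfl inferInstance hS).2 P hPT hP
  intro T S E F q hE
  induction hE with
  | refl F q => exact fun _ _ _ => ⟨le_rfl, fun P _ hP => hP⟩
  | @step U S E D F q _ hDF ih =>
    intro hq hfin hS
    subst hq
    obtain ⟨⟨hDs, hFs, hI⟩, -⟩ := hDF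
    have hUS : U ≤ S := hI.2.1.1
    have : Finite U := Finite.of_injective _ (Subgroup.inclusion_injective hUS)
    obtain ⟨hTU, ih⟩ := ih rfl this (hS.to_le hUS)
    refine ⟨hTU.trans hUS, fun P hPT hP => ih P hPT ⟨hPT.trans hTU, fun Q hQ => ?_⟩⟩
    obtain ⟨φ, hφ, hr⟩ := hQ
    obtain ⟨φ', hφ', hr'⟩ := H96.isConj_symm (F := F) ⟨φ, hI.1 P hφ, hr⟩
    obtain ⟨hA, hR⟩ := H94.fullyNormalized_spec hS hFs hP
    obtain ⟨-, -, ψ, hψ, hval, -⟩ := H94.exists_ext_normalizer hS hA hR hφ' hr'
    have hle : Cfsg.FusionSystem.normalizerIn U Q ≤ Cfsg.FusionSystem.normalizerIn S Q :=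
      inf_le_inf_right _ hUS
    have : Finite (Cfsg.FusionSystem.normalizerIn U P : Subgroup Ω) :=
      Finite.of_injective _ (Subgroup.inclusion_injective (inf_le_left.trans hUS :
        Cfsg.FusionSystem.normalizerIn U P ≤ S))
    exact Nat.card_le_card_of_injective (fun g : Cfsg.FusionSystem.normalizerIn U Q =>
      (⟨ψ ⟨g, hle g.2⟩, H94.apply_mem_of_stronglyClosed hI.2.1 hψ g.2.1, (hval _).2⟩ :
        Cfsg.FusionSystem.normalizerIn U P)) fun a b hab =>
      Subtype.ext (congrArg Subtype.val (F.injective_of_mem hψ (congrArg Subtype.val hab)) :)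

end Cfsg.Agent.S5153
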