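import Cfsg.Statements.S5223
import Cfsg.Agent.H94.SatBasic

set_option autoImplicit false
open Cfsg

namespace Cfsg.Agent.S5223

/-- Let F be a saturated fusion system over a finite p-group S. Suppose there are subgroups Q₀ = S, Q₁, …, Qₙ = 1 (not required to be nested) such that for each i < n the focal subgroup of Qᵢ (generated by the elements x⁻¹φ(x), x ∈ Qᵢ, φ a map of F defined on the cyclic group generated by x) lies in Qᵢ₊₁. Then F is the inner fusion system of S. -/
theorem result {Ω : Type*} [Group Ω] {S : Subgroup Ω} [Finite S] (p : ℕ) [Fact p.Prime] (hS : IsPGroup p S) (F : Cfsg.FusionSystem S) (hF : F.IsSaturated p) (n : ℕ) (Q : Fin (n + 1) → Subgroup Ω) (hQ0 : Q 0 = S) (hQn : Q (Fin.last n) = ⊥) (hstep : ∀ i : Fin n, Subgroup.closure {y : Ω | ∃ x ∈ Q i.castSucc, ∃ φ ∈ F.Hom (Subgroup.zpowers x), y = x⁻¹ * φ ⟨x, Subgroup.mem_zpowers x⟩} ≤ Q i.succ) : ∀ P : Subgroup Ω, F.Hom P = (Cfsg.innerFusionSystem S).Hom P := by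
  -- every automorphism of order prime to `p` fixes every element
  have hfix : ∀ (P : Subgroup Ω), ∀ α ∈ F.autGroup P, P ≤ S → (orderOf α).Coprime p → α = 1 := by
    intro P α hα hPS hcop
    have := H96.finite_of_le hPS
    have hαF := (H96.mem_autGroup F hPS).1 hα
    have key : ∀ i : Fin (n + 1), ∀ x : P, (x : Ω) ∈ Q i → α x = x := by
      intro i
      induction i using Fin.reverseInduction with
      | last =>
        intro x hx
        rw [hQn, Subgroup.mem_bot] at hx
        rw [show x = 1 from Subtype.ext hx, map_one]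
      | cast j ih =>
        intro x hx
        have hle : Subgroup.zpowers (x : Ω) ≤ P := Subgroup.zpowers_le.2 x.2
        have hy : (x : Ω)⁻¹ * (α x : P) ∈ Q j.succ :=
          hstep j (Subgroup.subset_closure ⟨x, hx, _, H96.res_mem F hαF hle, rfl⟩)
        have hy' : α (x⁻¹ * α x) = x⁻¹ * α x := ih (x⁻¹ * α x) hy
        set y := x⁻¹ * α x with hydef
        have hpow : ∀ k : ℕ, (α ^ k) x = x * y ^ k := by
          intro k
          induction k with
          | zero => simp
          | succ k ihk =>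
            rw [pow_succ', MulAut.mul_apply, ihk, map_mul, map_pow, hy',
              show α x = x * y by rw [hydef]; group, pow_succ' y, mul_assoc]
        have h1 := hpow (orderOf α)
        rw [pow_orderOf_eq_one] at h1
        simp only [MulAut.one_apply] at h1
        have hyo : y ^ orderOf α = 1 := mul_left_cancel (a := x) (by rw [mul_one]; exact h1.symm)
        obtain ⟨k, hk⟩ := (hS.to_le hPS) y
        have hy1 : y = 1 := by
          rw [← orderOf_eq_one_iff]
          exact Nat.eq_one_of_dvd_coprimes (hcop.pow_right k) (orderOf_dvd_of_pow_eq_one hyo)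
            (orderOf_dvd_of_pow_eq_one hk)
        exact (inv_mul_eq_one.1 hy1).symm
    exact MulEquiv.ext fun x => key 0 x (hQ0 ▸ hPS x.2)
  -- so every automizer is a `p`-group
  have hp : ∀ P : Subgroup Ω, P ≤ S → IsPGroup p (F.autGroup P) := by
    intro P hPS a
    have := H96.finite_of_le hPS
    obtain ⟨k, m, hm, hkm⟩ := Nat.exists_eq_pow_mul_and_not_dvd (orderOf_pos a).ne' p
      (Fact.out : p.Prime).ne_one
    refine ⟨k, Subtype.ext (hfix P _ (a ^ p ^ k).2 hPS ?_)⟩
    rw [Subgroup.orderOf_coe, orderOf_pow_of_dvd (pow_ne_zero _ (Fact.out : p.Prime).ne_zero)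
      (hkm ▸ dvd_mul_right _ _), hkm, Nat.mul_div_cancel_left _ (pow_pos (Fact.out : p.Prime).pos _)]
    exact ((Fact.out : p.Prime).coprime_iff_not_dvd.2 hm).symm
  intro P
  refine Set.Subset.antisymm (H94.alperin_le hS hF (Cfsg.innerFusionSystem S) ?_ P) ?_
  · intro U hU _ _ α hα
    have := H96.finite_of_le hU.1
    obtain ⟨R, hR⟩ := (H94.fullyNormalized_spec hS hF hU).1.2
    have htop : (R : Subgroup (F.autGroup U)) = ⊤ :=
      (R.is_maximal' ((hp U hU.1).to_subgroup ⊤) le_top).symm
    have hmem : (⟨α, hα⟩ : F.autGroup U) ∈ (autInducedBy S U).subgroupOf (F.autGroup U) := by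
      rw [← hR, htop]; trivial
    obtain ⟨g, hg, hge⟩ := H96.mem_autInducedBy.1 (Subgroup.mem_subgroupOf.1 hmem)
    refine (H96.mem_autGroup _ hU.1).2 ?_
    exact ⟨hU.1, g, hg, hge⟩
  · rintro φ ⟨hP, g, hg, hge⟩
    exact H96.mem_congr F (F.conj_mem hP hg) hge

end Cfsg.Agent.S5223
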