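import Cfsg.Statements.S5224
import Cfsg.Agent.H80.TateRelative
import Cfsg.Agent.H93.Focal


set_option autoImplicit false
open Cfsg

namespace Cfsg.Agent.S5224

/-- Tate's Theorem for fusion systems. Let F be a saturated fusion system over a finite p-group S and H a saturated fusion system over S contained in F. Then the following are equivalent: the elementary focal subgroups Φ(S)·foc agree for F and H; the focal subgroups of F and H agree; the hyperfocal subgroups of F and H agree. -/
theorem result {Ω : Type*} [Group Ω] {S : Subgroup Ω} [Finite S] (p : ℕ) [Fact p.Prime] (hS : IsPGroup p S) (F : Cfsg.FusionSystem S) (hF : F.IsSaturated p) (H : Cfsg.FusionSystem S) (hH : H.IsSaturated p) (hHF : H.IsSubsystemOf F) : (((frattini ↥S).map S.subtype ⊔ F.focalSubgroup) = ((frattini ↥S).map S.subtype ⊔ H.focalSubgroup) ↔ F.focalSubgroup = H.focalSubgroup) ∧ (F.focalSubgroup = H.focalSubgroup ↔ F.hyperfocalSubgroup p = H.hyperfocalSubgroup p) := by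
  have hle : H.hyperfocalSubgroup p ≤ F.hyperfocalSubgroup p := by
    rw [FusionSystem.hyperfocalSubgroup, Subgroup.closure_le]
    rintro _ ⟨U, α, x, hU, hα, rfl⟩
    have hsub : H.autGroup U ≤ F.autGroup U := fun k hk =>
      (H96.mem_autGroup F hU).2 (hHF U ((H96.mem_autGroup H hU).1 hk))
    exact Subgroup.subset_closure ⟨U, Subgroup.inclusion hsub α, x, hU,
      H50.map_pResidual_le p (Subgroup.inclusion hsub) ⟨α, hα, rfl⟩, rfl⟩
  have hHS := H94.hyperfocal_le H p
  haveI : ((H.hyperfocalSubgroup p).subgroupOf S).Normal := ⟨fun y hy s => by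
    rw [Subgroup.mem_subgroupOf] at hy ⊢
    exact H94.conj_mem_hyperfocal s.2 hy⟩
  have hfF := H93.focal_eq_hyperfocal_sup_commutator hS hF
  have hfH := H93.focal_eq_hyperfocal_sup_commutator hS hH
  have hcomm : ⁅(S : Subgroup Ω), (S : Subgroup Ω)⁆ ≤ (frattini ↥S).map S.subtype := by
    rw [show ⁅(S : Subgroup Ω), (S : Subgroup Ω)⁆ = (⁅(⊤ : Subgroup ↥S), (⊤ : Subgroup ↥S)⁆ : Subgroup ↥S).map S.subtype by
      rw [Subgroup.map_commutator, ← MonoidHom.range_eq_map, Subgroup.range_subtype]]
    exact Subgroup.map_mono (H24.commutator_le_frattini hS)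
  have key : (frattini ↥S).map S.subtype ⊔ F.focalSubgroup =
      (frattini ↥S).map S.subtype ⊔ H.focalSubgroup →
      F.hyperfocalSubgroup p = H.hyperfocalSubgroup p := by
    intro h
    refine le_antisymm ?_ hle
    have h1 : F.hyperfocalSubgroup p ≤ (frattini ↥S).map S.subtype ⊔ H.hyperfocalSubgroup p := by
      refine (le_sup_left.trans (hfF.ge.trans (le_sup_right.trans h.le))).trans ?_
      exact sup_le le_sup_left (hfH.le.trans (sup_le le_sup_right (hcomm.trans le_sup_left)))
    have h2 : (F.hyperfocalSubgroup p).subgroupOf S ≤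
        frattini ↥S ⊔ (H.hyperfocalSubgroup p).subgroupOf S := by
      intro s hs
      have h3 := h1 (Subgroup.mem_subgroupOf.1 hs)
      rw [← Subgroup.map_subgroupOf_eq_of_le hHS, ← Subgroup.map_sup] at h3
      obtain ⟨t, ht, hts⟩ := h3
      rwa [← Subtype.ext hts]
    have h4 := H80.hyperfocal_le_of_le_frattini_sup hS hF ((H.hyperfocalSubgroup p).subgroupOf S)
      (Subgroup.comap_mono hle) h2
    intro y hy
    exact Subgroup.mem_subgroupOf.1 (@h4 ⟨y, H94.hyperfocal_le F p hy⟩ hy)
  refine ⟨⟨fun h => by rw [hfF, hfH, key h], fun h => by rw [h]⟩,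
    ⟨fun h => key (by rw [h]), fun h => by rw [hfF, hfH, h]⟩⟩

end Cfsg.Agent.S5224
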