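import Cfsg.Statements.S5225
import Cfsg.Agent.H80.YoshidaTransfer


set_option autoImplicit false
open Cfsg

namespace Cfsg.Agent.S5225

/-- Yoshida's Theorem for fusion systems. Let F be a saturated fusion system over a finite p-group S and N the normalizer fusion system of S in F. If the focal subgroups of F and N differ (N does not control transfer in F), then S has a quotient isomorphic to the wreath product C_p ≀ C_p (realised as a Sylow p-subgroup of the symmetric group of degree p²). -/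
theorem result {Ω : Type*} [Group Ω] {S : Subgroup Ω} [Finite S] (p : ℕ) [Fact p.Prime] (hS : IsPGroup p S) (F : Cfsg.FusionSystem S) (hF : F.IsSaturated p) (N : Cfsg.FusionSystem (Cfsg.FusionSystem.normalizerIn S S)) (hN : F.IsNormalizerSystem S N) (hne : N.focalSubgroup ≠ F.focalSubgroup) : ∃ (W : Sylow p (Equiv.Perm (Fin (p ^ 2)))) (f : ↥S →* ↥(W : Subgroup (Equiv.Perm (Fin (p ^ 2))))), Function.Surjective f := by
  by_contra hnW
  have htop := H80.Yoshida.focal_le_topFocal hS hF hnW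
  refine hne (le_antisymm ?_ (htop.trans ?_))
  · rw [FusionSystem.focalSubgroup, Subgroup.closure_le]
    rintro _ ⟨P, φ, x, hφ, rfl⟩
    rw [hN] at hφ
    exact Subgroup.subset_closure ⟨P, φ, x, hφ.1, rfl⟩
  · rw [H80.Yoshida.topFocal, Subgroup.closure_le]
    rintro _ ⟨α, hα, x, rfl⟩
    have hαF := (H96.mem_autGroup F le_rfl).1 hα
    have hle : S ≤ FusionSystem.normalizerIn S S := le_inf le_rfl Subgroup.le_normalizer
    refine Subgroup.subset_closure ⟨S, S.subtype.comp α.toMonoidHom, x, ?_, rfl⟩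
    rw [hN]
    obtain ⟨ψ, hψ, hψe⟩ : ∃ ψ ∈ F.Hom (S ⊔ S), ∀ y : ↥(S ⊔ S), ψ y = ((α ⟨y, (sup_idem S).le y.2⟩ : S) : Ω) :=
      ⟨_, H93.mem_of_eq hαF (sup_idem S) (ψ := (S.subtype.comp α.toMonoidHom).comp
        (Subgroup.inclusion (sup_idem S).le)) (fun y hy hy2 => rfl), fun y => rfl⟩
    refine ⟨hαF, hle, fun y => hle (α y).2, ψ, hψ, fun y => hψe _, ?_⟩
    ext z
    constructor
    · rintro ⟨y, -, rfl⟩; rw [hψe]; exact (α _).2
    · intro hz
      refine ⟨⟨((α.symm ⟨z, hz⟩ : S) : Ω), Subgroup.mem_sup_left (α.symm ⟨z, hz⟩).2⟩, (α.symm ⟨z, hz⟩).2, ?_⟩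
      rw [hψe]
      exact congrArg Subtype.val (α.apply_symm_apply ⟨z, hz⟩)

end Cfsg.Agent.S5225
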