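import Cfsg.Statements.S5226
import Cfsg.Agent.H95.NormalCriteria

set_option autoImplicit false
open Cfsg

namespace Cfsg.Agent.S5226

/-- Let F be a saturated fusion system over a finite p-group S and Q a subgroup of S. Then Q is normal in F (F equals the normalizer system of Q) if and only if Q is strongly closed in F and admits a central series 1 = Q₀ ≤ Q₁ ≤ ⋯ ≤ Qₙ = Q ([Qᵢ₊₁, Q] ≤ Qᵢ) all of whose proper terms are weakly closed in F. -/
theorem result {Ω : Type*} [Group Ω] {S : Subgroup Ω} [Finite S] (p : ℕ) [Fact p.Prime] (hS : IsPGroup p S) (F : Cfsg.FusionSystem S) (hF : F.IsSaturated p) (Q : Subgroup Ω) : F.IsNormal Q ↔ F.StronglyClosed Q ∧ ∃ (n : ℕ) (C : Fin (n + 1) → Subgroup Ω), C 0 = ⊥ ∧ C (Fin.last n) = Q ∧ Monotone C ∧ (∀ i : Fin n, ⁅C i.succ, Q⁆ ≤ C i.castSucc) ∧ ∀ i : Fin n, F.WeaklyClosed (C i.castSucc) := by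
  constructor
  · intro hQ
    obtain ⟨n, C, h0, hn, hm, hc, hw⟩ := H95.exists_central_series_of_isNormal hS hQ
    exact ⟨H95.stronglyClosed_of_isNormal hQ, n, fun i => C i, by simpa using h0, by simpa using hn,
      fun i j h => hm h, fun i => by simpa using hc (i : ℕ), fun i => ⟨(hw _).1, fun φ hφ => H96.range_eq_of_stronglyClosed (hw _) hφ⟩⟩
  · rintro ⟨hsc, n, C, h0, hn, hm, hc, hw⟩
    refine H95.isNormal_of_central_series hS hF hsc n
      (fun i => C ⟨min i n, by omega⟩) (by simpa using h0) ?_ (fun i hi => ?_) (fun i hi => ?_)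
      (fun i hi => ?_)
    · show C _ = Q
      rw [← hn]; congr 1; exact Fin.ext (by simp)
    · show C _ ≤ Q
      rw [← hn]; exact hm (Fin.le_last _)
    · have h := hc ⟨i, hi⟩
      have e1 : (⟨min (i + 1) n, by omega⟩ : Fin (n + 1)) = (⟨i, hi⟩ : Fin n).succ := Fin.ext (by simp; omega)
      have e2 : (⟨min i n, by omega⟩ : Fin (n + 1)) = (⟨i, hi⟩ : Fin n).castSucc := Fin.ext (by simp; omega)
      show ⁅C _, Q⁆ ≤ C _
      rw [e1, e2]; exact h
    · have h := hw ⟨i, hi⟩
      have e2 : (⟨min i n, by omega⟩ : Fin (n + 1)) = (⟨i, hi⟩ : Fin n).castSucc := Fin.ext (by simp; omega)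
      show F.WeaklyClosed (C _)
      rw [e2]; exact h

end Cfsg.Agent.S5226
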