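import Cfsg.Statements.S5233
import Cfsg.Agent.H95.GenExtraNormal

set_option autoImplicit false
open Cfsg

namespace Cfsg.Agent.S5233

/-- Let F be a saturated fusion system over a finite p-group S and P a subgroup of S strongly closed in F that is generalized extraspecial (its Frattini subgroup equals its commutator subgroup and has order p) and not isomorphic to E × A with A elementary abelian and E dihedral of order 8 (p = 2) or extraspecial of order p³ and exponent p (p odd). Then P is normal in F. -/
theorem result {Ω : Type*} [Group Ω] {S : Subgroup Ω} [Finite S] (p : ℕ) [Fact p.Prime] (hS : IsPGroup p S) (F : Cfsg.FusionSystem S) (hF : F.IsSaturated p) (P : Subgroup Ω) (hP : F.StronglyClosed P) (hge : frattini ↥P = commutator ↥P ∧ Nat.card ↥(commutator ↥P) = p) (h2 : p = 2 → ¬ ∃ (A : Type) (_ : CommGroup A), (∀ a : A, a ^ 2 = 1) ∧ Nonempty (↥P ≃* DihedralGroup 4 × A)) (hodd : p ≠ 2 → ¬ ∃ (E : Type) (_ : Group E) (A : Type) (_ : CommGroup A), Cfsg.IsExtraspecial p E ∧ Nat.card E = p ^ 3 ∧ Monoid.exponent E = p ∧ (∀ a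 : A, a ^ p = 1) ∧ Nonempty (↥P ≃* E × A)) : F.IsNormal P :=
  H95.isNormal_of_genExtraspecial hS hF hP hge.1 hge.2 h2 hodd

end Cfsg.Agent.S5233
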