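import Cfsg.Statements.S5236
import Cfsg.Agent.H95.NormalCriteria

set_option autoImplicit false
open Cfsg
open scoped commutatorElement

namespace Cfsg.Agent.S5236

/-- Let p be an odd prime, F a saturated fusion system over a finite p-group S and P a subgroup of S strongly closed in F. Then P is normal in F if and only if Ω₁(P) (the subgroup generated by the elements of order p of P) has a chain of subgroups 1 = Q₀ ≤ Q₁ ≤ ⋯ ≤ Qₙ = Ω₁(P), each strongly closed in F, with [Qᵢ₊₁, P] ≤ Qᵢ for all i. -/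
theorem result {Ω : Type*} [Group Ω] {S : Subgroup Ω} [Finite S] (p : ℕ) [Fact p.Prime] (hS : IsPGroup p S) (F : Cfsg.FusionSystem S) (hF : F.IsSaturated p) (hp : p ≠ 2) (P : Subgroup Ω) (hP : F.StronglyClosed P) : F.IsNormal P ↔ ∃ (n : ℕ) (Q : Fin (n + 1) → Subgroup Ω), Q 0 = ⊥ ∧ Q (Fin.last n) = Cfsg.omegaOne p P ∧ Monotone Q ∧ (∀ i : Fin (n + 1), F.StronglyClosed (Q i)) ∧ ∀ i : Fin n, ⁅Q i.succ, P⁆ ≤ Q i.castSucc := by
  constructor
  · intro hN
    obtain ⟨n, C, h0, hn, hm, hc, hw⟩ := H95.exists_central_series_of_isNormal hS hN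
    have hcl := H95.stronglyClosed_omegaOne_of_isNormal (p := p) hN
    have hC : ∀ i, F.StronglyClosed (C i ⊓ Cfsg.omegaOne p P) := by
      intro i
      exact ⟨inf_le_right.trans hcl.1, fun R hR φ hφ x => Subgroup.mem_inf.2
        ⟨(hw i).2 R (hR.trans inf_le_left) φ hφ x, hcl.2 R (hR.trans inf_le_right) φ hφ x⟩⟩
    refine ⟨n, fun i => C i ⊓ Cfsg.omegaOne p P, by simp [h0], ?_, fun i j h => inf_le_inf_right _ (hm h),
      fun i => hC _, fun i => ?_⟩
    · simp only [Fin.val_last, hn]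
      exact inf_eq_right.2 (H95.omegaOne_le P)
    · refine le_inf ((Subgroup.commutator_mono inf_le_left le_rfl).trans (by simpa using hc (i : ℕ))) ?_
      refine (Subgroup.commutator_mono inf_le_right le_rfl).trans ?_
      refine Subgroup.commutator_le.2 fun a ha b hb => ?_
      have h1 : b * a⁻¹ * b⁻¹ ∈ Cfsg.omegaOne p P :=
        H96.conj_mem_of_stronglyClosed hcl (hP.1 hb) (inv_mem ha)
      have h2 := mul_mem ha h1
      simpa [commutatorElement_def, mul_assoc] using h2
  · rintro ⟨n, Q, h0, hn, hm, hsc, hc⟩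
    refine H95.isNormal_of_omega_series hS hF hp hP n
      (fun i => Q ⟨min i n, by omega⟩) (by simpa using h0) ?_ (fun i hi => hsc _) (fun i hi => ?_)
    · show Q _ = _
      rw [← hn]; congr 1; exact Fin.ext (by simp)
    · have e1 : (⟨min (i + 1) n, by omega⟩ : Fin (n + 1)) = (⟨i, hi⟩ : Fin n).succ := Fin.ext (by simp; omega)
      have e2 : (⟨min i n, by omega⟩ : Fin (n + 1)) = (⟨i, hi⟩ : Fin n).castSucc := Fin.ext (by simp; omega)
      show ⁅Q _, P⁆ ≤ Q _
      rw [e1, e2]; exact hc ⟨i, hi⟩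

end Cfsg.Agent.S5236
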