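import Cfsg.Statements.S5243
import Cfsg.Agent.H93.CharacterSystem
-- import your own Cfsg.Agent.* helpers here

set_option autoImplicit false
open Cfsg

namespace Cfsg.Agent.S5243

/-- Let F be a saturated fusion system over a finite p-group S, E a normal subsystem of F over T ≤ S, and χ a surjective homomorphism from Aut_F(T) onto a nontrivial finite group Δ of order prime to p whose kernel contains Aut_E(T). Then there is a proper normal subsystem F₀ of F over S containing E such that Aut_{F₀}(S) consists of those α ∈ Aut_F(S) whose restriction to T is an element of Aut_F(T) in the kernel of χ; moreover every p'-residual subsystem O^{p'}(F) of F is contained in F₀. -/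
theorem result {Ω : Type*} [Group Ω] {S : Subgroup Ω} [Finite S] (p : ℕ) [Fact p.Prime] (hS : IsPGroup p S) (F : Cfsg.FusionSystem S) (hF : F.IsSaturated p) {T : Subgroup Ω} (hTS : T ≤ S) (E : Cfsg.FusionSystem T) (hE : E.IsNormalIn F p) {Δ : Type*} [Group Δ] [Finite Δ] [Nontrivial Δ] (hΔ : (Nat.card Δ).Coprime p) (χ : ↥(F.autGroup T) →* Δ) (hχ : Function.Surjective χ) (hker : (E.autGroup T).subgroupOf (F.autGroup T) ≤ χ.ker) : ∃ F₀ : Cfsg.FusionSystem S, F₀.IsNormalIn F p ∧ ¬ (∀ P : Subgroup Ω, F₀.Hom P = F.Hom P) ∧ E.IsSubsystemOf F₀ ∧ (∀ α : MulAut ↥S, α ∈ F₀.autGroup S ↔ α ∈ F.autGroup S ∧ ∃ β : ↥(F.autGroup T), χ β = 1 ∧ ∀ t : ↥T, (((β : MulAut ↥T) t : ↥T) : Ω) = ((α ⟨(t : Ω), hTS t.2⟩ : ↥S) : Ω)) ∧ ∀ R : Cfsg.FusionSystem S, F.IsPPrimeResidual p R → R.IsSubsystemOf F₀ := by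
  have h : H93.CharData p F E χ :=
    ⟨hS, hF, hE.1.1, hE.1.2.2, inferInstance, hΔ, hχ, hker⟩
  set F₀ := H93.charSystem χ E with hF₀
  have hsat := h.isSaturated
  have hsub : F₀.IsSubsystemOf F := fun P φ hφ => hφ.1
  have hlift : ∀ (P : Subgroup Ω) (φ : P →* Ω), φ ∈ F.Hom P →
      ∃ α ∈ F.autGroup S, ∃ φ₀ ∈ F₀.Hom P, ∀ (x : P) (hx : φ₀ x ∈ S), φ x = ((α ⟨φ₀ x, hx⟩ : S) : Ω) := by
    intro P φ hφ
    obtain ⟨f, hf, hfe⟩ := H93.exists_mor hφ rfl
    obtain ⟨a, f₀, Q₀, ha, hf₀, he⟩ := h.decompose hf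
    obtain ⟨α, hα, hαe⟩ := ha.exists_aut
    obtain ⟨φ₀, hφ₀, -, hv⟩ := hf₀
    refine ⟨α, hα, φ₀, hφ₀, fun x hx => ?_⟩
    rw [hαe, ← hfe, he x x.2]
    exact congrArg a (hv x).symm
  have hinv : F₀.IsInvariantIn F := by
    refine ⟨hsub, H96.stronglyClosed_top F, ?_, fun P _ φ hφ => hlift P φ hφ⟩
    intro P hPS φ hφ α hα
    obtain ⟨a, ha, hae⟩ := H93.exists_mor_of_aut le_rfl hα
    obtain ⟨b, hb, hba, -⟩ := ha.exists_inv
    obtain ⟨f, -, hfe⟩ := H93.exists_mor hφ rfl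
    obtain ⟨P', Q', hPP', -, hg⟩ := h.transport_charSystem ha hb hba (H93.mor_charSystem_of_mem hφ hfe)
    obtain ⟨ψ, hψ, -, hψv⟩ := hg
    have heq : (P.subgroupOf S).map (S.subtype.comp α.toMonoidHom) = P' := by
      apply le_antisymm
      · rintro _ ⟨x, hx, rfl⟩
        show ((α x : S) : Ω) ∈ P'
        rw [← hae x]
        exact hPP'.map_mem hx
      · intro y hy
        obtain ⟨x, hx, rfl⟩ := hPP'.surj hy
        exact ⟨⟨x, hPS hx⟩, hx, (hae ⟨x, hPS hx⟩).symm⟩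
    refine ⟨ψ.comp (Subgroup.inclusion heq.le), H93.mem_of_eq hψ heq fun _ _ _ => rfl, fun x hφx hαx => ?_⟩
    show ψ ⟨_, _⟩ = _
    rw [hψv]
    show a (f (b ((α ⟨(x : Ω), hPS x.2⟩ : S) : Ω))) = _
    rw [← hae ⟨(x : Ω), hPS x.2⟩, hba _ (hPS x.2), hfe x]
    exact hae ⟨φ x, hφx⟩
  refine ⟨F₀, ⟨⟨hsat, hF, hinv⟩, fun α hα => ?_⟩, ?_, h.le_charSystem, ?_, ?_⟩
  · have hαF := (H96.mem_autGroup F le_rfl).2 (hsub _ ((H96.mem_autGroup F₀ le_rfl).1 hα))
    have hCS : FusionSystem.centralizerIn S S ≤ S := inf_le_left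
    have hle : S ⊔ FusionSystem.centralizerIn S S ≤ S := sup_le le_rfl hCS
    obtain ⟨a, ha, hae⟩ := H93.exists_mor_of_aut (F := F) le_rfl hαF
    have hsupeq : S ⊔ FusionSystem.centralizerIn S S = S := le_antisymm hle le_sup_left
    have ha' : H93.Mor F (S ⊔ FusionSystem.centralizerIn S S) (S ⊔ FusionSystem.centralizerIn S S) a := by
      rw [hsupeq]; exact ha
    obtain ⟨β, hβ, hβe⟩ := ha'.exists_aut
    refine ⟨β, hβ, fun x => (hβe _).trans (hae x), fun c hc => ⟨?_, ?_⟩⟩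
    · rw [hβe]
      exact S.mul_mem (S.inv_mem (hle c.2)) (ha.map_mem (hle c.2))
    · rw [hβe]
      refine mul_mem (Subgroup.inv_mem _ hc.2) (Subgroup.mem_centralizer_iff.2 fun y hy => ?_)
      obtain ⟨z, hz, rfl⟩ := ha.surj hy
      rw [← ha.map_mul hz (hle c.2), ← ha.map_mul (hle c.2) hz, Subgroup.mem_centralizer_iff.1 hc.2 z hz]
  · intro hall
    obtain ⟨d, hd1⟩ := exists_ne (1 : Δ)
    obtain ⟨a, ha, had⟩ := h.exists_lift d
    have ha0 : H93.Mor F₀ S S a := by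
      obtain ⟨φ, hφ, hr, hv⟩ := ha
      exact ⟨φ, (hall S).symm ▸ hφ, hr, hv⟩
    exact hd1 (had.unique (h.chi_one_of_charSystem ha0))
  · intro α
    constructor
    · intro hα
      obtain ⟨a, ha, hae⟩ := H93.exists_mor_of_aut le_rfl hα
      obtain ⟨β, hβ, hβe⟩ := h.chi_one_of_charSystem ha
      refine ⟨(H96.mem_autGroup F le_rfl).2 (hsub _ ((H96.mem_autGroup F₀ le_rfl).1 hα)), β, hβ, fun t => ?_⟩
      exact (hβe t).trans (hae ⟨t, hTS t.2⟩)
    · rintro ⟨hα, β, hβ, hβe⟩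
      obtain ⟨a, ha, hae⟩ := H93.exists_mor_of_aut le_rfl hα
      have h0 := h.charSystem_of_chi_one ha ⟨β, hβ, fun t => (hβe t).trans (hae ⟨t, hTS t.2⟩).symm⟩
      obtain ⟨γ, hγ, hγe⟩ := h0.exists_aut
      rw [show α = γ from MulEquiv.ext fun x => Subtype.ext ((hae x).symm.trans (hγe x).symm)]
      exact hγ
  · intro R hR
    exact hR.2.2 F₀ hsat h.hasPrimeToPIndexIn

end Cfsg.Agent.S5243
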