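import Cfsg.Statements.S5244
import Cfsg.Agent.H80.UA.CoreFree

set_option autoImplicit false
open Cfsg
open scoped commutatorElement

namespace Cfsg.Agent.S5244

/-- Let p be an odd prime, S a finite nonabelian p-group with a unique abelian subgroup A of index p, and F a saturated fusion system over S with no nontrivial normal subgroup (O_p(F) = 1) in which A is not F-essential. Then some subgroup Z(S)⟨x⟩ with x ∈ S outside A is F-essential, the centre Z(S) is contained in the commutator subgroup of S, and S has maximal nilpotency class (if S has order pⁿ with n ≥ 3, the term of index n − 2 of its lower central series, counting S itself as the term of index 0, is nontrivial). -/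
theorem result {Ω : Type*} [Group Ω] {S : Subgroup Ω} [Finite S] (p : ℕ) [Fact p.Prime] (hS : IsPGroup p S) (F : Cfsg.FusionSystem S) (hF : F.IsSaturated p) (hp : p ≠ 2) (hna : ¬ IsMulCommutative ↥S) (A : Subgroup Ω) (hA : A ≤ S ∧ IsMulCommutative ↥A ∧ (A.subgroupOf S).index = p) (huniq : ∀ B : Subgroup Ω, B ≤ S → IsMulCommutative ↥B → (B.subgroupOf S).index = p → B = A) (hcore : F.core = ⊥) (hAe : ¬ F.IsEssential p A) : (∃ x ∈ S, x ∉ A ∧ F.IsEssential p ((S ⊓ Subgroup.centralizer (S : Set Ω)) ⊔ Subgroup.zpowers x)) ∧ (S ⊓ Subgroup.centralizer (S : Set Ω)) ≤ (commutator ↥S).map S.subtype ∧ ∀ n : ℕ, Nat.card S = p ^ n → 3 ≤ n → Subgroup.lowerCentralSeries S (n - 2) ≠ ⊥ := by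
  have D : H80.UA.Setup p S A := ⟨hS, hA.1, hA.2.1, hA.2.2, hna⟩
  obtain ⟨⟨E, hE, hEB⟩, hZ⟩ := H80.UA.core_free_structure D hF hp huniq hcore hAe
  obtain ⟨h2, hc, ⟨x, hx, hxA, hshape⟩, -, -⟩ :=
    H80.UA.essential_shape D hF huniq hE (fun h => hAe (h ▸ hE))
  have hpp := (Fact.out : p.Prime)
  haveI := D.finiteA
  haveI : Finite ↥(H80.UA.ctr S) := H93.finite_of_le (S := S) H80.UA.ctr_le
  refine ⟨⟨x, hE.1.1 hx, hxA, ?_⟩, hZ.le.trans inf_le_right, fun n hn h3 hL => ?_⟩
  · rcases hshape with h | h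
    · exact h ▸ hE
    · exfalso
      have hle : H80.UA.ctr2 S ≤ H80.UA.ctr S := fun a ha =>
        hEB.le ⟨h ▸ Subgroup.mem_sup_left ha, h2 ha⟩
      have := Subgroup.card_le_of_le hle
      rw [hc] at this
      exact this.not_gt (lt_mul_of_one_lt_left Nat.card_pos hpp.one_lt)
  · obtain ⟨k, rfl⟩ : ∃ k, n = k + 3 := ⟨n - 3, by omega⟩
    have hZc : Nat.card ↥(H80.UA.ctr S) = p := by
      rw [hZ]; exact D.card_ctr_inf_commutator (hE.1.1 hx) hxA h2 hc
    refine D.not_lcs_le_ctr (k := k) (hE.1.1 hx) hxA h2 hc ?_ ?_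
    · have hAc : Nat.card A = p ^ (k + 2) := by
        refine Nat.eq_of_mul_eq_mul_left hpp.pos ?_
        rw [← D.card_S, hn]; ring
      rw [hZc, hAc, ← pow_succ]
      exact Nat.pow_lt_pow_right hpp.one_lt (by omega)
    · intro y hy
      refine H80.UA.mem_ctr.2 ⟨(Subgroup.lowerCentralSeries_antitone (S := S) (Nat.zero_le k) hy), fun s hs => ?_⟩
      have h1 : ⁅y, s⁆ ∈ Subgroup.lowerCentralSeries S (k + 1) := Subgroup.commutator_mem_commutator hy hs
      rw [show k + 1 = k + 3 - 2 by omega, hL, Subgroup.mem_bot] at h1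
      exact (commutatorElement_eq_one_iff_mul_comm.1 h1).symm

end Cfsg.Agent.S5244
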