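import Cfsg.Statements.S5254
import Cfsg.Agent.H80.UA.Maximal

set_option autoImplicit false
open Cfsg

namespace Cfsg.Agent.S5254

/-- Let p be an odd prime, S a finite nonabelian p-group with a unique abelian subgroup A of index p, and F a saturated fusion system over S. Then every F-essential subgroup P is A, or Z(S)⟨x⟩ for some x ∈ S outside A, or (when the second centre Z₂(S) lies in A) Z₂(S)⟨x⟩ for some x ∈ S outside A; and P has index p in its normalizer in S. -/
theorem result {Ω : Type*} [Group Ω] {S : Subgroup Ω} [Finite S] (p : ℕ) [Fact p.Prime] (hS : IsPGroup p S) (F : Cfsg.FusionSystem S) (hF : F.IsSaturated p) (hp : p ≠ 2) (hna : ¬ IsMulCommutative ↥S) (A : Subgroup Ω) (hA : A ≤ S ∧ IsMulCommutative ↥A ∧ (A.subgroupOf S).index = p) (huniq : ∀ B : Subgroup Ω, B ≤ S → IsMulCommutative ↥B → (B.subgroupOf S).index = p → B = A) (P : Subgroup Ω) (hP : F.IsEssential p P) : (P = A ∨ (∃ x ∈ S, x ∉ A ∧ P = (S ⊓ Subgroup.centralizer (S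 : Set Ω)) ⊔ Subgroup.zpowers x) ∨ (((upperCentralSeries ↥S 2).map S.subtype) ≤ A ∧ ∃ x ∈ S, x ∉ A ∧ P = ((upperCentralSeries ↥S 2).map S.subtype) ⊔ Subgroup.zpowers x)) ∧ (P.subgroupOf (S ⊓ Subgroup.normalizer (P : Set Ω))).index = p := by
  have D : H80.UA.Setup p S A := ⟨hS, hA.1, hA.2.1, hA.2.2, hna⟩
  by_cases hPA : P = A
  · subst hPA
    refine ⟨Or.inl rfl, ?_⟩
    have e : S ⊓ Subgroup.normalizer (P : Set Ω) = S := inf_eq_left.2 fun s hs =>
      Subgroup.mem_normalizer_iff.2 fun a => ⟨fun ha => D.conj_mem hs ha, fun ha => by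
        simpa [mul_assoc] using D.conj_mem (S.inv_mem hs) ha⟩
    rw [e]
    exact hA.2.2
  obtain ⟨h2, -, ⟨x, hx, hxA, hshape⟩, -, hN⟩ := H80.UA.essential_shape D hF huniq hP hPA
  refine ⟨?_, ?_⟩
  · rcases hshape with h | h
    · exact Or.inr (Or.inl ⟨x, hP.1.1 hx, hxA, h⟩)
    · exact Or.inr (Or.inr ⟨h2, x, hP.1.1 hx, hxA, h⟩)
  · haveI := H93.finite_of_le (S := S) hP.1.1
    exact H80.UA.index_subgroupOf_of_card (H93.le_normalizerIn hP.1.1) hN

end Cfsg.Agent.S5254
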