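import Cfsg.Statements.S5257
import Cfsg.Agent.H80.UA.Maximal

set_option autoImplicit false
open Cfsg

namespace Cfsg.Agent.S5257

/-- Let p be an odd prime, S a finite nonabelian p-group with a unique abelian subgroup A of index p, and F a saturated fusion system over S having an F-essential subgroup other than A. Then the second centre Z₂(S) lies in A; Z(S) ∩ [S, S] has order p; Z(S)[S, S] has index p in A; Z(S) has index p in Z₂(S); and S/Z(S) has maximal nilpotency class (if S/Z(S) has order pᵐ with m ≥ 3 then the term of index m − 2 of the lower central series of S, counting S as index 0, is not contained in Z(S)). -/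
theorem result {Ω : Type*} [Group Ω] {S : Subgroup Ω} [Finite S] (p : ℕ) [Fact p.Prime] (hS : IsPGroup p S) (F : Cfsg.FusionSystem S) (hF : F.IsSaturated p) (hp : p ≠ 2) (hna : ¬ IsMulCommutative ↥S) (A : Subgroup Ω) (hA : A ≤ S ∧ IsMulCommutative ↥A ∧ (A.subgroupOf S).index = p) (huniq : ∀ B : Subgroup Ω, B ≤ S → IsMulCommutative ↥B → (B.subgroupOf S).index = p → B = A) (P : Subgroup Ω) (hP : F.IsEssential p P) (hPA : P ≠ A) : ((upperCentralSeries ↥S 2).map S.subtype) ≤ A ∧ Nat.card ↥((S ⊓ Subgroup.centralizer (S : Set Ω)) ⊓ ((commutator ↥S).map S.subtype)) = p ∧ (((S ⊓ Subgroup.centralizer (S : Set Ω)) ⊔ ((commutator ↥S).map S.subtype)).subgroupOf A).index = p ∧ (((S ⊓ Subgroup.centralizer (S : Set Ω))).subgroupOf ((upperCentralSeries ↥S 2).map S.subtype)).index = p ∧ ∀ m : ℕ, ((S ⊓ Subgroup.centralizer (S : Set Ω)).subgroupOf S).index = p ^ m → 3 ≤ m → ¬ Subgroup.lowerCentralSeries S (m - 2) ≤ (S ⊓ Subgroup.centralizer (S : Set Ω)) := by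
  have D : H80.UA.Setup p S A := ⟨hS, hA.1, hA.2.1, hA.2.2, hna⟩
  haveI := D.finiteA
  haveI hZfin' : Finite ↥(H80.UA.ctr S) := H93.finite_of_le (S := S) H80.UA.ctr_le
  haveI hZfin : Finite ↥(S ⊓ Subgroup.centralizer (S : Set Ω)) := H93.finite_of_le (S := S) H80.UA.ctr_le
  obtain ⟨h2, hc, ⟨x, hx, hxA, -⟩, -, -⟩ := H80.UA.essential_shape D hF huniq hP hPA
  have hxS := hP.1.1 hx
  have hZS' := D.card_ctr_inf_commutator hxS hxA h2 hc
  have hS' := D.card_commutator hxS hxA
  have hS'A : (commutator ↥S).map S.subtype ≤ A := by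
    rw [D.commutator_eq hxS hxA]; exact Subgroup.map_subtype_le _
  refine ⟨h2, hZS', ?_, H80.UA.index_subgroupOf_of_card H80.UA.ctr_le_ctr2 hc, fun m hm h3 => ?_⟩
  · haveI : Finite ↥((S ⊓ Subgroup.centralizer (S : Set Ω)) ⊔ (commutator ↥S).map S.subtype) :=
      H93.finite_of_le (S := S) ((sup_le D.ctr_le_A hS'A).trans hA.1)
    refine H80.UA.index_subgroupOf_of_card (sup_le D.ctr_le_A hS'A) ?_
    let Z : Subgroup A := (H80.UA.ctr S).subgroupOf A
    let C : Subgroup A := ((commutator ↥S).map S.subtype).subgroupOf A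
    haveI : Z.Normal := ⟨fun z hz g => by
      rw [show g * z * g⁻¹ = z from Subtype.ext (by
        simp only [Subgroup.coe_mul, Subgroup.coe_inv]
        rw [D.commute_of_mem g.2 z.2, mul_inv_cancel_right])]
      exact hz⟩
    have hsup : Nat.card ↥(C ⊔ Z) = Nat.card ↥(H80.UA.ctr S ⊔ (commutator ↥S).map S.subtype) := by
      rw [sup_comm C Z, ← Subgroup.subgroupOf_sup D.ctr_le_A hS'A]
      exact Nat.card_congr (Subgroup.subgroupOfEquivOfLe (sup_le D.ctr_le_A hS'A)).toEquiv
    have h1 := Subgroup.relIndex_mul_relIndex ⊥ Z (C ⊔ Z) bot_le le_sup_right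
    rw [Subgroup.relIndex_sup_right, Subgroup.relIndex_bot_left, Subgroup.relIndex_bot_left, hsup] at h1
    have h4 := Subgroup.relIndex_mul_relIndex ⊥ (Z ⊓ C) C bot_le inf_le_right
    have h5 : Nat.card ↥(Z ⊓ C) = p := by
      rw [← hZS', show Z ⊓ C = ((H80.UA.ctr S) ⊓ (commutator ↥S).map S.subtype).subgroupOf A from (Subgroup.comap_inf _ _ _).symm]
      exact Nat.card_congr (Subgroup.subgroupOfEquivOfLe (inf_le_left.trans D.ctr_le_A)).toEquiv
    rw [Subgroup.relIndex_bot_left, Subgroup.relIndex_bot_left, Subgroup.inf_relIndex_right, h5,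
      Nat.card_congr (Subgroup.subgroupOfEquivOfLe hS'A).toEquiv] at h4
    rw [Nat.card_congr (Subgroup.subgroupOfEquivOfLe D.ctr_le_A).toEquiv] at h1
    show Nat.card A = p * Nat.card ↥(H80.UA.ctr S ⊔ (commutator ↥S).map S.subtype)
    rw [← hS', ← h4, ← h1]
    ring
  · refine D.not_lcs_le_ctr hxS hxA h2 hc ?_
    have h6 := ((H80.UA.ctr S).subgroupOf S).card_mul_index
    rw [show ((H80.UA.ctr S).subgroupOf S).index = p ^ m from hm,
      Nat.card_congr (Subgroup.subgroupOfEquivOfLe (H80.UA.ctr_le (S := S))).toEquiv, D.card_S] at h6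
    obtain ⟨j, rfl⟩ : ∃ j, m = j + 2 := ⟨m - 2, by omega⟩
    have hpp := (Fact.out : p.Prime)
    have h7 : Nat.card A = p ^ (j + 1) * Nat.card ↥(H80.UA.ctr S) := by
      refine Nat.eq_of_mul_eq_mul_left hpp.pos ?_
      rw [← h6]; ring
    rw [h7, show j + 2 - 2 = j by omega]
    exact Nat.mul_lt_mul_of_pos_right (Nat.pow_lt_pow_right hpp.one_lt (by omega)) Nat.card_pos

end Cfsg.Agent.S5257
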