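import Cfsg.Statements.S5276
import Cfsg.Agent.H96.Tate
import Cfsg.Agent.H93.Local

set_option autoImplicit false
open Cfsg

namespace Cfsg.Agent.S5276

/-- Let p be a prime and F a saturated fusion system over a finite p-group S. Then F is the inner fusion system of S if and only if the normalizer fusion system of S itself in F is the inner fusion system (equivalently, Aut_F(S) is induced by S) and the Frattini subgroup Φ(S) is strongly closed in F. -/
theorem result {Ω : Type*} [Group Ω] {S : Subgroup Ω} [Finite S] (p : ℕ) [Fact p.Prime] (hS : IsPGroup p ↥S) (F : Cfsg.FusionSystem S) (hF : F.IsSaturated p) : (∀ P : Subgroup Ω, F.Hom P = (Cfsg.innerFusionSystem S).Hom P) ↔ (∀ N : Cfsg.FusionSystem (Cfsg.FusionSystem.normalizerIn S S), F.IsNormalizerSystem S N → ∀ P : Subgroup Ω, N.Hom P = (Cfsg.innerFusionSystem (Cfsg.FusionSystem.normalizerIn S S)).Hom P) ∧ F.StronglyClosed ((frattini ↥S).map S.subtype) := by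
  constructor
  · intro hinner
    refine ⟨fun N hN P => Set.Subset.antisymm (fun φ hφ => ?_) (fun φ hφ => ?_), ?_⟩
    · rw [hN] at hφ
      obtain ⟨h1, h2, h3, -⟩ := hφ
      rw [hinner] at h1
      obtain ⟨-, g, hg, hge⟩ := h1
      exact ⟨h2, g, ⟨hg, Subgroup.le_normalizer hg⟩, hge⟩
    · obtain ⟨hP, g, hg, hge⟩ := hφ
      exact Cfsg.Agent.H96.mem_congr N (N.conj_mem hP hg) hge
    · refine ⟨Subgroup.map_subtype_le _, fun R hR φ hφ x => ?_⟩
      rw [hinner] at hφ
      obtain ⟨-, g, hg, hge⟩ := hφ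
      obtain ⟨y, hy, hyx⟩ := hR x.2
      refine ⟨⟨g, hg⟩ * y * (⟨g, hg⟩ : S)⁻¹, Subgroup.Normal.conj_mem inferInstance y hy _, ?_⟩
      rw [hge, ← hyx]
      rfl
  · rintro ⟨hN, hsc⟩
    have htop : ∀ φ ∈ F.Hom S, ∃ g ∈ S, ∀ x : S, φ x = g * (x : Ω) * g⁻¹ := by
      intro φ hφ
      obtain ⟨-, hφS⟩ := F.le_of_mem hφ
      have hmem : φ ∈ F.normalizerHom S S := by
        refine ⟨hφ, le_inf le_rfl Subgroup.le_normalizer,
          fun x => ⟨hφS x, Subgroup.le_normalizer (hφS x)⟩, Cfsg.Agent.H96.res φ (sup_le le_rfl le_rfl),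
          Cfsg.Agent.H96.res_mem F hφ _, fun x => rfl, ?_⟩
        rw [Cfsg.Agent.H96.map_subgroupOf_eq_range _ le_sup_right]
        exact Cfsg.Agent.H96.range_eq_of_forall_mem F (Cfsg.Agent.H96.res_mem F
          (Cfsg.Agent.H96.res_mem F hφ _) _) (fun x => hφS _)
      have h := hN (Cfsg.Agent.H93.normalizerSystem F S le_rfl) (fun _ => rfl) S
      obtain ⟨-, g, hg, hge⟩ := (h ▸ hmem : φ ∈ (Cfsg.innerFusionSystem (Cfsg.FusionSystem.normalizerIn S S)).Hom S)
      exact ⟨g, hg.1, hge⟩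
    exact fun P => Cfsg.Agent.H96.eq_inner_of_congr_frattini hS hF
      (fun hφ x hx hφx => Cfsg.Agent.H96.map_congr_frattini hS hF htop hsc hφ x hx hφx) P

end Cfsg.Agent.S5276
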