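import Cfsg.Statements.S5279
import Cfsg.Agent.H34.StableConstrained
import Cfsg.Agent.H34.FusionPStable

set_option autoImplicit false
open Cfsg

namespace Cfsg.Agent.S5279

/-- Let p be an odd prime, G a finite group with a nontrivial Sylow p-subgroup P, and F the fusion system of G on P. Suppose F is p-stable: for every fully normalized subgroup Q and every χ in Aut_F(Q) acting quadratically on Q (χ(a⁻¹)·a·χ(a⁻¹)·χ(χ(a)) = 1 for all a in Q), χ lies in O_p(Aut_F(Q)). Then some nontrivial subgroup of P is normal in F. -/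
theorem result {Ω : Type*} [Group Ω] [Finite Ω] (p : ℕ) [Fact p.Prime] (hp : p ≠ 2) (P : Sylow p Ω) (hP : (P : Subgroup Ω) ≠ ⊥) (hst : (∀ Q : Subgroup Ω, (Cfsg.groupFusionSystem (P : Subgroup Ω)).IsFullyNormalized Q → ∀ χ : MulAut ↥Q, χ ∈ (Cfsg.groupFusionSystem (P : Subgroup Ω)).autGroup Q → (∀ a : ↥Q, (χ a⁻¹) * a * (χ a⁻¹) * (χ (χ a)) = 1) → χ ∈ ((Cfsg.pCore p ↥((Cfsg.groupFusionSystem (P : Subgroup Ω)).autGroup Q)).map ((Cfsg.groupFusionSystem (P : Subgroup Ω)).autGroup Q).subtype : Subgroup (MulAut ↥Q)))) : (Cfsg.groupFusionSystem (P : Subgroup Ω)).core ≠ ⊥ := by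
  obtain ⟨-, Q, hQ, hQc⟩ := H34.isConstrained_of_normalizerPStable hp (H96.isNormalizerPStable_of_stable P hst) P
  intro hcore
  have hle : Q ≤ ⊥ := hcore ▸ le_sSup hQ
  have hQb : Q = ⊥ := le_bot_iff.1 hle
  have hc := hQc.2 Q (H93.isConj_refl _ hQc.1)
  rw [hQb] at hc
  refine hP (le_bot_iff.1 (le_trans ?_ hc))
  intro x hx
  exact ⟨hx, fun y hy => by rw [Subgroup.mem_bot.1 hy, one_mul, mul_one]⟩

end Cfsg.Agent.S5279
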