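import Cfsg.Statements.S5280
import Cfsg.Agent.H96.PStableConstrained

set_option autoImplicit false
open Cfsg

namespace Cfsg.Agent.S5280

/-- Let p be a prime greater than 3, G a finite group with Sylow p-subgroup P, and F the fusion system of G on P. Suppose F is p-stable: for every fully normalized subgroup Q and every χ in Aut_F(Q) acting quadratically on Q (χ(a⁻¹)·a·χ(a⁻¹)·χ(χ(a)) = 1 for all a in Q), χ lies in O_p(Aut_F(Q)). Then F is constrained: some subgroup normal in F is F-centric. -/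
theorem result {Ω : Type*} [Group Ω] [Finite Ω] (p : ℕ) [Fact p.Prime] (hp : 3 < p) (P : Sylow p Ω) (hst : (∀ Q : Subgroup Ω, (Cfsg.groupFusionSystem (P : Subgroup Ω)).IsFullyNormalized Q → ∀ χ : MulAut ↥Q, χ ∈ (Cfsg.groupFusionSystem (P : Subgroup Ω)).autGroup Q → (∀ a : ↥Q, (χ a⁻¹) * a * (χ a⁻¹) * (χ (χ a)) = 1) → χ ∈ ((Cfsg.pCore p ↥((Cfsg.groupFusionSystem (P : Subgroup Ω)).autGroup Q)).map ((Cfsg.groupFusionSystem (P : Subgroup Ω)).autGroup Q).subtype : Subgroup (MulAut ↥Q)))) : (Cfsg.groupFusionSystem (P : Subgroup Ω)).IsConstrained p := by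
  exact Cfsg.Agent.H96.isConstrained_of_normalizerPStable hp (Cfsg.Agent.H96.isNormalizerPStable_of_stable P hst) P

end Cfsg.Agent.S5280
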