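import Cfsg.Statements.S5286
import Cfsg.Agent.H80.VFree.Fusion

set_option autoImplicit false
universe u
open Cfsg

namespace Cfsg.Agent.S5286

/-- Every fusion system F over a finite p-group S, saturated or not, is realized by a possibly infinite group: there are a group G and an injective homomorphism ι of S into G such that the maps of F are exactly the conjugations by elements of G between subgroups of ι(S), every finite subgroup of G is conjugate to a subgroup of ι(S), and G has a free normal subgroup whose index divides (#S)!. -/
theorem result {Ω : Type u} [Group Ω] {S : Subgroup Ω} [Finite S] (p : ℕ) [Fact p.Prime] (hS : IsPGroup p ↥S) (F : Cfsg.FusionSystem S) : ∃ (G : Type u) (_ : Group G) (ι : ↥S →* G), F.IsRealizedBy ι ∧ (∀ H : Subgroup G, Finite ↥H → ∃ g : G, ∀ h ∈ H, g * h * g⁻¹ ∈ ι.range) ∧ ∃ N : Subgroup G, N.Normal ∧ IsFreeGroup ↥N ∧ N.index ∣ (Nat.card ↥S).factorial := by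
  exact Cfsg.Agent.H80.VFree.exists_virtually_free F

end Cfsg.Agent.S5286
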