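import Cfsg.Statements.S5296
import Cfsg.Agent.H96.SmallAbelian

set_option autoImplicit false
universe u
open Cfsg

namespace Cfsg.Agent.S5296

/-- Small-exponent abelian subgroups of the hyperfocal subgroup control fusion. Let E and F be saturated fusion systems over the same finite p-group S with E contained in F. Suppose that E and F have the same maps between A and B for all subgroups A, B of the hyperfocal subgroup of F that are elementary abelian when p is odd, respectively abelian of exponent dividing 4 when p = 2. Then E = F. -/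
theorem result {Ω : Type u} [Group Ω] {S : Subgroup Ω} [Finite S] (p : ℕ) [Fact p.Prime] (hS : IsPGroup p S)
    (E F : Cfsg.FusionSystem S) (hE : E.IsSaturated p) (hF : F.IsSaturated p) (hEF : E.IsSubsystemOf F)
    (hodd : p ≠ 2 → ∀ A B : Subgroup Ω, A ≤ (F.hyperfocalSubgroup p) → B ≤ (F.hyperfocalSubgroup p) →
      Cfsg.IsElementaryAbelian p A → Cfsg.IsElementaryAbelian p B → E.homSet A B = F.homSet A B)
    (htwo : p = 2 → ∀ A B : Subgroup Ω, A ≤ (F.hyperfocalSubgroup p) → B ≤ (F.hyperfocalSubgroup p) →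
      IsMulCommutative ↥A → IsMulCommutative ↥B → (∀ a ∈ A, a ^ 4 = 1) → (∀ b ∈ B, b ^ 4 = 1) → E.homSet A B = F.homSet A B) :
    ∀ P : Subgroup Ω, E.Hom P = F.Hom P := by
  refine fun P => Set.Subset.antisymm (hEF P)
    (H96.hom_subset_of_small_abelian hS hE hF hEF (fun A hA hab hexp φ hφ => ?_) P)
  have hsc := H94.stronglyClosed_of_hyperfocal_le hS hF (H94.hyperfocal_le F p)
    (fun s hs t ht => H94.conj_mem_hyperfocal hs ht) le_rfl
  set B := φ.range
  have hB : B ≤ F.hyperfocalSubgroup p := by rintro _ ⟨x, rfl⟩; exact hsc.2 A hA φ hφ x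
  have hBab : IsMulCommutative ↥B := ⟨⟨by
    rintro ⟨_, x, rfl⟩ ⟨_, y, rfl⟩
    apply Subtype.ext
    show φ x * φ y = φ y * φ x
    rw [← map_mul, ← map_mul, show x * y = y * x from Subtype.ext (hab x x.2 y y.2)]⟩⟩
  have hAab : IsMulCommutative ↥A := ⟨⟨fun x y => Subtype.ext (hab x x.2 y y.2)⟩⟩
  have hBexp : ∀ b ∈ B, b ^ H96.smallExp p = 1 := by
    rintro _ ⟨x, rfl⟩
    rw [← map_pow, show x ^ H96.smallExp p = 1 from Subtype.ext (hexp x x.2), map_one]
  have hmem : φ ∈ F.homSet A B := ⟨hφ, fun x => ⟨x, rfl⟩⟩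
  by_cases hp : p = 2
  · have e : H96.smallExp p = 4 := if_pos hp
    rw [← htwo hp A B hA hB hAab hBab (e ▸ hexp) (e ▸ hBexp)] at hmem
    exact hmem.1
  · have e : H96.smallExp p = p := if_neg hp
    rw [← hodd hp A B hA hB ⟨hAab, fun a ha => e ▸ hexp a ha⟩ ⟨hBab, fun a ha => e ▸ hBexp a ha⟩] at hmem
    exact hmem.1

end Cfsg.Agent.S5296
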