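import Cfsg.Statements.S5298
import Cfsg.Agent.H96.SmallElements

set_option autoImplicit false
universe u
open Cfsg

namespace Cfsg.Agent.S5298

/-- Let F be a saturated fusion system over a finite p-group S. If every map of F between cyclic subgroups of the hyperfocal subgroup of F of order p or 4 is conjugation by an element of S, then F is the inner fusion system of S. -/
theorem result {Ω : Type u} [Group Ω] {S : Subgroup Ω} [Finite S] (p : ℕ) [Fact p.Prime] (hS : IsPGroup p S)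
    (F : Cfsg.FusionSystem S) (hF : F.IsSaturated p)
    (h : ∀ A B : Subgroup Ω, A ≤ (F.hyperfocalSubgroup p) → B ≤ (F.hyperfocalSubgroup p) → IsCyclic ↥A → (Nat.card ↥A = p ∨ Nat.card ↥A = 4) → IsCyclic ↥B → (Nat.card ↥B = p ∨ Nat.card ↥B = 4) →
      F.homSet A B ⊆ (Cfsg.innerFusionSystem S).Hom A) :
    ∀ P : Subgroup Ω, F.Hom P = (Cfsg.innerFusionSystem S).Hom P := by
  refine fun P => Cfsg.Agent.H96.eq_inner_of_small_inner hS hF h ?_ P
  refine Cfsg.Agent.H96.isNormal_top_of_small_extend hS hF fun A B hA hB hAc hAn hBc hBn φ hφ => ?_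
  obtain ⟨hAS, g, hg, hge⟩ := h A B hA hB hAc hAn hBc hBn hφ
  refine ⟨hφ.1, fun x hx => ⟨hAS hx, Subgroup.le_normalizer (hAS hx)⟩,
    fun x => ⟨(F.le_of_mem hφ.1).2 x, Subgroup.le_normalizer ((F.le_of_mem hφ.1).2 x)⟩,
    Cfsg.conjHom (A ⊔ S) g, F.conj_mem (sup_le hAS le_rfl) hg, fun x => (hge x).symm, ?_⟩
  rw [Cfsg.Agent.H96.map_subgroupOf_eq_range _ le_sup_right]
  exact Cfsg.Agent.H96.range_eq_of_forall_mem F
    (Cfsg.Agent.H96.res_mem F (F.conj_mem (sup_le hAS le_rfl) hg) _)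
    fun x => S.mul_mem (S.mul_mem hg x.2) (S.inv_mem hg)

end Cfsg.Agent.S5298
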