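import Cfsg.Statements.S5310
import Cfsg.Agent.H94.ConstrainedComponent
import Cfsg.Agent.H94.QuasisimpleNonabelian
import Cfsg.Agent.H94.Factor

set_option autoImplicit false
open Cfsg

namespace Cfsg.Agent.S5310

open Cfsg.FusionSystem

/-- An inner system is its own central product with the trivial system. -/
theorem centralProduct_inner_bot {Ω : Type*} [Group Ω] (R : Subgroup Ω) :
    IsCentralProductOf (innerFusionSystem R) (innerFusionSystem (⊥ : Subgroup Ω)) (innerFusionSystem R) := by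
  obtain ⟨D₀, hD₀⟩ := H94.exists_productSystem (innerFusionSystem R) (innerFusionSystem (⊥ : Subgroup Ω))
  have hsnd : ∀ {z : Ω × Ω}, z ∈ R.prod (⊥ : Subgroup Ω) → z.2 = 1 := fun hz => Subgroup.mem_bot.1 hz.2
  set θ : ↥(R.prod (⊥ : Subgroup Ω)) →* Ω := (MonoidHom.fst Ω Ω).comp (R.prod (⊥ : Subgroup Ω)).subtype
  refine ⟨D₀, hD₀, ⊥, θ, bot_le, bot_inf_eq _, bot_inf_eq _, fun x hx => rfl,
    fun y hy => (hsnd hy).symm, bot_le, fun s => ?_, ?_, fun P' φ' => ?_⟩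
  · rw [Subgroup.mem_bot]
    exact ⟨fun h => Prod.ext h (hsnd s.2), fun h => by show (s : Ω × Ω).1 = 1; rw [h]; rfl⟩
  · ext x
    exact ⟨fun ⟨z, hz⟩ => hz ▸ z.2.1, fun hx => ⟨⟨(x, 1), hx, one_mem _⟩, rfl⟩⟩
  have hpre : ∀ z : Ω × Ω, z ∈ preimageAlong θ P' ↔ z.1 ∈ P' ∧ z ∈ R.prod (⊥ : Subgroup Ω) := fun z => by
    constructor
    · rintro ⟨w, hw, rfl⟩
      exact ⟨hw, w.2⟩
    · exact fun h => ⟨⟨z, h.2⟩, h.1, rfl⟩
  constructor
  · rintro ⟨hP', g, hg, h⟩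
    let c : ↥(preimageAlong θ P') →* Ω × Ω :=
      (MulAut.conj ((g, 1) : Ω × Ω)).toMonoidHom.comp (preimageAlong θ P').subtype
    have hle : preimageAlong θ P' ≤ R.prod (⊥ : Subgroup Ω) := fun z hz => ((hpre z).1 hz).2
    refine ⟨hP', c, (hD₀ _ c).2 ⟨hle, (MulAut.conj g).toMonoidHom.comp (Subgroup.subtype _), ⟨?_, g, hg, fun x => rfl⟩,
      Subgroup.subtype _, ⟨?_, 1, one_mem _, fun x => by simp⟩, fun x h₁ h₂ => ?_⟩, hle, ?_, ?_, ?_⟩
    · rintro _ ⟨z, hz, rfl⟩; exact (hle hz).1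
    · rintro _ ⟨z, hz, rfl⟩; exact (hle hz).2
    · exact Prod.ext (by simp [c]) (by simp [c])
    · intro x
      show (g, 1) * (x : Ω × Ω) * (g, 1)⁻¹ ∈ R.prod (⊥ : Subgroup Ω)
      exact mul_mem (mul_mem ⟨hg, one_mem _⟩ (hle x.2)) (inv_mem ⟨hg, one_mem _⟩)
    · exact fun x => ((hpre _).1 x.2).1
    · intro x
      rw [h]
      rfl
  · rintro ⟨hP', φ, hφ, hP, hφm, hP'', hind⟩
    obtain ⟨-, φ₁, ⟨-, g, hg, hg1⟩, φ₂, -, he⟩ := (hD₀ _ φ).1 hφ
    refine ⟨hP', g, hg, fun x => ?_⟩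
    let w : ↥(preimageAlong θ P') := ⟨((x : Ω), 1), (hpre _).2 ⟨x.2, hP' x.2, one_mem _⟩⟩
    refine (hind w).trans ?_
    show (φ w).1 = _
    rw [he w ⟨_, w.2, rfl⟩ ⟨_, w.2, rfl⟩]
    exact hg1 _

/-- A saturated fusion system F over a finite p-group S is constrained (its largest normal subgroup O_p(F) is centric) if and only if the inner fusion system of O_p(F) is itself a generalized Fitting subsystem of F (that is, F*(F) = O_p(F)). -/
theorem result {Ω : Type*} [Group Ω] {S : Subgroup Ω} [Finite S] (p : ℕ) [Fact p.Prime] (hS : IsPGroup p S) (F : Cfsg.FusionSystem S) (hF : F.IsSaturated p) :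
    F.IsConstrained p ↔ (Cfsg.innerFusionSystem F.core).IsGeneralizedFittingOf F p := by
  constructor
  · intro hc
    have hb : F.IsNormal ⊥ := H94.isNormal_of_isCentral ⟨bot_le, fun P φ hφ => ?_⟩
    · refine ⟨⊥, innerFusionSystem ⊥, ⟨H94.inner_isNormalIn hS hF hb,
        fun U C hC => (H94.not_component_of_isConstrained hS hc hC).elim, fun R D hD _ P φ hφ => ?_⟩,
        centralProduct_inner_bot _⟩
      obtain ⟨hP, g, hg, hgφ⟩ := hφ
      have : φ = (MulAut.conj (1 : Ω)).toMonoidHom.comp P.subtype := MonoidHom.ext fun x => by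
        rw [hgφ, Subgroup.mem_bot.1 hg]; rfl
      rw [this]
      exact D.conj_mem (hP.trans bot_le) (one_mem R)
    · obtain ⟨ψ, hψ, hψe⟩ : ∃ ψ ∈ F.Hom (P ⊔ ⊥), ∀ x : P, ψ (Subgroup.inclusion le_sup_left x) = φ x :=
        ⟨φ.comp (Subgroup.inclusion (sup_bot_eq P).le), H96.res_mem F hφ (sup_bot_eq P).le, fun x => rfl⟩
      exact ⟨ψ, hψ, hψe, fun x => by
        rw [show Subgroup.inclusion le_sup_right x = 1 from Subtype.ext (Subgroup.mem_bot.1 x.2), map_one]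
        exact (Subgroup.mem_bot.1 x.2).symm⟩
  · rintro ⟨T, E, hE, D₀, hD₀, Z, θ, -, -, -, -, hθ₂, -, -, hrange, -⟩
    have hT : T ≤ F.core := fun y hy =>
      hrange ▸ ⟨⟨(1, y), one_mem _, hy⟩, hθ₂ y ⟨one_mem _, hy⟩⟩
    by_contra hnc
    obtain ⟨U, C, hC⟩ := H94.hasComp_of_not_constrained hS hF hnc
    have hid : (MulAut.conj (1 : Ω)).toMonoidHom.comp U.subtype ∈ C.Hom U := C.conj_mem le_rfl (one_mem U)
    have hUT : U ≤ T := (E.le_of_mem (hE.2.1 U C hC U hid)).1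
    have hUc := (H94.component_le_centralizer hS hC (H96.isNormal_core F) U hid).2.1
    have hUS : U ≤ S := fun x hx => (hUc hx).1
    haveI := H96.finite_of_le hUS
    refine H94.not_isMulCommutative_of_quasisimple p (hS.to_le hUS) C hC.2
      ⟨⟨fun x y => Subtype.ext ?_⟩⟩
    exact ((hUc x.2).2 (y : Ω) (hT (hUT y.2))).symm

end Cfsg.Agent.S5310
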