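import Cfsg.Statements.S5331
import Cfsg.Agent.H96.Abelian

set_option autoImplicit false
open Cfsg

namespace Cfsg.Agent.S5331

/-- An element killed by two in a cyclic group of order `2^(b+1)`. -/
theorem two_torsion {b : ℕ} (z : ZMod (2 ^ (b + 1))) (hz : 2 • z = 0) :
    z = 0 ∨ z = ((2 ^ b : ℕ) : ZMod (2 ^ (b + 1))) := by
  have h0 : ((2 * z.val : ℕ) : ZMod (2 ^ (b + 1))) = 0 := by
    rw [Nat.cast_mul, ZMod.natCast_zmod_val, ← nsmul_eq_mul]; exact hz
  rw [ZMod.natCast_eq_zero_iff] at h0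
  obtain ⟨c, hc⟩ := Nat.dvd_of_mul_dvd_mul_left two_pos ((dvd_of_eq (pow_succ' 2 b).symm).trans h0)
  have hlt : 2 ^ b * c < 2 ^ b * 2 := by
    have h := z.val_lt.trans_eq (pow_succ 2 b)
    rwa [hc] at h
  have hc2 : c < 2 := Nat.lt_of_mul_lt_mul_left hlt
  rcases (show c = 0 ∨ c = 1 by omega) with rfl | rfl
  · left
    exact (ZMod.val_eq_zero z).1 (by simpa using hc)
  · right
    rw [mul_one] at hc
    rw [← hc, ZMod.natCast_zmod_val]

/-- Two non-zero elements killed by two in a cyclic two-group add up to zero. -/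
theorem add_eq_zero_of_two_torsion {N : ℕ} (x y : ZMod (2 ^ N)) (hx : 2 • x = 0) (hy : 2 • y = 0)
    (hx0 : x ≠ 0) (hy0 : y ≠ 0) : x + y = 0 := by
  rcases N with _ | b
  · exact absurd (Subsingleton.elim (α := ZMod 1) x 0) hx0
  · have h1 := (two_torsion x hx).resolve_left hx0
    have h2 := (two_torsion y hy).resolve_left hy0
    rw [h2, ← h1, ← two_nsmul]
    exact hx

/-- Off the exponent `j + 1`, an element of order two divisible by `2^j` is divisible by `2^(j+1)`. -/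
theorem coord_next {N j : ℕ} (z : ZMod (2 ^ N)) (hz : 2 • z = 0) (hj : ∃ w, 2 ^ j • w = z)
    (hN : N ≠ j + 1) : ∃ c, 2 ^ (j + 1) • c = z := by
  obtain ⟨w, rfl⟩ := hj
  rcases Nat.lt_or_ge N (j + 1) with hlt | hge
  · refine ⟨0, ?_⟩
    rw [smul_zero, nsmul_eq_mul, (ZMod.natCast_eq_zero_iff _ _).2 (pow_dvd_pow 2 (Nat.lt_succ_iff.1 hlt)),
      zero_mul]
  · obtain ⟨k, rfl⟩ : ∃ k, N = j + 1 + k + 1 := ⟨N - (j + 2), by omega⟩
    rcases two_torsion _ hz with h | h
    · exact ⟨0, by rw [smul_zero, h]⟩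
    · refine ⟨((2 ^ k : ℕ) : ZMod _), ?_⟩
      rw [h, nsmul_eq_mul, ← Nat.cast_mul, ← pow_add]

variable {n : ℕ} {a : Fin n → ℕ}

/-- The layers of the elements killed by two have index at most two. -/
theorem add_mem_next (ha : Function.Injective a) {j : ℕ} {u v : (i : Fin n) → ZMod (2 ^ a i)}
    (hu2 : 2 • u = 0) (hv2 : 2 • v = 0) (huj : ∃ w, 2 ^ j • w = u) (hvj : ∃ w, 2 ^ j • w = v)
    (hu : ¬ ∃ w, 2 ^ (j + 1) • w = u) (hv : ¬ ∃ w, 2 ^ (j + 1) • w = v) :
    ∃ w, 2 ^ (j + 1) • w = u + v := by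
  have bad : ∀ u : (i : Fin n) → ZMod (2 ^ a i), 2 • u = 0 → (∃ w, 2 ^ j • w = u) →
      (¬ ∃ w, 2 ^ (j + 1) • w = u) → ∀ i, a i = j + 1 → u i ≠ 0 := by
    intro u hu2 huj hu i hi hi0
    refine hu ?_
    have : ∀ k, ∃ c, 2 ^ (j + 1) • c = u k := by
      intro k
      by_cases hk : a k = j + 1
      · obtain rfl : k = i := ha (hk.trans hi.symm)
        exact ⟨0, by rw [smul_zero, hi0]⟩
      · obtain ⟨w, hw⟩ := huj
        exact coord_next (u k) (congrFun hu2 k) ⟨w k, congrFun hw k⟩ hk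
    choose c hc using this
    exact ⟨c, funext hc⟩
  have : ∀ i, ∃ c, 2 ^ (j + 1) • c = u i + v i := by
    intro i
    by_cases hi : a i = j + 1
    · refine ⟨0, ?_⟩
      rw [smul_zero, add_eq_zero_of_two_torsion (u i) (v i) (congrFun hu2 i) (congrFun hv2 i)
        (bad u hu2 huj hu i hi) (bad v hv2 hvj hv i hi)]
    · obtain ⟨w, hw⟩ := huj
      obtain ⟨w', hw'⟩ := hvj
      obtain ⟨c, hc⟩ := coord_next (u i) (congrFun hu2 i) ⟨w i, congrFun hw i⟩ hi
      obtain ⟨c', hc'⟩ := coord_next (v i) (congrFun hv2 i) ⟨w' i, congrFun hw' i⟩ hi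
      exact ⟨c + c', by rw [smul_add, hc, hc']⟩
  choose c hc using this
  exact ⟨c, funext hc⟩

section
variable {G : Type*} [Group G]

theorem iterate_apply (α : MulAut G) {x t : G} (hx : α x = x * t) (ht : α t = t) (m : ℕ) :
    (α ^ m) x = x * t ^ m := by
  induction m with
  | zero => simp
  | succ m ih =>
    rw [pow_succ', MulAut.mul_apply, ih, map_mul, map_pow, hx, ht, mul_assoc, ← pow_succ']

theorem eq_one_of_odd {t : G} {m : ℕ} (hm : ¬ 2 ∣ m) (h2 : t ^ 2 = 1) (hmt : t ^ m = 1) : t = 1 := by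
  obtain ⟨q, rfl⟩ : ∃ q, m = 2 * q + 1 := ⟨m / 2, by omega⟩
  rwa [pow_succ, pow_mul, h2, one_pow, one_mul] at hmt

theorem aut_eq_one (ha : Function.Injective a) (e : G ≃* Multiplicative ((i : Fin n) → ZMod (2 ^ a i)))
    (α : MulAut G) {m : ℕ} (hm : ¬ 2 ∣ m) (hα : α ^ m = 1) : α = 1 := by
  have hcomm : ∀ x y : G, x * y = y * x := fun x y =>
    e.injective (by rw [map_mul, map_mul, mul_comm])
  let f : G → ((i : Fin n) → ZMod (2 ^ a i)) := fun x => Multiplicative.toAdd (e x)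
  have f_pow : ∀ (x : G) (k : ℕ), f (x ^ k) = k • f x := fun x k => by
    show Multiplicative.toAdd (e (x ^ k)) = _
    rw [map_pow, toAdd_pow]
  have f_mul : ∀ x y : G, f (x * y) = f x + f y := fun x y => by
    show Multiplicative.toAdd (e (x * y)) = _
    rw [map_mul, toAdd_mul]
  have f_inj : Function.Injective f := fun x y h => e.injective (Multiplicative.toAdd.injective h)
  have f_one : f 1 = 0 := by show Multiplicative.toAdd (e 1) = _; rw [map_one, toAdd_one]
  have f_ex : ∀ (x : G) (k : ℕ), (∃ y, y ^ k = x) ↔ ∃ w, k • w = f x := by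
    refine fun x k => ⟨?_, ?_⟩
    · rintro ⟨y, rfl⟩; exact ⟨f y, (f_pow y k).symm⟩
    · rintro ⟨w, hw⟩
      refine ⟨e.symm (Multiplicative.ofAdd w), f_inj ?_⟩
      rw [f_pow, ← hw]
      show k • Multiplicative.toAdd (e (e.symm _)) = _
      rw [MulEquiv.apply_symm_apply, toAdd_ofAdd]
  let M := ∑ i, a i
  have hM : ∀ w : (i : Fin n) → ZMod (2 ^ a i), 2 ^ M • w = 0 := fun w => funext fun i => by
    rw [Pi.smul_apply, Pi.zero_apply, nsmul_eq_mul, (ZMod.natCast_eq_zero_iff _ _).2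
      (pow_dvd_pow 2 (Finset.single_le_sum (fun k _ => Nat.zero_le (a k)) (Finset.mem_univ i))), zero_mul]
  have layer : ∀ k j, M ≤ j + k → ∀ x : G, x ^ 2 = 1 → (∃ y, y ^ 2 ^ j = x) → α x = x := by
    intro k
    induction k with
    | zero =>
      intro j hj x _ hxj
      obtain ⟨y, rfl⟩ := hxj
      have : y ^ 2 ^ j = 1 := f_inj (by
        obtain ⟨d, hd⟩ := pow_dvd_pow 2 (show M ≤ j by omega)
        rw [f_pow, f_one, hd, mul_comm, mul_smul, hM, smul_zero])
      rw [this, map_one]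
    | succ k ih =>
      intro j hj x hx2 hxj
      by_cases hx' : ∃ y, y ^ 2 ^ (j + 1) = x
      · exact ih (j + 1) (by omega) x hx2 hx'
      have hax2 : (α x) ^ 2 = 1 := by rw [← map_pow, hx2, map_one]
      have haxj : ∃ y, y ^ 2 ^ j = α x := by
        obtain ⟨y, rfl⟩ := hxj; exact ⟨α y, (map_pow α y _).symm⟩
      have hax' : ¬ ∃ y, y ^ 2 ^ (j + 1) = α x := by
        rintro ⟨y, hy⟩
        exact hx' ⟨α.symm y, by rw [← map_pow, hy, MulEquiv.symm_apply_apply]⟩
      have hd : ∃ y, y ^ 2 ^ (j + 1) = x * α x := by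
        rw [f_ex, f_mul]
        refine add_mem_next ha ?_ ?_ ((f_ex _ _).1 hxj) ((f_ex _ _).1 haxj)
          ((f_ex _ _).not.1 hx') ((f_ex _ _).not.1 hax')
        · rw [← f_pow, hx2, f_one]
        · rw [← f_pow, hax2, f_one]
      have hd2 : (x * α x) ^ 2 = 1 := by
        rw [(show Commute x (α x) from hcomm _ _).mul_pow, hx2, hax2, one_mul]
      have hfix := ih (j + 1) (by omega) _ hd2 hd
      have h1 : α x = x * (x * α x) := by rw [← mul_assoc, ← pow_two, hx2, one_mul]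
      have h2 := iterate_apply α h1 hfix m
      rw [hα, MulAut.one_apply, left_eq_mul] at h2
      rw [h1, eq_one_of_odd hm hd2 h2, mul_one]
  have tor : ∀ x : G, x ^ 2 = 1 → α x = x := fun x hx =>
    layer M 0 (by omega) x hx ⟨x, by simp⟩
  have main : ∀ k, ∀ x : G, x ^ 2 ^ k = 1 → α x = x := by
    intro k
    induction k with
    | zero => intro x hx; rw [pow_zero, pow_one] at hx; rw [hx, map_one]
    | succ k ih =>
      intro x hx
      have hsq : α (x ^ 2) = x ^ 2 := ih _ (by rw [← pow_mul, ← pow_succ']; exact hx)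
      have ht2 : (x⁻¹ * α x) ^ 2 = 1 := by
        rw [(show Commute x⁻¹ (α x) from hcomm _ _).mul_pow, ← map_pow, hsq, inv_pow, inv_mul_cancel]
      have h1 : α x = x * (x⁻¹ * α x) := by rw [mul_inv_cancel_left]
      have h2 := iterate_apply α h1 (tor _ ht2) m
      rw [hα, MulAut.one_apply, left_eq_mul] at h2
      rw [h1, eq_one_of_odd hm ht2 h2, mul_one]
  refine MulEquiv.ext fun x => main M x (f_inj ?_)
  rw [f_pow, f_one, hM]

end

/-- Let S be a finite abelian 2-group that is a direct product of cyclic groups of pairwise distinct orders 2^{a_1} < 2^{a_2} < ⋯ < 2^{a_n} (all a_i ≥ 1). Then every saturated fusion system over S is the inner one: its maps are exactly the conjugations by elements of S. -/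
theorem result {Ω : Type*} [Group Ω] {S : Subgroup Ω} [Finite S] (n : ℕ) (a : Fin n → ℕ) (ha : StrictMono a) (ha1 : ∀ i, 1 ≤ a i) (e : ↥S ≃* Multiplicative ((i : Fin n) → ZMod (2 ^ a i))) (F : Cfsg.FusionSystem S) (hF : F.IsSaturated 2) (P : Subgroup Ω) : F.Hom P = (Cfsg.innerFusionSystem S).Hom P := by
  have : Fact (Nat.Prime 2) := ⟨Nat.prime_two⟩
  have hab : ∀ x ∈ S, ∀ y ∈ S, x * y = y * x := fun x hx y hy => congrArg Subtype.val
    (e.injective (by rw [map_mul, map_mul, mul_comm]) : (⟨x, hx⟩ : S) * ⟨y, hy⟩ = ⟨y, hy⟩ * ⟨x, hx⟩)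
  ext φ
  refine ⟨fun hφ => ?_, ?_⟩
  · obtain ⟨α, hα, hαe⟩ := H96.exists_aut_ext hF hab hφ
    have hpow : α ^ Nat.card (F.autGroup S) = 1 := by
      exact congrArg Subtype.val (pow_card_eq_one' (x := (⟨α, hα⟩ : F.autGroup S)))
    have h1 : α = 1 := aut_eq_one ha.injective e α (H96.not_dvd_card_autGroup hF hab) hpow
    obtain ⟨hP, -⟩ := F.le_of_mem hφ
    refine ⟨hP, 1, S.one_mem, fun x => ?_⟩
    rw [← hαe x (hP x.2), h1]
    simp
  · rintro ⟨hP, g, hg, h⟩
    exact H96.mem_congr F (F.conj_mem hP hg) h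

end Cfsg.Agent.S5331
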