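import Cfsg.Statements.S5354
import Cfsg.Agent.H17.RankThree

set_option autoImplicit false
open Cfsg
open scoped commutatorElement

namespace Cfsg.Agent.S5354

/-- Let D be a conjugation-invariant generating set of 3-transpositions of the finite group G on which G acts primitively by conjugation, and suppose two different members of D commute (width at least 2). Then G has a quasisimple normal subgroup L of index at most 2 with the generalized Fitting subgroup of G equal to L times the centre, the commuting graph of D is connected, and for d in D the subgroup generated by the members of D commuting with d is a maximal D-subgroup: it is proper, and every subgroup generated by members of D that contains it is either it or G. -/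
theorem result {G : Type*} [Group G] [Finite G] {D : Set G} (hD : Cfsg.IsThreeTranspositionGroup D) (hprim : Cfsg.IsPrimitiveUnderConj D) (hw : ∃ a ∈ D, ∃ b ∈ D, a ≠ b ∧ Commute a b) : (∃ L : Subgroup G, L.Normal ∧ Cfsg.IsQuasisimple L ∧ L.index ≤ 2 ∧ Cfsg.generalizedFittingSubgroup G = L ⊔ Subgroup.center G) ∧ (Cfsg.commutingGraph D).Connected ∧ ∀ d ∈ D, Subgroup.closure {y : G | y ∈ D ∧ Commute d y} ≠ ⊤ ∧ ∀ H : Subgroup G, Cfsg.IsDSubgroup D H → Subgroup.closure {y : G | y ∈ D ∧ Commute d y} ≤ H → H = Subgroup.closure {y : G | y ∈ D ∧ Commute d y} ∨ H = ⊤ := by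
  obtain ⟨hcls, hD2⟩ := H17.class_of_primitive hD hprim
  obtain ⟨h2, h3, hc⟩ := H17.primitive_facts hcls hprim hw
  obtain ⟨L, hL⟩ : ∃ L : Subgroup G, Cfsg.IsComponent L := by
    by_contra hne
    exact H17.layer_ne_bot hcls hD2 h2 h3 (le_bot_iff.mp (sSup_le fun K hK => absurd ⟨K, hK⟩ hne))
  haveI := H17.component_normal hcls hD2 hL
  refine ⟨⟨L, H17.component_normal hcls hD2 hL, hL.2,
    H17.index_le_two hcls hD2 (H17.mul_mem_of_connected hcls hD2 hL hc), ?_⟩, hc, fun d hd => ⟨?_, ?_⟩⟩
  · rw [Cfsg.generalizedFittingSubgroup, H17.layer_eq hcls hD2 hL, H17.fitting_eq_center hcls hD2 h2 h3]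
  · intro htop
    obtain ⟨c, -, hdc⟩ := H17.exists_not_commute hcls hD2 hd
    exact hdc (H17.centGen_commute (D := D) (show c ∈ Subgroup.closure _ from htop.symm ▸ Subgroup.mem_top c))
  · intro H hH hle
    by_cases hex : ∀ x ∈ D, x ∈ H → Commute d x
    · refine Or.inl (le_antisymm ?_ hle)
      rw [← hH, Subgroup.closure_le]
      exact fun x ⟨hx, hxH⟩ => Subgroup.subset_closure ⟨hx, hex x hx hxH⟩
    · refine Or.inr ?_
      push_neg at hex
      obtain ⟨c, hc', hcH, hdc⟩ := hex
      rw [eq_top_iff, ← hD.2.2, Subgroup.closure_le]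
      intro x hx
      by_cases hdx : Commute d x
      · exact hle (Subgroup.subset_closure ⟨hx, hdx⟩)
      · obtain ⟨k, hk, rfl⟩ := H17.transitive_far hcls hprim hw hd hc' hx hdc hdx
        exact mul_mem (mul_mem (hle hk) hcH) (inv_mem (hle hk))

end Cfsg.Agent.S5354
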