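import Cfsg.Statements.S5356
import Cfsg.Agent.H17.Primitive

set_option autoImplicit false
open Cfsg

namespace Cfsg.Agent.S5356

/-- Let D be a conjugacy class of 3-transpositions generating the finite group G, with at least two members, and d a member of D such that every member of D commuting with d commutes with exactly the same members of D as d. Then there is a Sylow 3-subgroup P of G normalized by d such that G is generated by d, P and the largest normal 2-subgroup of G. -/
theorem result {G : Type*} [Group G] [Finite G] {D : Set G} (hD : Cfsg.IsThreeTranspositionClass D) (hD2 : ∃ a ∈ D, ∃ b ∈ D, a ≠ b) {d : G} (hd : d ∈ D) (hV : {y : G | y ∈ D ∧ Commute d y} = {v : G | v ∈ D ∧ ∀ e ∈ D, Commute v e ↔ Commute d e}) : ∃ P : Sylow 3 G, d ∈ Subgroup.normalizer (P : Set G) ∧ Subgroup.zpowers d ⊔ (P : Subgroup G) ⊔ Cfsg.pCore 2 G = ⊤ := by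
  haveI : Fact (Nat.Prime 2) := ⟨Nat.prime_two⟩
  haveI : Fact (Nat.Prime 3) := ⟨Nat.prime_three⟩
  haveI := Cfsg.Agent.H51.pCore_normal 2 G
  have hset := hD.1
  have hconj := H17.class_conj hD
  set O := Cfsg.pCore 2 G with hOdef
  have hO : IsPGroup 2 O := Cfsg.Agent.H51.pCore_isPGroup 2 G
  have hVall : ∀ a ∈ D, ∀ b ∈ D, Commute a b → a * b ∈ O := by
    intro a ha b hb hab
    obtain ⟨g, rfl⟩ := H17.class_transitive hD hd ha
    have hb' : g⁻¹ * b * g ∈ {y : G | y ∈ D ∧ Commute d y} := by
      refine ⟨by simpa using hconj g⁻¹ b hb, (H17.commute_conj g).mp ?_⟩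
      rwa [show g * (g⁻¹ * b * g) * g⁻¹ = b by group]
    rw [hV] at hb'
    have h := H17.vrel_conj hset hconj g (a := d) (b := g⁻¹ * b * g) ⟨hd, hb'.1, hb'.2⟩
    rw [show g * (g⁻¹ * b * g) * g⁻¹ = b by group] at h
    exact H17.vrel_mul_mem_pCore hset hconj h
  set mk := QuotientGroup.mk' O with hmk
  have hker : ∀ x, mk x = 1 ↔ x ∈ O := fun x => QuotientGroup.eq_one_iff x
  let M : Subgroup G := (Cfsg.pCore 3 (G ⧸ O)).comap mk
  haveI := Cfsg.Agent.H51.pCore_normal 3 (G ⧸ O)
  haveI hMn : M.Normal := inferInstanceAs ((Cfsg.pCore 3 (G ⧸ O)).comap mk).Normal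
  have hprod : ∀ a ∈ D, ∀ b ∈ D, a * b ∈ M := by
    intro a ha b hb
    show mk (a * b) ∈ Cfsg.pCore 3 (G ⧸ O)
    rw [map_mul]
    refine H17.width_one_mem_pCore (D := mk '' D) ?_ ?_ ?_ ⟨a, ha, rfl⟩ ⟨b, hb, rfl⟩
    · rintro _ ⟨x, hx, rfl⟩; rw [← map_mul, H17.sq_one hset hx, map_one]
    · intro g
      rintro _ ⟨x, hx, rfl⟩
      obtain ⟨g, rfl⟩ := QuotientGroup.mk_surjective g
      exact ⟨g * x * g⁻¹, hconj g x hx, by simp [hmk]⟩
    · rintro _ ⟨x, hx, rfl⟩ _ ⟨y, hy, rfl⟩
      rw [← map_mul, ← map_pow, hker]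
      by_cases hc : Commute x y
      · exact pow_mem (hVall x hx y hy hc) 3
      · rw [H17.cube_one hset hx hy hc]; exact one_mem O
  have hidx := H17.index_le_two hD hD2 (L := M) hprod
  have hMmem : ∀ x ∈ M, ∃ k : ℕ, mk x ^ 3 ^ k = 1 := by
    intro x hx
    obtain ⟨k, hk⟩ := Cfsg.Agent.H51.pCore_isPGroup 3 (G ⧸ O) ⟨mk x, hx⟩
    exact ⟨k, by simpa using congrArg Subtype.val hk⟩
  have p3M : ∀ K : Subgroup G, IsPGroup 3 K → K ≤ M := by
    intro K hK x hx
    by_cases hM : M = ⊤
    · exact hM ▸ Subgroup.mem_top x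
    have h2 : M.index = 2 := by
      have h1 := mt Subgroup.index_eq_one.mp hM
      have := Subgroup.index_ne_zero_of_finite (H := M)
      omega
    obtain ⟨k, hk⟩ := hK ⟨x, hx⟩
    have hk' : x ^ 3 ^ k = 1 := by simpa using congrArg Subtype.val hk
    have hsq : x ^ 2 ∈ M := by rw [pow_two]; exact (Subgroup.mul_mem_iff_of_index_two h2).mpr Iff.rfl
    obtain ⟨l, hl⟩ : Odd (3 ^ k) := Odd.pow (by decide)
    have : x = ((x ^ 2) ^ l)⁻¹ := by
      rw [eq_inv_iff_mul_eq_one, ← pow_mul, ← pow_succ', ← hl, hk']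
    rw [this]; exact inv_mem (pow_mem hsq l)
  -- images of subgroups of `M` are covered by their Sylow 3-subgroups
  have cover : ∀ K : Subgroup G, K ≤ M → ∀ Q : Sylow 3 K, ∀ x ∈ K,
      ∃ r ∈ (Q : Subgroup K).map K.subtype, mk r = mk x := by
    intro K hK Q x hx
    let f : K →* (mk.comp K.subtype).range := (mk.comp K.subtype).rangeRestrict
    let Q' := Q.mapSurjective (f := f) (MonoidHom.rangeRestrict_surjective _)
    have hp : IsPGroup 3 (⊤ : Subgroup (mk.comp K.subtype).range) := by
      intro y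
      obtain ⟨⟨_, z, rfl⟩, -⟩ := y
      obtain ⟨k, hk⟩ := hMmem (z : G) (hK z.2)
      exact ⟨k, Subtype.ext (Subtype.ext hk)⟩
    have hQ' : (Q' : Subgroup (mk.comp K.subtype).range) = ⊤ := (Q'.is_maximal' hp le_top).symm
    have hxm : f ⟨x, hx⟩ ∈ (Q : Subgroup K).map f := by
      have := Subgroup.mem_top (f ⟨x, hx⟩)
      rw [← hQ'] at this
      exact this
    obtain ⟨r, hr, hr'⟩ := hxm
    exact ⟨r, ⟨r, hr, rfl⟩, congrArg Subtype.val hr'⟩
  have hdd := H17.sq_one hset hd
  have hdi := H17.inv_self hset hd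
  -- a Sylow 3-subgroup of the centralizer of d in M
  obtain ⟨Q⟩ : Nonempty (Sylow 3 ↥(Subgroup.centralizer ({d} : Set G) ⊓ M)) := inferInstance
  set R0 := (Q : Subgroup _).map (Subgroup.centralizer ({d} : Set G) ⊓ M).subtype with hR0
  have hR0p : IsPGroup 3 R0 := Q.isPGroup'.map _
  have hR0c : ∀ x ∈ R0, d * x * d = x := by
    rintro _ ⟨y, -, rfl⟩
    show d * (y : G) * d = y
    rw [← Subgroup.mem_centralizer_singleton_iff.mp y.2.1, mul_assoc, hdd, mul_one]
  let T : Set (Subgroup G) := {R | IsPGroup 3 R ∧ R0 ≤ R ∧ ∀ x ∈ R, d * x * d ∈ R}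
  obtain ⟨R, ⟨hRp, hR0R, hRd⟩, hmax⟩ := Set.Finite.exists_maximal (s := T) (Set.toFinite _)
    ⟨R0, hR0p, le_rfl, fun x hx => (hR0c x hx).symm ▸ hx⟩
  obtain ⟨P, hRP⟩ := hRp.exists_le_sylow
  have hRP' : (P : Subgroup G) = R := by
    by_contra hne
    have hlt : R < (P : Subgroup G) := lt_of_le_of_ne hRP (Ne.symm hne)
    haveI := P.isPGroup'.isNilpotent
    have hlt' : R.subgroupOf P < ⊤ := by
      rw [lt_top_iff_ne_top]
      intro h
      exact hlt.not_ge (Subgroup.subgroupOf_eq_top.mp h)
    obtain ⟨⟨g, hgP⟩, hgn, hgR⟩ := SetLike.exists_of_lt (Group.normalizerCondition_of_isNilpotent _ hlt')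
    rw [Subgroup.mem_subgroupOf] at hgR
    have hgnorm : ∀ x ∈ R, g * x * g⁻¹ ∈ R := by
      intro x hx
      have := (Subgroup.mem_normalizer_iff.mp hgn ⟨x, hRP hx⟩).mp (Subgroup.mem_subgroupOf.mpr hx)
      exact Subgroup.mem_subgroupOf.mp this
    have hgM : g ∈ M := p3M _ P.isPGroup' hgP
    have hPO : ∀ x ∈ (P : Subgroup G), mk x = 1 → x = 1 := by
      intro x hx hx'
      obtain ⟨i, hi⟩ := P.isPGroup' ⟨x, hx⟩
      obtain ⟨j, hj⟩ := hO ⟨x, (hker x).mp hx'⟩
      have hi' : x ^ 3 ^ i = 1 := by simpa using congrArg Subtype.val hi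
      have hj' : x ^ 2 ^ j = 1 := by simpa using congrArg Subtype.val hj
      have h1 := pow_gcd_eq_one.mpr ⟨hi', hj'⟩
      have hco : Nat.Coprime (3 ^ i) (2 ^ j) := Nat.Coprime.pow _ _ (by norm_num)
      rwa [hco, pow_one] at h1
    have hgR' : ∀ r ∈ R, mk g ≠ mk r := by
      intro r hr h
      apply hgR
      have := hPO (r⁻¹ * g) (mul_mem (inv_mem (hRP hr)) hgP) (by
        rw [map_mul, map_inv, h, inv_mul_cancel])
      rw [inv_mul_eq_one] at this
      exact this ▸ hr
    obtain ⟨q, hq⟩ : ∃ q, q = d * g * d * g⁻¹ := ⟨_, rfl⟩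
    have hqM : q ∈ M := by
      rw [hq]
      refine mul_mem ?_ (inv_mem hgM)
      have := hMn.conj_mem g hgM d
      rwa [hdi] at this
    by_cases hqR : ∃ r ∈ R, mk r = mk q
    · -- a fixed point in the coset of g
      obtain ⟨r, hr, hrq⟩ := hqR
      obtain ⟨k, hk⟩ := hMmem q hqM
      obtain ⟨l, hl⟩ : Odd (3 ^ k) := Odd.pow (by decide)
      have hinv : mk d * mk q * mk d = (mk q)⁻¹ := by
        rw [← map_mul, ← map_mul, ← map_inv, hq]
        congr 1
        simp only [mul_inv_rev, inv_inv, hdi, mul_assoc]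
        rw [← mul_assoc d d, hdd, one_mul]
      have hpow : ∀ n : ℕ, mk d * mk q ^ n * mk d = (mk q ^ n)⁻¹ := by
        intro n
        have hdd' : mk d * mk d = 1 := by rw [← map_mul, hdd, map_one]
        induction n with
        | zero => rw [pow_zero, mul_one, hdd', inv_one]
        | succ n ih =>
          calc mk d * mk q ^ (n + 1) * mk d
              = (mk d * mk q ^ n * mk d) * (mk d * mk q * mk d) := by
                rw [pow_succ]
                calc mk d * (mk q ^ n * mk q) * mk d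
                    = mk d * mk q ^ n * (mk d * mk d) * mk q * mk d := by
                      rw [hdd', mul_one]; simp only [mul_assoc]
                  _ = _ := by simp only [mul_assoc]
            _ = _ := by rw [ih, hinv, ← mul_inv_rev, ← pow_succ']
      obtain ⟨x, hx⟩ : ∃ x, x = r ^ (l + 1) * g := ⟨_, rfl⟩
      have hxfix : mk d * mk x * mk d = mk x := by
        have hdd' : mk d * mk d = 1 := by rw [← map_mul, hdd, map_one]
        have h2 : mk q ^ (l + 1) * mk q ^ (l + 1) = mk q := by
          rw [← pow_add, show l + 1 + (l + 1) = (2 * l + 1) + 1 by ring, pow_succ, ← hl, hk, one_mul]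
        rw [hx, map_mul, map_pow, hrq]
        calc mk d * (mk q ^ (l + 1) * mk g) * mk d
            = (mk d * mk q ^ (l + 1) * mk d) * (mk d * mk g * mk d) := by
              calc mk d * (mk q ^ (l + 1) * mk g) * mk d
                  = mk d * mk q ^ (l + 1) * (mk d * mk d) * mk g * mk d := by
                    rw [hdd', mul_one]; simp only [mul_assoc]
                _ = _ := by simp only [mul_assoc]
          _ = (mk q ^ (l + 1))⁻¹ * (mk q * mk g) := by
              rw [hpow]; congr 1
              rw [← map_mul, ← map_mul, ← map_mul, hq, inv_mul_cancel_right]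
          _ = mk q ^ (l + 1) * mk g := by
              conv_lhs => arg 2; arg 1; rw [← h2]
              rw [mul_assoc, inv_mul_cancel_left]
      have hxM : x ∈ M := hx ▸ mul_mem (pow_mem (p3M _ hRp hr) _) hgM
      have hv : d * (x * d * x⁻¹) ∈ O := by
        rw [← hker, map_mul, map_mul, map_mul, map_inv]
        rw [← mul_assoc, ← mul_assoc, hxfix, mul_inv_cancel]
      obtain ⟨o, ho, ho'⟩ := H17.vrel_exists_conj hD hD2
        ((H17.vrel_iff_mul_mem hset hconj).mpr ⟨hd, hconj x d hd, hv⟩)
      have hy : o⁻¹ * x ∈ Subgroup.centralizer ({d} : Set G) ⊓ M := by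
        refine Subgroup.mem_inf.mpr ⟨Subgroup.mem_centralizer_singleton_iff.mpr ?_, mul_mem (inv_mem ?_) hxM⟩
        · calc o⁻¹ * x * d = o⁻¹ * (x * d * x⁻¹) * x := by group
            _ = d * (o⁻¹ * x) := by rw [← ho']; group
        · show mk o ∈ Cfsg.pCore 3 (G ⧸ O)
          rw [(hker o).mpr ho]; exact one_mem _
      obtain ⟨r0, hr0, hr0'⟩ := cover _ inf_le_right Q _ hy
      rw [map_mul, map_inv, (hker o).mpr ho, inv_one, one_mul, hx, map_mul, map_pow] at hr0'
      refine hgR' ((r ^ (l + 1))⁻¹ * r0) (mul_mem (inv_mem (pow_mem hr _)) (hR0R hr0)) ?_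
      rw [map_mul, map_inv, map_pow, hr0', inv_mul_cancel_left]
    · -- an inverted element of order three
      have hqn : ∀ x ∈ R, q * x * q⁻¹ ∈ R := by
        intro x hx
        have h2 : g⁻¹ * x * g ∈ R := by
          have := (Subgroup.mem_normalizer_iff.mp hgn ⟨g⁻¹ * x * g,
            mul_mem (mul_mem (inv_mem hgP) (hRP hx)) hgP⟩).mpr
            (Subgroup.mem_subgroupOf.mpr (by
              show g * (g⁻¹ * x * g) * g⁻¹ ∈ R
              rwa [show g * (g⁻¹ * x * g) * g⁻¹ = x by group]))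
          exact Subgroup.mem_subgroupOf.mp this
        have := hRd _ (hgnorm _ (hRd _ h2))
        rw [hq]
        simpa [mul_assoc, hdi] using this
      have hq3 : q ^ 3 = 1 := by
        have hmem := hconj g d hd
        have hqd : q = d * (g * d * g⁻¹) := by rw [hq]; simp only [mul_assoc]
        by_cases hc : Commute d (g * d * g⁻¹)
        · exfalso
          apply hqR
          refine ⟨1, one_mem R, ?_⟩
          rw [map_one, (hker q).mpr (hqd ▸ hVall d hd _ hmem hc)]
        · rw [hqd]; exact H17.cube_one hset hd hmem hc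
      have hR'p : IsPGroup 3 (Subgroup.zpowers q ⊔ R : Subgroup G) := by
        refine IsPGroup.to_sup_of_normal_right' ?_ hRp ?_
        · refine fun z => ⟨1, ?_⟩
          obtain ⟨z, i, rfl⟩ := z
          refine Subtype.ext ?_
          push_cast
          rw [← zpow_natCast, ← zpow_mul, mul_comm, zpow_mul]
          norm_num
          rw [show (q ^ 3 : G) = 1 from hq3, one_zpow]
        · rw [Subgroup.zpowers_le, Subgroup.mem_normalizer_iff]
          intro x
          refine ⟨hqn x, fun h => ?_⟩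
          have := hqn _ (hqn _ h)
          have e : q * (q * (q * x * q⁻¹) * q⁻¹) * q⁻¹ = q ^ 3 * x * (q ^ 3)⁻¹ := by
            simp only [pow_succ, pow_zero, one_mul, mul_inv_rev, mul_assoc]
          rw [e, hq3] at this
          simpa using this
      have hqmem : q ∈ Subgroup.zpowers q ⊔ R := Subgroup.mem_sup_left (Subgroup.mem_zpowers q)
      have hR'd : ∀ x ∈ Subgroup.zpowers q ⊔ R, d * x * d ∈ Subgroup.zpowers q ⊔ R := by
        intro x hx
        rw [Subgroup.sup_eq_closure] at hx
        induction hx using Subgroup.closure_induction with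
        | mem y hy =>
          rcases hy with ⟨i, rfl⟩ | hy
          · have hdq : d * q * d = q⁻¹ := by
              rw [hq]
              simp only [mul_inv_rev, inv_inv, hdi, mul_assoc]
              rw [← mul_assoc d d, hdd, one_mul]
            show d * q ^ i * d ∈ _
            have h1 : d * q * d⁻¹ = q⁻¹ := by rw [hdi, hdq]
            rw [show d * q ^ i * d = d * q ^ i * d⁻¹ by rw [hdi], ← conj_zpow, h1]
            exact zpow_mem (inv_mem hqmem) i
          · exact Subgroup.mem_sup_right (hRd y hy)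
        | one => rw [mul_one, hdd]; exact one_mem _
        | mul y z _ _ hy hz =>
          rw [show d * (y * z) * d = (d * y * d) * (d * z * d) by
            calc d * (y * z) * d = d * y * (d * d) * z * d := by
                  rw [hdd, mul_one]; simp only [mul_assoc]
              _ = _ := by simp only [mul_assoc]]
          exact mul_mem hy hz
        | inv y _ hy =>
          rw [show d * y⁻¹ * d = (d * y * d)⁻¹ by simp only [mul_inv_rev, hdi, mul_assoc]]
          exact inv_mem hy
      have := hmax ⟨hR'p, hR0R.trans le_sup_right, hR'd⟩ le_sup_right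
      exact hqR ⟨q, this hqmem, rfl⟩
  refine ⟨P, ?_, ?_⟩
  · show d ∈ Subgroup.normalizer ((P : Subgroup G) : Set G)
    rw [Subgroup.mem_normalizer_iff, hRP']
    intro x
    rw [hdi]
    refine ⟨hRd x, fun h => ?_⟩
    have := hRd _ h
    rwa [show d * (d * x * d) * d = (d * d) * x * (d * d) by simp only [mul_assoc], hdd, one_mul,
      mul_one] at this
  · rw [eq_top_iff, ← hD.2.2, Subgroup.closure_le]
    intro x hx
    -- d * x lies in M = P O₂
    let PM : Sylow 3 M := P.subtype (p3M _ P.isPGroup')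
    obtain ⟨r, hr, hr'⟩ := cover M le_rfl PM (d * x) (hprod d hd x hx)
    have hrP : r ∈ (P : Subgroup G) := by
      obtain ⟨y, hy, rfl⟩ := hr
      exact hy
    have ho : r⁻¹ * (d * x) ∈ O := by rw [← hker, map_mul, map_inv, hr', inv_mul_cancel]
    have e : x = d * r * (r⁻¹ * (d * x)) := by
      rw [mul_assoc d, mul_inv_cancel_left, ← mul_assoc, hdd, one_mul]
    rw [e]
    exact mul_mem (Subgroup.mem_sup_left (mul_mem (Subgroup.mem_sup_left (Subgroup.mem_zpowers d))
      (Subgroup.mem_sup_right hrP))) (Subgroup.mem_sup_right ho)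

end Cfsg.Agent.S5356
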