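import Cfsg.Statements.S5453
import Cfsg.Agent.H98.M22Lift

set_option autoImplicit false
open Cfsg

namespace Cfsg.Agent.S5453

/-- Let G be a finite group with an involution d whose centralizer C is quasisimple, such that C modulo the subgroup generated by d is of type M(22) with respect to some conjugacy class of 3-transpositions generating it and also has an involution whose own centralizer is quasisimple with quotient by it isomorphic to the projective special unitary group of dimension 6 over the field with four elements and which is not weakly closed in that centralizer; and suppose some conjugate of d other than d commutes with d. Then every involution of C modulo the subgroup generated by d is the image of an involution of C, and d is not a square in G. -/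
theorem result {G : Type*} [Group G] [Finite G] (d : G) (hd : orderOf d = 2) (hq : Cfsg.IsQuasisimple ↥(Subgroup.centralizer ({d} : Set G))) [hzn : ((Subgroup.zpowers d).subgroupOf (Subgroup.centralizer ({d} : Set G))).Normal] (htype : ∃ E : Set (↥(Subgroup.centralizer ({d} : Set G)) ⧸ (Subgroup.zpowers d).subgroupOf (Subgroup.centralizer ({d} : Set G))), Cfsg.IsThreeTranspositionClass E ∧ Cfsg.IsOfTypeM22 _ E) (hinvol : ∃ d' : ↥(Subgroup.centralizer ({d} : Set G)) ⧸ (Subgroup.zpowers d).subgroupOf (Subgroup.centralizer ({d} : Set G)), orderOf d' = 2 ∧ Cfsg.IsQuasisimple ↥(Subgroup.centralizer ({d'} : Set _)) ∧ (∃ (K : Type) (_ : Field K) (_ : Fintype K), Fintype.card K = 4 ∧ ∃ _ : ((Subgroup.zpowers d').subgroupOf (Subgroup.centralizer ({d'} : Set _))).Normal, Nonempty (↥(Subgroup.centralizer ({d'} : Set _)) ⧸ (Subgroup.zpowers d').subgroupOf (Subgroup.centralizer ({d'} : Set _)) ≃* Cfsg.PSU 6 K 2)) ∧ ∃ g, g * d' * g⁻¹ ∈ Subgroup.centralizer ({d'} : Set _) ∧ g * d' * g⁻¹ ≠ d') (hnwc : ∃ g : G,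 g * d * g⁻¹ ∈ Subgroup.centralizer ({d} : Set G) ∧ g * d * g⁻¹ ≠ d) : (∀ x : ↥(Subgroup.centralizer ({d} : Set G)) ⧸ (Subgroup.zpowers d).subgroupOf (Subgroup.centralizer ({d} : Set G)), orderOf x = 2 → ∃ y : ↥(Subgroup.centralizer ({d} : Set G)), orderOf y = 2 ∧ (QuotientGroup.mk y : ↥(Subgroup.centralizer ({d} : Set G)) ⧸ (Subgroup.zpowers d).subgroupOf (Subgroup.centralizer ({d} : Set G))) = x) ∧ ¬ ∃ g : G, g ^ 2 = d := by
  classical
  obtain ⟨E, hE, h22⟩ := htype
  set C := Subgroup.centralizer ({d} : Set G) with hC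
  let π := QuotientGroup.mk' ((Subgroup.zpowers d).subgroupOf C)
  have hdd : d * d = 1 := by rw [← pow_two, ← hd, pow_orderOf_eq_one]
  have hd1 : d ≠ 1 := fun h => by rw [h, orderOf_one] at hd; exact absurd hd (by norm_num)
  let z : ↥C := ⟨d, Subgroup.mem_centralizer_singleton_iff.2 rfl⟩
  have hzz : z * z = 1 := Subtype.ext hdd
  have hker : ∀ h : ↥C, π h = 1 ↔ h = 1 ∨ h = z := by
    intro h
    rw [QuotientGroup.mk'_apply, QuotientGroup.eq_one_iff, Subgroup.mem_subgroupOf]
    constructor
    · intro hm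
      obtain ⟨k, hk⟩ := Subgroup.mem_zpowers_iff.1 hm
      rcases Int.even_or_odd' k with ⟨m, rfl | rfl⟩
      · refine Or.inl (Subtype.ext ?_)
        rw [← hk, zpow_mul, zpow_two, hdd, one_zpow]; rfl
      · refine Or.inr (Subtype.ext ?_)
        rw [← hk, zpow_add, zpow_mul, zpow_two, hdd, one_zpow, one_mul, zpow_one]
    · rintro (rfl | rfl)
      · exact one_mem _
      · exact Subgroup.mem_zpowers d
  have hzc : ∀ h : ↥C, Commute z h := fun h => Subtype.ext
    (Subgroup.mem_centralizer_singleton_iff.1 h.2).symm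
  have hsur : Function.Surjective π := QuotientGroup.mk'_surjective _
  have hQ : Cfsg.IsQuasisimple (↥C ⧸ (Subgroup.zpowers d).subgroupOf C) := by
    obtain ⟨-, e, he, c, hc, hec, -⟩ := id h22
    haveI : Nontrivial (↥C ⧸ (Subgroup.zpowers d).subgroupOf C) :=
      ⟨⟨e, c, fun h => hec (h ▸ Commute.refl e)⟩⟩
    exact Cfsg.Agent.H51.quasisimple_of_surjective hq π hsur
  have hprim := Cfsg.Agent.H98.M22L.primitive_of_quasisimple hQ hE h22
  obtain ⟨F, iF, iFF, hCtx⟩ :=
    Cfsg.Agent.H89.M22.exists_ctx (Cfsg.Agent.H17.class_group hE) hprim h22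
  have key : ∀ y : ↥C, π (y * y) = 1 → y * y = 1 := fun y hy =>
    Cfsg.Agent.H98.M22L.lift_sq_one hCtx.card hCtx h22 hker hzc hzz hsur hy
  refine ⟨fun x hx => ?_, ?_⟩
  · obtain ⟨y, rfl⟩ := QuotientGroup.mk_surjective x
    have hy := key y (by
      have h2 : (y : ↥C ⧸ (Subgroup.zpowers d).subgroupOf C) ^ 2 = 1 := orderOf_dvd_iff_pow_eq_one.1 hx.dvd
      rw [QuotientGroup.mk'_apply, QuotientGroup.mk_mul, ← pow_two, h2])
    refine ⟨y, orderOf_eq_prime (by rw [pow_two]; exact hy) fun h => ?_, rfl⟩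
    rw [h, QuotientGroup.mk_one, orderOf_one] at hx
    exact absurd hx (by norm_num)
  · rintro ⟨g, hg⟩
    have hgC : g ∈ C := Subgroup.mem_centralizer_singleton_iff.2 (by
      rw [← hg, ← pow_succ', ← pow_succ])
    have hgz : (⟨g, hgC⟩ : ↥C) * ⟨g, hgC⟩ = z := Subtype.ext ((pow_two g).symm.trans hg)
    have h1 := key ⟨g, hgC⟩ (by rw [hgz]; exact (hker z).2 (Or.inr rfl))
    rw [hgz] at h1
    exact hd1 (congrArg Subtype.val h1)

end Cfsg.Agent.S5453
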