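import Cfsg.Statements.S5454
import Cfsg.Agent.H98.U62.Main

set_option autoImplicit false
open Cfsg Cfsg.Agent.H98.U62 Cfsg.Agent.H89.M22

namespace Cfsg.Agent.S5454

/-- Let G be a finite group with an involution d whose centralizer C is quasisimple with C modulo the subgroup generated by d isomorphic to the projective special unitary group of dimension 6 over the field with four elements, and suppose some conjugate of d other than d commutes with d. Let S be a Sylow 2-subgroup of C and A the Thompson subgroup of S (generated by the elementary abelian subgroups of S of largest order), regarded as a subgroup of G. Then A is elementary abelian of order 2^10, exactly 22 conjugates of d lie in A, and the normalizer of A permutes them transitively. -/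
theorem result {G : Type*} [Group G] [Finite G] (d : G) (hd : orderOf d = 2) (hq : Cfsg.IsQuasisimple ↥(Subgroup.centralizer ({d} : Set G))) [hzn : ((Subgroup.zpowers d).subgroupOf (Subgroup.centralizer ({d} : Set G))).Normal] (K : Type) [Field K] [Fintype K] (hK : Fintype.card K = 4) (e : ↥(Subgroup.centralizer ({d} : Set G)) ⧸ (Subgroup.zpowers d).subgroupOf (Subgroup.centralizer ({d} : Set G)) ≃* Cfsg.PSU 6 K 2) (hnwc : ∃ g : G, g * d * g⁻¹ ∈ Subgroup.centralizer ({d} : Set G) ∧ g * d * g⁻¹ ≠ d) (S : Sylow 2 ↥(Subgroup.centralizer ({d} : Set G))) (A : Subgroup G) (hA : A = (Cfsg.thompsonSubgroupOf 2 (S : Subgroup ↥(Subgroup.centralizer ({d} : Set G)))).map (Subgroup.centralizer ({d} : Set G)).subtype) : Cfsg.IsElementaryAbelian 2 A ∧ Nat.card A = 2 ^ 10 ∧ Set.ncard {x : G | x ∈ A ∧ IsConj d x} = 22 ∧ ∀ x ∈ A, ∀ y ∈ A, IsConj d x → IsConj d y → ∃ n ∈ Subgroup.normalizer (A : Set G), n * x * n⁻¹ = y := by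
  classical
  haveI : Fact (Nat.Prime 2) := ⟨Nat.prime_two⟩
  have hdd : d * d = 1 := by rw [← pow_two, ← hd, pow_orderOf_eq_one]
  have hd1 : d ≠ 1 := fun h => by rw [h, orderOf_one] at hd; exact absurd hd (by norm_num)
  let z : ↥(Subgroup.centralizer ({d} : Set G)) := ⟨d, Subgroup.mem_centralizer_singleton_iff.2 rfl⟩
  let π : ↥(Subgroup.centralizer ({d} : Set G)) →* Cfsg.PSU 6 K 2 :=
    e.toMonoidHom.comp (QuotientGroup.mk' ((Subgroup.zpowers d).subgroupOf (Subgroup.centralizer ({d} : Set G))))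
  have hπ : ∀ h : ↥(Subgroup.centralizer ({d} : Set G)), π h = e (QuotientGroup.mk h) := fun _ => rfl
  have hmem : ∀ h : ↥(Subgroup.centralizer ({d} : Set G)), (h : G) ∈ Subgroup.zpowers d ↔ h = 1 ∨ h = z := by
    intro h
    constructor
    · intro hm
      obtain ⟨k, hk⟩ := Subgroup.mem_zpowers_iff.1 hm
      rcases Int.even_or_odd' k with ⟨m, rfl | rfl⟩
      · refine Or.inl (Subtype.ext ?_)
        rw [← hk, zpow_mul, zpow_two, hdd, one_zpow]; rfl
      · refine Or.inr (Subtype.ext ?_)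
        rw [← hk, zpow_add, zpow_mul, zpow_two, hdd, one_zpow, one_mul, zpow_one]
    · rintro (rfl | rfl)
      · exact one_mem _
      · exact Subgroup.mem_zpowers d
  have hker : ∀ h : ↥(Subgroup.centralizer ({d} : Set G)), π h = 1 ↔ h = 1 ∨ h = z := fun h => by
    rw [← hmem h, hπ, e.map_eq_one_iff, QuotientGroup.eq_one_iff, Subgroup.mem_subgroupOf]
  have hzc : ∀ h : ↥(Subgroup.centralizer ({d} : Set G)), Commute z h := fun h => Subtype.ext
    (Subgroup.mem_centralizer_singleton_iff.1 h.2).symm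
  have hsur : Function.Surjective π :=
    e.surjective.comp (QuotientGroup.mk'_surjective _)
  let c : Cov ↥(Subgroup.centralizer ({d} : Set G)) K :=
    { card := hK, z := z, π := π, hker := hker, hzc := hzc
      hz1 := fun h => hd1 (congrArg Subtype.val h)
      hsur := hsur, perf := hq.1.commutator_eq_top }
  obtain ⟨w, -, -, hw⟩ := Cfsg.Agent.H43.exists_omega hK
  obtain ⟨m, h5⟩ := exists_five hw c
  obtain ⟨g, hJ⟩ := thompson_sylow m hw h5 S
  set A₀ := m.grpz (PL (F := K)) with hA₀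
  obtain ⟨h02, h0c⟩ := grpz_elementary m (ti_PL hK)
  have h1024 : Nat.card A₀ = 1024 := card_A0 m hw h5
  set A₁ := A₀.map (Subgroup.centralizer ({d} : Set G)).subtype with hA₁
  have hAA : A = A₁.map (MulAut.conj (g : G)).toMonoidHom := by
    rw [hA, hJ, hA₁, Subgroup.map_map, Subgroup.map_map]
    rfl
  have h12 : ∀ x ∈ A₁, x * x = 1 := by
    rintro _ ⟨x, hx, rfl⟩
    rw [← map_mul, h02 x hx, map_one]
  have h1c : ∀ x ∈ A₁, ∀ y ∈ A₁, Commute x y := by
    rintro _ ⟨x, hx, rfl⟩ _ ⟨y, hy, rfl⟩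
    exact (h0c x hx y hy).map _
  have hA₁card : Nat.card A₁ = 1024 := by
    rw [hA₁, Subgroup.card_map_of_injective (Subgroup.subtype_injective _), h1024]
  have hcomp : ∀ u v : G, (MulAut.conj u).toMonoidHom.comp (MulAut.conj v).toMonoidHom =
      (MulAut.conj (u * v)).toMonoidHom := fun u v => MonoidHom.ext fun y => by simp [mul_assoc]
  have move : ∀ {x : G}, x ∈ A₁ → IsConj d x → ∃ k ∈ Subgroup.normalizer (A₁ : Set G), k * x * k⁻¹ = d := by
    intro x hx hdx
    obtain ⟨k, hk⟩ := isConj_iff.1 hdx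
    set B := A₁.map (MulAut.conj k⁻¹).toMonoidHom with hB
    have hxk : k⁻¹ * x * k = d := by rw [← hk]; group
    have hBC : B ≤ (Subgroup.centralizer ({d} : Set G)) := by
      rintro _ ⟨y, hy, rfl⟩
      refine Subgroup.mem_centralizer_singleton_iff.2 ?_
      show k⁻¹ * y * (k⁻¹)⁻¹ * d = d * (k⁻¹ * y * (k⁻¹)⁻¹)
      rw [← hxk, inv_inv]
      calc k⁻¹ * y * k * (k⁻¹ * x * k) = k⁻¹ * (y * x) * k := by group
        _ = k⁻¹ * (x * y) * k := by rw [(h1c y hy x hx).eq]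
        _ = _ := by group
    obtain ⟨b, hb⟩ := big_conj m hw h5 (B := B.subgroupOf (Subgroup.centralizer ({d} : Set G)))
      (fun y hy => Subtype.ext (by
        have hy0 : (y : G) ∈ B := hy
        obtain ⟨u, hu, e⟩ := hy0
        show (y : G) * y = 1
        rw [← e, ← map_mul, h12 u hu, map_one]))
      (fun y hy y' hy' => Subtype.ext (by
        have hy0 : (y : G) ∈ B := hy
        obtain ⟨u, hu, e⟩ := hy0
        have hy0' : (y' : G) ∈ B := hy'
        obtain ⟨u', hu', e'⟩ := hy0'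
        show (y : G) * y' = y' * y
        rw [← e, ← e', ← map_mul, ← map_mul, (h1c u hu u' hu').eq]))
      (by rw [Nat.card_congr (Subgroup.subgroupOfEquivOfLe hBC).toEquiv, hB,
        Subgroup.card_map_of_injective (MulAut.conj k⁻¹).injective, hA₁card])
    have h1 : B.map (MulAut.conj (b : G)).toMonoidHom = A₁ := by
      rw [hA₁, hA₀, ← hb]
      conv_lhs => rw [← inf_eq_left.2 hBC, ← Subgroup.subgroupOf_map_subtype]
      rw [Subgroup.map_map, Subgroup.map_map]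
      rfl
    refine ⟨(b : G) * k⁻¹, Subgroup.mem_normalizer_iff_map_conj_eq.2 ?_, ?_⟩
    · show A₁.map (MulAut.conj ((b : G) * k⁻¹)).toMonoidHom = A₁
      rw [← hcomp, ← Subgroup.map_map]; exact h1
    · rw [show (b : G) * k⁻¹ * x * ((b : G) * k⁻¹)⁻¹ = (b : G) * (k⁻¹ * x * k) * (b : G)⁻¹ by group, hxk,
        (Subgroup.mem_centralizer_singleton_iff.1 b.2), mul_inv_cancel_right]
  have hnsq : ¬ ∃ y : G, y ^ 2 = d := by
    rintro ⟨y, hy⟩
    have hyC : y ∈ (Subgroup.centralizer ({d} : Set G)) := Subgroup.mem_centralizer_singleton_iff.2 (by rw [← hy, ← pow_succ', ← pow_succ])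
    have hyz : (⟨y, hyC⟩ : ↥(Subgroup.centralizer ({d} : Set G))) * ⟨y, hyC⟩ = z := Subtype.ext ((pow_two y).symm.trans hy)
    have h1 := Cfsg.Agent.H43.sq_eq_one_of_image hK hker hzc hsur rfl (y := (⟨y, hyC⟩ : ↥(Subgroup.centralizer ({d} : Set G))))
      (by rw [hyz]; exact (hker z).2 (Or.inr rfl))
    rw [hyz] at h1
    exact hd1 (congrArg Subtype.val h1)
  let Q : ↥(Subgroup.centralizer ({d} : Set G)) → Prop := fun x => IsConj d (x : G)
  have hcount : {x : ↥(Subgroup.centralizer ({d} : Set G)) | x ∈ A₀ ∧ Q x}.ncard = 22 := by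
    refine count m hw h5 Q (fun h x hx => ?_) (fun y hy => hnsq ?_) (IsConj.refl d) ?_ ?_
    · exact hx.trans (isConj_iff.2 ⟨(h : G), rfl⟩)
    · obtain ⟨k, hk⟩ := isConj_iff.1 hy.symm
      refine ⟨k * y * k⁻¹, ?_⟩
      rw [pow_two, show k * (y : G) * k⁻¹ * (k * y * k⁻¹) = k * ((y * y : ↥(Subgroup.centralizer ({d} : Set G))) : G) * k⁻¹ by
        rw [Subgroup.coe_mul]; group, hk]
    · obtain ⟨k, hkC, hkd⟩ := hnwc
      obtain ⟨h, hh⟩ := involution_conj m hw h5 (x := (⟨k * d * k⁻¹, hkC⟩ : ↥(Subgroup.centralizer ({d} : Set G)))) (Subtype.ext (by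
        show k * d * k⁻¹ * (k * d * k⁻¹) = 1
        rw [show k * d * k⁻¹ * (k * d * k⁻¹) = k * (d * d) * k⁻¹ by group, hdd, mul_one, mul_inv_cancel]))
      refine ⟨_, hh, (isConj_iff.2 ⟨k, rfl⟩).trans (isConj_iff.2 ⟨(h : G), rfl⟩), fun e => hkd ?_⟩
      have e' : (h : G) * (k * d * k⁻¹) * (h : G)⁻¹ = d := congrArg Subtype.val e
      calc k * d * k⁻¹ = (h : G)⁻¹ * ((h : G) * (k * d * k⁻¹) * (h : G)⁻¹) * h := by group
        _ = (h : G)⁻¹ * (d * h) := by rw [e', mul_assoc]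
        _ = d := by rw [← Subgroup.mem_centralizer_singleton_iff.1 h.2, inv_mul_cancel_left]
    · intro x hx y hy
      obtain ⟨p, hp, hpx⟩ := move (x := ((x : ↥(Subgroup.centralizer ({d} : Set G))) : G)) ⟨x, x.2, rfl⟩ hx
      obtain ⟨q, hq', hqy⟩ := move (x := ((y : ↥(Subgroup.centralizer ({d} : Set G))) : G)) ⟨y, y.2, rfl⟩ hy
      let E : ↥A₀ ≃* ↥A₁ := A₀.equivMapOfInjective (Subgroup.centralizer ({d} : Set G)).subtype (Subgroup.centralizer ({d} : Set G)).subtype_injective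
      have hE : ∀ u, ((E u : ↥A₁) : G) = ((u : ↥(Subgroup.centralizer ({d} : Set G))) : G) := fun _ => rfl
      have hn : q⁻¹ * p ∈ Subgroup.normalizer (A₁ : Set G) := mul_mem (inv_mem hq') hp
      let ψ : ↥A₁ ≃* ↥A₁ := ((MulAut.conj (q⁻¹ * p)).subgroupMap A₁).trans
        (MulEquiv.subgroupCongr (Subgroup.mem_normalizer_iff_map_conj_eq.1 hn))
      let φ : MulAut ↥A₀ := E.trans (ψ.trans E.symm)
      have hφ : ∀ u : ↥A₀, ((φ u : ↥(Subgroup.centralizer ({d} : Set G))) : G) = q⁻¹ * p * ((u : ↥(Subgroup.centralizer ({d} : Set G))) : G) * (q⁻¹ * p)⁻¹ := fun u => by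
        rw [← hE (φ u), show E (φ u) = ψ (E u) from E.apply_symm_apply _]
        rfl
      refine ⟨φ, fun u => ?_, Subtype.ext (Subtype.ext ?_)⟩
      · show IsConj d _ ↔ IsConj d _
        rw [hφ]
        exact ⟨fun h => h.trans (isConj_iff.2 ⟨(q⁻¹ * p)⁻¹, by group⟩),
          fun h => h.trans (isConj_iff.2 ⟨q⁻¹ * p, rfl⟩)⟩
      · rw [hφ, show q⁻¹ * p * ((x : ↥(Subgroup.centralizer ({d} : Set G))) : G) * (q⁻¹ * p)⁻¹ = q⁻¹ * (p * ((x : ↥(Subgroup.centralizer ({d} : Set G))) : G) * p⁻¹) * q by group,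
          hpx]
        calc q⁻¹ * d * q = q⁻¹ * (q * _ * q⁻¹) * q := by rw [hqy]
          _ = _ := by group
  refine ⟨?_, ?_, ?_, ?_⟩
  · refine ⟨⟨⟨fun x y => Subtype.ext ?_⟩⟩, fun x hx => ?_⟩
    · obtain ⟨u, hu, eu⟩ := hAA.le x.2
      obtain ⟨v, hv, ev⟩ := hAA.le y.2
      show (x : G) * y = y * x
      rw [← eu, ← ev, ← map_mul, ← map_mul, (h1c u hu v hv).eq]
    · obtain ⟨u, hu, eu⟩ := hAA.le hx
      rw [← eu, ← map_pow, pow_two, h12 u hu, map_one]
  · rw [hAA, Subgroup.card_map_of_injective (MulAut.conj (g : G)).injective, hA₁card]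
    norm_num
  · rw [← hcount]
    have : {x : G | x ∈ A ∧ IsConj d x} =
        (fun x : ↥(Subgroup.centralizer ({d} : Set G)) => (g : G) * x * (g : G)⁻¹) '' {x : ↥(Subgroup.centralizer ({d} : Set G)) | x ∈ A₀ ∧ Q x} := by
      ext x
      constructor
      · rintro ⟨hx, hdx⟩
        obtain ⟨_, ⟨u, hu, rfl⟩, rfl⟩ := hAA.le hx
        exact ⟨u, ⟨hu, hdx.trans (isConj_iff.2 ⟨(g : G)⁻¹, by simp [mul_assoc]⟩)⟩, rfl⟩
      · rintro ⟨u, ⟨hu, hdu⟩, rfl⟩
        exact ⟨hAA.ge ⟨_, ⟨u, hu, rfl⟩, rfl⟩, hdu.trans (isConj_iff.2 ⟨(g : G), rfl⟩)⟩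
    rw [this, Set.ncard_image_of_injective]
    exact fun u v h => Subtype.ext (mul_left_cancel (mul_right_cancel h))
  · intro x hx y hy hdx hdy
    obtain ⟨x₁, hx₁, rfl⟩ := hAA.le hx
    obtain ⟨y₁, hy₁, rfl⟩ := hAA.le hy
    obtain ⟨p, hp, hpx⟩ := move hx₁ (hdx.trans (isConj_iff.2 ⟨(g : G)⁻¹, by simp [mul_assoc]⟩))
    obtain ⟨q, hq', hqy⟩ := move hy₁ (hdy.trans (isConj_iff.2 ⟨(g : G)⁻¹, by simp [mul_assoc]⟩))
    refine ⟨(g : G) * (q⁻¹ * p) * (g : G)⁻¹, ?_, ?_⟩
    · refine Subgroup.mem_normalizer_iff_map_conj_eq.2 ?_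
      show A.map (MulAut.conj ((g : G) * (q⁻¹ * p) * (g : G)⁻¹)).toMonoidHom = A
      have hn : A₁.map (MulAut.conj (q⁻¹ * p)).toMonoidHom = A₁ :=
        Subgroup.mem_normalizer_iff_map_conj_eq.1 (mul_mem (inv_mem hq') hp)
      have hmm : ∀ (u v : G) (X : Subgroup G), (X.map (MulAut.conj v).toMonoidHom).map
          (MulAut.conj u).toMonoidHom = X.map (MulAut.conj (u * v)).toMonoidHom := fun u v X => by
        rw [Subgroup.map_map, hcomp]
      rw [hAA, hmm, show (g : G) * (q⁻¹ * p) * (g : G)⁻¹ * g = g * (q⁻¹ * p) by group, ← hmm, hn]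
    · show (g : G) * (q⁻¹ * p) * (g : G)⁻¹ * ((g : G) * x₁ * (g : G)⁻¹) *
        ((g : G) * (q⁻¹ * p) * (g : G)⁻¹)⁻¹ = (g : G) * y₁ * (g : G)⁻¹
      calc _ = (g : G) * (q⁻¹ * (p * x₁ * p⁻¹) * q) * (g : G)⁻¹ := by group
        _ = (g : G) * (q⁻¹ * (q * y₁ * q⁻¹) * q) * (g : G)⁻¹ := by rw [hpx, hqy]
        _ = _ := by group

end Cfsg.Agent.S5454
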