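import Cfsg.Statements.S5455
import Cfsg.Agent.H87.Fi23A.Parity

set_option autoImplicit false
open Cfsg

namespace Cfsg.Agent.S5455

/-- Let G be a finite group with an involution d whose centralizer C is quasisimple, such that C modulo the subgroup generated by d is of type M(22) with respect to some conjugacy class of 3-transpositions generating it and also has an involution whose own centralizer is quasisimple with quotient by it isomorphic to the projective special unitary group of dimension 6 over the field with four elements and which is not weakly closed in that centralizer; and suppose some conjugate of d other than d commutes with d. Let S be a Sylow 2-subgroup of C and A the Thompson subgroup of S, regarded as a subgroup of G. Then A is elementary abelian of order 2^11, exactly 23 conjugates of d lie in A, and the normalizer of A permutes them transitively. -/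
theorem result {G : Type*} [Group G] [Finite G] (d : G) (hd : orderOf d = 2) (hq : Cfsg.IsQuasisimple ↥(Subgroup.centralizer ({d} : Set G))) [hzn : ((Subgroup.zpowers d).subgroupOf (Subgroup.centralizer ({d} : Set G))).Normal] (htype : ∃ E : Set (↥(Subgroup.centralizer ({d} : Set G)) ⧸ (Subgroup.zpowers d).subgroupOf (Subgroup.centralizer ({d} : Set G))), Cfsg.IsThreeTranspositionClass E ∧ Cfsg.IsOfTypeM22 _ E) (hinvol : ∃ d' : ↥(Subgroup.centralizer ({d} : Set G)) ⧸ (Subgroup.zpowers d).subgroupOf (Subgroup.centralizer ({d} : Set G)), orderOf d' = 2 ∧ Cfsg.IsQuasisimple ↥(Subgroup.centralizer ({d'} : Set _)) ∧ (∃ (K : Type) (_ : Field K) (_ : Fintype K), Fintype.card K = 4 ∧ ∃ _ : ((Subgroup.zpowers d').subgroupOf (Subgroup.centralizer ({d'} : Set _))).Normal, Nonempty (↥(Subgroup.centralizer ({d'} : Set _)) ⧸ (Subgroup.zpowers d').subgroupOf (Subgroup.centralizer ({d'} : Set _)) ≃* Cfsg.PSU 6 K 2)) ∧ ∃ g, g * d' * g⁻¹ ∈ Subgroup.centralizer ({d'} :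 Set _) ∧ g * d' * g⁻¹ ≠ d') (hnwc : ∃ g : G, g * d * g⁻¹ ∈ Subgroup.centralizer ({d} : Set G) ∧ g * d * g⁻¹ ≠ d) (S : Sylow 2 ↥(Subgroup.centralizer ({d} : Set G))) (A : Subgroup G) (hA : A = (Cfsg.thompsonSubgroupOf 2 (S : Subgroup ↥(Subgroup.centralizer ({d} : Set G)))).map (Subgroup.centralizer ({d} : Set G)).subtype) : Cfsg.IsElementaryAbelian 2 A ∧ Nat.card A = 2 ^ 11 ∧ Set.ncard {x : G | x ∈ A ∧ IsConj d x} = 23 ∧ ∀ x ∈ A, ∀ y ∈ A, IsConj d x → IsConj d y → ∃ n ∈ Subgroup.normalizer (A : Set G), n * x * n⁻¹ = y := by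
  classical
  obtain ⟨E, hE, h22⟩ := htype
  let π := QuotientGroup.mk' ((Subgroup.zpowers d).subgroupOf (Subgroup.centralizer ({d} : Set G)))
  have hdd : d * d = 1 := by rw [← pow_two, ← hd, pow_orderOf_eq_one]
  have hd1 : d ≠ 1 := fun h => by rw [h, orderOf_one] at hd; exact absurd hd (by norm_num)
  let z : ↥(Subgroup.centralizer ({d} : Set G)) := ⟨d, Subgroup.mem_centralizer_singleton_iff.2 rfl⟩
  have hzz : z * z = 1 := Subtype.ext hdd
  have hker : ∀ h : ↥(Subgroup.centralizer ({d} : Set G)), π h = 1 ↔ h = 1 ∨ h = z := by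
    intro h
    rw [QuotientGroup.mk'_apply, QuotientGroup.eq_one_iff, Subgroup.mem_subgroupOf]
    constructor
    · intro hm
      obtain ⟨k, hk⟩ := Subgroup.mem_zpowers_iff.1 hm
      rcases Int.even_or_odd' k with ⟨m, rfl | rfl⟩
      · refine Or.inl (Subtype.ext ?_)
        rw [← hk, zpow_mul, zpow_two, hdd, one_zpow]; rfl
      · refine Or.inr (Subtype.ext ?_)
        rw [← hk, zpow_add, zpow_mul, zpow_two, hdd, one_zpow, one_mul, zpow_one]
    · rintro (rfl | rfl)
      · exact one_mem _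
      · exact Subgroup.mem_zpowers d
  have hzc : ∀ h : ↥(Subgroup.centralizer ({d} : Set G)), Commute z h := fun h => Subtype.ext
    (Subgroup.mem_centralizer_singleton_iff.1 h.2).symm
  have hsur : Function.Surjective π := QuotientGroup.mk'_surjective _
  have hQ : Cfsg.IsQuasisimple (↥(Subgroup.centralizer ({d} : Set G)) ⧸ (Subgroup.zpowers d).subgroupOf (Subgroup.centralizer ({d} : Set G))) := by
    obtain ⟨-, e, he, c, hc, hec, -⟩ := id h22
    haveI : Nontrivial (↥(Subgroup.centralizer ({d} : Set G)) ⧸ (Subgroup.zpowers d).subgroupOf (Subgroup.centralizer ({d} : Set G))) :=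
      ⟨⟨e, c, fun h => hec (h ▸ Commute.refl e)⟩⟩
    exact Cfsg.Agent.H51.quasisimple_of_surjective hq π hsur
  have hprim := Cfsg.Agent.H98.M22L.primitive_of_quasisimple hQ hE h22
  have hcov : Cfsg.Agent.H87.Fi23A.Cover π z E :=
    ⟨hsur, hker, hzc, hzz, fun h => hd1 (congrArg Subtype.val h), hq.1.commutator_eq_top, hE,
      hprim, h22⟩
  obtain ⟨B, AC, hblock, -, -, hth⟩ := hcov.sylow_block S
  rw [hth] at hA
  obtain ⟨he2, hec⟩ := hcov.Block_elem hblock
  have hcard := hcov.Block_card hblock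
  have hAC : AC.map (Subgroup.centralizer ({d} : Set G)).subtype = A := hA.symm
  have inA : ∀ {x : G}, x ∈ A ↔ ∃ w : ↥AC, ((w : ↥(Subgroup.centralizer ({d} : Set G))) : G) = x := fun {x} => by
    rw [← hAC]
    exact ⟨fun ⟨w, hw, e⟩ => ⟨⟨w, hw⟩, e⟩, fun ⟨w, e⟩ => ⟨w, w.2, e⟩⟩
  have hel : Cfsg.IsElementaryAbelian 2 A := by
    refine ⟨⟨⟨fun x y => Subtype.ext ?_⟩⟩, fun x hx => ?_⟩
    · obtain ⟨u, hu⟩ := inA.1 x.2
      obtain ⟨v, hv⟩ := inA.1 y.2
      show (x : G) * y = y * x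
      rw [← hu, ← hv]
      exact congrArg Subtype.val (hec _ u.2 _ v.2).eq
    · obtain ⟨u, rfl⟩ := inA.1 hx
      rw [pow_two]
      exact congrArg Subtype.val (he2 _ u.2)
  have hcardA : Nat.card A = 2 ^ 11 := by
    rw [← hAC, Subgroup.card_map_of_injective (Subgroup.centralizer ({d} : Set G)).subtype_injective, hcard]
  have hzA : z ∈ AC := by
    rw [hblock.eq, Subgroup.mem_comap, hcov.piz]
    exact one_mem _
  obtain ⟨zA, hzAe⟩ : ∃ w : ↥AC, (w : ↥(Subgroup.centralizer ({d} : Set G))) = z := ⟨⟨z, hzA⟩, rfl⟩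
  have hdA : d ∈ A := inA.2 ⟨zA, by rw [hzAe]⟩
  -- automorphisms induced from the whole group
  let R : Subgroup (MulAut ↥AC) :=
    { carrier := {r | ∃ g : G, ∀ x : ↥AC, ((r x : ↥(Subgroup.centralizer ({d} : Set G))) : G) = g * ((x : ↥(Subgroup.centralizer ({d} : Set G))) : G) * g⁻¹}
      one_mem' := ⟨1, fun x => by simp⟩
      mul_mem' := by
        rintro r s ⟨g, hg⟩ ⟨h, hh⟩
        refine ⟨g * h, fun x => ?_⟩
        rw [MulAut.mul_apply, hg, hh]
        group
      inv_mem' := by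
        rintro r ⟨g, hg⟩
        refine ⟨g⁻¹, fun x => ?_⟩
        have := hg (r⁻¹ x)
        rw [show r (r⁻¹ x) = x from r.apply_symm_apply x] at this
        rw [this]
        group }
  have hin : ∀ h ∈ Subgroup.normalizer (AC : Set ↥(Subgroup.centralizer ({d} : Set G))), ∃ r ∈ R,
      ∀ x : ↥AC, ((r x : ↥AC) : ↥(Subgroup.centralizer ({d} : Set G))) = h * x * h⁻¹ := fun h hh =>
    ⟨AC.normalizerMonoidHom ⟨h, hh⟩, ⟨(h : G), fun x => rfl⟩, fun x => rfl⟩
  have hout : ∀ r ∈ R, r zA = zA → ∃ h : ↥(Subgroup.centralizer ({d} : Set G)), ∀ x : ↥AC, ((r x : ↥AC) : ↥(Subgroup.centralizer ({d} : Set G))) = h * x * h⁻¹ := by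
    rintro r ⟨g, hg⟩ hr
    have e := hg zA
    rw [hr, hzAe] at e
    refine ⟨⟨g, Subgroup.mem_centralizer_singleton_iff.2 (mul_inv_eq_iff_eq_mul.1 e.symm)⟩,
      fun x => Subtype.ext (hg x)⟩
  obtain ⟨a, hx⟩ := hcov.exists_hexad
  obtain ⟨L1, L2, P1, P2, hset, -⟩ := hcov.exists_setup hblock hx zA hzAe R hin hout
  -- conjugates of `d` in `A` come from its normalizer
  have hnorm : ∀ x ∈ A, IsConj d x → ∃ n : G,
      n ∈ Subgroup.normalizer (A : Set G) ∧ n * d * n⁻¹ = x ∧ ∀ y ∈ A, n * y * n⁻¹ ∈ A := by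
    intro x hxA hc
    obtain ⟨g, rfl⟩ := isConj_iff.1 hc
    have hcen : ∀ y ∈ A, g⁻¹ * y * g ∈ (Subgroup.centralizer ({d} : Set G)) := fun y hy => by
      rw [Subgroup.mem_centralizer_singleton_iff]
      have : (y : G) * (g * d * g⁻¹) = g * d * g⁻¹ * y :=
        congrArg (fun w : ↥A => (w : G)) (hel.1.is_comm.comm ⟨y, hy⟩ ⟨_, hxA⟩)
      calc g⁻¹ * y * g * d = g⁻¹ * (y * (g * d * g⁻¹)) * g := by group
        _ = d * (g⁻¹ * y * g) := by rw [this]; group
    obtain ⟨A', hA'⟩ : ∃ A' : Subgroup ↥(Subgroup.centralizer ({d} : Set G)),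
        A' = (A.map (MulAut.conj g⁻¹).toMonoidHom).subgroupOf (Subgroup.centralizer ({d} : Set G)) := ⟨_, rfl⟩
    have hle : A.map (MulAut.conj g⁻¹).toMonoidHom ≤ (Subgroup.centralizer ({d} : Set G)) := by
      rintro _ ⟨y, hy, rfl⟩
      simpa using hcen y hy
    have m' : ∀ w ∈ A', ∃ y ∈ A, g⁻¹ * y * g = (w : G) := fun w hw => by
      rw [hA', Subgroup.mem_subgroupOf] at hw
      obtain ⟨y, hy, e⟩ := hw
      exact ⟨y, hy, by simpa using e⟩
    obtain ⟨c, hc'⟩ := hcov.block_conj hblock (A' := A')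
      (fun w hw => by
        obtain ⟨y, hy, e⟩ := m' w hw
        have h2 : y * y = 1 := by rw [← pow_two]; exact hel.2 y hy
        refine Subtype.ext ?_
        show (w : G) * w = 1
        rw [← e]
        calc g⁻¹ * y * g * (g⁻¹ * y * g) = g⁻¹ * (y * y) * g := by group
          _ = 1 := by rw [h2]; group)
      (fun w hw v hv => by
        obtain ⟨y, hy, e⟩ := m' w hw
        obtain ⟨y', hy', e'⟩ := m' v hv
        have h2 : y * y' = y' * y :=
          congrArg (fun u : ↥A => (u : G)) (hel.1.is_comm.comm ⟨y, hy⟩ ⟨y', hy'⟩)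
        refine Subtype.ext ?_
        show (w : G) * v = v * w
        rw [← e, ← e']
        calc g⁻¹ * y * g * (g⁻¹ * y' * g) = g⁻¹ * (y * y') * g := by group
          _ = g⁻¹ * y' * g * (g⁻¹ * y * g) := by rw [h2]; group)
      (by
        rw [hA', Nat.card_congr (Subgroup.subgroupOfEquivOfLe hle).toEquiv,
          Subgroup.card_map_of_injective (MulAut.conj g⁻¹).injective, hcardA])
    -- the product of the two conjugations
    obtain ⟨m, hm⟩ : ∃ m, m = (c : G) * g⁻¹ := ⟨_, rfl⟩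
    have hmA : ∀ y ∈ A, m * y * m⁻¹ ∈ A := fun y hy => by
      have hw : (⟨g⁻¹ * y * g, hcen y hy⟩ : ↥(Subgroup.centralizer ({d} : Set G))) ∈ A' := by
        rw [hA', Subgroup.mem_subgroupOf]
        exact ⟨y, hy, by simp⟩
      refine inA.2 ⟨⟨_, hc' _ hw⟩, ?_⟩
      rw [hm]
      simp [mul_assoc]
    have hmn : m ∈ Subgroup.normalizer (A : Set G) := by
      rw [Subgroup.mem_normalizer_iff_map_conj_eq]
      refine Subgroup.eq_of_le_of_card_ge ?_
        (Subgroup.card_map_of_injective (MulAut.conj m).injective).ge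
      rintro _ ⟨y, hy, rfl⟩
      exact hmA y hy
    refine ⟨m⁻¹, inv_mem hmn, ?_, fun y hy =>
      (Subgroup.mem_normalizer_iff.1 (inv_mem hmn) y).1 hy⟩
    have hcd : (c : G) * d = d * c := Subgroup.mem_centralizer_singleton_iff.1 c.2
    calc m⁻¹ * d * m⁻¹⁻¹ = g * ((c : G)⁻¹ * (d * c)) * g⁻¹ := by rw [hm]; group
      _ = g * d * g⁻¹ := by rw [← hcd, inv_mul_cancel_left]
  have horb : ∀ x : ↥AC, x ∈ Cfsg.Agent.H87.Fi23A.orb R zA ↔ IsConj d ((x : ↥(Subgroup.centralizer ({d} : Set G))) : G) := by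
    intro x
    constructor
    · rintro ⟨r, ⟨g, hg⟩, rfl⟩
      refine isConj_iff.2 ⟨g, ?_⟩
      rw [hg, hzAe]
    · intro hc
      obtain ⟨n, hn, hnd, hnA⟩ := hnorm _ (inA.2 ⟨x, rfl⟩) hc
      obtain ⟨r, hr⟩ : ∃ r : MulAut ↥AC, ∀ y : ↥AC,
          ((r y : ↥(Subgroup.centralizer ({d} : Set G))) : G) = n * ((y : ↥(Subgroup.centralizer ({d} : Set G))) : G) * n⁻¹ := by
        choose f hf using fun y : ↥AC => inA.1 (hnA _ (inA.2 ⟨y, rfl⟩))
        let φ : ↥AC →* ↥AC := MonoidHom.mk' f fun u v => Subtype.ext (Subtype.ext (by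
          simp only [Subgroup.coe_mul, hf]
          group))
        have hφ : Function.Injective φ := fun u v e => Subtype.ext (Subtype.ext (by
          have := congrArg (fun w : ↥AC => ((w : ↥(Subgroup.centralizer ({d} : Set G))) : G)) e
          simpa [φ, hf] using this))
        exact ⟨MulEquiv.ofBijective φ ⟨hφ, Finite.surjective_of_injective hφ⟩, hf⟩
      exact ⟨r, ⟨n, hr⟩, Subtype.ext (Subtype.ext (by rw [hr, hzAe]; exact hnd))⟩
  obtain ⟨g, hgC, hgne⟩ := hnwc
  obtain ⟨h, hh⟩ := hcov.invol hblock (y := ⟨g * d * g⁻¹, hgC⟩) (Subtype.ext (by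
    show g * d * g⁻¹ * (g * d * g⁻¹) = 1
    calc g * d * g⁻¹ * (g * d * g⁻¹) = g * (d * d) * g⁻¹ := by group
      _ = 1 := by rw [hdd]; group))
  have hne : ∃ x ∈ Cfsg.Agent.H87.Fi23A.orb R zA, x ≠ zA := by
    refine ⟨⟨_, hh⟩, (horb _).2 ?_, fun e => ?_⟩
    · refine isConj_iff.2 ⟨(h : G) * g, ?_⟩
      simp only [Subgroup.coe_mul, Subgroup.coe_inv]
      group
    · have e' := congrArg (fun w : ↥AC => ((w : ↥(Subgroup.centralizer ({d} : Set G))) : G)) e
      simp only [Subgroup.coe_mul, Subgroup.coe_inv, hzAe] at e'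
      have hcd : (h : G) * d = d * h := Subgroup.mem_centralizer_singleton_iff.1 h.2
      refine hgne (mul_left_cancel (a := (h : G)) (mul_right_cancel (b := (h : G)⁻¹) ?_))
      rw [hcd, mul_inv_cancel_right]
      exact e'
  refine ⟨hel, hcardA, ?_, fun x hx' y hy' hcx hcy => ?_⟩
  · rw [← hset.orb_card hne,
      ← Set.ncard_image_of_injective _ ((Subgroup.centralizer ({d} : Set G)).subtype_injective.comp AC.subtype_injective)]
    congr 1
    ext x
    constructor
    · rintro ⟨hxA, hc⟩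
      obtain ⟨w, rfl⟩ := inA.1 hxA
      exact ⟨w, (horb w).2 hc, rfl⟩
    · rintro ⟨w, hw, rfl⟩
      exact ⟨inA.2 ⟨w, rfl⟩, (horb w).1 hw⟩
  · obtain ⟨n, hn, hnd, -⟩ := hnorm x hx' hcx
    obtain ⟨m, hm, hmd, -⟩ := hnorm y hy' hcy
    refine ⟨m * n⁻¹, mul_mem hm (inv_mem hn), ?_⟩
    rw [← hnd, ← hmd]
    group

end Cfsg.Agent.S5455
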