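import Cfsg.Statements.S5471
import Cfsg.Agent.H43.FischerSymmetry

set_option autoImplicit false
open Cfsg

namespace Cfsg.Agent.S5471

/-- Let G be a finite group with trivial centre generated by a conjugation-invariant set D of 3-transpositions on which it acts primitively, such that for some d in D the subgroup generated by the members of D other than d commuting with d has central largest normal 2- and 3-subgroups, and suppose G with D is of type M(23). Let d₁, d₂, d₃ be distinct pairwise commuting members of D and j their product. Then the joint centralizer of d₁, d₂, d₃ is normal in the centralizer of j with quotient isomorphic to the symmetric group of degree 3. -/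
theorem result {G : Type*} [Group G] [Finite G] {D : Set G} (hD : Cfsg.IsThreeTranspositionGroup D) (hprim : Cfsg.IsPrimitiveUnderConj D) (d₀ : G) (hd₀ : d₀ ∈ D) (h3 : Cfsg.pCore 3 ↥(Subgroup.closure {y : G | y ∈ D ∧ y ≠ d₀ ∧ Commute d₀ y}) ≤ Subgroup.center ↥(Subgroup.closure {y : G | y ∈ D ∧ y ≠ d₀ ∧ Commute d₀ y})) (h2 : Cfsg.pCore 2 ↥(Subgroup.closure {y : G | y ∈ D ∧ y ≠ d₀ ∧ Commute d₀ y}) ≤ Subgroup.center ↥(Subgroup.closure {y : G | y ∈ D ∧ y ≠ d₀ ∧ Commute d₀ y})) (h23 : Cfsg.IsOfTypeM23 G D) (d₁ d₂ d₃ : G) (h₁ : d₁ ∈ D) (h₂ : d₂ ∈ D) (h₃ : d₃ ∈ D) (h12 : d₁ ≠ d₂) (h13 : d₁ ≠ d₃) (h23 : d₂ ≠ d₃) (c12 : Commute d₁ d₂) (c13 : Commute d₁ d₃) (c23 : Commute d₂ d₃) (K C : Subgroup G) (hK : K = Subgroup.centralizer ({d₁, d₂, d₃} : Set G)) (hC : C = Subgroup.centralizer ({d₁ * d₂ * d₃} : Set G)) : K ≤ C ∧ ∃ _ : (K.subgroupOf C).Normal, Nonempty (↥C ⧸ K.subgroupOf C ≃* Equiv.Perm (Fin 3)) := by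
  subst hK hC
  obtain ⟨f, hf, hker⟩ := H43.FischerSymmetry.triple_quotient hD hprim hd₀ h2 (Or.inl (by assumption))
    h₁ h₂ h₃ h12 h13 h23 c12 c13 c23
  have hn : ((Subgroup.centralizer ({d₁, d₂, d₃} : Set G)).subgroupOf
      (Subgroup.centralizer ({d₁ * d₂ * d₃} : Set G))).Normal := hker ▸ f.normal_ker
  refine ⟨?_, hn, ?_⟩
  · intro x hx
    have hx' := Subgroup.mem_centralizer_iff.mp hx
    have e₁ : Commute d₁ x := hx' d₁ (by simp)
    have e₂ : Commute d₂ x := hx' d₂ (by simp)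
    have e₃ : Commute d₃ x := hx' d₃ (by simp)
    exact Subgroup.mem_centralizer_singleton_iff.mpr ((e₁.mul_left e₂).mul_left e₃).symm.eq
  · exact ⟨(QuotientGroup.quotientMulEquivOfEq hker.symm).trans
      (QuotientGroup.quotientKerEquivOfSurjective f hf)⟩

end Cfsg.Agent.S5471
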