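import Cfsg.Statements.S5517
import Cfsg.Agent.H25.M22O7.Config

set_option autoImplicit false
open Cfsg

namespace Cfsg.Agent.S5517

/-- Let G be a finite group with trivial centre generated by a conjugation-invariant set D of 3-transpositions on which it acts primitively, such that for some d in D the subgroup generated by the members of D other than d commuting with d has central largest normal 2- and 3-subgroups, and suppose G with D is of type M(22). Then G has a subgroup L generated by the members of D it contains and isomorphic to Ω(7, 3) (the commutator subgroup of the isometry group of a non-degenerate 7-dimensional quadratic form over the field with three elements, modulo its centre), and every Sylow 3-subgroup of L is a Sylow 3-subgroup of G. -/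
theorem result {G : Type*} [Group G] [Finite G] {D : Set G} (hD : Cfsg.IsThreeTranspositionGroup D) (hprim : Cfsg.IsPrimitiveUnderConj D) (d₀ : G) (hd₀ : d₀ ∈ D) (h3 : Cfsg.pCore 3 ↥(Subgroup.closure {y : G | y ∈ D ∧ y ≠ d₀ ∧ Commute d₀ y}) ≤ Subgroup.center ↥(Subgroup.closure {y : G | y ∈ D ∧ y ≠ d₀ ∧ Commute d₀ y})) (h2 : Cfsg.pCore 2 ↥(Subgroup.closure {y : G | y ∈ D ∧ y ≠ d₀ ∧ Commute d₀ y}) ≤ Subgroup.center ↥(Subgroup.closure {y : G | y ∈ D ∧ y ≠ d₀ ∧ Commute d₀ y})) (h22 : Cfsg.IsOfTypeM22 G D) : ∃ L : Subgroup G, Cfsg.IsDSubgroup D L ∧ Nonempty (↥L ≃* Cfsg.POmega (ZMod 3) (Cfsg.quadFormOdd 3 (ZMod 3))) ∧ ∀ P : Sylow 3 ↥L, ∃ P' : Sylow 3 G, (P : Subgroup ↥L).map L.subtype = (P' : Subgroup G) := by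
  classical
  have hcls := (Cfsg.Agent.H17.class_of_primitive hD hprim).1
  have hcard := Cfsg.Agent.H43.M22.card_group hcls hprim h22
  obtain ⟨s, hmem, hP, hθ, hz, hne⟩ := Cfsg.Agent.H25.M22O7.exists_config hD hprim h22
  obtain ⟨e⟩ := Cfsg.Agent.H25.M22O7.o7_of_config
    (by rw [hcard]; decide +kernel) s hP hθ hz hne
  obtain ⟨e'⟩ := Cfsg.Agent.H16.O7Iso.nonempty_equiv_pOmega
  refine ⟨Cfsg.Agent.H16.CoxEnum.letterSub s (List.range 8), ?_, ⟨e.trans e'⟩, fun P => ?_⟩
  · refine le_antisymm ((Subgroup.closure_le _).2 fun y hy => hy.2) ((Subgroup.closure_le _).2 ?_)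
    rintro _ ⟨g, hg, rfl⟩
    exact Subgroup.subset_closure ⟨hmem g (List.mem_range.1 hg), Subgroup.subset_closure ⟨g, hg, rfl⟩⟩
  · haveI : Fact (Nat.Prime 3) := ⟨Nat.prime_three⟩
    have hc : Nat.card ↥((P : Subgroup _).map (Cfsg.Agent.H16.CoxEnum.letterSub s (List.range 8)).subtype) =
        3 ^ (Nat.card G).factorization 3 := by
      rw [Subgroup.card_map_of_injective (Subgroup.subtype_injective _), P.card_eq_multiplicity,
        Nat.card_congr e.toEquiv, Cfsg.Agent.H16.O7Iso.card_eq, hcard]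
      congr 1
      have hv : ∀ n k : ℕ, n ≠ 0 → 3 ^ k ∣ n → ¬ 3 ^ (k + 1) ∣ n → n.factorization 3 = k := by
        intro n k hn h1 h2
        rw [Nat.Prime.pow_dvd_iff_le_factorization Nat.prime_three hn] at h1 h2
        omega
      rw [hv _ 9 (by norm_num) (by norm_num) (by norm_num), hv _ 9 (by norm_num) (by norm_num) (by norm_num)]
    exact ⟨Sylow.ofCard _ hc, (Sylow.coe_ofCard _ hc).symm⟩

end Cfsg.Agent.S5517
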