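import Cfsg.Statements.S5521
import Cfsg.Agent.H12.SixSets

set_option autoImplicit false
open Cfsg
open scoped Pointwise

namespace Cfsg.Agent.S5521

/-- The Mathieu group M₂₄ in its natural action on the 24 coordinate positions of the binary Golay code has minimal base size exactly 7: every set of at most 6 positions is fixed pointwise by some non-identity element of M₂₄, while some set of 7 positions is fixed pointwise only by the identity. -/
theorem result :
    (∀ B : Finset Cfsg.GolayPt, B.card ≤ 6 → ∃ g ∈ Cfsg.M24, g ≠ 1 ∧ ∀ b ∈ B, g b = b) ∧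
    (∃ B : Finset Cfsg.GolayPt, B.card = 7 ∧ ∀ g ∈ Cfsg.M24, (∀ b ∈ B, g b = b) → g = 1) := by
  refine ⟨fun B hB => ?_, (H12.fin 191), by rw [H12.card_fin]; decide +kernel, fun g hg hfix => ?_⟩
  · obtain ⟨E, hBE, hE⟩ := Finset.exists_superset_card_eq (s := B) (n := 6) hB
      (by rw [Fintype.card_option, ZMod.card]; norm_num)
    obtain ⟨x, hx, k, hk, rfl⟩ := H12.exists_sixBase hE
    have hcard : 1 < Nat.card {g : Equiv.Perm Cfsg.GolayPt //
        g ∈ Cfsg.M24 ∧ ∀ p ∈ k • H12.sixBase x, g p = p} := by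
      rw [H12.card_fix_smul (by omega) hk]
      rcases hx with rfl | rfl
      · rw [H12.sixFix_lengths.1]; norm_num
      · rw [H12.sixFix_lengths.2]; norm_num
    haveI := (Finite.one_lt_card_iff_nontrivial.mp hcard)
    obtain ⟨g, hg⟩ := exists_ne (⟨1, Cfsg.M24.one_mem, fun p _ => rfl⟩ :
      {g : Equiv.Perm Cfsg.GolayPt // g ∈ Cfsg.M24 ∧ ∀ p ∈ k • H12.sixBase x, g p = p})
    exact ⟨g.1, g.2.1, fun e => hg (Subtype.ext e), fun b hb => g.2.2 b (hBE hb)⟩
  · refine H11.eq_one_of_fix_base hg fun x hx => hfix _ ?_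
    rw [show H11.m24Chain.map Prod.fst = [0, 1, 2, 3, 4, 7, 5] by decide +kernel] at hx
    simp only [List.mem_cons, List.not_mem_nil, or_false] at hx
    rw [H12.pt_mem_fin (by omega)]
    rcases hx with rfl | rfl | rfl | rfl | rfl | rfl | rfl <;> decide

end Cfsg.Agent.S5521
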