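import Cfsg.Statements.S5562
import Cfsg.Agent.H17.Basic

set_option autoImplicit false
open Cfsg

namespace Cfsg.Agent.S5562

/-- Let G be a finite group, d an involution of G whose conjugates pairwise have products of odd order, and x any involution of G. Then the conjugacy class of d is the disjoint union, over the conjugates a of d commuting with x, of the sets of conjugates of d commuting with ax: every conjugate of d commutes with ax for exactly one conjugate a of d that commutes with x. -/
theorem result {G : Type*} [Group G] [Finite G] (d : G) (hd : orderOf d = 2)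
    (hodd : ∀ a ∈ conjugatesOf d, ∀ b ∈ conjugatesOf d, Odd (orderOf (a * b)))
    (x : G) (hx : orderOf x = 2) :
    ∀ e ∈ conjugatesOf d,
      ∃! a : G, a ∈ conjugatesOf d ∧ Commute a x ∧ Commute e (a * x) := by
  intro e he
  have hinvD : ∀ a ∈ conjugatesOf d, a * a = 1 := by
    intro a ha
    obtain ⟨g, rfl⟩ := isConj_iff.mp ha
    calc g * d * g⁻¹ * (g * d * g⁻¹) = g * (d * d) * g⁻¹ := by group
      _ = 1 := by rw [H17.mul_self_of_orderOf hd]; group
  have hconj : ∀ a ∈ conjugatesOf d, ∀ g : G, g * a * g⁻¹ ∈ conjugatesOf d := fun a ha g =>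
    (show IsConj d a from ha).trans (isConj_iff.mpr ⟨g, rfl⟩)
  have hx2 := H17.mul_self_of_orderOf hx
  have hxi := H17.inv_of_orderOf hx
  have he2 := hinvD e he
  have hei : e⁻¹ = e := inv_eq_of_mul_eq_one_right he2
  have hf : x * e * x ∈ conjugatesOf d := by
    have := hconj e he x; rwa [hxi] at this
  obtain ⟨y, hy⟩ : ∃ y, y = e * (x * e * x) := ⟨_, rfl⟩
  obtain ⟨k, hk⟩ : Odd (orderOf y) := hy ▸ hodd e he _ hf
  have hey : ∀ n : ℕ, e * y ^ n * e = (y ^ n)⁻¹ := by
    intro n
    have : e * y * e⁻¹ = y⁻¹ := by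
      rw [hy, mul_inv_rev, hei, mul_inv_rev, mul_inv_rev, hxi, hei,
        ← mul_assoc e e, he2, one_mul]
      simp only [mul_assoc]
    rw [← inv_pow, ← this, conj_pow, hei]
  obtain ⟨z, hz⟩ : ∃ z, z = y ^ (k + 1) := ⟨_, rfl⟩
  have hz2 : z * z = y := by
    rw [hz, ← pow_add, show k + 1 + (k + 1) = (2 * k + 1) + 1 by ring, pow_succ, ← hk,
      pow_orderOf_eq_one, one_mul]
  have hez : e * z * e = z⁻¹ := hz ▸ hey _
  have hxy : x * y * x⁻¹ = y⁻¹ := by
    rw [hy, mul_inv_rev, hei, mul_inv_rev, mul_inv_rev, hxi, hei]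
    simp only [mul_assoc]
    rw [hx2, mul_one]
  have hxz : x * z * x = z⁻¹ := by
    have : x * z * x⁻¹ = z⁻¹ := by rw [hz, ← conj_pow, hxy, inv_pow]
    rwa [hxi] at this
  have hxe : x * e * x = e * y := by rw [hy, ← mul_assoc, he2, one_mul]
  have hez' : e * z = z⁻¹ * e := by rw [← hez, mul_assoc, he2, mul_one]
  have haD : e * z ∈ conjugatesOf d := by
    obtain ⟨w, hw⟩ : ∃ w, w = z ^ (k + 1) := ⟨_, rfl⟩
    have hzord : z ^ (2 * k + 1) = 1 := by
      rw [hz, ← pow_mul, mul_comm, pow_mul, ← hk, pow_orderOf_eq_one, one_pow]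
    have hw2 : w * w = z := by
      rw [hw, ← pow_add, show k + 1 + (k + 1) = (2 * k + 1) + 1 by ring, pow_succ, hzord, one_mul]
    have hew : e * w * e = w⁻¹ := by rw [hw, hz, ← pow_mul, hey, pow_mul]
    have : w⁻¹ * e * w = e * z := by
      rw [← hew, mul_assoc (e * w) e e, he2, mul_one, mul_assoc, hw2]
    rw [← this]
    simpa using hconj e he w⁻¹
  have hae : (e * z) * e * (e * z) = x * e * x := by
    rw [hxe, ← hz2]
    calc (e * z) * e * (e * z) = e * z * (e * e) * z := by simp only [mul_assoc]
      _ = e * (z * z) := by rw [he2, mul_one, mul_assoc]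
  have hax : Commute (e * z) x := by
    show e * z * x = x * (e * z)
    calc e * z * x = x * ((x * e * x) * (x * z * x)) := by
          calc e * z * x = (x * x) * e * (x * x) * z * x := by rw [hx2, one_mul, mul_one]
            _ = _ := by simp only [mul_assoc]
      _ = x * (e * z) := by
          rw [hxe, hxz, mul_assoc e y, ← hz2, mul_assoc z z, mul_inv_cancel, mul_one]
  have swap_iff : ∀ a : G, a * a = 1 → Commute a x → (Commute e (a * x) ↔ a * e * a = x * e * x) := by
    intro a ha hc
    constructor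
    · intro h
      calc a * e * a = (a * e * a) * (x * x) := by rw [hx2, mul_one]
        _ = a * (e * (a * x)) * x := by simp only [mul_assoc]
        _ = a * ((a * x) * e) * x := by rw [h.eq]
        _ = (a * a) * (x * e * x) := by simp only [mul_assoc]
        _ = x * e * x := by rw [ha, one_mul]
    · intro h
      show e * (a * x) = a * x * e
      calc e * (a * x) = (a * a) * e * a * x := by rw [ha, one_mul]; simp only [mul_assoc]
        _ = a * (a * e * a) * x := by simp only [mul_assoc]
        _ = a * (x * e * x) * x := by rw [h]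
        _ = a * x * e * (x * x) := by simp only [mul_assoc]
        _ = a * x * e := by rw [hx2, mul_one]
  refine ⟨e * z, ⟨haD, hax, (swap_iff _ (hinvD _ haD) hax).mpr hae⟩, ?_⟩
  rintro a ⟨haC, hac, hecomm⟩
  have haswap := (swap_iff a (hinvD a haC) hac).mp hecomm
  obtain ⟨c, hc⟩ : ∃ c, c = e * z := ⟨_, rfl⟩
  rw [← hc] at haD hae hax ⊢
  obtain ⟨u, hu⟩ : ∃ u, u = c * a := ⟨_, rfl⟩
  obtain ⟨m, hm⟩ : Odd (orderOf u) := hu ▸ hodd c haD a haC
  have hc2 := hinvD c haD
  have hue : Commute u e := by
    show u * e = e * u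
    rw [hu]
    calc c * a * e = c * a * e * (a * a) := by rw [hinvD a haC, mul_one]
      _ = c * (a * e * a) * a := by simp only [mul_assoc]
      _ = c * (c * e * c) * a := by rw [haswap, hae]
      _ = (c * c) * e * c * a := by simp only [mul_assoc]
      _ = e * (c * a) := by rw [hc2, one_mul, mul_assoc]
  have hux : Commute u x := hu ▸ hax.mul_left hac
  have huy : Commute u y := hy ▸ hue.mul_right ((hux.mul_right hue).mul_right hux)
  have huz : Commute u z := hz ▸ huy.pow_right _
  have huc : Commute u c := hc ▸ hue.mul_right huz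
  have hu2 : u ^ 2 = 1 := by
    have hca : Commute c a := by
      show c * a = a * c
      calc c * a = u * (c * c) := by rw [hu, hc2, mul_one]
        _ = c * u * c := by rw [← mul_assoc, huc.eq]
        _ = (c * c) * (a * c) := by rw [hu]; simp only [mul_assoc]
        _ = a * c := by rw [hc2, one_mul]
    rw [hu]; exact (H17.commute_iff_sq hc2 (hinvD a haC)).mp hca
  have h1 : u = 1 := by
    have h := pow_orderOf_eq_one u
    rwa [hm, pow_succ, pow_mul, hu2, one_pow, one_mul] at h
  rw [hu, mul_eq_one_iff_eq_inv] at h1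
  calc a = a⁻¹ := (inv_eq_of_mul_eq_one_right (hinvD a haC)).symm
    _ = c := h1.symm

end Cfsg.Agent.S5562
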