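import Cfsg.Statements.S5597
import Cfsg.Agent.H18.Singular.Setting

set_option autoImplicit false
open Cfsg

namespace Cfsg.Agent.S5597

/-- Setting: `z` is an involution of the finite group `G`; for each element `x`, `Q x` is the largest normal 2-subgroup of the centralizer of `x`; `Q z` is extraspecial and contains its own centralizer in `G`. A subgroup `U` is singular when it is elementary abelian, every non-identity element of `U` is conjugate to `z`, and any two non-identity elements `u`, `v` of `U` are orthogonal (`v ∈ Q u`). Write `QU` for the intersection of the `Q u` and `LU` for the join of the `Q u` over the non-identity `u` in `U`. If `U` is a non-trivial singular subgroup, then `LU` acts trivially on `QU / U` (every commutator of an element of `LU` with an element of `QU` lies in `U`), and for every `x` in `QU` outside `U` the centralizer of `U` in `LU` permutes the coset `x U` transitively: each `x u` with `u ∈ U` is a conjugate of `x` by an element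 of `LU` centralizing `U`. -/
theorem result {G : Type*} [Group G] [Finite G]
    (Q : G → Subgroup G)
    (hQ : ∀ x : G, Q x = (Cfsg.pCore 2 ↥(Subgroup.centralizer ({x} : Set G))).map (Subgroup.centralizer ({x} : Set G)).subtype)
    (z : G) (hz : orderOf z = 2) (hE : Cfsg.IsExtraspecial 2 ↥(Q z))
    (hC : Subgroup.centralizer ((Q z : Subgroup G) : Set G) ≤ Q z)
    (U : Subgroup G) (hU2 : ∀ u ∈ U, u * u = 1)
    (hS : ∀ u ∈ U, u ≠ 1 → ∃ g : G, g * z * g⁻¹ = u)
    (hO : ∀ u ∈ U, ∀ v ∈ U, u ≠ 1 → v ≠ 1 → v ∈ Q u)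
    (QU LU : Subgroup G) (hQU : QU = ⨅ u ∈ ((U : Set G) \ {1}), Q u) (hLU : LU = ⨆ u ∈ ((U : Set G) \ {1}), Q u)
    (hU : U ≠ ⊥) :
    (∀ g ∈ LU, ∀ x ∈ QU, g * x * g⁻¹ * x⁻¹ ∈ U) ∧
      ∀ x ∈ QU, x ∉ U → ∀ u ∈ U, ∃ g ∈ LU ⊓ Subgroup.centralizer (U : Set G), g * x * g⁻¹ = x * u := by
  have hf := H18.singFam_of_hyp Q hQ z hz hE hC U hS hO
  have hQU' : ∀ x ∈ QU, ∀ u ∈ U, u ≠ 1 → x ∈ Q u := by
    intro x hx u hu hu1
    rw [hQU] at hx
    simp only [Subgroup.mem_iInf] at hx
    exact hx u ⟨hu, hu1⟩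
  refine ⟨?_, fun x hx hxU u hu => ?_⟩
  · let S : Subgroup G := H18.subgroupOfMulClosed
      {g | g ∈ Subgroup.normalizer (U : Set G) ∧ ∀ x ∈ QU, g * x * g⁻¹ * x⁻¹ ∈ U}
      ⟨one_mem _, fun x _ => by simp⟩
      (by
        rintro a ⟨ha, haQ⟩ b ⟨hb, hbQ⟩
        refine ⟨mul_mem ha hb, fun x hx => ?_⟩
        have : a * b * x * (a * b)⁻¹ * x⁻¹ = a * (b * x * b⁻¹ * x⁻¹) * a⁻¹ * (a * x * a⁻¹ * x⁻¹) := by group
        rw [this]
        exact U.mul_mem ((Subgroup.mem_normalizer_iff.mp ha _).mp (hbQ x hx)) (haQ x hx))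
    have hle : LU ≤ S := by
      rw [hLU]
      refine iSup₂_le fun u hu q hq => ⟨hf.le_normalizer hu.1 hu.2 hq, fun x hx => ?_⟩
      exact Subgroup.zpowers_le.mpr hu.1 ((hf.pt u hu.1 hu.2).comm hq (hQU' x hx u hu.1 hu.2))
    exact fun g hg => (hle hg).2
  · by_cases hu1 : u = 1
    · exact ⟨1, one_mem _, by simp [hu1]⟩
    have hp := hf.pt u hu hu1
    have hle := hf.U_le hu hu1
    by_contra hcon
    push Not at hcon
    apply hxU
    rw [← hp.double U hle hu]
    refine ⟨hQU' x hx u hu hu1, fun q hq => ?_⟩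
    rcases hp.pair (hp.comm hq.1 (hQU' x hx u hu hu1)) with he | he
    · exact mul_inv_eq_iff_eq_mul.mp (mul_inv_eq_one.mp he)
    · exfalso
      refine hcon q ⟨?_, hq.2⟩ ?_
      · rw [hLU]
        exact (le_iSup₂_of_le u ⟨hu, hu1⟩ le_rfl : Q u ≤ ⨆ v ∈ ((U : Set G) \ {1}), Q v) hq.1
      · rw [mul_inv_eq_iff_eq_mul] at he
        rw [he, hp.comm_x x (hQU' x hx u hu hu1)]

end Cfsg.Agent.S5597
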