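import Cfsg.Statements.S5598
import Cfsg.Agent.H18.Singular.Setting

set_option autoImplicit false
open Cfsg

namespace Cfsg.Agent.S5598

/-- Setting: `z` is an involution of the finite group `G`; for each element `x`, `Q x` is the largest normal 2-subgroup of the centralizer of `x`; `Q z` is extraspecial and contains its own centralizer in `G`. A subgroup `U` is singular when it is elementary abelian, every non-identity element of `U` is conjugate to `z`, and any two non-identity elements `u`, `v` of `U` are orthogonal (`v ∈ Q u`). Write `QU` for the intersection of the `Q u` and `LU` for the join of the `Q u` over the non-identity `u` in `U`. If the singular subgroup `U` is generated by a set `T` of non-identity elements, then `QU` is already the intersection of the `Q t` over `t ∈ T`. -/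
theorem result {G : Type*} [Group G] [Finite G]
    (Q : G → Subgroup G)
    (hQ : ∀ x : G, Q x = (Cfsg.pCore 2 ↥(Subgroup.centralizer ({x} : Set G))).map (Subgroup.centralizer ({x} : Set G)).subtype)
    (z : G) (hz : orderOf z = 2) (hE : Cfsg.IsExtraspecial 2 ↥(Q z))
    (hC : Subgroup.centralizer ((Q z : Subgroup G) : Set G) ≤ Q z)
    (U : Subgroup G) (hU2 : ∀ u ∈ U, u * u = 1)
    (hS : ∀ u ∈ U, u ≠ 1 → ∃ g : G, g * z * g⁻¹ = u)
    (hO : ∀ u ∈ U, ∀ v ∈ U, u ≠ 1 → v ≠ 1 → v ∈ Q u)
    (QU LU : Subgroup G) (hQU : QU = ⨅ u ∈ ((U : Set G) \ {1}), Q u) (hLU : LU = ⨆ u ∈ ((U : Set G) \ {1}), Q u)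
    (T : Set G) (hT : Subgroup.closure T = U) (hT1 : (1 : G) ∉ T) :
    QU = ⨅ t ∈ T, Q t := by
  have hf := H18.singFam_of_hyp Q hQ z hz hE hC U hS hO
  have hTU : T ⊆ (U : Set G) := by rw [← hT]; exact Subgroup.subset_closure
  refine le_antisymm ?_ ?_
  · rw [hQU]
    exact le_iInf₂ fun t ht => iInf₂_le t ⟨hTU ht, fun he => hT1 (he ▸ ht)⟩
  · intro x hx
    simp only [Subgroup.mem_iInf] at hx
    let S : Subgroup G := H18.subgroupOfMulClosed {u | u ∈ U ∧ (u = 1 ∨ x ∈ Q u)}
      ⟨U.one_mem, Or.inl rfl⟩
      (by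
        rintro a ⟨ha, hxa⟩ b ⟨hb, hxb⟩
        refine ⟨U.mul_mem ha hb, ?_⟩
        by_cases ha1 : a = 1
        · rw [ha1, one_mul]; exact hxb
        by_cases hb1 : b = 1
        · rw [hb1, mul_one]; exact hxa
        by_cases hab : a = b
        · left; rw [← hab]; exact hU2 a ha
        have hxa' := hxa.resolve_left ha1
        have hxb' := hxb.resolve_left hb1
        have hp := hf.pt a ha ha1
        have hbQ := hf.orth a ha b hb ha1 hb1
        obtain ⟨q, hq, hqb⟩ : ∃ q ∈ Q a, q * b * q⁻¹ = a * b := by
          by_contra hcon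
          push Not at hcon
          rcases hp.cent b (fun w hw => by
            rcases hp.pair (hp.comm hw hbQ) with he | he
            · exact mul_inv_eq_iff_eq_mul.mp (mul_inv_eq_one.mp he)
            · exact absurd (mul_inv_eq_iff_eq_mul.mp he) (hcon w hw)) with he | he
          · exact hb1 he
          · exact hab he.symm
        have hab1 : a * b ≠ 1 := fun he => hab (by
          rw [eq_inv_of_mul_eq_one_right he, inv_eq_of_mul_eq_one_right (hU2 a ha)])
        right
        have hmem : q * x * q⁻¹ ∈ Q (a * b) := by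
          rw [← hqb, hf.cov]
          exact ⟨x, hxb', rfl⟩
        have hcx : q * x * q⁻¹ * x⁻¹ ∈ Q (a * b) :=
          Subgroup.zpowers_le.mpr (hf.orth _ (U.mul_mem ha hb) a ha hab1 ha1) (hp.comm hq hxa')
        have : x = (q * x * q⁻¹ * x⁻¹)⁻¹ * (q * x * q⁻¹) := by group
        rw [this]
        exact (Q (a * b)).mul_mem ((Q (a * b)).inv_mem hcx) hmem)
    have hUS : U ≤ S := by
      rw [← hT, Subgroup.closure_le]
      exact fun t ht => ⟨hTU ht, Or.inr (hx t ht)⟩
    rw [hQU]
    simp only [Subgroup.mem_iInf]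
    exact fun u hu => (hUS hu.1).2.resolve_left hu.2

end Cfsg.Agent.S5598
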