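import Cfsg.Statements.S5712
import Cfsg.Agent.H5.Sp2.Final

set_option autoImplicit false
open Cfsg

namespace Cfsg.Agent.S5712

/-- Let F be a finite field of characteristic two, n ≥ 2, V = F^{2n} with the non-degenerate alternating form f(u, v) = Σ (u_i v_{n+i} + u_{n+i} v_i), and G the group of invertible matrices preserving f. Let a ≠ 0 be a vector, H its stabilizer in G, and X a subgroup of O₂(H) of order |F|^{2n−2} no element of which is a transvection (no element g has g − 1 of rank one). If L is a subgroup of G containing X that acts irreducibly on V (no proper non-zero L-invariant subspace), then L = G, or, for some quadratic form Q on V whose polar form is f, L is the isometry group of Q or its subgroup of the isometries g for which g − 1 has even rank, or |F| = 2, n = 2 and L is isomorphic to the alternating group of degree 6 or to the symmetric group of degree 5. -/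
theorem result {F : Type*} [Field F] [Fintype F] [CharP F 2] {n : ℕ} (hn : 2 ≤ n) (a : (Fin n ⊕ Fin n → F)) (ha : a ≠ 0)
    (X : Subgroup (GL (Fin n ⊕ Fin n) F)) (hXG : X ≤ Cfsg.preserving (Units.coeHom (Matrix (Fin n ⊕ Fin n) (Fin n ⊕ Fin n) F)) (fun u v : (Fin n ⊕ Fin n → F) => ∑ i : Fin n, (u (Sum.inl i) * v (Sum.inr i) + u (Sum.inr i) * v (Sum.inl i))))
    (hXO : ∀ H : Subgroup (GL (Fin n ⊕ Fin n) F),
      (∀ g : GL (Fin n ⊕ Fin n) F, g ∈ H ↔ (g ∈ Cfsg.preserving (Units.coeHom (Matrix (Fin n ⊕ Fin n) (Fin n ⊕ Fin n) F)) (fun u v : (Fin n ⊕ Fin n → F) => ∑ i : Fin n, (u (Sum.inl i) * v (Sum.inr i) + u (Sum.inr i) * v (Sum.inl i))) ∧ Matrix.mulVec (g : Matrix (Fin n ⊕ Fin n) (Fin n ⊕ Fin n) F) a = a)) →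
      X ≤ (Cfsg.pCore 2 ↥H).map H.subtype)
    (hcard : Nat.card ↥X = Fintype.card F ^ (2 * n - 2))
    (hntv : ∀ x ∈ X, ((x : Matrix (Fin n ⊕ Fin n) (Fin n ⊕ Fin n) F) - 1).rank ≠ 1)
    (L : Subgroup (GL (Fin n ⊕ Fin n) F)) (hXL : X ≤ L) (hLG : L ≤ Cfsg.preserving (Units.coeHom (Matrix (Fin n ⊕ Fin n) (Fin n ⊕ Fin n) F)) (fun u v : (Fin n ⊕ Fin n → F) => ∑ i : Fin n, (u (Sum.inl i) * v (Sum.inr i) + u (Sum.inr i) * v (Sum.inl i))))
    (hirr : ∀ W : Submodule F (Fin n ⊕ Fin n → F), (∀ g ∈ L, ∀ w ∈ W, Matrix.mulVec (g : Matrix (Fin n ⊕ Fin n) (Fin n ⊕ Fin n) F) w ∈ W) → W = ⊥ ∨ W = ⊤) :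
    L = Cfsg.preserving (Units.coeHom (Matrix (Fin n ⊕ Fin n) (Fin n ⊕ Fin n) F)) (fun u v : (Fin n ⊕ Fin n → F) => ∑ i : Fin n, (u (Sum.inl i) * v (Sum.inr i) + u (Sum.inr i) * v (Sum.inl i))) ∨
    (∃ Q : QuadraticForm F (Fin n ⊕ Fin n → F), (∀ u v, QuadraticMap.polar ⇑Q u v = (fun u v : (Fin n ⊕ Fin n → F) => ∑ i : Fin n, (u (Sum.inl i) * v (Sum.inr i) + u (Sum.inr i) * v (Sum.inl i))) u v) ∧
      (L = Cfsg.isometryGroup F ⇑Q ∨
        ∀ g : GL (Fin n ⊕ Fin n) F, g ∈ L ↔ (g ∈ Cfsg.isometryGroup F ⇑Q ∧ Even ((g : Matrix (Fin n ⊕ Fin n) (Fin n ⊕ Fin n) F) - 1).rank))) ∨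
    (Fintype.card F = 2 ∧ n = 2 ∧ (Nonempty (↥L ≃* ↥(alternatingGroup (Fin 6))) ∨ Nonempty (↥L ≃* Equiv.Perm (Fin 5)))) := by
  have hS : Cfsg.preserving (Units.coeHom (Matrix (Fin n ⊕ Fin n) (Fin n ⊕ Fin n) F)) (fun u v : (Fin n ⊕ Fin n → F) => ∑ i : Fin n, (u (Sum.inl i) * v (Sum.inr i) + u (Sum.inr i) * v (Sum.inl i))) = Cfsg.spGL n F := by
    have hfun : (fun u v : (Fin n ⊕ Fin n → F) => ∑ i : Fin n, (u (Sum.inl i) * v (Sum.inr i) + u (Sum.inr i) * v (Sum.inl i))) = Cfsg.sympForm n F :=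
      funext fun u => funext fun v => (H5.Sp2.sympForm_eq_sum u v).symm
    rw [hfun]; rfl
  simp only [hS] at hXO hLG ⊢
  rcases H5.Sp2.overgroup hn a ha X L hXO hcard hntv hXL hLG hirr with h | ⟨Q, hQ, h⟩ | h
  · exact Or.inl h
  · exact Or.inr (Or.inl ⟨Q, fun u v => (hQ u v).trans (H5.Sp2.sympForm_eq_sum u v), h⟩)
  · exact Or.inr (Or.inr h)

end Cfsg.Agent.S5712
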