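import Cfsg.Statements.S5713
import Cfsg.Agent.H36.MinimalDegree

set_option autoImplicit false
open Cfsg

namespace Cfsg.Agent.S5713

open scoped Classical in
/-- A classification-free minimal-degree bound. Let G be a finite group acting faithfully and primitively on a finite set Ω with n elements, and suppose that the image of G in the symmetric group on Ω does not contain the alternating group on Ω. Then every non-identity element of G moves at least (√n − 1)/2 points of Ω, that is, it fixes at most n − (√n − 1)/2 points. -/
theorem result {G Ω : Type*} [Group G] [Finite G] [MulAction G Ω] [FaithfulSMul G Ω] [Fintype Ω] [DecidableEq Ω]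
    (hprim : MulAction.IsPreprimitive G Ω)
    (hA : ¬ alternatingGroup Ω ≤ (MulAction.toPermHom G Ω).range)
    (g : G) (hg : g ≠ 1) :
    (Real.sqrt (Fintype.card Ω) - 1) / 2 ≤ (Fintype.card Ω : ℝ) - Nat.card (MulAction.fixedBy Ω g) := by
  set K := (MulAction.toPermHom G Ω).range
  haveI : MulAction.IsPretransitive G Ω := hprim.toIsPretransitive
  have hK : MulAction.IsPreprimitive K Ω := by
    let f : Ω →ₑ[(MulAction.toPermHom G Ω).rangeRestrict] Ω := ⟨id, fun _ _ => rfl⟩
    exact MulAction.IsPreprimitive.of_surjective (f := f) Function.surjective_id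
  set p : Equiv.Perm Ω := MulAction.toPerm g
  have hp1 : p ≠ 1 := by
    intro e
    apply hg
    refine FaithfulSMul.eq_of_smul_eq_smul (α := Ω) fun x => ?_
    rw [one_smul]
    exact Equiv.ext_iff.1 e x
  have h := Cfsg.Agent.H36.card_le_minimalDegree K hK hA (g := p) ⟨g, rfl⟩ hp1
  have hfix : Nat.card (MulAction.fixedBy Ω g) + p.support.card = Fintype.card Ω := by
    have hS : MulAction.fixedBy Ω g = ((p.supportᶜ : Finset Ω) : Set Ω) := by
      ext x
      simp [p, MulAction.mem_fixedBy]
    rw [hS, Nat.card_coe_set_eq, Set.ncard_coe_finset, Finset.card_compl]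
    have := p.support.card_le_univ
    omega
  have e : (Fintype.card Ω : ℝ) - Nat.card (MulAction.fixedBy Ω g) = p.support.card := by
    rw [← hfix]; push_cast; ring
  rw [e, div_le_iff₀ (by norm_num : (0 : ℝ) < 2), sub_le_iff_le_add]
  refine Real.sqrt_le_iff.2 ⟨by positivity, ?_⟩
  calc (Fintype.card Ω : ℝ) ≤ ((2 * p.support.card + 1) * (2 * p.support.card + 1) : ℕ) := by exact_mod_cast h
    _ = ((p.support.card : ℝ) * 2 + 1) ^ 2 := by push_cast; ring

end Cfsg.Agent.S5713
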