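import Cfsg.Statements.S5729
-- import your own Cfsg.Agent.* helpers here

set_option autoImplicit false
set_option linter.style.haveILetI false
set_option linter.unusedSectionVars false
open Cfsg

namespace Cfsg.Agent.S5729

/-- Burnside for a transitive action. -/
theorem burnside_one {G Ω : Type*} [Group G] [Fintype G] [MulAction G Ω] [Fintype Ω] [Nonempty Ω]
    (h : Subsingleton (Quotient (MulAction.orbitRel G Ω))) :
    ∑ g : G, (Nat.card (MulAction.fixedBy Ω g) : ℤ) = (Nat.card G : ℤ) := by
  classical
  haveI : Unique (Quotient (MulAction.orbitRel G Ω)) :=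
    { default := Quotient.mk'' (Classical.arbitrary Ω), uniq := fun _ => Subsingleton.elim _ _ }
  have := MulAction.sum_card_fixedBy_eq_card_orbits_mul_card_group G Ω
  simp only [← Nat.card_eq_fintype_card, Nat.card_unique, one_mul] at this
  exact_mod_cast this

/-- Burnside for pairs. -/
theorem burnside_two {G Ω : Type*} [Group G] [Fintype G] [MulAction G Ω] [Fintype Ω] :
    ∑ g : G, (Nat.card (MulAction.fixedBy Ω g) : ℤ) ^ 2 =
      (Nat.card (Quotient (MulAction.orbitRel G (Ω × Ω))) : ℤ) * Nat.card G := by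
  classical
  have := MulAction.sum_card_fixedBy_eq_card_orbits_mul_card_group G (Ω × Ω)
  simp only [← Nat.card_eq_fintype_card] at this
  have e : ∀ g : G, Nat.card (MulAction.fixedBy (Ω × Ω) g) = Nat.card (MulAction.fixedBy Ω g) ^ 2 := by
    intro g
    rw [pow_two, ← Nat.card_prod]
    refine Nat.card_congr
      { toFun := fun x => (⟨x.1.1, congrArg Prod.fst x.2⟩, ⟨x.1.2, congrArg Prod.snd x.2⟩)
        invFun := fun y => ⟨(y.1.1, y.2.1), Prod.ext y.1.2 y.2.2⟩
        left_inv := fun x => rfl
        right_inv := fun y => rfl }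
  simp only [e] at this
  exact_mod_cast this

/-- The diagonal and the rest of `Ω × Ω` lie in different orbits. -/
theorem two_le_orbits {G Ω : Type*} [Group G] [MulAction G Ω] [Fintype Ω]
    (h : 2 ≤ Fintype.card Ω) : 2 ≤ Nat.card (Quotient (MulAction.orbitRel G (Ω × Ω))) := by
  obtain ⟨a, b, hab⟩ := Fintype.exists_pair_of_one_lt_card (by omega : 1 < Fintype.card Ω)
  haveI : Nontrivial (Quotient (MulAction.orbitRel G (Ω × Ω))) :=
    ⟨Quotient.mk'' (a, a), Quotient.mk'' (a, b), fun he => by
      obtain ⟨g, hg⟩ := Quotient.exact' he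
      apply hab
      have h1 := congrArg Prod.fst hg
      have h2 := congrArg Prod.snd hg
      simp only [Prod.smul_fst, Prod.smul_snd] at h1 h2
      exact smul_left_cancel g (h1.trans h2.symm)⟩
  exact Finite.one_lt_card

/-- Two orbits on pairs and no non-trivial element fixing two points gives the group order. -/
theorem card_eq_of_regular_pairs {G Ω : Type*} [Group G] [Finite G] [MulAction G Ω]
    [Fintype Ω] (hn : 3 ≤ Fintype.card Ω)
    (hr : Nat.card (Quotient (MulAction.orbitRel G (Ω × Ω))) = 2)
    (hfix : ∀ g : G, g ≠ 1 → Nat.card (MulAction.fixedBy Ω g) ≤ 1) :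
    Nat.card G = Fintype.card Ω * (Fintype.card Ω - 1) := by
  classical
  obtain ⟨a, b, hab⟩ := Fintype.exists_pair_of_one_lt_card (by omega : 1 < Fintype.card Ω)
  have hstab : MulAction.stabilizer G (a, b) = ⊥ := by
    rw [Subgroup.eq_bot_iff_forall]
    intro g hg
    by_contra hne
    have h1 := congrArg Prod.fst hg
    have h2 := congrArg Prod.snd hg
    have h3 : 1 < (MulAction.fixedBy Ω g).ncard :=
      (Set.one_lt_ncard (Set.toFinite _)).mpr ⟨a, h1, b, h2, hab⟩
    have h4 := hfix g hne
    rw [Nat.card_coe_set_eq] at h4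
    omega
  have horb : MulAction.orbit G (a, b) = {x : Ω × Ω | x.1 ≠ x.2} := by
    ext x
    constructor
    · rintro ⟨g, rfl⟩
      simpa using hab
    · intro hx
      obtain ⟨u, v, huv, huniv⟩ := Nat.card_eq_two_iff.mp hr
      have key : ∀ y : Ω, ∀ z : Ω × Ω, z.1 ≠ z.2 →
          (Quotient.mk'' z : Quotient (MulAction.orbitRel G (Ω × Ω))) ≠ Quotient.mk'' (y, y) := by
        intro y z hz he
        obtain ⟨g, rfl⟩ := Quotient.exact' he
        exact hz rfl
      have hmem : ∀ q : Quotient (MulAction.orbitRel G (Ω × Ω)), q = u ∨ q = v := fun q => by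
        have : q ∈ ({u, v} : Set _) := huniv ▸ Set.mem_univ q
        simpa using this
      have k1 := key a x hx
      have k2 := key a (a, b) hab
      have : (Quotient.mk'' x : Quotient (MulAction.orbitRel G (Ω × Ω))) = Quotient.mk'' (a, b) := by
        rcases hmem (Quotient.mk'' x) with h | h <;> rcases hmem (Quotient.mk'' (a, b)) with h' | h' <;>
          rcases hmem (Quotient.mk'' (a, a)) with h'' | h'' <;> simp_all
      exact Quotient.exact' this
  have e := MulAction.index_stabilizer G (a, b)
  rw [hstab, Subgroup.index_bot, horb] at e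
  rw [e]
  have hc : {x : Ω × Ω | x.1 ≠ x.2}.ncard = (Finset.univ : Finset Ω).offDiag.card := by
    rw [← Set.ncard_coe_finset]
    congr 1
    ext x
    simp
  rw [hc, Finset.offDiag_card, Finset.card_univ, Nat.mul_sub, mul_one]

/-- Let a finite group G act faithfully and transitively on a set with n ≥ 3 points. Then either G is a Frobenius permutation group (Frobenius as a permutation group: transitive, some non-identity element fixes a point, and no non-identity element fixes two points) of order n(n − 1) and exactly |G|/n of its elements are derangements (fix no point), or the number of derangements is greater than |G|/n. -/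
theorem result {G Ω : Type*} [Group G] [Finite G] [MulAction G Ω] [FaithfulSMul G Ω] [Fintype Ω] (htr : MulAction.IsPretransitive G Ω) (hn : 3 ≤ Fintype.card Ω) :
    ((MulAction.IsPretransitive G Ω ∧ (∃ g : G, g ≠ 1 ∧ ∃ ω : Ω, g • ω = ω) ∧ ∀ g : G, g ≠ 1 → Nat.card (MulAction.fixedBy Ω g) ≤ 1) ∧ Nat.card G = Fintype.card Ω * (Fintype.card Ω - 1) ∧ Fintype.card Ω * Nat.card {g : G // ∀ ω : Ω, g • ω ≠ ω} = Nat.card G) ∨
    Nat.card G < Fintype.card Ω * Nat.card {g : G // ∀ ω : Ω, g • ω ≠ ω} := by
  classical
  haveI := htr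
  haveI := Fintype.ofFinite G
  set n : ℕ := Fintype.card Ω with hn'
  let f : G → ℤ := fun g => (Nat.card (MulAction.fixedBy Ω g) : ℤ)
  set D : ℕ := Nat.card {g : G // ∀ ω : Ω, g • ω ≠ ω} with hD
  have hne : Nonempty Ω := Fintype.card_pos_iff.mp (by omega)
  have hone : Subsingleton (Quotient (MulAction.orbitRel G Ω)) := by
    refine ⟨fun a b => Quotient.inductionOn₂ a b fun x y => Quotient.sound ?_⟩
    exact MulAction.exists_smul_eq G y x
  have h1 : ∑ g : G, f g = (Nat.card G : ℤ) := burnside_one hone
  -- orbits on pairs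
  set r : ℕ := Nat.card (Quotient (MulAction.orbitRel G (Ω × Ω))) with hr
  have h2 : ∑ g : G, f g ^ 2 = (r : ℤ) * Nat.card G := burnside_two
  have hr2 : 2 ≤ r := two_le_orbits (by omega)
  -- split the sum of (f-1)(n-f)
  have hsum : ∑ g : G, (f g - 1) * ((n : ℤ) - f g) = ((1 : ℤ) - r) * Nat.card G := by
    have e : ∀ g : G, (f g - 1) * ((n : ℤ) - f g) = ((n : ℤ) + 1) * f g - f g ^ 2 - n := fun g => by ring
    simp only [e, Finset.sum_sub_distrib, ← Finset.mul_sum, h1, h2, Finset.sum_const, Finset.card_univ,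
      nsmul_eq_mul, ← Nat.card_eq_fintype_card]
    ring
  have hDf : (Finset.univ.filter (fun g : G => f g = 0)).card = D := by
    rw [hD, Nat.card_eq_fintype_card, Fintype.card_subtype]
    congr 1
    ext g
    simp only [f, Finset.mem_filter, Finset.mem_univ, true_and, Nat.cast_eq_zero]
    rw [Nat.card_eq_fintype_card, Fintype.card_eq_zero_iff]
    exact ⟨fun h ω hω => h.false ⟨ω, hω⟩, fun h => ⟨fun x => h x.1 x.2⟩⟩
  have hfle : ∀ g : G, f g ≤ n := fun g => by
    simp only [f, hn', Nat.cast_le, ← Nat.card_eq_fintype_card]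
    exact Finite.card_subtype_le _
  have hterm : ∀ g : G, 0 ≤ (f g - 1) * ((n : ℤ) - f g) + (if f g = 0 then (n : ℤ) else 0) := by
    intro g
    split_ifs with h
    · rw [h]; ring_nf; exact le_refl _
    · have : 0 ≤ f g := by simp [f]
      have h1' : 1 ≤ f g := by omega
      nlinarith [hfle g]
  have hT : ∑ g : G, ((f g - 1) * ((n : ℤ) - f g) + (if f g = 0 then (n : ℤ) else 0))
      = (n : ℤ) * D - ((r : ℤ) - 1) * Nat.card G := by
    rw [Finset.sum_add_distrib, hsum, Finset.sum_ite, Finset.sum_const, Finset.sum_const_zero, hDf,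
      nsmul_eq_mul]
    ring
  have hge : ((r : ℤ) - 1) * Nat.card G ≤ (n : ℤ) * D := by
    have := Finset.sum_nonneg (s := Finset.univ) (fun g _ => hterm g)
    linarith
  rcases Nat.lt_or_ge (Nat.card G) (n * D) with hlt | hle
  · exact Or.inr hlt
  left
  have hGpos : (0 : ℤ) < Nat.card G := by exact_mod_cast Nat.card_pos
  have hleZ : (n : ℤ) * D ≤ Nat.card G := by exact_mod_cast hle
  have hr' : r = 2 := by
    have : ((r : ℤ) - 1) * Nat.card G ≤ 1 * Nat.card G := by linarith
    have := le_of_mul_le_mul_right this hGpos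
    omega
  have heq : n * D = Nat.card G := by
    rw [hr'] at hge
    push_cast at hge
    have : (Nat.card G : ℤ) ≤ (n : ℤ) * D := by linarith
    have : Nat.card G ≤ n * D := by exact_mod_cast this
    omega
  have hzero : ∀ g : G, (f g - 1) * ((n : ℤ) - f g) + (if f g = 0 then (n : ℤ) else 0) = 0 := by
    intro g
    refine (Finset.sum_eq_zero_iff_of_nonneg (fun g _ => hterm g)).mp ?_ g (Finset.mem_univ _)
    rw [hT, hr']
    have : ((n : ℤ) * D) = Nat.card G := by exact_mod_cast heq
    push_cast; linarith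
  have hfix : ∀ g : G, g ≠ 1 → Nat.card (MulAction.fixedBy Ω g) ≤ 1 := by
    intro g hg
    have h := hzero g
    by_contra hc
    have h0 : f g ≠ 0 := by simp only [f, ne_eq, Nat.cast_eq_zero]; omega
    rw [if_neg h0, add_zero] at h
    rcases mul_eq_zero.mp h with h' | h'
    · simp only [f] at h'; omega
    · apply hg
      have hall : MulAction.fixedBy Ω g = Set.univ := by
        apply Set.eq_of_subset_of_ncard_le (Set.subset_univ _) ?_ Set.finite_univ
        rw [Set.ncard_univ, Nat.card_eq_fintype_card, ← Nat.card_coe_set_eq]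
        simp only [f] at h'
        omega
      refine eq_of_smul_eq_smul fun ω : Ω => ?_
      rw [one_smul]
      exact (Set.eq_univ_iff_forall.mp hall) ω
  have hG : Nat.card G = n * (n - 1) := card_eq_of_regular_pairs hn hr' hfix
  refine ⟨⟨inferInstance, ?_, hfix⟩, hG, heq⟩
  obtain ⟨ω⟩ := hne
  have hstab : 1 < Nat.card (MulAction.stabilizer G ω) := by
    have e := Subgroup.card_mul_index (MulAction.stabilizer G ω)
    rw [MulAction.index_stabilizer_of_transitive, Nat.card_eq_fintype_card (α := Ω), ← hn', hG, mul_comm n] at e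
    have := Nat.eq_of_mul_eq_mul_right (by omega) e
    omega
  obtain ⟨g, hg, hg1⟩ := (Set.one_lt_ncard_iff_nontrivial.mp
    (show 1 < ((MulAction.stabilizer G ω : Set G)).ncard by rwa [← Nat.card_coe_set_eq])).exists_ne 1
  exact ⟨g, hg1, ω, hg⟩

end Cfsg.Agent.S5729
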