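import Cfsg.Statements.S5730
import Cfsg.Agent.H6.Derange.Bound

set_option autoImplicit false
open Cfsg

namespace Cfsg.Agent.S5730

open Cfsg.Agent.H6.Derange MulAction

/-- Let a finite group G act faithfully and transitively on a set with n ≥ 7 points. Then either G is a Frobenius permutation group (Frobenius as a permutation group: transitive, some non-identity element fixes a point, and no non-identity element fixes two points) of order n(n − 1)/a with a ∈ {1, 2}, in which case exactly a|G|/n of its elements are derangements, or the number of derangements is at least 2|G|/n. (Equality does occur: PSL₃(2) acting on the 7 points of the Fano plane has exactly 2|G|/7 derangements.) -/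
theorem result {G Ω : Type*} [Group G] [Finite G] [MulAction G Ω] [FaithfulSMul G Ω] [Fintype Ω] (htr : MulAction.IsPretransitive G Ω) (hn : 7 ≤ Fintype.card Ω) :
    (∃ a : ℕ, (a = 1 ∨ a = 2) ∧ (MulAction.IsPretransitive G Ω ∧ (∃ g : G, g ≠ 1 ∧ ∃ ω : Ω, g • ω = ω) ∧ ∀ g : G, g ≠ 1 → Nat.card (MulAction.fixedBy Ω g) ≤ 1) ∧ a * Nat.card G = Fintype.card Ω * (Fintype.card Ω - 1) ∧ Fintype.card Ω * Nat.card {g : G // ∀ ω : Ω, g • ω ≠ ω} = a * Nat.card G) ∨
    2 * Nat.card G ≤ Fintype.card Ω * Nat.card {g : G // ∀ ω : Ω, g • ω ≠ ω} := by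
  classical
  have := Fintype.ofFinite G
  have : Nonempty Ω := Fintype.card_pos_iff.1 (by omega)
  rcases rank_cases (G := G) (Ω := Ω) (by omega) with hr | ⟨hr, htwo⟩
  · exact Or.inr (bound_of_rank_three hr)
  obtain ⟨a, b, hab⟩ := Fintype.exists_pair_of_one_lt_card (show 1 < Fintype.card Ω by omega)
  have hid := derangement_identity (G := G) (Ω := Ω)
  rw [error_term htwo hab, hr] at hid
  have hG := card_group htwo hab
  have hGq : (Nat.card G : ℚ) =
      (Fintype.card Ω : ℚ) * ((Fintype.card Ω : ℚ) - 1) * Nat.card (pairStab G a b) := by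
    rw [hG]
    push_cast [Nat.cast_sub (show 1 ≤ Fintype.card Ω by omega)]
    rfl
  have hpos : ∀ g : pairStab G a b, (0 : ℚ) < fx Ω (g : G) := fun g => by
    rw [Nat.cast_pos, fx]
    exact Nat.card_pos_iff.2 ⟨⟨a, g.2.1⟩, inferInstance⟩
  by_cases hm : Nat.card (pairStab G a b) = 1
  · -- sharply doubly transitive
    left
    rw [hm, mul_one] at hG
    have : Subsingleton (pairStab G a b) := (Nat.card_eq_one_iff_unique.1 hm).1
    have hS : ∑ g : pairStab G a b, wt Ω (g : G) = 0 := Finset.sum_eq_zero fun g _ => by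
      rw [Subsingleton.elim g 1, wt, OneMemClass.coe_one, fx_eq_card_iff.2 rfl, sub_self, zero_div]
    rw [hS, mul_zero, add_zero] at hid
    norm_num [-Nat.card_eq_fintype_card] at hid
    refine ⟨1, Or.inl rfl, ⟨htr, ?_, fun g hg => ?_⟩, by rw [one_mul, hG], by
      rw [one_mul]; exact_mod_cast hid⟩
    · have h := Nat.card_congr (orbitProdStabilizerEquivGroup G a)
      rw [Nat.card_prod, orbit_eq_univ, Nat.card_univ, Nat.card_eq_fintype_card, hG] at h
      have h1 := Nat.eq_of_mul_eq_mul_left (by omega) h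
      have : Nontrivial (stabilizer G a) := Finite.one_lt_card_iff_nontrivial.1 (by omega)
      obtain ⟨⟨g, hg⟩, hg1⟩ := exists_ne (1 : stabilizer G a)
      exact ⟨g, fun e => hg1 (Subtype.ext e), a, hg⟩
    · by_contra hlt
      obtain ⟨⟨x, hx⟩, ⟨y, hy⟩, hxy⟩ :=
        (Finite.one_lt_card_iff_nontrivial.1 (not_le.1 hlt)).exists_pair_ne
      have h1 : Nat.card (pairStab G x y) = 1 :=
        (card_pairStab_eq htwo hab (fun e => hxy (Subtype.ext e))).symm.trans hm
      have := (Nat.card_eq_one_iff_unique.1 h1).1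
      exact hg (congrArg Subtype.val (Subsingleton.elim (⟨g, hx, hy⟩ : pairStab G x y) 1))
  · right
    have hm2 : 2 ≤ Nat.card (pairStab G a b) := by
      have : 0 < Nat.card (pairStab G a b) := Nat.card_pos
      omega
    have hS := sum_bound htwo hn hab hm2
    have hwt : ∑ g : pairStab G a b, wt Ω (g : G) =
        (∑ g : pairStab G a b, (Fintype.card Ω : ℚ) / fx Ω (g : G)) - Nat.card (pairStab G a b) := by
      simp only [wt]
      rw [Finset.sum_congr rfl (fun (g : pairStab G a b) (_ : g ∈ Finset.univ) => show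
          ((Fintype.card Ω : ℚ) - fx Ω (g : G)) / fx Ω (g : G) =
            (Fintype.card Ω : ℚ) / fx Ω (g : G) - 1 by rw [sub_div, div_self (hpos g).ne']),
        Finset.sum_sub_distrib, Finset.sum_const, Finset.card_univ, nsmul_eq_mul, mul_one,
        Nat.card_eq_fintype_card (α := pairStab G a b)]
    rw [hwt] at hid
    have hn7 : (7 : ℚ) ≤ Fintype.card Ω := by exact_mod_cast hn
    have hN : (0 : ℚ) ≤ (Fintype.card Ω : ℚ) * ((Fintype.card Ω : ℚ) - 1) :=
      mul_nonneg (by linarith) (by linarith)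
    have key : ((2 * Nat.card G : ℕ) : ℚ) ≤
        ((Fintype.card Ω * Nat.card {g : G // ∀ ω : Ω, g • ω ≠ ω} : ℕ) : ℚ) := by
      rw [hid, Nat.cast_mul, Nat.cast_ofNat, hGq]
      push_cast
      nlinarith [mul_le_mul_of_nonneg_left hS hN]
    exact_mod_cast key

end Cfsg.Agent.S5730
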