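import Cfsg.Statements.S5736
import Cfsg.Agent.H6.Binary.Main
-- import your own Cfsg.Agent.* helpers here

set_option autoImplicit false
open Cfsg

namespace Cfsg.Agent.S5736

open Cfsg.Agent.H6 Cfsg.Agent.H6.Bin Matrix MatrixGroups

variable {F : Type*} [Field F] [Fintype F]

lemma two_zero_iff : (2 : F) = 0 ↔ ∃ a : ℕ, Fintype.card F = 2 ^ a := by
  constructor
  · intro h
    obtain ⟨p, hpc⟩ := CharP.exists F
    obtain ⟨a, hp, ha⟩ := FiniteField.card F p
    refine ⟨a, ?_⟩
    have : p ∣ 2 := (CharP.cast_eq_zero_iff F p 2).1 (by exact_mod_cast h)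
    rw [ha, (Nat.prime_dvd_prime_iff_eq hp Nat.prime_two).1 this]
  · rintro ⟨a, ha⟩
    have := Fact.mk Nat.prime_two
    have : CharP F 2 := charP_of_card_eq_prime_pow ha
    simpa using CharP.cast_eq_zero F 2

lemma noCubeRoot_iff (h2 : (2 : F) = 0) {a : ℕ} (ha : Fintype.card F = 2 ^ a) :
    NoCubeRoot F ↔ Odd a := by
  classical
  have hu : Nat.card Fˣ = 2 ^ a - 1 := by rw [Nat.card_units, Nat.card_eq_fintype_card, ha]
  have hmod : ∀ j : ℕ, 2 ^ (2 * j) % 3 = 1 := fun j => by
    rw [pow_mul, Nat.pow_mod]; norm_num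
  constructor
  · intro h
    by_contra hodd
    obtain ⟨j, hj⟩ := even_iff_two_dvd.1 (Nat.not_odd_iff_even.1 hodd)
    have h3 : 3 ∣ Nat.card Fˣ := by rw [hu, hj]; have := hmod j; omega
    have := Fact.mk Nat.prime_three
    obtain ⟨w, hw⟩ := exists_prime_orderOf_dvd_card' 3 h3
    have hw3 : (w : F) ^ 3 = 1 := by
      rw [← Units.val_pow_eq_pow_val, ← hw, pow_orderOf_eq_one, Units.val_one]
    have hw1 : (w : F) - 1 ≠ 0 := fun e => by
      rw [show w = 1 from Units.ext (sub_eq_zero.1 e), orderOf_one] at hw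
      omega
    exact h (w : F) ((mul_eq_zero.1 (show ((w : F) - 1) * ((w : F) ^ 2 + (w : F) + 1) = 0 by
      linear_combination hw3)).resolve_left hw1)
  · rintro ⟨j, rfl⟩ w hw
    have hw0 : w ≠ 0 := fun e => by simp [e] at hw
    set u := Units.mk0 w hw0
    have hu3 : u ^ 3 = 1 := Units.ext (by simp [u]; linear_combination (w - 1) * hw)
    have hu1 : u ≠ 1 := fun e => by
      have : w = 1 := congrArg Units.val e
      rw [this] at hw
      exact one_ne_zero (α := F) (by linear_combination hw - h2)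
    have := Fact.mk Nat.prime_three
    have h3 := orderOf_eq_prime hu3 hu1
    have hd := orderOf_dvd_natCard u
    rw [h3, hu, pow_succ] at hd
    have := hmod j
    omega


/-- Let F be a finite field with q ≥ 4 elements, q ≠ 5, let G = PSL₂(F) and let H be a proper subgroup of G. Then the action of G on the cosets of H is binary if and only if H is trivial, or q is a power of 2 and H is a Sylow 2-subgroup, or q = 2^a with a odd and H has order 3. Here an action is binary (relational complexity 2) when, for every n ≥ 2 and all n-tuples I, J of points, if for every pair of positions some group element carries the corresponding pair of entries of I to those of J, then a single group element carries I to J. -/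
theorem result {F : Type*} [Field F] [Fintype F] (h4 : 4 ≤ Fintype.card F) (h5 : Fintype.card F ≠ 5)
    (H : Subgroup (Matrix.ProjectiveSpecialLinearGroup (Fin 2) F)) (hH : H ≠ ⊤) :
    (∀ (n : ℕ) (I J : Fin n → Matrix.ProjectiveSpecialLinearGroup (Fin 2) F ⧸ H), 2 ≤ n →
        (∀ i j : Fin n, i ≠ j → ∃ g : Matrix.ProjectiveSpecialLinearGroup (Fin 2) F, g • I i = J i ∧ g • I j = J j) → ∃ g : Matrix.ProjectiveSpecialLinearGroup (Fin 2) F, ∀ i, g • I i = J i) ↔
      (H = ⊥ ∨ ((∃ a : ℕ, Fintype.card F = 2 ^ a) ∧ ∃ P : Sylow 2 (Matrix.ProjectiveSpecialLinearGroup (Fin 2) F), H = P) ∨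
        ((∃ a : ℕ, Odd a ∧ Fintype.card F = 2 ^ a) ∧ Nat.card H = 3)) := by
  classical
  change IsBin H ↔ _
  set q := Fintype.card F with hq
  constructor
  · intro hb
    by_cases hbot : H = ⊥
    · exact Or.inl hbot
    refine Or.inr ?_
    by_cases hev : Nat.card H % 2 = 0
    · obtain ⟨x₀, hx₀⟩ := exists_prime_orderOf_dvd_card' (G := H) (hp := ⟨Nat.prime_two⟩) 2
        (Nat.dvd_of_mod_eq_zero hev)
      rw [← Subgroup.orderOf_coe] at hx₀
      by_cases h2 : (2 : F) = 0
      · obtain ⟨p, hpc⟩ := CharP.exists F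
        have := Fact.mk (CharP.char_is_prime F p)
        refine Or.inl ⟨two_zero_iff.1 h2, ?_⟩
        by_cases hU : ∃ c, Uinf F ≤ cj c H
        · obtain ⟨c, hc⟩ := hU
          have hne : cj c H ≠ ⊤ := fun e => hH (Subgroup.eq_top_of_card_eq H (by
            rw [← card_cj c H, e, Subgroup.card_top]))
          by_cases hle : cj c H ≤ Uinf F
          · have e : cj c H = Uinf F := le_antisymm hle hc
            have hcharp : p = 2 := by
              have : p ∣ 2 := (CharP.cast_eq_zero_iff F p 2).1 (by exact_mod_cast h2)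
              exact (Nat.prime_dvd_prime_iff_eq (Fact.out) Nat.prime_two).1 this
            subst hcharp
            obtain ⟨P, hP⟩ := exists_sylow_Uinf (F := F) 2
            refine ⟨c⁻¹ • P, ?_⟩
            show H = cj c⁻¹ (P : Subgroup _)
            rw [hP, ← e]
            rw [cj_cj, inv_mul_cancel, cj_one]
          · exact absurd (hb.cj_bin c) (not_bin_borel hc (le_borel_of_Uinf_le hc hne) hle)
        · exfalso
          push Not at hU
          have hns : ¬ IsSS (x₀ : Matrix.ProjectiveSpecialLinearGroup (Fin 2) F) := by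
            rintro ⟨g, hg, ht⟩
            have hgg : g * g = 1 := π_injective_of_two h2 (by
              rw [map_mul, map_one, hg]; exact mul_self_of_inv hx₀)
            apply ht
            rw [(mul_self_eq_one_iff_two h2).1 hgg]
            linear_combination -2 * h2
          have hx1 : (x₀ : Matrix.ProjectiveSpecialLinearGroup (Fin 2) F) ≠ 1 := fun e => by
            rw [e, orderOf_one] at hx₀; omega
          obtain ⟨c, hc⟩ := exists_conj_Uinf hx1 hns
          have hm : c * x₀ * c⁻¹ ∈ Uinf F := hc ▸ ⟨_, self_mem_mx _, rfl⟩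
          obtain ⟨b, hb'⟩ := mem_Uinf.1 hm
          have hb0 : b ≠ 0 := fun e => hx1 (conj_eq_one_iff.1 (by rw [← hb', e, up_zero, map_one]))
          obtain ⟨d, hd⟩ := exists_diag_up h2 hb0 one_ne_zero
          have h1 : π (up (1 : F)) ∈ cj (d * c) H := by
            have h1 := hd b
            rw [div_mul_cancel₀ _ hb0] at h1
            rw [← h1, hb']
            exact ⟨x₀, x₀.2, by simp [mul_assoc]⟩
          refine not_bin_even h2 h1 (fun c' => ?_) (hb.cj_bin _)
          rw [cj_cj]; exact hU _
      · exfalso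
        refine not_bin_inv hq.symm h2 ?_ hH x₀.2 hx₀ hb
        have := odd_of_two_ne hq.symm h2
        omega
    · obtain ⟨h2, h3, hw⟩ := odd_order_bin (by omega) hbot hb
      obtain ⟨a, ha⟩ := two_zero_iff.1 h2
      exact Or.inr ⟨⟨a, (noCubeRoot_iff h2 ha).1 hw, ha⟩, h3⟩
  · rintro (rfl | ⟨hp, P, rfl⟩ | ⟨⟨a, hodd, ha⟩, h3⟩)
    · exact isBin_bot
    · have h2 : (2 : F) = 0 := two_zero_iff.2 hp
      obtain ⟨a, ha⟩ := hp
      have := Fact.mk Nat.prime_two
      have : CharP F 2 := charP_of_card_eq_prime_pow ha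
      obtain ⟨P₀, hP₀⟩ := exists_sylow_Uinf (F := F) 2
      obtain ⟨c, hc⟩ := MulAction.exists_smul_eq (Matrix.ProjectiveSpecialLinearGroup (Fin 2) F) P₀ P
      have : (P : Subgroup (Matrix.ProjectiveSpecialLinearGroup (Fin 2) F)) = cj c (Uinf F) := by
        rw [← hc, ← hP₀]; rfl
      rw [this]
      exact (isBin_Uinf h2).cj_bin c
    · exact isBin_three (two_zero_iff.2 ⟨a, ha⟩) ((noCubeRoot_iff (two_zero_iff.2 ⟨a, ha⟩) ha).2 hodd) h3

end Cfsg.Agent.S5736
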