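import Cfsg.Statements.S5737
import Cfsg.Agent.H8.SzBinary

set_option autoImplicit false
open Cfsg

namespace Cfsg.Agent.S5737

open Cfsg.Agent.H7 in
theorem map_center {G K : Type*} [Group G] [Group K] (e : G ≃* K) (P : Subgroup G) :
    (Subgroup.center (P.map e.toMonoidHom)).map (P.map e.toMonoidHom).subtype =
      ((Subgroup.center P).map P.subtype).map e.toMonoidHom := by
  rw [H8.SzSub.center_map_subtype, H8.SzSub.center_map_subtype]
  ext x
  simp only [Subgroup.mem_inf, Subgroup.mem_map_equiv, Subgroup.mem_centralizer_iff]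
  refine and_congr_right fun _ => ⟨fun h y hy => ?_, fun h y hy => ?_⟩
  · have := h (e y) (Subgroup.mem_map_of_mem e.toMonoidHom hy)
    simpa using congrArg e.symm this
  · have := h (e.symm y) (Subgroup.mem_map_equiv.1 hy)
    simpa using congrArg e this


theorem map_center_of_eq {G K : Type*} [Group G] [Group K] (e : G ≃* K) {P : Subgroup G} {P' : Subgroup K}
    (hP : P' = P.map e.toMonoidHom) :
    (Subgroup.center P').map P'.subtype = ((Subgroup.center P).map P.subtype).map e.toMonoidHom := by
  subst hP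
  exact map_center e P

/-- Let G = Sz(q) be a Suzuki group, q = 2^(2a+1) with a ≥ 1 (realised inside Sp₄ over the field with q elements), and let H be a proper subgroup of G. Then the action of G on the cosets of H is binary if and only if H is trivial or H is the centre of a Sylow 2-subgroup of G. Here an action is binary (relational complexity 2) when, for every n ≥ 2 and all n-tuples I, J of points, if for every pair of positions some group element carries the corresponding pair of entries of I to those of J, then a single group element carries I to J. -/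
theorem result {F : Type*} [Field F] [Fintype F] (a : ℕ) (ha : 1 ≤ a) (hF : Fintype.card F = 2 ^ (2 * a + 1))
    (H : Subgroup (Cfsg.Lie.Sz F (2 ^ (a + 1)))) (hH : H ≠ ⊤) :
    (∀ (n : ℕ) (I J : Fin n → (Cfsg.Lie.Sz F (2 ^ (a + 1))) ⧸ H), 2 ≤ n →
        (∀ i j : Fin n, i ≠ j → ∃ g : (Cfsg.Lie.Sz F (2 ^ (a + 1))), g • I i = J i ∧ g • I j = J j) → ∃ g : (Cfsg.Lie.Sz F (2 ^ (a + 1))), ∀ i, g • I i = J i) ↔
      (H = ⊥ ∨ ∃ P : Sylow 2 (Cfsg.Lie.Sz F (2 ^ (a + 1))), H = (Subgroup.center (P : Subgroup (Cfsg.Lie.Sz F (2 ^ (a + 1))))).map (P : Subgroup (Cfsg.Lie.Sz F (2 ^ (a + 1)))).subtype) := by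
  classical
  have h := H7.SzHyp.of_fintype (m := a) ha hF
  set e := h.lieEquiv with he
  rw [H8.binaryOn_iff]
  set M := H.map e.symm.toMonoidHom with hMdef
  have hMH : M.map e.toMonoidHom = H := by
    rw [hMdef, Subgroup.map_map]
    convert Subgroup.map_id H using 2
    ext x
    simp
  have hM : M ≠ ⊤ := fun hM => hH (by
    rw [← hMH, hM, Subgroup.map_top_of_surjective _ e.surjective])
  have hbin : H8.BinaryOn H ↔ H8.BinaryOn M :=
    ⟨fun hb => hb.map e.symm, fun hb => hMH ▸ hb.map e⟩
  rw [hbin, H8.SzSub.binaryOn_classification h hM]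
  have h0 : (Subgroup.center h.Q).map h.Q.subtype = H8.SzSub.Q0 h := by
    ext u
    constructor
    · rintro ⟨v, hv, rfl⟩
      exact (h.mem_center_Q v).1 hv
    · intro hu
      exact ⟨⟨u, H8.SzSub.Q0_le_Q h hu⟩, (h.mem_center_Q _).2 hu, rfl⟩
  refine or_congr ⟨fun hb => ?_, fun hb => ?_⟩ ⟨?_, ?_⟩
  · rw [← hMH, hb, Subgroup.map_bot]
  · rw [hMdef, hb, Subgroup.map_bot]
  · rintro ⟨g, hg⟩
    haveI := h.finite_Sz
    refine ⟨(g • h.sylowQ).mapSurjective (f := e.toMonoidHom) e.surjective, ?_⟩
    rw [← hMH, hg]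
    refine ((map_center_of_eq e (P := h.Q.map (MulAut.conj g).toMonoidHom) ?_).trans ?_).symm
    · show ((g • h.sylowQ : Sylow 2 _) : Subgroup _).map e.toMonoidHom = _
      rw [Sylow.coe_subgroup_smul, h.coe_sylowQ]
      rfl
    · rw [map_center, h0]
  · rintro ⟨P, hP⟩
    haveI := h.finite_Sz
    obtain ⟨g, hg⟩ := H8.SzSub.center_sylow h (P.mapSurjective (f := e.symm.toMonoidHom) e.symm.surjective)
    have hg' := (map_center_of_eq e.symm (P := (P : Subgroup _))
      (P' := (P.mapSurjective (f := e.symm.toMonoidHom) e.symm.surjective : Sylow 2 _)) rfl).symm.trans hg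
    exact ⟨g, by rw [hMdef, hP, hg']⟩

end Cfsg.Agent.S5737
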