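import Cfsg.Statements.S5738
-- import your own Cfsg.Agent.* helpers here

set_option autoImplicit false
set_option linter.style.haveILetI false
set_option linter.unusedSectionVars false
open Cfsg

namespace Cfsg.Agent.S5738

/-- Let F ⊆ K be finite fields with |F| = q and [K : F] = n ≥ 2, so |K| = q^n. Regard K as an n-dimensional F-vector space; the multiplications by non-zero elements of K form a cyclic subgroup of GL_F(K) of order q^n − 1 acting regularly on the non-zero vectors (a Singer group). Its normaliser in GL_F(K) has order n·(q^n − 1). -/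
theorem result {F K : Type*} [Field F] [Fintype F] [Field K] [Fintype K] [Algebra F K] (n : ℕ) (hn : 2 ≤ n) (hdim : Module.finrank F K = n) :
    Nat.card (Subgroup.normalizer (((Units.map ((Algebra.lmul F K : K →ₐ[F] Module.End F K) : K →* Module.End F K)).range : Subgroup (Module.End F K)ˣ) : Set (Module.End F K)ˣ)) = n * (Fintype.card K - 1) := by
  classical
  let toU : Kˣ →* (Module.End F K)ˣ := Units.map ((Algebra.lmul F K : K →ₐ[F] Module.End F K) : K →* Module.End F K)
  change Nat.card (Subgroup.normalizer ((toU.range : Subgroup _) : Set (Module.End F K)ˣ)) = _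
  let galU : (K ≃ₐ[F] K) → (Module.End F K)ˣ := fun σ =>
    ⟨σ.toLinearMap, σ.symm.toLinearMap, LinearMap.ext fun x => σ.apply_symm_apply x,
      LinearMap.ext fun x => σ.symm_apply_apply x⟩
  have happ : ∀ (k : Kˣ) (x : K), (toU k : Module.End F K) x = k * x := fun k x => rfl
  have hgapp : ∀ (σ : K ≃ₐ[F] K) (x : K), (galU σ : Module.End F K) x = σ x := fun σ x => rfl
  have hconj : ∀ (σ : K ≃ₐ[F] K) (k : Kˣ),
      galU σ * toU k = toU (Units.map σ.toAlgHom.toRingHom.toMonoidHom k) * galU σ := by
    intro σ k; ext x
    change σ ((k : K) * x) = σ (k : K) * σ x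
    exact map_mul σ _ _
  have hmem : ∀ (k : Kˣ) (σ : K ≃ₐ[F] K),
      toU k * galU σ ∈ Subgroup.normalizer ((toU.range : Subgroup _) : Set (Module.End F K)ˣ) := by
    intro k σ
    refine mul_mem (Subgroup.le_normalizer ⟨k, rfl⟩) ?_
    rw [Subgroup.mem_normalizer_iff]
    intro x
    constructor
    · rintro ⟨j, rfl⟩
      exact ⟨Units.map σ.toAlgHom.toRingHom.toMonoidHom j, by rw [hconj, mul_inv_cancel_right]⟩
    · rintro ⟨j, hj⟩
      refine ⟨Units.map σ.symm.toAlgHom.toRingHom.toMonoidHom j, ?_⟩
      apply mul_left_cancel (a := galU σ)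
      rw [hconj, ← Units.val_inj] at *
      have e : Units.map σ.toAlgHom.toRingHom.toMonoidHom (Units.map σ.symm.toAlgHom.toRingHom.toMonoidHom j) = j :=
        Units.ext (σ.apply_symm_apply (j : K))
      rw [e, Units.val_inj]
      rw [Units.val_inj] at hj
      rw [hj, inv_mul_cancel_right]
  let F' : Kˣ × (K ≃ₐ[F] K) → Subgroup.normalizer ((toU.range : Subgroup _) : Set (Module.End F K)ˣ) :=
    fun p => ⟨toU p.1 * galU p.2, hmem p.1 p.2⟩
  have hbij : Function.Bijective F' := by
    constructor
    · rintro ⟨k, σ⟩ ⟨k', σ'⟩ h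
      have h' : ∀ x, (k : K) * σ x = k' * σ' x := fun x =>
        congrArg (fun u : (Module.End F K)ˣ => (u : Module.End F K) x) (congrArg Subtype.val h)
      have hk : k = k' := Units.ext (by simpa using h' 1)
      refine Prod.ext hk (AlgEquiv.ext fun x => ?_)
      have := h' x
      rw [hk] at this
      exact mul_left_cancel₀ k'.ne_zero this
    · rintro ⟨g, hg⟩
      have hg0 : (g : Module.End F K) 1 ≠ 0 := by
        intro h
        have : ((g⁻¹ : (Module.End F K)ˣ) : Module.End F K) ((g : Module.End F K) 1) = 1 := by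
          rw [← Module.End.mul_apply, ← Units.val_mul, inv_mul_cancel]; rfl
        rw [h, map_zero] at this
        exact zero_ne_one this
      set u : Kˣ := Units.mk0 _ hg0 with hu
      set g' := (toU u)⁻¹ * g with hg'
      have hgN : g' ∈ Subgroup.normalizer ((toU.range : Subgroup _) : Set (Module.End F K)ˣ) :=
        mul_mem (inv_mem (Subgroup.le_normalizer ⟨u, rfl⟩)) hg
      have h1 : (g' : Module.End F K) 1 = 1 := by
        rw [hg', ← map_inv, Units.val_mul, Module.End.mul_apply, happ]
        exact u.inv_mul
      have hmul : ∀ x y : K, (g' : Module.End F K) (x * y) = (g' : Module.End F K) x * (g' : Module.End F K) y := by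
        intro x y
        rcases eq_or_ne x 0 with rfl | hx
        · simp
        obtain ⟨j, hj⟩ := (Subgroup.mem_normalizer_iff.mp hgN (toU (Units.mk0 x hx))).mp ⟨_, rfl⟩
        have hj' : toU j * g' = g' * toU (Units.mk0 x hx) := by rw [hj, inv_mul_cancel_right]
        have e : ∀ z : K, (j : K) * (g' : Module.End F K) z = (g' : Module.End F K) (x * z) := fun z =>
          congrArg (fun w : (Module.End F K)ˣ => (w : Module.End F K) z) hj'
        have ej := e 1
        rw [h1, mul_one, mul_one] at ej
        rw [← e y, ej]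
      have hbij : Function.Bijective (g' : Module.End F K) := ((Module.End.isUnit_iff _).mp g'.isUnit)
      let σ : K ≃ₐ[F] K := AlgEquiv.ofBijective
        (AlgHom.ofLinearMap (g' : Module.End F K) h1 hmul) hbij
      refine ⟨(u, σ), Subtype.ext ?_⟩
      have : galU σ = g' := Units.ext (LinearMap.ext fun x => rfl)
      change toU u * galU σ = g
      rw [this, hg', mul_inv_cancel_left]
  rw [← Nat.card_congr (Equiv.ofBijective F' hbij), Nat.card_prod, Nat.card_units, IsGalois.card_aut_eq_finrank,
    hdim, Nat.card_eq_fintype_card, mul_comm]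

end Cfsg.Agent.S5738
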