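import Cfsg.Statements.S5739
-- import your own Cfsg.Agent.* helpers here

set_option autoImplicit false
set_option linter.style.haveILetI false
set_option linter.unusedSectionVars false
open Cfsg

namespace Cfsg.Agent.S5739

/-- Let F ⊆ K be finite fields with |F| = q and [K : F] = n ≥ 2, and let M ≤ GL_F(K) be the Singer group of multiplications by non-zero elements of K. If g ∈ GL_F(K) does not normalise M, then the order of M ∩ gMg⁻¹ divides q^r − 1 for some proper divisor r of n. In particular, when n is prime, that order divides q − 1. -/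
theorem result {F K : Type*} [Field F] [Fintype F] [Field K] [Fintype K] [Algebra F K] (n : ℕ) (hn : 2 ≤ n) (hdim : Module.finrank F K = n)
    (g : (Module.End F K)ˣ) (hg : ((Units.map ((Algebra.lmul F K : K →ₐ[F] Module.End F K) : K →* Module.End F K)).range).map (MulAut.conj g).toMonoidHom ≠ (Units.map ((Algebra.lmul F K : K →ₐ[F] Module.End F K) : K →* Module.End F K)).range) :
    ∃ r : ℕ, 1 ≤ r ∧ r ∣ n ∧ r < n ∧ Nat.card ↥(((Units.map ((Algebra.lmul F K : K →ₐ[F] Module.End F K) : K →* Module.End F K)).range).map (MulAut.conj g).toMonoidHom ⊓ (Units.map ((Algebra.lmul F K : K →ₐ[F] Module.End F K) : K →* Module.End F K)).range) ∣ Fintype.card F ^ r - 1 := by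
  classical
  let toU : Kˣ →* (Module.End F K)ˣ := Units.map ((Algebra.lmul F K : K →ₐ[F] Module.End F K) : K →* Module.End F K)
  change toU.range.map (MulAut.conj g).toMonoidHom ≠ toU.range at hg
  change ∃ r : ℕ, 1 ≤ r ∧ r ∣ n ∧ r < n ∧
    Nat.card ↥(toU.range.map (MulAut.conj g).toMonoidHom ⊓ toU.range) ∣ Fintype.card F ^ r - 1
  set A := toU.range.map (MulAut.conj g).toMonoidHom ⊓ toU.range with hA
  set B : Subgroup Kˣ := A.comap toU with hB
  have hinj : Function.Injective toU := fun a b h =>
    Units.ext (by simpa [toU] using congrArg (fun u : (Module.End F K)ˣ => (u : Module.End F K) 1) h)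
  have hBA : Nat.card B = Nat.card A := by
    rw [hB, ← Subgroup.card_map_of_injective hinj, Subgroup.map_comap_eq, inf_eq_right.mpr inf_le_right]
  set L := IntermediateField.adjoin F ((fun u : Kˣ => (u : K)) '' (B : Set Kˣ)) with hL
  by_cases htop : L = ⊤
  · exfalso
    apply hg
    have hsub : toU.range.map (MulAut.conj g).toMonoidHom ≤ toU.range := by
      rintro c hc
      have hcomm : ∀ b ∈ B, Commute (toU b) c := by
        intro b hb
        obtain ⟨x, ⟨i, rfl⟩, hx⟩ := (hb : toU b ∈ A).1
        obtain ⟨y, ⟨j, rfl⟩, rfl⟩ := hc
        rw [← hx]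
        exact ((Commute.all i j).map toU).map _
      -- the elements of `K` commuting with `c` form a subfield
      let S : Subalgebra F K :=
        { carrier := {x : K | ∀ y, (c : Module.End F K) (x * y) = x * (c : Module.End F K) y}
          mul_mem' := fun {a b} ha hb y => by rw [mul_assoc, ha, hb, mul_assoc]
          add_mem' := fun {a b} ha hb y => by rw [add_mul, map_add, ha, hb, add_mul]
          algebraMap_mem' := fun r y => by rw [← Algebra.smul_def, map_smul, Algebra.smul_def] }
      let S' : IntermediateField F K := S.toIntermediateField' (Subalgebra.isField_of_algebraic S)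
      have hS : L ≤ S' := by
        rw [hL, IntermediateField.adjoin_le_iff]
        rintro _ ⟨b, hb, rfl⟩
        intro y
        exact (congrArg (fun u : (Module.End F K)ˣ => (u : Module.End F K) y) (hcomm b hb).eq).symm
      have hc1 : ∀ x : K, (c : Module.End F K) x = x * (c : Module.End F K) 1 := by
        intro x
        have : x ∈ S' := hS (htop ▸ IntermediateField.mem_top)
        simpa using (this : ∀ y, _) 1
      have hne : (c : Module.End F K) 1 ≠ 0 := by
        intro h0
        have h1 := ((Module.End.isUnit_iff _).mp c.isUnit).1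
        exact one_ne_zero (h1 (show (c : Module.End F K) 1 = (c : Module.End F K) 0 by rw [h0, map_zero]))
      exact ⟨Units.mk0 _ hne, Units.ext (LinearMap.ext fun x => by
        rw [hc1 x, mul_comm]; rfl)⟩
    exact Subgroup.eq_of_le_of_card_ge hsub
      (le_of_eq (Subgroup.card_map_of_injective (MulAut.conj g).injective).symm)
  · set r := Module.finrank F L with hr
    refine ⟨r, Module.finrank_pos, ?_, ?_, ?_⟩
    · rw [← hdim]
      exact ⟨Module.finrank L K, (Module.finrank_mul_finrank F L K).symm⟩
    · rw [← hdim]
      refine lt_of_le_of_ne (Submodule.finrank_le L.toSubalgebra.toSubmodule) fun h => htop ?_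
      exact IntermediateField.eq_of_le_of_finrank_eq le_top (by rw [← hr, h, IntermediateField.finrank_top'])
    · rw [← hBA]
      have hmem : ∀ b : B, ((b : Kˣ) : K) ∈ L := fun b =>
        IntermediateField.subset_adjoin F _ ⟨b, b.2, rfl⟩
      let φ : B →* (↥L)ˣ :=
        { toFun := fun b => Units.mk0 ⟨((b : Kˣ) : K), hmem b⟩ (fun h => (b : Kˣ).ne_zero (congrArg Subtype.val h))
          map_one' := by ext; rfl
          map_mul' := fun a b => by ext; rfl }
      have hφ : Function.Injective φ := fun a b h =>
        Subtype.ext (Units.ext (congrArg (fun u : (↥L)ˣ => ((u : L) : K)) h))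
      haveI : Fintype L := Fintype.ofFinite _
      have := Subgroup.card_dvd_of_injective φ hφ
      rw [Nat.card_units] at this
      rwa [Nat.card_eq_fintype_card (α := L), Module.card_eq_pow_finrank (K := F) (V := L), ← hr] at this

end Cfsg.Agent.S5739
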