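import Cfsg.Statements.S5746
import Cfsg.Agent.H47.G24J2.G24
import Cfsg.Agent.H50.G2Four.Rep
import Cfsg.Agent.H16.G24Iso
-- import your own Cfsg.Agent.* helpers here

set_option autoImplicit false
open Cfsg

namespace Cfsg.Agent.S5746

/-- The Chevalley group G₂(4) (over the field with 4 elements) has a maximal subgroup H isomorphic to the Hall–Janko group J₂ such that for every x outside H the intersection H ∩ xHx⁻¹ is a maximal subgroup of H; that is, the action of G₂(4) on the cosets of H is extremely primitive. -/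
theorem result {F : Type*} [Field F] [Fintype F] (hF : Fintype.card F = 4) :
    ∃ H : Subgroup (Cfsg.Lie.chevG2.group F), IsCoatom H ∧ Cfsg.Spor.IsoJ2 H ∧
      ∀ x : Cfsg.Lie.chevG2.group F, x ∉ H → IsCoatom ((H ⊓ H.map (MulAut.conj x).toMonoidHom).subgroupOf H) := by
  obtain ⟨e1⟩ := Cfsg.Agent.H50.G2Four.nonempty_equiv hF
  obtain ⟨e2⟩ := Cfsg.Agent.H50.G2Four.nonempty_equiv (F := H16.F4) H16.F4.card_eq
  have hb : Function.Bijective H16.G24Iso.chevHom :=
    (Nat.bijective_iff_injective_and_card _).mpr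
      ⟨H16.G24Iso.chevHom_injective, by rw [H16.G24Order.card_and_faithful.1, H16.G24Iso.card_chev]⟩
  let E : H16.G24U.Grp ≃* ↥(Cfsg.Lie.chevG2.group F) :=
    (MulEquiv.ofBijective _ hb).trans (e2.trans e1.symm)
  let χ : H16.J2U.Grp →* ↥(Cfsg.Lie.chevG2.group F) := E.toMonoidHom.comp H47.G24J2.phi
  have hχ : Function.Injective χ := E.injective.comp H47.G24J2.phi_injective
  have hr : χ.range = E.mapSubgroup H16.G24U.sub := by
    rw [MonoidHom.range_comp, H47.G24J2.phi_range]; rfl
  refine ⟨χ.range, ?_, ⟨(MonoidHom.ofInjective hχ).symm.trans H47.G24J2.equivJ2⟩, fun x hx => ?_⟩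
  · rw [hr]
    exact (E.mapSubgroup.isCoatom_iff _).2 H47.G24J2.sub_isCoatomG
  obtain ⟨x', rfl⟩ := E.surjective x
  have hx' : x' ∉ H16.G24U.sub := fun h => hx (by
    rw [hr]; exact Subgroup.mem_map_of_mem _ h)
  have key : (χ.range.map (MulAut.conj (E x')).toMonoidHom).comap χ =
      (H16.G24U.sub.map (MulAut.conj x').toMonoidHom).comap H47.G24J2.phi := by
    have e : χ.range.map (MulAut.conj (E x')).toMonoidHom =
        (H16.G24U.sub.map (MulAut.conj x').toMonoidHom).map E.toMonoidHom := by
      rw [hr]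
      have gen : ∀ K : Subgroup H16.G24U.Grp,
          (K.map E.toMonoidHom).map (MulAut.conj (E x')).toMonoidHom =
            (K.map (MulAut.conj x').toMonoidHom).map E.toMonoidHom := fun K => by
        rw [Subgroup.map_map, Subgroup.map_map]
        congr 1
        exact MonoidHom.ext fun g => by simp
      exact gen H16.G24U.sub
    rw [e, ← Subgroup.comap_comap, Subgroup.comap_map_eq_self_of_injective E.injective]
  have h := H47.G24J2.comap_conj_isCoatom x' hx'
  rw [← key] at h
  have e2 : (χ.range ⊓ χ.range.map (MulAut.conj (E x')).toMonoidHom).subgroupOf χ.range =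
      (MonoidHom.ofInjective hχ).mapSubgroup
        ((χ.range.map (MulAut.conj (E x')).toMonoidHom).comap χ) := by
    show _ = ((χ.range.map (MulAut.conj (E x')).toMonoidHom).comap χ).map
      (MonoidHom.ofInjective hχ : H16.J2U.Grp ≃* χ.range).toMonoidHom
    ext g
    rw [Subgroup.mem_subgroupOf, Subgroup.mem_inf, Subgroup.mem_map]
    constructor
    · intro h
      refine ⟨(MonoidHom.ofInjective hχ).symm g, ?_, (MonoidHom.ofInjective hχ).apply_symm_apply g⟩
      refine Subgroup.mem_comap.2 ?_
      rw [MonoidHom.apply_ofInjective_symm hχ g]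
      exact Subgroup.mem_map.2 h.2
    · rintro ⟨w, hw, rfl⟩
      exact ⟨⟨w, rfl⟩, Subgroup.mem_map.1 (Subgroup.mem_comap.1 hw)⟩
  rw [e2]
  exact ((MonoidHom.ofInjective hχ).mapSubgroup.isCoatom_iff _).2 h

end Cfsg.Agent.S5746
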