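import Cfsg.Statements.S5747
-- import your own Cfsg.Agent.* helpers here

set_option autoImplicit false
set_option linter.style.haveILetI false
set_option linter.unusedSectionVars false
open Cfsg

namespace Cfsg.Agent.S5747

variable {G Ω : Type*} [Group G] [MulAction G Ω]

/-- Irredundant base of a subgroup, as a list. -/
def Irr : Subgroup G → List Ω → Prop
  | H, [] => H = ⊥
  | H, x :: l => ¬ H ≤ MulAction.stabilizer G x ∧ Irr (H ⊓ MulAction.stabilizer G x) l

/-- The irredundant bases of `H` are closed under reordering. -/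
def PermProp (H : Subgroup G) : Prop := ∀ l l' : List Ω, l.Perm l' → Irr H l → Irr H l'

theorem irr_ofFn : ∀ (H : Subgroup G) {t : ℕ} (f : Fin t → Ω),
    Irr H (List.ofFn f) ↔ ((∀ g : G, g ∈ H → (∀ i : Fin t, g • f i = f i) → g = 1) ∧
      ∀ i : Fin t, ∃ g : G, g ∈ H ∧ (∀ j : Fin t, j < i → g • f j = f j) ∧ g • f i ≠ f i) := by
  intro H t
  induction t generalizing H with
  | zero =>
    intro f
    simp only [List.ofFn_zero, Irr, Subgroup.eq_bot_iff_forall]
    exact ⟨fun h => ⟨fun g hg _ => h g hg, fun i => i.elim0⟩, fun h g hg => h.1 g hg fun i => i.elim0⟩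
  | succ t ih =>
    intro f
    rw [List.ofFn_succ]
    simp only [Irr, ih, Fin.forall_fin_succ, Subgroup.mem_inf, MulAction.mem_stabilizer_iff, and_imp,
      SetLike.le_def, not_forall, exists_prop]
    constructor
    · rintro ⟨⟨g, hg, hg0⟩, h1, h2⟩
      refine ⟨fun g hg h0 h => h1 g hg h0 h, ⟨g, hg, ⟨fun hj => absurd hj (by simp), fun j hj => absurd hj (by simp)⟩, hg0⟩, fun i => ?_⟩
      obtain ⟨g, ⟨hg, hg0⟩, hj, hi⟩ := h2 i
      exact ⟨g, hg, ⟨fun _ => hg0, fun j hj' => hj j (Fin.succ_lt_succ_iff.mp hj')⟩, hi⟩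
    · rintro ⟨h1, ⟨g, hg, -, hg0⟩, h2⟩
      refine ⟨⟨g, hg, hg0⟩, fun g hg h0 h => h1 g hg h0 h, fun i => ?_⟩
      obtain ⟨g, hg, ⟨h0, hj⟩, hi⟩ := h2 i
      exact ⟨g, ⟨hg, h0 (Fin.succ_pos i)⟩, fun j hj' => hj j (Fin.succ_lt_succ_iff.mpr hj'), hi⟩

theorem nodup_of_irr : ∀ (H : Subgroup G) (l : List Ω), Irr H l → l.Nodup := by
  intro H l
  induction l generalizing H with
  | nil => exact fun _ => List.nodup_nil
  | cons x l ih =>
    rintro ⟨-, h⟩
    refine List.nodup_cons.mpr ⟨?_, ih _ h⟩
    have key : ∀ (K : Subgroup G) (m : List Ω), K ≤ MulAction.stabilizer G x → Irr K m → x ∉ m := by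
      intro K m
      induction m generalizing K with
      | nil => simp
      | cons y m ihm =>
        rintro hK ⟨hy, hm⟩ hx
        rcases List.mem_cons.mp hx with rfl | hx
        · exact hy hK
        · exact ihm _ (inf_le_left.trans hK) hm hx
    exact key _ l inf_le_right h

theorem exists_perm_of_perm {t : ℕ} (f : Fin t → Ω) (l : List Ω)
    (h : (List.ofFn f).Perm l) (hnd : (List.ofFn f).Nodup) :
    ∃ σ : Equiv.Perm (Fin t), List.ofFn (f ∘ σ) = l := by
  classical
  have hlen : l.length = t := by rw [← h.length_eq, List.length_ofFn]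
  subst hlen
  have hinj : Function.Injective f := List.nodup_ofFn.mp hnd
  have hex : ∀ i : Fin l.length, ∃ j, f j = l.get i := fun i =>
    List.mem_ofFn.mp (h.symm.subset (List.get_mem l i))
  choose s hs using hex
  have hsinj : Function.Injective s := by
    intro a b hab
    exact (h.nodup_iff.mp hnd).injective_get (by rw [← hs a, ← hs b, hab])
  refine ⟨Equiv.ofBijective s (Finite.injective_iff_bijective.mp hsinj), ?_⟩
  calc List.ofFn (f ∘ Equiv.ofBijective s _) = List.ofFn l.get := congrArg _ (funext hs)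
    _ = l := List.ofFn_get l

theorem irr_exists [Finite G] : ∀ n, ∀ H : Subgroup G, Nat.card H = n →
    (∀ g ∈ H, (∀ ω : Ω, g • ω = ω) → g = 1) → ∃ l : List Ω, Irr H l := by
  intro n
  induction n using Nat.strong_induction_on with
  | _ n ih =>
    intro H hn hf
    by_cases hH : H = ⊥
    · exact ⟨[], hH⟩
    obtain ⟨x, hx⟩ : ∃ x : Ω, ¬ H ≤ MulAction.stabilizer G x := by
      by_contra hc
      push Not at hc
      exact hH ((Subgroup.eq_bot_iff_forall _).mpr fun g hg => hf g hg fun ω => hc ω hg)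
    have hlt : H ⊓ MulAction.stabilizer G x < H :=
      lt_of_le_of_ne inf_le_left fun e => hx (e ▸ inf_le_right)
    obtain ⟨l, hl⟩ := ih _ (by rw [← hn]; exact Set.Finite.card_lt_card (Set.toFinite _) hlt)
      _ rfl fun g hg h => hf g (inf_le_left (a := H) hg) h
    exact ⟨x :: l, hx, hl⟩

theorem faithful_of_irr : ∀ (H : Subgroup G) (l : List Ω), Irr H l →
    ∀ g ∈ H, (∀ ω : Ω, g • ω = ω) → g = 1 := by
  intro H l
  induction l generalizing H with
  | nil => intro h g hg _; exact (Subgroup.eq_bot_iff_forall _).mp h g hg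
  | cons x l ih => intro h g hg hfix; exact ih _ h.2 g ⟨hg, hfix x⟩ hfix

theorem length_eq [Finite G] : ∀ (H : Subgroup G) (n : ℕ), PermProp (Ω := Ω) H → ∀ l l' : List Ω,
    Nat.card H = n → Irr H l → Irr H l' → l.length = l'.length := by
  intro H n
  induction n using Nat.strong_induction_on generalizing H with
  | _ n ih =>
    intro hP l l' hn hl hl'
    cases l with
    | nil =>
      cases l' with
      | nil => rfl
      | cons x m => exact absurd ((hl : H = ⊥) ▸ bot_le) hl'.1
    | cons y m =>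
      cases l' with
      | nil => exact absurd ((hl' : H = ⊥) ▸ bot_le) hl.1
      | cons x m' =>
        have step : ∀ z : Ω, ∀ k k' : List Ω, Irr H (z :: k) → Irr H (z :: k') → k.length = k'.length := by
          intro z k k' hk hk'
          refine ih _ ?_ (H ⊓ MulAction.stabilizer G z) ?_ k k' rfl hk.2 hk'.2
          · rw [← hn]
            exact Set.Finite.card_lt_card (Set.toFinite _)
              (show H ⊓ MulAction.stabilizer G z < H from
                lt_of_le_of_ne inf_le_left fun e => hk.1 (inf_eq_left.mp e))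
          · intro a b hab ha
            exact (hP (z :: a) (z :: b) (hab.cons z) ⟨hk.1, ha⟩).2
        by_cases hyx : H ⊓ MulAction.stabilizer G y ≤ MulAction.stabilizer G x
        · by_cases hxy : H ⊓ MulAction.stabilizer G x ≤ MulAction.stabilizer G y
          · have e : H ⊓ MulAction.stabilizer G x = H ⊓ MulAction.stabilizer G y :=
              le_antisymm (le_inf inf_le_left hxy) (le_inf inf_le_left hyx)
            have := step x m m' ⟨hl'.1, e ▸ hl.2⟩ hl'
            simp [this]
          · exfalso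
            have e : H ⊓ MulAction.stabilizer G x ⊓ MulAction.stabilizer G y = H ⊓ MulAction.stabilizer G y :=
              le_antisymm (le_inf (inf_le_left.trans inf_le_left) inf_le_right)
                (le_inf (le_inf inf_le_left hyx) inf_le_right)
            have h1 : Irr H (x :: y :: m) := ⟨hl'.1, hxy, e.symm ▸ hl.2⟩
            exact (hP _ _ (List.Perm.swap y x m) h1).2.1 hyx
        · obtain ⟨k, hk⟩ := irr_exists (Ω := Ω) _ (H ⊓ MulAction.stabilizer G y ⊓ MulAction.stabilizer G x) rfl
            fun g hg h => faithful_of_irr H _ hl g hg.1.1 h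
          have h1 : Irr H (y :: x :: k) := ⟨hl.1, hyx, hk⟩
          have h2 : Irr H (x :: y :: k) := hP _ _ (List.Perm.swap x y k) h1
          have a1 := step y m (x :: k) hl h1
          have a2 := step x (y :: k) m' h2 hl'
          simp only [List.length_cons] at a1 a2 ⊢
          omega

theorem irr_sublist : ∀ (H : Subgroup G) (l : List Ω),
    (∀ g ∈ H, (∀ x ∈ l, g • x = x) → g = 1) → ∃ l', l'.Sublist l ∧ Irr H l' := by
  intro H l
  induction l generalizing H with
  | nil => intro h; exact ⟨[], List.Sublist.refl _, (Subgroup.eq_bot_iff_forall _).mpr fun g hg => h g hg (by simp)⟩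
  | cons x l ih =>
    intro h
    by_cases hx : H ≤ MulAction.stabilizer G x
    · obtain ⟨l', hl', hI⟩ := ih H fun g hg hf => h g hg (List.forall_mem_cons.mpr ⟨hx hg, hf⟩)
      exact ⟨l', hl'.cons _, hI⟩
    · obtain ⟨l', hl', hI⟩ := ih (H ⊓ MulAction.stabilizer G x)
        fun g hg hf => h g hg.1 (List.forall_mem_cons.mpr ⟨hg.2, hf⟩)
      exact ⟨x :: l', hl'.cons_cons x, hx, hI⟩

theorem fix_of_irr : ∀ (H : Subgroup G) (l : List Ω), Irr H l →
    ∀ g ∈ H, (∀ x ∈ l, g • x = x) → g = 1 := by
  intro H l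
  induction l generalizing H with
  | nil => intro h g hg _; exact (Subgroup.eq_bot_iff_forall _).mp h g hg
  | cons x l ih =>
    intro h g hg hfix
    exact ih _ h.2 g ⟨hg, hfix x (by simp)⟩ fun y hy => hfix y (by simp [hy])

theorem irr_perm_of_length {H : Subgroup G}
    (hlen : ∀ l l' : List Ω, Irr H l → Irr H l' → l.length = l'.length)
    (l l' : List Ω) (hll : l.Perm l') (hl : Irr H l) : Irr H l' := by
  obtain ⟨m, hm, hI⟩ := irr_sublist H l' fun g hg hf =>
    fix_of_irr H l hl g hg fun x hx => hf x (hll.subset hx)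
  have := hm.eq_of_length (by rw [← hlen l m hl hI]; exact hll.length_eq)
  exact this ▸ hI

/-- Let a finite group G act on a finite set Ω. An irredundant base is a sequence of points ω₁, …, ω_t whose pointwise stabiliser is trivial and in which each ω_i is moved by some element fixing ω₁, …, ω_{i−1}. Then all irredundant bases have the same length if and only if every reordering of an irredundant base is again an irredundant base. -/
theorem result {G Ω : Type*} [Group G] [Finite G] [MulAction G Ω] [Fintype Ω] :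
    (∀ (t t' : ℕ) (f : Fin t → Ω) (f' : Fin t' → Ω), ((∀ g : G, (∀ i : Fin t, g • f i = f i) → g = 1) ∧ ∀ i : Fin t, ∃ g : G, (∀ j : Fin t, j < i → g • f j = f j) ∧ g • f i ≠ f i) → ((∀ g : G, (∀ i : Fin t', g • f' i = f' i) → g = 1) ∧ ∀ i : Fin t', ∃ g : G, (∀ j : Fin t', j < i → g • f' j = f' j) ∧ g • f' i ≠ f' i) → t = t') ↔
    (∀ (t : ℕ) (f : Fin t → Ω) (σ : Equiv.Perm (Fin t)), ((∀ g : G, (∀ i : Fin t, g • f i = f i) → g = 1) ∧ ∀ i : Fin t, ∃ g : G, (∀ j : Fin t, j < i → g • f j = f j) ∧ g • f i ≠ f i) → ((∀ g : G, (∀ i : Fin t, g • (f ∘ σ) i = (f ∘ σ) i) → g = 1) ∧ ∀ i : Fin t, ∃ g : G, (∀ j : Fin t, j < i → g • (f ∘ σ) j = (f ∘ σ) j) ∧ g • (f ∘ σ) i ≠ (f ∘ σ) i)) := by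
  have hb : ∀ (t : ℕ) (f : Fin t → Ω),
      (((∀ g : G, (∀ i : Fin t, g • f i = f i) → g = 1) ∧ ∀ i : Fin t, ∃ g : G, (∀ j : Fin t, j < i → g • f j = f j) ∧ g • f i ≠ f i)) ↔
        Irr (⊤ : Subgroup G) (List.ofFn f) := by
    intro t f
    rw [irr_ofFn]
    simp only [Subgroup.mem_top, true_and, forall_const]
  simp only [hb]
  constructor
  · intro hlen t f σ hf
    exact irr_perm_of_length (fun l l' h h' => by
      have := hlen l.length l'.length l.get l'.get (by rwa [List.ofFn_get]) (by rwa [List.ofFn_get])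
      exact this) _ _ (Equiv.Perm.ofFn_comp_perm σ f).symm hf
  · intro hperm t t' f f' hf hf'
    have hP : PermProp (⊤ : Subgroup G) (Ω := Ω) := by
      intro l l' hll hl
      obtain ⟨t, f, rfl⟩ : ∃ t, ∃ f : Fin t → Ω, l = List.ofFn f := ⟨_, _, (List.ofFn_get l).symm⟩
      have hnd : (List.ofFn f).Nodup := nodup_of_irr _ _ hl
      obtain ⟨σ, hσ⟩ := exists_perm_of_perm f l' hll hnd
      rw [← hσ]
      exact hperm t f σ hl
    have := length_eq _ _ hP (List.ofFn f) (List.ofFn f') rfl hf hf'
    simpa using this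

end Cfsg.Agent.S5747
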