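import Cfsg.Statements.S5752
import Cfsg.Agent.H81.ThompsonWielandt
-- import your own Cfsg.Agent.* helpers here

set_option autoImplicit false
open Cfsg

namespace Cfsg.Agent.S5752

/-- A form of the Thompson–Wielandt Theorem on primitive permutation groups. Let G be a finite group and M₁, M₂ two distinct conjugate maximal subgroups of G with trivial core in G; define two descending sequences of subgroups by A₀ = M₁, B₀ = M₂ and, for every i, A_{i+1} = the core in M₁ of A_i ∩ B_i and B_{i+1} = the core in M₂ of A_i ∩ B_i (the core in M of a subgroup Y ≤ M is the largest normal subgroup of M contained in Y). If A₂ and B₂ are both non-trivial, then for some prime p the subgroup generated by A₂ and B₂ is a p-group, and for each j the generalized Fitting subgroups of M_j and of its first core (A₁, resp. B₁) are their largest normal p-subgroups. -/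
theorem result {G : Type*} [Group G] [Finite G] (M₁ M₂ : Subgroup G) (hmax : IsCoatom M₁) (g : G)
    (hconj : M₂ = M₁.map (MulAut.conj g).toMonoidHom) (hne : M₁ ≠ M₂) (hcore : M₁.normalCore = ⊥)
    (A B : ℕ → Subgroup G) (hA0 : A 0 = M₁) (hB0 : B 0 = M₂)
    (hA : ∀ i, A (i + 1) = ((A i ⊓ B i).subgroupOf M₁).normalCore.map M₁.subtype)
    (hB : ∀ i, B (i + 1) = ((A i ⊓ B i).subgroupOf M₂).normalCore.map M₂.subtype) (hA2 : A 2 ≠ ⊥) (hB2 : B 2 ≠ ⊥) :
    ∃ p : ℕ, p.Prime ∧ IsPGroup p ↥(A 2 ⊔ B 2) ∧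
      Cfsg.generalizedFittingSubgroup ↥M₁ = Cfsg.pCore p ↥M₁ ∧ Cfsg.generalizedFittingSubgroup ↥(A 1) = Cfsg.pCore p ↥(A 1) ∧
      Cfsg.generalizedFittingSubgroup ↥M₂ = Cfsg.pCore p ↥M₂ ∧ Cfsg.generalizedFittingSubgroup ↥(B 1) = Cfsg.pCore p ↥(B 1) := by
  subst hconj
  have hcore2 : (M₁.map (MulAut.conj g).toMonoidHom).normalCore = ⊥ := by
    rw [eq_bot_iff]
    intro x hx
    have hx' : x ∈ M₁.normalCore := by
      intro y
      obtain ⟨m, hm, he⟩ := hx (g * y)
      have he' : g * m * g⁻¹ = (g * y) * x * (g * y)⁻¹ := he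
      have : y * x * y⁻¹ = m := by
        calc y * x * y⁻¹ = g⁻¹ * ((g * y) * x * (g * y)⁻¹) * g := by group
          _ = g⁻¹ * (g * m * g⁻¹) * g := by rw [he']
          _ = m := by group
      rw [this]; exact hm
    rw [hcore] at hx'
    exact hx'
  set M₂ := M₁.map (MulAut.conj g).toMonoidHom with hM₂
  have hmax2 : IsCoatom M₂ := by
    rw [hM₂]
    exact ((MulAut.conj g).mapSubgroup.isCoatom_iff M₁).mpr hmax
  have h : H81.TW.IsPair M₁ M₂ := ⟨hmax, hmax2, hne, hcore, hcore2, g, rfl⟩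
  have eA1 : A 1 = H81.TW.core1 M₁ M₂ := by rw [hA 0, hA0, hB0]; rfl
  have eB1 : B 1 = H81.TW.core1 M₂ M₁ := by rw [hB 0, hA0, hB0, inf_comm]; rfl
  have eA2 : A 2 = H81.TW.core2 M₁ M₂ := by rw [hA 1, eA1, eB1]; rfl
  have eB2 : B 2 = H81.TW.core2 M₂ M₁ := by rw [hB 1, eA1, eB1, inf_comm]; rfl
  rw [eA2] at hA2
  rw [eB2] at hB2
  obtain ⟨p, hp, hP, hQ, hF1, hF2⟩ := h.thompsonWielandt hA2 hB2
  haveI : Fact p.Prime := ⟨hp⟩
  rw [eA2, eB2, eA1, eB1]
  refine ⟨p, hp, ?_, hF1, H81.TW.genFitting_core1 hF1, hF2, H81.TW.genFitting_core1 hF2⟩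
  refine hP.to_sup_of_normal_left' hQ (le_trans ?_ (H81.TW.le_normalizer_inCore _ _))
  exact (H81.TW.IsPair.core2_le M₂ M₁).trans
    (inf_le_left.trans ((H81.TW.IsPair.core1_le M₂ M₁).trans inf_le_right))

end Cfsg.Agent.S5752
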