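import Cfsg.Statements.S5754
-- import your own Cfsg.Agent.* helpers here

set_option autoImplicit false
set_option linter.style.haveILetI false
set_option linter.unusedSectionVars false
open Cfsg

namespace Cfsg.Agent.S5754

/-- Witt's extension for an anisotropic form by successive reflections. -/
theorem extend {F V : Type*} [Field F] [AddCommGroup V] [Module F V] (Q : QuadraticForm F V)
    (hQ : Q.Anisotropic) {n : ℕ} (a b : Fin n → V) (hQa : ∀ i, Q (a i) = Q (b i))
    (hQd : ∀ i j, Q (a i - a j) = Q (b i - b j)) :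
    ∀ k, k ≤ n → ∃ φ : Q.IsometryEquiv Q, ∀ i : Fin n, (i : ℕ) < k → φ (a i) = b i := by
  intro k
  induction k with
  | zero => exact fun _ => ⟨QuadraticMap.IsometryEquiv.refl Q, fun i hi => absurd hi (by omega)⟩
  | succ k ih =>
    intro hk
    obtain ⟨φ, hφ⟩ := ih (by omega)
    set m : Fin n := ⟨k, by omega⟩ with hm
    set x := φ (a m) with hx
    have hxQ : Q x = Q (b m) := by rw [hx, φ.map_app, hQa]
    by_cases hxb : x = b m
    · refine ⟨φ, fun i hi => ?_⟩
      rcases Nat.lt_succ_iff_lt_or_eq.mp hi with h | h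
      · exact hφ i h
      · rw [show i = m from Fin.ext h]; exact hxb
    set d := x - b m with hd
    have hd0 : Q d ≠ 0 := fun h => hxb (sub_eq_zero.mp (hQ d h))
    have hpol : ∀ v, QuadraticMap.polar Q v v = 2 * Q v := fun v => by
      rw [QuadraticMap.polar_self]; simp [two_smul, two_mul]
    let r : V →ₗ[F] V := LinearMap.id - (Q d)⁻¹ • (LinearMap.smulRight (QuadraticMap.polarBilin Q d) d)
    have hr : ∀ v, r v = v - ((Q d)⁻¹ * QuadraticMap.polar Q d v) • d := fun v => by
      simp [r, smul_smul]
    have hsub : ∀ u v : V, Q (u - v) = Q u + Q v - QuadraticMap.polar Q u v := fun u v => by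
      have := QuadraticMap.map_add Q u (-v)
      rw [QuadraticMap.map_neg, QuadraticMap.polar_neg_right, ← sub_eq_add_neg] at this
      rw [this]; ring
    have hrQ : ∀ v, Q (r v) = Q v := fun v => by
      rw [hr, hsub, QuadraticMap.map_smul, QuadraticMap.polar_smul_right, QuadraticMap.polar_comm Q v d]
      simp only [smul_eq_mul]
      field_simp
      ring
    have hrr : ∀ v, r (r v) = v := fun v => by
      rw [hr v, map_sub, map_smul, hr v, hr d, hpol]
      rw [show ((Q d)⁻¹ * (2 * Q d)) = (2 : F) by field_simp]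
      module
    let e : V ≃ₗ[F] V := LinearEquiv.ofLinear r r (LinearMap.ext hrr) (LinearMap.ext hrr)
    refine ⟨φ.trans ⟨e, hrQ⟩, fun i hi => ?_⟩
    change r (φ (a i)) = b i
    rw [hr]
    rcases Nat.lt_succ_iff_lt_or_eq.mp hi with h | h
    · rw [hφ i h]
      have hp : QuadraticMap.polar Q d (b i) = 0 := by
        have e1 : QuadraticMap.polar Q x (b i) = QuadraticMap.polar Q (b m) (b i) := by
          have h1 : QuadraticMap.polar Q (φ (a m)) (φ (a i)) = QuadraticMap.polar Q (a m) (a i) := by
            simp only [QuadraticMap.polar, ← map_add, φ.map_app]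
          rw [hx, ← hφ i h, h1, hφ i h]
          have p1 := hsub (a m) (a i)
          have p2 := hsub (b m) (b i)
          rw [← hQa m, ← hQa i, ← hQd m i] at p2
          linear_combination p1 - p2
        rw [hd, QuadraticMap.polar_sub_left, e1, sub_self]
      rw [hp, mul_zero, zero_smul, sub_zero]
    · rw [show i = m from Fin.ext h, ← hx]
      have hp : QuadraticMap.polar Q d x = Q d := by
        rw [hd, QuadraticMap.polar_sub_left, hpol, hsub x (b m), hxQ, QuadraticMap.polar_comm Q (b m) x]
        ring
      rw [hp, inv_mul_cancel₀ hd0, one_smul, hd]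
      abel

/-- Let V be a finite-dimensional vector space over a finite field F carrying an anisotropic quadratic form Q (Q(v) = 0 only for v = 0). Then the group of all maps v ↦ φ(v) + c, with φ an isometry of Q and c ∈ V, acts on V as a binary permutation group: given n ≥ 2 and two n-tuples u, u' of vectors such that every pair of corresponding entries of u is carried to that of u' by such a map, one such map carries u to u'. -/
theorem result {F V : Type*} [Field F] [Finite F] [AddCommGroup V] [Module F V] [Module.Finite F V]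
    (Q : QuadraticForm F V) (hQ : Q.Anisotropic) (n : ℕ) (hn : 2 ≤ n) (u u' : Fin n → V)
    (h2 : ∀ i j : Fin n, i ≠ j → ∃ (φ : Q.IsometryEquiv Q) (c : V), φ (u i) + c = u' i ∧ φ (u j) + c = u' j) :
    ∃ (φ : Q.IsometryEquiv Q) (c : V), ∀ i, φ (u i) + c = u' i := by
  obtain ⟨i₀⟩ : Nonempty (Fin n) := ⟨⟨0, by omega⟩⟩
  let a : Fin n → V := fun i => u i - u i₀
  let b : Fin n → V := fun i => u' i - u' i₀
  have hQa : ∀ i, Q (a i) = Q (b i) := by
    intro i
    by_cases h : i = i₀
    · simp [a, b, h]
    · obtain ⟨φ, c, h1, h2'⟩ := h2 i i₀ h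
      have e : b i = φ (a i) := by simp only [a, b, map_sub, ← h1, ← h2']; abel
      rw [e, φ.map_app]
  have hQd : ∀ i j, Q (a i - a j) = Q (b i - b j) := by
    intro i j
    by_cases h : i = j
    · simp [h]
    · obtain ⟨φ, c, h1, h2'⟩ := h2 i j h
      have e : b i - b j = φ (a i - a j) := by simp only [a, b, map_sub, ← h1, ← h2']; abel
      rw [e, φ.map_app]
  obtain ⟨φ, hφ⟩ := extend Q hQ a b hQa hQd n le_rfl
  refine ⟨φ, u' i₀ - φ (u i₀), fun i => ?_⟩
  have e := hφ i i.isLt
  simp only [a, b, map_sub] at e
  rw [show u' i = φ (u i) - φ (u i₀) + u' i₀ by rw [e]; abel]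
  abel

end Cfsg.Agent.S5754
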