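import Cfsg.Statements.S5769
import Cfsg.Agent.H67.E7Two65
import Cfsg.Agent.H67.Order65

set_option autoImplicit false
open Cfsg

namespace Cfsg.Agent.S5769

/-- The Chevalley group of type E₇ over the field with two elements (generated by its root elements in the adjoint representation) has no subgroup isomorphic to any of PSL₂(64), PSp₄(8), PSL₄(8), PSU₄(8) or PSp₆(8). Here F₈ and F₆₄ denote fields with 8 and 64 elements. -/
theorem result {F₈ F₆₄ : Type*} [Field F₈] [Fintype F₈] (h8 : Fintype.card F₈ = 8) [Field F₆₄] [Fintype F₆₄] (h64 : Fintype.card F₆₄ = 64)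
    (H : Subgroup ↥(Cfsg.Lie.chevE7.group (ZMod 2))) :
    IsEmpty (↥H ≃* Matrix.ProjectiveSpecialLinearGroup (Fin 2) F₆₄) ∧ IsEmpty (↥H ≃* Cfsg.PSp 2 F₈) ∧
    IsEmpty (↥H ≃* Matrix.ProjectiveSpecialLinearGroup (Fin 4) F₈) ∧ IsEmpty (↥H ≃* Cfsg.PSU 4 F₆₄ 8) ∧ IsEmpty (↥H ≃* Cfsg.PSp 3 F₈) := by
  obtain ⟨φ, hφ⟩ := H67.Order65.exists_sl_to_sp_four (K := F₆₄) (F := F₈) h64 h8
  obtain ⟨χ, hχ⟩ := H67.Order65.exists_sp_to_sl (F := F₈)
  obtain ⟨ψ, hψ⟩ := H67.Order65.exists_sl_to_su (K := F₆₄) h64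
  exact ⟨H67.E7Two65.isEmpty_iso H (H67.Order65.quotient_center h64 (MonoidHom.id _) Function.injective_id),
    H67.E7Two65.isEmpty_iso H (H67.Order65.quotient_center h64 φ hφ),
    H67.E7Two65.isEmpty_iso H (H67.Order65.quotient_center h64 (χ.comp φ) (hχ.comp hφ)),
    H67.E7Two65.isEmpty_iso H (H67.Order65.quotient_center h64 ψ hψ),
    H67.E7Two65.isEmpty_iso H (H67.Order65.quotient_center h64 (H2.MinIdx.incl.comp φ) (H2.MinIdx.incl_injective.comp hφ))⟩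

end Cfsg.Agent.S5769
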