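import Cfsg.Statements.S5885

set_option autoImplicit false
open Cfsg
open scoped Pointwise

namespace Cfsg.Agent.S5885

open MulAction

/-- A maximal subgroup of a maximal subgroup of odd index n is second maximal when n admits only giant primitive groups. -/
theorem result {G : Type*} [Group G]
    [Finite G] (n : ℕ) (hodd : Odd n)
    (hA : ∀ P : Subgroup (Equiv.Perm (Fin n)), MulAction.IsPreprimitive P (Fin n) → alternatingGroup (Fin n) ≤ P)
    (M : Subgroup G) (hM : IsCoatom M) (hn : M.index = n) (H : Subgroup G) (hHM : H ≤ M)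
    (hmax : IsCoatom (H.subgroupOf M)) (K : Subgroup G) (hK : IsCoatom K) (hHK : H ≤ K) :
    IsCoatom (H.subgroupOf K) := by
  classical
  by_cases hKM : K = M
  · subst hKM; exact hmax
  have hMH : ¬ M ≤ H := fun h => hmax.1 (Subgroup.subgroupOf_eq_top.2 h)
  -- every subgroup between `H` and `M` is one of the two
  have hbetween : ∀ Y : Subgroup G, H ≤ Y → Y ≤ M → Y = H ∨ Y = M := by
    intro Y h1 h2
    rcases hmax.le_iff.1 (show H.subgroupOf M ≤ Y.subgroupOf M from
      fun x hx => h1 hx) with h | h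
    · exact Or.inr (le_antisymm h2 (Subgroup.subgroupOf_eq_top.1 h))
    · refine Or.inl (le_antisymm (fun y hy => ?_) h1)
      have : (⟨y, h2 hy⟩ : M) ∈ Y.subgroupOf M := hy
      rwa [h] at this
  have hKM' : K ⊓ M = H := by
    rcases hbetween (K ⊓ M) (le_inf hHK hHM) inf_le_right with h | h
    · exact h
    · exfalso
      rcases hM.le_iff.1 (inf_eq_right.1 h) with h' | h'
      · exact hK.1 h'
      · exact hKM h'
  let X := G ⧸ M
  let a : X := ((1 : G) : G ⧸ M)
  have hsta : stabilizer G a = M := MulAction.stabilizer_quotient M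
  have hXnt : Nontrivial X := QuotientGroup.nontrivial_iff.2 hM.1
  have hprim : IsPreprimitive G X := by
    rw [← isCoatom_stabilizer_iff_preprimitive G a, hsta]; exact hM
  let _ : Fintype X := Fintype.ofFinite X
  have hcardX : Fintype.card X = n := by
    rw [← hn, Subgroup.index, Nat.card_eq_fintype_card]
  let e : X ≃ Fin n := Fintype.equivFinOfCardEq hcardX
  let φ : G →* Equiv.Perm (Fin n) := (e.permCongrHom).toMonoidHom.comp (MulAction.toPermHom G X)
  have hφ : ∀ g x, φ g (e x) = e (g • x) := by intro g x; simp [φ, Equiv.permCongrHom]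
  -- the image of `G` contains all even permutations
  have hR : alternatingGroup (Fin n) ≤ φ.range := by
    apply hA
    let f : X →ₑ[φ.rangeRestrict] Fin n :=
      { toFun := e, map_smul' := fun g x => (hφ g x).symm }
    exact IsPreprimitive.of_surjective (f := f) e.surjective
  have hcyc : ∀ b c d : X, b ≠ c → b ≠ d → c ≠ d →
      ∃ g : G, g • b = c ∧ g • c = d ∧ g • d = b ∧ ∀ x, x ≠ b → x ≠ c → x ≠ d → g • x = x := by
    intro b c d hbc hbd hcd
    let σ : Equiv.Perm X := Equiv.swap b c * Equiv.swap c d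
    have hmem : e.permCongr σ ∈ alternatingGroup (Fin n) := by
      rw [Equiv.Perm.mem_alternatingGroup, Equiv.Perm.sign_permCongr]
      simp [σ, Equiv.Perm.sign_swap hbc, Equiv.Perm.sign_swap hcd]
    obtain ⟨g, hg⟩ := hR hmem
    have hgx : ∀ x, g • x = σ x := by
      intro x
      apply e.injective
      rw [← hφ, hg]; simp
    refine ⟨g, ?_, ?_, ?_, ?_⟩
    · rw [hgx]; simp [σ, Equiv.swap_apply_of_ne_of_ne hbc hbd]
    · rw [hgx]; simp [σ, Equiv.swap_apply_of_ne_of_ne hbd.symm hcd.symm]
    · rw [hgx]; simp [σ]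
    · intro x h1 h2 h3
      rw [hgx]; simp [σ, Equiv.swap_apply_of_ne_of_ne h2 h3, Equiv.swap_apply_of_ne_of_ne h1 h2]
  let Δ : Set X := orbit K a
  have haΔ : a ∈ Δ := mem_orbit_self a
  let a' : orbit K a := ⟨a, haΔ⟩
  have hst : stabilizer K a' = H.subgroupOf K := by
    ext k
    have hmemM : ∀ g : G, g ∈ M ↔ g • a = a := fun g => by
      rw [← SetLike.ext_iff.1 hsta g, mem_stabilizer_iff]
    rw [mem_stabilizer_iff, Subtype.ext_iff, orbit.coe_smul, Subgroup.mem_subgroupOf, ← hKM',
      Subgroup.mem_inf, hmemM]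
    exact ⟨fun h => ⟨k.2, h⟩, fun h => h.2⟩
  have hne : H.subgroupOf K ≠ ⊤ := by
    rw [Ne, Subgroup.subgroupOf_eq_top]
    intro h
    rcases hK.le_iff.1 (h.trans hHM) with h' | h'
    · exact hM.1 h'
    · exact hKM h'.symm
  have hΔnt : Nontrivial (orbit K a) := by
    by_contra hc
    rw [not_nontrivial_iff_subsingleton] at hc
    apply hne
    rw [← hst, eq_top_iff]
    exact fun k _ => Subsingleton.elim _ _
  have : IsPretransitive K (orbit K a) := inferInstance
  rw [← hst, isCoatom_stabilizer_iff_preprimitive]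
  refine IsPreprimitive.of_isTrivialBlock_base a' fun {B} haB hB => ?_
  by_contra htriv
  rw [IsTrivialBlock, not_or] at htriv
  obtain ⟨hsub, huniv⟩ := htriv
  rw [Set.not_subsingleton_iff] at hsub
  obtain ⟨b, hbB, hba⟩ := hsub.exists_ne a'
  obtain ⟨c, hcB⟩ := (Set.ne_univ_iff_exists_notMem B).1 huniv
  have hca : c ≠ a' := fun h => hcB (h ▸ haB)
  have hcb : c ≠ b := fun h => hcB (h ▸ hbB)
  have hdvd : B.ncard ∣ Nat.card (orbit K a) := hB.ncard_dvd_card ⟨a', haB⟩
  by_cases hall : Δ = Set.univ
  · -- transitive case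
    have hncard : Nat.card (orbit K a) = n := by
      show Nat.card Δ = n
      rw [hall, Nat.card_congr (Equiv.Set.univ X), Nat.card_eq_fintype_card, hcardX]
    rw [hncard] at hdvd
    let B' : Set X := Subtype.val '' B
    let Y : Subgroup G := M ⊓ stabilizer G B'
    have hHY : H ≤ Y := by
      intro h hh
      refine ⟨hHM hh, ?_⟩
      have h1 : (⟨h, hHK hh⟩ : K) • a' = a' := by
        have : (⟨h, hHK hh⟩ : K) ∈ H.subgroupOf K := hh
        rw [← hst] at this; exact this
      have h2 : (⟨h, hHK hh⟩ : K) • B = B := hB.smul_eq_of_mem haB (by rw [h1]; exact haB)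
      refine (mem_stabilizer_set_iff_subset_smul_set (Set.toFinite B')).2 ?_
      rintro x ⟨y, hy, rfl⟩
      rw [← h2] at hy
      obtain ⟨z, hz, rfl⟩ := hy
      exact ⟨z, ⟨z, hz, rfl⟩, rfl⟩
    have hBodd : Odd B.ncard := hodd.of_dvd_nat hdvd
    have h3 : 2 < B.ncard := by
      have h1 : 1 < B.ncard := (Set.one_lt_ncard).2 ⟨b, hbB, a', haB, hba⟩
      obtain ⟨j, hj⟩ := hBodd; omega
    -- a third point of the block
    obtain ⟨b₂, hb₂B, hb₂a, hb₂b⟩ : ∃ x ∈ B, x ≠ a' ∧ x ≠ b := by
      by_contra hcon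
      push Not at hcon
      have : B ⊆ {a', b} := fun x hx => by
        by_cases hx' : x = a'
        · exact Or.inl hx'
        · exact Or.inr (hcon x hx hx')
      have := Set.ncard_le_ncard this
      rw [Set.ncard_pair hba.symm] at this
      omega
    have hab : (a : X) ≠ b.1 := fun h => hba (Subtype.ext h.symm)
    have hac : (a : X) ≠ c.1 := fun h => hca (Subtype.ext h.symm)
    have hab₂ : (a : X) ≠ b₂.1 := fun h => hb₂a (Subtype.ext h.symm)
    rcases hbetween Y hHY inf_le_left with hYH | hYM
    · -- all of `M` stabilising `B'` lies in `K`; move a second block around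
      have hYK : ∀ g : G, g • a = a → (∀ x ∈ B', g • x = x) → g ∈ K := by
        intro g hga hgB
        have : g ∈ Y := by
          refine ⟨hsta ▸ mem_stabilizer_iff.2 hga, ?_⟩
          refine (mem_stabilizer_set_iff_subset_smul_set (Set.toFinite B')).2 ?_
          exact fun x hx => ⟨x, hx, hgB x hx⟩
        rw [hYH] at this; exact hHK this
      obtain ⟨k, hk⟩ := exists_smul_eq K a' c
      have hkB : c ∈ k • B := ⟨a', haB, hk⟩
      have hdisj : Disjoint (k • B) B := by
        have hne' : k • B ≠ (1 : K) • B := by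
          rw [one_smul]
          intro hh
          exact hcB (hh ▸ hkB)
        simpa using hB hne'
      have hcard2 : (k • B).ncard = B.ncard := Set.ncard_smul_set k B
      obtain ⟨c', hc', hc'c⟩ : ∃ x ∈ k • B, x ≠ c := by
        apply Set.exists_ne_of_one_lt_ncard; omega
      have hnB : B.ncard ≠ n := by
        intro h
        apply huniv
        apply Set.eq_of_subset_of_ncard_le (Set.subset_univ _)
        rw [Set.ncard_univ, hncard, h]
      have hlt : B.ncard + B.ncard < n := by
        obtain ⟨j, hj⟩ := hdvd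
        rcases Nat.lt_or_ge j 3 with hj3 | hj3
        · interval_cases j
          · obtain ⟨i, hi⟩ := hodd; omega
          · omega
          · obtain ⟨i, hi⟩ := hodd; omega
        · nlinarith
      obtain ⟨d, hd⟩ : ∃ d, d ∉ B ∪ k • B := by
        apply (Set.ne_univ_iff_exists_notMem _).1
        intro hh
        have := Set.ncard_union_le B (k • B)
        rw [hh, Set.ncard_univ, hncard, hcard2] at this
        omega
      rw [Set.mem_union, not_or] at hd
      have hnotB : ∀ x ∈ k • B, x ∉ B := fun x hx => Set.disjoint_left.1 hdisj hx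
      obtain ⟨g, g1, g2, g3, g4⟩ := hcyc c.1 c'.1 d.1 (fun h => hc'c (Subtype.ext h.symm))
        (fun h => hd.2 (Subtype.ext h ▸ hkB)) (fun h => hd.2 (Subtype.ext h ▸ hc'))
      have hgB : ∀ x ∈ B', g • x = x := by
        rintro x ⟨y, hy, rfl⟩
        refine g4 _ (fun h => hcB (Subtype.ext h ▸ hy)) (fun h => hnotB c' hc' (Subtype.ext h ▸ hy))
          (fun h => hd.1 (Subtype.ext h ▸ hy))
      have hgK : g ∈ K := hYK g (hgB _ ⟨a', haB, rfl⟩) hgB
      let γ : K := ⟨g, hgK⟩
      have e1 : γ • c = c' := Subtype.ext (by rw [orbit.coe_smul]; exact g1)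
      have e2 : γ • c' = d := Subtype.ext (by rw [orbit.coe_smul]; exact g2)
      have hkblock : IsBlock K (k • B) := hB.translate k
      have heq : γ • (k • B) = k • B := hkblock.smul_eq_of_mem hkB (by rw [e1]; exact hc')
      apply hd.2
      rw [← heq]; exact ⟨c', hc', e2⟩
    · -- `M` cannot stabilise the block
      obtain ⟨g, g1, g2, g3, g4⟩ := hcyc b.1 c.1 b₂.1 (fun h => hcb (Subtype.ext h.symm))
        (fun h => hb₂b (Subtype.ext h.symm)) (fun h => hcB (Subtype.ext h ▸ hb₂B))
      have hgM : g ∈ M := hsta ▸ mem_stabilizer_iff.2 (g4 a hab hac hab₂)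
      rw [← hYM] at hgM
      have : g • B' = B' := hgM.2
      have hmem : g • b.1 ∈ B' := this ▸ ⟨b.1, ⟨b, hbB, rfl⟩, rfl⟩
      rw [g1] at hmem
      obtain ⟨y, hy, hy'⟩ := hmem
      exact hcB (Subtype.ext hy' ▸ hy)
  · -- intransitive case: `K` is the stabiliser of the orbit
    have hKst : K = stabilizer G Δ := by
      have hle : K ≤ stabilizer G Δ := by
        intro g hg
        exact smul_orbit (⟨g, hg⟩ : K) a
      rcases hK.le_iff.1 hle with h | h
      · exfalso
        obtain ⟨z, hz⟩ := (Set.ne_univ_iff_exists_notMem Δ).1 hall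
        obtain ⟨g, hg⟩ := exists_smul_eq G a z
        have hg' : g • Δ = Δ := mem_stabilizer_iff.1 (h ▸ Subgroup.mem_top g)
        exact hz (hg' ▸ hg ▸ ⟨a, haΔ, rfl⟩)
      · exact h.symm
    have h4 : ∃ d : orbit K a, d ≠ a' ∧ d ≠ b ∧ d ≠ c := by
      by_contra hcon
      push Not at hcon
      have hu : (Set.univ : Set (orbit K a)) ⊆ {a', b, c} := by
        intro x _
        by_cases h1 : x = a'
        · exact Or.inl h1
        · by_cases h2 : x = b
          · exact Or.inr (Or.inl h2)
          · exact Or.inr (Or.inr (hcon x h1 h2))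
      have h3 : Nat.card (orbit K a) ≤ 3 := by
        rw [← Set.ncard_univ]
        refine (Set.ncard_le_ncard hu).trans ?_
        exact (Set.ncard_insert_le _ _).trans (Nat.succ_le_succ
          ((Set.ncard_insert_le _ _).trans (by simp)))
      have h1 : 1 < B.ncard := (Set.one_lt_ncard).2 ⟨b, hbB, a', haB, hba⟩
      have h2 : B.ncard ≠ Nat.card (orbit K a) := by
        intro h
        apply huniv
        apply Set.eq_of_subset_of_ncard_le (Set.subset_univ _)
        rw [Set.ncard_univ, h]
      have hle : B.ncard ≤ Nat.card (orbit K a) := by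
        rw [← Set.ncard_univ]; exact Set.ncard_le_ncard (Set.subset_univ _)
      have h5 : B.ncard = 2 := by omega
      have h6 : Nat.card (orbit K a) = 3 := by omega
      rw [h5, h6] at hdvd; omega
    obtain ⟨d, hda, hdb, hdc⟩ := h4
    obtain ⟨g, g1, g2, g3, g4⟩ := hcyc b.1 c.1 d.1 (fun h => hcb (Subtype.ext h.symm))
      (fun h => hdb (Subtype.ext h.symm)) (fun h => hdc (Subtype.ext h.symm))
    have hgK : g ∈ K := by
      rw [hKst, mem_stabilizer_set_iff_smul_set_subset (Set.toFinite _)]
      rintro x ⟨y, hy, rfl⟩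
      show g • y ∈ Δ
      by_cases h1 : y = b.1
      · rw [h1, g1]; exact c.2
      by_cases h2 : y = c.1
      · rw [h2, g2]; exact d.2
      by_cases h3 : y = d.1
      · rw [h3, g3]; exact b.2
      rw [g4 y h1 h2 h3]; exact hy
    let γ : K := ⟨g, hgK⟩
    have e0 : γ • a' = a' := Subtype.ext (by
      rw [orbit.coe_smul]
      exact g4 a (fun h => hba (Subtype.ext h.symm)) (fun h => hca (Subtype.ext h.symm))
        (fun h => hda (Subtype.ext h.symm)))
    have e1 : γ • b = c := Subtype.ext (by rw [orbit.coe_smul]; exact g1)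
    have heq : γ • B = B := hB.smul_eq_of_mem haB (by rw [e0]; exact haB)
    apply hcB
    rw [← heq]; exact ⟨b, hbB, e1⟩

end Cfsg.Agent.S5885
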