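import Cfsg.Statements.S5892
import Cfsg.Agent.H79.PSLTwoMax.Classify

set_option autoImplicit false
open Cfsg

namespace Cfsg.Agent.S5892

open Cfsg.Agent.H79.PSLTwoMax

/-- Let F be a finite field of odd order q ≥ 5 and characteristic p, and let M be a maximal subgroup of PSL₂(F). Then one of the following holds: |M| = q(q − 1)/2 (the stabiliser of a point of the projective line); q ≥ 13 and M is dihedral of order q − 1; q ∉ {7, 9} and M is dihedral of order q + 1; q = q₀² and M ≅ PGL₂(F₀) with |F₀| = q₀; q = q₀^r for an odd prime r and M ≅ PSL₂(F₀) with |F₀| = q₀; q ≡ ±1 (mod 10) with q = p or q = p², p ≡ ±3 (mod 10), and M ≅ A₅; q = p ≡ ±3 (mod 8), q ≢ ±1 (mod 10), and M ≅ A₄; or q = p ≡ ±1 (mod 8) and M ≅ S₄. -/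
theorem result {F : Type*} [Field F] [Fintype F] (p : ℕ)
    [Fact p.Prime] [CharP F p] (hodd : Odd (Fintype.card F)) (h5 : 5 ≤ Fintype.card F)
    (M : Subgroup (Matrix.ProjectiveSpecialLinearGroup (Fin 2) F)) (hM : IsCoatom M) :
    2 * Nat.card M = Fintype.card F * (Fintype.card F - 1) ∨
    (13 ≤ Fintype.card F ∧ (∃ k : ℕ, 2 * k = Fintype.card F - 1 ∧ Nonempty (M ≃* DihedralGroup k))) ∨
    (Fintype.card F ≠ 7 ∧ Fintype.card F ≠ 9 ∧ (∃ k : ℕ, 2 * k = Fintype.card F + 1 ∧ Nonempty (M ≃* DihedralGroup k))) ∨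
    (∃ (F₀ : Type) (_ : Field F₀) (_ : Fintype F₀), Fintype.card F = Fintype.card F₀ ^ 2 ∧
        Nonempty (M ≃* Matrix.ProjGenLinGroup (Fin 2) F₀)) ∨
    (∃ (F₀ : Type) (_ : Field F₀) (_ : Fintype F₀) (r : ℕ), r.Prime ∧ Odd r ∧ Fintype.card F = Fintype.card F₀ ^ r ∧
        Nonempty (M ≃* Matrix.ProjectiveSpecialLinearGroup (Fin 2) F₀)) ∨
    ((Fintype.card F % 10 = 1 ∨ Fintype.card F % 10 = 9) ∧
        (Fintype.card F = p ∨ (Fintype.card F = p ^ 2 ∧ (p % 10 = 3 ∨ p % 10 = 7))) ∧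
        Nonempty (M ≃* alternatingGroup (Fin 5))) ∨
    (Fintype.card F = p ∧ (p % 8 = 3 ∨ p % 8 = 5) ∧ ¬ (p % 10 = 1 ∨ p % 10 = 9) ∧
        Nonempty (M ≃* alternatingGroup (Fin 4))) ∨
    (Fintype.card F = p ∧ (p % 8 = 1 ∨ p % 8 = 7) ∧ Nonempty (M ≃* Equiv.Perm (Fin 4))) := by
  exact maximal_odd p rfl hodd h5 M hM

end Cfsg.Agent.S5892
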