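import Cfsg.Statements.S5893
import Cfsg.Agent.H79.PSLTwoMax.Classify

set_option autoImplicit false
open Cfsg

namespace Cfsg.Agent.S5893

open Cfsg.Agent.H79.PSLTwoMax

/-- Let F be a finite field of even order q ≥ 4 and let M be a maximal subgroup of PSL₂(F) (= SL₂(F) = PGL₂(F)). Then one of the following holds: |M| = q(q − 1) (the stabiliser of a point of the projective line, elementary abelian of order q extended by a cyclic group of order q − 1); M is dihedral of order 2(q − 1); M is dihedral of order 2(q + 1); or q = q₀^r for a prime r with q₀ ≠ 2 and M ≅ PSL₂(F₀) with |F₀| = q₀. -/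
theorem result {F : Type*} [Field F] [Fintype F]
    (heven : Even (Fintype.card F)) (h4 : 4 ≤ Fintype.card F) (M : Subgroup (Matrix.ProjectiveSpecialLinearGroup (Fin 2) F)) (hM : IsCoatom M) :
    Nat.card M = Fintype.card F * (Fintype.card F - 1) ∨
    Nonempty (M ≃* DihedralGroup (Fintype.card F - 1)) ∨
    Nonempty (M ≃* DihedralGroup (Fintype.card F + 1)) ∨
    (∃ (F₀ : Type) (_ : Field F₀) (_ : Fintype F₀) (r : ℕ), r.Prime ∧ Fintype.card F₀ ≠ 2 ∧
        Fintype.card F = Fintype.card F₀ ^ r ∧ Nonempty (M ≃* Matrix.ProjectiveSpecialLinearGroup (Fin 2) F₀)) := by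
  exact maximal_even rfl heven h4 M hM

end Cfsg.Agent.S5893
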