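import Cfsg.Statements.S5894
import Cfsg.Agent.H36.SymPartition
-- import your own Cfsg.Agent.* helpers here

set_option autoImplicit false
open Cfsg

namespace Cfsg.Agent.S5894

/-- For every m ≥ 2 the symmetric group on 2m letters has a maximal subgroup M of index 2m together with a maximal subgroup H of M that is not second maximal: some maximal subgroup K of the symmetric group contains H without H being maximal in K. (One may take M the stabiliser of a letter, H ≅ S_m × S_{m−1} inside it, and K ≅ S_m ≀ S₂ the stabiliser of a partition into two m-sets, with H < S_m × S_m < K.) So the prime-index hypothesis in the second-maximality criterion cannot be relaxed to any even index ≥ 4. -/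
theorem result (m : ℕ) (hm : 2 ≤ m) :
    ∃ M H K : Subgroup (Equiv.Perm (Fin (2 * m))), IsCoatom M ∧ M.index = 2 * m ∧ H ≤ M ∧ IsCoatom (H.subgroupOf M) ∧
      IsCoatom K ∧ H ≤ K ∧ ¬ IsCoatom (H.subgroupOf K) := by
  exact H36.SymPartition.non_second_maximal m hm

end Cfsg.Agent.S5894
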