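import Cfsg.Statements.S5901
import Cfsg.Agent.H36.Complemented
-- import your own Cfsg.Agent.* helpers here

set_option autoImplicit false
open Cfsg

namespace Cfsg.Agent.S5901

/-- Let G be a finite group and T ≤ X subgroups with X proper. Suppose the interval [T, X] of the subgroup lattice is complemented (every Y with T ≤ Y ≤ X has some C with T ≤ C ≤ X, Y ⊔ C = X and Y ⊓ C = T), and that X lies in exactly one maximal subgroup M of G. Then every subgroup H of G with H not contained in M and H ⊓ T = 1 has a complement in the subgroup lattice of G: some C with H ⊔ C = G and H ⊓ C = 1. -/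
theorem result {G : Type*} [Group G] [Finite G] (T X M : Subgroup G)
    (hTX : T ≤ X) (hX : X ≠ ⊤)
    (hint : ∀ Y : Subgroup G, T ≤ Y → Y ≤ X → ∃ C : Subgroup G, T ≤ C ∧ C ≤ X ∧ Y ⊔ C = X ∧ Y ⊓ C = T)
    (hM : IsCoatom M) (hXM : X ≤ M) (huniq : ∀ M' : Subgroup G, IsCoatom M' → X ≤ M' → M' = M)
    (H : Subgroup G) (hH : ¬ H ≤ M) (hHT : H ⊓ T = ⊥) :
    ∃ C : Subgroup G, H ⊔ C = ⊤ ∧ H ⊓ C = ⊥ := by
  exact H36.Complemented.complement_of_interval T X M hTX hint huniq H hH hHT

end Cfsg.Agent.S5901
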