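import Cfsg.Statements.S5902
import Cfsg.Agent.H36.Complemented
-- import your own Cfsg.Agent.* helpers here

set_option autoImplicit false
open Cfsg

namespace Cfsg.Agent.S5902

/-- Let G be a finite group, X a subgroup whose own subgroup lattice is complemented, and suppose X lies in exactly one maximal subgroup M of G. Then every subgroup H of G not contained in the normal core of M has a complement in the subgroup lattice of G (some C with H ⊔ C = G and H ⊓ C = 1); in particular the subgroup lattice of G modulo the normal core of M is complemented. -/
theorem result {G : Type*} [Group G] [Finite G] (X M : Subgroup G)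
    (hK : ComplementedLattice (Subgroup X))
    (hM : IsCoatom M) (hXM : X ≤ M) (huniq : ∀ M' : Subgroup G, IsCoatom M' → X ≤ M' → M' = M) :
    (∀ H : Subgroup G, ¬ H ≤ M.normalCore → ∃ C : Subgroup G, H ⊔ C = ⊤ ∧ H ⊓ C = ⊥) ∧
    ComplementedLattice (Subgroup (G ⧸ M.normalCore)) := by
  exact H36.Complemented.core_complements X M hK huniq

end Cfsg.Agent.S5902
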