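import Cfsg.Statements.S5903
import Cfsg.Agent.H36.Complemented
-- import your own Cfsg.Agent.* helpers here

set_option autoImplicit false
open Cfsg

namespace Cfsg.Agent.S5903

/-- Let G be a finite simple group, X a subgroup lying in exactly one maximal subgroup M of G, and N a subgroup of prime order with N ≤ X that is central in M. If the subgroup lattice of X/N is complemented, then the subgroup lattice of G is complemented. -/
theorem result {G : Type*} [Group G] [Finite G] [IsSimpleGroup G] (X M N : Subgroup G)
    (hM : IsCoatom M) (hXM : X ≤ M) (huniq : ∀ M' : Subgroup G, IsCoatom M' → X ≤ M' → M' = M)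
    (hNX : N ≤ X) (hN : (Nat.card N).Prime) (hcen : ∀ n ∈ N, ∀ m ∈ M, m * n = n * m)
    [(N.subgroupOf X).Normal] (hK : ComplementedLattice (Subgroup (X ⧸ N.subgroupOf X))) :
    ComplementedLattice (Subgroup G) := by
  exact H36.Complemented.simple_complemented X M N hM hXM huniq hNX hN hcen hK

end Cfsg.Agent.S5903
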