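import Cfsg.Statements.S5908
import Cfsg.Agent.S0827

set_option autoImplicit false
open Cfsg

namespace Cfsg.Agent.S5908

/-- The subgroup lattice of PSU₃(2) (the solvable group of order 72, realised over the field with 4 elements) is not complemented: some subgroup H has no subgroup X with H ⊔ X = ⊤ and H ⊓ X = ⊥. -/
theorem result {F : Type*} [Field F] [Fintype F] (hF : Fintype.card F = 4) :
    ¬ ComplementedLattice (Subgroup (Cfsg.PSU 3 F 2)) := by
  classical
  obtain ⟨N, hNn, hN9, hN3, ⟨e⟩⟩ := Cfsg.Agent.S0827.result hF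
  intro hC
  let Z : Subgroup (QuaternionGroup 2) := Subgroup.zpowers (QuaternionGroup.a 2)
  let f : Cfsg.PSU 3 F 2 →* QuaternionGroup 2 := e.toMonoidHom.comp (QuotientGroup.mk' N)
  have hf : Function.Surjective f := e.surjective.comp (QuotientGroup.mk'_surjective N)
  obtain ⟨K, hK⟩ := hC.exists_isCompl (Z.comap f)
  have key : ∀ x : Cfsg.PSU 3 F 2, (x ^ 2 = 1 ∨ x ^ 3 = 1) → x ∈ Z.comap f := by
    intro x hx
    rw [Subgroup.mem_comap]
    have hQ : ∀ q : QuaternionGroup 2, (q ^ 2 = 1 ∨ q ^ 3 = 1) → q = 1 ∨ q = QuaternionGroup.a 2 := by decide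
    rcases hQ (f x) (hx.imp (fun h => by rw [← map_pow, h, map_one]) (fun h => by rw [← map_pow, h, map_one])) with h | h
    · rw [h]; exact one_mem _
    · rw [h]; exact Subgroup.mem_zpowers _
  have hcard : Nat.card (Cfsg.PSU 3 F 2) = 2 ^ 3 * 3 ^ 2 := by
    rw [N.card_eq_card_quotient_mul_card_subgroup, hN9, Nat.card_congr e.toEquiv,
      Nat.card_eq_fintype_card, QuaternionGroup.card]
    norm_num
  have hKbot : K = ⊥ := by
    by_contra hne
    have h1 : Nat.card K ≠ 1 := fun h => hne (Subgroup.card_eq_one.1 h)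
    haveI : Finite (Cfsg.PSU 3 F 2) := Nat.finite_of_card_ne_zero (by rw [hcard]; norm_num)
    obtain ⟨r, hr, hdvd⟩ := Nat.exists_prime_and_dvd h1
    haveI := Fact.mk hr
    obtain ⟨x, hx⟩ := exists_prime_orderOf_dvd_card' r hdvd
    have hr23 : r = 2 ∨ r = 3 := by
      have h := hdvd.trans (Subgroup.card_subgroup_dvd_card K)
      rw [hcard] at h
      rcases hr.dvd_mul.1 h with h | h
      · exact Or.inl ((Nat.prime_dvd_prime_iff_eq hr Nat.prime_two).1 (hr.dvd_of_dvd_pow h))
      · exact Or.inr ((Nat.prime_dvd_prime_iff_eq hr Nat.prime_three).1 (hr.dvd_of_dvd_pow h))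
    have hpow : (x : Cfsg.PSU 3 F 2) ^ r = 1 := by
      rw [← hx, ← Subgroup.orderOf_coe x]; exact pow_orderOf_eq_one _
    have hmem : (x : Cfsg.PSU 3 F 2) ∈ Z.comap f :=
      key _ (by rcases hr23 with rfl | rfl; exacts [Or.inl hpow, Or.inr hpow])
    have h0 : (x : Cfsg.PSU 3 F 2) ∈ (Z.comap f ⊓ K : Subgroup _) := ⟨hmem, x.2⟩
    rw [hK.inf_eq_bot, Subgroup.mem_bot] at h0
    have : orderOf x = 1 := by rw [← Subgroup.orderOf_coe x, h0, orderOf_one]
    rw [hx] at this
    exact hr.ne_one this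
  have htop : Z.comap f = ⊤ := by
    simpa [hKbot] using hK.sup_eq_top
  obtain ⟨x, hx⟩ := hf (QuaternionGroup.a 1)
  have : x ∈ Z.comap f := by rw [htop]; trivial
  rw [Subgroup.mem_comap, hx, mem_zpowers_iff_mem_range_orderOf] at this
  revert this
  rw [show orderOf (QuaternionGroup.a 2 : QuaternionGroup 2) = 2 from orderOf_eq_prime (by decide) (by decide)]
  decide

end Cfsg.Agent.S5908
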