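import Cfsg.Statements.S5909
import Cfsg.Agent.H36.SymPartitionAlt
-- import your own Cfsg.Agent.* helpers here

set_option autoImplicit false
open Cfsg

namespace Cfsg.Agent.S5909

/-- Let Ω be a finite set whose size is not 8, and f : Ω → Fin b a labelling with b ≥ 2 whose fibres all have the same size a ≥ 2 (a partition into b blocks of size a). Then the even permutations preserving the partition — the intersection of the imprimitive wreath product S_a ≀ S_b with the alternating group — form a maximal subgroup of the alternating group on Ω. -/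
theorem result {Ω : Type*} [Fintype Ω] [DecidableEq Ω] (h8 : Fintype.card Ω ≠ 8) (a b : ℕ) (ha : 2 ≤ a) (hb : 2 ≤ b)
    (f : Ω → Fin b) (hf : ∀ i : Fin b, Nat.card {x : Ω // f x = i} = a) :
    IsCoatom ((Subgroup.closure {g : Equiv.Perm Ω | ∀ x y : Ω, f x = f y ↔ f (g x) = f (g y)} ⊓ alternatingGroup Ω).subgroupOf (alternatingGroup Ω)) := by
  rw [H36.SymPartition.closure_eq]
  exact H36.SymPartitionAlt.isCoatom_alt f a h8 ha hb hf

end Cfsg.Agent.S5909
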