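import Cfsg.Statements.S5912
import Cfsg.Agent.H36.SymSix
-- import your own Cfsg.Agent.* helpers here

set_option autoImplicit false
open Cfsg

namespace Cfsg.Agent.S5912

/-- The symmetric group on a 6-element set Ω has exactly two conjugacy classes of subgroups of index 6: there are two non-conjugate subgroups of index 6 (a point stabilizer and a transitive subgroup isomorphic to S₅), and every subgroup of index 6 is conjugate to one of them. -/
theorem result {Ω : Type*} [Fintype Ω] [DecidableEq Ω] (h6 : Fintype.card Ω = 6) :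
    ∃ H₁ H₂ : Subgroup (Equiv.Perm Ω), H₁.index = 6 ∧ H₂.index = 6 ∧
      (¬ ∃ g : Equiv.Perm Ω, Subgroup.map (MulAut.conj g).toMonoidHom H₁ = H₂) ∧
      ∀ H : Subgroup (Equiv.Perm Ω), H.index = 6 →
        ∃ g : Equiv.Perm Ω, Subgroup.map (MulAut.conj g).toMonoidHom H₁ = H ∨ Subgroup.map (MulAut.conj g).toMonoidHom H₂ = H := by
  exact H36.SymSix.two_classes h6

end Cfsg.Agent.S5912
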