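import Cfsg.Statements.S5913
import Cfsg.Agent.H36.SimplePower
-- import your own Cfsg.Agent.* helpers here

set_option autoImplicit false
open Cfsg

namespace Cfsg.Agent.S5913

/-- Let S be a non-abelian simple group and n a natural number. Every normal subgroup N of the direct power S^n (functions Fin n → S) is a subproduct: there is a set T of coordinates such that N consists exactly of the elements whose coordinates outside T are trivial. In particular the minimal normal subgroups of S^n are its n factors. -/
theorem result {S : Type*} [Group S] [IsSimpleGroup S] (hS : ¬ IsMulCommutative S) (n : ℕ)
    (N : Subgroup (Fin n → S)) [N.Normal] :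
    ∃ T : Finset (Fin n), ∀ x : Fin n → S, x ∈ N ↔ ∀ i, i ∉ T → x i = 1 := by
  exact H36.SimplePower.subproduct hS N

end Cfsg.Agent.S5913
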