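import Cfsg.Statements.S5914
import Cfsg.Agent.H36.SimplePower
-- import your own Cfsg.Agent.* helpers here

set_option autoImplicit false
open Cfsg

namespace Cfsg.Agent.S5914

/-- A non-trivial finite group G is characteristically simple (its only characteristic subgroups are 1 and G) if and only if G is isomorphic to a direct power S^n (n ≥ 1) of some simple group S (possibly cyclic of prime order). -/
theorem result {G : Type*} [Group G] [Finite G] [Nontrivial G] :
    (∀ H : Subgroup G, H.Characteristic → H = ⊥ ∨ H = ⊤) ↔
    ∃ (S : Type) (_ : Group S) (_ : IsSimpleGroup S) (n : ℕ), 1 ≤ n ∧ Nonempty (G ≃* (Fin n → S)) := by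
  exact H36.SimplePower.char_simple_iff

end Cfsg.Agent.S5914
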