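import Cfsg.Statements.S5946
-- import your own Cfsg.Agent.* helpers here

set_option autoImplicit false
open Cfsg

namespace Cfsg.Agent.S5946

/-- Let F ⊆ K be finite fields with [K : F] = n ≥ 2 and regard K as an n-dimensional F-vector space. The Singer group M ≤ GL_F(K) of multiplications by the non-zero elements of K is self-centralizing: every F-linear automorphism of K commuting with all of M lies in M. -/
theorem result {F K : Type*} [Field F] [Fintype F] [Field K] [Fintype K] [Algebra F K] (n : ℕ) (hn : 2 ≤ n) (hdim : Module.finrank F K = n) :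
    Subgroup.centralizer (((Units.map ((Algebra.lmul F K : K →ₐ[F] Module.End F K) : K →* Module.End F K)).range : Subgroup (Module.End F K)ˣ) : Set (Module.End F K)ˣ) = (Units.map ((Algebra.lmul F K : K →ₐ[F] Module.End F K) : K →* Module.End F K)).range := by
  apply le_antisymm
  · intro f hf
    have h1 : ∀ (a : Kˣ) (x : K), (f : Module.End F K) ((a : K) * x) = (a : K) * (f : Module.End F K) x := by
      intro a x
      have h := congrArg (fun u : (Module.End F K)ˣ => (u : Module.End F K) x)
        (Subgroup.mem_centralizer_iff.1 hf _ ⟨a, rfl⟩)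
      simpa [Module.End.mul_apply] using h.symm
    have hne : (f : Module.End F K) 1 ≠ 0 := by
      intro h
      have h2 := congrArg ((f⁻¹ : (Module.End F K)ˣ) : Module.End F K) h
      rw [map_zero, ← Module.End.mul_apply, Units.inv_mul] at h2
      exact one_ne_zero h2
    refine ⟨Units.mk0 _ hne, Units.ext (LinearMap.ext fun x => ?_)⟩
    show (f : Module.End F K) 1 * x = (f : Module.End F K) x
    rcases eq_or_ne x 0 with rfl | hx
    · simp
    · have h3 := h1 (Units.mk0 x hx) 1
      rw [Units.val_mk0, mul_one] at h3
      rw [h3, mul_comm]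
  · rintro _ ⟨a, rfl⟩
    rw [Subgroup.mem_centralizer_iff]
    rintro _ ⟨b, rfl⟩
    rw [← map_mul, ← map_mul, mul_comm]

end Cfsg.Agent.S5946
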