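import Cfsg.Statements.S5947
import Cfsg.Agent.H36.SingerConjugate
-- import your own Cfsg.Agent.* helpers here

set_option autoImplicit false
open Cfsg

namespace Cfsg.Agent.S5947

/-- Let F ⊆ K be finite fields with |F| = q and [K : F] = n ≥ 2, regard K as an n-dimensional F-vector space, and let M ≤ GL_F(K) be the Singer group of multiplications by non-zero elements of K (cyclic of order q^n − 1). Assume (n, q) ≠ (6, 2), and that it is not the case that n = 2 with q a prime such that q + 1 is a power of 2. Then every abelian subgroup of GL_F(K) of order q^n − 1 is conjugate to M. -/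
theorem result {F K : Type*} [Field F] [Fintype F] [Field K] [Fintype K] [Algebra F K] (n : ℕ) (hn : 2 ≤ n) (hdim : Module.finrank F K = n)
    (hex1 : ¬ (n = 6 ∧ Fintype.card F = 2))
    (hex2 : ¬ (n = 2 ∧ (Fintype.card F).Prime ∧ ∃ a : ℕ, Fintype.card F + 1 = 2 ^ a))
    (U : Subgroup (Module.End F K)ˣ) (hU : IsMulCommutative U) (hcard : Nat.card U = Fintype.card K - 1) :
    ∃ g : (Module.End F K)ˣ, U.map (MulAut.conj g).toMonoidHom = (Units.map ((Algebra.lmul F K : K →ₐ[F] Module.End F K) : K →* Module.End F K)).range := by
  exact Cfsg.Agent.H36.singer_conjugate n hn hdim hex1 hex2 U hU hcard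


end Cfsg.Agent.S5947
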